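import Groth.Prelude.Def_Models
import Mathlib.Tactic.Linarith
import Mathlib.Tactic.Ring
import Mathlib.Tactic.FieldSimp
import Mathlib.Tactic.Positivity

/-! Helper lemmas (helper11) on the quadratic form of a numerical type. -/

namespace Groth.Agent.helper11

open Finset

/-- The quadratic form of a numerical type is negative on any vector whose support is
nonempty and not everything. -/
theorem models_quad_neg {n : ℕ} (T : Models.NumericalType n) (x : Fin n → ℤ)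
    (hne : ∃ i, x i ≠ 0) (hnu : ∃ j, x j = 0) :
    ∑ i, ∑ j, T.a i j * x i * x j < 0 := by
  classical
  obtain ⟨i0, hi0, j0, hj0, hij⟩ := T.connected (univ.filter fun i => x i ≠ 0)
    (by obtain ⟨i, hi⟩ := hne; exact ⟨i, by simp [hi]⟩)
    (by
      intro h
      obtain ⟨j, hj⟩ := hnu
      have : j ∈ univ.filter fun i => x i ≠ 0 := by rw [h]; exact mem_univ j
      simp [hj] at this)
  simp only [mem_filter, mem_univ, true_and, not_not] at hi0 hj0
  have hne0 : i0 ≠ j0 := by rintro rfl; exact hi0 hj0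
  have hpos : 0 < T.a i0 j0 := lt_of_le_of_ne (T.offDiag_nonneg i0 j0 hne0) (Ne.symm hij)
  have hMpos : ∀ i, (0 : ℚ) < (T.m i : ℚ) := fun i => by exact_mod_cast T.m_pos i
  have hrow : ∀ i, ∑ j, (T.a i j : ℚ) * (T.m j : ℚ) = 0 := by
    intro i
    have := congrFun T.mulVec_m i
    simp only [Matrix.mulVec, dotProduct, Pi.zero_apply] at this
    exact_mod_cast this
  have hsymm : ∀ i j, (T.a j i : ℚ) = (T.a i j : ℚ) := fun i j => by
    rw [T.symm.apply i j]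
  have hcol : ∀ j, ∑ i, (T.a i j : ℚ) * (T.m i : ℚ) = 0 := by
    intro j
    rw [← hrow j]
    exact sum_congr rfl fun i _ => by rw [hsymm]
  obtain ⟨Y, hY⟩ : ∃ Y : Fin n → ℚ, ∀ i, Y i = (x i : ℚ) / (T.m i : ℚ) := ⟨_, fun i => rfl⟩
  have hXY : ∀ i, (x i : ℚ) = (T.m i : ℚ) * Y i := fun i => by
    rw [hY]; field_simp [(hMpos i).ne']
  have hterm : ∀ i j, (T.a i j : ℚ) * (T.m i : ℚ) * (T.m j : ℚ) * (Y i - Y j) ^ 2 =
      ((T.m i : ℚ) * Y i ^ 2) * ((T.a i j : ℚ) * (T.m j : ℚ)) +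
        ((T.m j : ℚ) * Y j ^ 2) * ((T.a i j : ℚ) * (T.m i : ℚ)) -
        2 * ((T.a i j : ℚ) * (x i : ℚ) * (x j : ℚ)) := by
    intro i j; rw [hXY i, hXY j]; ring
  have h1 : ∑ i, ∑ j, ((T.m i : ℚ) * Y i ^ 2) * ((T.a i j : ℚ) * (T.m j : ℚ)) = 0 := by
    refine sum_eq_zero fun i _ => ?_
    rw [← mul_sum, hrow i, mul_zero]
  have h2 : ∑ i, ∑ j, ((T.m j : ℚ) * Y j ^ 2) * ((T.a i j : ℚ) * (T.m i : ℚ)) = 0 := by
    rw [sum_comm]
    refine sum_eq_zero fun j _ => ?_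
    rw [← mul_sum, hcol j, mul_zero]
  have key : ∑ i, ∑ j, (T.a i j : ℚ) * (T.m i : ℚ) * (T.m j : ℚ) * (Y i - Y j) ^ 2 =
      -2 * ∑ i, ∑ j, (T.a i j : ℚ) * (x i : ℚ) * (x j : ℚ) := by
    have : ∀ i, ∑ j, (T.a i j : ℚ) * (T.m i : ℚ) * (T.m j : ℚ) * (Y i - Y j) ^ 2 =
        ∑ j, ((T.m i : ℚ) * Y i ^ 2) * ((T.a i j : ℚ) * (T.m j : ℚ)) +
        ∑ j, ((T.m j : ℚ) * Y j ^ 2) * ((T.a i j : ℚ) * (T.m i : ℚ)) -
        2 * ∑ j, (T.a i j : ℚ) * (x i : ℚ) * (x j : ℚ) := by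
      intro i
      rw [mul_sum, ← sum_add_distrib, ← sum_sub_distrib]
      exact sum_congr rfl fun j _ => hterm i j
    rw [sum_congr rfl fun i _ => this i, sum_sub_distrib, sum_add_distrib, h1, h2, ← mul_sum]
    ring
  have hnn : ∀ i j, 0 ≤ (T.a i j : ℚ) * (T.m i : ℚ) * (T.m j : ℚ) * (Y i - Y j) ^ 2 := by
    intro i j
    by_cases hij : i = j
    · subst hij; simp
    · have ha : (0 : ℚ) ≤ (T.a i j : ℚ) := by exact_mod_cast T.offDiag_nonneg i j hij
      exact mul_nonneg (mul_nonneg (mul_nonneg ha (hMpos i).le) (hMpos j).le) (sq_nonneg _)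
  have hstrict : 0 < (T.a i0 j0 : ℚ) * (T.m i0 : ℚ) * (T.m j0 : ℚ) * (Y i0 - Y j0) ^ 2 := by
    have hA0 : (0 : ℚ) < (T.a i0 j0 : ℚ) := by exact_mod_cast hpos
    have hY0 : Y j0 = 0 := by rw [hY, hj0]; simp
    have hYi : Y i0 ≠ 0 := by
      rw [hY]
      exact div_ne_zero (by exact_mod_cast hi0) (hMpos i0).ne'
    rw [hY0, sub_zero]
    have hsq : 0 < Y i0 ^ 2 := by positivity
    exact mul_pos (mul_pos (mul_pos hA0 (hMpos i0)) (hMpos j0)) hsq
  have hsum_pos : 0 < ∑ i, ∑ j, (T.a i j : ℚ) * (T.m i : ℚ) * (T.m j : ℚ) * (Y i - Y j) ^ 2 := by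
    have hin : ∀ i, 0 ≤ ∑ j, (T.a i j : ℚ) * (T.m i : ℚ) * (T.m j : ℚ) * (Y i - Y j) ^ 2 :=
      fun i => sum_nonneg fun j _ => hnn i j
    calc (0 : ℚ) < (T.a i0 j0 : ℚ) * (T.m i0 : ℚ) * (T.m j0 : ℚ) * (Y i0 - Y j0) ^ 2 := hstrict
      _ ≤ ∑ j, (T.a i0 j : ℚ) * (T.m i0 : ℚ) * (T.m j : ℚ) * (Y i0 - Y j) ^ 2 :=
          single_le_sum (fun j _ => hnn i0 j) (mem_univ j0)
      _ ≤ _ := single_le_sum (fun i _ => hin i) (mem_univ i0)
  rw [key] at hsum_pos
  have hQ : ∑ i, ∑ j, (T.a i j : ℚ) * (x i : ℚ) * (x j : ℚ) < 0 := by linarith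
  have : ((∑ i, ∑ j, T.a i j * x i * x j : ℤ) : ℚ) < 0 := by
    push_cast
    exact hQ
  exact_mod_cast this

/-- Sum over `Fin n` of a function supported on the range of an embedding. -/
theorem sum_emb {n k : ℕ} (v : Fin k ↪ Fin n) (f : Fin n → ℤ)
    (hf : ∀ i, i ∉ Set.range v → f i = 0) :
    ∑ i, f i = ∑ p, f (v p) := by
  classical
  rw [← Finset.sum_map Finset.univ v f]
  symm
  apply Finset.sum_subset (Finset.subset_univ _)
  intro i _ hi
  apply hf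
  rintro ⟨p, rfl⟩
  exact hi (Finset.mem_map_of_mem v (Finset.mem_univ p))

/-- The quadratic form evaluated on a vector supported on the range of an embedding. -/
theorem quad_extend {n k : ℕ} (a : Matrix (Fin n) (Fin n) ℤ) (v : Fin k ↪ Fin n) (c : Fin k → ℤ) :
    ∑ i, ∑ j, a i j * Function.extend v c 0 i * Function.extend v c 0 j =
      ∑ p, ∑ q, a (v p) (v q) * c p * c q := by
  have hz : ∀ i, i ∉ Set.range v → Function.extend v c 0 i = 0 := by
    intro i hi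
    rw [Function.extend_apply' _ _ _ (by rintro ⟨p, rfl⟩; exact hi ⟨p, rfl⟩)]
    rfl
  rw [sum_emb v _ (fun i hi => by simp [hz i hi])]
  refine Finset.sum_congr rfl fun p _ => ?_
  rw [sum_emb v _ (fun j hj => by simp [hz j hj])]
  refine Finset.sum_congr rfl fun q _ => ?_
  rw [v.injective.extend_apply, v.injective.extend_apply]

/-- An embedding `Fin k ↪ Fin n` with `k < n` misses some index. -/
theorem exists_not_mem_range {n k : ℕ} (v : Fin k ↪ Fin n) (h : k < n) :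
    ∃ j, j ∉ Set.range v := by
  by_contra hc
  push Not at hc
  have hs : Function.Surjective v := fun j => hc j
  have := Fintype.card_le_of_surjective v hs
  simp at this
  omega

end Groth.Agent.helper11
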