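import Groth.Agent.Lib_helper11_Models

/-! More helper lemmas (helper11) on numerical types. -/

namespace Groth.Agent.helper11

open Finset

/-- Test-vector form of the negativity of the quadratic form. -/
theorem quad_test {n k : ℕ} (T : Models.NumericalType n) (v : Fin k ↪ Fin n) (hk : k < n)
    (c : Fin k → ℤ) (p0 : Fin k) (hp0 : c p0 ≠ 0) :
    ∑ p, ∑ q, T.a (v p) (v q) * c p * c q < 0 := by
  have := models_quad_neg T (Function.extend v c 0)
    ⟨v p0, by rw [v.injective.extend_apply]; exact hp0⟩ (by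
      obtain ⟨j, hj⟩ := exists_not_mem_range v hk
      exact ⟨j, by rw [Function.extend_apply' _ _ _ (by rintro ⟨p, rfl⟩; exact hj ⟨p, rfl⟩)]; rfl⟩)
  rwa [quad_extend] at this

/-- The part of a row of `a m = 0` supported on the range of an embedding is nonpositive. -/
theorem row_sum_le {n k : ℕ} (T : Models.NumericalType n) (v : Fin k ↪ Fin n) (p0 : Fin k) :
    ∑ p, T.a (v p0) (v p) * T.m (v p) ≤ 0 := by
  classical
  have hrow : ∑ j, T.a (v p0) j * T.m j = 0 := by
    have := congrFun T.mulVec_m (v p0)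
    simpa [Matrix.mulVec, dotProduct] using this
  have hsplit := Finset.sum_sdiff (f := fun j => T.a (v p0) j * T.m j)
    (Finset.subset_univ (Finset.univ.map v))
  rw [Finset.sum_map] at hsplit
  have hnn : 0 ≤ ∑ j ∈ Finset.univ \ Finset.univ.map v, T.a (v p0) j * T.m j := by
    refine Finset.sum_nonneg fun j hj => ?_
    have hj' : j ∉ Finset.univ.map v := (Finset.mem_sdiff.mp hj).2
    have hne : v p0 ≠ j := by
      rintro rfl
      exact hj' (Finset.mem_map_of_mem v (Finset.mem_univ p0))
    exact mul_nonneg (T.offDiag_nonneg _ _ hne) (T.m_pos j).le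
  linarith

theorem dvd_eq_of_lt_two_mul {d a : ℤ} (hd : 0 < d) (hda : d ∣ a) (h1 : d ≤ a) (h2 : a < 2 * d) :
    a = d := by
  obtain ⟨t, rfl⟩ := hda
  have ht1 : 1 ≤ t := by
    by_contra h
    push Not at h
    have : d * t ≤ d * 0 := mul_le_mul_of_nonneg_left (by omega) hd.le
    linarith
  have ht2 : t < 2 := by
    by_contra h
    push Not at h
    have : d * 2 ≤ d * t := mul_le_mul_of_nonneg_left h hd.le
    linarith
  have : t = 1 := by omega
  subst this; ring

theorem two_mul_le_of_dvd_of_lt {d a : ℤ} (hd : 0 < d) (hda : d ∣ a) (h : d < a) : 2 * d ≤ a := by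
  obtain ⟨t, rfl⟩ := hda
  have ht : 2 ≤ t := by
    by_contra hc
    push Not at hc
    have : d * t ≤ d * 1 := mul_le_mul_of_nonneg_left (by omega) hd.le
    linarith
  have : d * 2 ≤ d * t := mul_le_mul_of_nonneg_left ht hd.le
  linarith

end Groth.Agent.helper11
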