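import Groth.Agent.Lib_helper11_Models2

/-! More helper lemmas (helper11) on numerical types: the three possible shapes of an edge. -/

namespace Groth.Agent.helper11

theorem edge_cases {wp wq a : ℤ} (hp : 0 < wp) (hq : 0 < wq) (hdp : wp ∣ a) (hdq : wq ∣ a)
    (hap : wp ≤ a) (haq : wq ≤ a) (hlt : a < wp + wq) :
    (wp = wq ∧ a = wp) ∨ (wp < wq ∧ a = wq ∧ 2 * wp ≤ wq ∧ wp ∣ wq) ∨
      (wq < wp ∧ a = wp ∧ 2 * wq ≤ wp ∧ wq ∣ wp) := by
  rcases lt_trichotomy wp wq with h | h | h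
  · have ha : a = wq := dvd_eq_of_lt_two_mul hq hdq haq (by linarith)
    have hd : wp ∣ wq := ha ▸ hdp
    exact Or.inr (Or.inl ⟨h, ha, two_mul_le_of_dvd_of_lt hp hd h, hd⟩)
  · exact Or.inl ⟨h, dvd_eq_of_lt_two_mul hp hdp hap (by linarith)⟩
  · have ha : a = wp := dvd_eq_of_lt_two_mul hp hdp hap (by linarith)
    have hd : wq ∣ wp := ha ▸ hdq
    exact Or.inr (Or.inr ⟨h, ha, two_mul_le_of_dvd_of_lt hq hd h, hd⟩)

theorem eq_two_mul_of_dvd {d a : ℤ} (hd : 0 < d) (hda : d ∣ a) (h1 : 2 * d ≤ a) (h2 : a < 3 * d) :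
    a = 2 * d := by
  obtain ⟨t, rfl⟩ := hda
  have ht1 : 2 ≤ t := by
    by_contra h
    push Not at h
    have : d * t ≤ d * 1 := mul_le_mul_of_nonneg_left (by omega) hd.le
    linarith
  have ht2 : t < 3 := by
    by_contra h
    push Not at h
    have : d * 3 ≤ d * t := mul_le_mul_of_nonneg_left h hd.le
    linarith
  have : t = 2 := by omega
  subst this; ring

end Groth.Agent.helper11
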