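import Groth.Prelude.Def_W4stk3formalspacesTaut
import Mathlib.Topology.Algebra.Ring.Ideal

/-!
Helper lemmas (helper15) on linearly topologized commutative rings: open ideals,
closures of ideals, topologically nilpotent elements, taut maps.
-/

set_option autoImplicit false

namespace Groth.Agent.helper15.LinTopLib

open Topology Filter

section Basic

variable {R : Type*} [CommRing R] [TopologicalSpace R] [IsTopologicalRing R]

/-- An ideal which is a neighbourhood of `0` is open. -/
theorem ideal_isOpen_of_mem_nhds (I : Ideal R) (h : (I : Set R) ∈ 𝓝 (0 : R)) :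
    IsOpen (I : Set R) :=
  I.toAddSubgroup.isOpen_of_mem_nhds (g := 0) h

/-- An open ideal is closed. -/
theorem ideal_isClosed_of_isOpen (I : Ideal R) (h : IsOpen (I : Set R)) :
    IsClosed (I : Set R) :=
  I.toAddSubgroup.isClosed_of_isOpen h

/-- The closure of an open ideal is itself. -/
theorem closure_eq_of_isOpen (I : Ideal R) (h : IsOpen (I : Set R)) :
    closure (I : Set R) = I :=
  (ideal_isClosed_of_isOpen I h).closure_eq

/-- If an ideal contains an open set containing `0`, it is open. -/
theorem ideal_isOpen_of_superset {I : Ideal R} {U : Set R} (hU : IsOpen U) (h0 : (0 : R) ∈ U)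
    (hUI : U ⊆ I) : IsOpen (I : Set R) :=
  ideal_isOpen_of_mem_nhds I (Filter.mem_of_superset (hU.mem_nhds h0) hUI)

/-- The closure of an ideal, viewed as a set, is open as soon as it contains an open set
containing `0`. -/
theorem isOpen_closure_of_superset {I : Ideal R} {U : Set R} (hU : IsOpen U) (h0 : (0 : R) ∈ U)
    (hUI : U ⊆ closure (I : Set R)) : IsOpen (closure (I : Set R)) := by
  have := ideal_isOpen_of_superset (I := I.closure) hU h0 (by rw [Ideal.coe_closure]; exact hUI)
  rwa [Ideal.coe_closure] at this

/-- If `J ≤ I` and the closure of `J` is open then so is the closure of `I`. -/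
theorem isOpen_closure_of_le {I J : Ideal R} (hJ : IsOpen (closure (J : Set R))) (hle : J ≤ I) :
    IsOpen (closure (I : Set R)) :=
  isOpen_closure_of_superset hJ (subset_closure J.zero_mem) (closure_mono hle)

/-- If an ideal `J ≤ I` is open then the closure of `I` is open. -/
theorem isOpen_closure_of_open_le {I J : Ideal R} (hJ : IsOpen (J : Set R)) (hle : J ≤ I) :
    IsOpen (closure (I : Set R)) :=
  isOpen_closure_of_superset hJ J.zero_mem (subset_closure.trans' hle)

theorem closure_mul_closure_le (I J : Ideal R) : I.closure * J.closure ≤ (I * J).closure := by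
  refine Ideal.mul_le.2 fun a ha b hb => ?_
  rw [← SetLike.mem_coe, Ideal.coe_closure] at ha hb ⊢
  exact map_mem_closure₂ continuous_mul ha hb fun x hx y hy => Ideal.mul_mem_mul hx hy

theorem closure_pow_le (I : Ideal R) (n : ℕ) : I.closure ^ n ≤ (I ^ n).closure := by
  induction n with
  | zero =>
    simp only [pow_zero, Ideal.one_eq_top]
    intro x _
    rw [← SetLike.mem_coe, Ideal.coe_closure]
    exact subset_closure (Submodule.mem_top)
  | succ n ih =>
    rw [pow_succ, pow_succ]
    exact (Ideal.mul_mono_left ih).trans (closure_mul_closure_le _ _)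

theorem closure_closure_ideal (I : Ideal R) : closure ((I.closure : Ideal R) : Set R) = closure I := by
  rw [Ideal.coe_closure, closure_closure]

end Basic

section Nil

variable {R : Type*} [CommRing R] [TopologicalSpace R] [IsTopologicalRing R] [IsLinearTopology R R]

/-- In a linearly topologized ring, the topological nilradical is closed. -/
theorem isClosed_topologicalNilradical :
    IsClosed ((topologicalNilradical R : Ideal R) : Set R) := by
  rw [← closure_subset_iff_isClosed]
  intro x hx
  rw [SetLike.mem_coe, IsTopologicallyNilpotent.mem_topologicalNilradical_iff,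
    IsTopologicallyNilpotent, atTop_basis.tendsto_iff IsLinearTopology.hasBasis_open_ideal]
  intro J hJ
  have hopen : IsOpen ((fun z : R => z - x) ⁻¹' (J : Set R)) :=
    hJ.preimage (continuous_id.sub continuous_const)
  obtain ⟨y, hyJ, hy⟩ := mem_closure_iff.1 hx _ hopen (by simp)
  rw [SetLike.mem_coe, IsTopologicallyNilpotent.mem_topologicalNilradical_iff] at hy
  obtain ⟨N, hN⟩ := Filter.eventually_atTop.1 (hy.eventually_mem (hJ.mem_nhds J.zero_mem))
  refine ⟨N, trivial, fun n hn => ?_⟩
  have hyx : Ideal.Quotient.mk J y = Ideal.Quotient.mk J x := Ideal.Quotient.eq.2 hyJ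
  have hpow : Ideal.Quotient.mk J (y ^ n) = Ideal.Quotient.mk J (x ^ n) := by
    rw [map_pow, map_pow, hyx]
  have h1 : y ^ n - x ^ n ∈ J := Ideal.Quotient.eq.1 hpow
  have h2 : y ^ n ∈ J := hN n hn
  have : x ^ n = y ^ n - (y ^ n - x ^ n) := by ring
  show x ^ n ∈ (J : Set R)
  rw [this]
  exact J.sub_mem h2 h1

theorem closure_subset_topologicalNilradical {I : Ideal R}
    (hI : I ≤ topologicalNilradical R) :
    closure (I : Set R) ⊆ (topologicalNilradical R : Set R) :=
  (closure_mono hI).trans isClosed_topologicalNilradical.closure_subset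

end Nil

section Map

variable {A : Type*} [CommRing A] [TopologicalSpace A]
variable {B : Type*} [CommRing B] [TopologicalSpace B] [IsTopologicalRing B] [IsLinearTopology B B]

theorem map_le_topologicalNilradical {φ : A →+* B} (hφ : Continuous φ) {I : Ideal A}
    (hI : ∀ f ∈ I, IsTopologicallyNilpotent f) :
    I.map φ ≤ topologicalNilradical B := by
  rw [Ideal.map_le_iff_le_comap]
  intro f hf
  rw [Ideal.mem_comap, IsTopologicallyNilpotent.mem_topologicalNilradical_iff]
  exact (hI f hf).map hφ

theorem isTopologicallyNilpotent_of_mem_closure_map {φ : A →+* B} (hφ : Continuous φ)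
    {I : Ideal A} (hI : ∀ f ∈ I, IsTopologicallyNilpotent f) {g : B}
    (hg : g ∈ closure ((I.map φ : Ideal B) : Set B)) : IsTopologicallyNilpotent g := by
  have := closure_subset_topologicalNilradical (map_le_topologicalNilradical hφ hI) hg
  rwa [SetLike.mem_coe, IsTopologicallyNilpotent.mem_topologicalNilradical_iff] at this

end Map

end Groth.Agent.helper15.LinTopLib
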