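import Groth.Agent.Lib_helper15_LinTop

/-!
More helper lemmas (helper15) on linearly topologized rings: the taut faithfully flat
situation recovers open ideals as preimages.
-/

set_option autoImplicit false

namespace Groth.Agent.helper15.LinTopLib

open Topology Filter

section FF

variable {A : Type*} [CommRing A] [TopologicalSpace A]
variable {B : Type*} [CommRing B] [TopologicalSpace B] [IsTopologicalRing B]

/-- In the taut faithfully flat situation, an open ideal `I` of `A` is the preimage of the
closure of `φ(I)B`. -/
theorem mem_of_map_mem_closure {φ : A →+* B} (hφ : LinTop.IsTautFFlat φ) {I : Ideal A}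
    (hI : IsOpen (I : Set A)) {a : A} (ha : φ a ∈ closure ((I.map φ : Ideal B) : Set B)) :
    a ∈ I := by
  have hinj := (hφ.2 I hI).injective
  rw [← Ideal.Quotient.eq_zero_iff_mem]
  apply hinj
  rw [map_zero]
  show Ideal.quotientMap (I.map φ).closure φ _ (Ideal.Quotient.mk I a) = 0
  rw [Ideal.quotientMap_mk, Ideal.Quotient.eq_zero_iff_mem, ← SetLike.mem_coe, Ideal.coe_closure]
  exact ha

theorem map_mem_closure_of_mem (φ : A →+* B) {I : Ideal A} {a : A} (ha : a ∈ I) :
    φ a ∈ closure ((I.map φ : Ideal B) : Set B) :=
  subset_closure (Ideal.mem_map_of_mem φ ha)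

/-- In the taut faithfully flat situation, the map from open ideals of `A` to closed ideals
of `B` reflects inclusions. -/
theorem le_of_closure_subset {φ : A →+* B} (hφ : LinTop.IsTautFFlat φ) {I J : Ideal A}
    (hJ : IsOpen (J : Set A))
    (h : closure ((I.map φ : Ideal B) : Set B) ⊆ closure ((J.map φ : Ideal B) : Set B)) :
    I ≤ J := fun a ha => mem_of_map_mem_closure hφ hJ (h (map_mem_closure_of_mem φ ha))

end FF

end Groth.Agent.helper15.LinTopLib
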