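import Groth.Agent.Lib_helper15_LinTop2

/-!
More helper lemmas (helper15) on linearly topologized rings: closures of ideals as
intersections, descent of closures along taut faithfully flat maps, and openness of
closures of powers in weakly pre-adic rings.
-/

set_option autoImplicit false

namespace Groth.Agent.helper15.LinTopLib

open Topology Filter

section Closure

variable {R : Type*} [CommRing R] [TopologicalSpace R] [IsTopologicalRing R]

/-- In a linearly topologized ring, an element lying in `I ⊔ K` for every open ideal `K`
lies in the closure of `I`. -/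
theorem mem_closure_of_forall_mem_sup [IsLinearTopology R R] {I : Ideal R} {a : R}
    (h : ∀ K : Ideal R, IsOpen (K : Set R) → a ∈ I ⊔ K) : a ∈ closure (I : Set R) := by
  rw [mem_closure_iff_nhds_zero]
  intro U hU
  obtain ⟨K, hKo, hKU⟩ := (IsLinearTopology.hasBasis_open_ideal).mem_iff.1 hU
  obtain ⟨y, hy, z, hz, rfl⟩ := Submodule.mem_sup.1 (h K hKo)
  refine ⟨y, hy, hKU ?_⟩
  have : y - (y + z) = -z := by abel
  rw [SetLike.mem_coe, this]
  exact K.neg_mem hz

/-- If `J` is open then for all `n` the closure of `J ^ n` is open, as soon as some ideal `I`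
has open closures of powers which form a basis of neighbourhoods of `0`. -/
theorem isOpen_closure_pow_of_isOpen {I : Ideal R}
    (hIo : ∀ n : ℕ, IsOpen (closure ((I ^ n : Ideal R) : Set R)))
    (hIb : ∀ U ∈ 𝓝 (0 : R), ∃ n : ℕ, closure ((I ^ n : Ideal R) : Set R) ⊆ U)
    {J : Ideal R} (hJ : IsOpen (J : Set R)) (n : ℕ) :
    IsOpen (closure ((J ^ n : Ideal R) : Set R)) := by
  obtain ⟨k, hk⟩ := hIb _ (hJ.mem_nhds J.zero_mem)
  have hkJ : I ^ k ≤ J := fun a ha => hk (subset_closure ha)
  refine isOpen_closure_of_le (hIo (k * n)) ?_
  rw [pow_mul]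
  exact Ideal.pow_right_mono hkJ n

end Closure

section FF

variable {A : Type*} [CommRing A] [TopologicalSpace A] [IsTopologicalRing A] [IsLinearTopology A A]
variable {B : Type*} [CommRing B] [TopologicalSpace B] [IsTopologicalRing B]

/-- In the taut faithfully flat situation, the preimage of the closure of `φ(I)B` lies in the
closure of `I`, for any ideal `I`. -/
theorem mem_closure_of_map_mem_closure {φ : A →+* B} (hφ : LinTop.IsTautFFlat φ) {I : Ideal A}
    {a : A} (ha : φ a ∈ closure ((I.map φ : Ideal B) : Set B)) : a ∈ closure (I : Set A) := by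
  refine mem_closure_of_forall_mem_sup fun K hK => ?_
  have hIK : IsOpen ((I ⊔ K : Ideal A) : Set A) :=
    ideal_isOpen_of_superset hK K.zero_mem (fun x hx => Ideal.mem_sup_right hx)
  exact mem_of_map_mem_closure hφ hIK
    (closure_mono (Ideal.map_mono le_sup_left) ha)

end FF

end Groth.Agent.helper15.LinTopLib
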