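import Groth.Agent.Lib_helper15_LinTop3
import Mathlib.Topology.Algebra.UniformRing

/-!
Helper lemmas (helper15) on completions of linearly topologized rings: the closure of the
image of an ideal is an ideal, the completion is linearly topologized and the canonical map
to the completion is taut.
-/

set_option autoImplicit false

namespace Groth.Agent.helper15.LinTopLib

open Topology Filter UniformSpace

section Completion

variable {A : Type*} [CommRing A] [UniformSpace A] [IsUniformAddGroup A] [IsTopologicalRing A]

/-- The closure of the image of an ideal in the completion, as an ideal. -/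
def closureImageIdealH15 (I : Ideal A) : Ideal (Completion A) where
  carrier := closure (((↑) : A → Completion A) '' (I : Set A))
  add_mem' := by
    intro x y hx hy
    have hS : ∀ a ∈ ((↑) : A → Completion A) '' (I : Set A),
        ∀ b ∈ ((↑) : A → Completion A) '' (I : Set A),
          a + b ∈ ((↑) : A → Completion A) '' (I : Set A) := by
      rintro _ ⟨a, ha, rfl⟩ _ ⟨b, hb, rfl⟩
      exact ⟨a + b, I.add_mem ha hb, Completion.coe_add a b⟩
    have := map_mem_closure₂ continuous_add hx hy hS
    exact closure_closure (s := ((↑) : A → Completion A) '' (I : Set A)) ▸ subset_closure this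
  zero_mem' := subset_closure ⟨0, I.zero_mem, Completion.coe_zero⟩
  smul_mem' := by
    intro c x hx
    show c * x ∈ closure (((↑) : A → Completion A) '' (I : Set A))
    refine Completion.induction_on c ?_ fun a => ?_
    · exact isClosed_closure.preimage (continuous_id.mul continuous_const)
    · show (a : Completion A) * x ∈ closure (((↑) : A → Completion A) '' (I : Set A))
      refine map_mem_closure (continuous_const.mul continuous_id) hx ?_
      rintro _ ⟨b, hb, rfl⟩
      exact ⟨a * b, I.mul_mem_left a hb, Completion.coe_mul a b⟩

theorem coe_closureImageIdealH15 (I : Ideal A) :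
    ((closureImageIdealH15 I : Ideal (Completion A)) : Set (Completion A)) =
      closure (((↑) : A → Completion A) '' (I : Set A)) := rfl

theorem closureImageIdealH15_mem_nhds {I : Ideal A} (hI : IsOpen (I : Set A)) :
    ((closureImageIdealH15 I : Ideal (Completion A)) : Set (Completion A)) ∈ 𝓝 (0 : Completion A) := by
  rw [coe_closureImageIdealH15, ← Completion.coe_zero]
  exact Completion.isDenseInducing_coe.closure_image_mem_nhds (hI.mem_nhds I.zero_mem)

theorem map_coe_le_closureImageIdealH15 (I : Ideal A) :
    I.map (Completion.coeRingHom : A →+* Completion A) ≤ closureImageIdealH15 I := by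
  rw [Ideal.map_le_iff_le_comap]
  intro a ha
  exact subset_closure ⟨a, ha, rfl⟩

theorem closure_map_coe_eq (I : Ideal A) :
    closure (((I.map (Completion.coeRingHom : A →+* Completion A)) : Ideal (Completion A)) :
      Set (Completion A)) = closure (((↑) : A → Completion A) '' (I : Set A)) := by
  apply le_antisymm
  · have := closure_mono (map_coe_le_closureImageIdealH15 I :
      ((I.map (Completion.coeRingHom : A →+* Completion A) : Ideal (Completion A)) :
        Set (Completion A)) ⊆ (closureImageIdealH15 I : Set (Completion A)))
    rwa [coe_closureImageIdealH15, closure_closure] at this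
  · refine closure_mono ?_
    rintro _ ⟨a, ha, rfl⟩
    exact Ideal.mem_map_of_mem (Completion.coeRingHom : A →+* Completion A) ha

variable [IsLinearTopology A A]

theorem exists_closureImageIdealH15_subset {U : Set (Completion A)} (hU : U ∈ 𝓝 (0 : Completion A)) :
    ∃ I : Ideal A, IsOpen (I : Set A) ∧
      ((closureImageIdealH15 I : Ideal (Completion A)) : Set (Completion A)) ⊆ U := by
  obtain ⟨V, hV, hVc, hVU⟩ := exists_mem_nhds_isClosed_subset hU
  have hW : ((↑) : A → Completion A) ⁻¹' V ∈ 𝓝 (0 : A) := by
    have := (Completion.continuous_coe A).continuousAt (x := (0 : A))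
    rw [ContinuousAt, Completion.coe_zero] at this
    exact this hV
  obtain ⟨I, hIo, hIW⟩ := (IsLinearTopology.hasBasis_open_ideal).mem_iff.1 hW
  refine ⟨I, hIo, ?_⟩
  rw [coe_closureImageIdealH15]
  refine (closure_minimal ?_ hVc).trans hVU
  rintro _ ⟨a, ha, rfl⟩
  exact hIW ha

theorem isLinearTopology_completion : IsLinearTopology (Completion A) (Completion A) := by
  rw [isLinearTopology_iff_hasBasis_ideal]
  refine ⟨fun t => ⟨fun ht => ?_, fun ⟨J, hJ, hJt⟩ => Filter.mem_of_superset hJ hJt⟩⟩
  obtain ⟨I, hIo, hIt⟩ := exists_closureImageIdealH15_subset ht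
  exact ⟨closureImageIdealH15 I, closureImageIdealH15_mem_nhds hIo, hIt⟩

theorem isTaut_coe_completion :
    LinTop.IsTaut (Completion.coeRingHom : A →+* Completion A) := by
  refine ⟨Completion.continuous_coe A, fun I hI => ?_, fun U hU => ?_⟩
  · rw [closure_map_coe_eq]
    have h := closureImageIdealH15_mem_nhds hI
    rw [coe_closureImageIdealH15] at h
    have := ideal_isOpen_of_mem_nhds (closureImageIdealH15 I) (by rwa [coe_closureImageIdealH15])
    rwa [coe_closureImageIdealH15] at this
  · obtain ⟨I, hIo, hIU⟩ := exists_closureImageIdealH15_subset hU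
    refine ⟨I, hIo, ?_⟩
    rw [closure_map_coe_eq]
    rwa [coe_closureImageIdealH15] at hIU

end Completion

end Groth.Agent.helper15.LinTopLib
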