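import Groth.Prelude.Def_Wider
import Mathlib.Algebra.Module.Injective
import Mathlib.Order.Zorn

/-! Helper lemmas (helper1): maximal essential extensions inside an injective module. -/

set_option autoImplicit false
universe u

namespace Groth.Agent.Lib_helper1_InjHull

variable {R : Type u} [CommRing R] {E : Type u} [AddCommGroup E] [Module R E]

/-- `N` is essential in `K`: every nonzero submodule of `K` meets `N`. -/
def Ess (N K : Submodule R E) : Prop := ∀ L : Submodule R E, L ≤ K → L ≠ ⊥ → L ⊓ N ≠ ⊥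

theorem exists_maximal_ess (N : Submodule R E) :
    ∃ K, N ≤ K ∧ Ess N K ∧ ∀ K', K ≤ K' → Ess N K' → K' = K := by
  obtain ⟨K, hNK, hKmax⟩ := zorn_le_nonempty₀ {K : Submodule R E | Ess N K} (by
    intro c hcs hc y hy
    refine ⟨sSup c, ?_, fun z hz => le_sSup hz⟩
    intro L hL hL0
    obtain ⟨x, hxL, hx0⟩ := (Submodule.ne_bot_iff L).mp hL0
    obtain ⟨K, hKc, hxK⟩ := (Submodule.mem_sSup_of_directed ⟨y, hy⟩ hc.directedOn).mp (hL hxL)
    have h1 : L ⊓ K ≠ ⊥ := (Submodule.ne_bot_iff _).mpr ⟨x, ⟨hxL, hxK⟩, hx0⟩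
    have h2 := hcs hKc (L ⊓ K) inf_le_right h1
    intro h3
    apply h2
    rw [eq_bot_iff]
    calc L ⊓ K ⊓ N ≤ L ⊓ N := inf_le_inf_right _ inf_le_left
      _ = ⊥ := h3) N (by
    intro L hL hL0
    rwa [inf_eq_left.mpr hL])
  refine ⟨K, hNK, hKmax.1, fun K' hKK' hK' => ?_⟩
  exact le_antisymm (hKmax.2 hK' hKK') hKK'

theorem exists_maximal_disjoint (K N' : Submodule R E) (h : Disjoint N' K) :
    ∃ C, N' ≤ C ∧ Disjoint C K ∧ ∀ C', C ≤ C' → Disjoint C' K → C' = C := by
  obtain ⟨C, hNC, hCmax⟩ := zorn_le_nonempty₀ {C : Submodule R E | Disjoint C K} (by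
    intro c hcs hc y hy
    refine ⟨sSup c, ?_, fun z hz => le_sSup hz⟩
    show Disjoint (sSup c) K
    rw [Submodule.disjoint_def]
    intro x hx hxK
    obtain ⟨C, hCc, hxC⟩ := (Submodule.mem_sSup_of_directed ⟨y, hy⟩ hc.directedOn).mp hx
    exact (Submodule.disjoint_def.mp (hcs hCc)) x hxC hxK) N' h
  exact ⟨C, hNC, hCmax.1, fun C' hCC' hC' => le_antisymm (hCmax.2 hC' hCC') hCC'⟩

/-- In an injective module, any submodule `N` disjoint from `N'` is contained in a direct summand
`K` whose complement contains `N'`. -/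
theorem exists_isCompl_ess_of_disjoint (hE : Module.Injective R E) (N N' : Submodule R E)
    (hNN' : Disjoint N N') :
    ∃ K C : Submodule R E, N ≤ K ∧ N' ≤ C ∧ IsCompl K C ∧ Ess N K := by
  obtain ⟨K, hNK, hKess, hKmax⟩ := exists_maximal_ess N
  have hN'K : Disjoint N' K := by
    rw [disjoint_iff]
    by_contra hne
    apply hKess (N' ⊓ K) inf_le_right hne
    rw [eq_bot_iff]
    calc N' ⊓ K ⊓ N ≤ N' ⊓ N := inf_le_inf_right _ inf_le_left
      _ = ⊥ := (disjoint_iff.mp hNN'.symm)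
  obtain ⟨C, hN'C, hCK, hCmax⟩ := exists_maximal_disjoint K N' hN'K
  let q : K →ₗ[R] E ⧸ C := C.mkQ ∘ₗ K.subtype
  have hq : Function.Injective q := by
    rw [← LinearMap.ker_eq_bot, eq_bot_iff]
    intro k hk
    have hk' : (k : E) ∈ C := by
      have : C.mkQ (k : E) = 0 := hk
      simpa using this
    have : (k : E) = 0 := Submodule.disjoint_def.mp hCK _ hk' k.2
    simp [Subtype.ext_iff, this]
  obtain ⟨φ, hφ⟩ := Module.Injective.out (R := R) (Q := E) q hq K.subtype
  have hφK : ∀ x ∈ K, φ (C.mkQ x) = x := fun x hx => hφ ⟨x, hx⟩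
  -- key: a submodule of `E ⧸ C` which is nonzero contains the class of a nonzero element of `K`
  have key : ∀ L' : Submodule R (E ⧸ C), L' ≠ ⊥ → ∃ x ∈ K, x ≠ 0 ∧ C.mkQ x ∈ L' := by
    intro L' hL'
    have hne : L'.comap C.mkQ ≠ C := by
      intro heq
      apply hL'
      have : L'.comap C.mkQ = (⊥ : Submodule R (E ⧸ C)).comap C.mkQ := by
        rw [heq, Submodule.comap_bot, Submodule.ker_mkQ]
      exact Submodule.comap_injective_of_surjective C.mkQ_surjective this
    have hle : C ≤ L'.comap C.mkQ := by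
      intro x hx
      simp [(Submodule.Quotient.mk_eq_zero C).mpr hx]
    have hnd : ¬ Disjoint (L'.comap C.mkQ) K := fun hd => hne (hCmax _ hle hd)
    rw [Submodule.disjoint_def] at hnd
    push Not at hnd
    obtain ⟨x, hxL, hxK, hx0⟩ := hnd
    exact ⟨x, hxK, hx0, hxL⟩
  have hφinj : Function.Injective φ := by
    rw [← LinearMap.ker_eq_bot]
    by_contra hne
    obtain ⟨x, hxK, hx0, hxL⟩ := key _ hne
    apply hx0
    rw [← hφK x hxK]
    exact hxL
  have hKrange : K ≤ LinearMap.range φ := fun x hx => ⟨C.mkQ x, hφK x hx⟩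
  have hess : Ess N (LinearMap.range φ) := by
    intro L hL hL0
    have hLK : L ⊓ K ≠ ⊥ := by
      have hL'0 : L.comap φ ≠ ⊥ := by
        intro h0
        apply hL0
        rw [eq_bot_iff]
        intro y hy
        obtain ⟨z, rfl⟩ := hL hy
        have : z ∈ L.comap φ := hy
        rw [h0] at this
        simp [(Submodule.mem_bot R).mp this]
      obtain ⟨x, hxK, hx0, hxL⟩ := key _ hL'0
      have hxL' : φ (C.mkQ x) ∈ L := hxL
      rw [hφK x hxK] at hxL'
      exact (Submodule.ne_bot_iff _).mpr ⟨x, ⟨hxL', hxK⟩, hx0⟩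
    have h := hKess (L ⊓ K) inf_le_right hLK
    intro h'
    apply h
    rw [eq_bot_iff]
    calc L ⊓ K ⊓ N ≤ L ⊓ N := inf_le_inf_right _ inf_le_left
      _ = ⊥ := h'
  have hrange : LinearMap.range φ = K := hKmax _ hKrange hess
  refine ⟨K, C, hNK, hN'C, ⟨hCK.symm, ?_⟩, hKess⟩
  rw [codisjoint_iff, eq_top_iff]
  intro e _
  have he : φ (C.mkQ e) ∈ K := hrange ▸ LinearMap.mem_range_self φ _
  set k := φ (C.mkQ e) with hk
  have h1 : φ (C.mkQ k) = φ (C.mkQ e) := hφK k he
  have h2 : C.mkQ k = C.mkQ e := hφinj h1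
  have h3 : e - k ∈ C := by
    have : C.mkQ (e - k) = 0 := by rw [map_sub, h2, sub_self]
    exact (Submodule.Quotient.mk_eq_zero C).mp this
  have : e = k + (e - k) := by abel
  rw [this]
  exact Submodule.add_mem_sup he h3

theorem exists_isCompl_of_disjoint (hE : Module.Injective R E) (N N' : Submodule R E)
    (hNN' : Disjoint N N') : ∃ K C : Submodule R E, N ≤ K ∧ N' ≤ C ∧ IsCompl K C := by
  obtain ⟨K, C, h1, h2, h3, -⟩ := exists_isCompl_ess_of_disjoint hE N N' hNN'
  exact ⟨K, C, h1, h2, h3⟩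

/-- A direct summand of an injective module is injective. -/
theorem injective_of_isCompl (hE : Module.Injective R E) (K C : Submodule R E) (h : IsCompl K C) :
    Module.Injective R K := by
  refine ⟨fun X Y _ _ _ _ f hf g => ?_⟩
  obtain ⟨k, hk⟩ := Module.Injective.out (R := R) (Q := E) f hf (K.subtype ∘ₗ g)
  refine ⟨Submodule.linearProjOfIsCompl K C h ∘ₗ k, fun x => ?_⟩
  rw [LinearMap.comp_apply, hk x, LinearMap.comp_apply]
  exact Submodule.linearProjOfIsCompl_apply_left h (g x)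

/-- In an indecomposable injective module, any two nonzero submodules meet. -/
theorem inf_ne_bot_of_indecomposable (hE : Module.Injective R E) (hI : InjHull.IsIndecomposable R E)
    (N N' : Submodule R E) (hN : N ≠ ⊥) (hN' : N' ≠ ⊥) : N ⊓ N' ≠ ⊥ := by
  intro h
  obtain ⟨K, C, hNK, hN'C, hKC⟩ := exists_isCompl_of_disjoint hE N N' (disjoint_iff.mpr h)
  rcases hI.2 K C hKC with hK | hC
  · exact hN (le_bot_iff.mp (hK ▸ hNK))
  · exact hN' (le_bot_iff.mp (hC ▸ hN'C))

end Groth.Agent.Lib_helper1_InjHull
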