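import Groth.Prelude.Def_DeRham
import Mathlib.Tactic

/-!
Helper lemma (helper23): the elements `b₀ · db₁ ∧ … ∧ db_p` generate `⋀[A]^p Ω[A⁄R]` additively,
so additive maps out of it are determined by their values on them.
-/

set_option autoImplicit false
universe u

open DeRham

namespace Groth.Agent.helper23DeRham

theorem ext_gen {R A : Type u} [CommRing R] [CommRing A] [Algebra R A] (p : ℕ)
    {N : Type*} [AddCommGroup N] (F G : ↥(⋀[A]^p (Ω[A⁄R])) →+ N)
    (h : ∀ (b₀ : A) (b : Fin p → A),
      F (gen (KaehlerDifferential.D R A) p b₀ b) = G (gen (KaehlerDifferential.D R A) p b₀ b)) :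
    F = G := by
  have hspan := exteriorPower.ιMulti_span_of_span A p (Ω[A⁄R])
    (KaehlerDifferential.span_range_derivation R A)
  have key : ∀ x ∈ Submodule.span A (exteriorPower.ιMulti A p ''
      {a : Fin p → Ω[A⁄R] | Set.range a ⊆ Set.range (KaehlerDifferential.D R A)}),
      ∀ c : A, F (c • x) = G (c • x) := by
    intro x hx
    induction hx using Submodule.span_induction with
    | mem x hx =>
      obtain ⟨a, ha, rfl⟩ := hx
      have : ∀ i, ∃ bi : A, KaehlerDifferential.D R A bi = a i := fun i => ha ⟨i, rfl⟩
      choose b hb using this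
      intro c
      have e : a = fun i => KaehlerDifferential.D R A (b i) := funext fun i => (hb i).symm
      rw [e]
      exact h c b
    | zero => intro c; simp
    | add x y _ _ hx hy => intro c; rw [smul_add, map_add, map_add, hx c, hy c]
    | smul a x _ hx => intro c; rw [smul_smul]; exact hx (c * a)
  ext x
  have hx : x ∈ Submodule.span A (exteriorPower.ιMulti A p ''
      {a : Fin p → Ω[A⁄R] | Set.range a ⊆ Set.range (KaehlerDifferential.D R A)}) := by
    rw [hspan]; exact Submodule.mem_top
  have := key x hx 1
  rwa [one_smul] at this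

end Groth.Agent.helper23DeRham
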