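import Groth.Prelude.Def_W4c2quivmodsheafKron
import Mathlib.Tactic

/-!
Helper lemmas (helper23) on semistability of Kronecker modules whose dimension vector is
proportional to `(1, n)` or `(n, 1)`.
-/

set_option autoImplicit false
universe u v w

open KronMod

namespace Groth.Agent.helper23Kron

variable {K : Type u} [Field K] {V : Type v} {W : Type w}
    [AddCommGroup V] [Module K V] [FiniteDimensional K V]
    [AddCommGroup W] [Module K W] [FiniteDimensional K W]

/-- The total map `(v_j) ↦ ∑ f_j v_j`. -/
noncomputable def psiL {n : ℕ} (f : Fin n → (V →ₗ[K] W)) : (Fin n → V) →ₗ[K] W :=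
  ∑ j, (f j).comp (LinearMap.proj j)

theorem psiL_apply {n : ℕ} (f : Fin n → (V →ₗ[K] W)) (v : Fin n → V) :
    psiL f v = ∑ j, f j (v j) := by
  simp [psiL, LinearMap.sum_apply]

theorem psiL_single {n : ℕ} (f : Fin n → (V →ₗ[K] W)) (j : Fin n) (v : V) :
    psiL f (Pi.single j v) = f j v := by
  rw [psiL_apply, Finset.sum_eq_single j]
  · simp
  · intro b _ hb
    simp [hb]
  · simp

theorem finrank_fun_fin (n : ℕ) (U : Type*) [AddCommGroup U] [Module K U] [FiniteDimensional K U] :
    Module.finrank K (Fin n → U) = n * Module.finrank K U := by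
  rw [Module.finrank_pi_fintype, Finset.sum_const, Finset.card_univ, Fintype.card_fin,
    smul_eq_mul]

/-- Semistability for dimension vector `(d, n d)`: the total map is bijective. -/
theorem ss_iff_psi {n : ℕ} (f : Fin n → (V →ₗ[K] W))
    (hV : 0 < Module.finrank K V) (hW : Module.finrank K W = n * Module.finrank K V) :
    IsSemistable f ↔ Function.Bijective (psiL f) := by
  have : Nontrivial V := Module.nontrivial_of_finrank_pos hV
  have hdim : Module.finrank K (Fin n → V) = Module.finrank K W := by
    rw [finrank_fun_fin, hW]
  constructor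
  · rintro ⟨_, hs⟩
    have hsurj : Function.Surjective (psiL f) := by
      rw [← LinearMap.range_eq_top]
      by_contra hne
      have hsub : IsSubrep f (⊤ : Submodule K V) (LinearMap.range (psiL f)) := by
        intro j
        rintro w ⟨v, _, rfl⟩
        exact ⟨Pi.single j v, psiL_single f j v⟩
      have := hs ⊤ (LinearMap.range (psiL f)) hsub (fun h' => top_ne_bot h'.1)
        (fun h' => hne h'.2)
      rw [finrank_top, mul_comm] at this
      have h2 : Module.finrank K W ≤ Module.finrank K (LinearMap.range (psiL f)) :=
        Nat.le_of_mul_le_mul_left this hV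
      exact hne (Submodule.eq_top_of_finrank_eq (le_antisymm (Submodule.finrank_le _) h2))
    exact ⟨(LinearMap.injective_iff_surjective_of_finrank_eq_finrank hdim).mpr hsurj, hsurj⟩
  · intro hb
    refine ⟨by omega, ?_⟩
    intro V' W' hsub _ _
    have hmem : ∀ v : Fin n → V', psiL f (fun j => (v j : V)) ∈ W' := by
      intro v
      rw [psiL_apply]
      exact Submodule.sum_mem _ fun j _ => hsub j ⟨v j, (v j).2, rfl⟩
    let φ : (Fin n → V') →ₗ[K] W' :=
      ((psiL f).comp (LinearMap.pi fun j => V'.subtype.comp (LinearMap.proj j))).codRestrict W'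
        (fun v => hmem v)
    have hφ : Function.Injective φ := by
      intro a b hab
      have h1 : psiL f (fun j => (a j : V)) = psiL f (fun j => (b j : V)) :=
        congrArg Subtype.val hab
      have h2 := hb.1 h1
      funext j
      exact Subtype.ext (congr_fun h2 j)
    have h3 := LinearMap.finrank_le_finrank_of_injective hφ
    rw [finrank_fun_fin] at h3
    rw [hW, mul_comm n, mul_assoc]
    exact Nat.mul_le_mul_left _ h3

/-- Semistability for dimension vector `(n d, d)`: the total map `v ↦ (f_j v)_j` is bijective. -/
theorem ss_iff_chi {n : ℕ} (f : Fin n → (V →ₗ[K] W))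
    (hW : 0 < Module.finrank K W) (hV : Module.finrank K V = n * Module.finrank K W) :
    IsSemistable f ↔ Function.Bijective (LinearMap.pi f) := by
  have : Nontrivial W := Module.nontrivial_of_finrank_pos hW
  have hdim : Module.finrank K V = Module.finrank K (Fin n → W) := by
    rw [finrank_fun_fin, hV]
  constructor
  · rintro ⟨_, hs⟩
    have hinj : Function.Injective (LinearMap.pi f) := by
      rw [← LinearMap.ker_eq_bot]
      by_contra hne
      have hsub : IsSubrep f (LinearMap.ker (LinearMap.pi f)) (⊥ : Submodule K W) := by
        intro j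
        rintro w ⟨v, hv, rfl⟩
        have hj := congr_fun (show LinearMap.pi f v = 0 from hv) j
        simp only [LinearMap.pi_apply, Pi.zero_apply] at hj
        simp [hj]
      have := hs _ ⊥ hsub (fun h' => hne h'.1) (fun h' => bot_ne_top h'.2)
      rw [finrank_bot, mul_zero] at this
      have hk : 0 < Module.finrank K (LinearMap.ker (LinearMap.pi f)) := by
        rw [Nat.pos_iff_ne_zero]
        intro h0
        exact hne (Submodule.finrank_eq_zero.mp h0)
      have := Nat.mul_pos hW hk
      omega
    exact ⟨hinj, (LinearMap.injective_iff_surjective_of_finrank_eq_finrank hdim).mp hinj⟩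
  · intro hb
    refine ⟨by omega, ?_⟩
    intro V' W' hsub _ _
    let φ : V' →ₗ[K] (Fin n → W') :=
      LinearMap.pi fun j => ((f j).comp V'.subtype).codRestrict W'
        (fun v => hsub j ⟨v, v.2, rfl⟩)
    have hφ : Function.Injective φ := by
      intro a b hab
      apply Subtype.ext
      apply hb.1
      funext j
      have := congrArg Subtype.val (congr_fun hab j)
      simpa [φ] using this
    have h3 := LinearMap.finrank_le_finrank_of_injective hφ
    rw [finrank_fun_fin] at h3
    rw [hV, mul_comm n, mul_assoc]
    exact Nat.mul_le_mul_left _ h3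

end Groth.Agent.helper23Kron
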