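import Groth.Prelude.Def_Conn

/-! Helper lemmas (helper25) for the `Conn` rows: an element of `Hom_B(E, G) ⊗[B] Ω`, with `Ω` free, is
determined by its evaluations `(ev_e ⊗ 1)`. -/

set_option autoImplicit false
universe u
open TensorProduct

namespace Groth.Agent.Lib_helper25_Conn

theorem ext_of_ev {B Ω E G : Type u} [CommRing B] [AddCommGroup Ω] [Module B Ω] [Module.Free B Ω]
    [AddCommGroup E] [Module B E] [AddCommGroup G] [Module B G]
    (T T' : (E →ₗ[B] G) ⊗[B] Ω)
    (h : ∀ e : E, TensorProduct.map (LinearMap.applyₗ e) LinearMap.id T =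
      TensorProduct.map (LinearMap.applyₗ e) LinearMap.id T') :
    T = T' := by
  classical
  let b := Module.Free.chooseBasis B Ω
  apply (TensorProduct.equivFinsuppOfBasisRight b).injective
  ext i e
  rw [TensorProduct.equivFinsuppOfBasisRight_apply, TensorProduct.equivFinsuppOfBasisRight_apply]
  have key : ∀ S : (E →ₗ[B] G) ⊗[B] Ω,
      (TensorProduct.rid B (E →ₗ[B] G) ((b.coord i).lTensor _ S)) e =
        TensorProduct.rid B G ((b.coord i).lTensor _
          (TensorProduct.map (LinearMap.applyₗ e) LinearMap.id S)) := by
    intro S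
    induction S using TensorProduct.induction_on with
    | zero => simp
    | tmul ψ ω => simp
    | add S S' hS hS' => simp only [map_add, LinearMap.add_apply, hS, hS']
  rw [key, key, h e]

end Groth.Agent.Lib_helper25_Conn
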