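import Mathlib.RingTheory.PowerSeries.Inverse
import Mathlib.RingTheory.PowerSeries.Exp
import Mathlib.NumberTheory.Bernoulli

/-! Helper library of helper26: the first four coefficients of rational power series. -/

set_option autoImplicit false

namespace Groth.Agent.helper26

open PowerSeries

/-- `C4 f a0 a1 a2 a3`: the coefficients of degree 0, 1, 2, 3 of `f` are `a0, a1, a2, a3`. -/
def C4 (f : PowerSeries ℚ) (a0 a1 a2 a3 : ℚ) : Prop :=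
  coeff 0 f = a0 ∧ coeff 1 f = a1 ∧ coeff 2 f = a2 ∧ coeff 3 f = a3

theorem C4.mul {f g : PowerSeries ℚ} {a0 a1 a2 a3 b0 b1 b2 b3 : ℚ}
    (hf : C4 f a0 a1 a2 a3) (hg : C4 g b0 b1 b2 b3) :
    C4 (f * g) (a0 * b0) (a0 * b1 + a1 * b0) (a0 * b2 + a1 * b1 + a2 * b0)
      (a0 * b3 + a1 * b2 + a2 * b1 + a3 * b0) := by
  obtain ⟨h0, h1, h2, h3⟩ := hf
  obtain ⟨k0, k1, k2, k3⟩ := hg
  refine ⟨?_, ?_, ?_, ?_⟩ <;>
    simp [coeff_mul, Finset.Nat.sum_antidiagonal_eq_sum_range_succ_mk, Finset.sum_range_succ,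
      h0, h1, h2, h3, k0, k1, k2, k3]

theorem C4.congr {f : PowerSeries ℚ} {a0 a1 a2 a3 b0 b1 b2 b3 : ℚ}
    (hf : C4 f a0 a1 a2 a3) (e0 : a0 = b0) (e1 : a1 = b1) (e2 : a2 = b2) (e3 : a3 = b3) :
    C4 f b0 b1 b2 b3 := by
  subst e0 e1 e2 e3
  exact hf

theorem C4.rescale {f : PowerSeries ℚ} {a0 a1 a2 a3 : ℚ} (hf : C4 f a0 a1 a2 a3) (c : ℚ) :
    C4 (PowerSeries.rescale c f) a0 (c * a1) (c ^ 2 * a2) (c ^ 3 * a3) := by
  obtain ⟨h0, h1, h2, h3⟩ := hf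
  refine ⟨?_, ?_, ?_, ?_⟩ <;> simp [coeff_rescale, h0, h1, h2, h3]

theorem C4.inv {f : PowerSeries ℚ} {a1 a2 a3 : ℚ} (hf : C4 f 1 a1 a2 a3) :
    C4 f⁻¹ 1 (-a1) (a1 ^ 2 - a2) (-a3 + 2 * a1 * a2 - a1 ^ 3) := by
  have hc : constantCoeff f ≠ 0 := by
    have := hf.1
    rw [coeff_zero_eq_constantCoeff_apply] at this
    rw [this]
    norm_num
  have hinv : f⁻¹ * f = 1 := PowerSeries.inv_mul_cancel f hc
  have hm := C4.mul (f := f⁻¹) (g := f) ⟨rfl, rfl, rfl, rfl⟩ hf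
  rw [hinv] at hm
  obtain ⟨e0, e1, e2, e3⟩ := hm
  have o0 : coeff 0 (1 : PowerSeries ℚ) = 1 := by simp
  have o1 : coeff 1 (1 : PowerSeries ℚ) = 0 := by simp
  have o2 : coeff 2 (1 : PowerSeries ℚ) = 0 := by simp
  have o3 : coeff 3 (1 : PowerSeries ℚ) = 0 := by simp
  rw [o0] at e0
  rw [o1] at e1
  rw [o2] at e2
  rw [o3] at e3
  refine ⟨?_, ?_, ?_, ?_⟩
  · linear_combination -e0
  · linear_combination -e1 + a1 * e0
  · linear_combination -e2 + a1 * e1 - (a1 ^ 2 - a2) * e0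
  · linear_combination -e3 + a1 * e2 - (a1 ^ 2 - a2) * e1 - (-a1 ^ 3 + 2 * a1 * a2 - a3) * e0

theorem C4.bernoulli' : C4 (bernoulli'PowerSeries ℚ) 1 (1 / 2) (1 / 12) 0 := by
  refine ⟨?_, ?_, ?_, ?_⟩ <;>
    simp [bernoulli'PowerSeries, coeff_mk, bernoulli'_zero, bernoulli'_one, bernoulli'_two,
      bernoulli'_three, Nat.factorial] <;> norm_num

theorem C4.exp : C4 (PowerSeries.exp ℚ) 1 1 (1 / 2) (1 / 6) := by
  refine ⟨?_, ?_, ?_, ?_⟩ <;> simp [coeff_exp, Nat.factorial] <;> norm_num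

end Groth.Agent.helper26
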