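import Mathlib.RingTheory.Flat.FaithfullyFlat.Algebra
import Mathlib.RingTheory.Flat.FaithfullyFlat.Basic
import Mathlib.RingTheory.RingHom.Flat
import Mathlib.Tactic.Algebraize

/-! Helper (helper7): flatness descends along a faithfully flat extension of the target. -/

namespace Groth.Agent.helper7FlatDescent

open TensorProduct

theorem flat_of_flat_comp_faithfullyFlat (A B C : Type*) [CommRing A] [CommRing B] [CommRing C]
    [Algebra A B] [Algebra B C] [Algebra A C] [IsScalarTower A B C]
    [Module.Flat A C] [Module.FaithfullyFlat B C] : Module.Flat A B := by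
  rw [Module.Flat.iff_lTensor_preserves_injective_linearMap]
  intro N P _ _ _ _ f hf
  let g : B ⊗[A] N →ₗ[B] B ⊗[A] P := TensorProduct.AlgebraTensorModule.lTensor B B f
  have hCf : Function.Injective (f.lTensor C) :=
    Module.Flat.lTensor_preserves_injective_linearMap f hf
  have key := TensorProduct.AlgebraTensorModule.lTensor_comp_cancelBaseChange A B C (M := C) f
  have h1 : Function.Injective (g.lTensor C) := by
    intro a b hab
    have := congrArg (fun z => (TensorProduct.AlgebraTensorModule.cancelBaseChange A B C C P) z) hab
    have e1 := LinearMap.congr_fun key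
    apply (TensorProduct.AlgebraTensorModule.cancelBaseChange A B C C N).injective
    apply hCf
    have ha := e1 a
    have hb := e1 b
    simp only [LinearMap.coe_comp, Function.comp_apply, LinearEquiv.coe_coe] at ha hb
    change (TensorProduct.AlgebraTensorModule.lTensor C C f) _ =
      (TensorProduct.AlgebraTensorModule.lTensor C C f) _
    rw [ha, hb]
    exact this
  exact (Module.FaithfullyFlat.lTensor_injective_iff_injective B C g).mp h1

theorem ringHom_flat_of_comp {A B C : Type*} [CommRing A] [CommRing B] [CommRing C]
    (φ : A →+* B) (ψ : B →+* C) [IsLocalRing B] [IsLocalRing C] [IsLocalHom ψ]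
    (hψ : ψ.Flat) (hc : (ψ.comp φ).Flat) : φ.Flat := by
  algebraize [φ, ψ, ψ.comp φ]
  have : Module.Flat B C := hψ
  have : Module.FaithfullyFlat B C := Module.FaithfullyFlat.of_flat_of_isLocalHom
  have : Module.Flat A C := hc
  exact flat_of_flat_comp_faithfullyFlat A B C

end Groth.Agent.helper7FlatDescent
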