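import Mathlib.AlgebraicGeometry.Geometrically.Basic
import Mathlib.AlgebraicGeometry.PullbackCarrier
import Mathlib.AlgebraicGeometry.ResidueField

/-! Helper (helper7): a geometric property of fibres which passes to images under surjections
descends along surjective base changes. -/

universe u

open CategoryTheory CategoryTheory.Limits AlgebraicGeometry

namespace Groth.Agent.helper7GeomDescent

theorem geometrically_of_pullback_snd {P : Scheme.{u} → Prop}
    (hP : ∀ {W Z : Scheme.{u}} (φ : W ⟶ Z), Function.Surjective φ → P W → P Z)
    {X Y Y' : Scheme.{u}} (f : X ⟶ Y) (g : Y' ⟶ Y) [Surjective g]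
    (h : geometrically P (pullback.snd f g)) : geometrically P f := by
  intro K _ y Z fst snd hZ
  obtain ⟨p, -⟩ := (pullback.fst y g).surjective (Nonempty.some inferInstance)
  let L : Type u := (pullback y g).residueField p
  let a : Spec (.of L) ⟶ Spec (.of K) := (pullback y g).fromSpecResidueField p ≫ pullback.fst y g
  let b : Spec (.of L) ⟶ Y' := (pullback y g).fromSpecResidueField p ≫ pullback.snd y g
  have hab : a ≫ y = b ≫ g := by
    simp only [a, b, Category.assoc, pullback.condition]
  have ha : Surjective a := ⟨fun x => ⟨Nonempty.some inferInstance, Subsingleton.elim _ _⟩⟩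
  have hA : IsPullback (pullback.fst snd a) (pullback.snd snd a) snd a :=
    IsPullback.of_hasPullback _ _
  have hAB := hA.paste_horiz hZ
  let u : pullback snd a ⟶ pullback f g :=
    pullback.lift (pullback.fst snd a ≫ fst) (pullback.snd snd a ≫ b)
      (by have := hAB.w; simp only [Category.assoc] at this ⊢; rw [this, hab])
  have s : IsPullback (u ≫ pullback.fst f g) (pullback.snd snd a) f (b ≫ g) := by
    rw [pullback.lift_fst, ← hab]
    exact hAB
  have D : IsPullback u (pullback.snd snd a) (pullback.snd f g) b :=
    IsPullback.of_right s (pullback.lift_snd _ _ _) (IsPullback.of_hasPullback f g)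
  have hW : P (pullback snd a) := h b u (pullback.snd snd a) D
  exact hP (pullback.fst snd a) (pullback.fst snd a).surjective hW

end Groth.Agent.helper7GeomDescent
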