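import Mathlib.Topology.NoetherianSpace
import Mathlib.Topology.Sets.Opens

/-! Helper (helper7): in a space covered by Noetherian open subspaces, every subset of a compact
set is compact. -/

namespace Groth.Agent.helper7LocNoeth

open TopologicalSpace

theorem isCompact_of_subset_isCompact {X : Type*} [TopologicalSpace X]
    (hX : ∀ x : X, ∃ U : Opens X, x ∈ U ∧ NoetherianSpace U) {K S : Set X}
    (hK : IsCompact K) (hS : S ⊆ K) : IsCompact S := by
  classical
  choose N hxN hN using hX
  obtain ⟨t, ht⟩ := hK.elim_finite_subcover (fun x => (N x : Set X)) (fun x => (N x).isOpen)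
    (fun x _ => Set.mem_iUnion.mpr ⟨x, hxN x⟩)
  have hSeq : S = ⋃ x ∈ t, (S ∩ (N x : Set X)) := by
    ext y
    constructor
    · intro hy
      have := ht (hS hy)
      simp only [Set.mem_iUnion] at this
      obtain ⟨x, hx, hyx⟩ := this
      simp only [Set.mem_iUnion]
      exact ⟨x, hx, hy, hyx⟩
    · intro hy
      simp only [Set.mem_iUnion] at hy
      obtain ⟨x, _, hy1, _⟩ := hy
      exact hy1
  rw [hSeq]
  refine t.isCompact_biUnion (fun x _ => ?_)
  have h1 : IsCompact {y : N x | (y : X) ∈ S} := NoetherianSpace.isCompact _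
  have h2 := h1.image (continuous_subtype_val)
  convert h2 using 1
  ext y
  constructor
  · rintro ⟨hyS, hyN⟩
    exact ⟨⟨y, hyN⟩, hyS, rfl⟩
  · rintro ⟨z, hz, rfl⟩
    exact ⟨hz, z.2⟩

end Groth.Agent.helper7LocNoeth
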