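import Groth.Statements.S0015
import Mathlib.AlgebraicGeometry.AffineScheme
import Mathlib.AlgebraicGeometry.Limits
import Mathlib.Topology.QuasiSeparated

set_option autoImplicit false
universe u
open Coherent

namespace Groth.Agent.S0015

open AlgebraicGeometry in
theorem isCompact_finset_sup {X : Scheme.{u}} {ι : Type*} (s : Finset ι) (f : ι → X.Opens)
    (hf : ∀ i ∈ s, IsCompact (f i : Set X)) : IsCompact ((s.sup f : X.Opens) : Set X) := by
  classical
  induction s using Finset.induction_on with
  | empty => simp
  | insert a s ha ih =>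
    rw [Finset.sup_insert, TopologicalSpace.Opens.coe_sup]
    exact (hf a (Finset.mem_insert_self a s)).union (ih fun i hi => hf i (Finset.mem_insert_of_mem hi))

open AlgebraicGeometry in
/-- Let X be quasi-compact and quasi-separated and P a property of opens of X. If P holds for affine
opens, and P(U ∪ V) follows from P(U), P(V), P(U ∩ V) whenever U is quasi-compact open and V affine
open, then P holds for every quasi-compact open, in particular for X. -/
theorem result (X : Scheme.{u}) [CompactSpace X] [QuasiSeparatedSpace X]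
    (P : X.Opens → Prop) (h₁ : ∀ U : X.Opens, IsAffineOpen U → P U)
    (h₂ : ∀ U V : X.Opens, IsCompact (U : Set X) → IsAffineOpen V → P U → P V → P (U ⊓ V) →
      P (U ⊔ V))
    (U : X.Opens) (hU : IsCompact (U : Set X)) : P U := by
  classical
  -- level 1: finite unions of basic opens of an affine open
  have L1 : ∀ (V : X.Opens), IsAffineOpen V → ∀ (n : ℕ) (s : Finset Γ(X, V)), s.card ≤ n →
      P (s.sup X.basicOpen) := by
    intro V hV n
    induction n with
    | zero =>
      intro s hs
      rw [Finset.card_eq_zero.mp (Nat.le_zero.mp hs), Finset.sup_empty]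
      exact h₁ ⊥ (isAffineOpen_bot X)
    | succ n ih =>
      intro s hs
      rcases Nat.lt_or_ge s.card (n + 1) with h | h
      · exact ih s (by omega)
      · have hc : s.card = n + 1 := le_antisymm hs h
        obtain ⟨g, t, hgt, rfl, htc⟩ := Finset.card_eq_succ.mp hc
        rw [Finset.sup_insert, sup_comm]
        refine h₂ (t.sup X.basicOpen) (X.basicOpen g)
          (isCompact_finset_sup t _ (fun f _ => (hV.basicOpen f).isCompact)) (hV.basicOpen g)
          (ih t (by omega)) (h₁ _ (hV.basicOpen g)) ?_
        rw [Finset.sup_inf_distrib_right]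
        have : (t.sup fun f => X.basicOpen f ⊓ X.basicOpen g) =
            (t.image (· * g)).sup X.basicOpen := by
          rw [Finset.sup_image]
          congr 1
          funext f
          simp [Function.comp, Scheme.basicOpen_mul]
        rw [this]
        exact ih _ (Finset.card_image_le.trans (by omega))
  -- level 1': quasi-compact opens inside an affine open
  have L1' : ∀ (V W : X.Opens), IsAffineOpen V → W ≤ V → IsCompact (W : Set X) → P W := by
    intro V W hV hWV hW
    let ι := {f : Γ(X, V) // X.basicOpen f ≤ W}
    obtain ⟨t, ht⟩ := hW.elim_finite_subcover (fun i : ι => (X.basicOpen i.1 : Set X))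
      (fun i => (X.basicOpen i.1).isOpen) (by
        intro x hx
        obtain ⟨f, hfW, hxf⟩ := hV.exists_basicOpen_le (V := W) ⟨x, hx⟩ (hWV hx)
        exact Set.mem_iUnion.mpr ⟨⟨f, hfW⟩, hxf⟩)
    have hWeq : W = (t.image Subtype.val).sup X.basicOpen := by
      refine le_antisymm ?_ ?_
      · intro x hx
        obtain ⟨i, hi, hxi⟩ := Set.mem_iUnion₂.mp (ht hx)
        exact (Finset.le_sup (f := X.basicOpen) (Finset.mem_image_of_mem Subtype.val hi)) hxi
      · refine Finset.sup_le fun f hf => ?_
        obtain ⟨i, -, rfl⟩ := Finset.mem_image.mp hf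
        exact i.2
    rw [hWeq]
    exact L1 V hV _ _ le_rfl
  -- level 2: finite unions of affine opens
  let ι := {V : X.Opens // IsAffineOpen V ∧ V ≤ U}
  have L2 : ∀ t : Finset ι, P (t.sup fun i => i.1) := by
    intro t
    induction t using Finset.induction_on with
    | empty => rw [Finset.sup_empty]; exact h₁ ⊥ (isAffineOpen_bot X)
    | insert i t hi ih =>
      rw [Finset.sup_insert, sup_comm]
      have hc : IsCompact ((t.sup fun i => i.1 : X.Opens) : Set X) :=
        isCompact_finset_sup t _ (fun j _ => j.2.1.isCompact)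
      refine h₂ _ i.1 hc i.2.1 ih (h₁ _ i.2.1) ?_
      refine L1' i.1 _ i.2.1 inf_le_right ?_
      rw [TopologicalSpace.Opens.coe_inf]
      exact QuasiSeparatedSpace.inter_isCompact _ _ (t.sup fun i => i.1).isOpen hc i.1.isOpen
        i.2.1.isCompact
  obtain ⟨t, ht⟩ := hU.elim_finite_subcover (fun i : ι => (i.1 : Set X))
    (fun i => i.1.isOpen) (by
      intro x hx
      obtain ⟨_, ⟨V, hV, rfl⟩, hxV, hVU⟩ :=
        X.isBasis_affineOpens.exists_subset_of_mem_open hx U.isOpen
      exact Set.mem_iUnion.mpr ⟨⟨V, hV, hVU⟩, hxV⟩)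
  have hUeq : U = t.sup fun i => i.1 := by
    refine le_antisymm ?_ ?_
    · intro x hx
      obtain ⟨i, hi, hxi⟩ := Set.mem_iUnion₂.mp (ht hx)
      exact (Finset.le_sup (f := fun i : ι => i.1) hi) hxi
    · exact Finset.sup_le fun i _ => i.2.2
  rw [hUeq]
  exact L2 t

end Groth.Agent.S0015
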