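import Groth.Statements.S0081
-- import your own Groth.Agent.* helpers here

set_option autoImplicit false
open CategoryTheory CategoryTheory.Limits AlgebraicGeometry Opposite
universe u
open EtBase

namespace Groth.Agent.S0081

/-- Separatedness descends along a quasi-compact flat surjective base change: if the base change of a
morphism along a quasi-compact, flat, surjective morphism is separated, then so is the morphism.
(Stated for a single quasi-compact faithfully flat cover; combined with Zariski-locality on the
target this gives the fpqc-local statement.) -/
theorem result :
    MorphismProperty.DescendsAlong @IsSeparated (@Surjective ⊓ @Flat ⊓ @QuasiCompact : MorphismProperty Scheme.{u}) := by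
  have hD : MorphismProperty.DescendsAlong (MorphismProperty.diagonal @UniversallyClosed)
      (@Surjective ⊓ @Flat ⊓ @QuasiCompact : MorphismProperty Scheme.{u}) := by
    have j0 : MorphismProperty.DescendsAlong @UniversallyClosed
        (@Surjective ⊓ @Flat ⊓ @QuasiCompact : MorphismProperty Scheme.{u}) := inferInstance
    have j1 : MorphismProperty.IsStableUnderBaseChange (@Surjective : MorphismProperty Scheme.{u}) := inferInstance
    have j2 : MorphismProperty.IsStableUnderBaseChange (@Flat : MorphismProperty Scheme.{u}) := inferInstance
    have j3 : MorphismProperty.IsStableUnderBaseChange (@QuasiCompact : MorphismProperty Scheme.{u}) := inferInstance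
    have i1 : MorphismProperty.IsStableUnderBaseChange
        (@Surjective ⊓ @Flat ⊓ @QuasiCompact : MorphismProperty Scheme.{u}) :=
      @MorphismProperty.IsStableUnderBaseChange.inf _ _ _ _
        (@MorphismProperty.IsStableUnderBaseChange.inf _ _ _ _ j1 j2) j3
    have i2 : MorphismProperty.RespectsIso (@UniversallyClosed : MorphismProperty Scheme.{u}) :=
      MorphismProperty.respectsIso_of_isStableUnderComposition (fun _ _ f (_ : IsIso f) => inferInstance)
    exact @MorphismProperty.instDescendsAlongDiagonalOfRespectsIsoOfIsStableUnderBaseChange _ _ _ _ _ j0 i2 i1
  constructor
  intro A X Y Z fst snd f g h hf hfst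
  have h1 : MorphismProperty.diagonal @UniversallyClosed fst := by
    show UniversallyClosed (pullback.diagonal fst)
    infer_instance
  have h2 : MorphismProperty.diagonal @UniversallyClosed g := hD.of_isPullback h hf h1
  have h3 : UniversallyClosed (pullback.diagonal g) := h2
  constructor
  exact IsClosedImmersion.of_isPreimmersion _ (pullback.diagonal g).isClosedMap.isClosed_range

end Groth.Agent.S0081
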