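import Groth.Statements.S0086
import Groth.Agent.S0081
import Mathlib.AlgebraicGeometry.Morphisms.LocalFlatDescent
-- import your own Groth.Agent.* helpers here

set_option autoImplicit false
open CategoryTheory CategoryTheory.Limits AlgebraicGeometry Opposite
universe u
open EtBase

namespace Groth.Agent.S0086

/-- If the base change of a morphism of schemes along a quasi-compact, flat, surjective morphism is
proper, then the morphism itself is proper. (Stated for a single quasi-compact flat surjective base
change; together with Zariski-locality on the target this is fpqc descent for properness.) -/
theorem result :
    MorphismProperty.DescendsAlong @IsProper (@Surjective ⊓ @Flat ⊓ @QuasiCompact : MorphismProperty Scheme.{u}) := by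
  have h1 := Groth.Agent.S0081.result.{u}
  have h2 : MorphismProperty.DescendsAlong @UniversallyClosed
      (@Surjective ⊓ @Flat ⊓ @QuasiCompact : MorphismProperty Scheme.{u}) := inferInstance
  have h3 : MorphismProperty.DescendsAlong @LocallyOfFiniteType
      (@Surjective ⊓ @Flat ⊓ @QuasiCompact : MorphismProperty Scheme.{u}) := inferInstance
  constructor
  intro A X Y Z fst snd f g h hf hfst
  have hp : IsProper fst := hfst
  have a1 : IsSeparated g := h1.of_isPullback h hf (show IsSeparated fst by infer_instance)
  have a2 : UniversallyClosed g := h2.of_isPullback h hf (show UniversallyClosed fst by infer_instance)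
  have a3 : LocallyOfFiniteType g := h3.of_isPullback h hf (show LocallyOfFiniteType fst by infer_instance)
  exact IsProper.mk

end Groth.Agent.S0086
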