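import Groth.Statements.S0275
import Mathlib.LinearAlgebra.TensorProduct.Finiteness
import Mathlib.LinearAlgebra.TensorProduct.RightExactness
import Mathlib.LinearAlgebra.TensorProduct.Tower
import Mathlib.RingTheory.Finiteness.Basic

set_option autoImplicit false
universe u
open scoped TensorProduct
open Pi1

namespace Groth.Agent.S0275

/-- If `S ⊗[R] M` is finite over `S` then there is a finitely generated submodule `N'` of `M` with
`S ⊗ N' → S ⊗ M` surjective. -/
theorem exists_fg_lTensor_surjective (R S : Type u) [CommRing R] [CommRing S] [Algebra R S]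
    (M : Type u) [AddCommGroup M] [Module R M] [Module.Finite S (S ⊗[R] M)] :
    ∃ N' : Submodule R M, Module.Finite R N' ∧
      Function.Surjective (LinearMap.lTensor S N'.subtype) := by
  obtain ⟨n, g, hg⟩ := Module.Finite.exists_fin (R := S) (M := S ⊗[R] M)
  obtain ⟨N', hfin, hsub⟩ := TensorProduct.exists_finite_submodule_right_of_setFinite
    (Set.range g) (Set.finite_range g)
  refine ⟨N', hfin, ?_⟩
  let L : Submodule S (S ⊗[R] M) := LinearMap.range ((N'.subtype).baseChange S)
  have hL : L = ⊤ := by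
    rw [eq_top_iff, ← hg, Submodule.span_le]
    rintro _ ⟨k, rfl⟩
    obtain ⟨x, hx⟩ := hsub ⟨k, rfl⟩
    exact ⟨x, by rw [LinearMap.baseChange_eq_ltensor]; exact hx⟩
  intro y
  have hy : y ∈ L := by rw [hL]; trivial
  obtain ⟨x, hx⟩ := hy
  exact ⟨x, by rw [← LinearMap.baseChange_eq_ltensor]; exact hx⟩

/-- Let R -> S be universally injective and M an R-module such that S ⊗_R M is finitely generated over
S. Then M is finitely generated over R. -/
theorem result (R S : Type u) [CommRing R] [CommRing S] [Algebra R S]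
    (h : Pi1.UnivInjective R S) (M : Type u) [AddCommGroup M] [Module R M]
    [Module.Finite S (S ⊗[R] M)] : Module.Finite R M := by
  obtain ⟨N', hfin, hsurj⟩ := exists_fg_lTensor_surjective R S M
  -- `S ⊗ (M ⧸ N') = 0`
  have hex := lTensor_exact S (LinearMap.exact_subtype_mkQ N') (Submodule.mkQ_surjective N')
  have hsurj2 := LinearMap.lTensor_surjective S (Submodule.mkQ_surjective N')
  have hzero : Subsingleton (S ⊗[R] (M ⧸ N')) := by
    refine ⟨fun z w => ?_⟩
    obtain ⟨z, rfl⟩ := hsurj2 z
    obtain ⟨w, rfl⟩ := hsurj2 w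
    have hz : LinearMap.lTensor S N'.mkQ z = 0 := (hex z).mpr (hsurj z)
    have hw : LinearMap.lTensor S N'.mkQ w = 0 := (hex w).mpr (hsurj w)
    rw [hz, hw]
  -- universal injectivity with `P = M ⧸ N'`
  have hinj := h (M ⧸ N')
  have hsub2 : Subsingleton ((M ⧸ N') ⊗[R] S) :=
    (TensorProduct.comm R (M ⧸ N') S).toEquiv.subsingleton
  have hsub3 : Subsingleton ((M ⧸ N') ⊗[R] R) := hinj.subsingleton
  have hsub4 : Subsingleton (M ⧸ N') := (TensorProduct.rid R (M ⧸ N')).symm.toEquiv.subsingleton
  have htop : N' = ⊤ := Submodule.Quotient.subsingleton_iff.mp hsub4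
  have hfg : N'.FG := Module.Finite.iff_fg.mp hfin
  rw [htop] at hfg
  exact Module.finite_def.mpr hfg

end Groth.Agent.S0275
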