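import Groth.Statements.S0276
import Groth.Agent.S0275
import Mathlib.Algebra.Module.FinitePresentation
import Mathlib.LinearAlgebra.TensorProduct.Finiteness
import Mathlib.LinearAlgebra.TensorProduct.RightExactness
import Mathlib.LinearAlgebra.TensorProduct.Tower

set_option autoImplicit false
universe u
open scoped TensorProduct
open Pi1

namespace Groth.Agent.S0276

/-- Let R -> S be universally injective and M an R-module such that S ⊗_R M is finitely presented over
S. Then M is finitely presented over R. -/
theorem result (R S : Type u) [CommRing R] [CommRing S] [Algebra R S]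
    (h : Pi1.UnivInjective R S) (M : Type u) [AddCommGroup M] [Module R M]
    [Module.FinitePresentation S (S ⊗[R] M)] : Module.FinitePresentation R M := by
  classical
  have hfinM : Module.Finite R M := Groth.Agent.S0275.result R S h M
  obtain ⟨n, π, hπ⟩ := Module.Finite.exists_fin' R M
  let K := LinearMap.ker π
  let πS : S ⊗[R] (Fin n → R) →ₗ[S] S ⊗[R] M := π.baseChange S
  have hπS : Function.Surjective πS := by
    intro y
    obtain ⟨x, hx⟩ := LinearMap.lTensor_surjective S hπ y
    exact ⟨x, by rw [LinearMap.baseChange_eq_ltensor]; exact hx⟩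
  have hkerfg : (LinearMap.ker πS).FG := Module.FinitePresentation.fg_ker πS hπS
  have hex := lTensor_exact S (LinearMap.exact_subtype_ker_map π) hπ
  obtain ⟨G, hG⟩ := hkerfg
  have hGK : ∀ g : G, ∃ z : S ⊗[R] K, LinearMap.lTensor S K.subtype z = g.1 := by
    intro g
    have hg : g.1 ∈ LinearMap.ker πS := hG ▸ Submodule.subset_span g.2
    have hg' : LinearMap.lTensor S π g.1 = 0 := by
      rw [← LinearMap.baseChange_eq_ltensor]; exact hg
    exact (hex g.1).mp hg'
  choose z hz using hGK
  obtain ⟨K', hK'fin, hK'⟩ := TensorProduct.exists_finite_submodule_right_of_setFinite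
    (Set.range z) (Set.finite_range z)
  let ι : K' →ₗ[R] (Fin n → R) := K.subtype ∘ₗ K'.subtype
  -- the generators of `ker πS` lie in the range of `S ⊗ K' → S ⊗ R^n`
  let L : Submodule S (S ⊗[R] (Fin n → R)) := LinearMap.range (ι.baseChange S)
  have hkerL : LinearMap.ker πS ≤ L := by
    rw [← hG, Submodule.span_le]
    intro g hg
    obtain ⟨w, hw⟩ := hK' ⟨⟨g, hg⟩, rfl⟩
    refine ⟨w, ?_⟩
    rw [LinearMap.baseChange_eq_ltensor]
    simp only [ι, LinearMap.lTensor_comp, LinearMap.comp_apply]
    rw [hw, hz]
  -- every element of `K` lies in the range of `ι`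
  have hK : K ≤ LinearMap.range ι := by
    intro k hk
    let P := (Fin n → R) ⧸ LinearMap.range ι
    let p : P := Submodule.Quotient.mk k
    have h1 : (1 : S) ⊗ₜ[R] k ∈ LinearMap.ker πS := by
      show π.baseChange S ((1 : S) ⊗ₜ[R] k) = 0
      rw [LinearMap.baseChange_tmul]
      have : π k = 0 := hk
      rw [this, TensorProduct.tmul_zero]
    obtain ⟨w, hw⟩ := hkerL h1
    have h2 : (1 : S) ⊗ₜ[R] p = 0 := by
      have e1 : (1 : S) ⊗ₜ[R] p = LinearMap.lTensor S (LinearMap.range ι).mkQ ((1 : S) ⊗ₜ[R] k) := by
        rfl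
      rw [e1, ← hw, LinearMap.baseChange_eq_ltensor, ← LinearMap.comp_apply,
        ← LinearMap.lTensor_comp]
      have e2 : (LinearMap.range ι).mkQ ∘ₗ ι = 0 := by
        ext x
        simp
      rw [e2, LinearMap.lTensor_zero, LinearMap.zero_apply]
    have h3 : LinearMap.lTensor P (Algebra.linearMap R S) (p ⊗ₜ[R] (1 : R)) = 0 := by
      rw [LinearMap.lTensor_tmul, Algebra.linearMap_apply, map_one]
      have := congrArg (TensorProduct.comm R S P) h2
      simpa using this
    have h4 : p ⊗ₜ[R] (1 : R) = 0 := (h P) (by rw [h3, map_zero])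
    have h5 : p = 0 := by
      have := congrArg (TensorProduct.rid R P) h4
      simpa using this
    exact (Submodule.Quotient.mk_eq_zero _).mp h5
  have hKeq : K = LinearMap.range ι := by
    refine le_antisymm hK ?_
    rintro _ ⟨x, rfl⟩
    exact (x.1).2
  have hKfg : K.FG := by
    rw [hKeq, ← Submodule.map_top]
    exact (Module.Finite.fg_top).map ι
  exact Module.finitePresentation_of_surjective π hπ hKfg

end Groth.Agent.S0276
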