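import Groth.Statements.S0277
import Mathlib.LinearAlgebra.TensorProduct.Finiteness
import Mathlib.LinearAlgebra.TensorProduct.RightExactness
import Mathlib.RingTheory.FiniteType
import Mathlib.RingTheory.TensorProduct.Basic

set_option autoImplicit false
universe u
open scoped TensorProduct
open Pi1

namespace Groth.Agent.S0277

/-- Let R -> S be universally injective and A an R-algebra such that S ⊗_R A is of finite type over S.
Then A is of finite type over R. -/
theorem result (R S : Type u) [CommRing R] [CommRing S] [Algebra R S]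
    (h : Pi1.UnivInjective R S) (A : Type u) [CommRing A] [Algebra R A]
    [Algebra.FiniteType S (S ⊗[R] A)] : Algebra.FiniteType R A := by
  classical
  obtain ⟨t, ht⟩ := (Algebra.FiniteType.out : (⊤ : Subalgebra S (S ⊗[R] A)).FG)
  obtain ⟨N', hfin, hsub⟩ := TensorProduct.exists_finite_submodule_right_of_setFinite
    (t : Set (S ⊗[R] A)) t.finite_toSet
  obtain ⟨T, hT⟩ := Module.Finite.iff_fg.mp hfin
  let A' : Subalgebra R A := Algebra.adjoin R (T : Set A)
  have hN'A' : ∀ n ∈ N', n ∈ A' := by
    intro n hn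
    rw [← hT] at hn
    exact Algebra.span_le_adjoin R _ hn
  let f : A' →ₗ[R] A := A'.val.toLinearMap
  let B : Submodule R A := LinearMap.range f
  have hexact : Function.Exact f B.mkQ := by
    rw [LinearMap.exact_iff, Submodule.ker_mkQ]
  -- the algebra map `S ⊗ A' → S ⊗ A`
  let F : S ⊗[R] A' →ₐ[S] S ⊗[R] A := Algebra.TensorProduct.map (AlgHom.id S S) A'.val
  have hF : ∀ x, F x = LinearMap.lTensor S f x := by
    intro x
    induction x using TensorProduct.induction_on with
    | zero => simp
    | tmul s a => simp [F, f]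
    | add x y hx hy => rw [map_add, map_add, hx, hy]
  let incl : N' →ₗ[R] A' :=
    { toFun := fun n => ⟨n, hN'A' n n.2⟩
      map_add' := fun _ _ => rfl
      map_smul' := fun _ _ => rfl }
  have hincl : f ∘ₗ incl = N'.subtype := by
    ext n
    rfl
  have hrange : F.range = ⊤ := by
    rw [eq_top_iff, ← ht, Algebra.adjoin_le_iff]
    intro y hy
    obtain ⟨x, hx⟩ := hsub hy
    refine ⟨LinearMap.lTensor S incl x, ?_⟩
    show F (LinearMap.lTensor S incl x) = y
    rw [hF, ← LinearMap.lTensor_comp_apply, hincl]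
    exact hx
  have hsurj : Function.Surjective (LinearMap.lTensor S f) := by
    intro y
    have hy : y ∈ F.range := by rw [hrange]; trivial
    obtain ⟨x, hx⟩ := hy
    exact ⟨x, by rw [← hF]; exact hx⟩
  have hex := lTensor_exact S hexact (Submodule.mkQ_surjective B)
  have hsurj2 := LinearMap.lTensor_surjective S (Submodule.mkQ_surjective B)
  have hzero : Subsingleton (S ⊗[R] (A ⧸ B)) := by
    refine ⟨fun z w => ?_⟩
    obtain ⟨z, rfl⟩ := hsurj2 z
    obtain ⟨w, rfl⟩ := hsurj2 w
    have hz : LinearMap.lTensor S B.mkQ z = 0 := (hex z).mpr (hsurj z)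
    have hw : LinearMap.lTensor S B.mkQ w = 0 := (hex w).mpr (hsurj w)
    rw [hz, hw]
  have hinj := h (A ⧸ B)
  have hsub2 : Subsingleton ((A ⧸ B) ⊗[R] S) :=
    (TensorProduct.comm R (A ⧸ B) S).toEquiv.subsingleton
  have hsub3 : Subsingleton ((A ⧸ B) ⊗[R] R) := hinj.subsingleton
  have hsub4 : Subsingleton (A ⧸ B) := (TensorProduct.rid R (A ⧸ B)).symm.toEquiv.subsingleton
  have htop : B = ⊤ := Submodule.Quotient.subsingleton_iff.mp hsub4
  have hA' : A' = ⊤ := by
    rw [eq_top_iff]
    intro a _
    have ha : a ∈ B := by rw [htop]; trivial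
    obtain ⟨x, rfl⟩ := ha
    exact x.2
  exact ⟨⟨T, hA'⟩⟩

end Groth.Agent.S0277
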