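import Groth.Statements.S0299
import Groth.Agent.Lib_helper1_InjHull
import Mathlib.Algebra.Category.ModuleCat.EnoughInjectives
import Mathlib.Algebra.Category.ModuleCat.Injective

set_option autoImplicit false
universe u v
open InjHull

namespace Groth.Agent.S0299

/-- Every module has an injective hull. -/
theorem result (R : Type u) [CommRing R] (M : Type u) [AddCommGroup M] [Module R M] : ∃ (E : Type u) (_ : AddCommGroup E) (_ : Module R E) (f : M →ₗ[R] E), InjHull.IsInjectiveHull f := by
  let Mc : ModuleCat.{u} R := ModuleCat.of R M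
  let Q : ModuleCat.{u} R := CategoryTheory.Injective.under Mc
  let ι : Mc ⟶ Q := CategoryTheory.Injective.ι Mc
  have hιinj : Function.Injective ι.hom := (ModuleCat.mono_iff_injective ι).mp inferInstance
  have hQinj : Module.Injective R Q := by
    have : CategoryTheory.Injective (ModuleCat.of R Q) := (inferInstance : CategoryTheory.Injective Q)
    exact Module.injective_module_of_injective_object R Q
  let i : M →ₗ[R] Q := ι.hom
  obtain ⟨K, C, hNK, -, hKC, hess⟩ :=
    Groth.Agent.Lib_helper1_InjHull.exists_isCompl_ess_of_disjoint hQinj (LinearMap.range i) ⊥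
      disjoint_bot_right
  let f : M →ₗ[R] K := i.codRestrict K (fun m => hNK ⟨m, rfl⟩)
  have hfinj : Function.Injective f := by
    intro a b hab
    apply hιinj
    have := congrArg Subtype.val hab
    exact this
  refine ⟨K, inferInstance, inferInstance, f, ⟨⟨hfinj, fun N hN => ?_⟩,
    Groth.Agent.Lib_helper1_InjHull.injective_of_isCompl hQinj K C hKC⟩⟩
  have hN' : N.map K.subtype ≠ ⊥ := fun h => hN
    (Submodule.map_injective_of_injective K.injective_subtype (h.trans (Submodule.map_bot _).symm))
  have h1 := hess _ (Submodule.map_subtype_le K N) hN'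
  obtain ⟨x, ⟨⟨k, hkN, rfl⟩, ⟨m, hm⟩⟩, hx0⟩ := (Submodule.ne_bot_iff _).mp h1
  refine (Submodule.ne_bot_iff _).mpr ⟨k, ⟨hkN, m, ?_⟩, ?_⟩
  · apply Subtype.ext
    exact hm
  · intro h
    apply hx0
    rw [h]
    rfl

end Groth.Agent.S0299
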