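import Groth.Statements.S0300
import Mathlib.Algebra.Module.Injective
import Mathlib.Algebra.DirectSum.Module
import Mathlib.RingTheory.Noetherian.Basic

set_option autoImplicit false
universe u v
open InjHull

namespace Groth.Agent.S0300

open Classical in
theorem dsum_eq_sum_of_support_subset {R : Type u} [CommRing R] {ι : Type u} (E : ι → Type u)
    [∀ i, AddCommGroup (E i)] [∀ i, Module R (E i)] (y : DirectSum ι E) (s : Finset ι)
    (hs : DFinsupp.support y ⊆ s) :
    ∑ i ∈ s, DirectSum.lof R ι E i (DirectSum.component R ι E i y) = y := by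
  have h1 : ∑ i ∈ DFinsupp.support y, DirectSum.lof R ι E i (DirectSum.component R ι E i y) = y := by
    simpa [DirectSum.lof_eq_of, ← DirectSum.apply_eq_component] using DirectSum.sum_support_of y
  calc ∑ i ∈ s, DirectSum.lof R ι E i (DirectSum.component R ι E i y)
      = ∑ i ∈ DFinsupp.support y, DirectSum.lof R ι E i (DirectSum.component R ι E i y) := by
        symm
        apply Finset.sum_subset hs
        intro i _ hi
        have : y i = 0 := DFinsupp.notMem_support_iff.mp hi
        rw [← DirectSum.apply_eq_component, this, map_zero]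
    _ = y := h1

theorem result (R : Type u) [CommRing R] [IsNoetherianRing R] {ι : Type u} (E : ι → Type u) [∀ i, AddCommGroup (E i)] [∀ i, Module R (E i)] (hE : ∀ i, Module.Injective R (E i)) : Module.Injective R (DirectSum ι E) := by
  classical
  refine Module.Baer.injective ?_
  intro I g
  obtain ⟨n, v, hv⟩ := Module.Finite.exists_fin (R := R) (M := I)
  let s : Finset ι := Finset.univ.biUnion (fun k => DFinsupp.support (g (v k)))
  have hext : ∀ i, ∃ gi : R →ₗ[R] E i, ∀ (x : R) (mem : x ∈ I),
      gi x = (DirectSum.component R ι E i ∘ₗ g) ⟨x, mem⟩ :=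
    fun i => Module.Baer.of_injective (hE i) I _
  choose gi hgi using hext
  refine ⟨∑ i ∈ s, DirectSum.lof R ι E i ∘ₗ gi i, ?_⟩
  have key : (∑ i ∈ s, DirectSum.lof R ι E i ∘ₗ DirectSum.component R ι E i) ∘ₗ g = g := by
    apply LinearMap.ext_on_range hv
    intro k
    rw [LinearMap.comp_apply, LinearMap.sum_apply]
    exact dsum_eq_sum_of_support_subset E _ s
      (Finset.subset_biUnion_of_mem (fun k => DFinsupp.support (g (v k))) (Finset.mem_univ k))
  intro x mem
  have := congrArg (fun φ => φ ⟨x, mem⟩) key
  simp only [LinearMap.comp_apply, LinearMap.sum_apply] at this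
  rw [LinearMap.sum_apply]
  rw [← this]
  refine Finset.sum_congr rfl (fun i _ => ?_)
  rw [LinearMap.comp_apply, hgi i x mem]
  rfl

end Groth.Agent.S0300
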