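import Groth.Statements.S0301
import Mathlib.Algebra.Module.Injective
import Mathlib.RingTheory.Filtration
import Mathlib.Algebra.Module.Torsion.Basic

set_option autoImplicit false
universe u v
open InjHull

namespace Groth.Agent.S0301

/-- Over a Noetherian ring, the submodule of an injective module consisting of the elements killed by
some power of a given ideal is again injective. -/
theorem result (R : Type u) [CommRing R] [IsNoetherianRing R] (I : Type u) [AddCommGroup I] [Module R I] (hI : Module.Injective R I) (J : Ideal R) : Module.Injective R ↥(⨆ n : ℕ, Submodule.torsionBySet R I ((J ^ n : Ideal R) : Set R)) := by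
  set T : ℕ → Submodule R I := fun n => Submodule.torsionBySet R I ((J ^ n : Ideal R) : Set R)
    with hT
  set Γ := ⨆ n, T n with hΓ
  have hTmono : Monotone T := fun i j h => Submodule.torsionBySet_le_torsionBySet_pow i j h J
  have hmemΓ : ∀ x, x ∈ Γ ↔ ∃ n, x ∈ T n := fun x =>
    Submodule.mem_iSup_of_directed T hTmono.directed_le
  have hTn : ∀ n x, x ∈ T n ↔ ∀ r ∈ J ^ n, r • x = 0 := by
    intro n x
    rw [hT, Submodule.mem_torsionBySet_iff]
    exact ⟨fun h r hr => h ⟨r, hr⟩, fun h a => h a.1 a.2⟩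
  apply Module.Baer.injective
  intro 𝔞 g
  -- Step 1: the image of `g` is killed by a fixed power of `J`
  obtain ⟨n, hn⟩ : ∃ n, ∀ a : 𝔞, ((g a : Γ) : I) ∈ T n := by
    let A : ℕ →o Submodule R 𝔞 :=
      ⟨fun m => (T m).comap (Γ.subtype ∘ₗ g), fun i j h => Submodule.comap_mono (hTmono h)⟩
    obtain ⟨N, hN⟩ := monotone_stabilizes_iff_noetherian.mpr inferInstance A
    refine ⟨N, fun a => ?_⟩
    obtain ⟨m, hm⟩ := (hmemΓ _).mp (g a).2
    have : a ∈ A (max N m) := hTmono (le_max_right N m) hm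
    rw [← hN (max N m) (le_max_left _ _)] at this
    exact this
  -- Step 2: Artin–Rees
  obtain ⟨k, hk⟩ := Ideal.exists_pow_inf_eq_pow_smul J (𝔞 : Submodule R R)
  set m := n + k with hm
  have hAR : ∀ a ∈ 𝔞, a ∈ J ^ m → a ∈ J ^ n • (𝔞 : Submodule R R) := by
    intro a ha hJ
    have h0 : a ∈ J ^ m • (⊤ : Submodule R R) := by
      have := Submodule.smul_mem_smul hJ (Submodule.mem_top : (1 : R) ∈ (⊤ : Submodule R R))
      simpa using this
    have h1 : a ∈ J ^ m • (⊤ : Submodule R R) ⊓ 𝔞 := ⟨h0, ha⟩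
    rw [hk m (by omega)] at h1
    have : m - k = n := by omega
    rw [this] at h1
    have h2 : J ^ n • (J ^ k • ⊤ ⊓ (𝔞 : Submodule R R)) ≤ J ^ n • (𝔞 : Submodule R R) :=
      Submodule.smul_mono le_rfl inf_le_right
    exact h2 h1
  have key : ∀ x (hx : x ∈ J ^ n • (𝔞 : Submodule R R)), g ⟨x, Submodule.smul_le_right hx⟩ = 0 := by
    intro x hx
    induction hx using Submodule.smul_induction_on' with
    | smul r hr b hb =>
      have : (⟨r • b, Submodule.smul_le_right (Submodule.smul_mem_smul hr hb)⟩ : 𝔞) =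
          r • ⟨b, hb⟩ := rfl
      rw [this, map_smul]
      apply Subtype.ext
      rw [Submodule.coe_smul, Submodule.coe_zero]
      exact (hTn n _).mp (hn ⟨b, hb⟩) r hr
    | add x hx y hy ihx ihy =>
      have : (⟨x + y, Submodule.smul_le_right (add_mem hx hy)⟩ : 𝔞) =
          ⟨x, Submodule.smul_le_right hx⟩ + ⟨y, Submodule.smul_le_right hy⟩ := rfl
      rw [this, map_add, ihx, ihy, add_zero]
  have hvan : ∀ a (ha : a ∈ 𝔞), a ∈ J ^ m → g ⟨a, ha⟩ = 0 := fun a ha hJ =>
    key a (hAR a ha hJ)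
  -- Step 3: extend
  let q : 𝔞 →ₗ[R] R ⧸ (J ^ m) := (J ^ m).mkQ ∘ₗ (𝔞 : Submodule R R).subtype
  let K := LinearMap.ker q
  let qbar : (𝔞 ⧸ K) →ₗ[R] R ⧸ J ^ m := K.liftQ q le_rfl
  have hqbar : Function.Injective qbar := by
    rw [← LinearMap.ker_eq_bot]
    exact Submodule.ker_liftQ_eq_bot _ _ _ le_rfl
  let gI : 𝔞 →ₗ[R] I := Γ.subtype ∘ₗ g
  have hKg : K ≤ LinearMap.ker gI := by
    intro a ha
    have h1 : (a : R) ∈ J ^ m := (Submodule.Quotient.mk_eq_zero _).mp ha
    have h2 := hvan a a.2 h1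
    simp only [LinearMap.mem_ker, gI, LinearMap.coe_comp, Function.comp_apply,
      Submodule.coe_subtype]
    rw [show (⟨(a : R), a.2⟩ : 𝔞) = a from rfl] at h2
    rw [h2, Submodule.coe_zero]
  let gbar : (𝔞 ⧸ K) →ₗ[R] I := K.liftQ gI hKg
  obtain ⟨h, hh⟩ := Module.Injective.out (R := R) (Q := I) qbar hqbar gbar
  set x := h (Submodule.Quotient.mk 1) with hx_def
  have hx : x ∈ Γ := by
    rw [hmemΓ]
    refine ⟨m, ?_⟩
    rw [hTn]
    intro r hr
    rw [hx_def, ← map_smul]
    have : r • (Submodule.Quotient.mk 1 : R ⧸ J ^ m) = 0 := by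
      rw [← Submodule.Quotient.mk_smul, smul_eq_mul, mul_one, Submodule.Quotient.mk_eq_zero]
      exact hr
    rw [this, map_zero]
  refine ⟨LinearMap.toSpanSingleton R Γ ⟨x, hx⟩, fun a ha => ?_⟩
  apply Subtype.ext
  rw [LinearMap.toSpanSingleton_apply, Submodule.coe_smul]
  have e1 : a • x = h (Submodule.Quotient.mk a) := by
    rw [hx_def, ← map_smul, ← Submodule.Quotient.mk_smul, smul_eq_mul, mul_one]
  have e2 : (Submodule.Quotient.mk a : R ⧸ J ^ m) = qbar (Submodule.Quotient.mk ⟨a, ha⟩) := rfl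
  rw [e1, e2, hh]
  rfl

end Groth.Agent.S0301
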