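import Groth.Statements.S0303
import Mathlib.Algebra.Module.Injective

set_option autoImplicit false
universe u v
open InjHull

namespace Groth.Agent.S0303

/-- A linear map out of the target of an essential injection is injective as soon as its composite
with the essential injection is. -/
theorem injective_of_essential {R : Type u} [CommRing R] {M E E' : Type u} [AddCommGroup M]
    [Module R M] [AddCommGroup E] [Module R E] [AddCommGroup E'] [Module R E']
    (f : M →ₗ[R] E) (hf : InjHull.IsEssentialInj f) (h : E →ₗ[R] E')
    (hhf : Function.Injective (h ∘ₗ f)) : Function.Injective h := by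
  rw [← LinearMap.ker_eq_bot]
  by_contra hne
  apply hf.essential _ hne
  rw [eq_bot_iff]
  rintro x ⟨hx1, ⟨m, rfl⟩⟩
  have hm : (h ∘ₗ f) m = 0 := hx1
  have : m = 0 := hhf (by rw [hm, map_zero])
  simp [this]

/-- The range of an injective linear map out of an injective module is injective. -/
theorem injective_range {R : Type u} [CommRing R] {E E' : Type u} [AddCommGroup E] [Module R E]
    [AddCommGroup E'] [Module R E'] (hE : Module.Injective R E) (h : E →ₗ[R] E')
    (hh : Function.Injective h) : Module.Injective R (LinearMap.range h) :=
  Module.Baer.injective ((Module.Baer.of_injective hE).of_equiv (LinearEquiv.ofInjective h hh))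

/-- An injective submodule admits a retraction. -/
theorem exists_retraction {R : Type u} [CommRing R] {E' : Type u} [AddCommGroup E'] [Module R E']
    (N : Submodule R E') (hN : Module.Injective R N) :
    ∃ r : E' →ₗ[R] N, ∀ x : N, r x = x := by
  obtain ⟨r, hr⟩ := Module.Injective.out (R := R) (Q := N) N.subtype N.injective_subtype
    LinearMap.id
  exact ⟨r, hr⟩

/-- An injective submodule is a direct summand. -/
theorem exists_isCompl {R : Type u} [CommRing R] {E' : Type u} [AddCommGroup E'] [Module R E']
    (N : Submodule R E') (hN : Module.Injective R N) : ∃ C : Submodule R E', IsCompl N C := by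
  obtain ⟨r, hr⟩ := exists_retraction N hN
  refine ⟨LinearMap.ker r, ?_, ?_⟩
  · rw [Submodule.disjoint_def]
    intro x hx1 hx2
    have h1 : r x = 0 := hx2
    have h2 : r x = ⟨x, hx1⟩ := hr ⟨x, hx1⟩
    have : (⟨x, hx1⟩ : N) = 0 := h2.symm.trans h1
    exact congrArg Subtype.val this
  · rw [codisjoint_iff, eq_top_iff]
    intro y _
    have hy : y = (r y : E') + (y - r y) := by abel
    rw [hy]
    refine Submodule.add_mem_sup (r y).2 ?_
    show r (y - r y) = 0
    rw [map_sub, hr (r y), sub_self]

/-- If M → E is an injective hull and M → I is any embedding into an injective module, then E embeds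
into I compatibly with M and its image is a direct summand of I. -/
theorem result (R : Type u) [CommRing R] (M : Type u) [AddCommGroup M] [Module R M] (E : Type u) [AddCommGroup E] [Module R E] (I : Type u) [AddCommGroup I] [Module R I] (f : M →ₗ[R] E) (hf : InjHull.IsInjectiveHull f) (i : M →ₗ[R] I) (hi : Function.Injective i) (hI : Module.Injective R I) : ∃ α : E →ₗ[R] I, Function.Injective α ∧ α ∘ₗ f = i ∧ ∃ I' : Submodule R I, IsCompl (LinearMap.range α) I' := by
  obtain ⟨α, hα⟩ := Module.Injective.out (R := R) (Q := I) f hf.injective i
  have hαf : α ∘ₗ f = i := LinearMap.ext hα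
  have hαinj : Function.Injective α :=
    injective_of_essential f hf.toIsEssentialInj α (by rw [hαf]; exact hi)
  refine ⟨α, hαinj, hαf, ?_⟩
  exact exists_isCompl _ (injective_range hf.isInjective α hαinj)

end Groth.Agent.S0303
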