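import Groth.Statements.S0302
import Groth.Agent.S0303

set_option autoImplicit false
universe u v
open InjHull

namespace Groth.Agent.S0302

/-- Two injective hulls of the same module are isomorphic by an isomorphism compatible with the two
embeddings. -/
theorem result (R : Type u) [CommRing R] (M : Type u) [AddCommGroup M] [Module R M] (E : Type u) [AddCommGroup E] [Module R E] (E' : Type u) [AddCommGroup E'] [Module R E'] (f : M →ₗ[R] E) (hf : InjHull.IsInjectiveHull f) (g : M →ₗ[R] E') (hg : InjHull.IsInjectiveHull g) : ∃ e : E ≃ₗ[R] E', e.toLinearMap ∘ₗ f = g := by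
  have := hg.isInjective
  obtain ⟨h, hh⟩ := Module.Injective.out (R := R) (Q := E') f hf.injective g
  have hhf : h ∘ₗ f = g := LinearMap.ext hh
  have hinj : Function.Injective h :=
    Groth.Agent.S0303.injective_of_essential f hf.toIsEssentialInj h (by rw [hhf]; exact hg.injective)
  obtain ⟨C, hC⟩ := Groth.Agent.S0303.exists_isCompl _
    (Groth.Agent.S0303.injective_range hf.isInjective h hinj)
  have hCbot : C = ⊥ := by
    by_contra hne
    apply hg.essential C hne
    rw [eq_bot_iff]
    have hle : LinearMap.range g ≤ LinearMap.range h := by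
      rw [← hhf, LinearMap.range_comp]
      exact LinearMap.map_le_range
    calc C ⊓ LinearMap.range g ≤ C ⊓ LinearMap.range h := inf_le_inf_left _ hle
      _ = ⊥ := hC.disjoint.symm.eq_bot
  have htop : LinearMap.range h = ⊤ := by
    have := hC.codisjoint
    rw [hCbot] at this
    exact codisjoint_bot.mp this
  have hsurj : Function.Surjective h := LinearMap.range_eq_top.mp htop
  refine ⟨LinearEquiv.ofBijective h ⟨hinj, hsurj⟩, ?_⟩
  ext m
  simp only [LinearMap.coe_comp, LinearEquiv.coe_coe, Function.comp_apply]
  exact hh m

end Groth.Agent.S0302
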