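import Groth.Statements.S0304
import Groth.Agent.Lib_helper1_InjHull

set_option autoImplicit false
universe u v
open InjHull

namespace Groth.Agent.S0304

/-- An indecomposable injective module is uniform (any two nonzero submodules meet), and its zero
divisors form a prime ideal. -/
theorem result (R : Type u) [CommRing R] (E : Type u) [AddCommGroup E] [Module R E] (hE : InjHull.IsIndecomposable R E) (hinj : Module.Injective R E) : (∀ N N' : Submodule R E, N ≠ ⊥ → N' ≠ ⊥ → N ⊓ N' ≠ ⊥) ∧ ∃ p : Ideal R, p.IsPrime ∧ (p : Set R) = {r : R | ∃ x : E, x ≠ 0 ∧ r • x = 0} := by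
  have hU : ∀ N N' : Submodule R E, N ≠ ⊥ → N' ≠ ⊥ → N ⊓ N' ≠ ⊥ :=
    Groth.Agent.Lib_helper1_InjHull.inf_ne_bot_of_indecomposable hinj hE
  refine ⟨hU, ?_⟩
  have hnt : Nontrivial E := hE.1
  let p : Ideal R :=
    { carrier := {r : R | ∃ x : E, x ≠ 0 ∧ r • x = 0}
      add_mem' := by
        rintro r s ⟨x, hx0, hx⟩ ⟨y, hy0, hy⟩
        have hxy := hU (R ∙ x) (R ∙ y) (by simpa using hx0) (by simpa using hy0)
        obtain ⟨z, ⟨hzx, hzy⟩, hz0⟩ := (Submodule.ne_bot_iff _).mp hxy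
        obtain ⟨a, rfl⟩ := Submodule.mem_span_singleton.mp hzx
        obtain ⟨b, hb⟩ := Submodule.mem_span_singleton.mp hzy
        refine ⟨a • x, hz0, ?_⟩
        rw [add_smul]
        have h1 : r • a • x = 0 := by rw [smul_comm, hx, smul_zero]
        have h2 : s • a • x = 0 := by rw [← hb, smul_comm, hy, smul_zero]
        rw [h1, h2, add_zero]
      zero_mem' := by
        obtain ⟨x, hx⟩ := exists_ne (0 : E)
        exact ⟨x, hx, zero_smul R x⟩
      smul_mem' := by
        rintro c r ⟨x, hx0, hx⟩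
        refine ⟨x, hx0, ?_⟩
        show (c * r) • x = 0
        rw [mul_smul, hx, smul_zero] }
  refine ⟨p, ?_, rfl⟩
  refine ⟨?_, ?_⟩
  · rw [Ideal.ne_top_iff_one]
    rintro ⟨x, hx0, hx⟩
    exact hx0 (by simpa using hx)
  · rintro r s ⟨x, hx0, hx⟩
    by_cases hs : s • x = 0
    · exact Or.inr ⟨x, hx0, hs⟩
    · refine Or.inl ⟨s • x, hs, ?_⟩
      rw [← mul_smul]
      exact hx

end Groth.Agent.S0304
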