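import Groth.Statements.S0305
import Groth.Agent.S0303
import Mathlib.RingTheory.LocalRing.ResidueField.Ideal

set_option autoImplicit false
universe u v
open InjHull

namespace Groth.Agent.S0305

/-- The injective hull of `R ⧸ p` (for a prime `p`) is indecomposable, and it is also an injective
hull of the residue field `κ(p)`. -/
theorem result (R : Type u) [CommRing R] (p : Ideal R) [p.IsPrime] (E : Type u) [AddCommGroup E] [Module R E] (f : (R ⧸ p) →ₗ[R] E) (hf : InjHull.IsInjectiveHull f) : InjHull.IsIndecomposable R E ∧ ∃ g : p.ResidueField →ₗ[R] E, InjHull.IsInjectiveHull g := by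
  have hfi := hf.injective
  refine ⟨⟨?_, ?_⟩, ?_⟩
  · refine ⟨⟨f 1, 0, fun h => ?_⟩⟩
    have : (1 : R ⧸ p) = 0 := hfi (by rw [h, map_zero])
    exact one_ne_zero this
  · intro A B hAB
    by_contra hne
    push Not at hne
    obtain ⟨hA, hB⟩ := hne
    obtain ⟨x, ⟨hxA, a, rfl⟩, hx0⟩ := (Submodule.ne_bot_iff _).mp (hf.essential A hA)
    obtain ⟨y, ⟨hyB, b, rfl⟩, hy0⟩ := (Submodule.ne_bot_iff _).mp (hf.essential B hB)
    obtain ⟨a0, rfl⟩ := Ideal.Quotient.mk_surjective a
    obtain ⟨b0, rfl⟩ := Ideal.Quotient.mk_surjective b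
    have ha : Ideal.Quotient.mk p a0 ≠ 0 := fun h => hx0 (by rw [h, map_zero])
    have hb : Ideal.Quotient.mk p b0 ≠ 0 := fun h => hy0 (by rw [h, map_zero])
    have e1 : ∀ c d : R, c • f (Ideal.Quotient.mk p d) = f (Ideal.Quotient.mk p (c * d)) := by
      intro c d
      rw [← map_smul f]
      congr 1
    have heq : b0 • f (Ideal.Quotient.mk p a0) = a0 • f (Ideal.Quotient.mk p b0) := by
      rw [e1, e1, mul_comm]
    have hmem : b0 • f (Ideal.Quotient.mk p a0) ∈ A ⊓ B :=
      ⟨A.smul_mem _ hxA, heq ▸ B.smul_mem _ hyB⟩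
    rw [hAB.inf_eq_bot, Submodule.mem_bot, e1] at hmem
    have h0 : Ideal.Quotient.mk p (b0 * a0) = 0 := hfi (by rw [hmem, map_zero])
    rw [map_mul] at h0
    exact mul_ne_zero hb ha h0
  · -- the embedding `R ⧸ p → κ(p)` is essential
    let ι : (R ⧸ p) →ₗ[R] p.ResidueField :=
      (IsScalarTower.toAlgHom R (R ⧸ p) p.ResidueField).toLinearMap
    have hι : Function.Injective ι := Ideal.injective_algebraMap_quotient_residueField p
    have hιess : InjHull.IsEssentialInj ι := by
      refine ⟨hι, fun L hL => ?_⟩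
      obtain ⟨x, hxL, hx0⟩ := (Submodule.ne_bot_iff _).mp hL
      obtain ⟨⟨a, s⟩, hs⟩ := IsLocalization.surj (nonZeroDivisors (R ⧸ p)) x
      obtain ⟨s0, hs0⟩ := Ideal.Quotient.mk_surjective (s : R ⧸ p)
      have hsx : s0 • x = algebraMap (R ⧸ p) p.ResidueField a := by
        rw [← hs, Algebra.smul_def, IsScalarTower.algebraMap_apply R (R ⧸ p) p.ResidueField,
          Ideal.Quotient.algebraMap_eq, hs0, mul_comm]
      have ha0 : algebraMap (R ⧸ p) p.ResidueField a ≠ 0 := by
        rw [← hs]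
        refine mul_ne_zero hx0 ?_
        rw [ne_eq, map_eq_zero_iff _ (Ideal.injective_algebraMap_quotient_residueField p)]
        exact nonZeroDivisors.coe_ne_zero s
      refine (Submodule.ne_bot_iff _).mpr ⟨s0 • x, ⟨L.smul_mem _ hxL, a, hsx.symm⟩, ?_⟩
      rw [hsx]
      exact ha0
    have := hf.isInjective
    obtain ⟨g, hg⟩ := Module.Injective.out (R := R) (Q := E) ι hι f
    have hgι : g ∘ₗ ι = f := LinearMap.ext hg
    have hginj : Function.Injective g :=
      Groth.Agent.S0303.injective_of_essential ι hιess g (by rw [hgι]; exact hfi)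
    refine ⟨g, ⟨⟨hginj, fun N hN => ?_⟩, hf.isInjective⟩⟩
    have h1 := hf.essential N hN
    intro h2
    apply h1
    rw [eq_bot_iff, ← h2]
    refine inf_le_inf_left _ ?_
    rw [← hgι, LinearMap.range_comp]
    exact LinearMap.map_le_range

end Groth.Agent.S0305
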