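import Groth.Statements.S0306
import Groth.Agent.S0305
import Groth.Agent.Lib_helper1_InjHull
import Mathlib.RingTheory.Ideal.AssociatedPrime.Basic

set_option autoImplicit false
universe u v
open InjHull

namespace Groth.Agent.S0306

/-- Over a noetherian ring, an indecomposable injective module is the injective hull of `κ(p)` for
some prime `p`. -/
theorem result (R : Type u) [CommRing R] [IsNoetherianRing R] (E : Type u) [AddCommGroup E] [Module R E] (hE : InjHull.IsIndecomposable R E) (hinj : Module.Injective R E) : ∃ (p : Ideal R) (_ : p.IsPrime) (g : p.ResidueField →ₗ[R] E), InjHull.IsInjectiveHull g := by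
  have hnt : Nontrivial E := hE.1
  obtain ⟨p, hp⟩ := associatedPrimes.nonempty R E
  rw [AssociatedPrimes.mem_iff, isAssociatedPrime_iff] at hp
  obtain ⟨hprime, x, hpx⟩ := hp
  have hker : p = LinearMap.ker (LinearMap.toSpanSingleton R E x) := by
    ext r
    rw [hpx, Submodule.mem_colon_singleton, LinearMap.mem_ker, LinearMap.toSpanSingleton_apply,
      Submodule.mem_bot]
  let f : (R ⧸ p) →ₗ[R] E := p.liftQ (LinearMap.toSpanSingleton R E x) (le_of_eq hker)
  have hfinj : Function.Injective f := by
    rw [← LinearMap.ker_eq_bot]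
    exact Submodule.ker_liftQ_eq_bot' p _ hker
  have hx0 : x ≠ 0 := by
    rintro rfl
    apply hprime.ne_top
    rw [eq_top_iff]
    intro r _
    rw [hker, LinearMap.mem_ker, LinearMap.toSpanSingleton_apply, smul_zero]
  have hrange : LinearMap.range f ≠ ⊥ := by
    rw [Submodule.ne_bot_iff]
    refine ⟨f (Submodule.Quotient.mk 1), LinearMap.mem_range_self _ _, ?_⟩
    simp only [f, Submodule.liftQ_apply, LinearMap.toSpanSingleton_apply, one_smul]
    exact hx0
  have hf : InjHull.IsInjectiveHull f :=
    ⟨⟨hfinj, fun N hN =>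
      Groth.Agent.Lib_helper1_InjHull.inf_ne_bot_of_indecomposable hinj hE N _ hN hrange⟩, hinj⟩
  obtain ⟨-, g, hg⟩ := Groth.Agent.S0305.result R p E f hf
  exact ⟨p, hprime, g, hg⟩

end Groth.Agent.S0306
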