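import Groth.Statements.S0307
import Groth.Agent.S0300
import Groth.Agent.S0303
import Groth.Agent.Lib_helper1_InjHull
import Mathlib.RingTheory.Ideal.AssociatedPrime.Basic
import Mathlib.Order.CompactlyGenerated.Basic

set_option autoImplicit false
universe u v
open InjHull

namespace Groth.Agent.S0307

open Classical in
/-- Over a noetherian ring, every injective module is an internal direct sum of indecomposable
injective submodules. -/
theorem result (R : Type u) [CommRing R] [IsNoetherianRing R] (I : Type u) [AddCommGroup I] [Module R I] (hI : Module.Injective R I) : ∃ (ι : Type u) (E : ι → Submodule R I), DirectSum.IsInternal E ∧ ∀ i, InjHull.IsIndecomposable R ↥(E i) ∧ Module.Injective R ↥(E i) := by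
  let 𝒮 : Set (Set (Submodule R I)) :=
    {S | (∀ K ∈ S, InjHull.IsIndecomposable R ↥K ∧ Module.Injective R ↥K) ∧ sSupIndep S}
  obtain ⟨S, hSmax⟩ := zorn_subset 𝒮 (by
    intro c hc hchain
    refine ⟨⋃₀ c, ⟨?_, ?_⟩, fun s hs => Set.subset_sUnion_of_mem hs⟩
    · rintro K ⟨s, hs, hKs⟩
      exact (hc hs).1 K hKs
    · exact iSupIndep_sUnion_of_directed hchain.directedOn (fun a ha => (hc ha).2))
  obtain ⟨⟨hSmem, hSind⟩, hSmax⟩ := hSmax
  let p : S → Submodule R I := fun i => i.1
  have hind : iSupIndep p := (sSupIndep_iff S).mp hSind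
  let L : DirectSum S (fun i => ↥(p i)) →ₗ[R] I := DirectSum.coeLinearMap p
  have hLinj : Function.Injective L := hind.dfinsupp_lsum_injective
  have hLrange : LinearMap.range L = sSup S := by
    rw [sSup_eq_iSup', Submodule.iSup_eq_range_dfinsupp_lsum]
    rfl
  have hDinj : Module.Injective R ↥(LinearMap.range L) :=
    Groth.Agent.S0303.injective_range
      (Groth.Agent.S0300.result R (fun i => ↥(p i)) (fun i => (hSmem i.1 i.2).2)) L hLinj
  obtain ⟨C, hC⟩ := Groth.Agent.S0303.exists_isCompl _ hDinj
  have hCbot : C = ⊥ := by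
    by_contra hC0
    have hnt : Nontrivial ↥C := Submodule.nontrivial_iff_ne_bot.mpr hC0
    obtain ⟨P, hP⟩ := associatedPrimes.nonempty R ↥C
    rw [AssociatedPrimes.mem_iff, isAssociatedPrime_iff] at hP
    obtain ⟨hPprime, y, hPy⟩ := hP
    have hmemP : ∀ r : R, r ∈ P ↔ r • (y : I) = 0 := by
      intro r
      rw [hPy, Submodule.mem_colon_singleton, Submodule.mem_bot]
      constructor
      · intro h; rw [← Submodule.coe_smul, h, Submodule.coe_zero]
      · intro h; exact Subtype.ext (by rw [Submodule.coe_smul, h, Submodule.coe_zero])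
    let N : Submodule R I := R ∙ (y : I)
    have hy0 : (y : I) ≠ 0 := by
      intro h
      apply hPprime.ne_top
      rw [eq_top_iff]
      intro r _
      rw [hmemP, h, smul_zero]
    have hN0 : N ≠ ⊥ := by simpa [N] using hy0
    have hNC : N ≤ C := (Submodule.span_singleton_le_iff_mem _ _).mpr y.2
    have hNdisj : Disjoint N (LinearMap.range L) := (hC.disjoint.symm.mono_left hNC)
    -- uniformity of `N`
    have hunif : ∀ A B : Submodule R I, A ≤ N → B ≤ N → A ≠ ⊥ → B ≠ ⊥ → A ⊓ B ≠ ⊥ := by
      intro A B hA hB hA0 hB0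
      obtain ⟨a, haA, ha0⟩ := (Submodule.ne_bot_iff _).mp hA0
      obtain ⟨b, hbB, hb0⟩ := (Submodule.ne_bot_iff _).mp hB0
      obtain ⟨r, rfl⟩ := Submodule.mem_span_singleton.mp (hA haA)
      obtain ⟨s, rfl⟩ := Submodule.mem_span_singleton.mp (hB hbB)
      have hr : r ∉ P := fun h => ha0 ((hmemP r).mp h)
      have hs : s ∉ P := fun h => hb0 ((hmemP s).mp h)
      have hsr : s * r ∉ P := fun h => (hPprime.mem_or_mem h).elim hs hr
      refine (Submodule.ne_bot_iff _).mpr ⟨(s * r) • (y : I), ⟨?_, ?_⟩, fun h => hsr ((hmemP _).mpr h)⟩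
      · rw [mul_smul]; exact A.smul_mem _ haA
      · rw [mul_comm, mul_smul]; exact B.smul_mem _ hbB
    obtain ⟨K, C', hNK, hDC', hKC', hKess⟩ :=
      Groth.Agent.Lib_helper1_InjHull.exists_isCompl_ess_of_disjoint hI N (LinearMap.range L) hNdisj
    have hKinj : Module.Injective R ↥K := Groth.Agent.Lib_helper1_InjHull.injective_of_isCompl hI K C' hKC'
    have hK0 : K ≠ ⊥ := fun h => hN0 (le_bot_iff.mp (h ▸ hNK))
    have hKind : InjHull.IsIndecomposable R ↥K := by
      refine ⟨Submodule.nontrivial_iff_ne_bot.mpr hK0, fun A B hAB => ?_⟩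
      by_contra hne
      push Not at hne
      obtain ⟨hA, hB⟩ := hne
      have hA' : A.map K.subtype ≠ ⊥ := fun h => hA
        (Submodule.map_injective_of_injective K.injective_subtype (h.trans (Submodule.map_bot _).symm))
      have hB' : B.map K.subtype ≠ ⊥ := fun h => hB
        (Submodule.map_injective_of_injective K.injective_subtype (h.trans (Submodule.map_bot _).symm))
      have h1 := hKess _ (Submodule.map_subtype_le K A) hA'
      have h2 := hKess _ (Submodule.map_subtype_le K B) hB'
      have h3 := hunif _ _ inf_le_right inf_le_right h1 h2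
      apply h3
      rw [eq_bot_iff]
      calc A.map K.subtype ⊓ N ⊓ (B.map K.subtype ⊓ N) ≤ A.map K.subtype ⊓ B.map K.subtype :=
            inf_le_inf inf_le_left inf_le_left
        _ = (A ⊓ B).map K.subtype := (Submodule.map_inf K.subtype K.injective_subtype).symm
        _ = ⊥ := by rw [hAB.inf_eq_bot, Submodule.map_bot]
    have hKS : K ∉ S := by
      intro hKS
      apply hK0
      have : K ≤ LinearMap.range L := hLrange ▸ le_sSup hKS
      have hKC'' : K ⊓ C' = ⊥ := disjoint_iff.mp hKC'.disjoint
      rw [eq_bot_iff, ← hKC'']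
      exact le_inf le_rfl (this.trans hDC')
    have hins : insert K S ∈ 𝒮 := by
      refine ⟨?_, ?_⟩
      · rintro K' (rfl | hK')
        · exact ⟨hKind, hKinj⟩
        · exact hSmem K' hK'
      · intro a ha
        rcases ha with rfl | haS
        · have : sSup (insert a S \ {a}) ≤ sSup S :=
            sSup_le_sSup (fun x hx => by
              rcases hx with ⟨hx1 | hx1, hx2⟩
              · exact absurd hx1 hx2
              · exact hx1)
          refine Disjoint.mono_right this ?_
          rw [← hLrange]
          exact hKC'.disjoint.mono_right hDC'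
        · have hne : a ≠ K := fun h => hKS (h ▸ haS)
          have hsub : insert K S \ {a} = insert K (S \ {a}) := by
            ext x
            simp only [Set.mem_sdiff, Set.mem_insert_iff, Set.mem_singleton_iff]
            constructor
            · rintro ⟨hx1 | hx1, hx2⟩
              · exact Or.inl hx1
              · exact Or.inr ⟨hx1, hx2⟩
            · rintro (hx | ⟨hx1, hx2⟩)
              · exact ⟨Or.inl hx, fun h => hne (h ▸ hx ▸ rfl)⟩
              · exact ⟨Or.inr hx1, hx2⟩
          rw [hsub, sSup_insert, sup_comm]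
          refine Disjoint.disjoint_sup_right_of_disjoint_sup_left (hSind haS) ?_
          have hle : a ⊔ sSup (S \ {a}) ≤ LinearMap.range L := by
            rw [hLrange]
            exact sup_le (le_sSup haS) (sSup_le_sSup Set.sdiff_subset)
          exact (hKC'.disjoint.symm.mono_left (hle.trans hDC'))
    have := hSmax hins (Set.subset_insert K S)
    exact hKS (this (Set.mem_insert K S))
  have htop : iSup p = ⊤ := by
    have h1 := hC.codisjoint
    rw [hCbot, codisjoint_bot, hLrange, sSup_eq_iSup'] at h1
    exact h1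
  refine ⟨S, p, ?_, fun i => hSmem i.1 i.2⟩
  convert (DirectSum.isInternal_submodule_iff_iSupIndep_and_iSup_eq_top p).mpr ⟨hind, htop⟩

end Groth.Agent.S0307
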