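import Groth.Statements.S0308
import Mathlib.Algebra.Module.Injective
import Mathlib.RingTheory.Length
import Mathlib.RingTheory.SimpleModule.Basic
import Mathlib.RingTheory.Artinian.Module

set_option autoImplicit false
universe u v
open Matlis

namespace Groth.Agent.S0308

/-- `Hom(k, E)` is isomorphic to `k` for an injective hull `E` of the residue field `k`. -/
theorem length_hom_residueField (R : Type u) [CommRing R] [IsLocalRing R] (E : Type u)
    [AddCommGroup E] [Module R E] (f : IsLocalRing.ResidueField R →ₗ[R] E)
    (hf : InjHull.IsInjectiveHull f) :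
    Module.length R (IsLocalRing.ResidueField R →ₗ[R] E) = 1 := by
  set 𝔪 := IsLocalRing.maximalIdeal R
  have hker : 𝔪 ≤ LinearMap.ker (LinearMap.toSpanSingleton R (IsLocalRing.ResidueField R →ₗ[R] E) f) := by
    intro r hr
    rw [LinearMap.mem_ker, LinearMap.toSpanSingleton_apply]
    ext x
    rw [LinearMap.smul_apply, ← map_smul, LinearMap.zero_apply]
    have : r • x = 0 := by
      rw [Algebra.smul_def, IsLocalRing.ResidueField.algebraMap_eq,
        (IsLocalRing.residue_eq_zero_iff r).mpr hr, zero_mul]
    rw [this, map_zero]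
  let Ψ : (R ⧸ 𝔪) →ₗ[R] (IsLocalRing.ResidueField R →ₗ[R] E) := 𝔪.liftQ _ hker
  have hΨ : ∀ r : R, Ψ (Submodule.Quotient.mk r) = r • f := fun r => rfl
  have hres : ∀ r : R, (Submodule.Quotient.mk r : R ⧸ 𝔪) = IsLocalRing.residue R r := fun r => rfl
  have hsmul1 : ∀ r : R, r • (1 : IsLocalRing.ResidueField R) = IsLocalRing.residue R r := by
    intro r
    rw [Algebra.smul_def, mul_one, IsLocalRing.ResidueField.algebraMap_eq]
  have hinj : Function.Injective Ψ := by
    rw [← LinearMap.ker_eq_bot, eq_bot_iff]
    intro c hc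
    obtain ⟨r, rfl⟩ := Submodule.Quotient.mk_surjective _ c
    rw [LinearMap.mem_ker, hΨ] at hc
    have h1 : f (r • 1) = 0 := by rw [map_smul, ← LinearMap.smul_apply, hc, LinearMap.zero_apply]
    have h2 : r • (1 : IsLocalRing.ResidueField R) = 0 := hf.injective (by rw [h1, map_zero])
    rw [Submodule.mem_bot]
    show (Submodule.Quotient.mk r : R ⧸ 𝔪) = 0
    rw [hres, ← hsmul1]
    exact h2
  have hsurj : Function.Surjective Ψ := by
    intro φ
    set s := φ 1 with hs
    have hms : ∀ r ∈ 𝔪, r • s = 0 := by
      intro r hr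
      rw [hs, ← map_smul, hsmul1, (IsLocalRing.residue_eq_zero_iff r).mpr hr, map_zero]
    have hsf : ∃ c, f c = s := by
      by_cases hs0 : s = 0
      · exact ⟨0, by rw [map_zero, hs0]⟩
      · have hne : (R ∙ s) ≠ ⊥ := by simpa using hs0
        obtain ⟨y, ⟨hy1, c, hc⟩, hy0⟩ := (Submodule.ne_bot_iff _).mp (hf.essential _ hne)
        obtain ⟨r, rfl⟩ := Submodule.mem_span_singleton.mp hy1
        have hr : r ∉ 𝔪 := fun h => hy0 (hms r h)
        have hru : IsUnit r := (IsLocalRing.notMem_maximalIdeal.mp hr)
        obtain ⟨ru, rfl⟩ := hru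
        refine ⟨(↑ru⁻¹ : R) • c, ?_⟩
        rw [map_smul, hc, smul_smul, Units.inv_mul, one_smul]
    obtain ⟨c, hc⟩ := hsf
    obtain ⟨t, rfl⟩ := IsLocalRing.residue_surjective c
    refine ⟨Submodule.Quotient.mk t, ?_⟩
    rw [hΨ]
    ext x
    obtain ⟨q, rfl⟩ := IsLocalRing.residue_surjective x
    rw [LinearMap.smul_apply, ← hsmul1 q, map_smul f, map_smul φ, ← hs, ← hc, ← hsmul1 t,
      map_smul f, smul_comm]
  let e := LinearEquiv.ofBijective Ψ ⟨hinj, hsurj⟩
  rw [← e.length_eq]
  have : IsSimpleModule R (R ⧸ 𝔪) :=
    isSimpleModule_iff_isCoatom.mpr (Ideal.isMaximal_def.mp inferInstance)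
  exact Module.length_eq_one R (R ⧸ 𝔪)

/-- Over an Artinian local ring, mapping a finite module into an injective hull E of the residue field
preserves length: the module of linear maps M → E has the same length as M. -/
theorem result (R : Type u) [CommRing R] [IsLocalRing R] [IsArtinianRing R] (E : Type u) [AddCommGroup E] [Module R E] (f : IsLocalRing.ResidueField R →ₗ[R] E) (hf : InjHull.IsInjectiveHull f) (M : Type u) [AddCommGroup M] [Module R M] [Module.Finite R M] : Module.length R (M →ₗ[R] E) = Module.length R M := by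
  have hE := hf.isInjective
  have hk := length_hom_residueField R E f hf
  have key : ∀ (M : Type u) [AddCommGroup M] [Module R M], IsFiniteLength R M →
      Module.length R (M →ₗ[R] E) = Module.length R M := by
    intro M _ _ hM
    induction hM with
    | @of_subsingleton M' _ _ _ =>
      have : Subsingleton (M' →ₗ[R] E) := ⟨fun a b => LinearMap.ext fun x => by
        rw [Subsingleton.elim x 0, map_zero, map_zero]⟩
      rw [Module.length_eq_zero, Module.length_eq_zero]
    | @of_simple_quotient M _ _ N hsimple hN ih =>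
      have h1 : Module.length R M = Module.length R N + Module.length R (M ⧸ N) :=
        Module.length_eq_add_of_exact N.subtype N.mkQ N.injective_subtype N.mkQ_surjective
          (LinearMap.exact_subtype_mkQ N)
      rw [Module.length_eq_one R (M ⧸ N)] at h1
      let F1 : (M ⧸ N →ₗ[R] E) →ₗ[R] (M →ₗ[R] E) := LinearMap.lcomp R E N.mkQ
      let F2 : (M →ₗ[R] E) →ₗ[R] (N →ₗ[R] E) := LinearMap.lcomp R E N.subtype
      have hF1 : Function.Injective F1 := by
        intro a b hab
        ext x
        have := LinearMap.congr_fun hab x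
        exact this
      have hF2 : Function.Surjective F2 := by
        intro ψ
        obtain ⟨φ, hφ⟩ := Module.Injective.out (R := R) (Q := E) N.subtype N.injective_subtype ψ
        exact ⟨φ, LinearMap.ext hφ⟩
      have hex : Function.Exact F1 F2 := by
        intro φ
        constructor
        · intro h
          have hle : N ≤ LinearMap.ker φ := by
            intro x hx
            have := LinearMap.congr_fun h ⟨x, hx⟩
            exact this
          exact ⟨N.liftQ φ hle, by ext x; rfl⟩
        · rintro ⟨ψ, rfl⟩
          ext x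
          show ψ (N.mkQ x) = 0
          rw [Submodule.mkQ_apply, (Submodule.Quotient.mk_eq_zero N).mpr x.2, map_zero]
      have h2 := Module.length_eq_add_of_exact F1 F2 hF1 hF2 hex
      -- `M ⧸ N` is isomorphic to the residue field
      obtain ⟨I, hI, ⟨eI⟩⟩ := isSimpleModule_iff_quot_maximal.mp hsimple
      have hIm : I = IsLocalRing.maximalIdeal R := IsLocalRing.eq_maximalIdeal hI
      subst hIm
      let eHom : (M ⧸ N →ₗ[R] E) ≃ₗ[R] (IsLocalRing.ResidueField R →ₗ[R] E) :=
        LinearEquiv.arrowCongr eI (LinearEquiv.refl R E)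
      rw [eHom.length_eq, hk, ih] at h2
      rw [h2, h1, add_comm]
  exact key M (isFiniteLength_iff_isNoetherian_isArtinian.mpr ⟨inferInstance, inferInstance⟩)

end Groth.Agent.S0308
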