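import Groth.Statements.S0309
import Groth.Agent.S0308

set_option autoImplicit false
universe u v
open Matlis

namespace Groth.Agent.S0309

/-- Over an Artinian local ring with E an injective hull of the residue field, the evaluation map from a
finite module M to its double E-dual Hom(Hom(M, E), E) is bijective. -/
theorem result (R : Type u) [CommRing R] [IsLocalRing R] [IsArtinianRing R] (E : Type u) [AddCommGroup E] [Module R E] (f : IsLocalRing.ResidueField R →ₗ[R] E) (hf : InjHull.IsInjectiveHull f) (M : Type u) [AddCommGroup M] [Module R M] [Module.Finite R M] : Function.Bijective (LinearMap.applyₗ : M →ₗ[R] (M →ₗ[R] E) →ₗ[R] E) := by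
  have hE := hf.isInjective
  set 𝔪 := IsLocalRing.maximalIdeal R
  -- injectivity: every nonzero element is detected by a map to `E`
  have hinj : Function.Injective (LinearMap.applyₗ : M →ₗ[R] (M →ₗ[R] E) →ₗ[R] E) := by
    rw [← LinearMap.ker_eq_bot, eq_bot_iff]
    intro x hx
    rw [Submodule.mem_bot]
    by_contra hx0
    let T := LinearMap.toSpanSingleton R M x
    have hker : LinearMap.ker T ≤ LinearMap.ker (Algebra.linearMap R (IsLocalRing.ResidueField R)) := by
      intro r hr
      have hr' : r • x = 0 := hr
      have hrm : r ∈ 𝔪 := by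
        by_contra hrm
        have hru := IsLocalRing.notMem_maximalIdeal.mp hrm
        obtain ⟨ru, rfl⟩ := hru
        apply hx0
        have := congrArg (fun y => (↑ru⁻¹ : R) • y) hr'
        simpa [smul_smul] using this
      rw [LinearMap.mem_ker, Algebra.linearMap_apply, IsLocalRing.ResidueField.algebraMap_eq,
        IsLocalRing.residue_eq_zero_iff]
      exact hrm
    let ψ0 : (R ⧸ LinearMap.ker T) →ₗ[R] IsLocalRing.ResidueField R := (LinearMap.ker T).liftQ _ hker
    let eT := T.quotKerEquivRange
    let ψ : LinearMap.range T →ₗ[R] E := f ∘ₗ ψ0 ∘ₗ eT.symm.toLinearMap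
    obtain ⟨φ, hφ⟩ := Module.Injective.out (R := R) (Q := E) (LinearMap.range T).subtype
      (LinearMap.range T).injective_subtype ψ
    have hxr : x ∈ LinearMap.range T := ⟨1, by simp [T]⟩
    have h1 : φ x = ψ ⟨x, hxr⟩ := hφ ⟨x, hxr⟩
    have h2 : eT.symm ⟨x, hxr⟩ = Submodule.Quotient.mk 1 := by
      rw [LinearEquiv.symm_apply_eq]
      apply Subtype.ext
      show x = ((T.quotKerEquivRange (Submodule.Quotient.mk 1)) : M)
      rw [LinearMap.quotKerEquivRange_apply_mk]
      simp [T]
    have h3 : ψ ⟨x, hxr⟩ = f 1 := by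
      simp only [ψ, LinearMap.coe_comp, LinearEquiv.coe_coe, Function.comp_apply, h2]
      congr 1
    have h4 : φ x = 0 := by
      have := LinearMap.congr_fun hx φ
      simpa using this
    rw [h1, h3] at h4
    have : (1 : IsLocalRing.ResidueField R) = 0 := hf.injective (by rw [h4, map_zero])
    exact one_ne_zero this
  refine ⟨hinj, ?_⟩
  -- surjectivity by comparing lengths
  have hM : Module.length R M ≠ ⊤ := Module.length_ne_top
  have hl1 : Module.length R (M →ₗ[R] E) = Module.length R M :=
    Groth.Agent.S0308.result R E f hf M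
  have hfin : Module.Finite R (M →ₗ[R] E) := by
    have h := (Module.length_ne_top_iff (R := R) (M := M →ₗ[R] E)).mp (hl1 ▸ hM)
    have := (isFiniteLength_iff_isNoetherian_isArtinian.mp h).1
    infer_instance
  have hl2 : Module.length R ((M →ₗ[R] E) →ₗ[R] E) = Module.length R M := by
    rw [Groth.Agent.S0308.result R E f hf (M →ₗ[R] E), hl1]
  set ev := (LinearMap.applyₗ : M →ₗ[R] (M →ₗ[R] E) →ₗ[R] E)
  have hadd := Module.length_eq_add_of_exact ev (LinearMap.range ev).mkQ hinj
    (Submodule.mkQ_surjective _) (LinearMap.exact_map_mkQ_range ev)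
  rw [hl2] at hadd
  have hq : Module.length R (((M →ₗ[R] E) →ₗ[R] E) ⧸ LinearMap.range ev) = 0 := by
    obtain ⟨n, hn⟩ := ENat.ne_top_iff_exists.mp hM
    rw [← hn] at hadd
    generalize Module.length R (((M →ₗ[R] E) →ₗ[R] E) ⧸ LinearMap.range ev) = q at hadd ⊢
    induction q using ENat.recTopCoe with
    | top => simp at hadd
    | coe m =>
      norm_cast at hadd ⊢
      omega
  rw [Module.length_eq_zero_iff, Submodule.Quotient.subsingleton_iff] at hq
  exact LinearMap.range_eq_top.mp hq

end Groth.Agent.S0309
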