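import Groth.Statements.S0310
import Mathlib.Algebra.Module.Injective
import Mathlib.LinearAlgebra.Dimension.Free
import Mathlib.LinearAlgebra.FiniteDimensional.Defs

set_option autoImplicit false
universe u v
open Matlis

namespace Groth.Agent.S0310

/-- Over a local ring, a module killed elementwise by powers of the maximal ideal and whose socle has
finite dimension n over the residue field embeds into the n-fold sum of an injective hull of the
residue field. -/
theorem result (R : Type u) [CommRing R] [IsLocalRing R] (E : Type u) [AddCommGroup E] [Module R E] (f : IsLocalRing.ResidueField R →ₗ[R] E) (hf : InjHull.IsInjectiveHull f) (M : Type u) [AddCommGroup M] [Module R M] (hM : LocCoh.IsPowerTorsion (IsLocalRing.maximalIdeal R) M) (n : ℕ) [Module.Finite (R ⧸ IsLocalRing.maximalIdeal R) ↥(LocCoh.torsionBy (IsLocalRing.maximalIdeal R) M)] (hn : Module.finrank (R ⧸ IsLocalRing.maximalIdeal R) ↥(LocCoh.torsionBy (IsLocalRing.maximalIdeal R) M) = n) : ∃ g : M →ₗ[R]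 (Fin n → E), Function.Injective g := by
  set 𝔪 := IsLocalRing.maximalIdeal R with h𝔪
  set S := LocCoh.torsionBy 𝔪 M with hS
  have hmemS : ∀ x : M, x ∈ S ↔ ∀ r ∈ 𝔪, r • x = 0 := by
    intro x
    rw [hS, Submodule.mem_torsionBySet_iff]
    exact ⟨fun h r hr => h ⟨r, hr⟩, fun h a => h a.1 a.2⟩
  letI : Field (R ⧸ 𝔪) := Ideal.Quotient.field 𝔪
  have : Module.Free (R ⧸ 𝔪) S := Module.Free.of_divisionRing (R ⧸ 𝔪) S
  let b : Module.Basis (Fin n) (R ⧸ 𝔪) S := Module.finBasisOfFinrankEq (R ⧸ 𝔪) S hn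
  let φ0 : S →ₗ[R] (Fin n → R ⧸ 𝔪) := b.equivFun.toLinearMap.restrictScalars R
  have hφ0 : Function.Injective φ0 := b.equivFun.injective
  let ψ : (Fin n → R ⧸ 𝔪) →ₗ[R] (Fin n → E) :=
    LinearMap.pi (fun i => f ∘ₗ (LinearMap.proj i : (Fin n → R ⧸ 𝔪) →ₗ[R] R ⧸ 𝔪))
  have hψ : Function.Injective ψ := by
    intro u w huw
    funext i
    have := congrFun huw i
    exact hf.injective this
  let φ : S →ₗ[R] (Fin n → E) := ψ ∘ₗ φ0
  have hφ : Function.Injective φ := hψ.comp hφ0
  have := hf.isInjective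
  obtain ⟨g, hg⟩ := Module.Injective.out (R := R) (Q := Fin n → E) S.subtype S.injective_subtype φ
  refine ⟨g, ?_⟩
  have claim : ∀ N : ℕ, ∀ x : M, x ≠ 0 → (∀ a ∈ 𝔪 ^ N, a • x = 0) →
      ∃ c : R, c • x ≠ 0 ∧ c • x ∈ S := by
    intro N
    induction N with
    | zero =>
      intro x hx h
      exact absurd (by simpa using h 1 (by simp)) hx
    | succ N ih =>
      intro x hx h
      by_cases hxS : x ∈ S
      · exact ⟨1, by simpa using hx, by simpa using hxS⟩
      · have : ∃ r ∈ 𝔪, r • x ≠ 0 := by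
          by_contra hcon
          push Not at hcon
          exact hxS ((hmemS x).mpr hcon)
        obtain ⟨r, hr, hrx⟩ := this
        obtain ⟨c, hc1, hc2⟩ := ih (r • x) hrx (fun a ha => by
          rw [smul_smul]
          exact h (a * r) (by rw [pow_succ]; exact Ideal.mul_mem_mul ha hr))
        exact ⟨c * r, by rwa [mul_smul], by rwa [mul_smul]⟩
  rw [← LinearMap.ker_eq_bot]
  by_contra hne
  obtain ⟨x, hxk, hx0⟩ := (Submodule.ne_bot_iff _).mp hne
  obtain ⟨N, hN⟩ := hM x
  obtain ⟨c, hc0, hcS⟩ := claim N x hx0 hN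
  have h1 : g (c • x) = 0 := by rw [map_smul, LinearMap.mem_ker.mp hxk, smul_zero]
  have h2 : g (c • x) = φ ⟨c • x, hcS⟩ := hg ⟨c • x, hcS⟩
  rw [h2] at h1
  have h3 : (⟨c • x, hcS⟩ : S) = 0 := hφ (by rw [h1, map_zero])
  exact hc0 (congrArg Subtype.val h3)

end Groth.Agent.S0310
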