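import Groth.Statements.S0311
import Groth.Agent.S0301
import Groth.Agent.S0303

set_option autoImplicit false
universe u v
open Matlis

namespace Groth.Agent.S0311

/-- Over a Noetherian local ring, every element of an injective hull E of the residue field is killed by
some power of the maximal ideal (E is the union of the E[m^n]). (The source also identifies E[m^n]
with an injective hull of the residue field over R/m^n; not stated here.) -/
theorem result (R : Type u) [CommRing R] [IsLocalRing R] [IsNoetherianRing R] (E : Type u) [AddCommGroup E] [Module R E] (f : IsLocalRing.ResidueField R →ₗ[R] E) (hf : InjHull.IsInjectiveHull f) : LocCoh.IsPowerTorsion (IsLocalRing.maximalIdeal R) E := by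
  set 𝔪 := IsLocalRing.maximalIdeal R
  set T : ℕ → Submodule R E := fun n => Submodule.torsionBySet R E ((𝔪 ^ n : Ideal R) : Set R)
    with hT
  set Γ := ⨆ n, T n with hΓ
  have hTmono : Monotone T := fun i j h => Submodule.torsionBySet_le_torsionBySet_pow i j h 𝔪
  have hmemΓ : ∀ x, x ∈ Γ ↔ ∃ n, x ∈ T n := fun x =>
    Submodule.mem_iSup_of_directed T hTmono.directed_le
  have hTn : ∀ n x, x ∈ T n ↔ ∀ r ∈ 𝔪 ^ n, r • x = 0 := by
    intro n x
    rw [hT, Submodule.mem_torsionBySet_iff]
    exact ⟨fun h r hr => h ⟨r, hr⟩, fun h a => h a.1 a.2⟩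
  have hΓinj : Module.Injective R Γ := Groth.Agent.S0301.result R E hf.isInjective 𝔪
  have hfΓ : LinearMap.range f ≤ Γ := by
    rintro _ ⟨x, rfl⟩
    rw [hmemΓ]
    refine ⟨1, (hTn 1 _).mpr fun r hr => ?_⟩
    rw [pow_one] at hr
    rw [← map_smul, Algebra.smul_def, IsLocalRing.ResidueField.algebraMap_eq,
      (IsLocalRing.residue_eq_zero_iff r).mpr hr, zero_mul, map_zero]
  obtain ⟨C, hC⟩ := Groth.Agent.S0303.exists_isCompl Γ hΓinj
  have hCbot : C = ⊥ := by
    by_contra hne
    apply hf.essential C hne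
    rw [eq_bot_iff]
    calc C ⊓ LinearMap.range f ≤ C ⊓ Γ := inf_le_inf_left _ hfΓ
      _ = ⊥ := hC.disjoint.symm.eq_bot
  have htop : Γ = ⊤ := by
    have := hC.codisjoint
    rw [hCbot] at this
    exact codisjoint_bot.mp this
  intro x
  have hx : x ∈ Γ := by rw [htop]; trivial
  obtain ⟨n, hn⟩ := (hmemΓ x).mp hx
  exact ⟨n, (hTn n x).mp hn⟩

end Groth.Agent.S0311
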