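import Groth.Statements.S0397
import Mathlib.RingTheory.LocalRing.Module
-- import your own Groth.Agent.* helpers here

set_option autoImplicit false
universe u
open FlatMor

namespace Groth.Agent.S0397

/-- Over a local ring whose maximal ideal is nilpotent, every flat module (not necessarily finitely
generated) is free. -/
theorem result {R M : Type u} [CommRing R] [IsLocalRing R] (hR : IsNilpotent (IsLocalRing.maximalIdeal R))
    [AddCommGroup M] [Module R M] [Module.Flat R M] : Module.Free R M := by
  classical
  let k := IsLocalRing.ResidueField R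
  let mk : M →ₗ[R] TensorProduct R k M := TensorProduct.mk R k M 1
  have hmk : Function.Surjective mk := by
    intro y
    induction y using TensorProduct.induction_on with
    | zero => exact ⟨0, map_zero _⟩
    | tmul a m =>
      obtain ⟨r, rfl⟩ := IsLocalRing.residue_surjective a
      refine ⟨r • m, ?_⟩
      simp only [mk, TensorProduct.mk_apply, TensorProduct.tmul_smul]
      rw [TensorProduct.smul_tmul', Algebra.smul_def, mul_one]
      rfl
    | add x y hx hy =>
      obtain ⟨a, ha⟩ := hx
      obtain ⟨b, hb⟩ := hy
      exact ⟨a + b, by rw [map_add, ha, hb]⟩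
  let b := Module.Basis.ofVectorSpace k (TensorProduct R k M)
  choose v hv using fun i => hmk (b i)
  have hli : LinearIndependent R v := by
    apply Module.IsLocalRing.linearIndependent_of_flat v
    have : (TensorProduct.mk R k M 1 ∘ v) = b := funext hv
    rw [this]; exact b.linearIndependent
  have hker : LinearMap.ker mk = (IsLocalRing.maximalIdeal R) • ⊤ :=
    LinearMap.ker_tensorProductMk M
  set N := Submodule.span R (Set.range v) with hN
  have h1 : (⊤ : Submodule R M) ≤ N ⊔ (IsLocalRing.maximalIdeal R) • ⊤ := by
    intro x _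
    let d := b.repr (mk x)
    choose r hr using fun i => IsLocalRing.residue_surjective (d i)
    let y : M := ∑ i ∈ d.support, r i • v i
    have hy : y ∈ N := Submodule.sum_mem _ fun i _ =>
      Submodule.smul_mem _ _ (Submodule.subset_span ⟨i, rfl⟩)
    have hmy : mk y = mk x := by
      have e1 : mk x = ∑ i ∈ d.support, d i • b i := by
        conv_lhs => rw [← b.linearCombination_repr (mk x)]
        rfl
      rw [e1]
      simp only [y, map_sum, map_smul, hv]
      refine Finset.sum_congr rfl fun i _ => ?_
      rw [← hr i, ← algebraMap_smul k (r i) (b i)]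
      rfl
    have hxy : x - y ∈ (IsLocalRing.maximalIdeal R) • (⊤ : Submodule R M) := by
      rw [← hker, LinearMap.mem_ker, map_sub, hmy, sub_self]
    exact Submodule.mem_sup.mpr ⟨y, hy, x - y, hxy, by abel⟩
  obtain ⟨n, hn⟩ := hR
  have h2 : ∀ j : ℕ, (⊤ : Submodule R M) ≤ N ⊔ (IsLocalRing.maximalIdeal R) ^ j • ⊤ := by
    intro j
    induction j with
    | zero => simp
    | succ j ih =>
      calc (⊤ : Submodule R M) ≤ N ⊔ (IsLocalRing.maximalIdeal R) ^ j • ⊤ := ih
        _ ≤ N ⊔ (IsLocalRing.maximalIdeal R) ^ j • (N ⊔ (IsLocalRing.maximalIdeal R) • ⊤) :=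
          sup_le_sup_left (Submodule.smul_mono le_rfl h1) _
        _ = N ⊔ ((IsLocalRing.maximalIdeal R) ^ j • N ⊔
              (IsLocalRing.maximalIdeal R) ^ (j + 1) • ⊤) := by
          rw [Submodule.smul_sup, pow_succ, Submodule.mul_smul]
        _ ≤ N ⊔ (IsLocalRing.maximalIdeal R) ^ (j + 1) • ⊤ :=
          sup_le le_sup_left (sup_le (le_trans Submodule.smul_le_right le_sup_left) le_sup_right)
  have h3 := h2 n
  rw [hn, show (0 : Ideal R) = ⊥ from rfl, Submodule.bot_smul, sup_bot_eq] at h3
  have hspan : Submodule.span R (Set.range v) = ⊤ := top_le_iff.mp h3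
  exact Module.Free.of_basis (Module.Basis.mk hli (by rw [hspan]))

end Groth.Agent.S0397
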