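import Groth.Statements.S0423
import Mathlib.RingTheory.Ideal.Pure
import Mathlib.RingTheory.Kaehler.Basic
import Mathlib.RingTheory.RingHom.Flat
import Mathlib.AlgebraicGeometry.Morphisms.Flat
import Mathlib.AlgebraicGeometry.Pullbacks

set_option autoImplicit false
universe u
open FlatMor

namespace Groth.Agent.S0423

open AlgebraicGeometry CategoryTheory Limits
open scoped TensorProduct

/-- Ring-level: if the multiplication map `S ⊗[R] S → S` is flat then `S` is formally unramified
over `R` (its kernel is then an idempotent ideal, so `Ω[S/R] = I/I² = 0`). -/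
theorem formallyUnramified_of_flat_lmul (R S : Type u) [CommRing R] [CommRing S] [Algebra R S]
    (h : (Algebra.TensorProduct.lmul' R (S := S) : S ⊗[R] S →ₐ[R] S).toRingHom.Flat) :
    Algebra.FormallyUnramified R S := by
  set F : S ⊗[R] S →+* S := (Algebra.TensorProduct.lmul' R (S := S) : S ⊗[R] S →ₐ[R] S).toRingHom
    with hFdef
  have hF : Function.Surjective F := fun x ↦ ⟨x ⊗ₜ[R] 1, by simp [F]⟩
  let e := RingHom.quotientKerEquivOfSurjective hF
  have hmk : Ideal.Quotient.mk (RingHom.ker F) = e.symm.toRingHom.comp F := by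
    refine RingHom.ext fun x => e.injective ?_
    simp [e]
  have hflat : (Ideal.Quotient.mk (RingHom.ker F)).Flat := by
    rw [hmk]
    exact RingHom.Flat.comp h (RingHom.Flat.of_bijective e.symm.bijective)
  have hpure : (RingHom.ker F).Pure := by
    rw [Ideal.Pure, ← RingHom.flat_algebraMap_iff, Ideal.Quotient.algebraMap_eq]
    exact hflat
  have hidem : IsIdempotentElem (RingHom.ker F) := Ideal.isIdempotentElem_of_pure _
  exact ⟨(Ideal.cotangent_subsingleton_iff _).mpr hidem⟩

instance instZLTFormallyUnramifiedHelperOne :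
    IsZariskiLocalAtTarget @AlgebraicGeometry.FormallyUnramified.{u} :=
  HasRingHomProperty.instIsZariskiLocalAtTarget _

instance instZLSFormallyUnramifiedHelperOne :
    IsZariskiLocalAtSource @AlgebraicGeometry.FormallyUnramified.{u} :=
  HasRingHomProperty.instIsZariskiLocalAtSource

/-- A weakly étale morphism of schemes (flat with flat diagonal) is formally unramified. -/
theorem result {X Y : Scheme.{u}} (f : X ⟶ Y) [WeaklyEtale f] : FormallyUnramified f := by
  wlog hY : ∃ R, Y = Spec R
  · rw [IsZariskiLocalAtTarget.iff_of_openCover (P := @FormallyUnramified) Y.affineCover]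
    intro i
    exact this (pullback.snd _ _) ⟨_, rfl⟩
  obtain ⟨R, rfl⟩ := hY
  wlog hX : ∃ S, X = Spec S generalizing X
  · rw [IsZariskiLocalAtSource.iff_of_openCover (P := @FormallyUnramified) X.affineCover]
    intro i
    exact this (_ ≫ _) ⟨_, rfl⟩
  obtain ⟨S, rfl⟩ := hX
  obtain ⟨φ, rfl : Spec.map φ = f⟩ := Spec.homEquiv.symm.surjective f
  have hd : Flat (pullback.diagonal (Spec.map φ)) := inferInstance
  rw [HasRingHomProperty.Spec_iff (P := @FormallyUnramified)]
  algebraize [φ.hom]
  have hd' : Flat (Spec.map (CommRingCat.ofHom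
      (Algebra.TensorProduct.lmul' R (S := S) : S ⊗[R] S →ₐ[R] S).toRingHom) ≫
        (pullbackSpecIso R S S).inv) := by
    rw [← AlgebraicGeometry.diagonal_SpecMap R S]
    exact hd
  have h2 : Flat ((Spec.map (CommRingCat.ofHom
      (Algebra.TensorProduct.lmul' R (S := S) : S ⊗[R] S →ₐ[R] S).toRingHom) ≫
        (pullbackSpecIso R S S).inv) ≫ (pullbackSpecIso R S S).hom) := inferInstance
  have hF : Flat (Spec.map (CommRingCat.ofHom
      (Algebra.TensorProduct.lmul' R (S := S) : S ⊗[R] S →ₐ[R] S).toRingHom)) := by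
    simpa using h2
  rw [HasRingHomProperty.Spec_iff (P := @Flat)] at hF
  exact formallyUnramified_of_flat_lmul R S hF

end Groth.Agent.S0423
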