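import Groth.Statements.S0424
import Groth.Agent.S0423

set_option autoImplicit false
universe u
open FlatMor

namespace Groth.Agent.S0424

open AlgebraicGeometry CategoryTheory Limits in
/-- A weakly étale morphism locally of finite presentation is étale. -/
theorem result {X Y : Scheme.{u}} (f : X ⟶ Y) [WeaklyEtale f] [LocallyOfFinitePresentation f] : Etale f := by
  have : FormallyUnramified f := Groth.Agent.S0423.result f
  exact Etale.of_formallyUnramified_of_flat f

end Groth.Agent.S0424
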