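import Groth.Statements.S0481
import Mathlib.Algebra.Homology.HomotopyCategory.KInjective
import Mathlib.Algebra.Homology.Homotopy
import Mathlib.Algebra.Homology.ShortComplex.PreservesHomology
-- import your own Groth.Agent.* helpers here

set_option autoImplicit false
universe v u
open CategoryTheory
open CohDer

namespace Groth.Agent.S0481

open CategoryTheory.Limits in
/-- Let u : A ⥤ B be right adjoint to an exact additive functor w : B ⥤ A between abelian categories.
Then u applied termwise sends K-injective complexes to K-injective complexes. -/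
theorem result {A : Type u} [Category.{v} A] [Abelian A]
    {B : Type u} [Category.{v} B] [Abelian B] (u : A ⥤ B) (w : B ⥤ A) (adj : w ⊣ u)
    [u.Additive] [w.Additive] [PreservesFiniteLimits w] [PreservesFiniteColimits w]
    (I : CochainComplex A ℤ) (h : I.IsKInjective) :
    CochainComplex.IsKInjective ((u.mapHomologicalComplex (ComplexShape.up ℤ)).obj I) := by
  refine ⟨fun {K} f hK => ?_⟩
  -- the adjoint morphism `w K ⟶ I`
  let g : (w.mapHomologicalComplex (ComplexShape.up ℤ)).obj K ⟶ I :=
    { f := fun n => w.map (f.f n) ≫ adj.counit.app (I.X n)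
      comm' := by
        intro i j _
        have hc : f.f i ≫ u.map (I.d i j) = K.d i j ≫ f.f j := f.comm i j
        have key : ∀ (a : K.X i ⟶ u.obj (I.X i)) (b : K.X j ⟶ u.obj (I.X j)),
            a ≫ u.map (I.d i j) = K.d i j ≫ b →
            (w.map a ≫ adj.counit.app (I.X i)) ≫ I.d i j =
              w.map (K.d i j) ≫ w.map b ≫ adj.counit.app (I.X j) := by
          intro a b hab
          calc (w.map a ≫ adj.counit.app (I.X i)) ≫ I.d i j
              = w.map a ≫ (w.map (u.map (I.d i j)) ≫ adj.counit.app (I.X j)) := by
                erw [adj.counit_naturality]; rw [Category.assoc]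
            _ = w.map (a ≫ u.map (I.d i j)) ≫ adj.counit.app (I.X j) := by
                rw [Functor.map_comp, Category.assoc]
            _ = w.map (K.d i j ≫ b) ≫ adj.counit.app (I.X j) := by rw [hab]
            _ = w.map (K.d i j) ≫ w.map b ≫ adj.counit.app (I.X j) := by
                rw [Functor.map_comp, Category.assoc]
        exact key (f.f i) (f.f j) hc }
  have hwK : ((w.mapHomologicalComplex (ComplexShape.up ℤ)).obj K).Acyclic := by
    intro n
    have := hK n
    rw [HomologicalComplex.exactAt_iff] at this ⊢
    exact this.map w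
  have H : Homotopy g 0 := CochainComplex.IsKInjective.homotopyZero g hwK
  let η : K ⟶ (u.mapHomologicalComplex (ComplexShape.up ℤ)).obj
      ((w.mapHomologicalComplex (ComplexShape.up ℤ)).obj K) :=
    { f := fun n => adj.unit.app (K.X n)
      comm' := by
        intro i j _
        simp only [Functor.mapHomologicalComplex_obj_d, Functor.mapHomologicalComplex_obj_X]
        exact (adj.unit.naturality (K.d i j)).symm }
  have H' := (u.mapHomotopy H).compLeft η
  have e1 : η ≫ (u.mapHomologicalComplex (ComplexShape.up ℤ)).map g = f := by
    have key2 : ∀ (n : ℤ) (a : K.X n ⟶ u.obj (I.X n)),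
        adj.unit.app (K.X n) ≫ u.map (w.map a ≫ adj.counit.app (I.X n)) = a := by
      intro n a
      erw [← adj.homEquiv_counit, ← adj.homEquiv_unit, Equiv.apply_symm_apply]
    ext n
    exact key2 n (f.f n)
  have e2 : η ≫ (u.mapHomologicalComplex (ComplexShape.up ℤ)).map
      (0 : (w.mapHomologicalComplex (ComplexShape.up ℤ)).obj K ⟶ I) = 0 := by
    simp
  exact ⟨(Homotopy.ofEq e1.symm).trans (H'.trans (Homotopy.ofEq e2))⟩

end Groth.Agent.S0481
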