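import Groth.Statements.S0527
import Mathlib.RingTheory.AdicCompletion.Basic
import Mathlib.RingTheory.Nilpotent.Basic
import Mathlib.RingTheory.Nilpotent.Defs
-- import your own Groth.Agent.* helpers here

set_option autoImplicit false
universe u
open Hensel

namespace Groth.Agent.S0527

/-- an ideal with a vanishing power gives an adically complete ring -/
theorem isAdicComplete_of_pow_eq_bot {A : Type u} [CommRing A] (J : Ideal A) (N : ℕ)
    (hN : J ^ N = ⊥) : IsAdicComplete J A := by
  have hpow : ∀ n, N ≤ n → (J ^ n • ⊤ : Submodule A A) = ⊥ := by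
    intro n hn
    rw [smul_eq_mul, Ideal.mul_top]
    exact le_bot_iff.mp (le_trans (Ideal.pow_le_pow_right hn) (le_of_eq hN))
  refine { haus' := ?_, prec' := ?_ }
  · intro x hx
    have := hx N
    rw [hpow N le_rfl, SModEq.bot] at this
    exact this
  · intro f hf
    refine ⟨f N, fun n => ?_⟩
    rcases le_total n N with h | h
    · exact hf h
    · have := hf h
      rw [hpow N le_rfl, SModEq.bot] at this
      rw [this]

/-- A ring is Henselian at any locally nilpotent ideal, i.e. an ideal all of whose elements are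
nilpotent. -/
theorem result (A : Type u) [CommRing A] (I : Ideal A) (hI : ∀ x ∈ I, IsNilpotent x) :
    HenselianRing A I := by
  have hjac : I ≤ Ideal.jacobson ⊥ := by
    intro x hx
    rw [Ideal.mem_jacobson_bot]
    intro y
    have : IsNilpotent (x * y) := Commute.isNilpotent_mul_right (Commute.all x y) (hI x hx)
    exact this.isUnit_add_one
  refine ⟨hjac, ?_⟩
  intro f hf a₀ h₁ h₂
  obtain ⟨N, hN⟩ := hI _ h₁
  have hJN : (Ideal.span {f.eval a₀}) ^ N = ⊥ := by
    rw [Ideal.span_singleton_pow, hN, Ideal.span_singleton_eq_bot]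
  haveI : IsAdicComplete (Ideal.span {f.eval a₀}) A := isAdicComplete_of_pow_eq_bot _ N hJN
  haveI : HenselianRing A (Ideal.span {f.eval a₀}) := IsAdicComplete.henselianRing A _
  have hloc := isLocalHom_of_le_jacobson_bot I hjac
  have hu : IsUnit (f.derivative.eval a₀) := IsUnit.of_map (Ideal.Quotient.mk I) _ h₂
  obtain ⟨a, ha, haJ⟩ := HenselianRing.is_henselian (I := Ideal.span {f.eval a₀}) f hf a₀
    (Ideal.mem_span_singleton_self _) (hu.map _)
  refine ⟨a, ha, ?_⟩
  have hle : Ideal.span {f.eval a₀} ≤ I := Ideal.span_le.mpr (Set.singleton_subset_iff.mpr h₁)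
  exact hle haJ

end Groth.Agent.S0527
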