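import Groth.Statements.S0495
import Groth.Agent.S0527
import Mathlib.RingTheory.KrullDimension.Zero
-- import your own Groth.Agent.* helpers here

set_option autoImplicit false
universe u
open Hensel

namespace Groth.Agent.S0495

/-- A local ring whose Krull dimension is zero is henselian. -/
theorem result (R : Type u) [CommRing R] [IsLocalRing R]
    (h : ringKrullDim R = 0) : HenselianLocalRing R := by
  haveI : Ring.KrullDimLE 0 R := (ringKrullDimZero_iff_ringKrullDim_eq_zero).mpr h
  have hH : HenselianRing R (IsLocalRing.maximalIdeal R) :=
    Groth.Agent.S0527.result R _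
      (fun x hx => Ring.KrullDimLE.isNilpotent_iff_mem_maximalIdeal.mpr hx)
  exact { toIsLocalRing := ‹_›,
          is_henselian := fun f hf a₀ h₁ h₂ => hH.is_henselian f hf a₀ h₁ (h₂.map _) }

end Groth.Agent.S0495
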