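import Groth.Statements.S0498
import Mathlib.RingTheory.Henselian
import Mathlib.Algebra.Polynomial.Taylor

set_option autoImplicit false
universe u
open Hensel

namespace Groth.Agent.S0498

open Polynomial

/-- Over a henselian local ring, a simple root in the residue field of the reduction of an arbitrary
polynomial (monic or not) lifts to a root in the ring. -/
theorem result (R : Type u) [CommRing R] [HenselianLocalRing R]
    (f : Polynomial R) (a₀ : IsLocalRing.ResidueField R)
    (h₁ : Polynomial.eval₂ (IsLocalRing.residue R) a₀ f = 0)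
    (h₂ : Polynomial.eval₂ (IsLocalRing.residue R) a₀ (Polynomial.derivative f) ≠ 0) :
    ∃ a : R, Polynomial.IsRoot f a ∧ IsLocalRing.residue R a = a₀ := by
  obtain ⟨a₁, rfl⟩ := IsLocalRing.residue_surjective a₀
  rw [Polynomial.eval₂_at_apply] at h₁ h₂
  set g := taylor a₁ f with hg
  set d := g.natDegree with hd
  set c : ℕ → R := fun i => g.coeff i with hc
  have hc0 : c 0 = f.eval a₁ := taylor_coeff_zero a₁ f
  have hc1 : c 1 = f.derivative.eval a₁ := taylor_coeff_one a₁ f
  have hc0m : c 0 ∈ IsLocalRing.maximalIdeal R := by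
    rw [hc0, ← IsLocalRing.residue_eq_zero_iff]; exact h₁
  have hc1u : IsUnit (c 1) := by
    rw [hc1, ← IsLocalRing.residue_ne_zero_iff_isUnit]; exact h₂
  have hdf : d = f.natDegree := natDegree_taylor f a₁
  have hd1 : 1 ≤ d := by
    rw [hdf]
    by_contra hlt
    push Not at hlt
    have hf0 : f.natDegree = 0 := by omega
    rw [Polynomial.eq_C_of_natDegree_eq_zero hf0] at h₂
    simp at h₂
  -- the auxiliary monic polynomial
  let Q : R[X] := ∑ j ∈ Finset.range (d - 1), C (c (j + 2) * c 0 ^ j) * X ^ (d - (j + 2))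
  let P : R[X] := X ^ (d - 1) * (X + C (c 1)) + C (c 0) * Q
  have hPmonic : P.Monic := by
    have hm : (X ^ (d - 1) * (X + C (c 1)) : R[X]).Monic := (monic_X_pow _).mul (monic_X_add_C _)
    have hmdeg : (X ^ (d - 1) * (X + C (c 1)) : R[X]).natDegree = d := by
      rw [(monic_X_pow _).natDegree_mul (monic_X_add_C _), natDegree_X_pow, natDegree_X_add_C]
      omega
    refine hm.add_of_left (Polynomial.degree_lt_degree ?_)
    rw [hmdeg]
    refine lt_of_le_of_lt (natDegree_C_mul_le _ _) (lt_of_le_of_lt ?_ (Nat.sub_lt hd1 one_pos))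
    refine Polynomial.natDegree_sum_le_of_forall_le _ _ (fun j _ => ?_)
    exact (natDegree_C_mul_X_pow_le _ _).trans (by omega)
  -- key identity
  have hkey : ∀ w v : R, w * v = 1 → g.eval (c 0 * v) * w ^ d = c 0 * P.eval w := by
    intro w v hwv
    have hterm : ∀ i, i ≤ d → c i * (c 0 * v) ^ i * w ^ d = c i * c 0 ^ i * w ^ (d - i) := by
      intro i hi
      have : w ^ d = w ^ i * w ^ (d - i) := by rw [← pow_add]; congr 1; omega
      rw [this, mul_pow]
      have h2 : v ^ i * w ^ i = 1 := by rw [← mul_pow, mul_comm, hwv, one_pow]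
      calc c i * (c 0 ^ i * v ^ i) * (w ^ i * w ^ (d - i))
          = c i * c 0 ^ i * (v ^ i * w ^ i) * w ^ (d - i) := by ring
        _ = c i * c 0 ^ i * w ^ (d - i) := by rw [h2, mul_one]
    rw [eval_eq_sum_range, Finset.sum_mul]
    rw [Finset.sum_congr rfl (fun i hi => hterm i (by simpa [Nat.lt_succ_iff] using hi))]
    have hd' : d + 1 = (d - 1) + 1 + 1 := by omega
    rw [← hd, hd', Finset.sum_range_succ', Finset.sum_range_succ']
    simp only [P, Q, eval_add, eval_mul, eval_pow, eval_X, eval_C, eval_finsetSum]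
    have hw : w ^ (d - 1) * w = w ^ d := by rw [← pow_succ]; congr 1; omega
    have hsum : ∑ j ∈ Finset.range (d - 1), c (j + 1 + 1) * c 0 ^ (j + 1 + 1) * w ^ (d - (j + 1 + 1))
        = c 0 * (c 0 * ∑ j ∈ Finset.range (d - 1), c (j + 2) * c 0 ^ j * w ^ (d - (j + 2))) := by
      rw [Finset.mul_sum, Finset.mul_sum]
      refine Finset.sum_congr rfl (fun j _ => ?_)
      ring
    rw [hsum]
    simp only [pow_zero, pow_one, mul_one, Nat.sub_zero, zero_add]
    rw [← hw]
    ring
  -- apply Hensel to `P` at `w₀ = -c 1`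
  have hres : ∀ x : R, IsLocalRing.residue R (c 0 * x) = 0 := by
    intro x
    rw [map_mul, (IsLocalRing.residue_eq_zero_iff _).mpr hc0m, zero_mul]
  have hP0 : P.eval (-c 1) ∈ IsLocalRing.maximalIdeal R := by
    rw [← IsLocalRing.residue_eq_zero_iff]
    simp only [P, eval_add, eval_mul, eval_pow, eval_X, eval_C]
    rw [neg_add_cancel, mul_zero, zero_add]
    exact hres _
  have hP1 : IsUnit (P.derivative.eval (-c 1)) := by
    rw [← IsLocalRing.residue_ne_zero_iff_isUnit]
    simp only [P, derivative_mul, derivative_X_pow, derivative_X, derivative_C,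
      eval_add, eval_mul, eval_pow, eval_X, eval_C, zero_mul, zero_add, add_zero,
      mul_one, neg_add_cancel, mul_zero, map_add]
    rw [hres, add_zero]
    rw [map_pow, map_neg]
    refine pow_ne_zero _ (neg_ne_zero.mpr ?_)
    rw [IsLocalRing.residue_ne_zero_iff_isUnit]
    exact hc1u
  obtain ⟨w, hw, hwm⟩ := HenselianLocalRing.is_henselian P hPmonic (-c 1) hP0 hP1
  have hwu : IsUnit w := by
    rw [← IsLocalRing.residue_ne_zero_iff_isUnit]
    have : IsLocalRing.residue R w = IsLocalRing.residue R (-c 1) := by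
      rw [← sub_eq_zero, ← map_sub, IsLocalRing.residue_eq_zero_iff]
      exact hwm
    rw [this, map_neg, neg_ne_zero, IsLocalRing.residue_ne_zero_iff_isUnit]
    exact hc1u
  obtain ⟨wu, rfl⟩ := hwu
  refine ⟨c 0 * ↑wu⁻¹ + a₁, ?_, ?_⟩
  · have h1 := hkey wu ↑wu⁻¹ wu.mul_inv
    rw [hw.eq_zero, mul_zero] at h1
    have h2 : g.eval (c 0 * ↑wu⁻¹) = 0 := by
      have hu : IsUnit ((wu : R) ^ d) := (Units.isUnit wu).pow d
      exact (hu.mul_left_eq_zero).mp h1
    show f.eval _ = 0
    rw [← taylor_eval]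
    exact h2
  · rw [map_add, hres, zero_add]

end Groth.Agent.S0498
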