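import Groth.Statements.S0507
import Mathlib.RingTheory.Henselian
import Mathlib.Algebra.Polynomial.Lifts

set_option autoImplicit false
universe u
open Hensel

namespace Groth.Agent.S0507

open Polynomial

theorem eval_map_mk {A : Type u} [CommRing A] (I : Ideal A) (f : A[X]) (a : A) :
    (f.map (Ideal.Quotient.mk I)).eval (Ideal.Quotient.mk I a) = Ideal.Quotient.mk I (f.eval a) := by
  rw [Polynomial.eval_map, Polynomial.eval₂_at_apply]

/-- A quotient of a henselian local ring by a proper ideal is henselian. -/
theorem henselian_quotient {S : Type u} [CommRing S] [HenselianLocalRing S] (I : Ideal S)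
    (hI : I ≠ ⊤) [IsLocalRing (S ⧸ I)] : HenselianLocalRing (S ⧸ I) := by
  have hloc : IsLocalHom (Ideal.Quotient.mk I) := isLocalHom_of_le_jacobson_bot I (by
    rw [IsLocalRing.jacobson_eq_maximalIdeal ⊥ bot_ne_top]
    exact IsLocalRing.le_maximalIdeal hI)
  have hmax : ∀ x : S, Ideal.Quotient.mk I x ∈ IsLocalRing.maximalIdeal (S ⧸ I) ↔
      x ∈ IsLocalRing.maximalIdeal S := by
    intro x
    rw [IsLocalRing.mem_maximalIdeal, IsLocalRing.mem_maximalIdeal, mem_nonunits_iff,
      mem_nonunits_iff]
    constructor
    · intro h hx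
      exact h (hx.map _)
    · intro h hx
      exact h (isUnit_of_map_unit (Ideal.Quotient.mk I) x hx)
  exact
    { (inferInstance : IsLocalRing (S ⧸ I)) with
      is_henselian := by
        intro f hf b₀ h1 h2
        obtain ⟨a₀, rfl⟩ := Ideal.Quotient.mk_surjective b₀
        have hlift : f ∈ Polynomial.lifts (Ideal.Quotient.mk I) := by
          rw [Polynomial.lifts_iff_coeff_lifts]
          intro n
          exact Ideal.Quotient.mk_surjective _
        obtain ⟨F, hFf, -, hFm⟩ := Polynomial.lifts_and_degree_eq_and_monic hlift hf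
        subst hFf
        have h1' : F.eval a₀ ∈ IsLocalRing.maximalIdeal S := by
          rw [eval_map_mk, hmax] at h1
          exact h1
        have h2' : IsUnit (F.derivative.eval a₀) := by
          rw [Polynomial.derivative_map, eval_map_mk] at h2
          exact isUnit_of_map_unit (Ideal.Quotient.mk I) _ h2
        obtain ⟨a, ha, haa⟩ := HenselianLocalRing.is_henselian F hFm a₀ h1' h2'
        refine ⟨Ideal.Quotient.mk I a, ?_, ?_⟩
        · show Polynomial.eval _ _ = 0
          rw [eval_map_mk, ha.eq_zero, map_zero]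
        · rw [← map_sub, hmax]
          exact haa }

/-- The maximal ideal of the henselization of a local ring `R` is generated by the maximal ideal of `R`. -/
theorem result (R : Type u) [CommRing R] [IsLocalRing R] (S : Type u) [CommRing S] [IsLocalRing S]
    [Algebra R S] [IsLocalHom (algebraMap R S)] [Hensel.IsHenselization R S] :
    Ideal.map (algebraMap R S) (IsLocalRing.maximalIdeal R) = IsLocalRing.maximalIdeal S := by
  have hS : HenselianLocalRing S := Hensel.IsHenselization.henselian (R := R)
  set I := Ideal.map (algebraMap R S) (IsLocalRing.maximalIdeal R) with hIdef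
  have hIle : I ≤ IsLocalRing.maximalIdeal S := by
    rw [Ideal.map_le_iff_le_comap]
    intro x hx
    rw [Ideal.mem_comap, IsLocalRing.mem_maximalIdeal, mem_nonunits_iff]
    intro h
    exact (IsLocalRing.mem_maximalIdeal x).mp hx (isUnit_of_map_unit (algebraMap R S) x h)
  have hItop : I ≠ ⊤ := fun h => IsLocalRing.maximalIdeal.isMaximal S |>.ne_top
    (top_le_iff.mp (h ▸ hIle))
  have hnt : Nontrivial (S ⧸ I) := Ideal.Quotient.nontrivial_iff.mpr hItop
  have hQloc : IsLocalRing (S ⧸ I) :=
    IsLocalRing.of_surjective' (Ideal.Quotient.mk I) Ideal.Quotient.mk_surjective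
  have hQ : HenselianLocalRing (S ⧸ I) := henselian_quotient I hItop
  have hmkloc : IsLocalHom (Ideal.Quotient.mk I) := isLocalHom_of_le_jacobson_bot I (by
    rw [IsLocalRing.jacobson_eq_maximalIdeal ⊥ bot_ne_top]
    exact hIle)
  -- the map `S → κ(R)`
  obtain ⟨g, hg, -⟩ := Hensel.IsHenselization.universal (R := R) (S := S)
    (IsLocalRing.ResidueField R) (IsLocalRing.residue R) inferInstance
  have hgsurj : Function.Surjective g := by
    intro y
    obtain ⟨r, rfl⟩ := IsLocalRing.residue_surjective y
    exact ⟨algebraMap R S r, by rw [← RingHom.comp_apply, hg]⟩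
  have hker : RingHom.ker g = IsLocalRing.maximalIdeal S := by
    have := RingHom.ker_isMaximal_of_surjective g hgsurj
    exact IsLocalRing.eq_maximalIdeal this
  -- the map `κ(R) → S ⧸ I`
  let φ : IsLocalRing.ResidueField R →+* S ⧸ I :=
    Ideal.Quotient.lift (IsLocalRing.maximalIdeal R) ((Ideal.Quotient.mk I).comp (algebraMap R S))
      (fun a ha => by
        rw [RingHom.comp_apply, Ideal.Quotient.eq_zero_iff_mem]
        exact Ideal.mem_map_of_mem _ ha)
  have hφ : ∀ r : R, φ (IsLocalRing.residue R r) = Ideal.Quotient.mk I (algebraMap R S r) :=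
    fun r => rfl
  obtain ⟨h, -, huniq⟩ := Hensel.IsHenselization.universal (R := R) (S := S)
    (S ⧸ I) ((Ideal.Quotient.mk I).comp (algebraMap R S)) inferInstance
  have e1 : Ideal.Quotient.mk I = h := huniq _ rfl
  have e2 : φ.comp g = h := by
    apply huniq
    ext r
    rw [RingHom.comp_apply, RingHom.comp_apply, ← RingHom.comp_apply g, hg, hφ,
      RingHom.comp_apply]
  refine le_antisymm hIle ?_
  intro s hs
  have hgs : g s = 0 := by rw [← RingHom.mem_ker, hker]; exact hs
  have : Ideal.Quotient.mk I s = 0 := by
    rw [e1, ← e2, RingHom.comp_apply, hgs, map_zero]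
  exact Ideal.Quotient.eq_zero_iff_mem.mp this

end Groth.Agent.S0507
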