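import Groth.Statements.S0508

set_option autoImplicit false
universe u
open Hensel

namespace Groth.Agent.S0508

/-- The henselization of a local ring induces an isomorphism on residue fields. -/
theorem result (R : Type u) [CommRing R] [IsLocalRing R] (S : Type u) [CommRing S] [IsLocalRing S]
    [Algebra R S] [IsLocalHom (algebraMap R S)] [Hensel.IsHenselization R S] :
    Function.Bijective (IsLocalRing.ResidueField.map (algebraMap R S)) := by
  refine ⟨RingHom.injective _, ?_⟩
  -- uniqueness in the universal property, tested against the field `κ(S)`
  have hloc : IsLocalHom ((IsLocalRing.residue S).comp (algebraMap R S)) := inferInstance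
  obtain ⟨g, hg, -⟩ := Hensel.IsHenselization.universal (R := R) (S := S)
    (IsLocalRing.ResidueField R) (IsLocalRing.residue R) inferInstance
  obtain ⟨h, -, huniq⟩ := Hensel.IsHenselization.universal (R := R) (S := S)
    (IsLocalRing.ResidueField S) ((IsLocalRing.residue S).comp (algebraMap R S)) hloc
  have h1 : IsLocalRing.residue S = h := huniq _ rfl
  have h2 : (IsLocalRing.ResidueField.map (algebraMap R S)).comp g = h := by
    apply huniq
    rw [RingHom.comp_assoc, hg]
    ext r
    simp [IsLocalRing.ResidueField.map_residue]
  intro y
  obtain ⟨s, rfl⟩ := IsLocalRing.residue_surjective y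
  refine ⟨g s, ?_⟩
  have := congrArg (fun φ : S →+* IsLocalRing.ResidueField S => φ s) (h2.trans h1.symm)
  simpa using this

end Groth.Agent.S0508
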