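import Groth.Statements.S0510
import Groth.Agent.S0507
import Groth.Agent.S0527

set_option autoImplicit false
universe u
open Hensel

namespace Groth.Agent.S0510

theorem henselian_quot_pow (R : Type u) [CommRing R] [IsLocalRing R] (n : ℕ)
    [IsLocalRing (R ⧸ IsLocalRing.maximalIdeal R ^ n)] :
    HenselianLocalRing (R ⧸ IsLocalRing.maximalIdeal R ^ n) := by
  have H : HenselianRing (R ⧸ IsLocalRing.maximalIdeal R ^ n)
      (IsLocalRing.maximalIdeal (R ⧸ IsLocalRing.maximalIdeal R ^ n)) :=
    Groth.Agent.S0527.result _ _ (by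
      intro x hx
      obtain ⟨y, rfl⟩ := Ideal.Quotient.mk_surjective x
      have hy : y ∈ IsLocalRing.maximalIdeal R := by
        rw [IsLocalRing.mem_maximalIdeal, mem_nonunits_iff] at hx ⊢
        exact fun h => hx (h.map _)
      exact ⟨n, by rw [← map_pow, Ideal.Quotient.eq_zero_iff_mem]; exact Ideal.pow_mem_pow hy n⟩)
  exact { (inferInstance : IsLocalRing (R ⧸ IsLocalRing.maximalIdeal R ^ n)) with
    is_henselian := fun f hf a₀ h1 h2 => H.is_henselian f hf a₀ h1 (h2.map _) }

/-- For a local ring `R` with henselization `S` and every `n`, the natural map from `R` modulo the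
`n`-th power of its maximal ideal to `S` modulo the extension of that power is a bijection. -/
theorem result (R : Type u) [CommRing R] [IsLocalRing R] (S : Type u) [CommRing S] [IsLocalRing S]
    [Algebra R S] [IsLocalHom (algebraMap R S)] [Hensel.IsHenselization R S] (n : ℕ) :
    Function.Bijective (Ideal.quotientMap
      (Ideal.map (algebraMap R S) (IsLocalRing.maximalIdeal R ^ n)) (algebraMap R S)
      Ideal.le_comap_map) := by
  have hS : HenselianLocalRing S := Hensel.IsHenselization.henselian (R := R)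
  set m := IsLocalRing.maximalIdeal R with hm
  set J := Ideal.map (algebraMap R S) (m ^ n) with hJ
  set q := Ideal.quotientMap J (algebraMap R S) Ideal.le_comap_map with hq
  rcases Nat.eq_zero_or_pos n with hn | hn
  · subst hn
    have h1 : Subsingleton (R ⧸ m ^ 0) := by
      rw [Ideal.Quotient.subsingleton_iff, pow_zero, Ideal.one_eq_top]
    have h2 : Subsingleton (S ⧸ J) := by
      rw [Ideal.Quotient.subsingleton_iff, hJ, pow_zero, Ideal.one_eq_top, Ideal.map_top]
    exact ⟨fun a b _ => Subsingleton.elim a b, fun y => ⟨0, Subsingleton.elim _ _⟩⟩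
  have hmn : m ^ n ≤ m := Ideal.pow_le_self hn.ne'
  have hJle : J ≤ IsLocalRing.maximalIdeal S := by
    rw [hJ, Ideal.map_le_iff_le_comap]
    intro x hx
    rw [Ideal.mem_comap, IsLocalRing.mem_maximalIdeal, mem_nonunits_iff]
    intro h
    exact (IsLocalRing.mem_maximalIdeal x).mp (hmn hx) (isUnit_of_map_unit (algebraMap R S) x h)
  have hJtop : J ≠ ⊤ := fun h => (IsLocalRing.maximalIdeal.isMaximal S).ne_top
    (top_le_iff.mp (h ▸ hJle))
  have hmntop : m ^ n ≠ ⊤ := fun h => (IsLocalRing.maximalIdeal.isMaximal R).ne_top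
    (top_le_iff.mp (h ▸ hmn))
  have hnt1 : Nontrivial (R ⧸ m ^ n) := Ideal.Quotient.nontrivial_iff.mpr hmntop
  have hnt2 : Nontrivial (S ⧸ J) := Ideal.Quotient.nontrivial_iff.mpr hJtop
  have hloc1 : IsLocalRing (R ⧸ m ^ n) :=
    IsLocalRing.of_surjective' (Ideal.Quotient.mk _) Ideal.Quotient.mk_surjective
  have hloc2 : IsLocalRing (S ⧸ J) :=
    IsLocalRing.of_surjective' (Ideal.Quotient.mk _) Ideal.Quotient.mk_surjective
  have hH1 : HenselianLocalRing (R ⧸ m ^ n) := henselian_quot_pow R n
  have hH2 : HenselianLocalRing (S ⧸ J) := Groth.Agent.S0507.henselian_quotient J hJtop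
  have hmk1 : IsLocalHom (Ideal.Quotient.mk (m ^ n)) := isLocalHom_of_le_jacobson_bot _ (by
    rw [IsLocalRing.jacobson_eq_maximalIdeal ⊥ bot_ne_top]
    exact hmn)
  have hmk2 : IsLocalHom (Ideal.Quotient.mk J) := isLocalHom_of_le_jacobson_bot _ (by
    rw [IsLocalRing.jacobson_eq_maximalIdeal ⊥ bot_ne_top]
    exact hJle)
  obtain ⟨g, hg, -⟩ := Hensel.IsHenselization.universal (R := R) (S := S)
    (R ⧸ m ^ n) (Ideal.Quotient.mk (m ^ n)) inferInstance
  have hgJ : J ≤ RingHom.ker g := by
    rw [hJ, Ideal.map_le_iff_le_comap]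
    intro x hx
    rw [Ideal.mem_comap, RingHom.mem_ker, ← RingHom.comp_apply, hg,
      Ideal.Quotient.eq_zero_iff_mem]
    exact hx
  let gbar : S ⧸ J →+* R ⧸ m ^ n := Ideal.Quotient.lift J g hgJ
  have hleft : Function.LeftInverse gbar q := by
    intro x
    obtain ⟨r, rfl⟩ := Ideal.Quotient.mk_surjective x
    rw [hq, Ideal.quotientMap_mk]
    show g (algebraMap R S r) = _
    rw [← RingHom.comp_apply, hg]
  refine ⟨hleft.injective, ?_⟩
  obtain ⟨h, -, huniq⟩ := Hensel.IsHenselization.universal (R := R) (S := S)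
    (S ⧸ J) ((Ideal.Quotient.mk J).comp (algebraMap R S)) inferInstance
  have e1 : Ideal.Quotient.mk J = h := huniq _ rfl
  have e2 : q.comp g = h := by
    apply huniq
    ext r
    rw [RingHom.comp_apply, RingHom.comp_apply, ← RingHom.comp_apply g, hg, hq,
      Ideal.quotientMap_mk, RingHom.comp_apply]
  intro y
  obtain ⟨s, rfl⟩ := Ideal.Quotient.mk_surjective y
  refine ⟨g s, ?_⟩
  have := congrArg (fun φ : S →+* S ⧸ J => φ s) (e2.trans e1.symm)
  simpa using this

end Groth.Agent.S0510
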