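import Groth.Statements.S0528
import Mathlib.RingTheory.Henselian
import Mathlib.Algebra.Polynomial.Identities
import Mathlib.Algebra.Polynomial.Lifts
import Mathlib.RingTheory.Ideal.Quotient.Operations
import Mathlib.Algebra.Polynomial.Div

set_option autoImplicit false
universe u
open Hensel

namespace Groth.Agent.S0528

open Polynomial

theorem eq_of_roots {B : Type u} [CommRing B] (K : Ideal B) (hK : K ≤ Ideal.jacobson ⊥)
    (g : B[X]) (x y : B) (hx : g.eval x = 0) (hy : g.eval y = 0) (hxy : x - y ∈ K)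
    (hu : IsUnit (Ideal.Quotient.mk K (g.derivative.eval y))) : x = y := by
  obtain ⟨k, hk⟩ := Polynomial.binomExpansion g y (x - y)
  have hyx : y + (x - y) = x := by ring
  rw [hyx, hx, hy, zero_add] at hk
  have hu' : IsUnit (g.derivative.eval y + k * (x - y)) := by
    have := isLocalHom_of_le_jacobson_bot K hK
    apply isUnit_of_map_unit (Ideal.Quotient.mk K)
    have : Ideal.Quotient.mk K (g.derivative.eval y + k * (x - y)) =
        Ideal.Quotient.mk K (g.derivative.eval y) := by
      rw [Ideal.Quotient.eq]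
      simpa using K.mul_mem_left k hxy
    rw [this]
    exact hu
  have h0 : (x - y) * (g.derivative.eval y + k * (x - y)) = 0 := by
    rw [← sub_eq_zero.mpr hk.symm]
    ring
  exact sub_eq_zero.mp (hu'.mul_left_eq_zero.mp h0)

theorem map_le_jacobson {A : Type u} [CommRing A] (I J : Ideal A) (hJ : J ≤ Ideal.jacobson ⊥) :
    J.map (Ideal.Quotient.mk I) ≤ Ideal.jacobson ⊥ := by
  rw [Ideal.map_le_iff_le_comap]
  intro x hx
  rw [Ideal.mem_comap, Ideal.mem_jacobson_bot]
  intro y
  obtain ⟨y, rfl⟩ := Ideal.Quotient.mk_surjective y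
  have h2 := ((Ideal.mem_jacobson_bot.mp (hJ hx)) y).map (Ideal.Quotient.mk I)
  simpa [map_add, map_mul, map_one] using h2

theorem eval_map_mk {A : Type u} [CommRing A] (I : Ideal A) (f : A[X]) (a : A) :
    (f.map (Ideal.Quotient.mk I)).eval (Ideal.Quotient.mk I a) = Ideal.Quotient.mk I (f.eval a) := by
  rw [Polynomial.eval_map, Polynomial.eval₂_at_apply]

theorem isUnit_dq_iff {A : Type u} [CommRing A] (I J : Ideal A) (hIJ : I ≤ J) (z : A) :
    IsUnit (Ideal.Quotient.mk (J.map (Ideal.Quotient.mk I)) (Ideal.Quotient.mk I z)) ↔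
      IsUnit (Ideal.Quotient.mk J z) := by
  rw [← DoubleQuot.quotQuotEquivQuotOfLE_quotQuotMk z hIJ]
  exact (MulEquiv.isUnit_map (DoubleQuot.quotQuotEquivQuotOfLE hIJ).toMulEquiv).symm

/-- For ideals `I ≤ J` of `A`, the ring `A` is Henselian at `J` exactly when `A` is Henselian at `I` and
`A/I` is Henselian at the image of `J`. -/
theorem result (A : Type u) [CommRing A] (I J : Ideal A) (hIJ : I ≤ J) :
    HenselianRing A J ↔
      (HenselianRing A I ∧ HenselianRing (A ⧸ I) (Ideal.map (Ideal.Quotient.mk I) J)) := by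
  constructor
  · intro hJ
    have hjac : J.map (Ideal.Quotient.mk I) ≤ Ideal.jacobson ⊥ := map_le_jacobson I J hJ.jac
    refine ⟨⟨hIJ.trans hJ.jac, ?_⟩, ⟨hjac, ?_⟩⟩
    · intro f hf a₀ h1 h2
      have h2' : IsUnit (Ideal.Quotient.mk J (f.derivative.eval a₀)) := by
        have := h2.map (Ideal.Quotient.factor hIJ)
        simpa using this
      obtain ⟨a, ha, haJ⟩ := hJ.is_henselian f hf a₀ (hIJ h1) h2'
      refine ⟨a, ha, ?_⟩
      rw [← Ideal.Quotient.eq]
      apply eq_of_roots (J.map (Ideal.Quotient.mk I)) hjac (f.map (Ideal.Quotient.mk I))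
      · rw [eval_map_mk, ha.eq_zero, map_zero]
      · rw [eval_map_mk, Ideal.Quotient.eq_zero_iff_mem]
        exact h1
      · rw [← map_sub]
        exact Ideal.mem_map_of_mem _ haJ
      · rw [Polynomial.derivative_map, eval_map_mk]
        exact h2.map _
    · intro f hf a₀ h1 h2
      obtain ⟨a₀, rfl⟩ := Ideal.Quotient.mk_surjective a₀
      by_cases hnt : Nontrivial (A ⧸ I)
      · have hlift : f ∈ Polynomial.lifts (Ideal.Quotient.mk I) := by
          rw [Polynomial.lifts_iff_coeff_lifts]
          intro n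
          exact Ideal.Quotient.mk_surjective _
        obtain ⟨F, hFf, -, hFm⟩ := Polynomial.lifts_and_degree_eq_and_monic hlift hf
        subst hFf
        have h1' : F.eval a₀ ∈ J := by
          rw [eval_map_mk, Ideal.mem_quotient_iff_mem hIJ] at h1
          exact h1
        have h2' : IsUnit (Ideal.Quotient.mk J (F.derivative.eval a₀)) := by
          rw [Polynomial.derivative_map, eval_map_mk, isUnit_dq_iff I J hIJ] at h2
          exact h2
        obtain ⟨a, ha, haJ⟩ := hJ.is_henselian F hFm a₀ h1' h2'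
        refine ⟨Ideal.Quotient.mk I a, ?_, ?_⟩
        · show Polynomial.eval _ _ = 0
          rw [eval_map_mk, ha.eq_zero, map_zero]
        · rw [← map_sub]
          exact Ideal.mem_map_of_mem _ haJ
      · rw [not_nontrivial_iff_subsingleton] at hnt
        refine ⟨Ideal.Quotient.mk I a₀, Subsingleton.elim _ _, ?_⟩
        rw [Subsingleton.elim (Ideal.Quotient.mk I a₀ - Ideal.Quotient.mk I a₀) 0]
        exact Ideal.zero_mem _
  · rintro ⟨hI, hQ⟩
    have hjacJ : J ≤ Ideal.jacobson ⊥ := by
      intro x hx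
      rw [Ideal.mem_jacobson_bot]
      intro y
      have := isLocalHom_of_le_jacobson_bot I hI.jac
      apply isUnit_of_map_unit (Ideal.Quotient.mk I)
      have := Ideal.mem_jacobson_bot.mp (hQ.jac (Ideal.mem_map_of_mem (Ideal.Quotient.mk I) hx))
        (Ideal.Quotient.mk I y)
      simpa [map_add, map_mul, map_one] using this
    refine ⟨hjacJ, ?_⟩
    intro f hf a₀ h1 h2
    have h1' : (f.map (Ideal.Quotient.mk I)).eval (Ideal.Quotient.mk I a₀) ∈
        J.map (Ideal.Quotient.mk I) := by
      rw [eval_map_mk]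
      exact Ideal.mem_map_of_mem _ h1
    have h2' : IsUnit (Ideal.Quotient.mk (J.map (Ideal.Quotient.mk I))
        ((f.map (Ideal.Quotient.mk I)).derivative.eval (Ideal.Quotient.mk I a₀))) := by
      rw [Polynomial.derivative_map, eval_map_mk, isUnit_dq_iff I J hIJ]
      exact h2
    obtain ⟨bb, hb, hbJ⟩ := hQ.is_henselian (f.map (Ideal.Quotient.mk I)) (hf.map _) _ h1' h2'
    obtain ⟨b, rfl⟩ := Ideal.Quotient.mk_surjective bb
    have hbJ' : b - a₀ ∈ J := by
      rw [← map_sub, Ideal.mem_quotient_iff_mem hIJ] at hbJ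
      exact hbJ
    have hb1 : f.eval b ∈ I := by
      have := hb.eq_zero
      rw [eval_map_mk, Ideal.Quotient.eq_zero_iff_mem] at this
      exact this
    have hb2 : IsUnit (Ideal.Quotient.mk I (f.derivative.eval b)) := by
      have := isLocalHom_of_le_jacobson_bot _ hQ.jac
      apply isUnit_of_map_unit (Ideal.Quotient.mk (J.map (Ideal.Quotient.mk I)))
      rw [isUnit_dq_iff I J hIJ]
      have : Ideal.Quotient.mk J (f.derivative.eval b) =
          Ideal.Quotient.mk J (f.derivative.eval a₀) := by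
        rw [Ideal.Quotient.eq]
        obtain ⟨c, hc⟩ := Polynomial.sub_dvd_eval_sub b a₀ f.derivative
        rw [hc]
        exact J.mul_mem_right c hbJ'
      rw [this]
      exact h2
    obtain ⟨a, ha, haI⟩ := hI.is_henselian f hf b hb1 hb2
    refine ⟨a, ha, ?_⟩
    have : a - a₀ = (a - b) + (b - a₀) := by ring
    rw [this]
    exact J.add_mem (hIJ haI) hbJ'

end Groth.Agent.S0528
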