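import Groth.Statements.S0525
import Groth.Agent.S0527
import Groth.Agent.S0528

set_option autoImplicit false
universe u
open Hensel

namespace Groth.Agent.S0525

theorem iff_sup (A : Type u) [CommRing A] (I J : Ideal A) (hJ : J ≤ I.radical) :
    HenselianRing A I ↔ HenselianRing A (I ⊔ J) := by
  rw [Groth.Agent.S0528.result A I (I ⊔ J) le_sup_left]
  constructor
  · intro hI
    refine ⟨hI, Groth.Agent.S0527.result (A ⧸ I) _ ?_⟩
    intro x hx
    obtain ⟨y, hy, rfl⟩ := (Ideal.mem_map_iff_of_surjective _ Ideal.Quotient.mk_surjective).mp hx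
    have hyr : y ∈ I.radical := by
      obtain ⟨a, ha, b, hb, rfl⟩ := Submodule.mem_sup.mp hy
      exact Ideal.add_mem _ (Ideal.le_radical ha) (hJ hb)
    obtain ⟨n, hn⟩ := hyr
    refine ⟨n, ?_⟩
    rw [← map_pow, Ideal.Quotient.eq_zero_iff_mem]
    exact hn
  · exact fun h => h.1

/-- If two ideals of a ring have the same radical (the same closed set), the ring is Henselian at one
exactly when it is Henselian at the other. -/
theorem result (A : Type u) [CommRing A] (I J : Ideal A)
    (h : I.radical = J.radical) : HenselianRing A I ↔ HenselianRing A J := by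
  rw [iff_sup A I J (h ▸ Ideal.le_radical), iff_sup A J I (h ▸ Ideal.le_radical), sup_comm]

end Groth.Agent.S0525
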