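import Groth.Statements.S0529
import Mathlib.RingTheory.Henselian
import Mathlib.Algebra.Polynomial.Monic
import Mathlib.Algebra.Group.Pi.Units

set_option autoImplicit false
universe u
open Hensel

namespace Groth.Agent.S0529

open Polynomial

theorem eval_pi {J : Type u} {A : J → Type u} [∀ j, CommRing (A j)] (p : (∀ j, A j)[X])
    (x : ∀ j, A j) (k : J) : (p.eval x) k = (p.map (Pi.evalRingHom A k)).eval (x k) := by
  rw [Polynomial.eval_map]
  exact (Polynomial.eval₂_at_apply (p := p) (Pi.evalRingHom A k) x).symm

/-- A product of rings, with the product ideal, is Henselian exactly when every factor is Henselian at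
its ideal. -/
theorem result (J : Type u) (A : J → Type u) [∀ j, CommRing (A j)]
    (I : ∀ j, Ideal (A j)) :
    HenselianRing (∀ j, A j) (⨅ j, Ideal.comap (Pi.evalRingHom A j) (I j)) ↔
      ∀ j, HenselianRing (A j) (I j) := by
  classical
  set 𝓘 := ⨅ j, Ideal.comap (Pi.evalRingHom A j) (I j) with h𝓘
  have hmem : ∀ x : ∀ j, A j, x ∈ 𝓘 ↔ ∀ j, x j ∈ I j := by
    intro x
    simp only [h𝓘, Ideal.mem_iInf, Ideal.mem_comap, Pi.evalRingHom_apply]
  -- the projections `(∏ A) ⧸ 𝓘 → A j ⧸ I j`
  let φ : ∀ j, (∀ j, A j) ⧸ 𝓘 →+* A j ⧸ I j := fun j =>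
    Ideal.Quotient.lift 𝓘 ((Ideal.Quotient.mk (I j)).comp (Pi.evalRingHom A j)) (fun x hx => by
      rw [RingHom.comp_apply, Ideal.Quotient.eq_zero_iff_mem]
      exact (hmem x).mp hx j)
  have hφ : ∀ j x, φ j (Ideal.Quotient.mk 𝓘 x) = Ideal.Quotient.mk (I j) (x j) := fun j x => rfl
  have hunit : ∀ x : ∀ j, A j, (∀ j, IsUnit (Ideal.Quotient.mk (I j) (x j))) →
      IsUnit (Ideal.Quotient.mk 𝓘 x) := by
    intro x hx
    have : ∀ j, ∃ y : A j, x j * y - 1 ∈ I j := by
      intro j
      obtain ⟨v, hv⟩ := isUnit_iff_exists_inv.mp (hx j)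
      obtain ⟨y, rfl⟩ := Ideal.Quotient.mk_surjective v
      refine ⟨y, ?_⟩
      rw [← Ideal.Quotient.eq_zero_iff_mem, map_sub, map_mul, hv, map_one, sub_self]
    choose y hy using this
    refine isUnit_iff_exists_inv.mpr ⟨Ideal.Quotient.mk 𝓘 y, ?_⟩
    rw [← map_mul, ← map_one (Ideal.Quotient.mk 𝓘), Ideal.Quotient.eq, hmem]
    intro j
    exact hy j
  constructor
  · intro H j
    have hjac : I j ≤ Ideal.jacobson ⊥ := by
      intro x hx
      rw [Ideal.mem_jacobson_bot]
      intro y
      have hX : (Pi.single j x : ∀ j, A j) ∈ 𝓘 := by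
        rw [hmem]
        intro k
        by_cases hk : k = j
        · subst hk; simpa using hx
        · rw [Pi.single_eq_of_ne hk]; exact Ideal.zero_mem _
      have := (Ideal.mem_jacobson_bot.mp (H.jac hX) (Pi.single j y)).map (Pi.evalRingHom A j)
      simpa using this
    refine ⟨hjac, ?_⟩
    intro f hf a₀ h1 h2
    set d := f.natDegree with hd
    by_cases hd0 : d = 0
    · -- `f = 1`, so `I j = ⊤` and `A j` is trivial
      have hf1 : f = 1 := hf.natDegree_eq_zero.mp hd0
      rw [hf1, eval_one] at h1
      have h1' : (1 : A j) ∈ Ideal.jacobson ⊥ := hjac h1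
      have hsub : Subsingleton (A j) := by
        have := Ideal.mem_jacobson_bot.mp h1' (-1)
        rw [mul_neg_one, neg_add_cancel] at this
        exact subsingleton_of_zero_eq_one (isUnit_zero_iff.mp this)
      exact ⟨a₀, Subsingleton.elim _ _, by rw [sub_self]; exact Ideal.zero_mem _⟩
    · have hd1 : 1 ≤ d := Nat.one_le_iff_ne_zero.mpr hd0
      let G : ∀ k, (A k)[X] := fun k => X ^ (d - 1) * (X - C 1)
      let g : ∀ k, (A k)[X] := Function.update G j f
      have hgj : g j = f := Function.update_self _ _ _
      have hgk : ∀ k, k ≠ j → g k = G k := fun k hk => Function.update_of_ne hk _ _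
      have hGmon : ∀ k, (G k).Monic := fun k => (monic_X_pow _).mul (monic_X_sub_C _)
      have hGdeg : ∀ k, Nontrivial (A k) → (G k).natDegree = d := by
        intro k _
        rw [(monic_X_pow _).natDegree_mul (monic_X_sub_C _), natDegree_X_pow, natDegree_X_sub_C]
        omega
      have hgdeg : ∀ k, (g k).natDegree ≤ d := by
        intro k
        by_cases hk : k = j
        · subst hk; rw [hgj]
        · rw [hgk k hk]
          by_cases hnt : Nontrivial (A k)
          · rw [hGdeg k hnt]
          · rw [not_nontrivial_iff_subsingleton] at hnt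
            rw [Subsingleton.elim (G k) 0, natDegree_zero]; exact Nat.zero_le _
      have hgcoeff : ∀ k, (g k).coeff d = 1 := by
        intro k
        by_cases hk : k = j
        · subst hk; rw [hgj]; exact hf
        · rw [hgk k hk]
          by_cases hnt : Nontrivial (A k)
          · have := (hGmon k).coeff_natDegree
            rwa [hGdeg k hnt] at this
          · rw [not_nontrivial_iff_subsingleton] at hnt
            exact Subsingleton.elim _ _
      let F : (∀ k, A k)[X] :=
        ∑ n ∈ Finset.range (d + 1), C (fun k => (g k).coeff n) * X ^ n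
      have hFmap : ∀ k, F.map (Pi.evalRingHom A k) = g k := by
        intro k
        simp only [F, Polynomial.map_sum, Polynomial.map_mul, Polynomial.map_pow, map_X, map_C,
          Pi.evalRingHom_apply]
        exact (Polynomial.as_sum_range_C_mul_X_pow' (g k) (Nat.lt_succ_of_le (hgdeg k))).symm
      have hFmon : F.Monic := by
        refine Polynomial.monic_of_natDegree_le_of_coeff_eq_one d ?_ ?_
        · refine Polynomial.natDegree_sum_le_of_forall_le _ _ (fun n hn => ?_)
          refine (natDegree_C_mul_X_pow_le _ _).trans ?_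
          exact Nat.lt_succ_iff.mp (Finset.mem_range.mp hn)
        · funext k
          have := congrArg (fun p => p.coeff d) (hFmap k)
          simp only [Polynomial.coeff_map, Pi.evalRingHom_apply] at this
          rw [Pi.one_apply, ← hgcoeff k, ← this]
      let b₀ : ∀ k, A k := Function.update (fun k => (1 : A k)) j a₀
      have hb₀j : b₀ j = a₀ := Function.update_self _ _ _
      have hb₀k : ∀ k, k ≠ j → b₀ k = 1 := fun k hk => Function.update_of_ne hk _ _
      have hF1 : F.eval b₀ ∈ 𝓘 := by
        rw [hmem]
        intro k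
        rw [eval_pi, hFmap]
        by_cases hk : k = j
        · subst hk; rw [hgj, hb₀j]; exact h1
        · rw [hgk k hk, hb₀k k hk]
          simp [G]
      have hF2 : IsUnit (Ideal.Quotient.mk 𝓘 (F.derivative.eval b₀)) := by
        apply hunit
        intro k
        rw [eval_pi, ← Polynomial.derivative_map, hFmap]
        by_cases hk : k = j
        · subst hk; rw [hgj, hb₀j]; exact h2
        · rw [hgk k hk, hb₀k k hk]
          simp [G]
      obtain ⟨a, ha, hab⟩ := H.is_henselian F hFmon b₀ hF1 hF2
      refine ⟨a j, ?_, ?_⟩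
      · have := congrFun ha.eq_zero j
        rw [eval_pi, hFmap, hgj] at this
        exact this
      · have := (hmem _).mp hab j
        rw [Pi.sub_apply, hb₀j] at this
        exact this
  · intro H
    refine ⟨?_, ?_⟩
    · intro x hx
      rw [Ideal.mem_jacobson_bot]
      intro y
      rw [Pi.isUnit_iff]
      intro j
      exact Ideal.mem_jacobson_bot.mp ((H j).jac ((hmem x).mp hx j)) (y j)
    · intro f hf a₀ h1 h2
      have hj : ∀ j, ∃ a : A j, (f.map (Pi.evalRingHom A j)).IsRoot a ∧ a - a₀ j ∈ I j := by
        intro j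
        refine (H j).is_henselian (f.map (Pi.evalRingHom A j)) (hf.map _) (a₀ j) ?_ ?_
        · rw [← eval_pi]; exact (hmem _).mp h1 j
        · rw [Polynomial.derivative_map, ← eval_pi, ← hφ]
          exact h2.map (φ j)
      choose a ha hai using hj
      refine ⟨a, ?_, ?_⟩
      · show f.eval a = 0
        funext j
        rw [eval_pi]
        exact (ha j).eq_zero
      · rw [hmem]
        intro j
        exact hai j

end Groth.Agent.S0529
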