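import Groth.Statements.S0535
import Mathlib.LinearAlgebra.TensorProduct.Quotient
import Mathlib.RingTheory.Nakayama
import Mathlib.RingTheory.Henselian
import Mathlib.Algebra.Module.Projective

set_option autoImplicit false
universe u
open Hensel

namespace Groth.Agent.S0535

/-- If `R` is Henselian at `I` and two finitely generated projective `R`-modules become isomorphic after
base change to `R/I`, then they are isomorphic. -/
theorem result (R : Type u) [CommRing R] (I : Ideal R)
    [HenselianRing R I] (P₁ P₂ : Type u) [AddCommGroup P₁] [Module R P₁] [AddCommGroup P₂]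
    [Module R P₂] [Module.Finite R P₁] [Module.Projective R P₁] [Module.Finite R P₂]
    [Module.Projective R P₂]
    (e : TensorProduct R (R ⧸ I) P₁ ≃ₗ[R ⧸ I] TensorProduct R (R ⧸ I) P₂) :
    Nonempty (P₁ ≃ₗ[R] P₂) := by
  have hjac : I ≤ Ideal.jacobson ⊥ := HenselianRing.jac
  -- the induced `R`-linear isomorphism of the reductions
  let e' : (P₁ ⧸ (I • ⊤ : Submodule R P₁)) ≃ₗ[R] (P₂ ⧸ (I • ⊤ : Submodule R P₂)) :=
    ((TensorProduct.quotTensorEquivQuotSMul P₁ I).symm.trans (e.restrictScalars R)).trans
      (TensorProduct.quotTensorEquivQuotSMul P₂ I)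
  let q₁ := (I • ⊤ : Submodule R P₁).mkQ
  let q₂ := (I • ⊤ : Submodule R P₂).mkQ
  obtain ⟨φ, hφ⟩ := Module.projective_lifting_property q₂ (e'.toLinearMap ∘ₗ q₁)
    (Submodule.mkQ_surjective _)
  have hφx : ∀ x, q₂ (φ x) = e' (q₁ x) := fun x => congrArg (fun g => g x) hφ
  -- `φ` is surjective by Nakayama
  have hsurj : Function.Surjective φ := by
    have htop : (⊤ : Submodule R P₂) ≤ LinearMap.range φ := by
      refine Submodule.le_of_le_smul_of_le_jacobson_bot (Module.Finite.fg_top) hjac ?_
      intro y _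
      obtain ⟨x, hx⟩ := (Submodule.mkQ_surjective _ : Function.Surjective q₁) (e'.symm (q₂ y))
      have h1 : q₂ (φ x) = q₂ y := by rw [hφx, hx]; simp
      have h2 : y - φ x ∈ (I • ⊤ : Submodule R P₂) := by
        rw [← Submodule.Quotient.eq]
        exact h1.symm
      have : y = φ x + (y - φ x) := by abel
      rw [this]
      exact Submodule.add_mem_sup (LinearMap.mem_range_self φ x) h2
    exact LinearMap.range_eq_top.mp (eq_top_iff.mpr htop)
  -- a section of `φ`
  obtain ⟨s, hs⟩ := Module.projective_lifting_property φ (LinearMap.id) hsurj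
  have hsx : ∀ y, φ (s y) = y := fun y => congrArg (fun g => g y) hs
  let π : P₁ →ₗ[R] P₁ := LinearMap.id - s ∘ₗ φ
  have hπ : ∀ k, φ k = 0 → π k = k := by
    intro k hk
    simp [π, hk]
  let K : Submodule R P₁ := LinearMap.range π
  have hKfg : K.FG := by
    have : K = Submodule.map π ⊤ := (Submodule.map_top π).symm
    rw [this]
    exact Module.Finite.fg_top.map π
  have hKle : K ≤ I • K := by
    rintro _ ⟨x, rfl⟩
    have hk : φ (π x) = 0 := by simp [π, hsx]
    have h1 : e' (q₁ (π x)) = 0 := by rw [← hφx, hk, map_zero]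
    have h2 : q₁ (π x) = 0 := by
      have := congrArg e'.symm h1
      simpa using this
    have h3 : π x ∈ (I • ⊤ : Submodule R P₁) := (Submodule.Quotient.mk_eq_zero _).mp h2
    have h4 : π (π x) ∈ Submodule.map π (I • ⊤ : Submodule R P₁) := Submodule.mem_map_of_mem h3
    rw [Submodule.map_smul'', Submodule.map_top] at h4
    rw [hπ _ hk] at h4
    exact h4
  have hK : K = ⊥ := Submodule.eq_bot_of_le_smul_of_le_jacobson_bot I K hKfg hKle hjac
  have hinj : Function.Injective φ := by
    rw [← LinearMap.ker_eq_bot, eq_bot_iff]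
    intro k hk
    have hk' : φ k = 0 := hk
    have : k ∈ K := ⟨k, hπ k hk'⟩
    rw [hK] at this
    exact this
  exact ⟨LinearEquiv.ofBijective φ ⟨hinj, hsurj⟩⟩

end Groth.Agent.S0535
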