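import Groth.Statements.S0544
import Mathlib.RingTheory.AdicCompletion.Basic
import Mathlib.LinearAlgebra.Finsupp.LinearCombination
import Mathlib.RingTheory.Ideal.Operations

set_option autoImplicit false
universe u
open CAlg

namespace Groth.Agent.S0544

/-- Let `R` be complete with respect to an ideal `I` and `M` an `R`-module which is `I`-adically
separated and such that `M/IM` is finitely generated. Then `M` is a finitely generated `R`-module. -/
theorem result (R : Type u) [CommRing R]
    (I : Ideal R) [IsAdicComplete I R] (M : Type u) [AddCommGroup M] [Module R M] [IsHausdorff I M]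
    (h : Module.Finite R (M ⧸ (I • ⊤ : Submodule R M))) : Module.Finite R M := by
  classical
  obtain ⟨n, v, hv⟩ := Module.Finite.exists_fin (R := R) (M := M ⧸ (I • ⊤ : Submodule R M))
  choose w hw using fun j => Submodule.Quotient.mk_surjective (I • ⊤ : Submodule R M) (v j)
  have step2 : ∀ m : M, ∃ a : Fin n → R, m - ∑ j, a j • w j ∈ (I • ⊤ : Submodule R M) := by
    intro m
    have hm : Submodule.Quotient.mk (p := (I • ⊤ : Submodule R M)) m ∈
        Submodule.span R (Set.range v) := by
      rw [hv]; trivial
    obtain ⟨a, ha⟩ := (Submodule.mem_span_range_iff_exists_fun R).mp hm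
    refine ⟨a, ?_⟩
    have h2 : (Submodule.mkQ (I • ⊤ : Submodule R M)) (∑ j, a j • w j) = ∑ j, a j • v j := by
      rw [map_sum]
      simp only [map_smul, Submodule.mkQ_apply, hw]
    exact (Submodule.Quotient.eq _).mp (ha.symm.trans h2.symm)
  have step3 : ∀ (k : ℕ) (x : M), ∃ a : Fin n → R, x ∈ (I ^ k • ⊤ : Submodule R M) →
      (∀ j, a j ∈ I ^ k) ∧ x - ∑ j, a j • w j ∈ (I ^ (k + 1) • ⊤ : Submodule R M) := by
    intro k x
    by_cases hx : x ∈ (I ^ k • ⊤ : Submodule R M)
    · suffices H : ∃ a : Fin n → R, (∀ j, a j ∈ I ^ k) ∧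
          x - ∑ j, a j • w j ∈ (I ^ (k + 1) • ⊤ : Submodule R M) by
        obtain ⟨a, ha⟩ := H
        exact ⟨a, fun _ => ha⟩
      refine Submodule.smul_induction_on hx ?_ ?_
      · intro r hr m _
        obtain ⟨b, hb⟩ := step2 m
        refine ⟨fun j => r * b j, fun j => Ideal.mul_mem_right _ _ hr, ?_⟩
        have e : r • m - ∑ j, (r * b j) • w j = r • (m - ∑ j, b j • w j) := by
          rw [smul_sub, Finset.smul_sum]
          simp [mul_smul]
        rw [e, pow_succ, Submodule.mul_smul]
        exact Submodule.smul_mem_smul hr hb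
      · rintro x y ⟨a, ha, hxa⟩ ⟨b, hb, hyb⟩
        refine ⟨a + b, fun j => Ideal.add_mem _ (ha j) (hb j), ?_⟩
        have e : x + y - ∑ j, (a + b) j • w j =
            (x - ∑ j, a j • w j) + (y - ∑ j, b j • w j) := by
          simp only [Pi.add_apply, add_smul, Finset.sum_add_distrib]
          abel
        rw [e]
        exact Submodule.add_mem _ hxa hyb
    · exact ⟨0, fun h => absurd h hx⟩
  choose A hA using step3
  have htop : ∀ m : M, m ∈ Submodule.span R (Set.range w) := by
    intro m
    let seq : ℕ → M := fun k => Nat.rec m (fun k s => s - ∑ j, A k s j • w j) k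
    have seq_succ : ∀ k, seq (k + 1) = seq k - ∑ j, A k (seq k) j • w j := fun k => rfl
    have seq_mem : ∀ k, seq k ∈ (I ^ k • ⊤ : Submodule R M) := by
      intro k
      induction k with
      | zero => simp
      | succ k ih =>
        rw [seq_succ]
        exact (hA k (seq k) ih).2
    let c : ℕ → Fin n → R := fun K j => ∑ k ∈ Finset.range K, A k (seq k) j
    have hc : ∀ K, m = seq K + ∑ j, c K j • w j := by
      intro K
      induction K with
      | zero => simp [c, seq]
      | succ K ih =>
        rw [seq_succ]
        simp only [c, Finset.sum_range_succ, add_smul, Finset.sum_add_distrib]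
        conv_lhs => rw [ih]
        abel
    have hcauchy : ∀ j, ∀ {K K' : ℕ}, K ≤ K' →
        c K j ≡ c K' j [SMOD (I ^ K • ⊤ : Submodule R R)] := by
      intro j K K' hKK'
      rw [SModEq.sub_mem]
      have : c K j - c K' j = - ∑ k ∈ Finset.Ico K K', A k (seq k) j := by
        simp only [c]
        rw [← Finset.sum_range_add_sum_Ico _ hKK']
        ring
      rw [this, smul_eq_mul, Ideal.mul_top]
      refine (Submodule.neg_mem_iff _).mpr (Ideal.sum_mem _ fun k hk => ?_)
      have hk' : K ≤ k := (Finset.mem_Ico.mp hk).1
      exact Ideal.pow_le_pow_right hk' ((hA k (seq k) (seq_mem k)).1 j)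
    choose L hL using fun j => IsPrecomplete.prec (I := I) (M := R) inferInstance (hcauchy j)
    have hzero : m - ∑ j, L j • w j = 0 := by
      refine IsHausdorff.haus (I := I) inferInstance _ fun K => ?_
      rw [SModEq.sub_mem, sub_zero]
      have e : m - ∑ j, L j • w j = seq K + ∑ j, (c K j - L j) • w j := by
        conv_lhs => rw [hc K]
        simp only [sub_smul, Finset.sum_sub_distrib]
        abel
      rw [e]
      refine Submodule.add_mem _ (seq_mem K) (Submodule.sum_mem _ fun j _ => ?_)
      have hj : c K j - L j ∈ I ^ K := by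
        have := hL j K
        rw [SModEq.sub_mem, smul_eq_mul, Ideal.mul_top] at this
        exact this
      exact Submodule.smul_mem_smul hj trivial
    have : m = ∑ j, L j • w j := sub_eq_zero.mp hzero
    rw [this]
    exact (Submodule.mem_span_range_iff_exists_fun R).mpr ⟨L, rfl⟩
  exact Module.finite_def.mpr (Submodule.fg_def.mpr
    ⟨Set.range w, Set.finite_range w, eq_top_iff.mpr fun m _ => htop m⟩)

end Groth.Agent.S0544
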