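import Groth.Statements.S0587
import Mathlib.LinearAlgebra.TensorProduct.Pi
import Mathlib.LinearAlgebra.TensorProduct.Finiteness
import Mathlib.LinearAlgebra.Finsupp.LinearCombination

set_option autoImplicit false
universe u
open CAlg
open scoped TensorProduct

namespace Groth.Agent.S0587

/-- A module `M` is finitely generated exactly when for every family of modules `(Qᵢ)` the natural map
from `M ⊗ ∏ Qᵢ` to `∏ (M ⊗ Qᵢ)` is surjective. -/
theorem result (R : Type u) [CommRing R] (M : Type u)
    [AddCommGroup M] [Module R M] :
    Module.Finite R M ↔ ∀ (ι : Type u) (Q : ι → Type u) [∀ i, AddCommGroup (Q i)]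
      [∀ i, Module R (Q i)], Function.Surjective (TensorProduct.piRightHom R R M Q) := by
  classical
  constructor
  · intro hfin ι Q _ _ x
    obtain ⟨n, v, hv⟩ := Module.Finite.exists_fin (R := R) (M := M)
    have hrep : ∀ (P : Type u) [AddCommGroup P] [Module R P] (z : M ⊗[R] P),
        ∃ q : Fin n → P, z = ∑ k, v k ⊗ₜ[R] q k := by
      intro P _ _ z
      induction z using TensorProduct.induction_on with
      | zero => exact ⟨0, by simp⟩
      | tmul m p =>
        have hm : m ∈ Submodule.span R (Set.range v) := by rw [hv]; trivial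
        obtain ⟨c, hc⟩ := (Submodule.mem_span_range_iff_exists_fun R).mp hm
        refine ⟨fun k => c k • p, ?_⟩
        rw [← hc, TensorProduct.sum_tmul]
        simp [TensorProduct.smul_tmul]
      | add x y hx hy =>
        obtain ⟨q, rfl⟩ := hx
        obtain ⟨q', rfl⟩ := hy
        exact ⟨q + q', by simp [TensorProduct.tmul_add, Finset.sum_add_distrib]⟩
    choose q hq using fun i => hrep (Q i) (x i)
    refine ⟨∑ k, v k ⊗ₜ[R] (fun i => q i k), ?_⟩
    rw [map_sum]
    funext i
    simp only [TensorProduct.piRightHom_tmul, Finset.sum_apply]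
    exact (hq i).symm
  · intro h
    obtain ⟨y, hy⟩ := h M (fun _ => R) (fun m => m ⊗ₜ[R] (1 : R))
    obtain ⟨S, rfl⟩ := TensorProduct.exists_finset y
    refine Module.finite_def.mpr (Submodule.fg_def.mpr
      ⟨(S.image Prod.fst : Set M), Finset.finite_toSet _, eq_top_iff.mpr fun m _ => ?_⟩)
    have hm := congrFun hy m
    rw [map_sum] at hm
    simp only [TensorProduct.piRightHom_tmul, Finset.sum_apply] at hm
    have hm2 := congrArg (TensorProduct.rid R M) hm
    rw [map_sum] at hm2
    simp only [TensorProduct.rid_tmul, one_smul] at hm2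
    rw [← hm2]
    refine Submodule.sum_mem _ fun p hp => Submodule.smul_mem _ _ (Submodule.subset_span ?_)
    simp only [Finset.coe_image]
    exact ⟨p, hp, rfl⟩

end Groth.Agent.S0587
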