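import Groth.Statements.S0643
import Mathlib.RingTheory.AdjoinRoot
import Mathlib.Tactic.LinearCombination

set_option autoImplicit false
universe u
open EtCore

namespace Groth.Agent.S0643

open Polynomial in
/-- Let A be a ring, assumed nonzero here (the published statement does not say so; over the zero ring
no polynomial has positive degree in Lean's sense), and a, b elements generating the unit ideal such
that some positive power of a is congruent to 1 modulo b. Then there is a monic polynomial P of
positive degree over A such that in B = A[y]/(P) the element a - b y is a unit. -/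
theorem result (A : Type u) [CommRing A] [Nontrivial A] (a b : A) (hab : IsCoprime a b)
    (hroot : ∃ n : ℕ, 0 < n ∧ a ^ n - 1 ∈ Ideal.span ({b} : Set A)) :
    ∃ P : A[X], P.Monic ∧ 0 < P.natDegree ∧
      IsUnit (algebraMap A (AdjoinRoot P) a - algebraMap A (AdjoinRoot P) b * AdjoinRoot.root P) := by
  obtain ⟨n, hn, hmem⟩ := hroot
  obtain ⟨c, hc⟩ := Ideal.mem_span_singleton'.mp hmem
  obtain ⟨x, y, hxy⟩ := hab
  set Q : A[X] := C c * (C x * X + C y) ^ (n - 1) with hQ
  set P : A[X] := X ^ n - Q with hP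
  have hQdeg : Q.natDegree < n := by
    calc Q.natDegree ≤ ((C x * X + C y) ^ (n - 1)).natDegree := natDegree_C_mul_le _ _
      _ ≤ (n - 1) * (C x * X + C y).natDegree := natDegree_pow_le
      _ ≤ (n - 1) * 1 := Nat.mul_le_mul_left _ natDegree_linear_le
      _ < n := by omega
  have hdeg : Q.degree < (X ^ n : A[X]).degree := by
    apply degree_lt_degree
    rw [natDegree_X_pow]
    exact hQdeg
  have hmonic : P.Monic := Monic.sub_of_left (monic_X_pow n) hdeg
  have hnat : P.natDegree = n := by
    rw [hP, natDegree_sub_eq_left_of_natDegree_lt (by rw [natDegree_X_pow]; exact hQdeg), natDegree_X_pow]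
  refine ⟨P, hmonic, hnat ▸ hn, ?_⟩
  apply isUnit_of_dvd_one
  set r : AdjoinRoot P := AdjoinRoot.root P
  set φ := algebraMap A (AdjoinRoot P)
  have hPr : r ^ n - φ c * (φ x * r + φ y) ^ (n - 1) = 0 := by
    have h0 : aeval r P = 0 := AdjoinRoot.aeval_eq P ▸ AdjoinRoot.mk_self
    simpa [hP, hQ, φ] using h0
  have h1 : φ a ^ n - φ c * φ b * (φ x * φ a + φ y * φ b) ^ (n - 1) = 1 := by
    have : φ (a ^ n - c * b * (x * a + y * b) ^ (n - 1)) = 1 := by
      rw [hxy, one_pow, mul_one, hc]
      simp
    simpa using this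
  have h2 : (φ b * r) ^ n - φ c * φ b * (φ x * (φ b * r) + φ y * φ b) ^ (n - 1) = 0 := by
    have e : (φ b * r) ^ n - φ c * φ b * (φ x * (φ b * r) + φ y * φ b) ^ (n - 1) =
        φ b ^ n * (r ^ n - φ c * (φ x * r + φ y) ^ (n - 1)) := by
      have e3 : φ x * (φ b * r) + φ y * φ b = φ b * (φ x * r + φ y) := by ring
      rw [e3]
      simp only [mul_pow]
      obtain ⟨m, rfl⟩ : ∃ m, n = m + 1 := ⟨n - 1, by omega⟩
      simp only [Nat.add_sub_cancel]
      ring
    rw [e, hPr, mul_zero]
  have key : (1 : AdjoinRoot P) = (φ a ^ n - (φ b * r) ^ n) - φ c * φ b *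
      ((φ x * φ a + φ y * φ b) ^ (n - 1) - (φ x * (φ b * r) + φ y * φ b) ^ (n - 1)) := by
    linear_combination (-1 : AdjoinRoot P) * h1 + h2
  rw [key]
  apply dvd_sub
  · exact sub_dvd_pow_sub_pow _ _ _
  · apply Dvd.dvd.mul_left
    have e2 : (φ x * φ a + φ y * φ b) - (φ x * (φ b * r) + φ y * φ b) = φ x * (φ a - φ b * r) := by
      ring
    have h3 : φ a - φ b * r ∣ (φ x * φ a + φ y * φ b) - (φ x * (φ b * r) + φ y * φ b) := by
      rw [e2]
      exact dvd_mul_left _ _
    exact h3.trans (sub_dvd_pow_sub_pow _ _ _)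

end Groth.Agent.S0643
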