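import Groth.Statements.S0706
-- import your own Groth.Agent.* helpers here

set_option autoImplicit false
open CategoryTheory CategoryTheory.Limits AlgebraicGeometry Opposite Topology
universe u
open ProEtW

namespace Groth.Agent.S0706

/-- Let f be an element and I an ideal of A, and Z the intersection of D(f) and V(I) in Spec A. There is
a multiplicative subset S of A for which the image of Spec(S^{-1}A) in Spec A consists precisely of
the points having a specialization in Z. -/
theorem result (A : Type u) [CommRing A] (f : A) (I : Ideal A) :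
    ∃ S : Submonoid A,
      Set.range (PrimeSpectrum.comap (algebraMap A (Localization S))) =
        {x | ∃ z : PrimeSpectrum A,
          z ∈ (PrimeSpectrum.basicOpen f : Set (PrimeSpectrum A)) ∩ PrimeSpectrum.zeroLocus I ∧ x ⤳ z} := by
  let S : Submonoid A :=
    { carrier := {x | ∃ n : ℕ, x - f ^ n ∈ I}
      one_mem' := ⟨0, by simp⟩
      mul_mem' := by
        rintro a b ⟨n, hn⟩ ⟨m, hm⟩
        refine ⟨n + m, ?_⟩
        have h : a * b - f ^ (n + m) = (a - f ^ n) * b + f ^ n * (b - f ^ m) := by ring
        rw [h]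
        exact I.add_mem (I.mul_mem_right _ hn) (I.mul_mem_left _ hm) }
  refine ⟨S, ?_⟩
  rw [PrimeSpectrum.localization_comap_range (Localization S) S]
  ext x
  simp only [Set.mem_ofPred_eq, Set.mem_inter_iff, SetLike.mem_coe, PrimeSpectrum.mem_basicOpen,
    PrimeSpectrum.mem_zeroLocus, ← PrimeSpectrum.le_iff_specializes]
  constructor
  · intro hdisj
    have hd : Disjoint ((x.asIdeal ⊔ I : Ideal A) : Set A) (Submonoid.powers f : Set A) := by
      rw [Set.disjoint_left]
      rintro a ha ⟨n, rfl⟩
      obtain ⟨p, hp, i, hi, hpi⟩ := Submodule.mem_sup.mp ha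
      have hpS : p ∈ (S : Set A) := by
        refine ⟨n, ?_⟩
        have hpi' : p + i = f ^ n := hpi
        have h : p - f ^ n = -i := by rw [← hpi']; ring
        show p - f ^ n ∈ I
        rw [h]; exact I.neg_mem hi
      exact Set.disjoint_left.mp hdisj hpS hp
    obtain ⟨z, hz, hle, hzd⟩ := Ideal.exists_le_prime_disjoint _ _ hd
    refine ⟨⟨z, hz⟩, ⟨?_, ?_⟩, ?_⟩
    · intro hf
      exact Set.disjoint_left.mp hzd hf (Submonoid.mem_powers f)
    · exact fun a ha => hle (Ideal.mem_sup_right ha)
    · exact fun a ha => hle (Ideal.mem_sup_left ha)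
  · rintro ⟨z, ⟨hfz, hIz⟩, hxz⟩
    rw [Set.disjoint_left]
    rintro a ⟨n, hn⟩ ha
    have haz : a ∈ z.asIdeal := hxz ha
    have hfn : f ^ n ∈ z.asIdeal := by
      have h2 : f ^ n = a - (a - f ^ n) := by ring
      rw [h2]; exact z.asIdeal.sub_mem haz (hIz hn)
    exact hfz (z.isPrime.mem_of_pow_mem n hfn)

end Groth.Agent.S0706
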