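import Groth.Statements.S0738
-- import your own Groth.Agent.* helpers here

set_option autoImplicit false
open Topology
universe u
open ProEtW

namespace Groth.Agent.S0738

/-- A closed subset of a w-local spectral space is w-local (with the subspace topology). -/
theorem result (X : Type u) [TopologicalSpace X] (hX : ProEtW.IsWLocal X)
    (Y : Set X) (hY : IsClosed Y) : ProEtW.IsWLocal ↥Y := by
  obtain ⟨hspec, hcl, huniq⟩ := hX
  have hce : IsClosedEmbedding (Subtype.val : Y → X) := hY.isClosedEmbedding_subtypeVal
  have hclosed_iff : ∀ y : Y, IsClosed ({y} : Set Y) ↔ IsClosed ({y.1} : Set X) := by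
    intro y
    rw [hce.isClosed_iff_image_isClosed, Set.image_singleton]
  refine ⟨?_, ?_, ?_⟩
  · haveI : CompactSpace Y := isCompact_iff_compactSpace.mp hY.isCompact
    haveI : QuasiSober Y := hce.quasiSober
    haveI : PrespectralSpace Y := PrespectralSpace.of_isClosedEmbedding _ hce
    haveI : QuasiSeparatedSpace Y := by
      have hb := (PrespectralSpace.isTopologicalBasis (X := X)).isInducing hce.isInducing
      let ι := {U : Set X // IsOpen U ∧ IsCompact U}
      let b : ι → Set Y := fun i => Subtype.val ⁻¹' i.1
      have hrange : Set.range b = Set.image (Set.preimage Subtype.val)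
          {U : Set X | IsOpen U ∧ IsCompact U} := by
        ext V
        constructor
        · rintro ⟨i, rfl⟩
          exact ⟨i.1, i.2, rfl⟩
        · rintro ⟨U, hU, rfl⟩
          exact ⟨⟨U, hU⟩, rfl⟩
      refine QuasiSeparatedSpace.of_isTopologicalBasis (b := b) (hrange ▸ hb) ?_
      intro i j
      have hij : IsCompact (i.1 ∩ j.1) :=
        QuasiSeparatedSpace.inter_isCompact _ _ i.2.1 i.2.2 j.2.1 j.2.2
      have := hce.isCompact_preimage hij
      simpa [b, Set.preimage_inter] using this
    exact {}
  · have h : {y : Y | IsClosed ({y} : Set Y)} = Subtype.val ⁻¹' {x : X | IsClosed ({x} : Set X)} := by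
      ext y
      exact hclosed_iff y
    rw [h]
    exact hcl.preimage continuous_subtype_val
  · intro y
    obtain ⟨z, ⟨hzc, hyz⟩, hzu⟩ := huniq y.1
    have hzY : z ∈ Y :=
      hY.closure_subset_iff.mpr (Set.singleton_subset_iff.mpr y.2)
        (specializes_iff_mem_closure.mp hyz)
    refine ⟨⟨z, hzY⟩, ⟨(hclosed_iff _).mpr hzc, ?_⟩, ?_⟩
    · exact (IsInducing.subtypeVal.specializes_iff).mp hyz
    · rintro w ⟨hwc, hyw⟩
      apply Subtype.ext
      exact hzu w.1 ⟨(hclosed_iff w).mp hwc, (IsInducing.subtypeVal.specializes_iff).mpr hyw⟩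

end Groth.Agent.S0738
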