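import Groth.Statements.S0781
import Mathlib.AlgebraicGeometry.Morphisms.FormallyUnramified
import Mathlib.AlgebraicGeometry.Morphisms.IsIso
-- import your own Groth.Agent.* helpers here

set_option autoImplicit false
open CategoryTheory CategoryTheory.Limits AlgebraicGeometry Opposite
universe u
open Desc

namespace Groth.Agent.S0781

/-- If p : X → S is a surjective morphism of schemes, then for schemes U₁, U₂ étale over S, two
S-morphisms U₁ → U₂ whose base changes to X agree, as morphisms of canonical descent data relative
to p, are equal; that is, the canonical-descent-datum functor is faithful on schemes étale over S.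
(Descent data are taken in functor-of-points form, equivalent by the Yoneda lemma to an isomorphism
over X ×_S X satisfying the cocycle condition.) -/
theorem result {X S : Scheme.{u}} (p : X ⟶ S) [Surjective p] (U₁ U₂ : Over S)
    [Etale U₁.hom] [Etale U₂.hom] : Function.Injective ((Desc.toDD p).map : (U₁ ⟶ U₂) → _) := by
  intro a b hab
  have hab' : ((Desc.toDD p).map a).hom.left = ((Desc.toDD p).map b).hom.left := by rw [hab]
  change pullback.map p U₁.hom p U₂.hom (𝟙 X) a.left (𝟙 S) (by simp) (by simp) =
    pullback.map p U₁.hom p U₂.hom (𝟙 X) b.left (𝟙 S) (by simp) (by simp) at hab'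
  have hπ : pullback.snd p U₁.hom ≫ a.left = pullback.snd p U₁.hom ≫ b.left := by
    have e1 := congrArg (· ≫ pullback.snd p U₂.hom) hab'
    simp only [pullback.lift_snd] at e1
    exact e1
  -- the diagonal of U₂ over S is an open immersion
  let Δ := pullback.diagonal U₂.hom
  have hc : a.left ≫ U₂.hom = b.left ≫ U₂.hom := by rw [Over.w a, Over.w b]
  let c : U₁.left ⟶ pullback U₂.hom U₂.hom := pullback.lift a.left b.left hc
  let fst := pullback.fst c Δ
  have hca : c ≫ pullback.fst U₂.hom U₂.hom = a.left := pullback.lift_fst _ _ _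
  have hcb : c ≫ pullback.snd U₂.hom U₂.hom = b.left := pullback.lift_snd _ _ _
  have hΔ1 : Δ ≫ pullback.fst U₂.hom U₂.hom = 𝟙 _ := pullback.diagonal_fst _
  have hΔ2 : Δ ≫ pullback.snd U₂.hom U₂.hom = 𝟙 _ := pullback.diagonal_snd _
  have hsurj : Surjective fst := by
    rw [surjective_iff]
    intro x
    obtain ⟨z, rfl⟩ := (pullback.snd p U₁.hom).surjective x
    let π' : pullback p U₁.hom ⟶ pullback c Δ :=
      pullback.lift (pullback.snd p U₁.hom) (pullback.snd p U₁.hom ≫ a.left) (by
        apply pullback.hom_ext
        · rw [Category.assoc, Category.assoc, hca, hΔ1, Category.comp_id]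
        · rw [Category.assoc, Category.assoc, hcb, hΔ2, Category.comp_id, hπ])
    refine ⟨π'.base z, ?_⟩
    have e : π' ≫ fst = pullback.snd p U₁.hom := pullback.lift_fst _ _ _
    rw [← Scheme.Hom.comp_apply, e]
  have hiso : IsIso fst := (isIso_iff_isOpenImmersion_and_surjective fst).mpr ⟨inferInstance, hsurj⟩
  have hcond : fst ≫ c = pullback.snd c Δ ≫ Δ := pullback.condition
  have ha : a.left = inv fst ≫ pullback.snd c Δ := by
    rw [IsIso.eq_inv_comp, ← hca, ← Category.assoc, hcond, Category.assoc, hΔ1, Category.comp_id]
  have hb : b.left = inv fst ≫ pullback.snd c Δ := by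
    rw [IsIso.eq_inv_comp, ← hcb, ← Category.assoc, hcond, Category.assoc, hΔ2, Category.comp_id]
  exact Over.OverMorphism.ext (ha.trans hb.symm)

end Groth.Agent.S0781
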