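import Groth.Statements.S0904
import Mathlib.Topology.Sheaves.Functors
import Mathlib.Topology.Sheaves.SheafCondition.Sites
import Mathlib.CategoryTheory.Sites.Pullback
import Mathlib.CategoryTheory.Preadditive.Injective.Basic
-- import your own Groth.Agent.* helpers here

set_option autoImplicit false
universe u
open CategoryTheory
open CohTop

namespace Groth.Agent.S0904

attribute [local instance] CategoryTheory.Limits.reflectsLimits_of_reflectsIsomorphisms

/-- Abelian sheaves, for which every continuous map is flat: for a continuous map f : X -> Y and an
injective abelian sheaf I on X, the direct image f_* I is an injective abelian sheaf on Y. -/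
theorem result {X Y : TopCat.{u}} (f : X ⟶ Y) (I : CohTop.Ab X) [Injective I] :
    Injective ((CohTop.push f).obj I) := by
  have h1 : RepresentablyFlat (TopologicalSpace.Opens.map f) := inferInstance
  have h2 : Functor.IsContinuous (TopologicalSpace.Opens.map f) (Opens.grothendieckTopology Y)
      (Opens.grothendieckTopology X) := inferInstance
  have h3 : Limits.PreservesFiniteLimits (TopCat.Sheaf.pullback AddCommGrpCat.{u} f) := by
    unfold TopCat.Sheaf.pullback
    apply Functor.sheafPullbackConstruction.preservesFiniteLimits
  have h4 : (TopCat.Sheaf.pullback AddCommGrpCat.{u} f).PreservesMonomorphisms := inferInstance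
  have hI : Injective (C := TopCat.Sheaf AddCommGrpCat.{u} X) I := by assumption
  exact @Injective.injective_of_adjoint _ _ _ _ _ _ h4
    (TopCat.Sheaf.pullbackPushforwardAdjunction AddCommGrpCat.{u} f) I hI

end Groth.Agent.S0904
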