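import Groth.Statements.S0919
import Mathlib.CategoryTheory.Adjunction.AdjointFunctorTheorems
import Mathlib.CategoryTheory.Abelian.Subobject
import Mathlib.CategoryTheory.Limits.Preserves.Opposites
import Mathlib.CategoryTheory.Limits.Yoneda
-- import your own Groth.Agent.* helpers here

set_option autoImplicit false
universe v u
open CategoryTheory
open CohDer

namespace Groth.Agent.S0919

open CategoryTheory.Limits in
/-- Let A be a Grothendieck abelian category and F a contravariant functor from A to sets (a functor on
the opposite category). Then F is representable if and only if F turns all small colimits of A into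
limits, i.e. preserves small limits as a functor on the opposite category. -/
theorem result {A : Type u} [Category.{v} A] [Abelian A]
    [IsGrothendieckAbelian.{v} A] (F : Aᵒᵖ ⥤ Type v) :
    F.IsRepresentable ↔ PreservesLimitsOfSize.{v, v} F := by
  constructor
  · intro hF
    exact preservesLimits_of_natIso F.reprW
  · intro hF
    have : PreservesColimitsOfSize.{v, v} F.rightOp := preservesColimitsOfSize_rightOp F
    have hsep : (ObjectProperty.singleton (separator A)).IsSeparating := isSeparator_separator A
    have : F.rightOp.IsLeftAdjoint :=
      isLeftAdjoint_of_preservesColimits_of_isSeparating hsep F.rightOp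
    let adj := Adjunction.ofIsLeftAdjoint F.rightOp
    let R := adj.representableBy (Opposite.op PUnit.{v + 1})
    let e : F.rightOp.op ⋙ yoneda.obj (Opposite.op PUnit.{v + 1}) ≅ F :=
      NatIso.ofComponents (fun X => Equiv.toIso
        { toFun := fun g => g.unop PUnit.unit
          invFun := fun x => (TypeCat.ofHom (fun _ => x)).op
          left_inv := fun g => by
            apply Quiver.Hom.unop_inj
            ext u
            rfl
          right_inv := fun x => rfl })
        (fun {X Y} f => by
          ext g
          rfl)
    exact (R.ofIso e).isRepresentable

end Groth.Agent.S0919
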