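import Groth.Statements.S0928
import Mathlib.CategoryTheory.Abelian.GrothendieckCategory.EnoughInjectives
import Mathlib.CategoryTheory.Abelian.GrothendieckAxioms.Sheaf
import Mathlib.Algebra.Category.Grp.AB
import Mathlib.CategoryTheory.Preadditive.Injective.LiftingProperties
import Mathlib.CategoryTheory.Sites.Sheaf
-- import your own Groth.Agent.* helpers here

set_option autoImplicit false
universe u
open CategoryTheory Limits ZeroObject
open CohDer

namespace Groth.Agent.S0928

/-- On a small category C the category of presheaves of abelian groups has functorial injective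
embeddings: there are an endofunctor J of the presheaf category and a natural transformation from
the identity to J with each component a monomorphism into an injective presheaf. -/
theorem result {C : Type u} [SmallCategory C] :
    ∃ (J : (Cᵒᵖ ⥤ AddCommGrpCat.{u}) ⥤ (Cᵒᵖ ⥤ AddCommGrpCat.{u})) (j : 𝟭 _ ⟶ J),
      ∀ F : Cᵒᵖ ⥤ AddCommGrpCat.{u}, Injective (J.obj F) ∧ Mono (j.app F) := by
  haveI : IsGrothendieckAbelian.{u} (Cᵒᵖ ⥤ AddCommGrpCat.{u}) :=
    IsGrothendieckAbelian.of_equivalence (sheafBotEquivalence AddCommGrpCat.{u})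
  let data := MorphismProperty.functorialFactorizationData
    (MorphismProperty.monomorphisms (Cᵒᵖ ⥤ AddCommGrpCat.{u}))
    (MorphismProperty.monomorphisms (Cᵒᵖ ⥤ AddCommGrpCat.{u})).rlp
  let T : (Cᵒᵖ ⥤ AddCommGrpCat.{u}) ⥤ Arrow (Cᵒᵖ ⥤ AddCommGrpCat.{u}) :=
    { obj := fun F => Arrow.mk (0 : F ⟶ 0)
      map := fun {F G} φ => Arrow.homMk φ (𝟙 0) (by simp)
      map_id := fun F => by ext <;> simp
      map_comp := fun f g => by ext <;> simp }
  refine ⟨T ⋙ data.Z, Functor.whiskerLeft T data.i, fun F => ⟨?_, ?_⟩⟩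
  · have hp := data.hp (T.obj F)
    rw [(Limits.isZero_zero _).eq_of_tgt (data.p.app (T.obj F)) 0] at hp
    exact (injective_iff_rlp_monomorphisms_zero _).mpr hp
  · exact data.hi (T.obj F)

end Groth.Agent.S0928
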