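import Groth.Statements.S0969
-- import your own Groth.Agent.* helpers here

set_option autoImplicit false
universe v v' u u'
open CategoryTheory
open CohDer

namespace Groth.Agent.S0969

/-- Let F be an exact functor of pretriangulated categories which is fully faithful and has an exact
right adjoint G. If G kills only zero objects, then F is an equivalence of categories. -/
theorem result {D : Type u} [Category.{v} D] [Preadditive D] [Limits.HasZeroObject D] [HasShift D ℤ]
    [∀ n : ℤ, (shiftFunctor D n).Additive] [Pretriangulated D]
    {D' : Type u'} [Category.{v'} D'] [Preadditive D'] [Limits.HasZeroObject D'] [HasShift D' ℤ]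
    [∀ n : ℤ, (shiftFunctor D' n).Additive] [Pretriangulated D']
    [IsTriangulated D] [IsTriangulated D']
    (F : D ⥤ D') [F.CommShift ℤ] [F.IsTriangulated] (G : D' ⥤ D) [G.CommShift ℤ] [G.IsTriangulated]
    (adj : F ⊣ G) [F.Full] [F.Faithful] (hG : ∀ X : D', Limits.IsZero (G.obj X) → Limits.IsZero X) :
    F.IsEquivalence := by
  have hGε : ∀ Y : D', IsIso (G.map (adj.counit.app Y)) := by
    intro Y
    haveI : IsIso (adj.unit.app (G.obj Y) ≫ G.map (adj.counit.app Y)) := by
      rw [adj.right_triangle_components]; exact ⟨⟨𝟙 _, by simp, by simp⟩⟩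
    exact IsIso.of_isIso_comp_left (adj.unit.app (G.obj Y)) (G.map (adj.counit.app Y))
  have hcounit : ∀ Y : D', IsIso (adj.counit.app Y) := by
    intro Y
    obtain ⟨Z, g, h, hT⟩ := Pretriangulated.distinguished_cocone_triangle (adj.counit.app Y)
    have hT' := G.map_distinguished _ hT
    have hz : Limits.IsZero (G.obj Z) :=
      (Pretriangulated.Triangle.isZero₃_iff_isIso₁ _ hT').mpr (hGε Y)
    exact (Pretriangulated.Triangle.isZero₃_iff_isIso₁ _ hT).mp (hG Z hz)
  exact (adj.toEquivalence).isEquivalence_functor

end Groth.Agent.S0969
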