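import Groth.Statements.S10147

set_option autoImplicit false
universe u v w
open LinTop

namespace Groth.Agent.S10147

/-- Let M be a topological module over a ring R whose additive group is a topological group, and let
(M_i) be a family of submodules of M forming a fundamental system of neighbourhoods of 0. For every
submodule N of M, the closure of N is the intersection over i of the submodules N + M_i. -/
theorem result
    {R : Type u} [Ring R] {M : Type v} [AddCommGroup M] [Module R M] [TopologicalSpace M]
    [IsTopologicalAddGroup M] {ι : Type w} (B : ι → Submodule R M)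
    (hB : (nhds (0 : M)).HasBasis (fun _ => True) (fun i => (B i : Set M)))
    (N : Submodule R M) :
    closure (N : Set M) = ⋂ i, ((N ⊔ B i : Submodule R M) : Set M) := by
  ext x
  simp only [Set.mem_iInter, SetLike.mem_coe]
  rw [mem_closure_iff_nhds_zero]
  constructor
  · intro h i
    obtain ⟨y, hy, hyx⟩ := h _ (hB.mem_of_mem trivial)
    have : y - (y - x) ∈ N ⊔ B i := Submodule.sub_mem_sup hy hyx
    simpa using this
  · intro h U hU
    obtain ⟨i, -, hi⟩ := hB.mem_iff.1 hU
    obtain ⟨y, hy, z, hz, rfl⟩ := Submodule.mem_sup.1 (h i)
    refine ⟨y, hy, hi ?_⟩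
    have : y - (y + z) = -z := by abel
    rw [SetLike.mem_coe, this]
    exact (B i).neg_mem hz

end Groth.Agent.S10147
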