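import Groth.Statements.S10148
import Mathlib.Topology.Algebra.OpenSubgroup
import Mathlib.RingTheory.Henselian
import Mathlib.Topology.Algebra.Polynomial
import Mathlib.Algebra.BigOperators.Intervals
import Mathlib.Algebra.Ring.GeomSum

set_option autoImplicit false
universe u
open LinTop

namespace Groth.Agent.S10148

/-- Let A be a weakly admissible topological ring (linearly topologized, Hausdorff and complete, having
a weak ideal of definition) and let I be a weak ideal of definition of A, that is, an open ideal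
consisting of topologically nilpotent elements. Then (A, I) is a henselian pair. -/
theorem result
    (A : Type u) [CommRing A] [UniformSpace A] [IsUniformAddGroup A] [IsTopologicalRing A]
    (hA : LinTop.IsWeaklyAdmissible A) (I : Ideal A) (hI : LinTop.IsWeakIdealOfDefinition A I) :
    HenselianRing A I := by
  classical
  obtain ⟨⟨hlin, -⟩, hT2, hcomp⟩ := hA
  haveI := hlin
  haveI := hT2
  haveI := hcomp
  obtain ⟨hIo, hInil⟩ := hI
  have hbU : (uniformity A).HasBasis (fun V : Set A => V ∈ nhds (0 : A))
      (fun V => (fun x : A × A => x.2 - x.1) ⁻¹' V) := by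
    rw [uniformity_eq_comap_nhds_zero A]
    exact (nhds (0 : A)).basis_sets.comap _
  have cauchy_of : ∀ s : ℕ → A, (∀ U : Ideal A, IsOpen (U : Set A) →
      ∃ N, ∀ n ≥ N, ∀ m ≥ N, s m - s n ∈ U) → CauchySeq s := by
    intro s hs
    refine hbU.cauchySeq_iff.2 fun V hV => ?_
    obtain ⟨U, hUo, hUV⟩ := IsLinearTopology.hasBasis_open_ideal.mem_iff.1 hV
    obtain ⟨N, hN⟩ := hs U hUo
    exact ⟨N, fun m hm n hn => hUV (hN m hm n hn)⟩
  have hpowU : ∀ z : A, IsTopologicallyNilpotent z → ∀ U : Ideal A, IsOpen (U : Set A) →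
      ∃ N, ∀ n ≥ N, z ^ n ∈ U := by
    intro z hz U hU
    have := hz (hU.mem_nhds U.zero_mem)
    rw [Filter.mem_map, Filter.mem_atTop_sets] at this
    exact this
  have unit_of : ∀ z : A, IsTopologicallyNilpotent z → IsUnit (1 + z) := by
    intro z hz
    have hz' : IsTopologicallyNilpotent (-z) := by
      have := IsTopologicallyNilpotent.mul_left (-1 : A) hz
      simpa using this
    let s : ℕ → A := fun n => ∑ i ∈ Finset.range n, (-z) ^ i
    have hcs : CauchySeq s := by
      apply cauchy_of
      intro U hU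
      obtain ⟨N, hN⟩ := hpowU _ hz' U hU
      refine ⟨N, fun n hn m hm => ?_⟩
      rcases le_total n m with h | h
      · show ∑ i ∈ Finset.range m, (-z) ^ i - ∑ i ∈ Finset.range n, (-z) ^ i ∈ U
        rw [← Finset.sum_Ico_eq_sub _ h]
        exact U.sum_mem fun i hi => hN i (le_trans hn (Finset.mem_Ico.1 hi).1)
      · have e : s m - s n = -(s n - s m) := by abel
        rw [e]
        show -(∑ i ∈ Finset.range n, (-z) ^ i - ∑ i ∈ Finset.range m, (-z) ^ i) ∈ U
        rw [← Finset.sum_Ico_eq_sub _ h]
        exact U.neg_mem (U.sum_mem fun i hi => hN i (le_trans hm (Finset.mem_Ico.1 hi).1))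
    obtain ⟨w, hw⟩ := cauchySeq_tendsto_of_complete hcs
    have h1 : Filter.Tendsto (fun n => (1 + z) * s n) Filter.atTop (nhds ((1 + z) * w)) :=
      hw.const_mul (1 + z)
    have h2 : Filter.Tendsto (fun n => (1 + z) * s n) Filter.atTop (nhds 1) := by
      have e : (fun n => (1 + z) * s n) = fun n => 1 - (-z) ^ n := by
        funext n
        have := mul_neg_geom_sum (-z) n
        rw [sub_neg_eq_add] at this
        exact this
      rw [e]
      simpa using (tendsto_const_nhds (x := (1 : A))).sub hz'
    exact IsUnit.of_mul_eq_one _ (tendsto_nhds_unique h1 h2)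
  have hjac : I ≤ Ideal.jacobson ⊥ := by
    intro x hx
    rw [Ideal.mem_jacobson_bot]
    intro y
    have := unit_of (x * y) (hInil _ (I.mul_mem_right y hx))
    rwa [add_comm] at this
  refine ⟨hjac, ?_⟩
  intro f _ a₀ h₁ h₂
  let f' := Polynomial.derivative f
  let c : ℕ → A := fun n => Nat.recOn n a₀ fun _ b => b - f.eval b * Ring.inverse (f'.eval b)
  have hc : ∀ n, c (n + 1) = c n - f.eval (c n) * Ring.inverse (f'.eval (c n)) := by
    intro n
    simp only [c]
  have hc_mod : ∀ n, c n ≡ a₀ [SMOD I] := by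
    intro n
    induction n with
    | zero => rfl
    | succ n ih => ?_
    rw [hc, sub_eq_add_neg, ← add_zero a₀]
    refine ih.add ?_
    rw [SModEq.zero, Ideal.neg_mem_iff]
    refine I.mul_mem_right _ ?_
    rw [← SModEq.zero] at h₁ ⊢
    exact (ih.eval f).trans h₁
  have hf'c : ∀ n, IsUnit (f'.eval (c n)) := by
    intro n
    have := isLocalHom_of_le_jacobson_bot I hjac
    apply IsUnit.of_map (Ideal.Quotient.mk I)
    convert! h₂ using 1
    exact SModEq.def.mp ((hc_mod n).eval _)
  let K : Ideal A := Ideal.span {f.eval a₀}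
  have hfcI : ∀ n, f.eval (c n) ∈ K ^ (n + 1) := by
    intro n
    induction n with
    | zero =>
      show f.eval a₀ ∈ K ^ (0 + 1)
      rw [zero_add, pow_one]
      exact Ideal.subset_span (Set.mem_singleton _)
    | succ n ih => ?_
    rw [← Polynomial.taylor_eval_sub (c n), hc, sub_eq_add_neg, sub_eq_add_neg,
      add_neg_cancel_comm]
    rw [Polynomial.eval_eq_sum, Polynomial.sum_over_range' _ _ _
      (lt_add_of_pos_right _ zero_lt_two), ← Finset.sum_range_add_sum_Ico _ (Nat.le_add_left _ _)]
    swap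
    · intro i
      rw [zero_mul]
    refine Ideal.add_mem _ ?_ ?_
    · rw [← one_add_one_eq_two, Finset.sum_range_succ, Finset.range_one, Finset.sum_singleton,
        Polynomial.taylor_coeff_zero, Polynomial.taylor_coeff_one, pow_zero, pow_one, mul_one,
        mul_neg, mul_left_comm, Ring.mul_inverse_cancel _ (hf'c n), mul_one, add_neg_cancel]
      exact Ideal.zero_mem _
    · refine Submodule.sum_mem _ ?_
      simp only [Finset.mem_Ico]
      rintro i ⟨h2i, _⟩
      have aux : n + 2 ≤ i * (n + 1) := by trans 2 * (n + 1) <;> nlinarith only [h2i]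
      refine Ideal.mul_mem_left _ _ (Ideal.pow_le_pow_right aux ?_)
      rw [pow_mul']
      exact Ideal.pow_mem_pow ((Ideal.neg_mem_iff _).2 <| Ideal.mul_mem_right _ _ ih) _
  have hdiff : ∀ n, c (n + 1) - c n ∈ K ^ (n + 1) := by
    intro n
    rw [hc, sub_sub_cancel_left]
    exact (K ^ (n + 1)).neg_mem (Ideal.mul_mem_right _ _ (hfcI n))
  have hKsmall : ∀ U : Ideal A, IsOpen (U : Set A) → ∃ N, ∀ n ≥ N, K ^ n ≤ U := by
    intro U hU
    obtain ⟨N, hN⟩ := hpowU _ (hInil (f.eval a₀) h₁) U hU
    refine ⟨N, fun n hn => ?_⟩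
    rw [Ideal.span_singleton_pow, Ideal.span_le]
    simpa using hN n hn
  have hcdiff : ∀ m k, c (m + k) - c m ∈ K ^ (m + 1) := by
    intro m k
    induction k with
    | zero => simp
    | succ k ih =>
      have e : c (m + (k + 1)) - c m = (c (m + k + 1) - c (m + k)) + (c (m + k) - c m) := by
        rw [← add_assoc]; abel
      rw [e]
      exact (K ^ (m + 1)).add_mem (Ideal.pow_le_pow_right (by omega) (hdiff (m + k))) ih
  have hcs : CauchySeq c := by
    apply cauchy_of
    intro U hU
    obtain ⟨N, hN⟩ := hKsmall U hU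
    refine ⟨N, fun n hn m hm => ?_⟩
    rcases le_total n m with h | h
    · obtain ⟨k, rfl⟩ := Nat.exists_eq_add_of_le h
      exact hN (n + 1) (by omega) (hcdiff n k)
    · obtain ⟨k, rfl⟩ := Nat.exists_eq_add_of_le h
      have := hN (m + 1) (by omega) (hcdiff m k)
      have e : c m - c (m + k) = -(c (m + k) - c m) := by abel
      rw [e]; exact U.neg_mem this
  obtain ⟨a, ha⟩ := cauchySeq_tendsto_of_complete hcs
  refine ⟨a, ?_, ?_⟩
  · have h1 : Filter.Tendsto (fun n => f.eval (c n)) Filter.atTop (nhds (f.eval a)) :=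
      (f.continuous.tendsto a).comp ha
    have h2 : Filter.Tendsto (fun n => f.eval (c n)) Filter.atTop (nhds 0) := by
      rw [IsLinearTopology.hasBasis_open_ideal.tendsto_right_iff]
      intro U hU
      obtain ⟨N, hN⟩ := hKsmall U hU
      rw [Filter.eventually_atTop]
      exact ⟨N, fun n hn => hN (n + 1) (by omega) (hfcI n)⟩
    exact tendsto_nhds_unique h1 h2
  · have hIcl : IsClosed (I : Set A) := AddSubgroup.isClosed_of_isOpen I.toAddSubgroup hIo
    have hmem : ∀ n, c n - a₀ ∈ I := fun n => SModEq.sub_mem.mp (hc_mod n)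
    have hcont : Filter.Tendsto (fun n => c n - a₀) Filter.atTop (nhds (a - a₀)) :=
      ha.sub tendsto_const_nhds
    exact hIcl.mem_of_tendsto hcont (Filter.Eventually.of_forall hmem)

end Groth.Agent.S10148
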