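import Groth.Statements.S10149
import Groth.Agent.Lib_helper15_LinTop

set_option autoImplicit false
universe u v
open LinTop

namespace Groth.Agent.S10149

/-- In a linearly topologized ring B the ideal of topologically nilpotent elements is closed. Moreover,
if φ : A → B is a continuous homomorphism of linearly topologized rings and I is an ideal of A
consisting of topologically nilpotent elements, then every element of the closure of the ideal φ(I)B
is topologically nilpotent. -/
theorem result
    (A : Type u) [CommRing A] [TopologicalSpace A] [IsTopologicalRing A] [IsLinearTopology A A]
    (B : Type v) [CommRing B] [TopologicalSpace B] [IsTopologicalRing B] [IsLinearTopology B B] :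
    IsClosed ((topologicalNilradical B : Ideal B) : Set B) ∧
      ∀ (φ : A →+* B), Continuous φ → ∀ I : Ideal A, (∀ f ∈ I, IsTopologicallyNilpotent f) →
        ∀ g ∈ (I.map φ).closure, IsTopologicallyNilpotent g := by
  refine ⟨Groth.Agent.helper15.LinTopLib.isClosed_topologicalNilradical, ?_⟩
  intro φ hφ I hI g hg
  rw [← SetLike.mem_coe, Ideal.coe_closure] at hg
  exact Groth.Agent.helper15.LinTopLib.isTopologicallyNilpotent_of_mem_closure_map hφ hI hg

end Groth.Agent.S10149
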