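import Groth.Statements.S10150
import Groth.Agent.Lib_helper15_LinTop

set_option autoImplicit false
universe u v
open LinTop

namespace Groth.Agent.S10150

/-- Let φ : A → B be a continuous ring homomorphism between weakly pre-admissible linearly topologized
rings. Then φ is taut if and only if, for each weak ideal of definition I of A, the closure of the
ideal generated by φ(I) is again a weak ideal of definition, now of B, and every neighbourhood of 0
in B contains one of these closures. (The published statement takes A and B weakly admissible, that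
is, moreover Hausdorff and complete; completeness plays no role and this row omits it.) -/
theorem result
    (A : Type u) [CommRing A] [TopologicalSpace A] [IsTopologicalRing A] [IsLinearTopology A A]
    (B : Type v) [CommRing B] [TopologicalSpace B] [IsTopologicalRing B] [IsLinearTopology B B]
    (hA : LinTop.IsWeaklyPreadmissible A) (hB : LinTop.IsWeaklyPreadmissible B)
    (φ : A →+* B) (hφ : Continuous φ) :
    LinTop.IsTaut φ ↔
      ((∀ I : Ideal A, LinTop.IsWeakIdealOfDefinition A I →
          LinTop.IsWeakIdealOfDefinition B (I.map φ).closure) ∧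
        ∀ U ∈ nhds (0 : B), ∃ I : Ideal A, LinTop.IsWeakIdealOfDefinition A I ∧
          ((I.map φ).closure : Set B) ⊆ U) := by
  obtain ⟨-, I₀, hI₀o, hI₀n⟩ := hA
  constructor
  · rintro ⟨hc, h2, h3⟩
    refine ⟨fun I hI => ⟨?_, ?_⟩, fun U hU => ?_⟩
    · rw [Ideal.coe_closure]; exact h2 I hI.1
    · intro g hg
      rw [← SetLike.mem_coe, Ideal.coe_closure] at hg
      exact Groth.Agent.helper15.LinTopLib.isTopologicallyNilpotent_of_mem_closure_map hc hI.2 hg
    · obtain ⟨I, hIo, hIU⟩ := h3 U hU
      refine ⟨I ⊓ I₀, ⟨?_, fun f hf => hI₀n f hf.2⟩, ?_⟩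
      · rw [Submodule.coe_inf]; exact hIo.inter hI₀o
      · rw [Ideal.coe_closure]
        exact (closure_mono (Ideal.map_mono inf_le_left)).trans hIU
  · rintro ⟨h1, h2⟩
    refine ⟨hφ, fun I hI => ?_, fun U hU => ?_⟩
    · have hw : LinTop.IsWeakIdealOfDefinition A (I ⊓ I₀) :=
        ⟨by rw [Submodule.coe_inf]; exact hI.inter hI₀o, fun f hf => hI₀n f hf.2⟩
      have ho := (h1 _ hw).1
      rw [Ideal.coe_closure] at ho
      exact Groth.Agent.helper15.LinTopLib.isOpen_closure_of_le ho (Ideal.map_mono inf_le_left)
    · obtain ⟨I, hI, hIU⟩ := h2 U hU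
      refine ⟨I, hI.1, ?_⟩
      rwa [Ideal.coe_closure] at hIU

end Groth.Agent.S10150
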