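import Groth.Statements.S10151
import Groth.Agent.Lib_helper15_LinTop

set_option autoImplicit false
universe u v w
open LinTop

namespace Groth.Agent.S10151

/-- Given linearly topologized rings A, B, C and continuous ring maps ψ : B → C and φ : A → B, tautness
of the composite A → C implies that ψ is taut. -/
theorem result
    (A : Type u) [CommRing A] [TopologicalSpace A] [IsTopologicalRing A] [IsLinearTopology A A]
    (B : Type v) [CommRing B] [TopologicalSpace B] [IsTopologicalRing B] [IsLinearTopology B B]
    (C : Type w) [CommRing C] [TopologicalSpace C] [IsTopologicalRing C] [IsLinearTopology C C]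
    (φ : A →+* B) (ψ : B →+* C) (hφ : Continuous φ) (hψ : Continuous ψ)
    (h : LinTop.IsTaut (ψ.comp φ)) : LinTop.IsTaut ψ := by
  obtain ⟨-, h2, -⟩ := h
  refine ⟨hψ, fun I hI => ?_, fun U hU => ?_⟩
  · have hJ : IsOpen ((I.comap φ : Ideal A) : Set A) := hI.preimage hφ
    have := h2 _ hJ
    refine Groth.Agent.helper15.LinTopLib.isOpen_closure_of_le this ?_
    rw [← Ideal.map_map]
    exact Ideal.map_mono Ideal.map_comap_le
  · obtain ⟨K, hK, hKU⟩ := (IsLinearTopology.hasBasis_open_ideal).mem_iff.1 hU
    refine ⟨K.comap ψ, hK.preimage hψ, ?_⟩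
    have hle : ((K.comap ψ).map ψ : Ideal C) ≤ K := Ideal.map_comap_le
    calc closure (((K.comap ψ).map ψ : Ideal C) : Set C) ⊆ closure (K : Set C) := closure_mono hle
      _ = K := Groth.Agent.helper15.LinTopLib.closure_eq_of_isOpen K hK
      _ ⊆ U := hKU

end Groth.Agent.S10151
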