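import Groth.Statements.S10154
import Groth.Agent.Lib_helper15_LinTop

set_option autoImplicit false
universe u v
open LinTop

namespace Groth.Agent.S10154

/-- Let φ : A → B be a taut homomorphism of linearly topologized rings. If A is pre-admissible, then B
is pre-admissible. -/
theorem result
    (A : Type u) [CommRing A] [TopologicalSpace A] [IsTopologicalRing A] [IsLinearTopology A A]
    (B : Type v) [CommRing B] [TopologicalSpace B] [IsTopologicalRing B] [IsLinearTopology B B]
    (φ : A →+* B) (hφ : LinTop.IsTaut φ) (hA : LinTop.IsPreadmissible A) :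
    LinTop.IsPreadmissible B := by
  obtain ⟨hcont, h2, h3⟩ := hφ
  obtain ⟨-, I, hIo, hIpow⟩ := hA
  refine ⟨inferInstance, (I.map φ).closure, ?_, ?_⟩
  · rw [Ideal.coe_closure]; exact h2 I hIo
  · intro U hU
    obtain ⟨I', hI'o, hI'U⟩ := h3 U hU
    obtain ⟨n, hn, hnI'⟩ := hIpow _ (hI'o.mem_nhds I'.zero_mem)
    refine ⟨n, hn, ?_⟩
    calc (((I.map φ).closure ^ n : Ideal B) : Set B)
        ⊆ (((I.map φ) ^ n).closure : Set B) := fun x hx => Groth.Agent.helper15.LinTopLib.closure_pow_le _ n hx
      _ = closure (((I ^ n).map φ : Ideal B) : Set B) := by rw [Ideal.coe_closure, Ideal.map_pow]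
      _ ⊆ closure ((I'.map φ : Ideal B) : Set B) := closure_mono (Ideal.map_mono fun x hx => hnI' hx)
      _ ⊆ U := hI'U

end Groth.Agent.S10154
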