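import Groth.Statements.S10155
import Mathlib.Topology.Algebra.OpenSubgroup
import Mathlib.Topology.Algebra.Ring.Ideal
import Mathlib.Algebra.BigOperators.Intervals

set_option autoImplicit false
universe u v
open LinTop

namespace Groth.Agent.S10155

/-- Finite intersections `B 0 ⊓ ... ⊓ B (k - 1)` of a sequence of ideals. -/
def decSeqIdealH15 {A : Type*} [CommRing A] (B : ℕ → Ideal A) : ℕ → Ideal A
  | 0 => ⊤
  | k + 1 => decSeqIdealH15 B k ⊓ B k


/-- Let φ : A → B be a taut homomorphism of linearly topologized rings with dense image. Assume A is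
Hausdorff and complete with a countable fundamental system of open ideals and B is Hausdorff. Then φ
is surjective and open, so that B is the quotient of A by the closed ideal ker φ with the quotient
topology, and B is complete. -/
theorem result
    (A : Type u) [CommRing A] [UniformSpace A] [IsUniformAddGroup A] [IsTopologicalRing A]
    [IsLinearTopology A A] [T2Space A] [CompleteSpace A] (hA : (nhds (0 : A)).IsCountablyGenerated)
    (B : Type v) [CommRing B] [UniformSpace B] [IsUniformAddGroup B] [IsTopologicalRing B]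
    [IsLinearTopology B B] [T2Space B]
    (φ : A →+* B) (hφ : LinTop.IsTaut φ) (hd : DenseRange φ) :
    Function.Surjective φ ∧ IsOpenQuotientMap φ ∧ CompleteSpace B := by
  classical
  obtain ⟨hφc, hφo, hφb⟩ := hφ
  let J : Ideal A → Ideal B := fun I => (I.map φ).closure
  have hJc : ∀ I : Ideal A, (J I : Set B) = closure ((I.map φ : Ideal B) : Set B) :=
    fun I => Ideal.coe_closure _
  have hJo : ∀ I : Ideal A, IsOpen (I : Set A) → IsOpen (J I : Set B) := fun I hI => by
    rw [hJc]; exact hφo I hI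
  have hJmono : ∀ I I' : Ideal A, I' ≤ I → J I' ≤ J I := by
    intro I I' h x hx
    show x ∈ (J I : Set B)
    have hx' : x ∈ (J I' : Set B) := hx
    rw [hJc] at hx' ⊢
    exact closure_mono (Ideal.map_mono h) hx'
  have hdens : ∀ I : Ideal A, IsOpen (I : Set A) → ∀ b : B, ∃ c : A, b - φ c ∈ J I := by
    intro I hI b
    have ho : IsOpen {y : B | b - y ∈ J I} :=
      (hJo I hI).preimage (continuous_const.sub continuous_id)
    obtain ⟨c, hc⟩ := hd.exists_mem_open ho ⟨b, by simp [(J I).zero_mem]⟩
    exact ⟨c, hc⟩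
  have key : ∀ I I' : Ideal A, IsOpen (I' : Set A) → ∀ y ∈ J I, ∃ a ∈ I, y - φ a ∈ J I' := by
    intro I I' hI' y hy
    let T : AddSubgroup B := (I.toAddSubgroup.map (φ : A →+ B)) ⊔ (J I').toAddSubgroup
    have hTmem : ∀ z, z ∈ T ↔ ∃ a ∈ I, z - φ a ∈ J I' := by
      intro z
      rw [AddSubgroup.mem_sup]
      constructor
      · rintro ⟨_, ⟨a, ha, rfl⟩, w, hw, hsum⟩
        refine ⟨a, ha, ?_⟩
        have : z - φ a = w := by rw [← hsum]; simp
        rw [this]; exact hw
      · rintro ⟨a, ha, h⟩
        exact ⟨φ a, ⟨a, ha, rfl⟩, z - φ a, h, by abel⟩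
    have hTo : IsOpen (T : Set B) :=
      AddSubgroup.isOpen_mono (le_sup_right : (J I').toAddSubgroup ≤ T) (hJo I' hI')
    have hTcl : IsClosed (T : Set B) := AddSubgroup.isClosed_of_isOpen T hTo
    have hsub : ((I.map φ : Ideal B) : Set B) ⊆ (T : Set B) := by
      intro x hx
      refine Submodule.span_induction (p := fun x _ => x ∈ T) ?_ ?_ ?_ ?_ hx
      · rintro _ ⟨a, ha, rfl⟩
        exact (hTmem _).2 ⟨a, ha, by simp [(J I').zero_mem]⟩
      · exact T.zero_mem
      · intro x y _ _ hx hy; exact T.add_mem hx hy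
      · intro b x _ hx
        obtain ⟨a, ha, h⟩ := (hTmem x).1 hx
        obtain ⟨c, hc⟩ := hdens I' hI' b
        refine (hTmem _).2 ⟨c * a, I.mul_mem_left c ha, ?_⟩
        have e : b • x - φ (c * a) = (b - φ c) * φ a + b * (x - φ a) := by
          rw [smul_eq_mul, map_mul]; ring
        rw [e]
        exact (J I').add_mem ((J I').mul_mem_right _ hc) ((J I').mul_mem_left _ h)
    have : (J I : Set B) ⊆ T := by rw [hJc]; exact closure_minimal hsub hTcl
    exact (hTmem y).1 (this hy)
  -- a decreasing countable basis of open ideals of A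
  haveI := hA
  obtain ⟨s, hs⟩ := (nhds (0 : A)).exists_antitone_basis
  have hBex : ∀ k, ∃ U : Ideal A, IsOpen (U : Set A) ∧ (U : Set A) ⊆ s k := fun k =>
    (IsLinearTopology.hasBasis_open_ideal).mem_iff.1 (hs.1.mem_of_mem trivial)
  choose Bk hBo hBs using hBex
  let D : ℕ → Ideal A := decSeqIdealH15 Bk
  have hD0 : D 0 = ⊤ := rfl
  have hDs : ∀ k, D (k + 1) = D k ⊓ Bk k := fun k => rfl
  have hDo : ∀ k, IsOpen ((D k : Ideal A) : Set A) := by
    intro k
    induction k with
    | zero => rw [hD0, Submodule.top_coe]; exact isOpen_univ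
    | succ k ih => rw [hDs, Submodule.coe_inf]; exact ih.inter (hBo k)
  have hDle : ∀ k, D (k + 1) ≤ Bk k := fun k => by rw [hDs]; exact inf_le_right
  have hDanti : ∀ k, D (k + 1) ≤ D k := fun k => by rw [hDs]; exact inf_le_left
  have hDbasis : ∀ t ∈ nhds (0 : A), ∃ k, ((D k : Ideal A) : Set A) ⊆ t := by
    intro t ht
    obtain ⟨k, -, hk⟩ := hs.1.mem_iff.1 ht
    exact ⟨k + 1, fun x hx => hk (hBs k (hDle k hx))⟩
  have hDanti' : Antitone D := antitone_nat_of_succ_le hDanti
  have hDcl : ∀ k, IsClosed ((D k : Ideal A) : Set A) := fun k =>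
    AddSubgroup.isClosed_of_isOpen (D k).toAddSubgroup (hDo k)
  have hJbasis : ∀ O ∈ nhds (0 : B), ∃ k, (J (D k) : Set B) ⊆ O := by
    intro O hO
    obtain ⟨I, hIo, hIO⟩ := hφb O hO
    obtain ⟨k, hk⟩ := hDbasis (I : Set A) (hIo.mem_nhds I.zero_mem)
    refine ⟨k, fun x hx => hIO ?_⟩
    have := hJmono I (D k) hk hx
    have h2 : x ∈ (J I : Set B) := this
    rwa [hJc] at h2
  have hbU : (uniformity A).HasBasis (fun V : Set A => V ∈ nhds (0 : A))
      (fun V => (fun x : A × A => x.2 - x.1) ⁻¹' V) := by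
    rw [uniformity_eq_comap_nhds_zero A]
    exact (nhds (0 : A)).basis_sets.comap _
  have step : ∀ n, ∀ z ∈ J (D n), ∃ w ∈ D n, z - φ w ∈ J (D (n + 1)) := fun n z hz =>
    key (D n) (D (n + 1)) (hDo (n + 1)) z hz
  choose wf hwf hwf' using step
  have lift : ∀ k, ∀ y ∈ J (D k), ∃ x ∈ D k, φ x = y := by
    intro k y hy
    let zs : (n : ℕ) → {z : B // z ∈ J (D (k + n))} := fun n =>
      Nat.rec ⟨y, hy⟩ (fun n p => ⟨p.1 - φ (wf (k + n) p.1 p.2), hwf' (k + n) p.1 p.2⟩) n
    let m : ℕ → A := fun n => wf (k + n) (zs n).1 (zs n).2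
    have hm : ∀ n, m n ∈ D (k + n) := fun n => hwf _ _ _
    let ps : ℕ → A := fun n => ∑ i ∈ Finset.range n, m i
    have hzs : ∀ n, (zs n).1 = y - φ (ps n) := by
      intro n
      induction n with
      | zero =>
        show y = y - φ (ps 0)
        simp [ps]
      | succ n ih =>
        show (zs n).1 - φ (m n) = _
        rw [ih]
        simp only [ps, Finset.sum_range_succ, map_add]
        abel
    have hpsD : ∀ n, ps n ∈ D k := fun n =>
      Submodule.sum_mem _ fun i _ => hDanti' (Nat.le_add_right k i) (hm i)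
    have hpsdiff : ∀ a b, a ≤ b → ps b - ps a ∈ D (k + a) := by
      intro a b hab
      have : ps b - ps a = ∑ i ∈ Finset.Ico a b, m i := (Finset.sum_Ico_eq_sub m hab).symm
      rw [this]
      exact Submodule.sum_mem _ fun i hi =>
        hDanti' (Nat.add_le_add_left (Finset.mem_Ico.1 hi).1 k) (hm i)
    have hcauchy : CauchySeq ps := by
      refine hbU.cauchySeq_iff.2 fun V hV => ?_
      obtain ⟨j, hj⟩ := hDbasis V hV
      refine ⟨j, fun a ha b hb => ?_⟩
      show ps b - ps a ∈ V
      have h1 := hpsdiff j a ha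
      have h2 := hpsdiff j b hb
      have e : ps b - ps a = (ps b - ps j) - (ps a - ps j) := by abel
      rw [e]
      exact hj (hDanti' (Nat.le_add_left j k) ((D (k + j)).sub_mem h2 h1))
    obtain ⟨x, hx⟩ := cauchySeq_tendsto_of_complete hcauchy
    have hxD : x ∈ D k := (hDcl k).mem_of_tendsto hx (Filter.Eventually.of_forall hpsD)
    have hzs0 : Filter.Tendsto (fun n => (zs n).1) Filter.atTop (nhds 0) := by
      intro O hO
      obtain ⟨j, hj⟩ := hJbasis O hO
      rw [Filter.mem_map, Filter.mem_atTop_sets]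
      exact ⟨j, fun n hn => hj (hJmono _ _ (hDanti' (by omega)) (zs n).2)⟩
    have h1 : Filter.Tendsto (fun n => φ (ps n)) Filter.atTop (nhds (φ x)) :=
      (hφc.tendsto x).comp hx
    have h2 : Filter.Tendsto (fun n => φ (ps n)) Filter.atTop (nhds y) := by
      have e : (fun n => φ (ps n)) = fun n => y - (zs n).1 := by
        funext n; rw [hzs n]; abel
      rw [e]
      simpa using (tendsto_const_nhds (x := y)).sub hzs0
    exact ⟨x, hxD, tendsto_nhds_unique h1 h2⟩
  have hsurj : Function.Surjective φ := by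
    intro y
    have hy : y ∈ J (D 0) := by
      show y ∈ (J (D 0) : Set B)
      rw [hJc]
      apply subset_closure
      rw [hD0, Ideal.map_top]
      exact Submodule.mem_top
    obtain ⟨x, -, hx⟩ := lift 0 y hy
    exact ⟨x, hx⟩
  have hopen : IsOpenMap φ := by
    intro O hO
    rw [isOpen_iff_mem_nhds]
    rintro _ ⟨x, hx, rfl⟩
    have ht : {w : A | x + w ∈ O} ∈ nhds (0 : A) := by
      have hc : Continuous fun w : A => x + w := continuous_const.add continuous_id
      have := hc.continuousAt (x := (0 : A))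
      rw [ContinuousAt, add_zero] at this
      exact this (hO.mem_nhds hx)
    obtain ⟨k, hk⟩ := hDbasis _ ht
    have hnb : {v : B | v - φ x ∈ J (D k)} ∈ nhds (φ x) := by
      have hc2 : Continuous fun v : B => v - φ x := continuous_id.sub continuous_const
      have h3 := hc2.continuousAt (x := φ x)
      rw [ContinuousAt, sub_self] at h3
      exact h3 ((hJo _ (hDo k)).mem_nhds (J (D k)).zero_mem)
    refine Filter.mem_of_superset hnb ?_
    intro v hv
    obtain ⟨w, hw, hwv⟩ := lift k _ hv
    exact ⟨x + w, hk hw, by rw [map_add, hwv]; abel⟩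
  have hBcount : (nhds (0 : B)).IsCountablyGenerated := by
    have hb : (nhds (0 : B)).HasBasis (fun _ : ℕ => True) (fun k => (J (D k) : Set B)) := by
      refine ⟨fun O => ⟨fun hO => ?_, fun ⟨k, _, hk⟩ =>
        Filter.mem_of_superset ((hJo _ (hDo k)).mem_nhds (J (D k)).zero_mem) hk⟩⟩
      obtain ⟨k, hk⟩ := hJbasis O hO
      exact ⟨k, trivial, hk⟩
    exact hb.isCountablyGenerated
  haveI := hBcount
  haveI : (uniformity B).IsCountablyGenerated := IsUniformAddGroup.uniformity_countably_generated
  have hcomplete : CompleteSpace B := by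
    refine UniformSpace.complete_of_cauchySeq_tendsto fun u hu => ?_
    have hbUB : (uniformity B).HasBasis (fun V : Set B => V ∈ nhds (0 : B))
        (fun V => (fun x : B × B => x.2 - x.1) ⁻¹' V) := by
      rw [uniformity_eq_comap_nhds_zero B]
      exact (nhds (0 : B)).basis_sets.comap _
    have hN : ∀ n, ∃ N, ∀ p ≥ N, ∀ q ≥ N, u q - u p ∈ J (D n) := by
      intro n
      obtain ⟨N, hN⟩ := hbUB.cauchySeq_iff.1 hu _ ((hJo _ (hDo n)).mem_nhds (J (D n)).zero_mem)
      exact ⟨N, fun p hp q hq => hN p hp q hq⟩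
    choose N hN using hN
    let M : ℕ → ℕ := fun n => n + (Finset.range (n + 1)).sup N
    have hMN : ∀ n, N n ≤ M n := fun n =>
      le_trans (Finset.le_sup (Finset.self_mem_range_succ n)) (Nat.le_add_left _ _)
    have hMN' : ∀ n, N n ≤ M (n + 1) := fun n =>
      le_trans (Finset.le_sup (f := N) (by simp : n ∈ Finset.range (n + 1 + 1))) (Nat.le_add_left _ _)
    have hMt : Filter.Tendsto M Filter.atTop Filter.atTop :=
      Filter.tendsto_atTop_mono (fun n => Nat.le_add_right n _) Filter.tendsto_id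
    have hdiff : ∀ n, u (M (n + 1)) - u (M n) ∈ J (D n) := fun n =>
      hN n _ (hMN n) _ (hMN' n)
    have hlift : ∀ n, ∃ a ∈ D n, φ a = u (M (n + 1)) - u (M n) := fun n => lift n _ (hdiff n)
    choose a ha hau using hlift
    obtain ⟨c, hc⟩ := hsurj (u (M 0))
    let ps : ℕ → A := fun n => c + ∑ i ∈ Finset.range n, a i
    have hps : ∀ n, φ (ps n) = u (M n) := by
      intro n
      induction n with
      | zero => simp [ps, hc]
      | succ n ih =>
        have : ps (n + 1) = ps n + a n := by
          simp only [ps, Finset.sum_range_succ]; abel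
        rw [this, map_add, ih, hau n]; abel
    have hpsdiff : ∀ p q, p ≤ q → ps q - ps p ∈ D p := by
      intro p q hpq
      have : ps q - ps p = ∑ i ∈ Finset.Ico p q, a i := by
        rw [Finset.sum_Ico_eq_sub a hpq]; simp only [ps]; abel
      rw [this]
      exact Submodule.sum_mem _ fun i hi => hDanti' (Finset.mem_Ico.1 hi).1 (ha i)
    have hcauchy : CauchySeq ps := by
      refine hbU.cauchySeq_iff.2 fun V hV => ?_
      obtain ⟨j, hj⟩ := hDbasis V hV
      refine ⟨j, fun p hp q hq => ?_⟩
      show ps q - ps p ∈ V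
      have h1 := hpsdiff j p hp
      have h2 := hpsdiff j q hq
      have e : ps q - ps p = (ps q - ps j) - (ps p - ps j) := by abel
      rw [e]
      exact hj ((D j).sub_mem h2 h1)
    obtain ⟨x, hx⟩ := cauchySeq_tendsto_of_complete hcauchy
    refine ⟨φ x, tendsto_nhds_of_cauchySeq_of_subseq hu hMt ?_⟩
    have : u ∘ M = φ ∘ ps := by funext n; simp [hps n]
    rw [this]
    exact (hφc.tendsto x).comp hx
  exact ⟨hsurj, ⟨hsurj, hφc, hopen⟩, hcomplete⟩

end Groth.Agent.S10155
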