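import Groth.Statements.S10156
import Groth.Agent.Lib_helper15_LinTop

set_option autoImplicit false
universe u v w
open LinTop

namespace Groth.Agent.S10156

/-- Given pre-adic rings A, B, C and continuous ring maps ψ : B → C and φ : A → B, adicness of the
composite A → C implies that ψ is adic. -/
theorem result
    (A : Type u) [CommRing A] [TopologicalSpace A] [IsTopologicalRing A] (hA : LinTop.IsPreadic A)
    (B : Type v) [CommRing B] [TopologicalSpace B] [IsTopologicalRing B] (hB : LinTop.IsPreadic B)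
    (C : Type w) [CommRing C] [TopologicalSpace C] [IsTopologicalRing C] (hC : LinTop.IsPreadic C)
    (φ : A →+* B) (ψ : B →+* C) (hφ : Continuous φ) (hψ : Continuous ψ)
    (h : LinTop.IsAdicHom (ψ.comp φ)) : LinTop.IsAdicHom ψ := by
  obtain ⟨I, ⟨hIo, hIpow⟩, hadic⟩ := h
  obtain ⟨J, hJ⟩ := hB
  have hJ' := isAdic_iff.1 hJ
  have had := isAdic_iff.1 hadic
  refine ⟨J, ⟨by simpa using hJ'.1 1, fun U hU => ?_⟩, isAdic_iff.2 ⟨fun n => ?_, fun s hs => ?_⟩⟩
  · obtain ⟨n, hn⟩ := hJ'.2 U hU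
    exact ⟨n + 1, Nat.succ_pos n, fun a ha => hn (Ideal.pow_le_pow_right (Nat.le_succ n) ha)⟩
  · have hpre : IsOpen (((J ^ n).comap φ : Ideal A) : Set A) := (hJ'.1 n).preimage hφ
    obtain ⟨k, -, hk⟩ := hIpow _ (hpre.mem_nhds (Ideal.zero_mem _))
    refine Groth.Agent.helper15.LinTopLib.ideal_isOpen_of_superset (had.1 k) (Ideal.zero_mem _) ?_
    rw [← Ideal.map_pow, ← Ideal.map_pow, ← Ideal.map_map]
    refine Ideal.map_mono ?_
    rw [Ideal.map_le_iff_le_comap]
    exact fun a ha => hk ha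
  · obtain ⟨m, hm⟩ := had.2 s hs
    have hpre : IsOpen ((((I.map (ψ.comp φ)) ^ m).comap ψ : Ideal B) : Set B) :=
      (had.1 m).preimage hψ
    obtain ⟨n, hn⟩ := hJ'.2 _ (hpre.mem_nhds (Ideal.zero_mem _))
    refine ⟨n, fun c hc => hm ?_⟩
    have hle : (J ^ n).map ψ ≤ (I.map (ψ.comp φ)) ^ m := by
      rw [Ideal.map_le_iff_le_comap]
      exact fun a ha => hn ha
    rw [← Ideal.map_pow] at hc
    exact hle hc

end Groth.Agent.S10156
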