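import Groth.Statements.S10157
import Groth.Agent.Lib_helper15_LinTop

set_option autoImplicit false
universe u v
open LinTop

namespace Groth.Agent.S10157

/-- A continuous adic homomorphism φ : A → B between pre-adic topological rings is taut. -/
theorem result
    (A : Type u) [CommRing A] [TopologicalSpace A] [IsTopologicalRing A] (hA : LinTop.IsPreadic A)
    (B : Type v) [CommRing B] [TopologicalSpace B] [IsTopologicalRing B] (hB : LinTop.IsPreadic B)
    (φ : A →+* B) (hφ : Continuous φ) (h : LinTop.IsAdicHom φ) : LinTop.IsTaut φ := by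
  obtain ⟨I, ⟨hIo, hIpow⟩, hadic⟩ := h
  obtain ⟨J, hJ⟩ := hA
  have hJ' := isAdic_iff.1 hJ
  have had := isAdic_iff.1 hadic
  refine ⟨hφ, fun I' hI' => ?_, fun U hU => ?_⟩
  · obtain ⟨n, -, hn⟩ := hIpow _ (hI'.mem_nhds I'.zero_mem)
    refine Groth.Agent.helper15.LinTopLib.isOpen_closure_of_open_le (had.1 n) ?_
    rw [← Ideal.map_pow]
    exact Ideal.map_mono fun a ha => hn ha
  · obtain ⟨n, hn⟩ := had.2 U hU
    obtain ⟨k, hk⟩ := hJ'.2 _ (hIo.mem_nhds I.zero_mem)
    have hkn : ((J ^ (k * n) : Ideal A) : Set A) ⊆ ((I ^ n : Ideal A) : Set A) := by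
      rw [pow_mul]
      exact Ideal.pow_right_mono (fun a ha => hk ha) n
    refine ⟨I ^ n, Groth.Agent.helper15.LinTopLib.ideal_isOpen_of_superset (hJ'.1 (k * n)) (J ^ (k * n)).zero_mem hkn, ?_⟩
    rw [Ideal.map_pow, Groth.Agent.helper15.LinTopLib.closure_eq_of_isOpen _ (had.1 n)]
    exact hn

end Groth.Agent.S10157
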