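import Groth.Statements.S10163
import Mathlib.Algebra.BigOperators.Intervals

set_option autoImplicit false
universe u
open LinTop

namespace Groth.Agent.S10163

/-- Let A be Hausdorff, complete and linearly topologized, and I a finitely generated ideal whose powers
I^n all have open closures, these closures forming a basis of neighbourhoods of 0. Then A carries
the I-adic topology; in particular A is adic with I as a finitely generated ideal of definition. -/
theorem result
    (A : Type u) [CommRing A] [UniformSpace A] [IsUniformAddGroup A] [IsTopologicalRing A] [IsLinearTopology A A] [T2Space A] [CompleteSpace A]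
    (I : Ideal A) (hfg : I.FG) (hopen : ∀ n : ℕ, IsOpen (closure ((I ^ n : Ideal A) : Set A)))
    (hbasis : ∀ U ∈ nhds (0 : A), ∃ n : ℕ, closure ((I ^ n : Ideal A) : Set A) ⊆ U) :
    IsAdic I := by
  classical
  have hbU : (uniformity A).HasBasis (fun V : Set A => V ∈ nhds (0 : A))
      (fun V => (fun x : A × A => x.2 - x.1) ⁻¹' V) := by
    rw [uniformity_eq_comap_nhds_zero A]
    exact (nhds (0 : A)).basis_sets.comap _
  have key : ∀ n : ℕ, closure ((I ^ n : Ideal A) : Set A) ⊆ ((I ^ n : Ideal A) : Set A) := by
    intro n a ha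
    obtain ⟨G, hG⟩ := Ideal.FG.pow (n := n) hfg
    let ι : Type u := ↥(G : Set A)
    let f : ι → A := Subtype.val
    have hJ : Ideal.span (Set.range f) = I ^ n := by
      rw [Subtype.range_coe]; exact hG
    have hfJ : ∀ i, f i ∈ I ^ n := fun i => by
      rw [← hJ]; exact Ideal.subset_span ⟨i, rfl⟩
    let C : ℕ → Set A := fun k => closure ((I ^ (n + k) : Ideal A) : Set A)
    have hCo : ∀ k, IsOpen (C k) := fun k => hopen (n + k)
    have step : ∀ k, ∀ x ∈ C k, ∃ c : ι → A, (∀ i, c i ∈ I ^ k) ∧
        x - ∑ i, c i * f i ∈ C (k + 1) := by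
      intro k x hx
      have hnb : {y | x - y ∈ C (k + 1)} ∈ nhds x := by
        have hc : Continuous fun y : A => x - y := continuous_const.sub continuous_id
        have := hc.continuousAt (x := x)
        rw [ContinuousAt, sub_self] at this
        exact this ((hCo (k + 1)).mem_nhds (subset_closure (Ideal.zero_mem _)))
      obtain ⟨y, hy1, hy2⟩ := mem_closure_iff_nhds.1 hx _ hnb
      have hy3 : y ∈ (I ^ k) • Submodule.span A (Set.range f) := by
        rw [show Submodule.span A (Set.range f) = Ideal.span (Set.range f) from rfl, hJ,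
          Ideal.smul_eq_mul, ← pow_add, add_comm]
        exact hy2
      obtain ⟨c, hc, hcy⟩ := (Submodule.mem_ideal_smul_span_iff_exists_sum (I ^ k) f y).1 hy3
      refine ⟨fun i => c i, hc, ?_⟩
      rw [Finsupp.sum_fintype _ _ (by simp)] at hcy
      simp only [smul_eq_mul] at hcy
      rw [hcy]; exact hy1
    choose cf hcf hcf' using step
    have ha0 : a ∈ C 0 := by simpa [C] using ha
    let zs : (k : ℕ) → {x : A // x ∈ C k} := fun k =>
      Nat.rec ⟨a, ha0⟩ (fun k p => ⟨p.1 - ∑ i, cf k p.1 p.2 i * f i, hcf' k p.1 p.2⟩) k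
    let c : ℕ → ι → A := fun k => cf k (zs k).1 (zs k).2
    have hc : ∀ k i, c k i ∈ I ^ k := fun k i => hcf k _ _ i
    let S : ι → ℕ → A := fun i K => ∑ k ∈ Finset.range K, c k i
    have hzs : ∀ K, ∑ i, S i K * f i + (zs K).1 = a := by
      intro K
      induction K with
      | zero =>
        show ∑ i, (∑ k ∈ Finset.range 0, c k i) * f i + a = a
        simp
      | succ K ih =>
        show ∑ i, (∑ k ∈ Finset.range (K + 1), c k i) * f i + ((zs K).1 - ∑ i, c K i * f i) = a
        rw [← ih]
        simp only [S, Finset.sum_range_succ, add_mul, Finset.sum_add_distrib]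
        abel
    have hSdiff : ∀ i m K, m ≤ K → S i K - S i m ∈ I ^ m := by
      intro i m K hmK
      have e : S i K - S i m = ∑ k ∈ Finset.Ico m K, c k i := (Finset.sum_Ico_eq_sub _ hmK).symm
      rw [e]
      exact Submodule.sum_mem _ fun k hk =>
        Ideal.pow_le_pow_right (Finset.mem_Ico.1 hk).1 (hc k i)
    have hcauchy : ∀ i, CauchySeq (S i) := by
      intro i
      refine hbU.cauchySeq_iff.2 fun V hV => ?_
      obtain ⟨m, hm⟩ := hbasis V hV
      refine ⟨m, fun K hK K' hK' => ?_⟩
      show S i K' - S i K ∈ V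
      have e : S i K' - S i K = (S i K' - S i m) - (S i K - S i m) := by abel
      rw [e]
      exact hm (subset_closure ((I ^ m).sub_mem (hSdiff i m K' hK') (hSdiff i m K hK)))
    choose s hs using fun i => cauchySeq_tendsto_of_complete (hcauchy i)
    have hr : Filter.Tendsto (fun K => (zs K).1) Filter.atTop (nhds 0) := by
      intro V hV
      obtain ⟨m, hm⟩ := hbasis V hV
      rw [Filter.mem_map, Filter.mem_atTop_sets]
      refine ⟨m, fun K hK => hm ?_⟩
      have h1 : (zs K).1 ∈ C K := (zs K).2
      refine closure_mono ?_ h1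
      exact fun x hx => Ideal.pow_le_pow_right (by omega) hx
    have hlim : Filter.Tendsto (fun K => ∑ i, S i K * f i + (zs K).1) Filter.atTop
        (nhds (∑ i, s i * f i + 0)) :=
      (tendsto_finsetSum _ fun i _ => (hs i).mul_const (f i)).add hr
    have hconst : (fun K => ∑ i, S i K * f i + (zs K).1) = fun _ => a := funext hzs
    rw [hconst] at hlim
    have ha' : a = ∑ i, s i * f i + 0 := tendsto_nhds_unique tendsto_const_nhds hlim
    rw [ha', add_zero]
    exact Submodule.sum_mem _ fun i _ => Ideal.mul_mem_left _ _ (hfJ i)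
  rw [isAdic_iff]
  refine ⟨fun n => ?_, fun U hU => ?_⟩
  · have e : closure ((I ^ n : Ideal A) : Set A) = ((I ^ n : Ideal A) : Set A) :=
      subset_antisymm (key n) subset_closure
    rw [← e]; exact hopen n
  · obtain ⟨n, hn⟩ := hbasis U hU
    exact ⟨n, subset_closure.trans hn⟩

end Groth.Agent.S10163
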