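import Groth.Statements.S10158
import Groth.Agent.Lib_helper15_LinTop
import Groth.Agent.S10163

set_option autoImplicit false
universe u v
open LinTop

namespace Groth.Agent.S10158

/-- Let φ : A → B be a taut homomorphism of linearly topologized rings. Assume A is pre-adic with a
finitely generated ideal of definition I and B is Hausdorff and complete. Then the topology of B is
the φ(I)B-adic topology; in particular B is adic with a finitely generated ideal of definition and φ
is adic. -/
theorem result
    (A : Type u) [CommRing A] [TopologicalSpace A] [IsTopologicalRing A] (hA : LinTop.IsPreadic A)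
    (I : Ideal A) (hI : LinTop.IsIdealOfDefinition A I) (hfg : I.FG)
    (B : Type v) [CommRing B] [UniformSpace B] [IsUniformAddGroup B] [IsTopologicalRing B]
    [IsLinearTopology B B] [T2Space B] [CompleteSpace B]
    (φ : A →+* B) (hφ : LinTop.IsTaut φ) :
    IsAdic (I.map φ) := by
  obtain ⟨hc, h2, h3⟩ := hφ
  obtain ⟨J, hJ⟩ := hA
  have hJ' := isAdic_iff.1 hJ
  obtain ⟨hIo, hIpow⟩ := hI
  have hIn : ∀ n : ℕ, IsOpen ((I ^ n : Ideal A) : Set A) := by
    intro n
    obtain ⟨k, hk⟩ := hJ'.2 _ (hIo.mem_nhds I.zero_mem)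
    have hkn : ((J ^ (k * n) : Ideal A) : Set A) ⊆ ((I ^ n : Ideal A) : Set A) := by
      rw [pow_mul]
      exact Ideal.pow_right_mono (fun a ha => hk ha) n
    exact Groth.Agent.helper15.LinTopLib.ideal_isOpen_of_superset (hJ'.1 (k * n))
      (J ^ (k * n)).zero_mem hkn
  refine Groth.Agent.S10163.result B (I.map φ) (hfg.map φ) (fun n => ?_) (fun U hU => ?_)
  · rw [← Ideal.map_pow]; exact h2 _ (hIn n)
  · obtain ⟨I', hI'o, hI'U⟩ := h3 U hU
    obtain ⟨n, -, hn⟩ := hIpow _ (hI'o.mem_nhds I'.zero_mem)
    refine ⟨n, ?_⟩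
    rw [← Ideal.map_pow]
    exact (closure_mono (Ideal.map_mono fun a ha => hn ha)).trans hI'U

end Groth.Agent.S10158
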