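import Groth.Statements.S10159
import Groth.Agent.Lib_helper15_LinTop3

set_option autoImplicit false
universe u
open LinTop

namespace Groth.Agent.S10159

/-- `A` viewed with the `I`-adic topology (a type synonym). -/
def AdicSynH15 (A : Type u) [CommRing A] (_I : Ideal A) : Type u := A

instance instCommRingAdicSynH15 (A : Type u) [CommRing A] (I : Ideal A) :
    CommRing (AdicSynH15 A I) :=
  inferInstanceAs (CommRing A)

instance instWithIdealAdicSynH15 (A : Type u) [CommRing A] (I : Ideal A) :
    WithIdeal (AdicSynH15 A I) :=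
  ⟨(I : Ideal A)⟩


/-- For a ring A carrying a linear topology, the following four conditions are equivalent: (1) A is
weakly pre-adic; (2) there exist a pre-adic topological ring A' and a taut continuous ring
homomorphism A' → A (A' is taken in the universe of A, which suffices since A with an adic topology
serves); (3) A has an ideal of definition, and for at least one ideal of definition I every closure
cl(I^n) with n ≥ 1 is open; (4) A has an ideal of definition, and for each of its ideals of
definition I every closure cl(I^n) with n ≥ 1 is open. -/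
theorem result
    (A : Type u) [CommRing A] [TopologicalSpace A] [IsTopologicalRing A] [IsLinearTopology A A] :
    List.TFAE [LinTop.IsWeaklyPreadic A,
      ∃ (A' : Type u) (_ : CommRing A') (_ : TopologicalSpace A') (_ : IsTopologicalRing A')
        (φ : A' →+* A), LinTop.IsPreadic A' ∧ LinTop.IsTaut φ,
      LinTop.IsPreadmissible A ∧ ∃ I : Ideal A, LinTop.IsIdealOfDefinition A I ∧
        ∀ n : ℕ, 0 < n → IsOpen (closure ((I ^ n : Ideal A) : Set A)),
      LinTop.IsPreadmissible A ∧ ∀ I : Ideal A, LinTop.IsIdealOfDefinition A I →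
        ∀ n : ℕ, 0 < n → IsOpen (closure ((I ^ n : Ideal A) : Set A))] := by
  tfae_have 1 → 3 := by
    rintro ⟨hlin, I, hIo, hIb⟩
    have hdef : LinTop.IsIdealOfDefinition A I.closure := by
      refine ⟨?_, fun U hU => ?_⟩
      · rw [Ideal.coe_closure]; simpa using hIo 1
      · obtain ⟨n, hn⟩ := hIb U hU
        refine ⟨n + 1, Nat.succ_pos n, fun a ha => hn ?_⟩
        have h1 := Groth.Agent.helper15.LinTopLib.closure_pow_le I (n + 1) ha
        rw [← SetLike.mem_coe, Ideal.coe_closure] at h1
        exact closure_mono (fun x hx => Ideal.pow_le_pow_right (Nat.le_succ n) hx) h1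
    refine ⟨⟨hlin, I.closure, hdef⟩, I.closure, hdef, fun n _ => ?_⟩
    refine Groth.Agent.helper15.LinTopLib.isOpen_closure_of_le (hIo n) ?_
    exact Ideal.pow_right_mono (fun x hx => by
      rw [← SetLike.mem_coe, Ideal.coe_closure]; exact subset_closure hx) n
  tfae_have 3 → 4 := by
    rintro ⟨hpre, I, hI, hIo⟩
    refine ⟨hpre, fun J hJ n hn => ?_⟩
    obtain ⟨k, hk, hkJ⟩ := hI.2 _ (hJ.1.mem_nhds J.zero_mem)
    refine Groth.Agent.helper15.LinTopLib.isOpen_closure_of_le (hIo (k * n) (Nat.mul_pos hk hn)) ?_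
    rw [pow_mul]
    exact Ideal.pow_right_mono (fun x hx => hkJ hx) n
  tfae_have 4 → 1 := by
    rintro ⟨⟨hlin, I, hI⟩, h⟩
    refine ⟨hlin, I, fun n => ?_, fun U hU => ?_⟩
    · rcases Nat.eq_zero_or_pos n with rfl | hn
      · simp
      · exact h I hI n hn
    · obtain ⟨K, hKo, hKU⟩ := (IsLinearTopology.hasBasis_open_ideal).mem_iff.1 hU
      obtain ⟨n, -, hn⟩ := hI.2 _ (hKo.mem_nhds K.zero_mem)
      refine ⟨n, ?_⟩
      calc closure ((I ^ n : Ideal A) : Set A) ⊆ closure (K : Set A) := closure_mono hn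
        _ = K := Groth.Agent.helper15.LinTopLib.closure_eq_of_isOpen K hKo
        _ ⊆ U := hKU
  tfae_have 2 → 1 := by
    rintro ⟨A', _, _, _, φ, ⟨J, hJ⟩, hc, h2, h3⟩
    have hJ' := isAdic_iff.1 hJ
    refine ⟨inferInstance, J.map φ, fun n => ?_, fun U hU => ?_⟩
    · rw [← Ideal.map_pow]; exact h2 _ (hJ'.1 n)
    · obtain ⟨I', hI'o, hI'U⟩ := h3 U hU
      obtain ⟨n, hn⟩ := hJ'.2 _ (hI'o.mem_nhds I'.zero_mem)
      refine ⟨n, ?_⟩
      rw [← Ideal.map_pow]
      exact (closure_mono (Ideal.map_mono fun a ha => hn ha)).trans hI'U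
  tfae_have 1 → 2 := by
    rintro ⟨hlin, I, hIo, hIb⟩
    let φ : AdicSynH15 A I →+* A := RingHom.id A
    have hb : (nhds (0 : AdicSynH15 A I)).HasBasis (fun _ : ℕ => True)
        (fun n => ((WithIdeal.i ^ n : Ideal (AdicSynH15 A I)) : Set (AdicSynH15 A I))) :=
      Ideal.hasBasis_nhds_zero_adic _
    have hadic : IsAdic (WithIdeal.i : Ideal (AdicSynH15 A I)) := rfl
    refine ⟨AdicSynH15 A I, inferInstance, inferInstance, inferInstance, φ,
      ⟨WithIdeal.i, hadic⟩, ?_, fun I' hI' => ?_, fun U hU => ?_⟩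
    · refine continuous_of_continuousAt_zero φ ?_
      rw [ContinuousAt, map_zero]
      refine hb.tendsto_left_iff.2 fun U hU => ?_
      obtain ⟨n, hn⟩ := hIb U hU
      exact ⟨n, trivial, fun x hx => hn (subset_closure hx)⟩
    · obtain ⟨n, -, hn⟩ := hb.mem_iff.1 (hI'.mem_nhds I'.zero_mem)
      refine Groth.Agent.helper15.LinTopLib.isOpen_closure_of_le (hIo n) ?_
      intro a ha
      exact Ideal.mem_map_of_mem φ (hn ha)
    · obtain ⟨n, hn⟩ := hIb U hU
      refine ⟨WithIdeal.i ^ n, (isAdic_iff.1 hadic).1 n, ?_⟩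
      have hle : (Ideal.map φ (WithIdeal.i ^ n) : Ideal A) ≤ I ^ n := by
        rw [Ideal.map_le_iff_le_comap]
        intro a ha
        exact ha
      exact (closure_mono hle).trans hn
  tfae_finish

end Groth.Agent.S10159
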