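import Groth.Statements.S10160
import Groth.Agent.Lib_helper15_LinTop

set_option autoImplicit false
universe u
open LinTop

namespace Groth.Agent.S10160

/-- A weakly adic topological ring is admissible and has a countable fundamental system of open ideals. -/
theorem result
    (A : Type u) [CommRing A] [UniformSpace A] [IsUniformAddGroup A] [IsTopologicalRing A] (hA : LinTop.IsWeaklyAdic A) :
    LinTop.IsAdmissible A ∧ (nhds (0 : A)).IsCountablyGenerated := by
  obtain ⟨⟨hlin, I, hIo, hIb⟩, hT2, hC⟩ := hA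
  refine ⟨⟨⟨hlin, I.closure, ?_, fun U hU => ?_⟩, hT2, hC⟩, ?_⟩
  · rw [Ideal.coe_closure]; simpa using hIo 1
  · obtain ⟨n, hn⟩ := hIb U hU
    refine ⟨n + 1, Nat.succ_pos n, fun a ha => hn ?_⟩
    have h1 := Groth.Agent.helper15.LinTopLib.closure_pow_le I (n + 1) ha
    rw [← SetLike.mem_coe, Ideal.coe_closure] at h1
    exact closure_mono (fun x hx => Ideal.pow_le_pow_right (Nat.le_succ n) hx) h1
  · have hb : (nhds (0 : A)).HasBasis (fun _ : ℕ => True)
        (fun n => closure ((I ^ n : Ideal A) : Set A)) := by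
      refine ⟨fun t => ⟨fun ht => ?_, fun ⟨n, _, hn⟩ => ?_⟩⟩
      · obtain ⟨n, hn⟩ := hIb t ht
        exact ⟨n, trivial, hn⟩
      · exact Filter.mem_of_superset ((hIo n).mem_nhds (subset_closure (I ^ n).zero_mem)) hn
    exact hb.isCountablyGenerated

end Groth.Agent.S10160
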