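import Groth.Statements.S10165
import Groth.Agent.Lib_helper15_LinTop

set_option autoImplicit false
universe u v
open LinTop

namespace Groth.Agent.S10165

/-- Let φ : A → B be a taut homomorphism of linearly topologized rings. If A is weakly pre-adic, then B
is weakly pre-adic. -/
theorem result
    (A : Type u) [CommRing A] [TopologicalSpace A] [IsTopologicalRing A] [IsLinearTopology A A]
    (B : Type v) [CommRing B] [TopologicalSpace B] [IsTopologicalRing B] [IsLinearTopology B B]
    (φ : A →+* B) (hφ : LinTop.IsTaut φ) (hA : LinTop.IsWeaklyPreadic A) :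
    LinTop.IsWeaklyPreadic B := by
  obtain ⟨hc, h2, h3⟩ := hφ
  obtain ⟨-, I, hIo, hIb⟩ := hA
  refine ⟨inferInstance, I.map φ, fun n => ?_, fun U hU => ?_⟩
  · rw [← Ideal.map_pow]
    have hK : IsOpen (((I ^ n).closure : Ideal A) : Set A) := by
      rw [Ideal.coe_closure]; exact hIo n
    have hKo := h2 _ hK
    refine Groth.Agent.helper15.LinTopLib.isOpen_closure_of_superset hKo (subset_closure (Ideal.zero_mem _)) ?_
    have hle : ((I ^ n).closure.map φ : Ideal B) ≤ ((I ^ n).map φ).closure := by
      rw [Ideal.map_le_iff_le_comap]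
      intro a ha
      rw [Ideal.mem_comap, ← SetLike.mem_coe, Ideal.coe_closure]
      rw [← SetLike.mem_coe, Ideal.coe_closure] at ha
      exact map_mem_closure hc ha fun x hx => Ideal.mem_map_of_mem φ hx
    calc closure (((I ^ n).closure.map φ : Ideal B) : Set B)
        ⊆ closure (((I ^ n).map φ).closure : Set B) := closure_mono hle
      _ = closure (((I ^ n).map φ : Ideal B) : Set B) := by rw [Ideal.coe_closure, closure_closure]
  · obtain ⟨I', hI'o, hI'U⟩ := h3 U hU
    obtain ⟨n, hn⟩ := hIb _ (hI'o.mem_nhds I'.zero_mem)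
    refine ⟨n, ?_⟩
    rw [← Ideal.map_pow]
    exact (closure_mono (Ideal.map_mono fun a ha => hn (subset_closure ha))).trans hI'U

end Groth.Agent.S10165
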