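import Groth.Statements.S10166
import Groth.Agent.Lib_helper15_LinTop2

set_option autoImplicit false
universe u v
open LinTop

namespace Groth.Agent.S10166

/-- Let φ : A → B be a taut homomorphism of linearly topologized rings such that for every open ideal I
of A, with J the closure of φ(I)B, the induced map A/I → B/J is faithfully flat. If B has a
countable fundamental system of open ideals, then so does A. -/
theorem result
    (A : Type u) [CommRing A] [TopologicalSpace A] [IsTopologicalRing A] [IsLinearTopology A A]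
    (B : Type v) [CommRing B] [TopologicalSpace B] [IsTopologicalRing B] [IsLinearTopology B B]
    (φ : A →+* B) (hφ : LinTop.IsTautFFlat φ) (hB : (nhds (0 : B)).IsCountablyGenerated) :
    (nhds (0 : A)).IsCountablyGenerated := by
  have hφ' := hφ
  obtain ⟨⟨hc, h2, h3⟩, -⟩ := hφ
  haveI := hB
  obtain ⟨x, hx⟩ := (nhds (0 : B)).exists_antitone_basis
  have hI : ∀ n, ∃ I : Ideal A, IsOpen (I : Set A) ∧
      closure ((I.map φ : Ideal B) : Set B) ⊆ x n := fun n => h3 _ (hx.1.mem_of_mem trivial)
  choose I hIo hIx using hI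
  have hb : (nhds (0 : A)).HasBasis (fun _ : ℕ => True) (fun n => ((I n : Ideal A) : Set A)) := by
    refine ⟨fun t => ⟨fun ht => ?_, fun ⟨n, _, hn⟩ => ?_⟩⟩
    · obtain ⟨J, hJo, hJt⟩ := (IsLinearTopology.hasBasis_open_ideal).mem_iff.1 ht
      obtain ⟨n, -, hn⟩ := hx.1.mem_iff.1 ((h2 J hJo).mem_nhds (subset_closure (Ideal.zero_mem _)))
      exact ⟨n, trivial, fun a ha =>
        hJt (Groth.Agent.helper15.LinTopLib.le_of_closure_subset hφ' hJo ((hIx n).trans hn) ha)⟩
    · exact Filter.mem_of_superset ((hIo n).mem_nhds (I n).zero_mem) hn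
  exact hb.isCountablyGenerated

end Groth.Agent.S10166
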