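import Groth.Statements.S10167
import Groth.Agent.Lib_helper15_LinTop2

set_option autoImplicit false
universe u v
open LinTop

namespace Groth.Agent.S10167

/-- Let φ : A → B be a taut homomorphism of linearly topologized rings such that for every open ideal I
of A the induced ring map A/I → B/J, where J denotes the closure of φ(I)B, is faithfully flat. If B
has a weak ideal of definition (B is weakly pre-admissible), then so does A. -/
theorem result
    (A : Type u) [CommRing A] [TopologicalSpace A] [IsTopologicalRing A] [IsLinearTopology A A]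
    (B : Type v) [CommRing B] [TopologicalSpace B] [IsTopologicalRing B] [IsLinearTopology B B]
    (φ : A →+* B) (hφ : LinTop.IsTautFFlat φ) (hB : LinTop.IsWeaklyPreadmissible B) :
    LinTop.IsWeaklyPreadmissible A := by
  have hφ' := hφ
  obtain ⟨⟨hc, h2, h3⟩, -⟩ := hφ
  obtain ⟨-, J, hJo, hJn⟩ := hB
  obtain ⟨I, hIo, hIJ⟩ := h3 _ (hJo.mem_nhds J.zero_mem)
  refine ⟨inferInstance, I, hIo, fun f hf => ?_⟩
  have hφf : IsTopologicallyNilpotent (φ f) :=
    hJn _ (hIJ (Groth.Agent.helper15.LinTopLib.map_mem_closure_of_mem φ hf))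
  rw [IsTopologicallyNilpotent, Filter.atTop_basis.tendsto_iff IsLinearTopology.hasBasis_open_ideal]
  intro I'' hI''
  obtain ⟨N, hN⟩ := Filter.eventually_atTop.1
    (hφf.eventually_mem ((h2 I'' hI'').mem_nhds (subset_closure (Ideal.zero_mem _))))
  refine ⟨N, trivial, fun n hn => ?_⟩
  have := hN n hn
  rw [← map_pow] at this
  exact Groth.Agent.helper15.LinTopLib.mem_of_map_mem_closure hφ' hI'' this

end Groth.Agent.S10167
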