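import Groth.Statements.S10168
import Groth.Agent.Lib_helper15_LinTop2

set_option autoImplicit false
universe u v
open LinTop

namespace Groth.Agent.S10168

/-- Let φ : A → B be a taut homomorphism of linearly topologized rings such that for every open ideal I
of A, with J the closure of φ(I)B, the induced map A/I → B/J is faithfully flat. If B is
pre-admissible, then A is pre-admissible. -/
theorem result
    (A : Type u) [CommRing A] [TopologicalSpace A] [IsTopologicalRing A] [IsLinearTopology A A]
    (B : Type v) [CommRing B] [TopologicalSpace B] [IsTopologicalRing B] [IsLinearTopology B B]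
    (φ : A →+* B) (hφ : LinTop.IsTautFFlat φ) (hB : LinTop.IsPreadmissible B) :
    LinTop.IsPreadmissible A := by
  have hφ' := hφ
  obtain ⟨⟨hc, h2, h3⟩, -⟩ := hφ
  obtain ⟨-, J, hJo, hJpow⟩ := hB
  obtain ⟨I, hIo, hIJ⟩ := h3 _ (hJo.mem_nhds J.zero_mem)
  refine ⟨inferInstance, I, hIo, fun U hU => ?_⟩
  obtain ⟨I'', hI''o, hI''U⟩ := (IsLinearTopology.hasBasis_open_ideal).mem_iff.1 hU
  obtain ⟨n, hn, hnJ⟩ := hJpow _ ((h2 I'' hI''o).mem_nhds (subset_closure (Ideal.zero_mem _)))
  refine ⟨n, hn, fun a ha => hI''U (Groth.Agent.helper15.LinTopLib.mem_of_map_mem_closure hφ' hI''o ?_)⟩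
  have hmapJ : I.map φ ≤ J := fun b hb => hIJ (subset_closure hb)
  have : φ a ∈ (I.map φ) ^ n := by
    rw [← Ideal.map_pow]; exact Ideal.mem_map_of_mem φ ha
  exact hnJ (Ideal.pow_right_mono hmapJ n this)

end Groth.Agent.S10168
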