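import Groth.Statements.S10169
import Groth.Agent.Lib_helper15_LinTop3

set_option autoImplicit false
universe u v
open LinTop

namespace Groth.Agent.S10169

/-- Let φ : A → B be a taut homomorphism of linearly topologized rings such that for every open ideal I
of A the induced ring map A/I → B/J, where J denotes the closure of φ(I)B, is faithfully flat. Weak
pre-adicness then descends: when B is weakly pre-adic, A is as well. -/
theorem result
    (A : Type u) [CommRing A] [TopologicalSpace A] [IsTopologicalRing A] [IsLinearTopology A A]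
    (B : Type v) [CommRing B] [TopologicalSpace B] [IsTopologicalRing B] [IsLinearTopology B B]
    (φ : A →+* B) (hφ : LinTop.IsTautFFlat φ) (hB : LinTop.IsWeaklyPreadic B) :
    LinTop.IsWeaklyPreadic A := by
  obtain ⟨-, J, hJo, hJb⟩ := hB
  have hφ' := hφ
  obtain ⟨⟨hc, h2, h3⟩, -⟩ := hφ
  have hJ1 : IsOpen (closure ((J : Ideal B) : Set B)) := by simpa using hJo 1
  obtain ⟨I, hIo, hIJ⟩ := h3 _ (hJ1.mem_nhds (subset_closure J.zero_mem))
  refine ⟨inferInstance, I, fun n => ?_, fun U hU => ?_⟩
  · have hK : IsOpen (((I.map φ).closure : Ideal B) : Set B) := by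
      rw [Ideal.coe_closure]; exact h2 I hIo
    have hKn := Groth.Agent.helper15.LinTopLib.isOpen_closure_pow_of_isOpen hJo hJb hK n
    have hsub : closure ((((I.map φ).closure ^ n : Ideal B)) : Set B) ⊆
        closure (((I ^ n).map φ : Ideal B) : Set B) := by
      rw [Ideal.map_pow]
      calc closure (((I.map φ).closure ^ n : Ideal B) : Set B)
          ⊆ closure ((((I.map φ) ^ n).closure : Ideal B) : Set B) :=
            closure_mono (fun x hx => Groth.Agent.helper15.LinTopLib.closure_pow_le _ n hx)
        _ = closure (((I.map φ) ^ n : Ideal B) : Set B) := by rw [Ideal.coe_closure, closure_closure]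
    have hOpen : IsOpen (closure (((I ^ n).map φ : Ideal B) : Set B)) :=
      Groth.Agent.helper15.LinTopLib.isOpen_closure_of_superset hKn (subset_closure (Ideal.zero_mem _)) hsub
    obtain ⟨I', hI'o, hI'sub⟩ := h3 _ (hOpen.mem_nhds (subset_closure (Ideal.zero_mem _)))
    refine Groth.Agent.helper15.LinTopLib.isOpen_closure_of_superset hI'o I'.zero_mem fun a ha => ?_
    exact Groth.Agent.helper15.LinTopLib.mem_closure_of_map_mem_closure hφ'
      (hI'sub (Groth.Agent.helper15.LinTopLib.map_mem_closure_of_mem φ ha))
  · obtain ⟨I'', hI''o, hI''U⟩ := (IsLinearTopology.hasBasis_open_ideal).mem_iff.1 hU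
    obtain ⟨m, hm⟩ := hJb _ ((h2 I'' hI''o).mem_nhds (subset_closure (Ideal.zero_mem _)))
    refine ⟨m, ?_⟩
    have hIJc : I.map φ ≤ J.closure := fun b hb => by
      rw [← SetLike.mem_coe, Ideal.coe_closure]
      exact hIJ (subset_closure hb)
    have hle : I ^ m ≤ I'' := fun a ha => by
      refine Groth.Agent.helper15.LinTopLib.mem_of_map_mem_closure hφ' hI''o (hm ?_)
      have h1 : φ a ∈ (I.map φ) ^ m := by
        rw [← Ideal.map_pow]; exact Ideal.mem_map_of_mem φ ha
      have h2 := Groth.Agent.helper15.LinTopLib.closure_pow_le J m (Ideal.pow_right_mono hIJc m h1)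
      rwa [← SetLike.mem_coe, Ideal.coe_closure] at h2
    calc closure ((I ^ m : Ideal A) : Set A) ⊆ closure (I'' : Set A) := closure_mono hle
      _ = I'' := Groth.Agent.helper15.LinTopLib.closure_eq_of_isOpen I'' hI''o
      _ ⊆ U := hI''U

end Groth.Agent.S10169
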