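import Groth.Statements.S10171
import Mathlib.Topology.Algebra.GroupCompletion
import Mathlib.Topology.Algebra.Group.Quotient

set_option autoImplicit false
universe u v
open LinTop

namespace Groth.Agent.S10171

/-- Let M be a linearly topologized module over a ring R and N a submodule. Write M^ for the separated
completion of M and (M/N)^ for that of M/N (quotient topology, additive uniform structure). Then the
kernel of the induced map M^ → (M/N)^ is the closure of the image of N in M^; that closure is the
completion of N, so this is the exactness of 0 → N^ → M^ → (M/N)^ at M^. -/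
theorem result
    {R : Type u} [Ring R] {M : Type v} [AddCommGroup M] [Module R M] [UniformSpace M]
    [IsUniformAddGroup M] [IsLinearTopology R M] (N : Submodule R M) :
    (@UniformSpace.Completion.map M _ (M ⧸ N.toAddSubgroup)
        (IsTopologicalAddGroup.rightUniformSpace (M ⧸ N.toAddSubgroup))
        (QuotientAddGroup.mk' N.toAddSubgroup)) ⁻¹' {0} =
      closure (Set.range (fun n : N => ((n : M) : UniformSpace.Completion M))) := by
  classical
  letI uQ : UniformSpace (M ⧸ N.toAddSubgroup) :=
    IsTopologicalAddGroup.rightUniformSpace (M ⧸ N.toAddSubgroup)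
  haveI : IsUniformAddGroup (M ⧸ N.toAddSubgroup) := isUniformAddGroup_of_addCommGroup
  let mk : M →+ M ⧸ N.toAddSubgroup := QuotientAddGroup.mk' N.toAddSubgroup
  have hmk : Continuous mk := QuotientAddGroup.continuous_mk
  let φ : UniformSpace.Completion M →+ UniformSpace.Completion (M ⧸ N.toAddSubgroup) :=
    mk.completion hmk
  have hφc : Continuous φ := AddMonoidHom.continuous_completion mk hmk
  ext x
  simp only [Set.mem_preimage, Set.mem_singleton_iff]
  change φ x = 0 ↔ _
  constructor
  · intro hx0
    rw [mem_closure_iff_nhds]
    intro t ht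
    have h1 : {w : UniformSpace.Completion M | x + w ∈ t} ∈ nhds (0 : UniformSpace.Completion M) := by
      have hc : Continuous fun w : UniformSpace.Completion M => x + w := continuous_const.add continuous_id
      have := hc.continuousAt (x := (0 : UniformSpace.Completion M))
      rw [ContinuousAt, add_zero] at this
      exact this ht
    obtain ⟨V, hV, hVc, hVsub⟩ := exists_mem_nhds_isClosed_subset h1
    have hW : ((↑) : M → UniformSpace.Completion M) ⁻¹' V ∈ nhds (0 : M) := by
      have := (UniformSpace.Completion.continuous_coe M).continuousAt (x := (0 : M))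
      rw [ContinuousAt, UniformSpace.Completion.coe_zero] at this
      exact this hV
    obtain ⟨U, hUo, hUsub⟩ := (IsLinearTopology.hasBasis_open_submodule R).mem_iff.1 hW
    let WG : AddSubgroup (UniformSpace.Completion M) :=
      (U.toAddSubgroup.map (UniformSpace.Completion.toCompl : M →+ UniformSpace.Completion M)).topologicalClosure
    have hWG : (WG : Set (UniformSpace.Completion M)) =
        closure (((↑) : M → UniformSpace.Completion M) '' (U : Set M)) := rfl
    have hWsub : (WG : Set (UniformSpace.Completion M)) ⊆ V := by
      rw [hWG]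
      refine closure_minimal ?_ hVc
      rintro _ ⟨u, hu, rfl⟩
      exact hUsub hu
    have hWnhds : (WG : Set (UniformSpace.Completion M)) ∈ nhds (0 : UniformSpace.Completion M) := by
      rw [hWG, ← UniformSpace.Completion.coe_zero]
      exact UniformSpace.Completion.isDenseInducing_coe.closure_image_mem_nhds (hUo.mem_nhds U.zero_mem)
    have h2 : {y : UniformSpace.Completion M | x - y ∈ WG} ∈ nhds x := by
      have hc : Continuous fun y : UniformSpace.Completion M => x - y := continuous_const.sub continuous_id
      have := hc.continuousAt (x := x)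
      rw [ContinuousAt, sub_self] at this
      exact this hWnhds
    obtain ⟨_, hm, m, rfl⟩ := mem_closure_iff_nhds.1 (UniformSpace.Completion.denseRange_coe x) _ h2
    have hm' : x - (m : UniformSpace.Completion M) ∈ WG := hm
    have h3 : φ (x - (m : UniformSpace.Completion M)) ∈
        closure (((↑) : (M ⧸ N.toAddSubgroup) → UniformSpace.Completion (M ⧸ N.toAddSubgroup)) ''
          (mk '' (U : Set M))) := by
      refine map_mem_closure hφc (by rw [← hWG]; exact hm') ?_
      rintro _ ⟨u, hu, rfl⟩
      exact ⟨mk u, ⟨u, hu, rfl⟩, (AddMonoidHom.completion_coe mk hmk u).symm⟩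
    have h3' : φ (x - (m : UniformSpace.Completion M)) =
        ((mk (-m) : M ⧸ N.toAddSubgroup) : UniformSpace.Completion (M ⧸ N.toAddSubgroup)) := by
      rw [map_sub, hx0, AddMonoidHom.completion_coe, zero_sub, map_neg, UniformSpace.Completion.coe_neg]
    rw [h3'] at h3
    have h4 : mk (-m) ∈ closure (mk '' (U : Set M)) := by
      rw [(UniformSpace.Completion.isUniformInducing_coe (M ⧸ N.toAddSubgroup)).isInducing.closure_eq_preimage_closure_image]
      exact h3
    have hUQo : IsOpen ((U.toAddSubgroup.map mk : AddSubgroup (M ⧸ N.toAddSubgroup)) :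
        Set (M ⧸ N.toAddSubgroup)) := QuotientAddGroup.isOpenMap_coe _ hUo
    have hUQc := (U.toAddSubgroup.map mk).isClosed_of_isOpen hUQo
    obtain ⟨u, hu, hmu⟩ : mk (-m) ∈ mk '' (U : Set M) := hUQc.closure_subset h4
    have hn : u + m ∈ N := by
      have := (QuotientAddGroup.eq (s := N.toAddSubgroup)).1 hmu
      have h' : u + m = -(-u + -m) := by abel
      rw [h']
      exact N.neg_mem this
    refine ⟨((u + m : M) : UniformSpace.Completion M), ?_, ⟨⟨u + m, hn⟩, rfl⟩⟩
    have h5 : ((u + m : M) : UniformSpace.Completion M) - x ∈ WG := by
      have e : ((u + m : M) : UniformSpace.Completion M) - x =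
          (u : UniformSpace.Completion M) - (x - (m : UniformSpace.Completion M)) := by
        rw [UniformSpace.Completion.coe_add]; abel
      rw [e]
      exact WG.sub_mem (subset_closure ⟨u, hu, rfl⟩) hm'
    have := hVsub (hWsub h5)
    simpa using this
  · intro hx
    have hcl : IsClosed (φ ⁻¹' {0}) := isClosed_singleton.preimage hφc
    have hsub : Set.range (fun n : N => ((n : M) : UniformSpace.Completion M)) ⊆ φ ⁻¹' {0} := by
      rintro _ ⟨n, rfl⟩
      simp only [Set.mem_preimage, Set.mem_singleton_iff]
      rw [AddMonoidHom.completion_coe]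
      have : mk (n : M) = 0 := (QuotientAddGroup.eq_zero_iff _).2 n.2
      rw [this, UniformSpace.Completion.coe_zero]
    exact closure_minimal hsub hcl hx

end Groth.Agent.S10171
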