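import Groth.Statements.S10172
import Mathlib.Topology.Algebra.GroupCompletion
import Mathlib.Topology.Algebra.Group.Quotient
import Mathlib.Algebra.BigOperators.Intervals

set_option autoImplicit false
universe u v
open LinTop

namespace Groth.Agent.S10172

/-- Finite intersections `B 0 ⊓ ... ⊓ B (k - 1)` of a sequence of submodules. -/
def decSeqH15 {R : Type*} {M : Type*} [Ring R] [AddCommGroup M] [Module R M]
    (B : ℕ → Submodule R M) : ℕ → Submodule R M
  | 0 => ⊤
  | k + 1 => decSeqH15 B k ⊓ B k

/-- Let M be a linearly topologized module over a ring R having a countable fundamental system of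
neighbourhoods of 0, and N a submodule. With M^ and (M/N)^ the separated completions of M and of M/N
(quotient topology, additive uniform structure), the induced map M^ → (M/N)^ is surjective and open
(so, its kernel being the completion of N, the sequence 0 → N^ → M^ → (M/N)^ → 0 is exact). -/
theorem result
    {R : Type u} [Ring R] {M : Type v} [AddCommGroup M] [Module R M] [UniformSpace M]
    [IsUniformAddGroup M] [IsLinearTopology R M] (hc : (nhds (0 : M)).IsCountablyGenerated)
    (N : Submodule R M) :
    Function.Surjective (@UniformSpace.Completion.map M _ (M ⧸ N.toAddSubgroup)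
        (IsTopologicalAddGroup.rightUniformSpace (M ⧸ N.toAddSubgroup))
        (QuotientAddGroup.mk' N.toAddSubgroup)) ∧
      IsOpenMap (@UniformSpace.Completion.map M _ (M ⧸ N.toAddSubgroup)
        (IsTopologicalAddGroup.rightUniformSpace (M ⧸ N.toAddSubgroup))
        (QuotientAddGroup.mk' N.toAddSubgroup)) := by
  classical
  letI uQ : UniformSpace (M ⧸ N.toAddSubgroup) :=
    IsTopologicalAddGroup.rightUniformSpace (M ⧸ N.toAddSubgroup)
  haveI : IsUniformAddGroup (M ⧸ N.toAddSubgroup) := isUniformAddGroup_of_addCommGroup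
  let mk : M →+ M ⧸ N.toAddSubgroup := QuotientAddGroup.mk' N.toAddSubgroup
  have hmk : Continuous mk := QuotientAddGroup.continuous_mk
  let φ : UniformSpace.Completion M →+ UniformSpace.Completion (M ⧸ N.toAddSubgroup) :=
    mk.completion hmk
  have hφc : Continuous φ := AddMonoidHom.continuous_completion mk hmk
  have hφι : ∀ m : M, φ (m : UniformSpace.Completion M) =
      ((mk m : M ⧸ N.toAddSubgroup) : UniformSpace.Completion (M ⧸ N.toAddSubgroup)) :=
    fun m => AddMonoidHom.completion_coe mk hmk m
  change Function.Surjective φ ∧ IsOpenMap φ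
  -- closures of images of open subgroups are neighbourhoods of zero
  have hnhdsM : ∀ H : AddSubgroup M, IsOpen (H : Set M) →
      closure (((↑) : M → UniformSpace.Completion M) '' (H : Set M)) ∈
        nhds (0 : UniformSpace.Completion M) := by
    intro H hH
    rw [← UniformSpace.Completion.coe_zero]
    exact UniformSpace.Completion.isDenseInducing_coe.closure_image_mem_nhds (hH.mem_nhds H.zero_mem)
  have hnhdsQ : ∀ H : AddSubgroup (M ⧸ N.toAddSubgroup), IsOpen (H : Set (M ⧸ N.toAddSubgroup)) →
      closure (((↑) : (M ⧸ N.toAddSubgroup) → UniformSpace.Completion (M ⧸ N.toAddSubgroup)) ''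
        (H : Set (M ⧸ N.toAddSubgroup))) ∈ nhds (0 : UniformSpace.Completion (M ⧸ N.toAddSubgroup)) := by
    intro H hH
    rw [← UniformSpace.Completion.coe_zero]
    exact UniformSpace.Completion.isDenseInducing_coe.closure_image_mem_nhds (hH.mem_nhds H.zero_mem)
  -- basis of the completion of M
  have hbasisM : ∀ t ∈ nhds (0 : UniformSpace.Completion M), ∃ U : Submodule R M,
      IsOpen (U : Set M) ∧ closure (((↑) : M → UniformSpace.Completion M) '' (U : Set M)) ⊆ t := by
    intro t ht
    obtain ⟨V, hV, hVc, hVt⟩ := exists_mem_nhds_isClosed_subset ht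
    have hW : ((↑) : M → UniformSpace.Completion M) ⁻¹' V ∈ nhds (0 : M) := by
      have := (UniformSpace.Completion.continuous_coe M).continuousAt (x := (0 : M))
      rw [ContinuousAt, UniformSpace.Completion.coe_zero] at this
      exact this hV
    obtain ⟨U, hUo, hUsub⟩ := (IsLinearTopology.hasBasis_open_submodule R).mem_iff.1 hW
    refine ⟨U, hUo, (closure_minimal ?_ hVc).trans hVt⟩
    rintro _ ⟨u, hu, rfl⟩
    exact hUsub hu
  -- a decreasing countable basis of open submodules of M
  haveI := hc
  obtain ⟨s, hs⟩ := (nhds (0 : M)).exists_antitone_basis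
  have hB : ∀ k, ∃ U : Submodule R M, IsOpen (U : Set M) ∧ (U : Set M) ⊆ s k := fun k =>
    (IsLinearTopology.hasBasis_open_submodule R).mem_iff.1 (hs.1.mem_of_mem trivial)
  choose B hBo hBs using hB
  let D : ℕ → Submodule R M := decSeqH15 B
  have hD0 : D 0 = ⊤ := rfl
  have hDs : ∀ k, D (k + 1) = D k ⊓ B k := fun k => rfl
  have hDo : ∀ k, IsOpen ((D k : Submodule R M) : Set M) := by
    intro k
    induction k with
    | zero => rw [hD0, Submodule.top_coe]; exact isOpen_univ
    | succ k ih => rw [hDs, Submodule.coe_inf]; exact ih.inter (hBo k)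
  have hDle : ∀ k, D (k + 1) ≤ B k := fun k => by rw [hDs]; exact inf_le_right
  have hDanti : ∀ k, D (k + 1) ≤ D k := fun k => by rw [hDs]; exact inf_le_left
  have hDbasis : ∀ t ∈ nhds (0 : M), ∃ k, ((D k : Submodule R M) : Set M) ⊆ t := by
    intro t ht
    obtain ⟨k, -, hk⟩ := hs.1.mem_iff.1 ht
    exact ⟨k + 1, fun x hx => hk (hBs k (hDle k hx))⟩
  have hDanti' : Antitone D := antitone_nat_of_succ_le hDanti
  -- the key approximation step
  have key : ∀ U : Submodule R M, IsOpen (U : Set M) →
      closure (((↑) : (M ⧸ N.toAddSubgroup) → UniformSpace.Completion (M ⧸ N.toAddSubgroup)) ''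
        (mk '' (U : Set M))) ⊆ φ '' closure (((↑) : M → UniformSpace.Completion M) '' (U : Set M)) := by
    intro U hU y hy
    let W : ℕ → Submodule R M := fun k => U ⊓ D k
    have hWo : ∀ k, IsOpen ((W k : Submodule R M) : Set M) := fun k => by
      show IsOpen ((U ⊓ D k : Submodule R M) : Set M)
      rw [Submodule.coe_inf]; exact hU.inter (hDo k)
    have hWanti : Antitone W := fun a b hab => inf_le_inf_left U (hDanti' hab)
    let HQ : ℕ → AddSubgroup (M ⧸ N.toAddSubgroup) := fun k => (W k).toAddSubgroup.map mk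
    have hHQo : ∀ k, IsOpen ((HQ k : AddSubgroup (M ⧸ N.toAddSubgroup)) : Set (M ⧸ N.toAddSubgroup)) :=
      fun k => QuotientAddGroup.isOpenMap_coe _ (hWo k)
    let CG : ℕ → AddSubgroup (UniformSpace.Completion (M ⧸ N.toAddSubgroup)) := fun k =>
      ((HQ k).map (UniformSpace.Completion.toCompl :
        (M ⧸ N.toAddSubgroup) →+ UniformSpace.Completion (M ⧸ N.toAddSubgroup))).topologicalClosure
    have hCG : ∀ k, ((CG k : AddSubgroup _) : Set (UniformSpace.Completion (M ⧸ N.toAddSubgroup))) =
        closure (((↑) : (M ⧸ N.toAddSubgroup) → UniformSpace.Completion (M ⧸ N.toAddSubgroup)) ''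
          (mk '' ((W k : Submodule R M) : Set M))) := fun k => rfl
    have hCn : ∀ k, ((CG k : AddSubgroup _) : Set (UniformSpace.Completion (M ⧸ N.toAddSubgroup))) ∈
        nhds (0 : UniformSpace.Completion (M ⧸ N.toAddSubgroup)) := fun k => hnhdsQ _ (hHQo k)
    have hCanti : ∀ a b, a ≤ b → (CG b : Set (UniformSpace.Completion (M ⧸ N.toAddSubgroup))) ⊆
        (CG a : Set (UniformSpace.Completion (M ⧸ N.toAddSubgroup))) := by
      intro a b hab
      rw [hCG, hCG]
      exact closure_mono (Set.image_mono (Set.image_mono (hWanti hab)))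
    have hy0 : y ∈ CG 0 := by
      show y ∈ ((CG 0 : AddSubgroup _) : Set _)
      rw [hCG]
      refine closure_mono (Set.image_mono (Set.image_mono ?_)) hy
      exact fun x hx => Submodule.mem_inf.2 ⟨hx, by rw [hD0]; exact Submodule.mem_top⟩
    have step : ∀ k, ∀ z ∈ CG k, ∃ w ∈ W k,
        z - (((mk w : M ⧸ N.toAddSubgroup)) : UniformSpace.Completion (M ⧸ N.toAddSubgroup)) ∈ CG (k + 1) := by
      intro k z hz
      have hnb : {z' | z - z' ∈ CG (k + 1)} ∈ nhds z := by
        have hc : Continuous fun z' : UniformSpace.Completion (M ⧸ N.toAddSubgroup) => z - z' :=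
          continuous_const.sub continuous_id
        have := hc.continuousAt (x := z)
        rw [ContinuousAt, sub_self] at this
        exact this (hCn (k + 1))
      have hz' : z ∈ closure (((↑) : (M ⧸ N.toAddSubgroup) → UniformSpace.Completion (M ⧸ N.toAddSubgroup)) ''
          (mk '' ((W k : Submodule R M) : Set M))) := by rw [← hCG]; exact hz
      obtain ⟨_, hz'', ⟨_, ⟨w, hw, rfl⟩, rfl⟩⟩ := mem_closure_iff_nhds.1 hz' _ hnb
      exact ⟨w, hw, hz''⟩
    choose wf hwf hwf' using step
    let zs : (k : ℕ) → {z : UniformSpace.Completion (M ⧸ N.toAddSubgroup) // z ∈ CG k} := fun k =>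
      Nat.rec ⟨y, hy0⟩ (fun k p => ⟨p.1 - ((mk (wf k p.1 p.2) : M ⧸ N.toAddSubgroup) :
        UniformSpace.Completion (M ⧸ N.toAddSubgroup)), hwf' k p.1 p.2⟩) k
    let m : ℕ → M := fun k => wf k (zs k).1 (zs k).2
    have hm : ∀ k, m k ∈ W k := fun k => hwf k _ _
    let ps : ℕ → M := fun n => ∑ k ∈ Finset.range n, m k
    have hzs : ∀ n, ((zs n).1 : UniformSpace.Completion (M ⧸ N.toAddSubgroup)) =
        y - ((mk (ps n) : M ⧸ N.toAddSubgroup) : UniformSpace.Completion (M ⧸ N.toAddSubgroup)) := by
      intro n
      induction n with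
      | zero =>
        show y = y - ((mk (ps 0) : M ⧸ N.toAddSubgroup) : UniformSpace.Completion (M ⧸ N.toAddSubgroup))
        simp only [ps, Finset.range_zero, Finset.sum_empty, map_zero]
        rw [UniformSpace.Completion.coe_zero, sub_zero]
      | succ n ih =>
        show (zs n).1 - ((mk (m n) : M ⧸ N.toAddSubgroup) : UniformSpace.Completion (M ⧸ N.toAddSubgroup)) = _
        rw [ih]
        simp only [ps, Finset.sum_range_succ, map_add, UniformSpace.Completion.coe_add]
        abel
    have hpsU : ∀ n, ps n ∈ U := fun n =>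
      Submodule.sum_mem _ fun k _ => (Submodule.mem_inf.1 (hm k)).1
    have hpsdiff : ∀ a b, a ≤ b → ps b - ps a ∈ W a := by
      intro a b hab
      have : ps b - ps a = ∑ k ∈ Finset.Ico a b, m k := (Finset.sum_Ico_eq_sub m hab).symm
      rw [this]
      exact Submodule.sum_mem _ fun k hk => hWanti (Finset.mem_Ico.1 hk).1 (hm k)
    have hbU : (uniformity M).HasBasis (fun V : Set M => V ∈ nhds (0 : M))
        (fun V => (fun x : M × M => x.2 - x.1) ⁻¹' V) := by
      rw [uniformity_eq_comap_nhds_zero M]
      exact (nhds (0 : M)).basis_sets.comap _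
    have hcauchy : CauchySeq ps := by
      refine hbU.cauchySeq_iff.2 fun V hV => ?_
      obtain ⟨k, hk⟩ := hDbasis V hV
      refine ⟨k, fun a ha b hb => ?_⟩
      show ps b - ps a ∈ V
      have h1 := hpsdiff k a ha
      have h2 := hpsdiff k b hb
      have e : ps b - ps a = (ps b - ps k) - (ps a - ps k) := by abel
      rw [e]
      exact hk (Submodule.mem_inf.1 ((W k).sub_mem h2 h1)).2
    obtain ⟨x, hx⟩ := cauchySeq_tendsto_of_complete
      ((UniformSpace.Completion.uniformContinuous_coe M).comp_cauchySeq hcauchy)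
    have hxU : x ∈ closure (((↑) : M → UniformSpace.Completion M) '' (U : Set M)) :=
      mem_closure_of_tendsto hx (Filter.Eventually.of_forall fun n => ⟨ps n, hpsU n, rfl⟩)
    have hzs0 : Filter.Tendsto (fun n => ((zs n).1 : UniformSpace.Completion (M ⧸ N.toAddSubgroup)))
        Filter.atTop (nhds 0) := by
      intro O hO
      obtain ⟨O', hO', hO'c, hO'O⟩ := exists_mem_nhds_isClosed_subset hO
      have hpre : (fun m : M => (((mk m : M ⧸ N.toAddSubgroup)) :
          UniformSpace.Completion (M ⧸ N.toAddSubgroup))) ⁻¹' O' ∈ nhds (0 : M) := by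
        have hcont : Continuous (fun m : M => (((mk m : M ⧸ N.toAddSubgroup)) :
            UniformSpace.Completion (M ⧸ N.toAddSubgroup))) :=
          (UniformSpace.Completion.continuous_coe _).comp hmk
        have := hcont.continuousAt (x := (0 : M))
        rw [ContinuousAt, map_zero, UniformSpace.Completion.coe_zero] at this
        exact this hO'
      obtain ⟨k, hk⟩ := hDbasis _ hpre
      rw [Filter.mem_map, Filter.mem_atTop_sets]
      refine ⟨k, fun n hn => ?_⟩
      have h1 : (zs n).1 ∈ (CG k : Set (UniformSpace.Completion (M ⧸ N.toAddSubgroup))) :=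
        hCanti k n hn (zs n).2
      rw [hCG] at h1
      refine hO'O (closure_minimal ?_ hO'c h1)
      rintro _ ⟨_, ⟨w, hw, rfl⟩, rfl⟩
      exact hk (Submodule.mem_inf.1 hw).2
    have hφx : φ x = y := by
      have h1 : Filter.Tendsto (fun n => φ ((ps n : M) : UniformSpace.Completion M)) Filter.atTop
          (nhds (φ x)) := (hφc.tendsto x).comp hx
      have h2 : Filter.Tendsto (fun n => φ ((ps n : M) : UniformSpace.Completion M)) Filter.atTop
          (nhds y) := by
        have e : (fun n => φ ((ps n : M) : UniformSpace.Completion M)) = fun n => y - (zs n).1 := by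
          funext n; rw [hzs n, hφι]; abel
        rw [e]
        simpa using (tendsto_const_nhds (x := y)).sub hzs0
      exact tendsto_nhds_unique h1 h2
    exact ⟨x, hxU, hφx⟩
  have hopen0 : ∀ t ∈ nhds (0 : UniformSpace.Completion M),
      φ '' t ∈ nhds (0 : UniformSpace.Completion (M ⧸ N.toAddSubgroup)) := by
    intro t ht
    obtain ⟨U, hUo, hUt⟩ := hbasisM t ht
    have hQo : IsOpen ((U.toAddSubgroup.map mk : AddSubgroup (M ⧸ N.toAddSubgroup)) :
        Set (M ⧸ N.toAddSubgroup)) := QuotientAddGroup.isOpenMap_coe _ hUo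
    exact Filter.mem_of_superset (hnhdsQ _ hQo) ((key U hUo).trans (Set.image_mono hUt))
  refine ⟨?_, ?_⟩
  · have hro : IsOpen (φ.range : Set (UniformSpace.Completion (M ⧸ N.toAddSubgroup))) :=
      φ.range.isOpen_of_mem_nhds (Filter.mem_of_superset (hopen0 Set.univ Filter.univ_mem)
        (by rintro _ ⟨a, -, rfl⟩; exact ⟨a, rfl⟩))
    have hrc := φ.range.isClosed_of_isOpen hro
    intro y
    have hy : y ∈ closure (Set.range ((↑) : (M ⧸ N.toAddSubgroup) →
        UniformSpace.Completion (M ⧸ N.toAddSubgroup))) := UniformSpace.Completion.denseRange_coe y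
    have hsub : Set.range ((↑) : (M ⧸ N.toAddSubgroup) →
        UniformSpace.Completion (M ⧸ N.toAddSubgroup)) ⊆ (φ.range : Set _) := by
      rintro _ ⟨q, rfl⟩
      obtain ⟨m, rfl⟩ := QuotientAddGroup.mk_surjective q
      exact ⟨(m : UniformSpace.Completion M), hφι m⟩
    obtain ⟨x, hx⟩ := hrc.closure_subset_iff.2 hsub hy
    exact ⟨x, hx⟩
  · intro O hO
    rw [isOpen_iff_mem_nhds]
    rintro _ ⟨x, hx, rfl⟩
    have ht : {w : UniformSpace.Completion M | x + w ∈ O} ∈ nhds (0 : UniformSpace.Completion M) := by
      have hc : Continuous fun w : UniformSpace.Completion M => x + w :=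
        continuous_const.add continuous_id
      have := hc.continuousAt (x := (0 : UniformSpace.Completion M))
      rw [ContinuousAt, add_zero] at this
      exact this (hO.mem_nhds hx)
    have h := hopen0 _ ht
    have hc2 : Continuous fun v : UniformSpace.Completion (M ⧸ N.toAddSubgroup) => v - φ x :=
      continuous_id.sub continuous_const
    have h3 := hc2.continuousAt (x := φ x)
    rw [ContinuousAt, sub_self] at h3
    refine Filter.mem_of_superset (h3 h) ?_
    rintro v ⟨w, hw, hwv⟩
    refine ⟨x + w, hw, ?_⟩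
    simp only at hwv
    rw [map_add, hwv]
    exact add_sub_cancel (φ x) v

end Groth.Agent.S10172
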