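import Groth.Statements.S1043
-- import your own Groth.Agent.* helpers here

set_option autoImplicit false
universe v u
open CategoryTheory
open CohDer

namespace Groth.Agent.S1043

open CategoryTheory.Pretriangulated in
/-- Let φ, ψ : T ⟶ T' be two morphisms between distinguished triangles T = (X, Y, Z) and T' = (X', Y',
Z') of a pretriangulated category which agree on the first and third components. If one of the
following holds — (1) Hom(Y, X') = 0; (2) Hom(Z, Y') = 0; (3) Hom(X, X') = 0 and Hom(Z, X') = 0; (4)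
Hom(Z, X') = 0 and Hom(Z, Z') = 0; (5) Hom(X[1], Z') = 0 and Hom(Z, X') = 0 — then φ and ψ also
agree on the middle component. -/
theorem result {D : Type u} [Category.{v} D] [Preadditive D] [Limits.HasZeroObject D] [HasShift D ℤ]
    [∀ n : ℤ, (shiftFunctor D n).Additive] [Pretriangulated D]
    (T T' : Triangle D) (hT : T ∈ distinguishedTriangles) (hT' : T' ∈ distinguishedTriangles)
    (φ ψ : T ⟶ T') (h₁ : φ.hom₁ = ψ.hom₁) (h₃ : φ.hom₃ = ψ.hom₃)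
    (hc : (∀ u : T.obj₂ ⟶ T'.obj₁, u = 0) ∨ (∀ u : T.obj₃ ⟶ T'.obj₂, u = 0) ∨
      ((∀ u : T.obj₁ ⟶ T'.obj₁, u = 0) ∧ (∀ u : T.obj₃ ⟶ T'.obj₁, u = 0)) ∨
      ((∀ u : T.obj₃ ⟶ T'.obj₁, u = 0) ∧ (∀ u : T.obj₃ ⟶ T'.obj₃, u = 0)) ∨
      ((∀ u : (shiftFunctor D (1 : ℤ)).obj T.obj₁ ⟶ T'.obj₃, u = 0) ∧ (∀ u : T.obj₃ ⟶ T'.obj₁, u = 0))) :
    φ.hom₂ = ψ.hom₂ := by
  rw [← sub_eq_zero]
  have hd1 : T.mor₁ ≫ (φ.hom₂ - ψ.hom₂) = 0 := by
    rw [Preadditive.comp_sub, φ.comm₁, ψ.comm₁, h₁, sub_self]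
  have hd2 : (φ.hom₂ - ψ.hom₂) ≫ T'.mor₂ = 0 := by
    rw [Preadditive.sub_comp, ← φ.comm₂, ← ψ.comm₂, h₃, sub_self]
  obtain ⟨e, he⟩ := Triangle.yoneda_exact₂ T hT (φ.hom₂ - ψ.hom₂) hd1
  obtain ⟨u, hu⟩ := Triangle.coyoneda_exact₂ T' hT' (φ.hom₂ - ψ.hom₂) hd2
  rcases hc with h | h | ⟨ha, hb⟩ | ⟨ha, hb⟩ | ⟨ha, hb⟩
  · rw [hu, h u, Limits.zero_comp]
  · rw [he, h e, Limits.comp_zero]
  · have h0 : T.mor₁ ≫ u = 0 := ha _
    obtain ⟨w, hw⟩ := Triangle.yoneda_exact₂ T hT u h0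
    rw [hu, hw, hb w, Limits.comp_zero, Limits.zero_comp]
  · have h0 : e ≫ T'.mor₂ = 0 := hb _
    obtain ⟨w, hw⟩ := Triangle.coyoneda_exact₂ T' hT' e h0
    rw [he, hw, ha w, Limits.zero_comp, Limits.comp_zero]
  · have h0 : T.mor₂ ≫ (e ≫ T'.mor₂) = 0 := by rw [← Category.assoc, ← he]; exact hd2
    obtain ⟨g, hg⟩ := Triangle.yoneda_exact₃ T hT (e ≫ T'.mor₂) h0
    have h00 : e ≫ T'.mor₂ = 0 := by rw [hg, ha g, Limits.comp_zero]
    obtain ⟨w, hw⟩ := Triangle.coyoneda_exact₂ T' hT' e h00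
    rw [he, hw, hb w, Limits.zero_comp, Limits.comp_zero]

end Groth.Agent.S1043
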