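import Groth.Statements.S10618

set_option autoImplicit false
universe u
open CategoryTheory CategoryTheory.Limits AlgebraicGeometry
open AlgSp

namespace Groth.Agent.S10618

/-- The same thickening `Spec (A ⧸ I) ⟶ Spec A` as in `sq`, with new top and bottom arrows for another
morphism `f'`. -/
noncomputable def mkSq {S : Scheme.{u}} {F G F' G' : Sp S} {f : F ⟶ G} (sq : InfSq f) (f' : F' ⟶ G')
    (top : (yon S).obj sq.ptT ⟶ F') (bot : (yon S).obj sq.ptT' ⟶ G')
    (comm : top ≫ f' = (yon S).map sq.j ≫ bot) : InfSq f' where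
  A := sq.A
  commRing := sq.commRing
  I := sq.I
  sq_zero := sq.sq_zero
  str := sq.str
  top := top
  bot := bot
  comm := comm

theorem mkSq_hasLift_iff {S : Scheme.{u}} {F G F' G' : Sp S} {f : F ⟶ G} (sq : InfSq f) (f' : F' ⟶ G')
    (top : (yon S).obj sq.ptT ⟶ F') (bot : (yon S).obj sq.ptT' ⟶ G')
    (comm : top ≫ f' = (yon S).map sq.j ≫ bot) :
    (mkSq sq f' top bot comm).HasLift ↔
      ∃ l : (yon S).obj sq.ptT' ⟶ F', (yon S).map sq.j ≫ l = top ∧ l ≫ f' = bot := Iff.rfl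

theorem mkSq_hasUniq_iff {S : Scheme.{u}} {F G F' G' : Sp S} {f : F ⟶ G} (sq : InfSq f) (f' : F' ⟶ G')
    (top : (yon S).obj sq.ptT ⟶ F') (bot : (yon S).obj sq.ptT' ⟶ G')
    (comm : top ≫ f' = (yon S).map sq.j ≫ bot) :
    (mkSq sq f' top bot comm).HasUniq ↔
      ∀ l l' : (yon S).obj sq.ptT' ⟶ F', (yon S).map sq.j ≫ l = top → l ≫ f' = bot →
        (yon S).map sq.j ≫ l' = top → l' ≫ f' = bot → l = l' := Iff.rfl

theorem mkSq_hasUniqLift_iff {S : Scheme.{u}} {F G F' G' : Sp S} {f : F ⟶ G} (sq : InfSq f) (f' : F' ⟶ G')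
    (top : (yon S).obj sq.ptT ⟶ F') (bot : (yon S).obj sq.ptT' ⟶ G')
    (comm : top ≫ f' = (yon S).map sq.j ≫ bot) :
    (mkSq sq f' top bot comm).HasUniqLift ↔
      ∃! l : (yon S).obj sq.ptT' ⟶ F', (yon S).map sq.j ≫ l = top ∧ l ≫ f' = bot := Iff.rfl

/-- Let a : F ⟶ G and b : G ⟶ H be morphisms of fppf sheaves on (Sch/S) with b formally unramified. If a
≫ b is formally unramified, resp. formally etale, resp. formally smooth, then so is a. (The
published statement is for transformations of arbitrary presheaves of sets on (Sch/S)_fppf; this row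
takes fppf sheaves, the case of algebraic spaces.) -/
theorem result {S : Scheme.{u}} {F G H : AlgSp.Sp S} (a : F ⟶ G) (b : G ⟶ H)
    (hb : AlgSp.IsFormallyUnramifiedMor b) :
    (AlgSp.IsFormallyUnramifiedMor (a ≫ b) → AlgSp.IsFormallyUnramifiedMor a) ∧
    (AlgSp.IsFormallyEtaleMor (a ≫ b) → AlgSp.IsFormallyEtaleMor a) ∧
    (AlgSp.IsFormallySmoothMor (a ≫ b) → AlgSp.IsFormallySmoothMor a) := by
  refine ⟨?_, ?_, ?_⟩
  · intro hab sq l l' h1 h2 h1' h2'
    have hc : sq.top ≫ a ≫ b = (yon S).map sq.j ≫ (sq.bot ≫ b) := by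
      rw [← Category.assoc, sq.comm, Category.assoc]
    exact (mkSq_hasUniq_iff sq (a ≫ b) sq.top (sq.bot ≫ b) hc).mp (hab _) l l' h1
      (by rw [← Category.assoc, h2]) h1' (by rw [← Category.assoc, h2'])
  · intro hab sq
    have hc : sq.top ≫ a ≫ b = (yon S).map sq.j ≫ (sq.bot ≫ b) := by
      rw [← Category.assoc, sq.comm, Category.assoc]
    obtain ⟨l, ⟨hl1, hl2⟩, hlu⟩ :=
      (mkSq_hasUniqLift_iff sq (a ≫ b) sq.top (sq.bot ≫ b) hc).mp (hab _)
    have hc2 : (sq.top ≫ a) ≫ b = (yon S).map sq.j ≫ (sq.bot ≫ b) := by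
      rw [Category.assoc]; exact hc
    have hla : l ≫ a = sq.bot :=
      (mkSq_hasUniq_iff sq b (sq.top ≫ a) (sq.bot ≫ b) hc2).mp (hb _) (l ≫ a) sq.bot
        (by rw [← Category.assoc, hl1]) (by rw [Category.assoc]; exact hl2) sq.comm.symm rfl
    refine ⟨l, ⟨hl1, hla⟩, ?_⟩
    rintro l' ⟨h1, h2⟩
    exact hlu l' ⟨h1, by rw [← Category.assoc, h2]⟩
  · intro hab sq
    have hc : sq.top ≫ a ≫ b = (yon S).map sq.j ≫ (sq.bot ≫ b) := by
      rw [← Category.assoc, sq.comm, Category.assoc]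
    obtain ⟨l, hl1, hl2⟩ := (mkSq_hasLift_iff sq (a ≫ b) sq.top (sq.bot ≫ b) hc).mp (hab _)
    have hc2 : (sq.top ≫ a) ≫ b = (yon S).map sq.j ≫ (sq.bot ≫ b) := by
      rw [Category.assoc]; exact hc
    have hla : l ≫ a = sq.bot :=
      (mkSq_hasUniq_iff sq b (sq.top ≫ a) (sq.bot ≫ b) hc2).mp (hb _) (l ≫ a) sq.bot
        (by rw [← Category.assoc, hl1]) (by rw [Category.assoc]; exact hl2) sq.comm.symm rfl
    exact ⟨l, hl1, hla⟩

end Groth.Agent.S10618
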