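import Groth.Statements.S10619

set_option autoImplicit false
universe u
open CategoryTheory CategoryTheory.Limits AlgebraicGeometry
open AlgSp

namespace Groth.Agent.S10619

/-- The same thickening `Spec (A ⧸ I) ⟶ Spec A` as in `sq`, with new top and bottom arrows for another
morphism `f'`. -/
noncomputable def mkSq {S : Scheme.{u}} {F G F' G' : Sp S} {f : F ⟶ G} (sq : InfSq f) (f' : F' ⟶ G')
    (top : (yon S).obj sq.ptT ⟶ F') (bot : (yon S).obj sq.ptT' ⟶ G')
    (comm : top ≫ f' = (yon S).map sq.j ≫ bot) : InfSq f' where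
  A := sq.A
  commRing := sq.commRing
  I := sq.I
  sq_zero := sq.sq_zero
  str := sq.str
  top := top
  bot := bot
  comm := comm

theorem mkSq_hasLift_iff {S : Scheme.{u}} {F G F' G' : Sp S} {f : F ⟶ G} (sq : InfSq f) (f' : F' ⟶ G')
    (top : (yon S).obj sq.ptT ⟶ F') (bot : (yon S).obj sq.ptT' ⟶ G')
    (comm : top ≫ f' = (yon S).map sq.j ≫ bot) :
    (mkSq sq f' top bot comm).HasLift ↔
      ∃ l : (yon S).obj sq.ptT' ⟶ F', (yon S).map sq.j ≫ l = top ∧ l ≫ f' = bot := Iff.rfl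

theorem mkSq_hasUniq_iff {S : Scheme.{u}} {F G F' G' : Sp S} {f : F ⟶ G} (sq : InfSq f) (f' : F' ⟶ G')
    (top : (yon S).obj sq.ptT ⟶ F') (bot : (yon S).obj sq.ptT' ⟶ G')
    (comm : top ≫ f' = (yon S).map sq.j ≫ bot) :
    (mkSq sq f' top bot comm).HasUniq ↔
      ∀ l l' : (yon S).obj sq.ptT' ⟶ F', (yon S).map sq.j ≫ l = top → l ≫ f' = bot →
        (yon S).map sq.j ≫ l' = top → l' ≫ f' = bot → l = l' := Iff.rfl

theorem mkSq_hasUniqLift_iff {S : Scheme.{u}} {F G F' G' : Sp S} {f : F ⟶ G} (sq : InfSq f) (f' : F' ⟶ G')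
    (top : (yon S).obj sq.ptT ⟶ F') (bot : (yon S).obj sq.ptT' ⟶ G')
    (comm : top ≫ f' = (yon S).map sq.j ≫ bot) :
    (mkSq sq f' top bot comm).HasUniqLift ↔
      ∃! l : (yon S).obj sq.ptT' ⟶ F', (yon S).map sq.j ≫ l = top ∧ l ≫ f' = bot := Iff.rfl

/-- A composition of formally smooth, resp. formally etale, resp. formally unramified morphisms of fppf
sheaves on (Sch/S) is again formally smooth, resp. formally etale, resp. formally unramified. (The
published statement is for transformations of arbitrary presheaves of sets on (Sch/S)_fppf; this row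
takes fppf sheaves, the case of algebraic spaces.) -/
theorem result {S : Scheme.{u}} {F G H : AlgSp.Sp S} (a : F ⟶ G) (b : G ⟶ H) :
    (AlgSp.IsFormallySmoothMor a → AlgSp.IsFormallySmoothMor b → AlgSp.IsFormallySmoothMor (a ≫ b)) ∧
    (AlgSp.IsFormallyEtaleMor a → AlgSp.IsFormallyEtaleMor b → AlgSp.IsFormallyEtaleMor (a ≫ b)) ∧
    (AlgSp.IsFormallyUnramifiedMor a → AlgSp.IsFormallyUnramifiedMor b → AlgSp.IsFormallyUnramifiedMor (a ≫ b)) := by
  refine ⟨?_, ?_, ?_⟩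
  · intro ha hb sq
    have hc : (sq.top ≫ a) ≫ b = (yon S).map sq.j ≫ sq.bot := by
      rw [Category.assoc]; exact sq.comm
    obtain ⟨lb, hlb1, hlb2⟩ := (mkSq_hasLift_iff sq b (sq.top ≫ a) sq.bot hc).mp (hb _)
    obtain ⟨la, hla1, hla2⟩ := (mkSq_hasLift_iff sq a sq.top lb hlb1.symm).mp (ha _)
    exact ⟨la, hla1, by rw [← Category.assoc, hla2]; exact hlb2⟩
  · intro ha hb sq
    have hc : (sq.top ≫ a) ≫ b = (yon S).map sq.j ≫ sq.bot := by
      rw [Category.assoc]; exact sq.comm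
    obtain ⟨lb, ⟨hlb1, hlb2⟩, hlbu⟩ := (mkSq_hasUniqLift_iff sq b (sq.top ≫ a) sq.bot hc).mp (hb _)
    obtain ⟨la, ⟨hla1, hla2⟩, hlau⟩ := (mkSq_hasUniqLift_iff sq a sq.top lb hlb1.symm).mp (ha _)
    refine ⟨la, ⟨hla1, by rw [← Category.assoc, hla2]; exact hlb2⟩, ?_⟩
    rintro l ⟨hl1, hl2⟩
    have hlb' : l ≫ a = lb :=
      hlbu (l ≫ a) ⟨by rw [← Category.assoc, hl1], by rw [Category.assoc]; exact hl2⟩
    exact hlau l ⟨hl1, hlb'⟩
  · intro ha hb sq l l' h1 h2 h1' h2'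
    have hc : (sq.top ≫ a) ≫ b = (yon S).map sq.j ≫ sq.bot := by
      rw [Category.assoc]; exact sq.comm
    have hb' := (mkSq_hasUniq_iff sq b (sq.top ≫ a) sq.bot hc).mp (hb _)
    have e : l ≫ a = l' ≫ a :=
      hb' (l ≫ a) (l' ≫ a) (by rw [← Category.assoc, h1]) (by rw [Category.assoc]; exact h2)
        (by rw [← Category.assoc, h1']) (by rw [Category.assoc]; exact h2')
    have hc' : sq.top ≫ a = (yon S).map sq.j ≫ (l ≫ a) := by rw [← h1, Category.assoc]
    exact (mkSq_hasUniq_iff sq a sq.top (l ≫ a) hc').mp (ha _) l l' h1 rfl h1' e.symm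

end Groth.Agent.S10619
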