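import Groth.Statements.S10620

set_option autoImplicit false
universe u
open CategoryTheory CategoryTheory.Limits AlgebraicGeometry
open AlgSp

namespace Groth.Agent.S10620

/-- The same thickening `Spec (A ⧸ I) ⟶ Spec A` as in `sq`, with new top and bottom arrows for another
morphism `f'`. -/
noncomputable def mkSq {S : Scheme.{u}} {F G F' G' : Sp S} {f : F ⟶ G} (sq : InfSq f) (f' : F' ⟶ G')
    (top : (yon S).obj sq.ptT ⟶ F') (bot : (yon S).obj sq.ptT' ⟶ G')
    (comm : top ≫ f' = (yon S).map sq.j ≫ bot) : InfSq f' where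
  A := sq.A
  commRing := sq.commRing
  I := sq.I
  sq_zero := sq.sq_zero
  str := sq.str
  top := top
  bot := bot
  comm := comm

theorem mkSq_hasLift_iff {S : Scheme.{u}} {F G F' G' : Sp S} {f : F ⟶ G} (sq : InfSq f) (f' : F' ⟶ G')
    (top : (yon S).obj sq.ptT ⟶ F') (bot : (yon S).obj sq.ptT' ⟶ G')
    (comm : top ≫ f' = (yon S).map sq.j ≫ bot) :
    (mkSq sq f' top bot comm).HasLift ↔
      ∃ l : (yon S).obj sq.ptT' ⟶ F', (yon S).map sq.j ≫ l = top ∧ l ≫ f' = bot := Iff.rfl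

theorem mkSq_hasUniq_iff {S : Scheme.{u}} {F G F' G' : Sp S} {f : F ⟶ G} (sq : InfSq f) (f' : F' ⟶ G')
    (top : (yon S).obj sq.ptT ⟶ F') (bot : (yon S).obj sq.ptT' ⟶ G')
    (comm : top ≫ f' = (yon S).map sq.j ≫ bot) :
    (mkSq sq f' top bot comm).HasUniq ↔
      ∀ l l' : (yon S).obj sq.ptT' ⟶ F', (yon S).map sq.j ≫ l = top → l ≫ f' = bot →
        (yon S).map sq.j ≫ l' = top → l' ≫ f' = bot → l = l' := Iff.rfl

theorem mkSq_hasUniqLift_iff {S : Scheme.{u}} {F G F' G' : Sp S} {f : F ⟶ G} (sq : InfSq f) (f' : F' ⟶ G')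
    (top : (yon S).obj sq.ptT ⟶ F') (bot : (yon S).obj sq.ptT' ⟶ G')
    (comm : top ≫ f' = (yon S).map sq.j ≫ bot) :
    (mkSq sq f' top bot comm).HasUniqLift ↔
      ∃! l : (yon S).obj sq.ptT' ⟶ F', (yon S).map sq.j ≫ l = top ∧ l ≫ f' = bot := Iff.rfl

/-- Let a : F ⟶ G and b : H ⟶ G be morphisms of fppf sheaves on (Sch/S) and let a' : P ⟶ H be the base
change of a along b (any pullback square). If a is formally smooth, resp. formally etale, resp.
formally unramified, then so is a'. (The published statement is for transformations of arbitrary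
presheaves of sets on (Sch/S)_fppf; this row takes fppf sheaves, the case of algebraic spaces.) -/
theorem result {S : Scheme.{u}} {F G H P : AlgSp.Sp S} (a : F ⟶ G) (b : H ⟶ G)
    (b' : P ⟶ F) (a' : P ⟶ H) (hP : IsPullback b' a' a b) :
    (AlgSp.IsFormallySmoothMor a → AlgSp.IsFormallySmoothMor a') ∧
    (AlgSp.IsFormallyEtaleMor a → AlgSp.IsFormallyEtaleMor a') ∧
    (AlgSp.IsFormallyUnramifiedMor a → AlgSp.IsFormallyUnramifiedMor a') := by
  refine ⟨?_, ?_, ?_⟩
  · intro ha sq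
    have hc : (sq.top ≫ b') ≫ a = (yon S).map sq.j ≫ (sq.bot ≫ b) := by
      rw [Category.assoc, hP.w, ← Category.assoc, sq.comm, Category.assoc]
    obtain ⟨l, hl1, hl2⟩ := (mkSq_hasLift_iff sq a (sq.top ≫ b') (sq.bot ≫ b) hc).mp (ha _)
    refine ⟨hP.lift l sq.bot hl2, ?_, hP.lift_snd _ _ _⟩
    apply hP.hom_ext
    · rw [Category.assoc, hP.lift_fst]; exact hl1
    · rw [Category.assoc, hP.lift_snd]; exact sq.comm.symm
  · intro ha sq
    have hc : (sq.top ≫ b') ≫ a = (yon S).map sq.j ≫ (sq.bot ≫ b) := by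
      rw [Category.assoc, hP.w, ← Category.assoc, sq.comm, Category.assoc]
    obtain ⟨l, ⟨hl1, hl2⟩, hlu⟩ :=
      (mkSq_hasUniqLift_iff sq a (sq.top ≫ b') (sq.bot ≫ b) hc).mp (ha _)
    refine ⟨hP.lift l sq.bot hl2, ⟨?_, hP.lift_snd _ _ _⟩, ?_⟩
    · apply hP.hom_ext
      · rw [Category.assoc, hP.lift_fst]; exact hl1
      · rw [Category.assoc, hP.lift_snd]; exact sq.comm.symm
    · rintro m ⟨hm1, hm2⟩
      apply hP.hom_ext
      · rw [hP.lift_fst]
        exact hlu (m ≫ b') ⟨by rw [← Category.assoc, hm1],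
          by rw [Category.assoc, hP.w, ← Category.assoc, hm2]⟩
      · rw [hP.lift_snd]; exact hm2
  · intro ha sq l l' h1 h2 h1' h2'
    have hc : (sq.top ≫ b') ≫ a = (yon S).map sq.j ≫ (sq.bot ≫ b) := by
      rw [Category.assoc, hP.w, ← Category.assoc, sq.comm, Category.assoc]
    have e : l ≫ b' = l' ≫ b' :=
      (mkSq_hasUniq_iff sq a (sq.top ≫ b') (sq.bot ≫ b) hc).mp (ha _) (l ≫ b') (l' ≫ b')
        (by rw [← Category.assoc, h1]) (by rw [Category.assoc, hP.w, ← Category.assoc, h2])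
        (by rw [← Category.assoc, h1']) (by rw [Category.assoc, hP.w, ← Category.assoc, h2'])
    exact hP.hom_ext e (h2.trans h2'.symm)

end Groth.Agent.S10620
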