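import Groth.Statements.S1126
import Mathlib.AlgebraicGeometry.Morphisms.FlatDescent
-- import your own Groth.Agent.* helpers here

set_option autoImplicit false
open CategoryTheory CategoryTheory.Limits AlgebraicGeometry Opposite
universe u
open Desc

namespace Groth.Agent.S1126

theorem isUnivHomeo_eq :
    FlatMor.IsUnivHomeo.{u} =
      ((@UniversallyOpen ⊓ @UniversallyInjective) ⊓ @Surjective : MorphismProperty Scheme.{u}) := by
  have h1 : (topologically (fun f => IsHomeomorph f) : MorphismProperty Scheme.{u}) =
      (topologically @IsOpenMap ⊓ topologically (Function.Injective ·)) ⊓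
        topologically Function.Surjective := by
    ext X Y f
    constructor
    · intro h
      exact ⟨⟨h.isOpenMap, h.bijective.1⟩, h.bijective.2⟩
    · rintro ⟨⟨h1, h2⟩, h3⟩
      exact ⟨f.base.hom.continuous, h1, h2, h3⟩
  have h2 : (MorphismProperty.universally (topologically @IsOpenMap) : MorphismProperty Scheme.{u}) =
      @UniversallyOpen := by
    ext X Y f
    exact ⟨fun h => ⟨h⟩, fun h => h.1⟩
  unfold FlatMor.IsUnivHomeo
  rw [h1, MorphismProperty.universally_inf, MorphismProperty.universally_inf, h2,
    ← universallyInjective_eq, ← surjective_eq_topologically,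
    MorphismProperty.IsStableUnderBaseChange.universally_eq (P := @Surjective)]

/-- If the base change of a morphism along a quasi-compact flat surjective morphism to its target is a
universal homeomorphism, then the morphism is a universal homeomorphism. (Stated for a single
quasi-compact flat surjective base change; combined with Zariski-locality on the target this gives
the fpqc-local form.) -/
theorem result :
    MorphismProperty.DescendsAlong (FlatMor.IsUnivHomeo.{u})
      (@Surjective ⊓ @Flat ⊓ @QuasiCompact : MorphismProperty Scheme.{u}) := by
  rw [isUnivHomeo_eq]
  have h1 : MorphismProperty.DescendsAlong (@UniversallyOpen : MorphismProperty Scheme.{u})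
      (@Surjective ⊓ @Flat ⊓ @QuasiCompact) :=
    descendsAlong_universallyOpen_surjective_inf_flat_inf_quasicompact
  have h2 : MorphismProperty.DescendsAlong (@UniversallyInjective : MorphismProperty Scheme.{u})
      (@Surjective ⊓ @Flat ⊓ @QuasiCompact) :=
    descendsAlong_universallyInjective_surjective_inf_flat_inf_quasicompact
  have h3 : MorphismProperty.DescendsAlong (@Surjective : MorphismProperty Scheme.{u})
      (@Surjective ⊓ @Flat ⊓ @QuasiCompact) :=
    Flat.surjective_descendsAlong_surjective_inf_flat_inf_quasicompact
  have h4 : MorphismProperty.DescendsAlong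
      (@UniversallyOpen ⊓ @UniversallyInjective : MorphismProperty Scheme.{u})
      (@Surjective ⊓ @Flat ⊓ @QuasiCompact) := MorphismProperty.DescendsAlong.inf
  exact MorphismProperty.DescendsAlong.inf

end Groth.Agent.S1126
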