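import Groth.Statements.S1128
import Mathlib.AlgebraicGeometry.Morphisms.Flat
import Mathlib.RingTheory.Flat.FaithfullyFlat.Algebra
-- import your own Groth.Agent.* helpers here

set_option autoImplicit false
open CategoryTheory CategoryTheory.Limits AlgebraicGeometry Opposite
universe u
open Desc

namespace Groth.Agent.S1128

open TensorProduct in
/-- Flatness descends along a faithfully flat extension of the target. -/
theorem flat_of_faithfullyFlat_comp (A B C : Type u) [CommRing A] [CommRing B] [CommRing C]
    [Algebra A B] [Algebra B C] [Algebra A C] [IsScalarTower A B C] [Module.FaithfullyFlat B C]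
    [Module.Flat A C] : Module.Flat A B := by
  rw [Module.Flat.iff_lTensor_preserves_injective_linearMap'.{u, u, u}]
  intro N P _ _ _ _ φ hφ
  have key : ∀ x : C ⊗[B] (B ⊗[A] N),
      AlgebraTensorModule.cancelBaseChange A B C C P (((φ.baseChange B).lTensor C) x) =
        φ.lTensor C (AlgebraTensorModule.cancelBaseChange A B C C N x) := by
    intro x
    induction x using TensorProduct.induction_on with
    | zero => simp
    | tmul c y =>
      induction y using TensorProduct.induction_on with
      | zero => simp
      | tmul b n => simp
      | add y z hy hz => simp only [tmul_add, map_add] at hy hz ⊢; rw [hy, hz]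
    | add x y hx hy => simp only [map_add]; rw [hx, hy]
  have h1 : Function.Injective ((φ.baseChange B).lTensor C) := by
    intro x y hxy
    have := congrArg (AlgebraTensorModule.cancelBaseChange A B C C P) hxy
    rw [key, key] at this
    exact (AlgebraTensorModule.cancelBaseChange A B C C N).injective
      (Module.Flat.lTensor_preserves_injective_linearMap φ hφ this)
  have h2 := (Module.FaithfullyFlat.lTensor_injective_iff_injective B C (φ.baseChange B)).mp h1
  rwa [LinearMap.baseChange_eq_ltensor] at h2

theorem flat_of_comp_local {R S T : Type u} [CommRing R] [CommRing S] [CommRing T] [IsLocalRing S]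
    [IsLocalRing T] (φ : R →+* S) (ψ : S →+* T) [IsLocalHom ψ] (hψ : ψ.Flat)
    (h : (ψ.comp φ).Flat) : φ.Flat := by
  letI := φ.toAlgebra
  letI := ψ.toAlgebra
  letI := (ψ.comp φ).toAlgebra
  haveI : IsScalarTower R S T := IsScalarTower.of_algebraMap_eq (fun _ => rfl)
  haveI : Module.Flat S T := hψ
  haveI : Module.Flat R T := h
  haveI : IsLocalHom (algebraMap S T) := inferInstanceAs (IsLocalHom ψ)
  haveI : Module.FaithfullyFlat S T := Module.FaithfullyFlat.of_flat_of_isLocalHom
  exact flat_of_faithfullyFlat_comp R S T

/-- If f is flat and surjective and the composite of f with g is flat, then g is flat; together with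
stability of flatness under composition this says flatness is fpqc local on the source. -/
theorem result {X' X Y : Scheme.{u}} (f : X' ⟶ X) (g : X ⟶ Y) [Flat f]
    [Surjective f] [Flat (f ≫ g)] : Flat g := by
  refine Flat.of_stalkMap g (fun x => ?_)
  obtain ⟨x', rfl⟩ := f.surjective x
  have h1 := Flat.stalkMap (f ≫ g) x'
  rw [Scheme.Hom.stalkMap_comp] at h1
  exact flat_of_comp_local (g.stalkMap (f x')).hom (f.stalkMap x').hom (Flat.stalkMap f x') h1

end Groth.Agent.S1128
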