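import Groth.Statements.S1132
import Mathlib.AlgebraicGeometry.Morphisms.Flat
-- import your own Groth.Agent.* helpers here

set_option autoImplicit false
open CategoryTheory CategoryTheory.Limits AlgebraicGeometry Opposite
universe u
open Desc

namespace Groth.Agent.S1132

/-- If p : X ⟶ S is a surjective flat morphism of schemes, the functor sending a scheme over S to its
canonical descent datum relative to p is faithful. (This is a special case of a more general
published statement; in this case the objects being descended are simply schemes over S. Descent
data are taken in functor-of-points form, equivalent by the Yoneda lemma to an isomorphism over X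
×_S X satisfying the cocycle condition.) -/
theorem result {X S : Scheme.{u}} (p : X ⟶ S) [Surjective p] [Flat p] :
    (Desc.toDD p).Faithful := by
  constructor
  intro U U' g₁ g₂ h
  have h1 : ((Desc.toDD p).map g₁).hom.left = ((Desc.toDD p).map g₂).hom.left := by rw [h]
  have hepi : Epi (pullback.snd p U.hom) := Flat.epi_of_flat_of_surjective _
  ext1
  rw [← cancel_epi (pullback.snd p U.hom)]
  have := congrArg (· ≫ pullback.snd p U'.hom) h1
  have h2 : pullback.map p U.hom p U'.hom (𝟙 X) g₁.left (𝟙 S) (by simp) (by simp) ≫
      pullback.snd p U'.hom = pullback.map p U.hom p U'.hom (𝟙 X) g₂.left (𝟙 S) (by simp) (by simp) ≫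
      pullback.snd p U'.hom := this
  simp only [pullback.map] at h2
  erw [pullback.lift_snd, pullback.lift_snd] at h2
  exact h2

end Groth.Agent.S1132
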