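import Groth.Statements.S1148
import Mathlib.RingTheory.Ideal.GoingDown
import Mathlib.RingTheory.LocalRing.ResidueField.Fiber
import Mathlib.RingTheory.FiniteStability
import Mathlib.RingTheory.Ideal.MinimalPrime.Noetherian
-- import your own Groth.Agent.* helpers here

set_option autoImplicit false
universe u
open Desc

namespace Groth.Agent.S1148

/-- Affine form (finiteness of irreducible components of quasi-compact opens is fppf local; this is the
ascent direction for a morphism of affine schemes). Let A → B be a flat ring map of finite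
presentation. If Spec A has finitely many irreducible components, then so does Spec B. -/
theorem result (A B : Type u) [CommRing A] [CommRing B] [Algebra A B]
    [Module.Flat A B] [Algebra.FinitePresentation A B] (h : (irreducibleComponents (PrimeSpectrum A)).Finite) :
    (irreducibleComponents (PrimeSpectrum B)).Finite := by
  have hmin_iff : ∀ {R : Type u} [CommRing R] (Q : Ideal R), Q ∈ minimalPrimes R ↔
      Q.IsPrime ∧ ∀ Q' : Ideal R, Q'.IsPrime → Q' ≤ Q → Q ≤ Q' := by
    intro R _ Q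
    rw [minimalPrimes_eq_minimals]
    exact Iff.rfl
  have hcomp : ∀ {R : Type u} [CommRing R], (irreducibleComponents (PrimeSpectrum R)).Finite ↔
      (minimalPrimes R).Finite := by
    intro R _
    rw [← Set.finite_coe_iff, ← Set.finite_coe_iff]
    exact (minimalPrimes.equivIrreducibleComponents R).toEquiv.finite_iff.symm
  rw [hcomp] at h ⊢
  have hmin : ∀ Q ∈ minimalPrimes B, Q.under A ∈ minimalPrimes A := by
    intro Q hQ
    rw [hmin_iff] at hQ ⊢
    obtain ⟨hQp, hQm⟩ := hQ
    refine ⟨Ideal.IsPrime.under A Q, fun P' hP' hle => ?_⟩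
    by_contra hne
    have hlt : P' < Q.under A := lt_of_le_of_ne hle (fun e => hne (e ▸ le_refl _))
    have : Q.LiesOver (Q.under A) := ⟨rfl⟩
    have := Ideal.IsPrime.under A Q
    obtain ⟨Q', hQ'Q, hQ'p, -⟩ := Ideal.exists_ideal_lt_liesOver_of_lt (p := P') Q hlt
    exact (not_le_of_gt hQ'Q) (hQm Q' hQ'p hQ'Q.le)
  have hfib : ∀ p ∈ minimalPrimes A, {Q | Q ∈ minimalPrimes B ∧ Q.under A = p}.Finite := by
    intro p hp
    have : p.IsPrime := ((hmin_iff p).mp hp).1
    have : IsNoetherianRing (p.Fiber B) :=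
      Algebra.FiniteType.isNoetherianRing p.ResidueField (p.Fiber B)
    have hFin : (minimalPrimes (p.Fiber B)).Finite :=
      Ideal.finite_minimalPrimes_of_isNoetherianRing _ ⊥
    have : Finite (minimalPrimes (p.Fiber B)) := hFin.to_subtype
    let e := PrimeSpectrum.primesOverOrderIsoFiber A B p
    have mk : ∀ Q : {Q | Q ∈ minimalPrimes B ∧ Q.under A = p}, p.primesOver B := fun Q =>
      ⟨Q.1, ((hmin_iff Q.1).mp Q.2.1).1, ⟨Q.2.2.symm⟩⟩
    let g : {Q | Q ∈ minimalPrimes B ∧ Q.under A = p} → minimalPrimes (p.Fiber B) := fun Q =>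
      ⟨(e ⟨Q.1, ((hmin_iff Q.1).mp Q.2.1).1, ⟨Q.2.2.symm⟩⟩).asIdeal, by
        rw [hmin_iff]
        refine ⟨(e _).isPrime, fun P' hP' hle => ?_⟩
        let P'' : PrimeSpectrum (p.Fiber B) := ⟨P', hP'⟩
        have h1 : P'' ≤ e ⟨Q.1, ((hmin_iff Q.1).mp Q.2.1).1, ⟨Q.2.2.symm⟩⟩ := hle
        have h2 := e.symm.monotone h1
        rw [OrderIso.symm_apply_apply] at h2
        have h3 : (e.symm P'').1 ≤ Q.1 := h2
        have h4 : Q.1 ≤ (e.symm P'').1 :=
          ((hmin_iff Q.1).mp Q.2.1).2 _ (e.symm P'').2.1 h3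
        have h5 : (⟨Q.1, ((hmin_iff Q.1).mp Q.2.1).1, ⟨Q.2.2.symm⟩⟩ : p.primesOver B) ≤
            e.symm P'' := h4
        have h6 := e.monotone h5
        rw [OrderIso.apply_symm_apply] at h6
        exact h6⟩
    have hg : Function.Injective g := by
      intro Q₁ Q₂ h12
      have h' : e ⟨Q₁.1, ((hmin_iff Q₁.1).mp Q₁.2.1).1, ⟨Q₁.2.2.symm⟩⟩ =
          e ⟨Q₂.1, ((hmin_iff Q₂.1).mp Q₂.2.1).1, ⟨Q₂.2.2.symm⟩⟩ :=
        PrimeSpectrum.ext (congrArg Subtype.val h12)
      have := congrArg Subtype.val (e.injective h')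
      exact Subtype.ext this
    exact Set.finite_coe_iff.mp (Finite.of_injective g hg)
  refine (h.biUnion hfib).subset ?_
  intro Q hQ
  exact Set.mem_biUnion (hmin Q hQ) ⟨hQ, rfl⟩

end Groth.Agent.S1148
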