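import Groth.Statements.S1156
import Mathlib.RingTheory.Flat.FaithfullyFlat.Basic
-- import your own Groth.Agent.* helpers here

set_option autoImplicit false
universe u
open scoped TensorProduct
open Desc

namespace Groth.Agent.S1156

theorem mk_one_injective (R A N : Type u) [CommRing R] [CommRing A] [Algebra R A]
    [Module.FaithfullyFlat R A] [AddCommGroup N] [Module R N] :
    Function.Injective (TensorProduct.mk R A N 1) := by
  rw [← Module.FaithfullyFlat.lTensor_injective_iff_injective R A (TensorProduct.mk R A N 1)]
  let μ : A ⊗[R] (A ⊗[R] N) →ₗ[R] A ⊗[R] N :=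
    (LinearMap.rTensor N (LinearMap.mul' R A)) ∘ₗ (TensorProduct.assoc R A A N).symm.toLinearMap
  have hμ : ∀ y, μ (LinearMap.lTensor A (TensorProduct.mk R A N 1) y) = y := by
    intro y
    induction y using TensorProduct.induction_on with
    | zero => simp
    | tmul a n => simp [μ]
    | add y z hy hz => simp only [map_add, hy, hz]
  exact Function.LeftInverse.injective hμ

/-- Exactness of the extended Amitsur complex in degree 0 (injectivity in degree −1 being standard). Let
R → A be faithfully flat and M an R-module. An element x of A ⊗_R M with 1 ⊗ x = (a ⊗ m ↦ a ⊗ 1 ⊗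
m)(x) in A ⊗_R A ⊗_R M lies in the image of m ↦ 1 ⊗ m. -/
theorem result (R A : Type u) [CommRing R] [CommRing A] [Algebra R A] [Module.FaithfullyFlat R A]
    (M : Type u) [AddCommGroup M] [Module R M] (x : A ⊗[R] M)
    (hx : TensorProduct.mk R A (A ⊗[R] M) 1 x = LinearMap.lTensor A (TensorProduct.mk R A M 1) x) :
    x ∈ LinearMap.range (TensorProduct.mk R A M 1) := by
  let i := TensorProduct.mk R A M 1
  let q := (LinearMap.range i).mkQ
  have hqi : q ∘ₗ i = 0 := by
    ext m
    simp [q, i]
  have h1 : q x = 0 := by
    apply mk_one_injective R A _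
    rw [map_zero]
    have e1 : TensorProduct.mk R A _ 1 (q x) =
        LinearMap.lTensor A q (TensorProduct.mk R A (A ⊗[R] M) 1 x) := by simp
    rw [e1, hx, ← LinearMap.comp_apply, ← LinearMap.lTensor_comp]
    change LinearMap.lTensor A (q ∘ₗ i) x = 0
    rw [hqi, LinearMap.lTensor_zero, LinearMap.zero_apply]
  exact (Submodule.Quotient.mk_eq_zero _).mp h1

end Groth.Agent.S1156
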