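import Groth.Statements.S1163
import Mathlib.AlgebraicGeometry.Morphisms.Flat
import Mathlib.AlgebraicGeometry.Morphisms.FinitePresentation
import Mathlib.AlgebraicGeometry.Morphisms.UnderlyingMap
import Mathlib.RingTheory.Flat.FaithfullyFlat.Algebra
import Mathlib.RingTheory.RingHom.FaithfullyFlat
-- import your own Groth.Agent.* helpers here

set_option autoImplicit false
open CategoryTheory CategoryTheory.Limits AlgebraicGeometry Opposite
universe u
open Desc

namespace Groth.Agent.S1163

open TensorProduct LinearMap AlgebraTensorModule in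
theorem flat_of_faithfullyFlat_tower (R S M : Type*) [CommRing R] [CommRing S] [Algebra R S]
    [AddCommGroup M] [Module R M] [Module S M] [IsScalarTower R S M]
    [Module.FaithfullyFlat S M] [Module.Flat R M] : Module.Flat R S := by
  rw [Module.Flat.iff_lTensor_injectiveₛ]
  introv
  rw [← coe_lTensor (A := S), ← Module.FaithfullyFlat.lTensor_injective_iff_injective S M]
  have hG : Function.Injective (LinearMap.lTensor M N.subtype) :=
    Module.Flat.lTensor_preserves_injective_linearMap _ Subtype.val_injective
  have key : ⇑(cancelBaseChange R S S M P) ∘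
      ⇑(LinearMap.lTensor M (AlgebraTensorModule.lTensor S S N.subtype)) =
      ⇑(LinearMap.lTensor M N.subtype) ∘ ⇑(cancelBaseChange R S S M N) := by
    funext x
    exact (congr($(lTensor_comp_cancelBaseChange (R := R) (A := S) (B := S) (M := M)
      N.subtype) x)).symm
  refine Function.Injective.of_comp (f := cancelBaseChange R S S M P) ?_
  rw [key]
  exact hG.comp (cancelBaseChange R S S M N).injective

theorem ringHom_flat_of_comp_faithfullyFlat {R S T : Type*} [CommRing R] [CommRing S]
    [CommRing T] (f : R →+* S) (g : S →+* T) (hg : g.FaithfullyFlat) (hgf : (g.comp f).Flat) :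
    f.Flat := by
  algebraize [f, g, g.comp f]
  exact flat_of_faithfullyFlat_tower R S T

theorem ringHom_flat_of_retract {R S T : Type*} [CommRing R] [CommRing S] [CommRing T]
    (f : R →+* S) (g : S →+* T) (r : T →+* S) (hr : r.comp g = RingHom.id S)
    (h : (g.comp f).Flat) : f.Flat := by
  algebraize [f, g.comp f]
  have hr' : ∀ s, r (g s) = s := fun s => congr($hr s)
  let i : S →ₗ[R] T :=
    { toFun := g
      map_add' := g.map_add
      map_smul' := fun a s => by
        simp only [Algebra.smul_def, RingHom.algebraMap_toAlgebra, map_mul, RingHom.comp_apply,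
          RingHom.id_apply] }
  let p : T →ₗ[R] S :=
    { toFun := r
      map_add' := r.map_add
      map_smul' := fun a t => by
        simp only [Algebra.smul_def, RingHom.algebraMap_toAlgebra, map_mul, RingHom.comp_apply,
          RingHom.id_apply, hr'] }
  exact Module.Flat.of_retract i p (by ext s; exact hr' s)

theorem flat_of_section {A B C : Scheme.{u}} (σ : B ⟶ A) (p : A ⟶ B) (hσ : σ ≫ p = 𝟙 B)
    (h : B ⟶ C) [Flat (p ≫ h)] : Flat h := by
  rw [Flat.iff_flat_stalkMap]
  intro b
  have hpb : p.base (σ.base b) = b := by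
    show (σ ≫ p).base b = b
    rw [hσ]; rfl
  have hflat := Flat.stalkMap (p ≫ h) (σ.base b)
  rw [Scheme.Hom.stalkMap_comp] at hflat
  have hcongr := Scheme.Hom.stalkMap_congr_point h (p.base (σ.base b)) b hpb
  apply ringHom_flat_of_retract (h.stalkMap b).hom
    ((B.presheaf.stalkCongr (.of_eq hpb)).inv ≫ p.stalkMap (σ.base b)).hom (σ.stalkMap b).hom
  · rw [← CommRingCat.hom_comp, Category.assoc, ← Scheme.Hom.stalkMap_comp,
      Scheme.Hom.stalkMap_congr_hom (σ ≫ p) (𝟙 B) hσ b, Scheme.Hom.stalkMap_id]
    ext x
    simp only [TopCat.Presheaf.stalkCongr_inv, TopCat.Presheaf.stalkCongr_hom]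
    erw [Category.comp_id, TopCat.Presheaf.stalkSpecializes_comp]
    erw [TopCat.Presheaf.stalkSpecializes_refl]
    rfl
  · rw [← CommRingCat.hom_comp]
    have e : h.stalkMap b ≫ (B.presheaf.stalkCongr (.of_eq hpb)).inv =
        (C.presheaf.stalkCongr (.of_eq (by rw [hpb]))).inv ≫ h.stalkMap (p.base (σ.base b)) := by
      rw [Iso.comp_inv_eq, Category.assoc, hcongr, Iso.inv_hom_id_assoc]
    rw [← Category.assoc, e, Category.assoc, CommRingCat.hom_comp]
    exact RingHom.Flat.comp (RingHom.Flat.of_bijective
      (ConcreteCategory.bijective_of_isIso _)) hflat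

/-- The case P = flat, single fppf cover: Let f : X ⟶ Y and q : Y ⟶ Z be morphisms of schemes, and
suppose there is a flat, surjective morphism g : Y' ⟶ Y locally of finite presentation which factors
through f. If f ≫ q is flat, then q is flat. -/
theorem result {X Y Z Y' : Scheme.{u}} (f : X ⟶ Y) (q : Y ⟶ Z) (g : Y' ⟶ Y) [Flat g] [Surjective g]
    [LocallyOfFinitePresentation g] (l : Y' ⟶ X) (hl : l ≫ f = g) [Flat (f ≫ q)] : Flat q := by
  have h1 : Flat (g ≫ q) := by
    let σ : Y' ⟶ pullback f g := pullback.lift l (𝟙 Y') (by rw [hl, Category.id_comp])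
    have hσ : σ ≫ pullback.snd f g = 𝟙 Y' := pullback.lift_snd _ _ _
    have : Flat (pullback.snd f g ≫ (g ≫ q)) := by
      rw [← Category.assoc, ← pullback.condition, Category.assoc]
      infer_instance
    exact flat_of_section σ (pullback.snd f g) hσ (g ≫ q)
  rw [Flat.iff_flat_stalkMap]
  intro y
  obtain ⟨y', rfl⟩ := g.surjective y
  have hc : ((g.stalkMap y').hom.comp (q.stalkMap (g.base y')).hom).Flat := by
    have := Flat.stalkMap (g ≫ q) y'
    rw [Scheme.Hom.stalkMap_comp] at this
    exact this
  have hff : (g.stalkMap y').hom.FaithfullyFlat := by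
    have hfl := Flat.stalkMap g y'
    algebraize [(g.stalkMap y').hom]
    have : IsLocalHom (algebraMap (Y.presheaf.stalk (g.base y')) (Y'.presheaf.stalk y')) :=
      inferInstanceAs (IsLocalHom (g.stalkMap y').hom)
    exact Module.FaithfullyFlat.of_flat_of_isLocalHom
  exact ringHom_flat_of_comp_faithfullyFlat _ _ hff hc

end Groth.Agent.S1163
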