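import Groth.Statements.S1206
import Mathlib.RingTheory.LocalRing.MaximalIdeal.Basic
import Mathlib.RingTheory.Ideal.Oka
import Mathlib.RingTheory.Finiteness.Basic
-- import your own Groth.Agent.* helpers here

set_option autoImplicit false
universe u
open FlatMor

namespace Groth.Agent.S1206

/-- Let A be a local domain which is not a field and 𝒮 a set of finitely generated ideals of A, closed
under products, such that the union of the closed sets V(I), I ∈ 𝒮, is exactly the set of nonzero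
primes (every nonzero prime contains a member of 𝒮 and no member is zero). Then the intersection of
all members of 𝒮 is zero. -/
theorem result (A : Type u) [CommRing A] [IsDomain A] [IsLocalRing A] (hA : ¬ IsField A)
    (𝒮 : Set (Ideal A)) (hfg : ∀ I ∈ 𝒮, I.FG) (hmul : ∀ I ∈ 𝒮, ∀ J ∈ 𝒮, I * J ∈ 𝒮)
    (hne : ∀ I ∈ 𝒮, I ≠ ⊥) (hcov : ∀ (p : Ideal A), p.IsPrime → p ≠ ⊥ → ∃ I ∈ 𝒮, I ≤ p) :
    sInf 𝒮 = ⊥ := by
  have hm0 : IsLocalRing.maximalIdeal A ≠ ⊥ := by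
    intro h
    exact hA (IsLocalRing.isField_iff_maximalIdeal_eq.mpr h)
  obtain ⟨J₀, hJ₀S, hJ₀m⟩ :=
    hcov _ (IsLocalRing.maximalIdeal.isMaximal A).isPrime hm0
  let P : Ideal A → Prop := fun 𝔟 => 𝔟 = ⊥ ∨ ∃ I ∈ 𝒮, I ≤ 𝔟
  have hOka : Ideal.IsOka P := by
    refine ⟨Or.inr ⟨J₀, hJ₀S, le_top⟩, ?_⟩
    intro 𝔟 a h₁ h₂
    rcases h₁ with h₁ | ⟨I, hI, hI𝔟⟩
    · left
      exact le_bot_iff.mp (h₁ ▸ le_sup_left)
    rcases h₂ with h₂ | ⟨I', hI', hI'𝔟⟩
    · left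
      exact le_bot_iff.mp (h₂ ▸ Ideal.le_colon)
    right
    refine ⟨I' * I, hmul I' hI' I hI, ?_⟩
    refine le_trans (Ideal.mul_mono hI'𝔟 hI𝔟) ?_
    rw [Ideal.mul_sup]
    refine sup_le Ideal.mul_le_right ?_
    rw [Ideal.mul_le]
    intro r hr s hs
    obtain ⟨c, rfl⟩ := Ideal.mem_span_singleton'.mp hs
    have hra : r • a ∈ 𝔟 := Submodule.mem_colon_span_singleton.mp hr
    have hra' : r * a ∈ 𝔟 := hra
    have h' : r * (c * a) = c * (r * a) := by ring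
    rw [h']
    exact 𝔟.mul_mem_left c hra'
  have hall : ∀ 𝔟, P 𝔟 := by
    refine hOka.forall_of_forall_prime' ?_ ?_
    · intro C hC hchain J hJ hsup
      rcases hsup with h | ⟨I, hI, hIle⟩
      · exact ⟨J, hJ, Or.inl (le_bot_iff.mp (h ▸ le_sSup hJ))⟩
      · have hc := (Submodule.fg_iff_compact I).mp (hfg I hI)
        obtain ⟨K, hK, hIK⟩ :=
          (CompleteLattice.isCompactElement_iff_le_of_directed_sSup_le _ _).mp hc C ⟨J, hJ⟩
            hchain.directedOn hIle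
        exact ⟨K, hK, Or.inr ⟨I, hI, hIK⟩⟩
    · intro q hq
      by_cases h : q = ⊥
      · exact Or.inl h
      · exact Or.inr (hcov q hq h)
  rw [eq_bot_iff]
  intro x hx
  rw [Submodule.mem_bot]
  by_contra hx0
  rcases hall (Ideal.span {x}) with h | ⟨I, hI, hIx⟩
  · exact hx0 (Ideal.span_singleton_eq_bot.mp h)
  have hKS : I * J₀ ∈ 𝒮 := hmul I hI J₀ hJ₀S
  have hKK : (I * J₀) * (I * J₀) ∈ 𝒮 := hmul _ hKS _ hKS
  have hxKK : x ∈ (I * J₀) * (I * J₀) := (sInf_le hKK : sInf 𝒮 ≤ _) hx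
  have hKx : I * J₀ ≤ Ideal.span {x} := le_trans Ideal.mul_le_left hIx
  have hxK : x ∈ (I * J₀) * Ideal.span {x} := Ideal.mul_mono_right hKx hxKK
  obtain ⟨k, hk, hkx⟩ := (Ideal.mem_mul_span_singleton (I := I * J₀) (x := x) (y := x)).mp hxK
  have hkm : k ∈ IsLocalRing.maximalIdeal A := hJ₀m ((Ideal.mul_le_right : I * J₀ ≤ J₀) hk)
  have hunit : IsUnit (1 - k) := IsLocalRing.isUnit_one_sub_self_of_mem_nonunits k hkm
  have h0 : (1 - k) * x = 0 := by rw [sub_mul, one_mul, hkx, sub_self]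
  exact hx0 ((hunit.mul_right_eq_zero).mp h0)

end Groth.Agent.S1206
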