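import Groth.Statements.S1207
import Mathlib.RingTheory.LocalRing.MaximalIdeal.Basic
-- import your own Groth.Agent.* helpers here

set_option autoImplicit false
universe u
open FlatMor

namespace Groth.Agent.S1207

/-- Let A be a local ring and I, J ideals of A with J finitely generated, J ≠ A, and I ⊆ J^n for all n ≥
1. Then every prime p not containing J which is maximal among the primes not containing J (a closed
point of Spec A ∖ V(J)) contains I. (The published statement leaves the hypothesis J ≠ A implicit;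
for J = A the assertion fails.) -/
theorem result (A : Type u) [CommRing A] [IsLocalRing A] (I J : Ideal A) (hJ : J.FG) (hJ1 : J ≠ ⊤)
    (hI : ∀ n : ℕ, 1 ≤ n → I ≤ J ^ n) (p : Ideal A) [p.IsPrime] (hp : ¬ J ≤ p)
    (hmax : ∀ (p' : Ideal A), p'.IsPrime → p ≤ p' → ¬ J ≤ p' → p' = p) : I ≤ p := by
  intro x hxI
  by_contra hxp
  have hJrad : J ≤ (p ⊔ Ideal.span {x}).radical := by
    rw [Ideal.radical_eq_sInf]
    refine le_sInf ?_
    rintro q ⟨hq, hqprime⟩
    by_contra hJq
    have hqp := hmax q hqprime (le_trans le_sup_left hq) hJq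
    apply hxp
    rw [← hqp]
    exact hq (Ideal.mem_sup_right (Ideal.mem_span_singleton_self x))
  obtain ⟨N, hN⟩ := Ideal.exists_pow_le_of_le_radical_of_fg hJrad hJ
  have hx : x ∈ J ^ (N + 1) := hI (N + 1) (by omega) hxI
  have hx2 : x ∈ J * (p ⊔ Ideal.span {x}) := by
    rw [pow_succ'] at hx
    exact Ideal.mul_mono_right hN hx
  rw [Ideal.mul_sup] at hx2
  obtain ⟨a, ha, b, hb, hab⟩ := Submodule.mem_sup.mp hx2
  have ha' : a ∈ p := (Ideal.mul_le_right : J * p ≤ p) ha
  obtain ⟨j, hj, hjb⟩ := (Ideal.mem_mul_span_singleton (I := J) (x := b) (y := x)).mp hb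
  have hjm : j ∈ IsLocalRing.maximalIdeal A := IsLocalRing.le_maximalIdeal hJ1 hj
  have hunit : IsUnit (1 - j) := IsLocalRing.isUnit_one_sub_self_of_mem_nonunits j hjm
  have hmem : (1 - j) * x ∈ p := by
    have h' : (1 - j) * x = a := by
      rw [sub_mul, one_mul, hjb]
      calc x - b = (a + b) - b := by rw [hab]
        _ = a := by ring
    rw [h']
    exact ha'
  rcases (Ideal.IsPrime.mem_or_mem ‹p.IsPrime› hmem) with h | h
  · exact (Ideal.IsPrime.ne_top ‹p.IsPrime›) (Ideal.eq_top_of_isUnit_mem _ h hunit)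
  · exact hxp h

end Groth.Agent.S1207
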