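import Groth.Statements.S12078
import Mathlib.RingTheory.Bezout
import Mathlib.Data.Matrix.Mul
import Mathlib.LinearAlgebra.Matrix.Notation
-- import your own Groth.Agent.* helpers here

set_option autoImplicit false
universe u
open CAlg

namespace Groth.Agent.S12078

/-- An elementary divisor domain is Bézout. Here `R` is a domain such that for all `n, m ≥ 1` and every
`n × m` matrix `A` there are invertible matrices `U` (`n × n`) and `V` (`m × m`) with `U * A * V`
zero off the diagonal and with diagonal entries `f 0 ∣ f 1 ∣ f 2 ∣ …`; the conclusion is that every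
finitely generated ideal of `R` is principal. -/
theorem result (R : Type u) [CommRing R] [IsDomain R]
    (hR : ∀ n m : ℕ, 1 ≤ n → 1 ≤ m → ∀ A : Matrix (Fin n) (Fin m) R,
      ∃ (U : (Matrix (Fin n) (Fin n) R)ˣ) (V : (Matrix (Fin m) (Fin m) R)ˣ) (f : ℕ → R),
        (∀ k : ℕ, f k ∣ f (k + 1)) ∧
        ∀ (i : Fin n) (j : Fin m), ((U : Matrix (Fin n) (Fin n) R) * A * (V : Matrix (Fin m) (Fin m) R)) i j =
          if (i : ℕ) = (j : ℕ) then f i else 0) :
    IsBezout R := by
  rw [IsBezout.iff_span_pair_isPrincipal]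
  intro a b
  obtain ⟨U, V, f, -, hD⟩ := hR 1 2 le_rfl (by norm_num) (Matrix.of ![![a, b]])
  have hA' : (Matrix.of ![![a, b]] : Matrix (Fin 1) (Fin 2) R) =
      (↑U⁻¹ : Matrix (Fin 1) (Fin 1) R) *
        ((U : Matrix (Fin 1) (Fin 1) R) * Matrix.of ![![a, b]] * (V : Matrix (Fin 2) (Fin 2) R)) *
        (↑V⁻¹ : Matrix (Fin 2) (Fin 2) R) := by
    rw [← Matrix.mul_assoc, ← Matrix.mul_assoc, Units.inv_mul, Matrix.one_mul, Matrix.mul_assoc,
      Units.mul_inv, Matrix.mul_one]
  have hD00 := hD 0 0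
  have hD01 := hD 0 1
  simp only [Fin.val_zero, Fin.val_one, if_true] at hD00
  simp only [Fin.val_zero, Fin.val_one, zero_ne_one, if_false] at hD01
  have hentry : ∀ j : Fin 2, (Matrix.of ![![a, b]] : Matrix (Fin 1) (Fin 2) R) 0 j =
      (↑U⁻¹ : Matrix (Fin 1) (Fin 1) R) 0 0 * f 0 * (↑V⁻¹ : Matrix (Fin 2) (Fin 2) R) 0 j := by
    intro j
    conv_lhs => rw [hA']
    rw [Matrix.mul_apply, Fin.sum_univ_two, Matrix.mul_apply, Matrix.mul_apply,
      Fin.sum_univ_one, Fin.sum_univ_one, hD00, hD01]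
    simp
  refine ⟨⟨f 0, ?_⟩⟩
  apply le_antisymm
  · rw [Ideal.span_le]
    intro x hx
    simp only [Set.mem_insert_iff, Set.mem_singleton_iff] at hx
    have hmem : ∀ j : Fin 2, (↑U⁻¹ : Matrix (Fin 1) (Fin 1) R) 0 0 * f 0 *
        (↑V⁻¹ : Matrix (Fin 2) (Fin 2) R) 0 j ∈ Submodule.span R {f 0} := by
      intro j
      exact Ideal.mul_mem_right _ _ (Ideal.mul_mem_left _ _ (Ideal.mem_span_singleton_self _))
    rcases hx with rfl | rfl
    · have h0 := hentry 0
      simp only [Matrix.of_apply, Matrix.cons_val_zero] at h0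
      rw [h0]
      exact hmem 0
    · have h1 := hentry 1
      simp only [Matrix.of_apply, Matrix.cons_val_zero, Matrix.cons_val_one] at h1
      rw [h1]
      exact hmem 1
  · show Ideal.span {f 0} ≤ Ideal.span {a, b}
    rw [Ideal.span_singleton_le_iff_mem, ← hD00]
    rw [Matrix.mul_apply, Fin.sum_univ_two, Matrix.mul_apply, Matrix.mul_apply,
      Fin.sum_univ_one, Fin.sum_univ_one]
    simp only [Matrix.of_apply, Matrix.cons_val_zero, Matrix.cons_val_one]
    apply Ideal.add_mem
    · exact Ideal.mul_mem_right _ _ (Ideal.mul_mem_left _ _ (Ideal.subset_span (by simp)))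
    · exact Ideal.mul_mem_right _ _ (Ideal.mul_mem_left _ _ (Ideal.subset_span (by simp)))

end Groth.Agent.S12078
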