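import Groth.Statements.S12079
import Mathlib.Algebra.Module.FinitePresentation
import Mathlib.LinearAlgebra.Contraction
import Mathlib.LinearAlgebra.LeftExact
import Mathlib.RingTheory.Flat.Basic
-- import your own Groth.Agent.* helpers here

set_option autoImplicit false
universe u
open TensorProduct
open CAlg

namespace Groth.Agent.S12079

/-- For a finitely presented `R`-module `M`, any `R`-module `N` and a flat `R`-module `L`, the canonical
map `Hom_R(M, N) ⊗_R L → Hom_R(M, N ⊗_R L)` sending `f ⊗ l` to `m ↦ f m ⊗ l` is bijective. -/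
theorem result (R : Type u) [CommRing R]
    (M N L : Type u) [AddCommGroup M] [Module R M] [AddCommGroup N] [Module R N] [AddCommGroup L] [Module R L]
    [Module.FinitePresentation R M] [Module.Flat R L] :
    Function.Bijective (TensorProduct.rTensorHomToHomRTensor (RingHom.id R) M N L) := by
  classical
  obtain ⟨n, m, f, g, hf, hfg⟩ := Module.FinitePresentation.exists_fin' R M
  have hfree : ∀ k : ℕ, Function.Bijective
      (TensorProduct.rTensorHomToHomRTensor (RingHom.id R) (Fin k → R) N L) := by
    intro k
    rw [← rTensorHomEquivHomRTensor_toLinearMap]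
    exact (rTensorHomEquivHomRTensor R (Fin k → R) N L).bijective
  let α : (M →ₗ[R] N) ⊗[R] L →ₗ[R] ((Fin n → R) →ₗ[R] N) ⊗[R] L :=
    (LinearMap.lcomp R N f).rTensor L
  let β : ((Fin n → R) →ₗ[R] N) ⊗[R] L →ₗ[R] ((Fin m → R) →ₗ[R] N) ⊗[R] L :=
    (LinearMap.lcomp R N g).rTensor L
  let α' : (M →ₗ[R] N ⊗[R] L) →ₗ[R] ((Fin n → R) →ₗ[R] N ⊗[R] L) := LinearMap.lcomp R (N ⊗[R] L) f
  let β' : ((Fin n → R) →ₗ[R] N ⊗[R] L) →ₗ[R] ((Fin m → R) →ₗ[R] N ⊗[R] L) :=
    LinearMap.lcomp R (N ⊗[R] L) g
  have hα : Function.Injective α :=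
    Module.Flat.rTensor_preserves_injective_linearMap _ (LinearMap.lcomp_injective_of_surjective f hf)
  have hαβ : Function.Exact α β :=
    Module.Flat.rTensor_exact L (LinearMap.exact_lcomp_of_exact_of_surjective N hfg hf)
  have hα' : Function.Injective α' := LinearMap.lcomp_injective_of_surjective f hf
  have hαβ' : Function.Exact α' β' := LinearMap.exact_lcomp_of_exact_of_surjective (N ⊗[R] L) hfg hf
  have sq1 : ∀ x, TensorProduct.rTensorHomToHomRTensor (RingHom.id R) (Fin n → R) N L (α x) =
      α' (TensorProduct.rTensorHomToHomRTensor (RingHom.id R) M N L x) := by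
    intro x
    induction x using TensorProduct.induction_on with
    | zero => simp
    | tmul φ l =>
      ext v
      simp [α, α']
    | add x y hx hy => simp only [map_add, hx, hy]
  have sq2 : ∀ x, TensorProduct.rTensorHomToHomRTensor (RingHom.id R) (Fin m → R) N L (β x) =
      β' (TensorProduct.rTensorHomToHomRTensor (RingHom.id R) (Fin n → R) N L x) := by
    intro x
    induction x using TensorProduct.induction_on with
    | zero => simp
    | tmul φ l =>
      ext v
      simp [β, β']
    | add x y hx hy => simp only [map_add, hx, hy]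
  constructor
  · intro x y hxy
    apply hα
    apply (hfree n).1
    rw [sq1, sq1, hxy]
  · intro y
    obtain ⟨z, hz⟩ := (hfree n).2 (α' y)
    have hβz : β z = 0 := by
      apply (hfree m).1
      rw [sq2, hz, map_zero]
      exact hαβ'.apply_apply_eq_zero y
    obtain ⟨x, hx⟩ := (hαβ z).mp hβz
    refine ⟨x, hα' ?_⟩
    rw [← sq1, hx, hz]

end Groth.Agent.S12079
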