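import Groth.Statements.S12207
import Mathlib.Algebra.Module.FinitePresentation
-- import your own Groth.Agent.* helpers here

set_option autoImplicit false
universe u
open CAlg

namespace Groth.Agent.S12207

/-- Let φ : N → M be a linear map between coherent R-modules (finitely generated, every finitely
generated submodule finitely presented). Then the kernel of φ and the cokernel M/φ(N) are coherent
R-modules. -/
theorem result (R : Type u) [CommRing R] {N M : Type u}
    [AddCommGroup N] [Module R N] [AddCommGroup M] [Module R M]
    (hN : Module.Finite R N ∧ ∀ P : Submodule R N, P.FG → Module.FinitePresentation R P)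
    (hM : Module.Finite R M ∧ ∀ P : Submodule R M, P.FG → Module.FinitePresentation R P)
    (φ : N →ₗ[R] M) :
    (Module.Finite R (LinearMap.ker φ) ∧
      ∀ P : Submodule R (LinearMap.ker φ), P.FG → Module.FinitePresentation R P) ∧
    (Module.Finite R (M ⧸ LinearMap.range φ) ∧
      ∀ P : Submodule R (M ⧸ LinearMap.range φ), P.FG → Module.FinitePresentation R P) := by
  obtain ⟨hNf, hNc⟩ := hN
  obtain ⟨hMf, hMc⟩ := hM
  have hrFG : (LinearMap.range φ).FG := by
    rw [LinearMap.range_eq_map]
    exact (Module.Finite.fg_top).map φ
  have hrfp : Module.FinitePresentation R (LinearMap.range φ) := hMc _ hrFG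
  have hkFG : (LinearMap.ker φ).FG := by
    rw [← LinearMap.ker_rangeRestrict]
    exact Module.FinitePresentation.fg_ker _ (LinearMap.surjective_rangeRestrict φ)
  have hsubN : ∀ (S : Submodule R N) (P : Submodule R S), P.FG → Module.FinitePresentation R P := by
    intro S P hP
    have hP' : (P.map S.subtype).FG := hP.map _
    have := hNc _ hP'
    exact Module.FinitePresentation.of_equiv
      (P.equivMapOfInjective S.subtype S.injective_subtype).symm
  refine ⟨⟨Module.Finite.iff_fg.mpr hkFG, hsubN _⟩, ?_, ?_⟩
  · infer_instance
  · intro P hP
    let P' := P.comap (LinearMap.range φ).mkQ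
    have hle : LinearMap.range φ ≤ P' := fun x hx => by
      simp only [P', Submodule.mem_comap, Submodule.mkQ_apply,
        (Submodule.Quotient.mk_eq_zero _).mpr hx]
      exact P.zero_mem
    have hP'FG : P'.FG := by
      apply Submodule.fg_of_fg_map_of_fg_inf_ker (LinearMap.range φ).mkQ
      · rw [Submodule.map_comap_eq_of_surjective (Submodule.mkQ_surjective _)]
        exact hP
      · rw [Submodule.ker_mkQ, inf_eq_right.mpr hle]
        exact hrFG
    have hP'fp : Module.FinitePresentation R P' := hMc _ hP'FG
    let g : P' →ₗ[R] P := (LinearMap.range φ).mkQ.restrict (fun x hx => hx)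
    have hg : Function.Surjective g := by
      rintro ⟨y, hy⟩
      obtain ⟨x, rfl⟩ := Submodule.mkQ_surjective _ y
      exact ⟨⟨x, hy⟩, rfl⟩
    have hker : (LinearMap.ker g).FG := by
      have hk : LinearMap.ker g = (LinearMap.range φ).comap P'.subtype := by
        ext ⟨x, hx⟩
        simp only [g, LinearMap.mem_ker, Submodule.mem_comap, Submodule.subtype_apply]
        rw [← Subtype.coe_inj]
        simp [LinearMap.restrict_apply, Submodule.Quotient.mk_eq_zero]
      rw [hk]
      apply Submodule.fg_of_fg_map_injective P'.subtype P'.injective_subtype
      rw [Submodule.map_comap_eq, Submodule.range_subtype, inf_eq_right.mpr hle]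
      exact hrFG
    exact Module.finitePresentation_of_surjective g hg hker

end Groth.Agent.S12207
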