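import Groth.Statements.S1227
import Mathlib.LinearAlgebra.TensorProduct.RightExactness
import Mathlib.LinearAlgebra.DirectSum.Finsupp
import Mathlib.Algebra.Module.Projective
import Mathlib.RingTheory.Ideal.Maps
-- import your own Groth.Agent.* helpers here

set_option autoImplicit false
universe u
open FlatMor

namespace Groth.Agent.S1227

open TensorProduct in
/-- Let u be a surjective linear map from a projective A-module M to an A-module N. Then there is an
ideal I of A such that for every A-algebra B, the base change u ⊗ 1 from B ⊗ M to B ⊗ N is bijective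
if and only if the image of I in B is zero. -/
theorem result {A : Type u} [CommRing A] {M N : Type u} [AddCommGroup M] [Module A M] [Module.Projective A M]
    [AddCommGroup N] [Module A N] (u : M →ₗ[A] N) (hu : Function.Surjective u) :
    ∃ I : Ideal A, ∀ (B : Type u) [CommRing B] [Algebra A B],
      Function.Bijective (u.baseChange B) ↔ I.map (algebraMap A B) = ⊥ := by
  obtain ⟨s, hs⟩ := Module.projective_def'.mp ‹Module.Projective A M›
  let K := LinearMap.ker u
  let I : Ideal A := Ideal.span {a | ∃ k ∈ K, ∃ m : M, s k m = a}
  refine ⟨I, fun B _ _ => ?_⟩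
  have hbl : ∀ y, u.baseChange B y = u.lTensor B y := fun y => by
    rw [LinearMap.baseChange_eq_ltensor]
  have hsurj : Function.Surjective (u.baseChange B) := by
    intro z
    obtain ⟨y, hy⟩ := LinearMap.lTensor_surjective B hu z
    exact ⟨y, by rw [hbl, hy]⟩
  have hex : Function.Exact (LinearMap.lTensor B K.subtype) (LinearMap.lTensor B u) :=
    lTensor_exact B (LinearMap.exact_subtype_ker_map u) hu
  have hsinj : Function.Injective (LinearMap.lTensor B s) := by
    have hcomp : (LinearMap.lTensor B (Finsupp.linearCombination A id)) ∘ₗ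
        (LinearMap.lTensor B s) = LinearMap.id := by
      rw [← LinearMap.lTensor_comp, hs, LinearMap.lTensor_id]
    exact Function.LeftInverse.injective
      (g := LinearMap.lTensor B (Finsupp.linearCombination A id)) (fun y => by
      rw [← LinearMap.comp_apply, hcomp, LinearMap.id_apply])
  have hk : ∀ k : M, ((1 : B) ⊗ₜ[A] k = 0) ↔ ∀ m : M, algebraMap A B (s k m) = 0 := by
    classical
    intro k
    have e1 : ((1 : B) ⊗ₜ[A] k = 0) ↔ LinearMap.lTensor B s ((1 : B) ⊗ₜ[A] k) = 0 := by
      constructor
      · intro h; rw [h, map_zero]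
      · intro h; apply hsinj; rw [h, map_zero]
    have e2 : ∀ x : B ⊗[A] (M →₀ A), x = 0 ↔ TensorProduct.finsuppScalarRight A A B M x = 0 := by
      intro x
      constructor
      · intro h; rw [h, map_zero]
      · intro h; apply (TensorProduct.finsuppScalarRight A A B M).injective; rw [h, map_zero]
    rw [e1, LinearMap.lTensor_tmul, e2, Finsupp.ext_iff]
    simp only [TensorProduct.finsuppScalarRight_apply_tmul_apply, Finsupp.coe_zero,
      Pi.zero_apply, Algebra.smul_def, mul_one]
  constructor
  · intro hbij
    rw [Ideal.map_span, Ideal.span_eq_bot]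
    rintro _ ⟨a, ⟨k, hkK, m, rfl⟩, rfl⟩
    have h0 : (1 : B) ⊗ₜ[A] k = 0 := by
      apply hbij.1
      rw [map_zero, LinearMap.baseChange_tmul]
      have hk0 : u k = 0 := hkK
      rw [hk0, TensorProduct.tmul_zero]
    exact (hk k).mp h0 m
  · intro hI
    refine ⟨?_, hsurj⟩
    rw [injective_iff_map_eq_zero]
    intro y hy
    rw [hbl] at hy
    obtain ⟨z, rfl⟩ := (hex y).mp hy
    have hone : ∀ k : K, (1 : B) ⊗ₜ[A] (k : M) = 0 := by
      intro k
      refine (hk k).mpr fun m => ?_
      have hmem : s k m ∈ I := Ideal.subset_span ⟨k, k.2, m, rfl⟩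
      have := Ideal.mem_map_of_mem (algebraMap A B) hmem
      rw [hI] at this
      exact (Submodule.mem_bot _).mp this
    have hall : ∀ z' : B ⊗[A] K, LinearMap.lTensor B K.subtype z' = 0 := by
      intro z'
      induction z' using TensorProduct.induction_on with
      | zero => simp
      | tmul b k =>
        rw [LinearMap.lTensor_tmul, Submodule.subtype_apply]
        have e : b ⊗ₜ[A] (k : M) = b • ((1 : B) ⊗ₜ[A] (k : M)) := by
          rw [TensorProduct.smul_tmul', smul_eq_mul, mul_one]
        rw [e, hone k, smul_zero]
      | add z w hz hw => rw [map_add, hz, hw, add_zero]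
    exact hall z

end Groth.Agent.S1227
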