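import Groth.Statements.S12442
-- import your own Groth.Agent.* helpers here

set_option autoImplicit false
universe u
open Mor

namespace Groth.Agent.S12442

open AlgebraicGeometry CategoryTheory

set_option backward.isDefEq.respectTransparency.types false in
theorem key : ∀ {X Y Z : Scheme.{u}} (f : X ⟶ Y) (g : Y ⟶ Z),
    LocallyOfFinitePresentation (f ≫ g) → LocallyOfFiniteType g → LocallyOfFinitePresentation f := by
  intro X Y Z f g h hg
  wlog hZ : IsAffine Z generalizing X Y Z
  · rw [IsZariskiLocalAtTarget.iff_of_iSup_eq_top (P := @LocallyOfFinitePresentation.{u}) _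
      (g.iSup_preimage_eq_top (iSup_affineOpens_eq_top Z))]
    intro U
    have H := IsZariskiLocalAtTarget.restrict h U.1
    rw [morphismRestrict_comp] at H
    exact this _ _ H (IsZariskiLocalAtTarget.restrict hg U.1) inferInstance
  wlog hY : IsAffine Y generalizing X Y
  · rw [IsZariskiLocalAtTarget.iff_of_iSup_eq_top (P := @LocallyOfFinitePresentation.{u}) _
      (iSup_affineOpens_eq_top Y)]
    intro U
    have H := IsZariskiLocalAtSource.comp (P := @LocallyOfFinitePresentation.{u}) h (f ⁻¹ᵁ U.1).ι
    rw [← Category.assoc, ← morphismRestrict_ι, Category.assoc] at H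
    exact this _ (U.1.ι ≫ g) H inferInstance inferInstance
  wlog hX : IsAffine X generalizing X
  · rw [IsZariskiLocalAtSource.iff_of_iSup_eq_top (P := @LocallyOfFinitePresentation.{u}) _
      (iSup_affineOpens_eq_top X)]
    intro U
    have H := IsZariskiLocalAtSource.comp (P := @LocallyOfFinitePresentation.{u}) h U.1.ι
    rw [← Category.assoc] at H
    exact this _ H inferInstance
  rw [HasRingHomProperty.iff_of_isAffine (P := @LocallyOfFinitePresentation.{u})] at h ⊢
  rw [HasRingHomProperty.iff_of_isAffine (P := @LocallyOfFiniteType.{u})] at hg
  rw [Scheme.Hom.comp_appTop, CommRingCat.hom_comp] at h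
  exact RingHom.FinitePresentation.of_comp_finiteType _ h hg

/-- Let f : X → Y and g : Y → S be morphisms of schemes. If the composite X → S is locally of finite
presentation and g is locally of finite type, then f is locally of finite presentation. -/
theorem result {X Y S : Scheme.{u}} (f : X ⟶ Y) (g : Y ⟶ S)
    [LocallyOfFinitePresentation (f ≫ g)] [LocallyOfFiniteType g] :
    LocallyOfFinitePresentation f := by
  exact key f g inferInstance inferInstance

end Groth.Agent.S12442
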