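import Groth.Statements.S12443
-- import your own Groth.Agent.* helpers here

set_option autoImplicit false
universe u
open CategoryTheory TopologicalSpace
open ShSp

namespace Groth.Agent.S12443

set_option backward.isDefEq.respectTransparency false in

/-- Let j : U → X be the inclusion of an open subset (an open embedding) and F a sheaf of sets on U.
Then the counit j⁻¹ j_* F → F is an isomorphism, i.e. j⁻¹ j_* is the identity on sheaves on U. -/
theorem result {U X : TopCat.{u}} (j : U ⟶ X) (hj : Topology.IsOpenEmbedding j)
    (F : U.Sheaf (Type u)) :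
    IsIso ((TopCat.Sheaf.pullbackPushforwardAdjunction (Type u) j).counit.app F) := by
  have hmf : ∀ V : Opens U, (Opens.map j).obj (hj.functor.obj V) = V :=
    fun V => TopologicalSpace.Opens.map_functor_eq' j hj V
  have sub : ∀ {x y : (Opens U)ᵒᵖ} (a b : x ⟶ y), a = b :=
    fun a b => Quiver.Hom.unop_inj (Subsingleton.elim _ _)
  have : (TopCat.Sheaf.pushforward (Type u) j).Faithful := by
    constructor
    intro F G α β h
    apply Sheaf.hom_ext
    ext ⟨V⟩ : 2
    have h1 := congrArg (fun φ => φ.hom.app (Opposite.op (hj.functor.obj V))) h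
    have key : ∀ W : Opens U, W = V → α.hom.app (Opposite.op W) = β.hom.app (Opposite.op W) →
        α.hom.app (Opposite.op V) = β.hom.app (Opposite.op V) := by
      rintro W rfl h; exact h
    exact key _ (hmf V) h1
  have : (TopCat.Sheaf.pushforward (Type u) j).Full := by
    constructor
    intro F G φ
    let e : ∀ V : Opens U, (Opposite.op V : (Opens U)ᵒᵖ) ⟶
        Opposite.op ((Opens.map j).obj (hj.functor.obj V)) :=
      fun V => eqToHom (by rw [hmf V])
    let e' : ∀ V : Opens U, (Opposite.op ((Opens.map j).obj (hj.functor.obj V)) : (Opens U)ᵒᵖ) ⟶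
        Opposite.op V :=
      fun V => eqToHom (by rw [hmf V])
    have nat : ∀ {W₁ W₂ : Opens X} (g : Opposite.op W₁ ⟶ Opposite.op W₂),
        F.obj.map ((Opens.map j).op.map g) ≫ φ.hom.app (Opposite.op W₂) =
          φ.hom.app (Opposite.op W₁) ≫ G.obj.map ((Opens.map j).op.map g) :=
      fun g => φ.hom.naturality g
    let α : F.obj ⟶ G.obj :=
      { app := fun V => F.obj.map (e V.unop) ≫ φ.hom.app (Opposite.op (hj.functor.obj V.unop)) ≫
          G.obj.map (e' V.unop)
        naturality := by
          intro V W f
          have hn := nat (hj.functor.op.map f)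
          rw [← Category.assoc, ← F.obj.map_comp,
            sub (f ≫ e W.unop) (e V.unop ≫ (Opens.map j).op.map (hj.functor.op.map f)),
            F.obj.map_comp, Category.assoc, ← Category.assoc (F.obj.map ((Opens.map j).op.map _)),
            hn]
          simp only [Category.assoc, ← G.obj.map_comp]
          congr 3 }
    refine ⟨ObjectProperty.homMk α, ?_⟩
    apply Sheaf.hom_ext
    ext ⟨W⟩ : 2
    let g : (Opposite.op W : (Opens X)ᵒᵖ) ⟶ Opposite.op (hj.functor.obj ((Opens.map j).obj W)) :=
      (homOfLE (by
        rintro _ ⟨x, hx, rfl⟩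
        exact hx)).op
    have hn := nat g
    show F.obj.map (e ((Opens.map j).obj W)) ≫ φ.hom.app _ ≫ G.obj.map (e' _) = φ.hom.app _
    rw [sub (e ((Opens.map j).obj W)) ((Opens.map j).op.map g), ← Category.assoc, hn,
      Category.assoc, ← G.obj.map_comp]
    rw [sub ((Opens.map j).op.map g ≫ e' ((Opens.map j).obj W)) (𝟙 _), G.obj.map_id]
    exact Category.comp_id _
  infer_instance

end Groth.Agent.S12443
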