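import Groth.Statements.S12454
-- import your own Groth.Agent.* helpers here

set_option autoImplicit false
universe u
open CategoryTheory AlgebraicGeometry
open FlatMor

namespace Groth.Agent.S12454

/-- A composition of formally étale morphisms of schemes is formally étale (formally étale meaning:
unique lifting in every solid commutative square whose left side is a square-zero thickening
Spec(A/I) → Spec(A) of affine schemes). -/
theorem result {X Y Z : Scheme.{u}} (f : X ⟶ Y) (g : Y ⟶ Z)
    (hf : MoreMor.IsFormallyEtaleHom f) (hg : MoreMor.IsFormallyEtaleHom g) :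
    MoreMor.IsFormallyEtaleHom (f ≫ g) := by
  intro A _ I hI a b hab
  obtain ⟨l₁, ⟨hl₁a, hl₁b⟩, hl₁u⟩ := hg A I hI (a ≫ f) b (by rw [hab, Category.assoc])
  obtain ⟨l, ⟨hla, hlb⟩, hlu⟩ := hf A I hI a l₁ hl₁a
  refine ⟨l, ⟨hla, by rw [← Category.assoc, hlb, hl₁b]⟩, ?_⟩
  rintro l' ⟨hl'a, hl'b⟩
  have h1 : l' ≫ f = l₁ := hl₁u (l' ≫ f) ⟨by rw [← Category.assoc, hl'a], by rw [Category.assoc, hl'b]⟩
  exact hlu l' ⟨hl'a, h1⟩

end Groth.Agent.S12454
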