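import Groth.Statements.S12455
-- import your own Groth.Agent.* helpers here

set_option autoImplicit false
universe u
open CategoryTheory AlgebraicGeometry
open FlatMor

namespace Groth.Agent.S12455

/-- A base change of a formally étale morphism of schemes is formally étale: if the square with sides g'
: X' → X, f' : X' → S', f : X → S, g : S' → S is cartesian and f is formally étale (unique lifting
against square-zero thickenings of affine schemes), then so is f'. -/
theorem result {X S X' S' : Scheme.{u}} (f : X ⟶ S) (g : S' ⟶ S) (g' : X' ⟶ X) (f' : X' ⟶ S')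
    (hsq : IsPullback g' f' f g) (hf : MoreMor.IsFormallyEtaleHom f) :
    MoreMor.IsFormallyEtaleHom f' := by
  intro A _ I hI a b hab
  have hw : Spec.map (CommRingCat.ofHom (Ideal.Quotient.mk I)) ≫ b ≫ g = (a ≫ g') ≫ f := by
    rw [← Category.assoc, hab, Category.assoc, Category.assoc, hsq.w]
  obtain ⟨l₀, ⟨hl₀a, hl₀b⟩, hl₀u⟩ := hf A I hI (a ≫ g') (b ≫ g) hw
  refine ⟨hsq.lift l₀ b hl₀b, ⟨?_, hsq.lift_snd _ _ _⟩, ?_⟩
  · apply hsq.hom_ext
    · rw [Category.assoc, hsq.lift_fst, hl₀a]
    · rw [Category.assoc, hsq.lift_snd, hab]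
  · rintro l' ⟨hl'a, hl'b⟩
    have h1 : l' ≫ g' = l₀ := hl₀u (l' ≫ g')
      ⟨by rw [← Category.assoc, hl'a], by rw [Category.assoc, hsq.w, ← Category.assoc, hl'b]⟩
    apply hsq.hom_ext
    · rw [hsq.lift_fst, h1]
    · rw [hsq.lift_snd, hl'b]

end Groth.Agent.S12455
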