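import Groth.Statements.S12711
import Mathlib.Tactic.LinearCombination
-- import your own Groth.Agent.* helpers here

set_option autoImplicit false
universe u v
open CategoryTheory
open ArtFun ArtFun.Art

namespace Groth.Agent.S12711

/-- If B together with p₁ : B → A₁ and p₂ : B → A₂ is the fibre product A₁ ×_A A₂ in the category of
Artinian local Λ-algebras with residue field k, and f₂ : A₂ → A is a small extension, then the
projection p₁ : B → A₁ is a small extension. -/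
theorem result {Λ : Type u} {k : Type u} [CommRing Λ] [Field k] [Algebra Λ k]
    [IsNoetherianRing Λ] [Module.Finite Λ k]
    {B A A₁ A₂ : ArtFun.Art Λ k} {p₁ : B ⟶ A₁} {p₂ : B ⟶ A₂} {f₁ : A₁ ⟶ A} {f₂ : A₂ ⟶ A}
    (h : ArtFun.Art.IsFibreProd p₁ p₂ f₁ f₂) (hf₂ : ArtFun.Art.IsSmallExt f₂) :
    ArtFun.Art.IsSmallExt p₁ := by
  obtain ⟨hsurj₂, hne₂, ⟨⟨t, ht⟩⟩, hm₂⟩ := hf₂
  have kerp₁ : ∀ b : B, b ∈ RingHom.ker p₁.toAlgHom ↔ p₁ b = 0 := fun b => RingHom.mem_ker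
  have kerf₂ : ∀ a : A₂, a ∈ RingHom.ker f₂.toAlgHom ↔ f₂ a = 0 := fun a => RingHom.mem_ker
  have map0 : ∀ {X Y : ArtFun.Art Λ k} (g : X ⟶ Y), g 0 = 0 := fun g => map_zero g.toAlgHom
  have hmul : ∀ {X Y : ArtFun.Art Λ k} (g : X ⟶ Y) (x y : X), g (x * y) = g x * g y :=
    fun g x y => map_mul g.toAlgHom x y
  have hsub : ∀ {X Y : ArtFun.Art Λ k} (g : X ⟶ Y) (x y : X), g (x - y) = g x - g y :=
    fun g x y => map_sub g.toAlgHom x y
  have lift : ∀ a : A₂, f₂ a = 0 → ∃ b : B, p₁ b = 0 ∧ p₂ b = a := by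
    intro a ha
    exact h.surj 0 a (by rw [map0, ha])
  have down : ∀ b : B, p₁ b = 0 → f₂ (p₂ b) = 0 := by
    intro b hb
    rw [← h.w_apply, hb, map0]
  have inj : ∀ b b' : B, p₁ b = p₁ b' → p₂ b = p₂ b' → b = b' := h.inj
  have hmt : ∀ x : A₂, x ∈ IsLocalRing.maximalIdeal A₂ → ∀ y : A₂, f₂ y = 0 → x * y = 0 := by
    intro x hx y hy
    have : x * y ∈ IsLocalRing.maximalIdeal A₂ * RingHom.ker f₂.toAlgHom :=
      Ideal.mul_mem_mul hx ((kerf₂ y).2 hy)
    rw [hm₂] at this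
    exact (Ideal.mem_bot).1 this
  refine ⟨?_, ?_, ?_, ?_⟩
  · intro a₁
    obtain ⟨a₂, ha₂⟩ := hsurj₂ (f₁ a₁)
    obtain ⟨b, hb, -⟩ := h.surj a₁ a₂ ha₂.symm
    exact ⟨b, hb⟩
  · intro hbot
    apply hne₂
    rw [eq_bot_iff]
    intro a ha
    rw [kerf₂] at ha
    obtain ⟨b, hb1, hb2⟩ := lift a ha
    have hb : b ∈ RingHom.ker p₁.toAlgHom := (kerp₁ b).2 hb1
    rw [hbot, Ideal.mem_bot] at hb
    rw [← hb2, hb, map0]
    exact Submodule.zero_mem _
  · have ht0 : f₂ t = 0 := (kerf₂ t).1 (by rw [ht]; exact Submodule.mem_span_singleton_self t)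
    obtain ⟨b₀, hb₀1, hb₀2⟩ := lift t ht0
    refine ⟨⟨b₀, ?_⟩⟩
    apply le_antisymm
    · intro b hb
      rw [kerp₁] at hb
      have hd := down b hb
      have hmem : p₂ b ∈ Submodule.span A₂ {t} := by rw [← ht]; exact (kerf₂ _).2 hd
      obtain ⟨c, hc⟩ := Submodule.mem_span_singleton.1 hmem
      obtain ⟨c', hc'⟩ := B.res_surjective (A₂.res c)
      have hdiff : p₂ c' - c ∈ IsLocalRing.maximalIdeal A₂ := by
        rw [ArtFun.Art.mem_maximalIdeal_iff, map_sub, ArtFun.Art.res_app, hc', sub_self]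
      have h3 : (p₂ c' - c) * t = 0 := hmt _ hdiff t ht0
      have hbeq : b = c' * b₀ := by
        apply inj
        · rw [hmul, hb₀1, mul_zero, hb]
        · rw [hmul, hb₀2, ← hc, smul_eq_mul]
          linear_combination (-1 : A₂) * h3
      rw [hbeq]
      exact Submodule.mem_span_singleton.2 ⟨c', rfl⟩
    · rw [Submodule.span_le, Set.singleton_subset_iff]
      exact (kerp₁ b₀).2 hb₀1
  · rw [eq_bot_iff, Ideal.mul_le]
    intro x hx b hb
    rw [kerp₁] at hb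
    rw [Ideal.mem_bot]
    apply inj
    · rw [hmul, hb, mul_zero, map0]
    · rw [hmul, map0]
      apply hmt
      · rw [ArtFun.Art.mem_maximalIdeal_iff, ArtFun.Art.res_app, ← ArtFun.Art.mem_maximalIdeal_iff]
        exact hx
      · exact down b hb

end Groth.Agent.S12711
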