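import Groth.Statements.S12713
-- import your own Groth.Agent.* helpers here

set_option autoImplicit false
universe u v
open CategoryTheory
open ArtFun ArtFun.Art

namespace Groth.Agent.S12713

/-- A small extension f : B → A in the category of Artinian local Λ-algebras with residue field k is not
an essential surjection (some morphism g : C → B is non-surjective although the composite C → A is
surjective) if and only if f has a section A → B in the category. -/
theorem result {Λ : Type u} {k : Type u} [CommRing Λ] [Field k] [Algebra Λ k]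
    [IsNoetherianRing Λ] [Module.Finite Λ k]
    {A B : ArtFun.Art Λ k} (f : B ⟶ A) (hf : ArtFun.Art.IsSmallExt f) :
    (∃ (C : ArtFun.Art Λ k) (g : C ⟶ B), Function.Surjective (g ≫ f) ∧ ¬ Function.Surjective g) ↔
      ∃ s : A ⟶ B, s ≫ f = 𝟙 A := by
  obtain ⟨hsurj, hne, hprinc, hm⟩ := hf
  obtain ⟨t, ht⟩ := hprinc.principal
  have hfres : ∀ b : B, A.res (f.toAlgHom b) = B.res b := fun b => by
    rw [← f.res_comp]; rfl
  have hkerm : ∀ y, y ∈ RingHom.ker f.toAlgHom → y ∈ IsLocalRing.maximalIdeal B := by
    intro y hy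
    rw [ArtFun.Art.mem_maximalIdeal_iff, ← hfres, RingHom.mem_ker.mp hy, map_zero]
  have hmk : ∀ x y, x ∈ IsLocalRing.maximalIdeal B → y ∈ RingHom.ker f.toAlgHom → x * y = 0 := by
    intro x y hx hy
    have : x * y ∈ IsLocalRing.maximalIdeal B * RingHom.ker f.toAlgHom := Ideal.mul_mem_mul hx hy
    rw [hm] at this
    exact this
  have htker : t ∈ RingHom.ker f.toAlgHom := by
    rw [ht]; exact Submodule.mem_span_singleton_self t
  have hmemker : ∀ x, x ∈ RingHom.ker f.toAlgHom ↔ ∃ y, x = t * y := by
    intro x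
    rw [ht, Ideal.mem_span_singleton']
    constructor
    · rintro ⟨y, rfl⟩; exact ⟨y, mul_comm _ _⟩
    · rintro ⟨y, rfl⟩; exact ⟨y, mul_comm _ _⟩
  constructor
  · rintro ⟨C, g, hgs, hng⟩
    have hdec : ∀ b : B, ∃ c : C, b - g.toAlgHom c ∈ RingHom.ker f.toAlgHom := by
      intro b
      obtain ⟨c, hc⟩ := hgs (f.toAlgHom b)
      refine ⟨c, ?_⟩
      rw [RingHom.mem_ker, map_sub]
      change f.toAlgHom b - f.toAlgHom (g.toAlgHom c) = 0
      rw [show f.toAlgHom (g.toAlgHom c) = f.toAlgHom b from hc, sub_self]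
    -- t * y = t * g c_y
    have htmul : ∀ y : B, ∃ c : C, t * y = t * g.toAlgHom c := by
      intro y
      obtain ⟨c, hc⟩ := hdec y
      refine ⟨c, ?_⟩
      have h0 : t * (y - g.toAlgHom c) = 0 := hmk t _ (hkerm t htker) hc
      rw [mul_sub, sub_eq_zero] at h0
      exact h0
    have htnot : t ∉ Set.range g.toAlgHom := by
      rintro ⟨c0, hc0⟩
      apply hng
      intro b
      obtain ⟨c, hc⟩ := hdec b
      obtain ⟨y, hy⟩ := (hmemker _).mp hc
      obtain ⟨cy, hcy⟩ := htmul y
      refine ⟨c + c0 * cy, ?_⟩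
      show g.toAlgHom (c + c0 * cy) = b
      rw [map_add, map_mul, hc0, ← hcy, ← hy]
      ring
    have hinter : ∀ c : C, g.toAlgHom c ∈ RingHom.ker f.toAlgHom → g.toAlgHom c = 0 := by
      intro c hc
      by_contra hx0
      obtain ⟨y, hy⟩ := (hmemker _).mp hc
      obtain ⟨cy, hcy⟩ := htmul y
      rw [hcy] at hy
      have hcym : cy ∉ IsLocalRing.maximalIdeal C := by
        intro hcm
        have hgm : g.toAlgHom cy ∈ IsLocalRing.maximalIdeal B := by
          rw [ArtFun.Art.mem_maximalIdeal_iff]
          rw [ArtFun.Art.mem_maximalIdeal_iff] at hcm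
          rw [← hcm, ← g.res_comp]; rfl
        apply hx0
        rw [hy, mul_comm]
        exact hmk _ _ hgm htker
      have hu : IsUnit cy := by
        by_contra hnu
        exact hcym ((IsLocalRing.mem_maximalIdeal cy).mpr hnu)
      apply htnot
      refine ⟨c * ↑(hu.unit⁻¹), ?_⟩
      rw [map_mul, hy, mul_assoc, ← map_mul]
      simp
    have hinjr : ∀ c1 c2 : C, f.toAlgHom (g.toAlgHom c1) = f.toAlgHom (g.toAlgHom c2) →
        g.toAlgHom c1 = g.toAlgHom c2 := by
      intro c1 c2 h12
      have := hinter (c1 - c2) (by rw [RingHom.mem_ker, map_sub, map_sub, h12, sub_self])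
      rw [map_sub, sub_eq_zero] at this
      exact this
    choose σ hσ using hgs
    have hσ' : ∀ a, f.toAlgHom (g.toAlgHom (σ a)) = a := hσ
    let s : A →ₐ[Λ] B :=
      { toFun := fun a => g.toAlgHom (σ a)
        map_one' := by
          rw [← map_one g.toAlgHom]
          exact hinjr _ _ (by rw [hσ', map_one, map_one])
        map_mul' := fun a1 a2 => by
          rw [← map_mul g.toAlgHom]
          exact hinjr _ _ (by rw [hσ', map_mul, map_mul, hσ', hσ'])
        map_zero' := by
          rw [← map_zero g.toAlgHom]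
          exact hinjr _ _ (by rw [hσ', map_zero, map_zero])
        map_add' := fun a1 a2 => by
          rw [← map_add g.toAlgHom]
          exact hinjr _ _ (by rw [hσ', map_add, map_add, hσ', hσ'])
        commutes' := fun r => by
          rw [← AlgHom.commutes g.toAlgHom r]
          exact hinjr _ _ (by rw [hσ', AlgHom.commutes, AlgHom.commutes]) }
    refine ⟨⟨s, ?_⟩, ?_⟩
    · apply AlgHom.ext
      intro a
      show B.res (g.toAlgHom (σ a)) = A.res a
      rw [← hfres, hσ']
    · apply ArtFun.Art.hom_ext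
      apply AlgHom.ext
      intro a
      exact hσ' a
  · rintro ⟨s, hs⟩
    have hsa : ∀ a, f.toAlgHom (s.toAlgHom a) = a := fun a =>
      congrArg (fun φ => ArtFun.Art.Hom.toAlgHom φ a) hs
    refine ⟨A, s, ?_, ?_⟩
    · intro a
      exact ⟨a, hsa a⟩
    · intro hss
      apply hne
      rw [← RingHom.injective_iff_ker_eq_bot]
      intro x y hxy
      obtain ⟨x', rfl⟩ := hss x
      obtain ⟨y', rfl⟩ := hss y
      have := congrArg s.toAlgHom (show x' = y' by
        have h1 := hsa x'; have h2 := hsa y'
        change f.toAlgHom (s.toAlgHom x') = f.toAlgHom (s.toAlgHom y') at hxy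
        rw [h1, h2] at hxy; exact hxy)
      exact this

end Groth.Agent.S12713
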