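import Groth.Statements.S12727
-- import your own Groth.Agent.* helpers here

set_option autoImplicit false
universe u v
open CategoryTheory
open ArtFun

namespace Groth.Agent.S12727

/-- For functors, a functor on Artinian local Λ-algebras with residue field k with F(k) a point which
admits a versal family (over a complete local Noetherian ring with residue field k) satisfies
condition (S1). -/
theorem result {Λ : Type u} {k : Type u} [CommRing Λ] [Field k] [Algebra Λ k]
    [IsNoetherianRing Λ] [Module.Finite Λ k]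
    (F : ArtFun.Art Λ k ⥤ Type v) (h0 : ArtFun.H0 F) (hv : ArtFun.HasVersal F) :
    ArtFun.S1 F := by
  obtain ⟨V⟩ := hv
  intro B A A' A'' p' p'' f' f'' h hf'' q
  obtain ⟨⟨x', x''⟩, hx⟩ := q
  have map0 : ∀ {X Y : ArtFun.Art Λ k} (g : X ⟶ Y), g 0 = 0 := fun g => map_zero g.toAlgHom
  have map1 : ∀ {X Y : ArtFun.Art Λ k} (g : X ⟶ Y), g 1 = 1 := fun g => map_one g.toAlgHom
  have hmul : ∀ {X Y : ArtFun.Art Λ k} (g : X ⟶ Y) (x y : X), g (x * y) = g x * g y :=
    fun g x y => map_mul g.toAlgHom x y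
  have hadd : ∀ {X Y : ArtFun.Art Λ k} (g : X ⟶ Y) (x y : X), g (x + y) = g x + g y :=
    fun g x y => map_add g.toAlgHom x y
  have halg : ∀ {X Y : ArtFun.Art Λ k} (g : X ⟶ Y) (c : Λ), g (algebraMap Λ X c) = algebraMap Λ Y c :=
    fun g c => g.toAlgHom.commutes c
  -- step 1: lift x'
  let φ₀ : ArtFun.HomSet V.ring.carrier V.ring.res (ArtFun.Art.base Λ k) :=
    ⟨V.ring.res, AlgHom.id_comp _⟩
  obtain ⟨ψ', -, hψ'⟩ := V.versal (ArtFun.Art.toBase A') A'.res_surjective φ₀ x'
    (@Subsingleton.elim _ h0.2 _ _)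
  -- step 2: lift x''
  have hφ : F.map f'' x'' = V.family.app A (ArtFun.HomSet.map f' ψ') := by
    rw [V.family.natural, hψ', hx]
  obtain ⟨ψ'', hψ''1, hψ''2⟩ := V.versal f'' hf'' (ArtFun.HomSet.map f' ψ') x'' hφ
  have hcomp : ∀ r, f' (ψ'.1 r) = f'' (ψ''.1 r) := by
    intro r
    have := congrArg (fun t : ArtFun.HomSet V.ring.carrier V.ring.res A => t.1 r) hψ''1
    exact this.symm
  -- step 3: the induced map into B
  let g : V.ring.carrier → B := fun r => (h.surj (ψ'.1 r) (ψ''.1 r) (hcomp r)).choose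
  have hg1 : ∀ r, p' (g r) = ψ'.1 r := fun r => (h.surj _ _ (hcomp r)).choose_spec.1
  have hg2 : ∀ r, p'' (g r) = ψ''.1 r := fun r => (h.surj _ _ (hcomp r)).choose_spec.2
  let gA : V.ring.carrier →ₐ[Λ] B :=
    { toFun := g
      map_one' := h.inj _ _ (by rw [hg1, map_one, map1]) (by rw [hg2, map_one, map1])
      map_mul' := fun x y => h.inj _ _ (by rw [hg1, map_mul, hmul, hg1, hg1])
        (by rw [hg2, map_mul, hmul, hg2, hg2])
      map_zero' := h.inj _ _ (by rw [hg1, map_zero, map0]) (by rw [hg2, map_zero, map0])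
      map_add' := fun x y => h.inj _ _ (by rw [hg1, map_add, hadd, hg1, hg1])
        (by rw [hg2, map_add, hadd, hg2, hg2])
      commutes' := fun c => h.inj _ _ (by rw [hg1, AlgHom.commutes, halg])
        (by rw [hg2, AlgHom.commutes, halg]) }
  have hres : B.res.comp gA = V.ring.res := by
    apply AlgHom.ext
    intro r
    change B.res (g r) = V.ring.res r
    rw [← ArtFun.Art.res_app p' (g r), hg1]
    exact congrArg (fun t : V.ring.carrier →ₐ[Λ] k => t r) ψ'.2
  let ψ : ArtFun.HomSet V.ring.carrier V.ring.res B := ⟨gA, hres⟩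
  have hψ1 : ArtFun.HomSet.map p' ψ = ψ' := Subtype.ext (AlgHom.ext fun r => hg1 r)
  have hψ2 : ArtFun.HomSet.map p'' ψ = ψ'' := Subtype.ext (AlgHom.ext fun r => hg2 r)
  refine ⟨V.family.app B ψ, ?_⟩
  apply Subtype.ext
  refine Prod.ext ?_ ?_
  · change F.map p' (V.family.app B ψ) = x'
    rw [← V.family.natural, hψ1, hψ']
  · change F.map p'' (V.family.app B ψ) = x''
    rw [← V.family.natural, hψ2, hψ''2]

end Groth.Agent.S12727
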