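import Groth.Statements.S12736
-- import your own Groth.Agent.* helpers here

set_option autoImplicit false
universe u v
open CategoryTheory
open ArtFun

namespace Groth.Agent.S12736

/-- For functors, let φ : F → G be a morphism of functors on Artinian local Λ-algebras with residue
field k whose values at k are points and which satisfy (S2), with the natural vector space
structures on their tangent spaces. Then the differential dφ : F(k[ε]) → G(k[ε]) is k-linear. -/
theorem result {Λ : Type u} {k : Type u} [CommRing Λ] [Field k] [Algebra Λ k]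
    [IsNoetherianRing Λ] [Module.Finite Λ k]
    {F G : ArtFun.Art Λ k ⥤ Type v} [ArtFun.TangentStr F] [ArtFun.TangentStr G]
    (hF0 : ArtFun.H0 F) (hF2 : ArtFun.Heps F) (hG0 : ArtFun.H0 G) (hG2 : ArtFun.Heps G) (φ : F ⟶ G) :
    ∃ f : ArtFun.TangentSpace F →ₗ[k] ArtFun.TangentSpace G, ⇑f = ArtFun.TangentSpace.map φ := by
  refine ⟨{ toFun := ArtFun.TangentSpace.map φ, map_add' := ?_, map_smul' := ?_ }, rfl⟩
  · intro x y
    have hsurj := (hF2 ArtFun.Art.pr₁ ArtFun.Art.pr₂ ArtFun.Art.isFibreProd_dual2).2
    obtain ⟨z, hz⟩ := hsurj ⟨(x, y), @Subsingleton.elim _ hF0.2 _ _⟩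
    have hz1 : F.map ArtFun.Art.pr₁ z = x := congrArg (fun q => q.1.1) hz
    have hz2 : F.map ArtFun.Art.pr₂ z = y := congrArg (fun q => q.1.2) hz
    have e1 : (x + y : ArtFun.TangentSpace F) = F.map ArtFun.Art.plus z := by
      rw [← hz1, ← hz2]; exact ArtFun.TangentStr.add_eq z
    have e2 : (ArtFun.TangentSpace.map φ x + ArtFun.TangentSpace.map φ y : ArtFun.TangentSpace G) =
        G.map ArtFun.Art.plus (φ.app _ z) := by
      rw [← hz1, ← hz2]
      have := ArtFun.TangentStr.add_eq (F := G) (φ.app _ z)
      rw [← NatTrans.naturality_apply, ← NatTrans.naturality_apply] at this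
      exact this
    rw [e1, e2]
    exact NatTrans.naturality_apply φ ArtFun.Art.plus z
  · intro c x
    have e1 : (c • x : ArtFun.TangentSpace F) = F.map (ArtFun.Art.scale c) x :=
      ArtFun.TangentStr.smul_eq c x
    have e2 : (c • ArtFun.TangentSpace.map φ x : ArtFun.TangentSpace G) =
        G.map (ArtFun.Art.scale c) (φ.app _ x) := ArtFun.TangentStr.smul_eq c (φ.app _ x)
    simp only [RingHom.id_apply]
    rw [e1, e2]
    exact NatTrans.naturality_apply φ (ArtFun.Art.scale c) x

end Groth.Agent.S12736
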