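import Groth.Statements.S12744
-- import your own Groth.Agent.* helpers here

set_option autoImplicit false
universe u v
open CategoryTheory
open ArtFun

namespace Groth.Agent.S12744

/-- For functors, if η : F → G is a smooth morphism of functors on Artinian local Λ-algebras with
residue field k and F(k) → G(k) is surjective, then for every complete local Noetherian R with
residue field k the induced map on formal elements over R (compatible systems of elements over the
truncations R/m^(n+1)) is surjective. -/
theorem result {Λ : Type u} {k : Type u} [CommRing Λ] [Field k] [Algebra Λ k]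
    [IsNoetherianRing Λ] [Module.Finite Λ k]
    {F G : ArtFun.Art Λ k ⥤ Type v} (η : F ⟶ G) (hη : ArtFun.IsSmooth η)
    (h0 : Function.Surjective (η.app (ArtFun.Art.base Λ k))) (R : ArtFun.CRing Λ k) :
    Function.Surjective (fun u : ArtFun.FormalElt F R => u.map η) := by
  intro v
  have hsurjA : ∀ A : ArtFun.Art Λ k, Function.Surjective (η.app A) := by
    intro A y
    obtain ⟨x₀, hx₀⟩ := h0 (G.map (ArtFun.Art.toBase A) y)
    obtain ⟨z, hz⟩ := hη (ArtFun.Art.toBase A) A.res_surjective ⟨(x₀, y), hx₀⟩
    exact ⟨z, congrArg (fun q => q.1.2) hz⟩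
  have hμ : ∀ n, Function.Surjective (R.truncMap n) := by
    intro n y
    obtain ⟨a, rfl⟩ := Ideal.Quotient.mk_surjective (I := R.mpow n) y
    exact ⟨Ideal.Quotient.mk _ a, rfl⟩
  have step : ∀ n (x : {x : F.obj (R.trunc n) // η.app _ x = v.elt n}),
      ∃ y : {y : F.obj (R.trunc (n + 1)) // η.app _ y = v.elt (n + 1)},
        F.map (R.truncMap n) y.1 = x.1 := by
    intro n x
    obtain ⟨w, hw⟩ := hη (R.truncMap n) (hμ n) ⟨(x.1, v.elt (n + 1)), by rw [x.2, v.compat]⟩
    exact ⟨⟨w, congrArg (fun q => q.1.2) hw⟩, congrArg (fun q => q.1.1) hw⟩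
  choose next hnext using step
  let s : ∀ n, {x : F.obj (R.trunc n) // η.app _ x = v.elt n} := fun n =>
    Nat.rec (motive := fun n => {x : F.obj (R.trunc n) // η.app _ x = v.elt n})
      ⟨(hsurjA _ (v.elt 0)).choose, (hsurjA _ (v.elt 0)).choose_spec⟩ (fun n x => next n x) n
  refine ⟨⟨fun n => (s n).1, fun n => hnext n (s n)⟩, ?_⟩
  apply ArtFun.FormalElt.ext'
  intro n
  exact (s n).2

end Groth.Agent.S12744
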