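import Groth.Statements.S12745
-- import your own Groth.Agent.* helpers here

set_option autoImplicit false
universe u v
open CategoryTheory
open ArtFun

namespace Groth.Agent.S12745

/-- For functors, let F satisfy (S2), let B = A ×_k k[ε] (with projections p', p'') in the category of
Artinian local Λ-algebras with residue field k, and let y ∈ F(B) have images x ∈ F(A) and x_ε ∈
F(k[ε]). Then x maps to y along some section A → B of p' if and only if x maps to x_ε along some
morphism A → k[ε]. -/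
theorem result {Λ : Type u} {k : Type u} [CommRing Λ] [Field k] [Algebra Λ k]
    [IsNoetherianRing Λ] [Module.Finite Λ k]
    {F : ArtFun.Art Λ k ⥤ Type v} (h2 : ArtFun.Heps F)
    {B A : ArtFun.Art Λ k} (p' : B ⟶ A) (p'' : B ⟶ ArtFun.Art.dual Λ k)
    (h : ArtFun.Art.IsFibreProd p' p'' (ArtFun.Art.toBase A) (ArtFun.Art.toBase (ArtFun.Art.dual Λ k)))
    (y : F.obj B) :
    (∃ σ : A ⟶ B, σ ≫ p' = 𝟙 A ∧ F.map σ (F.map p' y) = y) ↔
      ∃ τ : A ⟶ ArtFun.Art.dual Λ k, F.map τ (F.map p' y) = F.map p'' y := by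
  constructor
  · rintro ⟨σ, hσ1, hσ2⟩
    refine ⟨σ ≫ p'', ?_⟩
    rw [FunctorToTypes.map_comp_apply, hσ2]
  · rintro ⟨τ, hτ⟩
    have map0 : ∀ {X Y : ArtFun.Art Λ k} (g : X ⟶ Y), g 0 = 0 := fun g => map_zero g.toAlgHom
    have map1 : ∀ {X Y : ArtFun.Art Λ k} (g : X ⟶ Y), g 1 = 1 := fun g => map_one g.toAlgHom
    have hmul : ∀ {X Y : ArtFun.Art Λ k} (g : X ⟶ Y) (x y : X), g (x * y) = g x * g y :=
      fun g x y => map_mul g.toAlgHom x y
    have hadd : ∀ {X Y : ArtFun.Art Λ k} (g : X ⟶ Y) (x y : X), g (x + y) = g x + g y :=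
      fun g x y => map_add g.toAlgHom x y
    have halg : ∀ {X Y : ArtFun.Art Λ k} (g : X ⟶ Y) (c : Λ),
        g (algebraMap Λ X c) = algebraMap Λ Y c := fun g c => g.toAlgHom.commutes c
    have hc : ∀ a : A, (ArtFun.Art.toBase A) a =
        (ArtFun.Art.toBase (ArtFun.Art.dual Λ k)) (τ a) := by
      intro a
      exact (ArtFun.Art.res_app τ a).symm
    let s : A → B := fun a => (h.surj a (τ a) (hc a)).choose
    have hs1 : ∀ a, p' (s a) = a := fun a => (h.surj _ _ (hc a)).choose_spec.1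
    have hs2 : ∀ a, p'' (s a) = τ a := fun a => (h.surj _ _ (hc a)).choose_spec.2
    let sA : A →ₐ[Λ] B :=
      { toFun := s
        map_one' := h.inj _ _ (by rw [hs1, map1]) (by rw [hs2, map1, map1])
        map_mul' := fun x y => h.inj _ _ (by rw [hs1, hmul, hs1, hs1])
          (by rw [hs2, hmul, hmul, hs2, hs2])
        map_zero' := h.inj _ _ (by rw [hs1, map0]) (by rw [hs2, map0, map0])
        map_add' := fun x y => h.inj _ _ (by rw [hs1, hadd, hs1, hs1])
          (by rw [hs2, hadd, hadd, hs2, hs2])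
        commutes' := fun c => h.inj _ _ (by rw [hs1, halg]) (by rw [hs2, halg, halg]) }
    have hres : B.res.comp sA = A.res := by
      apply AlgHom.ext; intro a
      change B.res (s a) = A.res a
      rw [← ArtFun.Art.res_app p' (s a), hs1]
    let σ : A ⟶ B := ⟨sA, hres⟩
    have hσ1 : σ ≫ p' = 𝟙 A := by
      apply ArtFun.Art.hom_ext; apply AlgHom.ext; intro a; exact hs1 a
    have hσ2 : σ ≫ p'' = τ := by
      apply ArtFun.Art.hom_ext; apply AlgHom.ext; intro a; exact hs2 a
    refine ⟨σ, hσ1, ?_⟩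
    apply (h2 p' p'' h).1
    apply Subtype.ext
    refine Prod.ext ?_ ?_
    · change F.map p' (F.map σ (F.map p' y)) = F.map p' y
      rw [← FunctorToTypes.map_comp_apply, hσ1, FunctorToTypes.map_id_apply]
    · change F.map p'' (F.map σ (F.map p' y)) = F.map p'' y
      rw [← FunctorToTypes.map_comp_apply, hσ2, hτ]

end Groth.Agent.S12745
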