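import Groth.Statements.S12746
import Mathlib.CategoryTheory.Limits.Shapes.Pullback.IsPullback.Basic
import Mathlib.CategoryTheory.Limits.Types.Pullbacks
import Mathlib.CategoryTheory.Limits.FunctorCategory.Basic
import Mathlib.CategoryTheory.Limits.Preserves.Shapes.Pullbacks
-- import your own Groth.Agent.* helpers here

set_option autoImplicit false
universe u v
open CategoryTheory
open ArtFun

namespace Groth.Agent.S12746

/-- For functors, if F, G, H are functors on Artinian local Λ-algebras with residue field k satisfying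
(RS) and f : H → F, g : G → F are morphisms, then the fibre product functor H ×_F G satisfies (RS). -/
theorem result {Λ : Type u} {k : Type u} [CommRing Λ] [Field k] [Algebra Λ k]
    [IsNoetherianRing Λ] [Module.Finite Λ k]
    {F G H : ArtFun.Art Λ k ⥤ Type v} (f : H ⟶ F) (g : G ⟶ F)
    (hF : (∀ ⦃B A A' A'' : ArtFun.Art Λ k⦄ (p' : B ⟶ A') (p'' : B ⟶ A'') (f' : A' ⟶ A) (f'' : A'' ⟶ A)
        (h : ArtFun.Art.IsFibreProd p' p'' f' f''), Function.Surjective f'' → Function.Bijective (ArtFun.cmp F h))) (hG : (∀ ⦃B A A' A'' : ArtFun.Art Λ k⦄ (p' : B ⟶ A') (p'' : B ⟶ A'') (f' : A' ⟶ A) (f'' : A'' ⟶ A)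
        (h : ArtFun.Art.IsFibreProd p' p'' f' f''), Function.Surjective f'' → Function.Bijective (ArtFun.cmp G h))) (hH : (∀ ⦃B A A' A'' : ArtFun.Art Λ k⦄ (p' : B ⟶ A') (p'' : B ⟶ A'') (f' : A' ⟶ A) (f'' : A'' ⟶ A)
        (h : ArtFun.Art.IsFibreProd p' p'' f' f''), Function.Surjective f'' → Function.Bijective (ArtFun.cmp H h))) :
    (∀ ⦃B A A' A'' : ArtFun.Art Λ k⦄ (p' : B ⟶ A') (p'' : B ⟶ A'') (f' : A' ⟶ A) (f'' : A'' ⟶ A)
        (h : ArtFun.Art.IsFibreProd p' p'' f' f''), Function.Surjective f'' → Function.Bijective (ArtFun.cmp (CategoryTheory.Limits.pullback f g) h)) := by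
  intro B A A' A'' p' p'' f' f'' h hsurj
  have hP : ∀ X, IsPullback ((CategoryTheory.Limits.pullback.fst f g).app X)
      ((CategoryTheory.Limits.pullback.snd f g).app X) (f.app X) (g.app X) :=
    fun X => (IsPullback.of_hasPullback f g).map ((evaluation _ _).obj X)
  have ext : ∀ X (z1 z2 : (CategoryTheory.Limits.pullback f g).obj X),
      (CategoryTheory.Limits.pullback.fst f g).app X z1 =
        (CategoryTheory.Limits.pullback.fst f g).app X z2 →
      (CategoryTheory.Limits.pullback.snd f g).app X z1 =
        (CategoryTheory.Limits.pullback.snd f g).app X z2 → z1 = z2 :=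
    fun X z1 z2 h1 h2 => CategoryTheory.Limits.Types.ext_of_isPullback (hP X) h1 h2
  have ex : ∀ X (x : H.obj X) (y : G.obj X), f.app X x = g.app X y →
      ∃ z : (CategoryTheory.Limits.pullback f g).obj X,
        (CategoryTheory.Limits.pullback.fst f g).app X z = x ∧
          (CategoryTheory.Limits.pullback.snd f g).app X z = y :=
    fun X x y hxy => CategoryTheory.Limits.Types.exists_of_isPullback (hP X) x y hxy
  have wpt : ∀ X (z : (CategoryTheory.Limits.pullback f g).obj X),
      f.app X ((CategoryTheory.Limits.pullback.fst f g).app X z) =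
        g.app X ((CategoryTheory.Limits.pullback.snd f g).app X z) := fun X z => by
    have := congrArg (fun φ => φ.app X z) (CategoryTheory.Limits.pullback.condition (f := f) (g := g))
    simpa using this
  have nfst : ∀ {X Y : ArtFun.Art Λ k} (φ : X ⟶ Y) (z : (CategoryTheory.Limits.pullback f g).obj X),
      (CategoryTheory.Limits.pullback.fst f g).app Y ((CategoryTheory.Limits.pullback f g).map φ z) =
        H.map φ ((CategoryTheory.Limits.pullback.fst f g).app X z) :=
    fun φ z => NatTrans.naturality_apply (CategoryTheory.Limits.pullback.fst f g) φ z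
  have nsnd : ∀ {X Y : ArtFun.Art Λ k} (φ : X ⟶ Y) (z : (CategoryTheory.Limits.pullback f g).obj X),
      (CategoryTheory.Limits.pullback.snd f g).app Y ((CategoryTheory.Limits.pullback f g).map φ z) =
        G.map φ ((CategoryTheory.Limits.pullback.snd f g).app X z) :=
    fun φ z => NatTrans.naturality_apply (CategoryTheory.Limits.pullback.snd f g) φ z
  have nf : ∀ {X Y : ArtFun.Art Λ k} (φ : X ⟶ Y) (x : H.obj X),
      f.app Y (H.map φ x) = F.map φ (f.app X x) :=
    fun φ x => NatTrans.naturality_apply f φ x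
  have ng : ∀ {X Y : ArtFun.Art Λ k} (φ : X ⟶ Y) (x : G.obj X),
      g.app Y (G.map φ x) = F.map φ (g.app X x) :=
    fun φ x => NatTrans.naturality_apply g φ x
  constructor
  · intro z1 z2 hz
    have e1 := congrArg (fun q => q.1.1) hz
    have e2 := congrArg (fun q => q.1.2) hz
    simp only [ArtFun.cmp] at e1 e2
    apply ext B
    · apply (hH p' p'' f' f'' h hsurj).1
      apply ArtFun.FibProd.ext
      · show H.map p' _ = H.map p' _
        rw [← nfst, ← nfst, e1]
      · show H.map p'' _ = H.map p'' _
        rw [← nfst, ← nfst, e2]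
    · apply (hG p' p'' f' f'' h hsurj).1
      apply ArtFun.FibProd.ext
      · show G.map p' _ = G.map p' _
        rw [← nsnd, ← nsnd, e1]
      · show G.map p'' _ = G.map p'' _
        rw [← nsnd, ← nsnd, e2]
  · rintro ⟨⟨a', a''⟩, ha⟩
    obtain ⟨x, hx⟩ := (hH p' p'' f' f'' h hsurj).2
      ⟨((CategoryTheory.Limits.pullback.fst f g).app A' a',
        (CategoryTheory.Limits.pullback.fst f g).app A'' a''), by
        show H.map f' _ = H.map f'' _
        rw [← nfst, ← nfst]; exact congrArg _ ha⟩
    obtain ⟨y, hy⟩ := (hG p' p'' f' f'' h hsurj).2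
      ⟨((CategoryTheory.Limits.pullback.snd f g).app A' a',
        (CategoryTheory.Limits.pullback.snd f g).app A'' a''), by
        show G.map f' _ = G.map f'' _
        rw [← nsnd, ← nsnd]; exact congrArg _ ha⟩
    have hx1 : H.map p' x = (CategoryTheory.Limits.pullback.fst f g).app A' a' :=
      congrArg (fun q => q.1.1) hx
    have hx2 : H.map p'' x = (CategoryTheory.Limits.pullback.fst f g).app A'' a'' :=
      congrArg (fun q => q.1.2) hx
    have hy1 : G.map p' y = (CategoryTheory.Limits.pullback.snd f g).app A' a' :=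
      congrArg (fun q => q.1.1) hy
    have hy2 : G.map p'' y = (CategoryTheory.Limits.pullback.snd f g).app A'' a'' :=
      congrArg (fun q => q.1.2) hy
    have hxy : f.app B x = g.app B y := by
      apply (hF p' p'' f' f'' h hsurj).1
      apply ArtFun.FibProd.ext
      · show F.map p' (f.app B x) = F.map p' (g.app B y)
        rw [← nf, ← ng, hx1, hy1, wpt]
      · show F.map p'' (f.app B x) = F.map p'' (g.app B y)
        rw [← nf, ← ng, hx2, hy2, wpt]
    obtain ⟨z, hz1, hz2⟩ := ex B x y hxy
    refine ⟨z, ?_⟩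
    apply ArtFun.FibProd.ext
    · show (CategoryTheory.Limits.pullback f g).map p' z = a'
      apply ext A'
      · rw [nfst, hz1, hx1]
      · rw [nsnd, hz2, hy1]
    · show (CategoryTheory.Limits.pullback f g).map p'' z = a''
      apply ext A''
      · rw [nfst, hz1, hx2]
      · rw [nsnd, hz2, hy2]

end Groth.Agent.S12746
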