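import Groth.Statements.S12755
-- import your own Groth.Agent.* helpers here

set_option autoImplicit false
universe u v
open CategoryTheory
open ArtFun

namespace Groth.Agent.S12755

/-- For functors on Artinian local Λ-algebras with residue field k, the composite of two smooth
morphisms φ : F → G and ψ : G → H is smooth. -/
theorem result {Λ : Type u} {k : Type u} [CommRing Λ] [Field k] [Algebra Λ k]
    [IsNoetherianRing Λ] [Module.Finite Λ k]
    {F G H : ArtFun.Art Λ k ⥤ Type v} (φ : F ⟶ G) (ψ : G ⟶ H)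
    (hφ : ArtFun.IsSmooth φ) (hψ : ArtFun.IsSmooth ψ) : ArtFun.IsSmooth (φ ≫ ψ) := by
  intro B A μ hμ q
  obtain ⟨⟨x, w⟩, hxw⟩ := q
  have h1 : ψ.app A (φ.app A x) = H.map μ w := by
    simpa using hxw
  obtain ⟨z, hz⟩ := hψ μ hμ ⟨(φ.app A x, w), h1⟩
  have hz1 : G.map μ z = φ.app A x := congrArg (fun q => q.1.1) hz
  have hz2 : ψ.app B z = w := congrArg (fun q => q.1.2) hz
  obtain ⟨t, ht⟩ := hφ μ hμ ⟨(x, z), hz1.symm⟩
  have ht1 : F.map μ t = x := congrArg (fun q => q.1.1) ht
  have ht2 : φ.app B t = z := congrArg (fun q => q.1.2) ht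
  refine ⟨t, ?_⟩
  apply Subtype.ext
  refine Prod.ext ht1 ?_
  change (φ ≫ ψ).app B t = w
  simp [ht2, hz2]

end Groth.Agent.S12755
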