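import Groth.Statements.S12925
-- import your own Groth.Agent.* helpers here

set_option autoImplicit false
universe u w
open HopfRep

namespace Groth.Agent.S12925

open TensorProduct


/-- Let `k` be a commutative ring, `M` a commutative group and `B` a commutative `k`-algebra with a
coaction of the group algebra `k[M]` that is an algebra map (an action of the diagonalizable group
scheme `D(M) = Spec k[M]` on `Spec B`). Then the action is tame: there is a comodule map `α : k[M] →
B`, for the regular coaction on `k[M]`, with `α 1 = 1`. -/
theorem result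
    (k : Type u) [CommRing k] (M : Type u) [CommGroup M]
    (B : Type w) [CommRing B] [Algebra k B] [HopfRep.Comod k (MonoidAlgebra k M) B]
    [GLin.IsCoactAlg k (MonoidAlgebra k M) B] :
    ∃ α : MonoidAlgebra k M →ₗ[k] B, Hoch.IsComodHom (MonoidAlgebra k M) α ∧ α 1 = 1 := by
  classical
  let α : MonoidAlgebra k M →ₗ[k] B :=
    (Algebra.linearMap k B) ∘ₗ (Finsupp.lapply (1 : M)) ∘ₗ (MonoidAlgebra.coeffLinearEquiv k).toLinearMap
  have hα : ∀ (m : M) (c : k), α (MonoidAlgebra.single m c) = (Finsupp.single m c (1 : M)) • (1 : B) := by
    intro m c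
    simp [α, Algebra.algebraMap_eq_smul_one]
  refine ⟨α, ?_, ?_⟩
  · apply MonoidAlgebra.lhom_ext'
    intro m
    refine LinearMap.ext (fun c => ?_)
    simp only [LinearMap.comp_apply, MonoidAlgebra.lsingle_apply]
    change HopfRep.Comod.coact (k := k) (A := MonoidAlgebra k M) (V := B) (α (MonoidAlgebra.single m c)) =
      α.rTensor (MonoidAlgebra k M) (Coalgebra.comul (R := k) (MonoidAlgebra.single m c))
    rw [hα, map_smul, GLin.IsCoactAlg.coact_one, Algebra.TensorProduct.one_def, MonoidAlgebra.comul_single]
    simp only [CommSemiring.comul_apply, TensorProduct.map_tmul, MonoidAlgebra.lsingle_apply,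
      LinearMap.rTensor_tmul, hα]
    by_cases hm : m = 1
    · subst hm
      simp [MonoidAlgebra.one_def, TensorProduct.smul_tmul']
      rw [TensorProduct.smul_tmul, MonoidAlgebra.smul_single, smul_eq_mul, mul_one]
    · simp [Ne.symm hm]
  · rw [MonoidAlgebra.one_def, hα]
    simp

end Groth.Agent.S12925
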