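import Groth.Statements.S12926
-- import your own Groth.Agent.* helpers here

set_option autoImplicit false
universe u v
open HopfRep

namespace Groth.Agent.S12926

open TensorProduct


/-- Let `k` be a commutative ring and `A` a commutative bialgebra over `k`, flat as a `k`-module. If the
submodule `k · 1` of the regular comodule `A` has a complement `H` which is a subcomodule — the case
used when `A` is cosemisimple, i.e. every subcomodule of every comodule is a direct summand as a
comodule — then the trivial action of `Spec A` on `Spec k` is tame: there is a comodule map `α : A →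
k`, for the regular coaction on `A` and the trivial coaction `r ↦ r ⊗ 1` on `k`, with `α 1 = 1`. -/
theorem result
    (k : Type u) [CommRing k] (A : Type v) [CommRing A] [Bialgebra k A] [Module.Flat k A]
    (H : Submodule k A) (hH : HopfRep.IsSubcomod (k := k) (A := A) H)
    (hc : IsCompl (Submodule.span k {(1 : A)}) H) :
    ∃ α : A →ₗ[k] k, @Hoch.IsComodHom k _ A _ _ _ A _ _ _ k _ _ (HopfRep.Comod.trivial k A k) α ∧ α 1 = 1 := by
  classical
  let P : A →ₗ[k] A := (Submodule.span k {(1 : A)}).subtype ∘ₗ Submodule.projectionOnto _ H hc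
  let α : A →ₗ[k] k := (Coalgebra.counit (R := k) (A := A)) ∘ₗ P
  have hP1 : P 1 = 1 := by
    have := Submodule.projectionOnto_apply_left hc ⟨1, Submodule.mem_span_singleton_self 1⟩
    simp only [P, LinearMap.comp_apply, Submodule.coe_subtype]
    rw [this]
  have hα1 : α 1 = 1 := by
    simp only [α, LinearMap.comp_apply, hP1, Bialgebra.counit_one]
  have hαH : ∀ z ∈ H, α z = 0 := by
    intro z hz
    have := Submodule.projectionOnto_apply_right hc ⟨z, hz⟩
    simp only [α, P, LinearMap.comp_apply, Submodule.coe_subtype]
    rw [this]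
    simp
  refine ⟨α, ?_, hα1⟩
  refine LinearMap.ext (fun a => ?_)
  change (TensorProduct.mk k k A).flip 1 (α a) = α.rTensor A (Coalgebra.comul (R := k) a)
  have ha : a ∈ Submodule.span k {(1 : A)} ⊔ H := by rw [hc.sup_eq_top]; trivial
  obtain ⟨y, hy, z, hz, rfl⟩ := Submodule.mem_sup.mp ha
  obtain ⟨c, rfl⟩ := Submodule.mem_span_singleton.mp hy
  have hcz : α.rTensor A (Coalgebra.comul (R := k) z) = 0 := by
    obtain ⟨w, hw⟩ := hH z hz
    change (H.subtype.rTensor A) w = Coalgebra.comul (R := k) z at hw
    rw [← hw, ← LinearMap.comp_apply, ← LinearMap.rTensor_comp]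
    have h0 : α ∘ₗ H.subtype = 0 := by
      ext ⟨z', hz'⟩
      exact hαH z' hz'
    rw [h0, LinearMap.rTensor_zero, LinearMap.zero_apply]
  simp only [map_add, map_smul]
  rw [hcz, Bialgebra.comul_one, Algebra.TensorProduct.one_def, hαH z hz, hα1]
  simp [TensorProduct.smul_tmul', hα1]

end Groth.Agent.S12926
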