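import Groth.Statements.S12927
-- import your own Groth.Agent.* helpers here

set_option autoImplicit false
universe u v w
open HopfRep

namespace Groth.Agent.S12927

open TensorProduct


/-- Let `k` be a commutative ring, `A` a commutative bialgebra over `k`, flat as a `k`-module and `B` a
commutative `k`-algebra with a coaction of `A` that is an algebra map. If the trivial action of
`Spec A` on `Spec k` is tame — there is a comodule map `A → k` to the trivial comodule `k` (coaction
`r ↦ r ⊗ 1`) sending `1` to `1` — then the action on `Spec B` is tame: there is a comodule map `A →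
B` sending `1` to `1`. -/
theorem result
    (k : Type u) [CommRing k] (A : Type v) [CommRing A] [Bialgebra k A] [Module.Flat k A]
    (B : Type w) [CommRing B] [Algebra k B] [HopfRep.Comod k A B] [GLin.IsCoactAlg k A B]
    (htriv : ∃ α₀ : A →ₗ[k] k,
      @Hoch.IsComodHom k _ A _ _ _ A _ _ _ k _ _ (HopfRep.Comod.trivial k A k) α₀ ∧ α₀ 1 = 1) :
    ∃ α : A →ₗ[k] B, Hoch.IsComodHom A α ∧ α 1 = 1 := by
  obtain ⟨α₀, h0, h1⟩ := htriv
  refine ⟨(Algebra.linearMap k B) ∘ₗ α₀, ?_, ?_⟩
  · refine LinearMap.ext (fun a => ?_)
    have ha := LinearMap.congr_fun h0 a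
    change (TensorProduct.mk k k A).flip 1 (α₀ a) = α₀.rTensor A (Coalgebra.comul (R := k) a) at ha
    change HopfRep.Comod.coact (k := k) (A := A) (V := B) (algebraMap k B (α₀ a)) =
      ((Algebra.linearMap k B) ∘ₗ α₀).rTensor A (Coalgebra.comul (R := k) a)
    rw [LinearMap.rTensor_comp, LinearMap.comp_apply, ← ha, Algebra.algebraMap_eq_smul_one, map_smul,
      GLin.IsCoactAlg.coact_one, Algebra.TensorProduct.one_def]
    simp [TensorProduct.smul_tmul', Algebra.algebraMap_eq_smul_one]
  · simp [h1]

end Groth.Agent.S12927
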