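import Groth.Statements.S12929
-- import your own Groth.Agent.* helpers here

set_option autoImplicit false
universe u v w w'
open HopfRep

namespace Groth.Agent.S12929

open TensorProduct

section
variable (k : Type u) [CommRing k] (A : Type v) [CommRing A] [HopfAlgebra k A]

theorem rT_assoc {M : Type w} [AddCommGroup M] [Module k M] {N : Type w'} [AddCommGroup N] [Module k N]
    (h : M →ₗ[k] N) (m : M) (t : A ⊗[k] A) :
    (h.rTensor A).rTensor A ((TensorProduct.assoc k M A A).symm (m ⊗ₜ t)) =
      (TensorProduct.assoc k N A A).symm (h m ⊗ₜ t) := by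
  induction t using TensorProduct.induction_on with
  | zero => simp
  | tmul b c => simp
  | add s t hs ht => rw [TensorProduct.tmul_add, map_add, map_add, hs, ht, TensorProduct.tmul_add, map_add]

theorem coactAux_rT {M : Type w} [AddCommGroup M] [Module k M] {N : Type w'} [AddCommGroup N] [Module k N]
    (h : M →ₗ[k] N) (x : M ⊗[k] A) :
    Hoch.Ind.coactAux k A N (h.rTensor A x) =
      (h.rTensor A).rTensor A ((TensorProduct.assoc k M A A).symm
        ((Coalgebra.comul (R := k) (A := A)).lTensor M x)) := by
  induction x using TensorProduct.induction_on with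
  | zero => simp
  | tmul m a => rw [LinearMap.rTensor_tmul, Hoch.Ind.coactAux_tmul, LinearMap.lTensor_tmul, rT_assoc]
  | add x y hx hy => rw [map_add, map_add, hx, hy, map_add, map_add, map_add]

theorem F0_assoc {N : Type w'} [AddCommGroup N] [Module k N] (p : N) (t : A ⊗[k] A) :
    ((TensorProduct.rid k N).toLinearMap ∘ₗ (Coalgebra.counit (R := k) (A := A)).lTensor N).rTensor A
      ((TensorProduct.assoc k N A A).symm (p ⊗ₜ t)) =
      TensorProduct.mk k N A p (TensorProduct.lid k A ((Coalgebra.counit (R := k) (A := A)).rTensor A t)) := by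
  induction t using TensorProduct.induction_on with
  | zero => simp
  | tmul a1 a2 => simp [TensorProduct.smul_tmul]
  | add s t hs ht => rw [TensorProduct.tmul_add, map_add, map_add, hs, ht, map_add, map_add, map_add]

theorem counit_coactAux {N : Type w'} [AddCommGroup N] [Module k N] (y : N ⊗[k] A) :
    ((TensorProduct.rid k N).toLinearMap ∘ₗ (Coalgebra.counit (R := k) (A := A)).lTensor N).rTensor A
      (Hoch.Ind.coactAux k A N y) = y := by
  induction y using TensorProduct.induction_on with
  | zero => simp
  | tmul n a =>
    rw [Hoch.Ind.coactAux_tmul, F0_assoc, Coalgebra.rTensor_counit_comul]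
    simp
  | add x y hx hy => rw [map_add, map_add, hx, hy]

end


/-- Let `k` be a commutative ring, `A` a commutative Hopf algebra over `k`, `M` a right `A`-comodule and
`N` a `k`-module; give `N ⊗ A` the coaction `id ⊗ Δ`. Then for every `k`-linear map `h : M → N` the
composite `(h ⊗ id_A) ∘ ρ_M : M → N ⊗ A` is a comodule map, and every comodule map `f : M → N ⊗ A`
is of this form for exactly one `h` (which is `(id_N ⊗ ε) ∘ f`): comodule maps `M → N ⊗ A`
correspond bijectively to linear maps `M → N`. -/
theorem result
    (k : Type u) [CommRing k] (A : Type v) [CommRing A] [HopfAlgebra k A]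
    (M : Type w) [AddCommGroup M] [Module k M] [HopfRep.Comod k A M]
    (N : Type w') [AddCommGroup N] [Module k N] :
    (∀ h : M →ₗ[k] N, Hoch.IsComodHom A
        ((Hoch.Ind.equiv k A N).toLinearMap ∘ₗ h.rTensor A ∘ₗ HopfRep.Comod.coact (k := k) (A := A))) ∧
      ∀ f : M →ₗ[k] Hoch.Ind k A N, Hoch.IsComodHom A f →
        ∃! h : M →ₗ[k] N,
          f = (Hoch.Ind.equiv k A N).toLinearMap ∘ₗ h.rTensor A ∘ₗ HopfRep.Comod.coact (k := k) (A := A) := by
  constructor
  · intro h
    refine LinearMap.ext (fun m => ?_)
    change Hoch.Ind.coactAux k A N (h.rTensor A (HopfRep.Comod.coact (k := k) (A := A) m)) =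
      (h.rTensor A ∘ₗ HopfRep.Comod.coact (k := k) (A := A)).rTensor A (HopfRep.Comod.coact (k := k) (A := A) m)
    rw [coactAux_rT, LinearMap.rTensor_comp, LinearMap.comp_apply]
    congr 1
    have hc := LinearMap.congr_fun (HopfRep.Comod.coassoc (k := k) (A := A) (V := M)) m
    simp only [LinearMap.comp_apply, LinearEquiv.coe_coe] at hc
    rw [← hc, LinearEquiv.symm_apply_apply]
  · intro f hf
    refine ⟨Hoch.Ind.counit k A N ∘ₗ f, ?_, ?_⟩
    · refine LinearMap.ext (fun m => ?_)
      have hfm := LinearMap.congr_fun hf m
      change Hoch.Ind.coactAux k A N (f m) = f.rTensor A (HopfRep.Comod.coact (k := k) (A := A) m) at hfm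
      change f m = ((Hoch.Ind.counit k A N ∘ₗ f).rTensor A (HopfRep.Comod.coact (k := k) (A := A) m))
      rw [LinearMap.rTensor_comp, LinearMap.comp_apply, ← hfm]
      exact (counit_coactAux k A (f m)).symm
    · intro h' hh'
      rw [hh']
      refine LinearMap.ext (fun m => ?_)
      change h' m = ((TensorProduct.rid k N).toLinearMap ∘ₗ (Coalgebra.counit (R := k) (A := A)).lTensor N)
        (h'.rTensor A (HopfRep.Comod.coact (k := k) (A := A) m))
      have hcu := LinearMap.congr_fun (HopfRep.Comod.counit_comp (k := k) (A := A) (V := M)) m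
      simp only [LinearMap.comp_apply, LinearMap.flip_apply, TensorProduct.mk_apply] at hcu
      have key : ∀ x : M ⊗[k] A,
          ((TensorProduct.rid k N).toLinearMap ∘ₗ (Coalgebra.counit (R := k) (A := A)).lTensor N)
            (h'.rTensor A x) =
          h' (TensorProduct.rid k M ((Coalgebra.counit (R := k) (A := A)).lTensor M x)) := by
        intro x
        induction x using TensorProduct.induction_on with
        | zero => simp
        | tmul m' a => simp
        | add x y hx hy => rw [map_add, map_add, hx, hy, map_add, map_add, map_add]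
      rw [key, hcu]
      simp

end Groth.Agent.S12929
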