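import Groth.Statements.S12930
-- import your own Groth.Agent.* helpers here

set_option autoImplicit false
universe u v w w'
open HopfRep

namespace Groth.Agent.S12930

open TensorProduct


/-- Let `k` be a commutative ring, `A` a commutative Hopf algebra over `k`, `B` a commutative
`k`-algebra with a coaction of `A` that is an algebra map, and `M` a `B`-module with a compatible
`A`-coaction. Then `f ↦ f 1` is a bijection from the `B`-linear comodule maps `B → M` onto the
invariants `M^A = {m | ρ(m) = m ⊗ 1}`: every such `f` has `f 1` invariant, and every invariant `m`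
is `f 1` for exactly one such `f` (namely `b ↦ b • m`). -/
theorem result
    (k : Type u) [CommRing k] (A : Type v) [CommRing A] [HopfAlgebra k A]
    (B : Type w) [CommRing B] [Algebra k B] [HopfRep.Comod k A B] [GLin.IsCoactAlg k A B]
    (M : Type w') [AddCommGroup M] [Module k M] [Module B M] [IsScalarTower k B M]
    [HopfRep.Comod k A M] [TameAct.IsHopfMod k A B M] :
    (∀ f : B →ₗ[B] M, Hoch.IsComodHom A (f.restrictScalars k) → f 1 ∈ HopfRep.fixedPts k A M) ∧
      ∀ m ∈ HopfRep.fixedPts k A M,
        ∃! f : B →ₗ[B] M, Hoch.IsComodHom A (f.restrictScalars k) ∧ f 1 = m := by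
  constructor
  · intro f hf
    have h := LinearMap.congr_fun hf 1
    simp only [LinearMap.comp_apply, LinearMap.coe_restrictScalars] at h
    show HopfRep.Comod.coact (k := k) (A := A) (f 1) = f 1 ⊗ₜ[k] (1 : A)
    rw [h, GLin.IsCoactAlg.coact_one, Algebra.TensorProduct.one_def, LinearMap.rTensor_tmul,
      LinearMap.coe_restrictScalars]
  · intro m hm
    have hm' : HopfRep.Comod.coact (k := k) (A := A) m = m ⊗ₜ[k] (1 : A) := hm
    refine ⟨LinearMap.toSpanSingleton B M m, ⟨?_, by simp⟩, ?_⟩
    · refine LinearMap.ext (fun b => ?_)
      simp only [LinearMap.comp_apply, LinearMap.coe_restrictScalars, LinearMap.toSpanSingleton_apply]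
      rw [TameAct.IsHopfMod.coact_smul, hm']
      generalize HopfRep.Comod.coact (k := k) (A := A) b = x
      induction x using TensorProduct.induction_on with
      | zero => simp
      | tmul b' a => simp
      | add x y hx hy => rw [map_add, LinearMap.add_apply, hx, hy, map_add]
    · rintro f' ⟨-, h1⟩
      refine LinearMap.ext_ring ?_
      rw [h1, LinearMap.toSpanSingleton_apply, one_smul]

end Groth.Agent.S12930
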