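import Groth.Statements.S12931
import Mathlib.Algebra.BigOperators.Pi
-- import your own Groth.Agent.* helpers here

set_option autoImplicit false
universe u v w
open HopfRep

namespace Groth.Agent.S12931

/-- Let `R` be a commutative ring, `Γ` a finite set and `T` a commutative `R`-algebra which is
connected: nonzero, with no idempotents other than `0` and `1`. Then `γ ↦ (evaluation at γ : (Γ → R)
→ R → T)` is a bijection from `Γ` onto the `R`-algebra maps `(Γ → R) → T`: every such map sends
exactly one of the indicator functions to `1` and the others to `0`. (Only the bijection of sets is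
stated; when `Γ` is a group, the compatibility with the group structures on both sides is not.) -/
theorem result
    (R : Type u) [CommRing R] (Γ : Type v) [Finite Γ]
    (T : Type w) [CommRing T] [Algebra R T] [Nontrivial T]
    (hT : ∀ e : T, IsIdempotentElem e → e = 0 ∨ e = 1) :
    Function.Bijective (fun γ : Γ => (Algebra.ofId R T).comp (Pi.evalAlgHom R (fun _ : Γ => R) γ)) := by
  classical
  cases nonempty_fintype Γ
  have hidem : ∀ γ : Γ, IsIdempotentElem (Pi.single γ (1 : R) : Γ → R) := by
    intro γ
    ext x
    by_cases hx : x = γ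
    · subst hx; simp
    · simp [Pi.single_apply, hx]
  constructor
  · intro γ₁ γ₂ h
    by_contra hne
    have h1 := congrArg (fun φ : (Γ → R) →ₐ[R] T => φ (Pi.single γ₁ 1)) h
    have h2 : (Pi.single γ₁ (1 : R) : Γ → R) γ₂ = 0 := by
      simp [Pi.single_apply, Ne.symm hne]
    simp only [AlgHom.comp_apply, Pi.evalAlgHom_apply, Algebra.ofId_apply, Pi.single_eq_same,
      map_one, h2, map_zero] at h1
    exact one_ne_zero h1
  · intro φ
    have hsum : ∑ γ, φ (Pi.single γ (1 : R)) = 1 := by
      have h1 : ∑ γ, (Pi.single γ (1 : R) : Γ → R) = 1 := by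
        ext x
        rw [Finset.sum_apply, Finset.sum_eq_single x]
        · simp
        · intro b _ hb; simp [Pi.single_apply, Ne.symm hb]
        · intro h; exact absurd (Finset.mem_univ x) h
      rw [← map_sum, h1]
      exact map_one φ
    obtain ⟨γ₀, hγ₀⟩ : ∃ γ₀, φ (Pi.single γ₀ 1) = 1 := by
      by_contra hcon
      push Not at hcon
      have h0 : ∀ γ, φ (Pi.single γ (1 : R)) = 0 := fun γ => by
        rcases hT _ ((hidem γ).map φ) with h | h
        · exact h
        · exact absurd h (hcon γ)
      rw [Finset.sum_eq_zero (fun γ _ => h0 γ)] at hsum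
      exact zero_ne_one hsum
    refine ⟨γ₀, ?_⟩
    ext f
    have hf : f * Pi.single γ₀ (1 : R) = f γ₀ • Pi.single γ₀ (1 : R) := by
      ext x
      by_cases hx : x = γ₀
      · subst hx; simp
      · simp [Pi.single_apply, hx]
    have : φ f = algebraMap R T (f γ₀) := by
      calc φ f = φ f * φ (Pi.single γ₀ 1) := by rw [hγ₀, mul_one]
        _ = φ (f * Pi.single γ₀ 1) := (map_mul φ _ _).symm
        _ = φ (f γ₀ • Pi.single γ₀ 1) := by rw [hf]
        _ = f γ₀ • φ (Pi.single γ₀ 1) := map_smul φ _ _
        _ = algebraMap R T (f γ₀) := by rw [hγ₀, Algebra.smul_def, mul_one]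
    rw [this]
    simp

end Groth.Agent.S12931
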