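import Groth.Statements.S12933
import Mathlib.LinearAlgebra.TensorProduct.Pi
import Mathlib.Algebra.Exact.Basic
import Mathlib.Tactic.Abel
-- import your own Groth.Agent.* helpers here

set_option autoImplicit false
universe u v w w'
open TensorProduct
open InvTh

namespace Groth.Agent.S12933

/-- Let `R` be a commutative ring, `B` a commutative `R`-algebra with an action of a finite group `Γ` by
`R`-algebra automorphisms, and `R'` a flat commutative `R`-algebra; let `Γ` act on `R' ⊗_R B`
through the factor `B`. Then an element of `R' ⊗_R B` is fixed by every element of `Γ` if and only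
if it lies in the `R'`-submodule spanned by the tensors `1 ⊗ b` with `b ∈ B^Γ`: taking invariants
commutes with flat base change (the map `R' ⊗_R B^Γ → R' ⊗_R B` being moreover injective by
flatness). -/
theorem result
    (R : Type u) [CommRing R] (B : Type v) [CommRing B] [Algebra R B]
    (Γ : Type w) [Group Γ] [Finite Γ] [MulSemiringAction Γ B] [SMulCommClass Γ R B]
    (R' : Type w') [CommRing R'] [Algebra R R'] [Module.Flat R R']
    (x : R' ⊗[R] B) :
    (∀ γ : Γ, Algebra.TensorProduct.map (AlgHom.id R R') (MulSemiringAction.toAlgHom R B γ) x = x) ↔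
      x ∈ Submodule.span R' ((fun b : B => (1 : R') ⊗ₜ[R] b) '' {b : B | ∀ γ : Γ, γ • b = b}) := by
  classical
  cases nonempty_fintype Γ
  let g : Γ → (B →ₗ[R] B) := fun γ => (MulSemiringAction.toAlgHom R B γ).toLinearMap
  have hmapeq : ∀ (γ : Γ) (y : R' ⊗[R] B),
      Algebra.TensorProduct.map (AlgHom.id R R') (MulSemiringAction.toAlgHom R B γ) y =
        (g γ).lTensor R' y := by
    intro γ y
    induction y using TensorProduct.induction_on with
    | zero => simp
    | tmul r b => simp [g]
    | add y z hy hz => rw [map_add, map_add, hy, hz]
  have hsmul : ∀ (γ : Γ) (r : R') (y : R' ⊗[R] B),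
      (g γ).lTensor R' (r • y) = r • (g γ).lTensor R' y := by
    intro γ r y
    induction y using TensorProduct.induction_on with
    | zero => simp
    | tmul s b => simp [TensorProduct.smul_tmul']
    | add y z hy hz => rw [smul_add, map_add, map_add, hy, hz, smul_add]
  let φ : B →ₗ[R] (Γ → B) := LinearMap.pi (fun γ => g γ - LinearMap.id)
  have hK : ∀ b : B, b ∈ LinearMap.ker φ ↔ ∀ γ : Γ, γ • b = b := by
    intro b
    simp only [LinearMap.mem_ker, φ]
    constructor
    · intro h γ
      have := congrFun h γ
      simpa [g, sub_eq_zero] using this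
    · intro h
      funext γ
      simp [g, h γ]
  have hex := Module.Flat.lTensor_exact R' (LinearMap.exact_subtype_ker_map φ)
  constructor
  · intro hx
    have hφx : φ.lTensor R' x = 0 := by
      apply (TensorProduct.piRight R R R' (fun _ : Γ => B)).injective
      rw [map_zero]
      have hpr : ∀ y : R' ⊗[R] B, TensorProduct.piRight R R R' (fun _ : Γ => B) (φ.lTensor R' y) =
          fun γ => (g γ - LinearMap.id).lTensor R' y := by
        intro y
        induction y using TensorProduct.induction_on with
        | zero => funext γ; simp
        | tmul r b => funext γ; simp [φ, TensorProduct.tmul_sub]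
        | add y z hy hz => rw [map_add, map_add, hy, hz]; funext γ; simp; abel
      rw [hpr]
      funext γ
      rw [LinearMap.lTensor_sub, LinearMap.lTensor_id, LinearMap.sub_apply, LinearMap.id_apply,
        ← hmapeq, hx γ, sub_self]
      rfl
    obtain ⟨y, rfl⟩ := (hex x).1 hφx
    clear hx hφx
    induction y using TensorProduct.induction_on with
    | zero => simp
    | tmul r k =>
      rw [LinearMap.lTensor_tmul]
      have : r ⊗ₜ[R] ((LinearMap.ker φ).subtype k) = r • ((1 : R') ⊗ₜ[R] (k : B)) := by
        rw [TensorProduct.smul_tmul', smul_eq_mul, mul_one]; rfl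
      rw [this]
      apply Submodule.smul_mem
      apply Submodule.subset_span
      exact ⟨(k : B), (hK k).1 k.2, rfl⟩
    | add y z hy hz =>
      rw [map_add]
      exact Submodule.add_mem _ hy hz
  · intro hx γ
    rw [hmapeq]
    induction hx using Submodule.span_induction with
    | mem y hy =>
      obtain ⟨b, hb, rfl⟩ := hy
      simp [g, hb γ]
    | zero => simp
    | add y z _ _ hy hz => rw [map_add, hy, hz]
    | smul r y _ hy => rw [hsmul, hy]

end Groth.Agent.S12933
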