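import Groth.Statements.S1303
-- import your own Groth.Agent.* helpers here

set_option autoImplicit false
universe u
open FlatMor

namespace Groth.Agent.S1303

open AlgebraicGeometry CategoryTheory Limits in
/-- For a morphism of thickenings, that is a commutative square whose horizontal maps are thickenings
(closed immersions that are surjective on points), the morphism between the thin schemes is
quasi-compact if and only if the morphism between the thick ones is. -/
theorem result {X X' S S' : Scheme.{u}} (iX : X ⟶ X') (iS : S ⟶ S') (f : X ⟶ S) (f' : X' ⟶ S')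
    (hX : MoreMor.IsThickening iX) (hS : MoreMor.IsThickening iS) (w : iX ≫ f' = f ≫ iS) :
    QuasiCompact f ↔ QuasiCompact f' := by
  obtain ⟨hXc, hXs⟩ := hX
  obtain ⟨hSc, hSs⟩ := hS
  have hXe : Topology.IsClosedEmbedding iX := iX.isClosedEmbedding
  have hSe : Topology.IsClosedEmbedding iS := iS.isClosedEmbedding
  have hSh : IsHomeomorph iS :=
    (isHomeomorph_iff_isEmbedding_surjective).mpr ⟨hSe.isEmbedding, iS.surjective⟩
  have hw : ∀ x, f' (iX x) = iS (f x) := fun x => by
    rw [← Scheme.Hom.comp_apply, w, Scheme.Hom.comp_apply]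
  constructor
  · intro hf
    constructor
    intro U hU hUc
    have h1 : IsCompact (f ⁻¹' (iS ⁻¹' U)) :=
      hf.isCompact_preimage _ (hU.preimage iS.continuous)
        (hSe.isInducing.isCompact_preimage hSe.isClosed_range hUc)
    have h2 : f' ⁻¹' U = iX '' (f ⁻¹' (iS ⁻¹' U)) := by
      ext y
      constructor
      · intro hy
        obtain ⟨x, rfl⟩ := iX.surjective y
        refine ⟨x, ?_, rfl⟩
        simp only [Set.mem_preimage] at hy ⊢
        rwa [← hw]
      · rintro ⟨x, hx, rfl⟩
        simp only [Set.mem_preimage] at hx ⊢
        rwa [hw]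
    rw [h2]
    exact h1.image iX.continuous
  · intro hf'
    constructor
    intro U hU hUc
    have h1 : IsCompact (f' ⁻¹' (iS '' U)) :=
      hf'.isCompact_preimage _ (hSh.isOpenMap _ hU) (hUc.image iS.continuous)
    have h2 : f ⁻¹' U = iX ⁻¹' (f' ⁻¹' (iS '' U)) := by
      ext x
      simp only [Set.mem_preimage, hw]
      exact (hSh.bijective.1.mem_set_image).symm
    rw [h2]
    exact hXe.isInducing.isCompact_preimage hXe.isClosed_range h1

end Groth.Agent.S1303
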