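import Groth.Statements.S1304
import Mathlib.AlgebraicGeometry.Morphisms.Proper
-- import your own Groth.Agent.* helpers here

set_option autoImplicit false
universe u
open FlatMor

namespace Groth.Agent.S1304

open AlgebraicGeometry CategoryTheory Limits in
/-- For a morphism of thickenings, that is a commutative square whose horizontal maps are thickenings
(closed immersions that are surjective on points), the morphism between the thin schemes is
universally closed if and only if the morphism between the thick ones is. -/
theorem result {X X' S S' : Scheme.{u}} (iX : X ⟶ X') (iS : S ⟶ S') (f : X ⟶ S) (f' : X' ⟶ S')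
    (hX : MoreMor.IsThickening iX) (hS : MoreMor.IsThickening iS) (w : iX ≫ f' = f ≫ iS) :
    UniversallyClosed f ↔ UniversallyClosed f' := by
  obtain ⟨hXc, hXs⟩ := hX
  obtain ⟨hSc, hSs⟩ := hS
  constructor
  · intro hf
    have : UniversallyClosed (iX ≫ f') := by rw [w]; infer_instance
    exact UniversallyClosed.of_comp_surjective iX f'
  · intro hf'
    have : UniversallyClosed (f ≫ iS) := by rw [← w]; infer_instance
    exact UniversallyClosed.of_comp_of_isSeparated f iS

end Groth.Agent.S1304
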