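import Groth.Statements.S1306
import Mathlib.AlgebraicGeometry.Morphisms.QuasiSeparated
import Mathlib.AlgebraicGeometry.Morphisms.ClosedImmersion
import Mathlib.AlgebraicGeometry.Morphisms.Preimmersion
-- import your own Groth.Agent.* helpers here

set_option autoImplicit false
universe u
open FlatMor

namespace Groth.Agent.S1306

open AlgebraicGeometry CategoryTheory Limits

set_option backward.isDefEq.respectTransparency.types false in
theorem qs_iff {A B : Scheme.{u}} (g : A ⟶ B) :
    QuasiSeparated g ↔ ∀ U : B.affineOpens, IsQuasiSeparated (g ⁻¹ᵁ U.1 : Set A) := by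
  rw [HasAffineProperty.eq_targetAffineLocally (P := @QuasiSeparated.{u})
    (Q := fun (X : Scheme.{u}) _ _ _ ↦ QuasiSeparatedSpace X)]
  refine forall_congr' fun U => ?_
  exact (isQuasiSeparated_iff_quasiSeparatedSpace _ (g ⁻¹ᵁ U.1).2).symm

/-- For a morphism of thickenings, that is a commutative square whose horizontal maps are thickenings
(closed immersions that are surjective on points), the morphism between the thin schemes is
quasi-separated if and only if the morphism between the thick ones is. -/
theorem result {X X' S S' : Scheme.{u}} (iX : X ⟶ X') (iS : S ⟶ S') (f : X ⟶ S) (f' : X' ⟶ S')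
    (hX : MoreMor.IsThickening iX) (hS : MoreMor.IsThickening iS) (w : iX ≫ f' = f ≫ iS) :
    QuasiSeparated f ↔ QuasiSeparated f' := by
  obtain ⟨hXc, hXs⟩ := hX
  obtain ⟨hSc, hSs⟩ := hS
  have hw : ∀ x, f' (iX x) = iS (f x) := fun x => by
    rw [← Scheme.Hom.comp_apply, w, Scheme.Hom.comp_apply]
  constructor
  · intro hf
    rw [qs_iff]
    intro U'
    have hV : IsAffineOpen (iS ⁻¹ᵁ U'.1) := U'.2.preimage iS
    have h1 : IsQuasiSeparated (f ⁻¹ᵁ (iS ⁻¹ᵁ U'.1) : Set X) := (qs_iff f).mp hf ⟨_, hV⟩
    have h2 : (f' ⁻¹ᵁ U'.1 : Set X') = iX '' (f ⁻¹ᵁ (iS ⁻¹ᵁ U'.1) : Set X) := by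
      ext y
      constructor
      · intro hy
        obtain ⟨x, rfl⟩ := iX.surjective y
        refine ⟨x, ?_, rfl⟩
        show iS (f x) ∈ U'.1
        rw [← hw]
        exact hy
      · rintro ⟨x, hx, rfl⟩
        show f' (iX x) ∈ U'.1
        rw [hw]
        exact hx
    rw [h2]
    exact h1.image_of_isEmbedding iX.isClosedEmbedding.isEmbedding
  · intro hf'
    have : QuasiSeparated (f ≫ iS) := by rw [← w]; infer_instance
    exact QuasiSeparated.of_comp f iS

end Groth.Agent.S1306
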