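import Groth.Statements.S1307
import Mathlib.AlgebraicGeometry.Morphisms.UniversallyInjective
import Mathlib.AlgebraicGeometry.Morphisms.ClosedImmersion
import Mathlib.AlgebraicGeometry.Morphisms.Preimmersion
import Mathlib.AlgebraicGeometry.PullbackCarrier
-- import your own Groth.Agent.* helpers here

set_option autoImplicit false
universe u
open FlatMor

namespace Groth.Agent.S1307

open AlgebraicGeometry CategoryTheory Limits

theorem ui_of_comp_surjective {X Y Z : Scheme.{u}} (f : X ⟶ Y) (g : Y ⟶ Z)
    [UniversallyInjective (f ≫ g)] [Surjective f] : UniversallyInjective g := by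
  constructor
  intro X' Y' i₁ i₂ f' H
  have := UniversallyInjective.universally_injective _ _ _
    ((IsPullback.of_hasPullback i₁ f).paste_horiz H)
  have hs : Surjective (pullback.fst i₁ f) := inferInstance
  exact Function.Injective.of_comp_right this hs.1

/-- For a morphism of thickenings, that is a commutative square whose horizontal maps are thickenings
(closed immersions that are surjective on points), the morphism between the thin schemes is
universally injective if and only if the morphism between the thick ones is. -/
theorem result {X X' S S' : Scheme.{u}} (iX : X ⟶ X') (iS : S ⟶ S') (f : X ⟶ S) (f' : X' ⟶ S')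
    (hX : MoreMor.IsThickening iX) (hS : MoreMor.IsThickening iS) (w : iX ≫ f' = f ≫ iS) :
    UniversallyInjective f ↔ UniversallyInjective f' := by
  obtain ⟨hXc, hXs⟩ := hX
  obtain ⟨hSc, hSs⟩ := hS
  constructor
  · intro hf
    have hiS : UniversallyInjective iS := inferInstance
    have : UniversallyInjective (iX ≫ f') := by
      rw [w]; exact MorphismProperty.comp_mem (@UniversallyInjective) f iS hf hiS
    exact ui_of_comp_surjective iX f'
  · intro hf'
    have h' := ((tfae_universallyInjective f').out 0 1).mp hf'
    refine ((tfae_universallyInjective f).out 0 1).mpr ?_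
    intro K _ g₁ g₂ hg
    have hg' : (fun g : Spec (.of K) ⟶ X' ↦ g ≫ f') (g₁ ≫ iX) =
        (fun g : Spec (.of K) ⟶ X' ↦ g ≫ f') (g₂ ≫ iX) := by
      simp only [Category.assoc, w]
      simp only at hg
      rw [← Category.assoc, hg, Category.assoc]
    exact (cancel_mono iX).mp (h' K hg')

end Groth.Agent.S1307
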