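import Groth.Statements.S1308
import Mathlib.AlgebraicGeometry.Morphisms.UniversallyOpen
import Mathlib.AlgebraicGeometry.Morphisms.ClosedImmersion
import Mathlib.AlgebraicGeometry.Morphisms.Preimmersion
import Mathlib.AlgebraicGeometry.PullbackCarrier
-- import your own Groth.Agent.* helpers here

set_option autoImplicit false
universe u
open FlatMor

namespace Groth.Agent.S1308

open AlgebraicGeometry CategoryTheory Limits

theorem isOpenMap_of_comp_surj {α β γ : Type*} [TopologicalSpace α] [TopologicalSpace β]
    [TopologicalSpace γ] {f : α → β} {g : β → γ} (hf : Function.Surjective f) (hf' : Continuous f)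
    (hfg : IsOpenMap (g ∘ f)) : IsOpenMap g := by
  intro U hU
  rw [← Set.image_preimage_eq U hf, ← Set.image_comp]
  exact hfg _ (hU.preimage hf')

theorem uo_of_thickening {X Y : Scheme.{u}} (t : X ⟶ Y) [IsClosedImmersion t] [Surjective t] :
    UniversallyOpen t := by
  constructor
  intro X' Y' i₁ i₂ f' H
  have h1 : IsClosedImmersion f' := MorphismProperty.of_isPullback H.flip ‹IsClosedImmersion t›
  have h2 : Surjective f' := MorphismProperty.of_isPullback H.flip ‹Surjective t›
  exact (isHomeomorph_iff_isEmbedding_surjective.mpr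
    ⟨f'.isClosedEmbedding.isEmbedding, f'.surjective⟩).isOpenMap

theorem uo_of_comp_surjective {X Y Z : Scheme.{u}} (f : X ⟶ Y) (g : Y ⟶ Z)
    [UniversallyOpen (f ≫ g)] [Surjective f] : UniversallyOpen g := by
  constructor
  intro X' Y' i₁ i₂ f' H
  have := UniversallyOpen.universally_isOpenMap _ _ _
    ((IsPullback.of_hasPullback i₁ f).paste_horiz H)
  have hs : Surjective (pullback.fst i₁ f) := inferInstance
  exact isOpenMap_of_comp_surj hs.1 (pullback.fst i₁ f).continuous this

theorem uo_of_comp_mono {X Y Z : Scheme.{u}} (f : X ⟶ Y) (g : Y ⟶ Z)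
    [UniversallyOpen (f ≫ g)] [Mono g] : UniversallyOpen f := by
  constructor
  intro X' Y' i₁ i₂ f' H
  have hsq : IsPullback f (𝟙 X) g (f ≫ g) := by
    have h1 : IsPullback f (𝟙 X) (𝟙 Y) f := IsPullback.of_vert_isIso ⟨by simp⟩
    have h2 : IsPullback (𝟙 Y) (𝟙 Y) g g := IsKernelPair.id_of_mono g
    have := h1.paste_horiz h2
    simpa using this
  exact UniversallyOpen.universally_isOpenMap _ _ _ (H.paste_vert hsq)

/-- For a morphism of thickenings, that is a commutative square whose horizontal maps are thickenings
(closed immersions that are surjective on points), the morphism between the thin schemes is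
universally open if and only if the morphism between the thick ones is. -/
theorem result {X X' S S' : Scheme.{u}} (iX : X ⟶ X') (iS : S ⟶ S') (f : X ⟶ S) (f' : X' ⟶ S')
    (hX : MoreMor.IsThickening iX) (hS : MoreMor.IsThickening iS) (w : iX ≫ f' = f ≫ iS) :
    UniversallyOpen f ↔ UniversallyOpen f' := by
  obtain ⟨hXc, hXs⟩ := hX
  obtain ⟨hSc, hSs⟩ := hS
  have hXo : UniversallyOpen iX := uo_of_thickening iX
  have hSo : UniversallyOpen iS := uo_of_thickening iS
  constructor
  · intro hf
    have : UniversallyOpen (iX ≫ f') := by rw [w]; infer_instance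
    exact uo_of_comp_surjective iX f'
  · intro hf'
    have : UniversallyOpen (f ≫ iS) := by rw [← w]; infer_instance
    exact uo_of_comp_mono f iS

end Groth.Agent.S1308
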