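import Groth.Statements.S13098
import Mathlib.Tactic.Module
import Mathlib.Tactic.FinCases
import Mathlib.Tactic.Abel
-- import your own Groth.Agent.* helpers here

set_option autoImplicit false
universe u v
open Lie3Mod

namespace Groth.Agent.S13098

/-- Let R be a commutative ring, M an R-module with a basis x = bs 0, y = bs 1, z = bs 2 indexed by Fin
3, and B an R-bilinear alternating map on M (B m m = 0) with B x y = a x + b y + c z, B x z = d x +
e y + f z and B y z = g x + h y + i z. Then B satisfies the Jacobi identity for all triples if and
only if the three Jacobi polynomials vanish: ah + di − fg − bg = 0, ie + bd − fh − ae = 0 and hc +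
dc − af − bi = 0. (This is the statement that Lie brackets on a based free module of rank 3 are the
points of the closed subscheme of affine 9-space defined by these three equations.) -/
theorem result (R : Type u) [CommRing R] (M : Type v) [AddCommGroup M] [Module R M]
    (bs : Module.Basis (Fin 3) R M) (B : M →ₗ[R] M →ₗ[R] M) (halt : ∀ m : M, B m m = 0)
    (a b c d e f g h i : R)
    (hxy : B (bs 0) (bs 1) = a • bs 0 + b • bs 1 + c • bs 2)
    (hxz : B (bs 0) (bs 2) = d • bs 0 + e • bs 1 + f • bs 2)
    (hyz : B (bs 1) (bs 2) = g • bs 0 + h • bs 1 + i • bs 2) :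
    (∀ u v w : M, B u (B v w) + B v (B w u) + B w (B u v) = 0) ↔
      (a * h + d * i - f * g - b * g = 0 ∧ i * e + b * d - f * h - a * e = 0 ∧
        h * c + d * c - a * f - b * i = 0) := by
  have hskew : ∀ u v : M, B u v = -B v u := by
    intro u v
    have := halt (u + v)
    simp only [map_add, LinearMap.add_apply, halt, zero_add, add_zero] at this
    rw [add_comm] at this
    exact eq_neg_of_add_eq_zero_left this
  set x := bs 0
  set y := bs 1
  set z := bs 2
  have hyx : B y x = -(a • x + b • y + c • z) := by rw [hskew, hxy]
  have hzx : B z x = -(d • x + e • y + f • z) := by rw [hskew, hxz]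
  have hzy : B z y = -(g • x + h • y + i • z) := by rw [hskew, hyz]
  let J : M → M → M → M := fun u v w => B u (B v w) + B v (B w u) + B w (B u v)
  have key : J x y z = (a * h + d * i - f * g - b * g) • x + (i * e + b * d - f * h - a * e) • y +
      (h * c + d * c - a * f - b * i) • z := by
    simp only [J, hyz, hzx, hxy, map_add, map_smul, map_neg, halt, hxz, hyx, hzy, smul_zero,
      zero_add, add_zero, smul_add, smul_neg, neg_add]
    module
  have hA : ∀ u w, J u u w = 0 := by
    intro u w; simp only [J, halt, map_zero, add_zero]; rw [hskew w u, map_neg, add_neg_cancel]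
  have hB : ∀ u v, J u v v = 0 := by
    intro u v; simp only [J, halt, map_zero, zero_add]; rw [hskew u v, map_neg, add_neg_cancel]
  have hC : ∀ u v, J u v u = 0 := by
    intro u v; simp only [J, halt, map_zero, add_zero]; rw [hskew u v, map_neg, add_neg_cancel]
  have hcyc : ∀ u v w, J u v w = J v w u := by
    intro u v w; simp only [J]; abel
  have hsw : ∀ u v w, J u v w = -J v u w := by
    intro u v w
    simp only [J]
    rw [hskew u w, hskew w v, hskew u v, map_neg, map_neg, map_neg]
    abel
  constructor
  · intro hall
    have h0 : (a * h + d * i - f * g - b * g) • x + (i * e + b * d - f * h - a * e) • y +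
        (h * c + d * c - a * f - b * i) • z = 0 := key ▸ hall x y z
    have c0 := congrArg (fun m => bs.repr m 0) h0
    have c1 := congrArg (fun m => bs.repr m 1) h0
    have c2 := congrArg (fun m => bs.repr m 2) h0
    simp [x, y, z, Finsupp.single_apply] at c0 c1 c2
    exact ⟨c0, c1, c2⟩
  · rintro ⟨hQ1, hQ2, hQ3⟩
    have key0 : J x y z = 0 := by rw [key, hQ1, hQ2, hQ3]; simp
    have hbasis : ∀ i j k : Fin 3, J (bs i) (bs j) (bs k) = 0 := by
      intro i j k
      fin_cases i <;> fin_cases j <;> fin_cases k <;>
        first
        | exact hA _ _
        | exact hB _ _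
        | exact hC _ _
        | exact key0
        | (rw [← hcyc]; exact key0)
        | (rw [hcyc]; exact key0)
        | (rw [hsw, neg_eq_zero]; exact key0)
        | (rw [hsw, hcyc, neg_eq_zero]; exact key0)
        | (rw [hsw, hcyc, hcyc, neg_eq_zero]; exact key0)
        | (rw [hsw, ← hcyc, neg_eq_zero]; exact key0)
    have h3 : ∀ i j : Fin 3, ∀ w, J (bs i) (bs j) w = 0 := by
      intro i j w
      have hL : (B (bs i)).comp (B (bs j)) + (B (bs j)).comp (B.flip (bs i)) +
          B.flip (B (bs i) (bs j)) = 0 := by
        apply bs.ext; intro k
        simpa [J] using hbasis i j k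
      have := LinearMap.congr_fun hL w
      simpa [J] using this
    have h2 : ∀ i : Fin 3, ∀ v w, J (bs i) v w = 0 := by
      intro i v w
      have hL : (B (bs i)).comp (B.flip w) + B.flip (B w (bs i)) + (B w).comp (B (bs i)) = 0 := by
        apply bs.ext; intro j
        simpa [J] using h3 i j w
      have := LinearMap.congr_fun hL v
      simpa [J] using this
    intro u v w
    have hL : B.flip (B v w) + (B v).comp (B w) + (B w).comp (B.flip v) = 0 := by
      apply bs.ext; intro i
      simpa [J] using h2 i v w
    have := LinearMap.congr_fun hL u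
    simpa using this

end Groth.Agent.S13098
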