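import Groth.Statements.S13100
import Mathlib.RingTheory.Henselian
import Mathlib.RingTheory.AdicCompletion.Completeness
-- import your own Groth.Agent.* helpers here

set_option autoImplicit false
universe u
open GrpSch

namespace Groth.Agent.S13100

/-- Let k be an algebraically closed field of characteristic different from 2 and K = k((t)) the field
of Laurent series over k. Then a non-zero Laurent series f is a square in K if and only if its order
in t is even; consequently the group Kˣ/Kˣ² of non-zero elements modulo squares has exactly two
elements, represented by 1 and t. -/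
theorem result (k : Type u) [Field k] [IsAlgClosed k] (h2 : (2 : k) ≠ 0)
    (f : LaurentSeries k) (hf : f ≠ 0) : IsSquare f ↔ Even f.order := by
  constructor
  · rintro ⟨g, rfl⟩
    have hg : g ≠ 0 := by rintro rfl; simp at hf
    rw [HahnSeries.order_mul hg hg]
    exact ⟨g.order, rfl⟩
  · rintro ⟨m, hm⟩
    set p : PowerSeries k := f.powerSeriesPart with hp
    have hp0 : PowerSeries.constantCoeff p ≠ 0 := by
      rw [← PowerSeries.coeff_zero_eq_constantCoeff_apply, hp, LaurentSeries.powerSeriesPart_coeff]
      simpa [HahnSeries.leadingCoeff_eq] using HahnSeries.leadingCoeff_ne_zero.mpr hf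
    obtain ⟨c, hc⟩ := IsAlgClosed.exists_eq_mul_self (PowerSeries.constantCoeff p)
    have hc0 : c ≠ 0 := by rintro rfl; simp at hc; exact hp0 hc
    obtain ⟨q, hq⟩ : ∃ q : PowerSeries k, q * q = p := by
      have H := HenselianRing.is_henselian (R := PowerSeries k) (I := Ideal.span {PowerSeries.X})
        (Polynomial.X ^ 2 - Polynomial.C p) ?_ (PowerSeries.C c) ?_ ?_
      · obtain ⟨a, ha, -⟩ := H
        refine ⟨a, ?_⟩
        have := ha.eq_zero
        simp only [Polynomial.eval_sub, Polynomial.eval_pow, Polynomial.eval_X,
          Polynomial.eval_C] at this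
        rw [← sq]; exact sub_eq_zero.mp this
      · exact Polynomial.monic_X_pow_sub_C p (by norm_num)
      · simp only [Polynomial.eval_sub, Polynomial.eval_pow, Polynomial.eval_X,
          Polynomial.eval_C]
        rw [Ideal.mem_span_singleton, PowerSeries.X_dvd_iff]
        simp [sq, ← hc]
      · have hd : (Polynomial.X ^ 2 - Polynomial.C p).derivative.eval (PowerSeries.C c)
            = PowerSeries.C (2 * c) := by
          simp [Polynomial.derivative_sub]
          left; rw [map_ofNat]; norm_num
        rw [hd]
        apply IsUnit.map
        exact (isUnit_iff_ne_zero.mpr (mul_ne_zero h2 hc0)).map PowerSeries.C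
    refine ⟨HahnSeries.single m (1 : k) * HahnSeries.ofPowerSeries ℤ k q, ?_⟩
    have e1 := LaurentSeries.single_order_mul_powerSeriesPart f
    rw [← hp, hm] at e1
    conv_lhs => rw [← e1]
    rw [← hq, map_mul]
    have : (HahnSeries.single (m + m) (1 : k) : LaurentSeries k)
        = HahnSeries.single m 1 * HahnSeries.single m 1 := by
      rw [HahnSeries.single_mul_single, mul_one]
    rw [this]
    ring

end Groth.Agent.S13100
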