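import Groth.Statements.S13103
-- import your own Groth.Agent.* helpers here

set_option autoImplicit false
universe u v
open GrpSch

namespace Groth.Agent.S13103

open TensorProduct in
/-- Let A be a commutative ring and H an algebra over the power series ring A[[t]] (not assumed
commutative) which is flat as an A[[t]]-module, as a finite locally free algebra is. If the base
change A((t)) ⊗ H of H to the ring of Laurent series is commutative, then H itself is commutative.
(The published statement says that prolongations over A[[t]] of a commutative finite Hopf algebra
over the Laurent series are commutative, and adds that taking spectra is then an equivalence of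
categories between prolongations of the Hopf algebra and prolongations of the corresponding group
scheme; this row states the commutativity only, for any flat algebra, the Hopf structure playing no
role; the equivalence of categories is not stated.) -/
theorem result (A : Type u) [CommRing A]
    (H : Type v) [Ring H] [Algebra (PowerSeries A) H] [Module.Flat (PowerSeries A) H]
    (hcomm : ∀ x y : LaurentSeries A ⊗[PowerSeries A] H, x * y = y * x) :
    ∀ x y : H, x * y = y * x := by
  intro x y
  have h0 : Function.Injective (Algebra.linearMap (PowerSeries A) (LaurentSeries A)) := by
    intro a b hab
    have hab' : HahnSeries.ofPowerSeries ℤ A a = HahnSeries.ofPowerSeries ℤ A b := by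
      simpa [Algebra.linearMap_apply, LaurentSeries.coe_algebraMap] using hab
    exact HahnSeries.ofPowerSeries_injective hab'
  have h1 : Function.Injective
      ((Algebra.linearMap (PowerSeries A) (LaurentSeries A)).rTensor H) :=
    Module.Flat.rTensor_preserves_injective_linearMap _ h0
  have hinj : Function.Injective (Algebra.TensorProduct.includeRight :
      H →ₐ[PowerSeries A] LaurentSeries A ⊗[PowerSeries A] H) := by
    intro a b hab
    apply (TensorProduct.lid (PowerSeries A) H).symm.injective
    apply h1
    simpa using hab
  apply hinj
  rw [map_mul, map_mul, hcomm]

end Groth.Agent.S13103
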