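import Groth.Statements.S13114
import Mathlib.LinearAlgebra.Eigenspace.Zero
import Mathlib.RingTheory.Artinian.Ring
import Mathlib.LinearAlgebra.Charpoly.Basic
import Mathlib.RingTheory.Norm.Basic
-- import your own Groth.Agent.* helpers here

set_option autoImplicit false
universe u
open HilbChow

namespace Groth.Agent.S13114

/-- Let k be an algebraically closed field, A a commutative local k-algebra of finite dimension n over k
and u a unit of A. Then the determinant of multiplication by u on the k-vector space A, mapped to
the residue field of A, equals the n-th power of the residue class of u. -/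
theorem result
    (k A : Type u) [Field k] [IsAlgClosed k] [CommRing A] [Algebra k A] [IsLocalRing A]
    [Module.Finite k A] (u : Aˣ) :
    algebraMap k (IsLocalRing.ResidueField A) (Algebra.norm k (u : A)) =
      IsLocalRing.residue A (u : A) ^ Module.finrank k A := by
  classical
  have : Module.Finite k (IsLocalRing.ResidueField A) :=
    Module.Finite.of_surjective
      ((IsScalarTower.toAlgHom k A (IsLocalRing.ResidueField A)).toLinearMap)
      (IsLocalRing.residue_surjective)
  have : Algebra.IsIntegral k (IsLocalRing.ResidueField A) := Algebra.IsIntegral.of_finite k _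
  obtain ⟨c, hc⟩ := (IsAlgClosed.algebraMap_bijective_of_isIntegral (k := k)
    (K := IsLocalRing.ResidueField A)).2 (IsLocalRing.residue A (u : A))
  set n : A := (u : A) - algebraMap k A c with hn
  have hnm : n ∈ IsLocalRing.maximalIdeal A := by
    rw [← IsLocalRing.residue_eq_zero_iff, hn, map_sub, ← hc,
      IsScalarTower.algebraMap_apply k A (IsLocalRing.ResidueField A)]
    simp
  have : IsArtinianRing A := IsArtinianRing.of_finite k A
  have hnil : IsNilpotent n := by
    obtain ⟨m, hm⟩ := IsArtinianRing.isNilpotent_jacobson_bot (R := A)
    refine ⟨m, ?_⟩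
    have hj : n ∈ Ideal.jacobson (⊥ : Ideal A) := by
      rwa [IsLocalRing.jacobson_eq_maximalIdeal ⊥ bot_ne_top]
    have : n ^ m ∈ (Ideal.jacobson (⊥ : Ideal A)) ^ m := Ideal.pow_mem_pow hj m
    rw [hm] at this
    simpa using this
  have hu : (u : A) = algebraMap k A c + n := by rw [hn]; ring
  have hN : IsNilpotent (-(Algebra.lmul k A n)) := (hnil.map (Algebra.lmul k A)).neg
  have key : Algebra.norm k (u : A) = c ^ Module.finrank k A := by
    rw [Algebra.norm_apply, hu, map_add, (Algebra.lmul k A).commutes c, ← sub_neg_eq_add,
      ← LinearMap.eval_charpoly, IsNilpotent.charpoly_eq_X_pow_finrank hN]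
    simp
  rw [key, map_pow, hc]

end Groth.Agent.S13114
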