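import Groth.Statements.S13151
-- import your own Groth.Agent.* helpers here

set_option autoImplicit false
universe u
open CAlg

namespace Groth.Agent.S13151

/-- Let A → B be an injective ring homomorphism of integral domains which is integral, with A integrally
closed, and let π be an element of A. Then the contraction to A of the ideal πB is πA, i.e. an
element of A which is a multiple of π in B is already a multiple of π in A; in particular if B/πB is
an integral domain then A/πA is an integral domain. (The published statement is for an integral
dominant morphism of integral schemes flat over a discrete valuation ring, with normal target and π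
a uniformizer; flatness and the valuation ring play no role, so π is an arbitrary element here.) -/
theorem result {A B : Type u} [CommRing A] [CommRing B]
    [IsDomain A] [IsDomain B] [IsIntegrallyClosed A] [Algebra A B] [Algebra.IsIntegral A B]
    (hinj : Function.Injective (algebraMap A B)) (π : A) :
    (Ideal.span {algebraMap A B π}).comap (algebraMap A B) = Ideal.span {π} ∧
      (IsDomain (B ⧸ Ideal.span {algebraMap A B π}) → IsDomain (A ⧸ Ideal.span {π})) := by
  have hle : Ideal.span {π} ≤ (Ideal.span {algebraMap A B π}).comap (algebraMap A B) := by
    rw [Ideal.span_le, Set.singleton_subset_iff]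
    exact Ideal.mem_span_singleton_self _
  have hge : (Ideal.span {algebraMap A B π}).comap (algebraMap A B) ≤ Ideal.span {π} := by
    intro a ha
    rw [Ideal.mem_comap, Ideal.mem_span_singleton] at ha
    obtain ⟨b, hb⟩ := ha
    rw [Ideal.mem_span_singleton]
    by_cases hπ : π = 0
    · subst hπ
      rw [map_zero, zero_mul] at hb
      have : a = 0 := hinj (by rw [hb, map_zero])
      rw [this]
    · let K := FractionRing A
      let L := FractionRing B
      let g : A →+* L := (algebraMap B L).comp (algebraMap A B)
      have hg : Function.Injective g := (IsFractionRing.injective B L).comp hinj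
      let j : K →+* L := IsFractionRing.lift hg
      have hjinj : Function.Injective j := j.injective
      set x : K := algebraMap A K a / algebraMap A K π with hx
      have hπK : algebraMap A K π ≠ 0 := by
        rw [ne_eq, map_eq_zero_iff _ (IsFractionRing.injective A K)]; exact hπ
      have hjx : j x = algebraMap B L b := by
        rw [hx, map_div₀, IsFractionRing.lift_algebraMap, IsFractionRing.lift_algebraMap]
        have hgπ : g π ≠ 0 := by
          rw [ne_eq, map_eq_zero_iff _ hg]; exact hπ
        rw [div_eq_iff hgπ]
        simp only [g, RingHom.comp_apply, hb, map_mul]
        ring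
      obtain ⟨f, hfm, hfb⟩ := Algebra.IsIntegral.isIntegral (R := A) b
      have hxint : IsIntegral A x := by
        refine ⟨f, hfm, hjinj ?_⟩
        rw [map_zero, Polynomial.hom_eval₂, hjx]
        have hcomp : j.comp (algebraMap A K) = (algebraMap B L).comp (algebraMap A B) := by
          ext y; simp [j, IsFractionRing.lift_algebraMap, g]
        rw [hcomp, ← Polynomial.hom_eval₂, hfb, map_zero]
      obtain ⟨c, hc⟩ := IsIntegrallyClosed.isIntegral_iff.mp hxint
      refine ⟨c, IsFractionRing.injective A K ?_⟩
      rw [map_mul, hc, hx, mul_div_cancel₀ _ hπK]
  have heq := le_antisymm hge hle
  refine ⟨heq, fun hdom => ?_⟩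
  have hinj' : Function.Injective (Ideal.quotientMap (Ideal.span {algebraMap A B π}) (algebraMap A B) hle) :=
    Ideal.quotientMap_injective' hge
  exact hinj'.isDomain _

end Groth.Agent.S13151
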