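import Groth.Statements.S13157
import Mathlib.Algebra.Polynomial.Coeff
import Mathlib.Tactic.LinearCombination
-- import your own Groth.Agent.* helpers here

set_option autoImplicit false
universe u
open scoped Polynomial
open CAlg

namespace Groth.Agent.S13157

/-- (i) ⇔ (ii): let p be a prime number, A a commutative ring in which (p−1)! is invertible, μ ∈ A, and
F ∈ A[X] a polynomial of degree at most p − 1 with constant term a_0 = 1 and coefficients a_1, a_2,
…. Then the relations a_{r−1}·a_1 = (r − 1)μ·a_{r−1} + r·a_r for 1 ≤ r ≤ p (with a_p = 0), written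
here as the single identity a_1·F = F′·(1 + μX), hold if and only if r!·a_r = ∏_{k=0}^{r−1} (a_1 −
kμ) for every 1 ≤ r ≤ p − 1 and ∏_{k=0}^{p−1} (a_1 − kμ) = 0. (The published statement lists the
relations only for 1 ≤ r ≤ p − 1, while its proof uses and derives the relation for r = p as well,
which is needed for the vanishing of the last product; it is included here. The published setting is
the quotient of a discrete valuation ring of residue characteristic p by a nonzero non-unit; only
the invertibility of 1, …, p − 1 is used.) -/
theorem result (A : Type u) [CommRing A] (p : ℕ) [Fact p.Prime]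
    (hu : IsUnit ((Nat.factorial (p - 1) : ℕ) : A)) (μ : A) (F : A[X]) (hF : F.natDegree < p)
    (h0 : F.coeff 0 = 1) :
    F * Polynomial.C (F.coeff 1) = Polynomial.derivative F * (1 + Polynomial.C μ * Polynomial.X) ↔
      ((∀ r : ℕ, 1 ≤ r → r < p →
          (r.factorial : A) * F.coeff r = ∏ k ∈ Finset.range r, (F.coeff 1 - (k : A) * μ)) ∧
        ∏ k ∈ Finset.range p, (F.coeff 1 - (k : A) * μ) = 0) := by
  have hp2 : 2 ≤ p := (Fact.out : p.Prime).two_le
  have hzero : ∀ n, p ≤ n → F.coeff n = 0 := fun n hn =>
    Polynomial.coeff_eq_zero_of_natDegree_lt (lt_of_lt_of_le hF hn)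
  have hunit : ∀ n, n ≤ p - 1 → IsUnit ((n.factorial : ℕ) : A) := by
    intro n hn
    obtain ⟨c, hc⟩ := Nat.factorial_dvd_factorial hn
    rw [hc, Nat.cast_mul] at hu
    exact isUnit_of_mul_isUnit_left hu
  have hcoeff : ∀ n, (Polynomial.derivative F * (1 + Polynomial.C μ * Polynomial.X)).coeff n =
      F.coeff (n + 1) * ((n : A) + 1) + μ * (F.coeff n * n) := by
    intro n
    have : Polynomial.derivative F * (1 + Polynomial.C μ * Polynomial.X) = Polynomial.derivative F + Polynomial.C μ * (Polynomial.derivative F * Polynomial.X) := by ring
    rw [this, Polynomial.coeff_add, Polynomial.coeff_C_mul, Polynomial.coeff_derivative]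
    rcases n with _ | m
    · simp
    · rw [Polynomial.coeff_mul_X, Polynomial.coeff_derivative]
      push_cast
      ring
  have hiff : (F * Polynomial.C (F.coeff 1) = Polynomial.derivative F * (1 + Polynomial.C μ * Polynomial.X)) ↔
      ∀ n, F.coeff n * F.coeff 1 = F.coeff (n + 1) * ((n : A) + 1) + μ * (F.coeff n * n) := by
    rw [Polynomial.ext_iff]
    simp only [Polynomial.coeff_mul_C, hcoeff]
  rw [hiff]
  set a := F.coeff with ha
  set P : ℕ → A := fun r => ∏ k ∈ Finset.range r, (a 1 - (k : A) * μ) with hP
  have hPs : ∀ r, P (r + 1) = P r * (a 1 - (r : A) * μ) := fun r => Finset.prod_range_succ _ _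
  constructor
  · intro R
    have H1 : ∀ r : ℕ, 1 ≤ r → r < p → (r.factorial : A) * a r = P r := by
      intro r hr
      induction r, hr using Nat.le_induction with
      | base => intro _; simp [hP]
      | succ r hr ih =>
        intro hrp
        have ih' := ih (by omega)
        rw [hPs, ← ih', Nat.factorial_succ, Nat.cast_mul]
        have := R r
        push_cast
        linear_combination -(r.factorial : A) * this
    refine ⟨H1, ?_⟩
    have hp1 : p = (p - 1) + 1 := by omega
    have e := H1 (p - 1) (by omega) (by omega)
    have hR := R (p - 1)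
    rw [← hp1, hzero p le_rfl] at hR
    change P p = 0
    rw [hp1, hPs, ← e]
    linear_combination (((p - 1).factorial : ℕ) : A) * hR
  · rintro ⟨H1, H2⟩ n
    have H1' : ∀ r, r < p → (r.factorial : A) * a r = P r := by
      intro r hr
      rcases Nat.eq_zero_or_pos r with rfl | hr0
      · simp only [hP, Nat.factorial_zero, Nat.cast_one, one_mul, Finset.range_zero,
          Finset.prod_empty]
        exact h0
      · exact H1 r hr0 hr
    rcases lt_trichotomy (n + 1) p with hlt | heq | hgt
    · have e1 := H1' (n + 1) hlt
      have e0 := H1' n (by omega)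
      rw [hPs, ← e0, Nat.factorial_succ, Nat.cast_mul] at e1
      obtain ⟨v, hv⟩ := hunit n (by omega)
      have : (n.factorial : A) * (a (n + 1) * ((n : A) + 1) - (a n * a 1 - μ * (a n * n))) = 0 := by
        push_cast at e1
        linear_combination e1
      rw [← hv] at this
      have h2 := (Units.mul_right_eq_zero v).mp this
      linear_combination -h2
    · have e0 := H1' n (by omega)
      have hpn : p = n + 1 := heq.symm
      have H2' : P (n + 1) = 0 := by rw [← hpn]; exact H2
      rw [hPs, ← e0] at H2'
      rw [← hpn, hzero p le_rfl]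
      obtain ⟨v, hv⟩ := hunit n (by omega)
      have : (n.factorial : A) * (a n * (a 1 - (n : A) * μ)) = 0 := by linear_combination H2'
      rw [← hv] at this
      have h2 := (Units.mul_right_eq_zero v).mp this
      linear_combination h2
    · rw [hzero n (by omega), hzero (n + 1) (by omega)]
      ring

end Groth.Agent.S13157
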