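import Groth.Statements.S13360
-- import your own Groth.Agent.* helpers here

set_option autoImplicit false
universe u
open UltraProd

namespace Groth.Agent.S13360

theorem idem_cases {ι : Type u} (R : ι → Type u) [∀ i, CommRing (R i)]
    (P : Ideal (∀ i, R i)) [hP : P.IsPrime] (e : ∀ i, R i) (he : e * (1 - e) = 0) :
    (e ∉ P ∧ (1 - e) ∈ P) ∨ ((1 - e) ∉ P ∧ e ∈ P) := by
  rcases hP.mem_or_mem (show e * (1 - e) ∈ P by rw [he]; exact P.zero_mem) with h | h
  · right
    refine ⟨fun h' => hP.ne_top ((Ideal.eq_top_iff_one _).2 (by simpa using P.add_mem h h')), h⟩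
  · left
    refine ⟨fun h' => hP.ne_top ((Ideal.eq_top_iff_one _).2 (by simpa using P.add_mem h' h)), h⟩

theorem dvd_or {ι : Type u} (R : ι → Type u)
    [∀ i, CommRing (R i)] [∀ i, IsDomain (R i)] [∀ i, ValuationRing (R i)]
    (P : Ideal (∀ i, R i)) [hP : P.IsPrime] (x y : ∀ i, R i) :
    ∃ c : Localization.AtPrime P,
      algebraMap _ _ x * c = algebraMap _ _ y ∨ algebraMap _ _ y * c = algebraMap _ _ x := by
  classical
  let p : ι → Prop := fun i => ∃ c, x i * c = y i
  have hq : ∀ i, ¬ p i → ∃ d, y i * d = x i := fun i hi => by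
    obtain ⟨c, hc | hc⟩ := PreValuationRing.cond (x i) (y i)
    · exact absurd ⟨c, hc⟩ hi
    · exact ⟨c, hc⟩
  let c : ∀ i, R i := fun i => if h : p i then h.choose else 0
  let d : ∀ i, R i := fun i => if h : p i then 0 else (hq i h).choose
  let e : ∀ i, R i := fun i => if p i then 1 else 0
  have h1 : e * (x * c) = e * y := by
    funext i
    simp only [Pi.mul_apply, e, c]
    split_ifs with h
    · simp [h.choose_spec]
    · simp
  have h2 : (1 - e) * (y * d) = (1 - e) * x := by
    funext i
    simp only [Pi.mul_apply, Pi.sub_apply, Pi.one_apply, e, d]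
    split_ifs with h
    · simp
    · simp [(hq i h).choose_spec]
  have he : e * (1 - e) = 0 := by
    funext i
    simp only [Pi.mul_apply, Pi.sub_apply, Pi.one_apply, Pi.zero_apply, e]
    split_ifs <;> simp
  rcases idem_cases R P e he with ⟨h, -⟩ | ⟨h, -⟩
  · refine ⟨algebraMap _ _ c, Or.inl ?_⟩
    have hu : IsUnit (algebraMap _ (Localization.AtPrime P) e) :=
      IsLocalization.map_units (Localization.AtPrime P) (⟨e, h⟩ : P.primeCompl)
    apply hu.mul_left_cancel
    rw [← map_mul, ← map_mul, ← map_mul, h1]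
  · refine ⟨algebraMap _ _ d, Or.inr ?_⟩
    have hu : IsUnit (algebraMap _ (Localization.AtPrime P) (1 - e)) :=
      IsLocalization.map_units (Localization.AtPrime P) (⟨1 - e, h⟩ : P.primeCompl)
    apply hu.mul_left_cancel
    rw [← map_mul, ← map_mul, ← map_mul, h2]

theorem zero_or {ι : Type u} (R : ι → Type u)
    [∀ i, CommRing (R i)] [∀ i, IsDomain (R i)]
    (P : Ideal (∀ i, R i)) [hP : P.IsPrime] (u x y : ∀ i, R i) (hu : u ∉ P)
    (h : u * (x * y) = 0) :
    algebraMap _ (Localization.AtPrime P) x = 0 ∨ algebraMap _ (Localization.AtPrime P) y = 0 := by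
  classical
  let ind : (∀ i, R i) → (∀ i, R i) := fun z i => if z i = 0 then 0 else 1
  have hind : ∀ z, ind z * (1 - ind z) = 0 := fun z => by
    funext i
    simp only [Pi.mul_apply, Pi.sub_apply, Pi.one_apply, Pi.zero_apply, ind]
    split_ifs <;> simp
  have hz : ∀ z, (1 - ind z) * z = 0 := fun z => by
    funext i
    simp only [Pi.mul_apply, Pi.sub_apply, Pi.one_apply, Pi.zero_apply, ind]
    split_ifs with h0
    · simp [h0]
    · simp
  have hz' : ∀ z, z * ind z = z := fun z => by
    funext i
    simp only [Pi.mul_apply, ind]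
    split_ifs with h0
    · simp [h0]
    · simp
  have h3 : ind u * (ind x * ind y) = 0 := by
    funext i
    have hi := congrFun h i
    simp only [Pi.mul_apply, Pi.zero_apply] at hi
    simp only [Pi.mul_apply, Pi.zero_apply, ind]
    split_ifs with h0 h1 h2 <;> simp_all
  have hu' : ind u ∉ P := fun hm => hu (by rw [← hz' u]; exact P.mul_mem_left _ hm)
  have h4 : ind x * ind y ∈ P := by
    rcases hP.mem_or_mem (show ind u * (ind x * ind y) ∈ P by rw [h3]; exact P.zero_mem) with h5 | h5
    · exact absurd h5 hu'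
    · exact h5
  have key : ∀ z, ind z ∈ P → algebraMap _ (Localization.AtPrime P) z = 0 := fun z hm => by
    rcases idem_cases R P (ind z) (hind z) with ⟨h6, -⟩ | ⟨h6, -⟩
    · exact absurd hm h6
    · have hu2 : IsUnit (algebraMap _ (Localization.AtPrime P) (1 - ind z)) :=
        IsLocalization.map_units (Localization.AtPrime P) (⟨1 - ind z, h6⟩ : P.primeCompl)
      apply hu2.mul_left_cancel
      rw [← map_mul, hz, map_zero, mul_zero]
  rcases hP.mem_or_mem h4 with h5 | h5
  · exact Or.inl (key x h5)
  · exact Or.inr (key y h5)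


/-- If (R_i) is a nonempty family of valuation rings, then the localization of the product ring ∏ R_i at
any prime ideal is a valuation ring: a domain in which, of any two elements, one divides the other. -/
theorem result {ι : Type u} [Nonempty ι] (R : ι → Type u)
    [∀ i, CommRing (R i)] [∀ i, IsDomain (R i)] [∀ i, ValuationRing (R i)]
    (P : Ideal (∀ i, R i)) [P.IsPrime] :
    IsDomain (Localization.AtPrime P) ∧ PreValuationRing (Localization.AtPrime P) := by
  refine ⟨?_, ?_⟩
  · have : NoZeroDivisors (Localization.AtPrime P) := by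
      refine ⟨fun {a b} hab => ?_⟩
      obtain ⟨⟨x, s⟩, rfl⟩ := IsLocalization.mk'_surjective P.primeCompl a
      obtain ⟨⟨y, t⟩, rfl⟩ := IsLocalization.mk'_surjective P.primeCompl b
      dsimp only at hab ⊢
      rw [← IsLocalization.mk'_mul, IsLocalization.mk'_eq_zero_iff] at hab
      obtain ⟨m, hm⟩ := hab
      rcases zero_or R P m x y m.2 hm with h | h
      · left
        rw [IsLocalization.mk'_eq_mul_mk'_one, h, zero_mul]
      · right
        rw [IsLocalization.mk'_eq_mul_mk'_one, h, zero_mul]
    exact NoZeroDivisors.to_isDomain _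
  · refine ⟨fun a b => ?_⟩
    obtain ⟨⟨x, s⟩, rfl⟩ := IsLocalization.mk'_surjective P.primeCompl a
    obtain ⟨⟨y, t⟩, rfl⟩ := IsLocalization.mk'_surjective P.primeCompl b
    dsimp only
    have hs := IsLocalization.mk'_spec (Localization.AtPrime P) x s
    have ht := IsLocalization.mk'_spec (Localization.AtPrime P) y t
    have hs' := IsLocalization.mk'_eq_mul_mk'_one (M := P.primeCompl) (S := Localization.AtPrime P) x s
    have ht' := IsLocalization.mk'_eq_mul_mk'_one (M := P.primeCompl) (S := Localization.AtPrime P) y t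
    obtain ⟨c, hc | hc⟩ := dvd_or R P x y
    · refine ⟨c * algebraMap _ _ (s : ∀ i, R i) * IsLocalization.mk' _ 1 t, Or.inl ?_⟩
      rw [ht']
      linear_combination (c * IsLocalization.mk' (Localization.AtPrime P) (1 : ∀ i, R i) t) * hs +
        IsLocalization.mk' (Localization.AtPrime P) (1 : ∀ i, R i) t * hc
    · refine ⟨c * algebraMap _ _ (t : ∀ i, R i) * IsLocalization.mk' _ 1 s, Or.inr ?_⟩
      rw [hs']
      linear_combination (c * IsLocalization.mk' (Localization.AtPrime P) (1 : ∀ i, R i) s) * ht +
        IsLocalization.mk' (Localization.AtPrime P) (1 : ∀ i, R i) s * hc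

end Groth.Agent.S13360
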