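import Groth.Statements.S13361
import Mathlib.GroupTheory.FiniteAbelian.Basic

set_option autoImplicit false
universe u
open ProCompl

namespace Groth.Agent.S13361

theorem result {A : Type u} [AddCommGroup A] [Finite A]
    (a : A) (ha : a ≠ 0) (h : ∀ B : AddSubgroup A, B ≠ ⊥ → a ∈ B) :
    ∃ p n : ℕ, p.Prime ∧ Nonempty (A ≃+ ZMod (p ^ n)) := by
  classical
  obtain ⟨ι, hι, p, hp, e, ⟨φ⟩⟩ := AddCommGroup.equiv_directSum_zmod_of_finite A
  let Z : ι → Type := fun i => ZMod (p i ^ e i)
  have hsub : ∀ i, e i = 0 → Subsingleton (Z i) := by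
    intro i hi
    show Subsingleton (ZMod (p i ^ e i))
    rw [ZMod.subsingleton_iff, hi, pow_zero]
  have hnt : ∀ i, e i ≠ 0 → Nontrivial (Z i) := by
    intro i hi
    show Nontrivial (ZMod (p i ^ e i))
    rw [ZMod.nontrivial_iff]
    exact (Nat.one_lt_pow hi (hp i).one_lt).ne'
  -- a lies in the image of each nontrivial summand
  have hmem : ∀ i, e i ≠ 0 → ∃ z : Z i, φ a = DirectSum.of Z i z := by
    intro i hi
    let B : AddSubgroup A := (DirectSum.of Z i).range.comap φ.toAddMonoidHom
    have hB : B ≠ ⊥ := by
      have := hnt i hi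
      obtain ⟨z, hz⟩ := exists_ne (0 : Z i)
      intro hbot
      have hmemB : φ.symm (DirectSum.of Z i z) ∈ B := by
        show φ (φ.symm (DirectSum.of Z i z)) ∈ (DirectSum.of Z i).range
        rw [AddEquiv.apply_symm_apply]
        exact ⟨z, rfl⟩
      rw [hbot, AddSubgroup.mem_bot] at hmemB
      apply hz
      have h2 : DirectSum.of Z i z = 0 := by
        have := congrArg φ hmemB
        rwa [AddEquiv.apply_symm_apply, map_zero] at this
      have h3 := congrArg (fun x : DirectSum ι Z => x i) h2
      simpa using h3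
    obtain ⟨z, hz⟩ := h B hB
    exact ⟨z, hz.symm⟩
  -- at most one nontrivial summand
  have huniq : ∀ i j, e i ≠ 0 → e j ≠ 0 → i = j := by
    intro i j hi hj
    by_contra hij
    obtain ⟨zi, hzi⟩ := hmem i hi
    obtain ⟨zj, hzj⟩ := hmem j hj
    have h1 : zi = 0 := by
      have := congrArg (fun x : DirectSum ι Z => x i) (hzi.symm.trans hzj)
      simp only [DirectSum.of_eq_same] at this
      rw [this, DirectSum.of_eq_of_ne j i zj hij]
    apply ha
    apply φ.injective
    rw [hzi, h1, map_zero, map_zero]
  -- at least one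
  obtain ⟨i0, hi0⟩ : ∃ i, e i ≠ 0 := by
    by_contra hne
    simp only [not_exists, not_not] at hne
    apply ha
    apply φ.injective
    rw [map_zero]
    ext i
    have := hsub i (hne i)
    exact Subsingleton.elim _ _
  refine ⟨p i0, e i0, hp i0, ⟨?_⟩⟩
  let F : A →+ ZMod (p i0 ^ e i0) := (DFinsupp.evalAddMonoidHom i0).comp φ.toAddMonoidHom
  have hF : Function.Bijective F := by
    constructor
    · rw [injective_iff_map_eq_zero]
      intro x hx
      apply φ.injective
      rw [map_zero]
      ext j
      by_cases hj : j = i0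
      · subst hj; exact hx
      · have hej : e j = 0 := by
          by_contra hne; exact hj (huniq j i0 hne hi0)
        have := hsub j hej
        exact Subsingleton.elim _ _
    · intro z
      refine ⟨φ.symm (DirectSum.of Z i0 z), ?_⟩
      show (φ (φ.symm (DirectSum.of Z i0 z))) i0 = z
      rw [AddEquiv.apply_symm_apply]
      exact DirectSum.of_eq_same _ _
  exact AddEquiv.ofBijective F hF

end Groth.Agent.S13361
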