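import Groth.Statements.S13362
import Mathlib.Data.ZMod.QuotientGroup
import Mathlib.RingTheory.Coprime.Lemmas
import Mathlib.Tactic
-- import your own Groth.Agent.* helpers here

set_option autoImplicit false
universe u
open ProCompl

namespace Groth.Agent.S13362

/-- An abelian group of finite exponent having a nonzero element contained in every nonzero subgroup is
finite. -/
theorem result {A : Type u} [AddCommGroup A]
    (hA : AddMonoid.exponent A ≠ 0) (a : A) (ha : a ≠ 0) (h : ∀ B : AddSubgroup A, B ≠ ⊥ → a ∈ B) :
    Finite A := by
  classical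
  -- a has finite order
  have hfo : IsOfFinAddOrder a := by
    rw [← addOrderOf_pos_iff]
    exact Nat.pos_of_ne_zero (fun h0 => hA (by
      have := AddMonoid.addOrder_dvd_exponent a
      rw [h0] at this
      exact (Nat.eq_zero_of_zero_dvd this)))
  have hfin_a : (AddSubgroup.zmultiples a : Set A).Finite := by
    exact hfo.finite_zmultiples
  -- prime torsion lies in zmultiples a
  have key : ∀ q : ℕ, q.Prime → {y : A | q • y = 0} ⊆ (AddSubgroup.zmultiples a : Set A) := by
    intro q hq y hy
    simp only [Set.mem_ofPred_eq] at hy
    by_cases hy0 : y = 0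
    · rw [hy0]; exact (AddSubgroup.zmultiples a).zero_mem
    have hne : AddSubgroup.zmultiples y ≠ ⊥ := by
      intro hb
      apply hy0
      have : y ∈ AddSubgroup.zmultiples y := AddSubgroup.mem_zmultiples y
      rw [hb] at this
      exact (AddSubgroup.mem_bot).mp this
    obtain ⟨c, hc⟩ := AddSubgroup.mem_zmultiples_iff.mp (h _ hne)
    -- hc : c • y = a
    have hqc : ¬ (q : ℤ) ∣ c := by
      rintro ⟨d, rfl⟩
      apply ha
      rw [← hc, mul_comm, mul_zsmul, natCast_zsmul, hy, zsmul_zero]
    have hg : Int.gcd (q : ℤ) c = 1 := by
      have : Nat.Coprime q c.natAbs :=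
        (Nat.Prime.coprime_iff_not_dvd hq).mpr (fun hd => hqc (Int.natCast_dvd.mpr hd))
      show Nat.gcd (Int.natAbs q) c.natAbs = 1
      simpa using this
    have hcop : IsCoprime (q : ℤ) c := Int.isCoprime_iff_gcd_eq_one.mpr hg
    obtain ⟨u, v, huv⟩ := hcop
    refine AddSubgroup.mem_zmultiples_iff.mpr ⟨v, ?_⟩
    calc v • a = v • (c • y) := by rw [hc]
      _ = (v * c) • y := by rw [mul_zsmul]
      _ = (u * q + v * c) • y - (u * q) • y := by rw [add_zsmul]; abel
      _ = y := by
          rw [huv, one_zsmul, mul_zsmul, natCast_zsmul, hy, zsmul_zero, sub_zero]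
  -- finiteness of k-torsion for k ≥ 1
  have tors : ∀ k : ℕ, 1 ≤ k → {x : A | k • x = 0}.Finite := by
    intro k
    induction k using Nat.strong_induction_on with
    | _ k ih =>
      intro hk
      by_cases hk1 : k = 1
      · subst hk1
        simp only [one_smul]
        exact (Set.finite_singleton (0 : A)).subset (fun x hx => by simpa using hx)
      have hq : (Nat.minFac k).Prime := Nat.minFac_prime hk1
      set q := Nat.minFac k
      obtain ⟨k', hk'⟩ := Nat.minFac_dvd k
      have hk'1 : 1 ≤ k' := by
        rcases Nat.eq_zero_or_pos k' with h0 | h0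
        · rw [h0, mul_zero] at hk'; omega
        · exact h0
      have hk'lt : k' < k := by
        rw [hk']
        have := hq.two_le
        nlinarith
      have hfin' := ih k' hk'lt hk'1
      have hsub : {x : A | k • x = 0} ⊆ (fun x : A => q • x) ⁻¹' {x : A | k' • x = 0} := by
        intro x hx
        simp only [Set.mem_ofPred_eq, Set.mem_preimage] at hx ⊢
        have e : k' * q = k := by
          conv_rhs => rw [hk']
          exact mul_comm _ _
        rw [← mul_nsmul', e]; exact hx
      refine Set.Finite.subset (Set.Finite.preimage' hfin' ?_) hsub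
      intro b _
      by_cases hb : ∃ x₀ : A, q • x₀ = b
      · obtain ⟨x₀, hx₀⟩ := hb
        have : (fun x : A => q • x) ⁻¹' {b} ⊆ (fun z => x₀ + z) '' (AddSubgroup.zmultiples a : Set A) := by
          intro x hx
          simp only [Set.mem_preimage, Set.mem_singleton_iff] at hx
          refine ⟨x - x₀, key q hq ?_, by abel⟩
          simp only [Set.mem_ofPred_eq]
          rw [smul_sub, hx, hx₀, sub_self]
        exact (hfin_a.image _).subset this
      · push Not at hb
        have : (fun x : A => q • x) ⁻¹' {b} = ∅ := by
          ext x; simp only [Set.mem_preimage, Set.mem_singleton_iff, Set.mem_empty_iff_false, iff_false]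
          exact hb x
        rw [this]; exact Set.finite_empty
  have hall := tors (AddMonoid.exponent A) (Nat.one_le_iff_ne_zero.mpr hA)
  have huniv : {x : A | AddMonoid.exponent A • x = 0} = Set.univ := by
    ext x; simp [AddMonoid.exponent_nsmul_eq_zero]
  rw [huniv] at hall
  exact Set.finite_univ_iff.mp hall

end Groth.Agent.S13362
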