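import Groth.Statements.S13363
import Mathlib.Algebra.Module.CharacterModule
import Mathlib.Topology.Instances.AddCircle.Defs
import Mathlib.GroupTheory.OrderOfElement
import Mathlib.Topology.Algebra.Group.Quotient
import Mathlib.Topology.Algebra.OpenSubgroup
-- import your own Groth.Agent.* helpers here

set_option autoImplicit false
universe u
open ProCompl

namespace Groth.Agent.S13363

/-- Let A be a topological abelian group such that the subgroup n·A is open for each n > 0, and a ∈ A.
Then A has an open subgroup of finite index not containing a if and only if a does not lie in the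
subgroup of divisible elements ∩_n nA. -/
theorem result {A : Type u} [AddCommGroup A]
    [TopologicalSpace A] [IsTopologicalAddGroup A]
    (hn : ∀ n : ℕ, 0 < n → IsOpen (Set.range (fun x : A => n • x))) (a : A) :
    (∃ B : AddSubgroup A, IsOpen (B : Set A) ∧ B.FiniteIndex ∧ a ∉ B) ↔
      ¬ (∀ n : ℕ, 0 < n → ∃ b : A, n • b = a) := by
  constructor
  · rintro ⟨B, hBo, hBf, haB⟩ hdiv
    obtain ⟨b, hb⟩ := hdiv B.index (Nat.pos_of_ne_zero hBf.index_ne_zero)
    apply haB
    rw [← hb]
    exact AddSubgroup.nsmul_index_mem B b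
  · intro hnd
    push Not at hnd
    obtain ⟨n, hn0, hnb⟩ := hnd
    let C : AddSubgroup A :=
      { carrier := Set.range (fun x : A => n • x)
        add_mem' := by
          rintro _ _ ⟨x, rfl⟩ ⟨y, rfl⟩
          exact ⟨x + y, smul_add n x y⟩
        zero_mem' := ⟨0, smul_zero n⟩
        neg_mem' := by
          rintro _ ⟨x, rfl⟩
          exact ⟨-x, smul_neg n x⟩ }
    have hCo : IsOpen (C : Set A) := hn n hn0
    have hmemC : ∀ x : A, n • x ∈ C := fun x => ⟨x, rfl⟩
    have haC : (QuotientAddGroup.mk a : A ⧸ C) ≠ 0 := by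
      rw [Ne, QuotientAddGroup.eq_zero_iff]
      rintro ⟨b, hb⟩
      exact hnb b hb
    obtain ⟨c, hc⟩ := CharacterModule.exists_character_apply_ne_zero_of_ne_zero haC
    let f : A →+ AddCircle (1 : ℚ) := (c : (A ⧸ C) →+ AddCircle (1 : ℚ)).comp (QuotientAddGroup.mk' C)
    have hf : ∀ x, f x = c (QuotientAddGroup.mk x) := fun x => rfl
    refine ⟨f.ker, ?_, ?_, ?_⟩
    · apply AddSubgroup.isOpen_mono _ hCo
      intro x hx
      rw [AddMonoidHom.mem_ker, hf, (QuotientAddGroup.eq_zero_iff x).mpr hx, map_zero]
    · constructor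
      rw [AddSubgroup.index_ker]
      have hfin : (f.range : Set (AddCircle (1 : ℚ))) ⊆ {u | n • u = 0} := by
        rintro _ ⟨x, rfl⟩
        change n • f x = 0
        rw [← map_nsmul, hf, (QuotientAddGroup.eq_zero_iff _).mpr (hmemC x), map_zero]
      have : Finite f.range := ((AddCircle.finite_torsion (1 : ℚ) hn0).subset hfin).to_subtype
      exact Nat.card_pos.ne'
    · rw [AddMonoidHom.mem_ker, hf]
      exact hc

end Groth.Agent.S13363
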