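import Groth.Statements.S13364
-- import your own Groth.Agent.* helpers here

set_option autoImplicit false
universe u
open ProCompl

namespace Groth.Agent.S13364

/-- In a short exact sequence 0 → A' → A → A'' → 0 of abelian groups, if neither A' nor A'' has a
nonzero divisible element (an element of nA for every n > 0) and the torsion elements of A'' are
killed by one positive integer, then A has no nonzero divisible element. -/
theorem result {A' A A'' : Type u} [AddCommGroup A'] [AddCommGroup A]
    [AddCommGroup A''] (f : A' →+ A) (g : A →+ A'') (hf : Function.Injective f) (hg : Function.Surjective g)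
    (hfg : g.ker = f.range)
    (h' : ∀ x : A', (∀ n : ℕ, 0 < n → ∃ y : A', n • y = x) → x = 0)
    (h'' : ∀ x : A'', (∀ n : ℕ, 0 < n → ∃ y : A'', n • y = x) → x = 0)
    (htors : ∃ N : ℕ, 0 < N ∧ ∀ x : A'', IsOfFinAddOrder x → N • x = 0)
    (x : A) (hx : ∀ n : ℕ, 0 < n → ∃ y : A, n • y = x) : x = 0 := by
  have hgx : g x = 0 := by
    apply h''
    intro n hn
    obtain ⟨y, hy⟩ := hx n hn
    exact ⟨g y, by rw [← map_nsmul, hy]⟩
  have hxr : x ∈ f.range := by rw [← hfg]; exact hgx
  obtain ⟨x', rfl⟩ := hxr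
  obtain ⟨N, hN, hNt⟩ := htors
  have hx' : x' = 0 := by
    apply h'
    intro n hn
    obtain ⟨y, hy⟩ := hx (N * n) (Nat.mul_pos hN hn)
    have hgy : IsOfFinAddOrder (g y) := by
      rw [isOfFinAddOrder_iff_nsmul_eq_zero]
      refine ⟨N * n, Nat.mul_pos hN hn, ?_⟩
      rw [← map_nsmul, hy, hgx]
    have h1 : g (N • y) = 0 := by rw [map_nsmul, hNt _ hgy]
    have h2 : N • y ∈ f.range := by rw [← hfg]; exact h1
    obtain ⟨z, hz⟩ := h2
    refine ⟨z, hf ?_⟩
    rw [map_nsmul, hz, ← hy, smul_smul, mul_comm]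
  rw [hx', map_zero]

end Groth.Agent.S13364
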