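import Groth.Statements.S13365
import Mathlib.Topology.Algebra.ClopenNhdofOne
-- import your own Groth.Agent.* helpers here

set_option autoImplicit false
universe u
open ProCompl

namespace Groth.Agent.S13365

/-- The quotient of a profinite (compact, Hausdorff, totally disconnected) abelian topological group by
a compact subgroup is profinite. -/
theorem result {A : Type u} [AddCommGroup A] [TopologicalSpace A]
    [IsTopologicalAddGroup A] [CompactSpace A] [T2Space A] [TotallyDisconnectedSpace A]
    (B : AddSubgroup A) (hB : IsCompact (B : Set A)) :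
    CompactSpace (A ⧸ B) ∧ T2Space (A ⧸ B) ∧ TotallyDisconnectedSpace (A ⧸ B) := by
  have hBc : IsClosed (B : Set A) := hB.isClosed
  refine ⟨inferInstance, inferInstance, ?_⟩
  rw [totallyDisconnectedSpace_iff_connectedComponent_zero]
  apply Set.Subset.antisymm _ (Set.singleton_subset_iff.mpr mem_connectedComponent)
  intro x hx
  obtain ⟨a, rfl⟩ := QuotientAddGroup.mk_surjective x
  rw [Set.mem_singleton_iff, QuotientAddGroup.eq_zero_iff]
  have key := ProfiniteGrp.closedAddSubgroup_eq_sInf_open (⟨B, hBc⟩ : ClosedAddSubgroup A)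
  have hB' : B = sInf {N : AddSubgroup A | IsOpen (N : Set A) ∧ B ≤ N} := key
  rw [hB', AddSubgroup.mem_sInf]
  rintro N ⟨hNo, hBN⟩
  let N' : AddSubgroup (A ⧸ B) := N.map (QuotientAddGroup.mk' B)
  have hN'o : IsOpen (N' : Set (A ⧸ B)) := by
    change IsOpen ((QuotientAddGroup.mk' B) '' (N : Set A))
    exact QuotientAddGroup.isOpenMap_coe _ hNo
  have hN'c : IsClopen (N' : Set (A ⧸ B)) := ⟨AddSubgroup.isClosed_of_isOpen N' hN'o, hN'o⟩
  have h0 : (0 : A ⧸ B) ∈ (N' : Set (A ⧸ B)) := N'.zero_mem
  have hsub := hN'c.connectedComponent_subset h0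
  obtain ⟨n, hn, hna⟩ := hsub hx
  have hna' : ((n : A) : A ⧸ B) = (a : A ⧸ B) := hna
  rw [QuotientAddGroup.eq] at hna'
  have : -n + a ∈ N := hBN hna'
  have := N.add_mem hn this
  simpa using this

end Groth.Agent.S13365
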