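import Groth.Statements.S13603
import Mathlib.Tactic.LinearCombination
-- import your own Groth.Agent.* helpers here

set_option autoImplicit false
universe u v
open CAlg

namespace Groth.Agent.S13603

/-- Let a group G act on a commutative ring B by ring automorphisms so that every element of B has a
finite orbit, and let S ⊆ B be a multiplicative set of G-fixed elements (so each g ∈ G induces an
endomorphism of the localization S⁻¹B; the hypothesis that g maps S into S is implied by the
previous one and is only carried to name that endomorphism). Then an element of S⁻¹B is fixed by all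
of G if and only if it is a fraction b/s with b fixed by G and s ∈ S: the canonical map S⁻¹(B^G) →
(S⁻¹B)^G is onto. -/
theorem result {B : Type u} [CommRing B]
    {G : Type v} [Group G] [MulSemiringAction G B] (hfin : ∀ b : B, (MulAction.orbit G b).Finite)
    (S : Submonoid B) (hS : ∀ (g : G) (s : B), s ∈ S → g • s = s)
    (hS' : ∀ g : G, S ≤ S.comap (MulSemiringAction.toRingHom G B g)) (x : Localization S) :
    (∀ g : G, IsLocalization.map (Localization S) (MulSemiringAction.toRingHom G B g) (hS' g) x = x) ↔
      ∃ (b : B) (s : S), (∀ g : G, g • b = b) ∧ x = IsLocalization.mk' (Localization S) b s := by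
  classical
  obtain ⟨⟨b, s⟩, rfl⟩ := IsLocalization.mk'_surjective S x
  have hmap : ∀ (g : G) (c : B) (t : S), IsLocalization.map (Localization S)
      (MulSemiringAction.toRingHom G B g) (hS' g) (IsLocalization.mk' (Localization S) c t) =
        IsLocalization.mk' (Localization S) (g • c) t := by
    intro g c t
    rw [IsLocalization.map_mk']
    congr 1
    exact Subtype.ext (hS g t t.2)
  constructor
  · intro hx
    have hg : ∀ g : G, ∃ t : S, (t : B) * (g • b) = t * b := by
      intro g
      have := hx g
      simp only at this
      rw [hmap, IsLocalization.mk'_eq_iff_eq, IsLocalization.eq_iff_exists S] at this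
      obtain ⟨c, hc⟩ := this
      refine ⟨c * s, ?_⟩
      simp only [Submonoid.coe_mul]
      linear_combination hc
    choose tg htg using hg
    have hO : ∀ y ∈ (hfin b).toFinset, ∃ g : G, g • b = y := fun y hy => by
      rw [Set.Finite.mem_toFinset] at hy
      obtain ⟨g, rfl⟩ := hy
      exact ⟨g, rfl⟩
    choose! gy hgy using hO
    let t : B := ∏ y ∈ (hfin b).toFinset, (tg (gy y) : B)
    have htS : t ∈ S := Submonoid.prod_mem S (fun y _ => (tg (gy y)).2)
    have ht : ∀ h : G, t * (h • b) = t * b := by
      intro h
      have hy : h • b ∈ (hfin b).toFinset := by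
        rw [Set.Finite.mem_toFinset]; exact ⟨h, rfl⟩
      have hsplit : t = (tg (gy (h • b)) : B) *
          ∏ y ∈ (hfin b).toFinset.erase (h • b), (tg (gy y) : B) :=
        (Finset.mul_prod_erase _ _ hy).symm
      have key := htg (gy (h • b))
      rw [hgy _ hy] at key
      rw [hsplit]
      linear_combination (∏ y ∈ (hfin b).toFinset.erase (h • b), (tg (gy y) : B)) * key
    refine ⟨t * b, ⟨t, htS⟩ * s, ?_, ?_⟩
    · intro h
      rw [smul_mul', hS h t htS, ht h]
    · simp only
      rw [mul_comm t b, mul_comm (⟨t, htS⟩ : S) s]
      exact (IsLocalization.mk'_cancel b s ⟨t, htS⟩).symm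
  · rintro ⟨b', s', hb', heq⟩ g
    simp only at heq ⊢
    rw [heq, hmap]
    congr 1
    exact hb' g

end Groth.Agent.S13603
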