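import Groth.Statements.S13681
-- import your own Groth.Agent.* helpers here

set_option autoImplicit false
open BTGrp

namespace Groth.Agent.S13681

/-- Fix natural numbers r and M and consider the vectors d in N^r with every component less than M and
some component equal to zero. The map sending such a d to the vector with components (max_j d_j) -
d_i again has every component less than M and some component zero, and applying it twice gives back
d. -/
theorem result (r M : ℕ) (d : Fin r → ℕ)
    (hmin : ∃ i, d i = 0) (hmax : ∀ i, d i < M) :
    ((∃ i, Finset.univ.sup d - d i = 0) ∧ (∀ i, Finset.univ.sup d - d i < M)) ∧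
      (fun i => Finset.univ.sup (fun j => Finset.univ.sup d - d j) - (Finset.univ.sup d - d i)) = d := by
  obtain ⟨i0, hi0⟩ := hmin
  have hne : (Finset.univ : Finset (Fin r)).Nonempty := ⟨i0, Finset.mem_univ _⟩
  obtain ⟨im, -, him⟩ := Finset.exists_mem_eq_sup Finset.univ hne d
  set S := Finset.univ.sup d with hS
  have hle : ∀ i, d i ≤ S := fun i => Finset.le_sup (f := d) (Finset.mem_univ i)
  have hSM : S < M := by rw [him]; exact hmax im
  have hsup' : Finset.univ.sup (fun j => S - d j) = S := by
    apply le_antisymm
    · exact Finset.sup_le (fun j _ => Nat.sub_le _ _)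
    · have : S - d i0 = S := by rw [hi0, Nat.sub_zero]
      calc S = S - d i0 := this.symm
        _ ≤ _ := Finset.le_sup (f := fun j => S - d j) (Finset.mem_univ i0)
  refine ⟨⟨⟨im, by rw [← him, Nat.sub_self]⟩, fun i => lt_of_le_of_lt (Nat.sub_le _ _) hSM⟩, ?_⟩
  funext i
  rw [hsup']
  have := hle i
  omega

end Groth.Agent.S13681
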