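import Groth.Statements.S13683
-- import your own Groth.Agent.* helpers here

set_option autoImplicit false
universe u v
open BTGrp

namespace Groth.Agent.S13683

theorem iter_nsmul {X : Type*} [AddCommGroup X] (f : X →+ X) (n k : ℕ) (x : X) :
    (⇑f)^[n] (k • x) = k • (⇑f)^[n] x := by
  induction n with
  | zero => simp
  | succ n ih => rw [Function.iterate_succ_apply', ih, map_nsmul, Function.iterate_succ_apply']


/-- Let p be a natural number and r ≥ 1; let M_1, …, M_r and N be abelian groups carrying additive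
endomorphisms F_i, V_i (on M_i) and F_0, V_0 (on N) with V_i ∘ F_i and V_0 ∘ F_0 equal to
multiplication by p and V_0 injective; let φ : M_1 × ⋯ × M_r → N be additive in each variable with
φ(V_1 x_1, …, V_r x_r) = V_0 φ(x_1, …, x_r). If y_i, z_i ∈ M_i satisfy F_i^N z_i = V_i^M y_i for all
i, then for every d ∈ N^r one has F_0^N (p^{(r-1)N} φ(V_1^{d_1} z_1, …, V_r^{d_r} z_r)) = V_0^M
φ(V_1^{d_1} y_1, …, V_r^{d_r} y_r). (The published statement is the case of Dieudonné modules over a
perfect field of characteristic p, with F and V the Frobenius and Verschiebung and φ a multilinear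
morphism of the associated displays; only the structure listed here enters its proof. For r = 0 the
assertion fails, so r ≥ 1 is required.) -/
theorem result (p : ℕ) {r : ℕ} (hr : 0 < r)
    (M : Fin r → Type u) (N : Type v) [∀ i, AddCommGroup (M i)] [AddCommGroup N]
    (F V : ∀ i, M i →+ M i) (F₀ V₀ : N →+ N)
    (hVF : ∀ i (x : M i), V i (F i x) = p • x) (hVF₀ : ∀ x : N, V₀ (F₀ x) = p • x)
    (hV₀ : Function.Injective V₀)
    (φ : MultilinearMap ℤ M N) (hφ : ∀ x : ∀ i, M i, φ (fun i => V i (x i)) = V₀ (φ x))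
    (Nn Mm : ℕ) (d : Fin r → ℕ) (y z : ∀ i, M i)
    (hyz : ∀ i, (⇑(F i))^[Nn] (z i) = (⇑(V i))^[Mm] (y i)) :
    (⇑F₀)^[Nn] (p ^ ((r - 1) * Nn) • φ (fun i => (⇑(V i))^[d i] (z i))) =
      (⇑V₀)^[Mm] (φ (fun i => (⇑(V i))^[d i] (y i))) := by
  have iter0 : ∀ (n : ℕ) (x : N), (⇑V₀)^[n] ((⇑F₀)^[n] x) = p ^ n • x := by
    intro n
    induction n with
    | zero => intro x; simp
    | succ n ih =>
      intro x
      rw [Function.iterate_succ_apply (⇑V₀), Function.iterate_succ_apply' (⇑F₀), hVF₀,
        iter_nsmul, ih, smul_smul, pow_succ']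
  have iterM : ∀ (i : Fin r) (n : ℕ) (x : M i), (⇑(V i))^[n] ((⇑(F i))^[n] x) = p ^ n • x := by
    intro i n
    induction n with
    | zero => intro x; simp
    | succ n ih =>
      intro x
      rw [Function.iterate_succ_apply (⇑(V i)), Function.iterate_succ_apply' (⇑(F i)), hVF,
        iter_nsmul, ih, smul_smul, pow_succ']
  have iterφ : ∀ (n : ℕ) (x : ∀ i, M i), φ (fun i => (⇑(V i))^[n] (x i)) = (⇑V₀)^[n] (φ x) := by
    intro n
    induction n with
    | zero => intro x; simp
    | succ n ih =>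
      intro x
      simp only [Function.iterate_succ_apply]
      rw [ih (fun i => V i (x i)), hφ]
  apply hV₀.iterate Nn
  rw [iter0, smul_smul, ← pow_add]
  have hexp : Nn + (r - 1) * Nn = r * Nn := by
    obtain ⟨s, rfl⟩ : ∃ s, r = s + 1 := ⟨r - 1, by omega⟩
    simp; ring
  rw [hexp]
  have hsmul : φ (fun i => (p ^ Nn : ℤ) • (⇑(V i))^[d i] (z i)) =
      ((p : ℤ) ^ (r * Nn)) • φ (fun i => (⇑(V i))^[d i] (z i)) := by
    rw [MultilinearMap.map_smul_univ, Finset.prod_const, Finset.card_univ, Fintype.card_fin,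
      ← pow_mul, mul_comm Nn r]
  have hleft : φ (fun i => (p ^ Nn : ℤ) • (⇑(V i))^[d i] (z i)) =
      φ (fun i => (⇑(V i))^[Nn + Mm] ((⇑(V i))^[d i] (y i))) := by
    congr 1
    funext i
    rw [← Nat.cast_pow, natCast_zsmul, ← iter_nsmul, ← iterM i Nn (z i), hyz i,
      ← Function.iterate_add_apply, ← Function.iterate_add_apply, ← Function.iterate_add_apply]
    congr 1
    ring
  rw [← Function.iterate_add_apply, ← iterφ, ← hleft, hsmul]
  rw [← natCast_zsmul]
  push_cast
  rfl

end Groth.Agent.S13683
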