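import Groth.Statements.S13771
-- import your own Groth.Agent.* helpers here

set_option autoImplicit false
universe u v w
open PLie

namespace Groth.Agent.S13771

theorem bw_map {R : Type u} [CommRing R] {L₁ : Type v} [LieRing L₁] [LieAlgebra R L₁]
    {L₂ : Type w} [LieRing L₂] [LieAlgebra R L₂] {ι : Type} (g : L₁ →ₗ⁅R⁆ L₂) (x : ι → L₁)
    (x₁ : L₁) (l : List ι) :
    g (PLie.bracketWord x x₁ l) = PLie.bracketWord (fun i => g (x i)) (g x₁) l := by
  induction l with
  | nil => rfl
  | cons i w ih => simp only [PLie.bracketWord_cons, LieHom.map_lie, ih]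

theorem jac_map {R : Type u} [CommRing R] (p : ℕ) [CharP R p] {L₁ : Type v} [LieRing L₁]
    [LieAlgebra R L₁] {L₂ : Type w} [LieRing L₂] [LieAlgebra R L₂] (g : L₁ →ₗ⁅R⁆ L₂)
    (x₀ x₁ : L₁) : g (PLie.jacobson R p x₀ x₁) = PLie.jacobson R p (g x₀) (g x₁) := by
  unfold PLie.jacobson
  rw [map_sum]
  refine Finset.sum_congr rfl (fun t _ => ?_)
  rw [map_smul, bw_map]
  congr 2
  funext b
  cases b <;> rfl

theorem bw_zero {L : Type v} [LieRing L] {ι : Type} (x : ι → L) (l : List ι) :
    PLie.bracketWord x 0 l = 0 := by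
  induction l with
  | nil => rfl
  | cons i w ih => simp only [PLie.bracketWord_cons, ih, lie_zero]

theorem jac_zero {R : Type u} [CommRing R] (p : ℕ) [CharP R p] {L : Type v} [LieRing L]
    [LieAlgebra R L] (a : L) : PLie.jacobson R p a 0 = 0 := by
  unfold PLie.jacobson
  refine Finset.sum_eq_zero (fun t _ => ?_)
  have : PLie.bracketWord (PLie.pair a (0 : L)) 0 (List.ofFn t) = 0 := bw_zero _ _
  rw [this, smul_zero]

theorem ad_pow_map {R : Type u} [CommRing R] {L₁ : Type v} [LieRing L₁] [LieAlgebra R L₁]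
    {L₂ : Type w} [LieRing L₂] [LieAlgebra R L₂] (g : L₁ →ₗ⁅R⁆ L₂) (x w : L₁) (n : ℕ) :
    g ((LieAlgebra.ad R L₁ x ^ n) w) = (LieAlgebra.ad R L₂ (g x) ^ n) (g w) := by
  induction n with
  | zero => rfl
  | succ n ih =>
    rw [pow_succ', pow_succ', Module.End.mul_apply, Module.End.mul_apply, LieAlgebra.ad_apply,
      LieAlgebra.ad_apply, LieHom.map_lie, ih]


/-- Let R be a commutative ring of prime characteristic p, L₁ and L₂ Lie algebras over R, φ a p-mapping
on L₁ and f : L₁ → L₂ a morphism of Lie algebras whose kernel is stable under φ (a p-ideal). Then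
the image f(L₁), a Lie subalgebra of L₂, carries exactly one p-mapping ψ for which the corestriction
of f to its image is a morphism of p-Lie algebras, i.e. ψ (f x) = f (φ x) for all x. -/
theorem result (R : Type u) [CommRing R] (p : ℕ) [Fact p.Prime] [CharP R p]
    (L₁ : Type v) [LieRing L₁] [LieAlgebra R L₁] (L₂ : Type w) [LieRing L₂] [LieAlgebra R L₂]
    (φ : PLie.PMap R p L₁) (f : L₁ →ₗ⁅R⁆ L₂) (hker : ∀ x : L₁, f x = 0 → f (φ x) = 0) :
    ∃! ψ : PLie.PMap R p f.range, PLie.IsPHom φ ψ f.rangeRestrict := by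
  classical
  have hwd : ∀ x x' : L₁, f x = f x' → f (φ x) = f (φ x') := by
    intro x x' hxx
    have hd : f (x - x') = 0 := by rw [map_sub, hxx, sub_self]
    have h1 : x = x' + (x - x') := by abel
    have := φ.map_add x' (x - x')
    rw [← h1] at this
    change φ.toFun x = _ at this
    rw [PLie.PMap.toFun_eq_coe] at this
    rw [this, map_sub, map_add, hker _ hd, jac_map, hd, jac_zero]
    simp
  have hsel : ∀ y : f.range, ∃ x : L₁, f x = y := fun y => (f.mem_range y.1).mp y.2
  let sel : f.range → L₁ := fun y => Classical.choose (hsel y)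
  have hsel' : ∀ y : f.range, f (sel y) = y := fun y => Classical.choose_spec (hsel y)
  let ψf : f.range → f.range := fun y => ⟨f (φ (sel y)), (f.mem_range _).mpr ⟨_, rfl⟩⟩
  have hψf : ∀ y : f.range, ((ψf y : f.range) : L₂) = f (φ (sel y)) := fun y => rfl
  have hincl : ∀ y : f.range, (f.range.incl y : L₂) = y := fun y => rfl
  let ψ : PLie.PMap R p f.range :=
    { toFun := ψf
      map_smul := by
        intro c y
        apply Subtype.ext
        change f (φ.toFun (sel (c • y))) = ((c ^ p • ψf y : f.range) : L₂)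
        rw [SetLike.val_smul, hψf]
        have : f (sel (c • y)) = f (c • sel y) := by
          rw [hsel', map_smul, hsel']; rfl
        rw [hwd _ _ this, φ.map_smul, map_smul]
      ad_map := by
        intro y
        ext z
        change ((⁅ψf y, z⁆ : f.range) : L₂) = ((((LieAlgebra.ad R f.range y) ^ p) z : f.range) : L₂)
        have e1 : ((((LieAlgebra.ad R f.range y) ^ p) z : f.range) : L₂) =
            ((LieAlgebra.ad R L₂ (y : L₂)) ^ p) (z : L₂) := ad_pow_map f.range.incl y z p
        have e2 : f ((LieAlgebra.ad R L₁ (sel y) ^ p) (sel z)) =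
            ((LieAlgebra.ad R L₂ (f (sel y))) ^ p) (f (sel z)) := ad_pow_map f (sel y) (sel z) p
        have e3 : ⁅φ.toFun (sel y), sel z⁆ = (LieAlgebra.ad R L₁ (sel y) ^ p) (sel z) := by
          have := congrArg (fun F => F (sel z)) (φ.ad_map (sel y))
          simpa [LieAlgebra.ad_apply] using this
        rw [e1, LieSubalgebra.coe_bracket, hψf, ← hsel' z, ← LieHom.map_lie, e3, e2, hsel' y]
      map_add := by
        intro y₀ y₁
        apply Subtype.ext
        have hj : ((PLie.jacobson R p y₀ y₁ : f.range) : L₂) =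
            PLie.jacobson R p (y₀ : L₂) (y₁ : L₂) := jac_map p f.range.incl y₀ y₁
        change f (φ.toFun (sel (y₀ + y₁))) =
          ((ψf y₀ + ψf y₁ - PLie.jacobson R p y₀ y₁ : f.range) : L₂)
        rw [AddSubgroupClass.coe_sub, AddMemClass.coe_add, hψf, hψf, hj]
        have : f (sel (y₀ + y₁)) = f (sel y₀ + sel y₁) := by
          rw [hsel', map_add, hsel', hsel']; rfl
        rw [hwd _ _ this, φ.map_add, map_sub, map_add, jac_map, hsel', hsel'] }
  refine ⟨ψ, ?_, ?_⟩
  · intro x
    apply Subtype.ext
    change f (φ x) = f (φ (sel (f.rangeRestrict x)))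
    exact hwd _ _ (hsel' (f.rangeRestrict x)).symm
  · intro ψ' hψ'
    have hfun : ψ'.toFun = ψ.toFun := by
      funext y
      have hy : y = f.rangeRestrict (sel y) := Subtype.ext (hsel' y).symm
      have := hψ' (sel y)
      change _ = ψ'.toFun (f.rangeRestrict (sel y)) at this
      rw [← hy] at this
      rw [← this]
      rfl
    have hext : ∀ a b : PLie.PMap R p f.range, a.toFun = b.toFun → a = b := by
      intro a b h
      cases a
      cases b
      simp only at h
      subst h
      rfl
    exact hext _ _ hfun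

end Groth.Agent.S13771
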