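import Groth.Statements.S13772
-- import your own Groth.Agent.* helpers here

set_option autoImplicit false
universe u v
open PLie

namespace Groth.Agent.S13772

/-- Let R be a commutative ring of prime characteristic p and L a Lie algebra over R with a p-mapping γ.
For a map g : L → L, there is a p-mapping γ' on L with γ' x = γ x + g x for every x if and only if g
is additive, g (c • x) = c ^ p • g x for all scalars c, and every value g x lies in the centre of L.
(Both parts of the published statement at once: the difference of two p-mappings is a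
Frobenius-semilinear map into the centre, and adding such a map to a p-mapping gives a p-mapping.) -/
theorem result (R : Type u) [CommRing R] (p : ℕ) [Fact p.Prime] [CharP R p]
    (L : Type v) [LieRing L] [LieAlgebra R L] (γ : PLie.PMap R p L) (g : L → L) :
    (∃ γ' : PLie.PMap R p L, ∀ x : L, γ' x = γ x + g x) ↔
      ((∀ x y : L, g (x + y) = g x + g y) ∧ (∀ (c : R) (x : L), g (c • x) = c ^ p • g x) ∧
        ∀ x : L, g x ∈ LieAlgebra.center R L) := by
  constructor
  · rintro ⟨γ', hγ'⟩
    have hg : ∀ x, g x = γ' x - γ x := fun x => by rw [hγ']; abel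
    refine ⟨fun x y => ?_, fun c x => ?_, fun x => ?_⟩
    · rw [hg, hg, hg]
      show γ'.toFun (x + y) - γ.toFun (x + y) = (γ'.toFun x - γ.toFun x) + (γ'.toFun y - γ.toFun y)
      rw [γ'.map_add, γ.map_add]; abel
    · rw [hg, hg]
      show γ'.toFun (c • x) - γ.toFun (c • x) = c ^ p • (γ'.toFun x - γ.toFun x)
      rw [γ'.map_smul, γ.map_smul, smul_sub]
    · rw [LieAlgebra.center, LieModule.mem_maxTrivSubmodule]
      intro z
      rw [hg, lie_sub, ← lie_skew, ← lie_skew z (γ x), ← LieAlgebra.ad_apply R, ← LieAlgebra.ad_apply R]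
      show -(LieAlgebra.ad R L (γ'.toFun x)) z - -(LieAlgebra.ad R L (γ.toFun x)) z = 0
      rw [γ'.ad_map, γ.ad_map, sub_self]
  · rintro ⟨hadd, hsmul, hcen⟩
    have had0 : ∀ x, LieAlgebra.ad R L (g x) = 0 := by
      intro x
      ext z
      have := hcen x
      rw [LieAlgebra.center, LieModule.mem_maxTrivSubmodule] at this
      rw [LieAlgebra.ad_apply, LinearMap.zero_apply, ← lie_skew, this z, neg_zero]
    refine ⟨⟨fun x => γ x + g x, fun c x => ?_, fun x => ?_, fun x y => ?_⟩, fun x => rfl⟩
    · show γ.toFun (c • x) + g (c • x) = c ^ p • (γ.toFun x + g x)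
      rw [γ.map_smul, hsmul, smul_add]
    · show LieAlgebra.ad R L (γ.toFun x + g x) = LieAlgebra.ad R L x ^ p
      rw [map_add, had0, add_zero, γ.ad_map]
    · show γ.toFun (x + y) + g (x + y) = (γ.toFun x + g x) + (γ.toFun y + g y) - PLie.jacobson R p x y
      rw [γ.map_add, hadd]; abel

end Groth.Agent.S13772
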