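import Groth.Statements.S13775
-- import your own Groth.Agent.* helpers here

set_option autoImplicit false
universe u v
open PLie

namespace Groth.Agent.S13775

/-- Let R be a commutative ring of prime characteristic p and L a Lie algebra over R, free as a module
with basis x = bs 0, y = bs 1, z = bs 2 and brackets [x,y] = y, [x,z] = y + z, [y,z] = 0. Then L
carries no p-mapping. (The published statement is the corresponding entry of the classification
table of three-dimensional Lie algebras over an algebraically closed field of characteristic p; this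
row states it over every commutative ring of characteristic p.) -/
theorem result (R : Type u) [CommRing R] (p : ℕ) [Fact p.Prime] [CharP R p]
    (L : Type v) [LieRing L] [LieAlgebra R L] (bs : Module.Basis (Fin 3) R L)
    (hxy : ⁅bs 0, bs 1⁆ = bs 1) (hxz : ⁅bs 0, bs 2⁆ = bs 1 + bs 2) (hyz : ⁅bs 1, bs 2⁆ = 0) :
    IsEmpty (PLie.PMap R p L) := by
  constructor
  intro γ
  have : Nontrivial R := CharP.nontrivial_of_char_ne_one (Fact.out : p.Prime).one_lt.ne'
  have had := γ.ad_map (bs 0)
  have hpy : ∀ n : ℕ, (LieAlgebra.ad R L (bs 0) ^ n) (bs 1) = bs 1 := by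
    intro n
    induction n with
    | zero => simp
    | succ n ih => rw [pow_succ', Module.End.mul_apply, ih, LieAlgebra.ad_apply, hxy]
  have hpz : ∀ n : ℕ, (LieAlgebra.ad R L (bs 0) ^ n) (bs 2) = (n : R) • bs 1 + bs 2 := by
    intro n
    induction n with
    | zero => simp
    | succ n ih =>
      rw [pow_succ', Module.End.mul_apply, ih, LieAlgebra.ad_apply, lie_add, lie_smul, hxy, hxz]
      push_cast
      rw [add_smul, one_smul]
      abel
  have hwy : ⁅γ.toFun (bs 0), bs 1⁆ = bs 1 := by
    rw [← LieAlgebra.ad_apply R, had, hpy]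
  have hwz : ⁅γ.toFun (bs 0), bs 2⁆ = bs 2 := by
    rw [← LieAlgebra.ad_apply R, had, hpz, CharP.cast_eq_zero, zero_smul, zero_add]
  have hw : γ.toFun (bs 0) = ∑ i, bs.repr (γ.toFun (bs 0)) i • bs i := (bs.sum_repr _).symm
  have h21 : ⁅bs 2, bs 1⁆ = 0 := by rw [← lie_skew, hyz, neg_zero]
  rw [hw, Fin.sum_univ_three] at hwy hwz
  simp only [add_lie, smul_lie, lie_self, smul_zero, add_zero, hxy, hxz, hyz, h21] at hwy hwz
  have e1 := congrArg (fun v => bs.repr v 1) hwy
  have e2 := congrArg (fun v => bs.repr v 1) hwz
  simp at e1 e2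
  rw [e1] at e2
  exact one_ne_zero e2

end Groth.Agent.S13775
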