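import Groth.Statements.S13777
-- import your own Groth.Agent.* helpers here

set_option autoImplicit false
universe u v
open PLie

namespace Groth.Agent.S13777

/-- Let R be a commutative ring of characteristic 2 and L a Lie algebra over R, free as a module with
basis x = bs 0, y = bs 1, z = bs 2 and brackets [x,y] = z, [x,z] = −x, [y,z] = y. Then L carries no
2-mapping. (The published statement is the corresponding entry of the classification table over an
algebraically closed field of characteristic 2; this row states it over every commutative ring of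
characteristic 2.) -/
theorem result (R : Type u) [CommRing R] [CharP R 2]
    (L : Type v) [LieRing L] [LieAlgebra R L] (bs : Module.Basis (Fin 3) R L)
    (hxy : ⁅bs 0, bs 1⁆ = bs 2) (hxz : ⁅bs 0, bs 2⁆ = -bs 0) (hyz : ⁅bs 1, bs 2⁆ = bs 1) :
    IsEmpty (PLie.PMap R 2 L) := by
  constructor
  intro γ
  have : Nontrivial R := CharP.nontrivial_of_char_ne_one (by norm_num : (2 : ℕ) ≠ 1)
  have had := γ.ad_map (bs 0)
  have hwy : ⁅γ.toFun (bs 0), bs 1⁆ = -bs 0 := by
    rw [← LieAlgebra.ad_apply R, had, pow_two, Module.End.mul_apply, LieAlgebra.ad_apply,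
      LieAlgebra.ad_apply, hxy, hxz]
  have hw : γ.toFun (bs 0) = ∑ i, bs.repr (γ.toFun (bs 0)) i • bs i := (bs.sum_repr _).symm
  have h21 : ⁅bs 2, bs 1⁆ = -bs 1 := by rw [← lie_skew, hyz]
  rw [hw, Fin.sum_univ_three] at hwy
  simp only [add_lie, smul_lie, lie_self, smul_zero, add_zero, hxy, h21] at hwy
  have e1 := congrArg (fun v => bs.repr v 0) hwy
  simp at e1

end Groth.Agent.S13777
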