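import Groth.Statements.S13780
-- import your own Groth.Agent.* helpers here

set_option autoImplicit false
universe u v w
open PLie

namespace Groth.Agent.S13780

/-- Let R be a commutative ring of prime characteristic p, L and L' Lie algebras over R with p-mappings
γ and γ', the centre of L' being zero, and φ : L ≃ L' an isomorphism of Lie algebras over R. Then φ
(γ x) = γ' (φ x) for every x: φ is an isomorphism of p-Lie algebras. (The published statement is the
case L' = L of a centreless restrictable Lie algebra over a field with its unique p-mapping and a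
Lie algebra automorphism; this row allows two algebras and any commutative base ring of
characteristic p.) -/
theorem result (R : Type u) [CommRing R] (p : ℕ) [Fact p.Prime] [CharP R p]
    (L : Type v) [LieRing L] [LieAlgebra R L] (L' : Type w) [LieRing L'] [LieAlgebra R L']
    (γ : PLie.PMap R p L) (γ' : PLie.PMap R p L') (hZ : LieAlgebra.center R L' = ⊥) (φ : L ≃ₗ⁅R⁆ L') :
    PLie.IsPHom γ γ' φ.toLieHom := by
  intro x
  have hpow : ∀ (n : ℕ) (v : L), φ (((LieAlgebra.ad R L x) ^ n) v) =
      ((LieAlgebra.ad R L' (φ x)) ^ n) (φ v) := by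
    intro n
    induction n with
    | zero => intro v; simp
    | succ n ih =>
      intro v
      rw [pow_succ', pow_succ', Module.End.mul_apply, Module.End.mul_apply, LieAlgebra.ad_apply,
        LieAlgebra.ad_apply, LieEquiv.map_lie, ih]
  have hcomm : ∀ z : L', ⁅z, φ (γ x) - γ' (φ x)⁆ = 0 := by
    intro z
    have h1 : ⁅φ (γ x), z⁆ = ((LieAlgebra.ad R L' (φ x)) ^ p) z := by
      have hz : z = φ (φ.symm z) := (φ.apply_symm_apply z).symm
      conv_lhs => rw [hz]
      rw [← LieEquiv.map_lie, ← LieAlgebra.ad_apply R, γ.ad_map, hpow, ← hz]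
    have h2 : ⁅γ' (φ x), z⁆ = ((LieAlgebra.ad R L' (φ x)) ^ p) z := by
      rw [← LieAlgebra.ad_apply R, γ'.ad_map]
    rw [lie_sub, ← lie_skew, ← lie_skew z, h1, h2, sub_self]
  have hmem : φ (γ x) - γ' (φ x) ∈ LieAlgebra.center R L' := by
    rw [LieAlgebra.center, LieModule.mem_maxTrivSubmodule]
    exact hcomm
  rw [hZ, LieSubmodule.mem_bot, sub_eq_zero] at hmem
  exact hmem

end Groth.Agent.S13780
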