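import Groth.Statements.S13784
import Mathlib.RingTheory.IntegralDomain
import Mathlib.RingTheory.LocalRing.ResidueField.Basic
-- import your own Groth.Agent.* helpers here

set_option autoImplicit false
universe u
open CAlg

namespace Groth.Agent.S13784

/-- Let A be a commutative local ring and G a finite subgroup of Aˣ. If the order of G is invertible in
A, then G is cyclic. -/
theorem result {A : Type u} [CommRing A] [IsLocalRing A]
    (G : Subgroup Aˣ) [Finite G] (hG : IsUnit ((Nat.card G : ℕ) : A)) : IsCyclic G := by
  let f : G →* IsLocalRing.ResidueField A :=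
    ((IsLocalRing.residue A : A →+* _).toMonoidHom.comp (Units.coeHom A)).comp G.subtype
  apply isCyclic_of_injective_ringHom f
  rw [injective_iff_map_eq_one]
  intro g hg
  set n := Nat.card G with hn
  set v : A := ((g : Aˣ) : A) with hv
  have hf : f g = IsLocalRing.residue A v := rfl
  rw [hf] at hg
  have hpow : v ^ n = 1 := by
    have h1 : g ^ n = 1 := pow_card_eq_one'
    have h2 : ((g ^ n : G) : Aˣ) = 1 := by rw [h1]; rfl
    have h3 : (((g ^ n : G) : Aˣ) : A) = 1 := by rw [h2]; rfl
    simpa [hv] using h3
  have hres : ∀ i : ℕ, IsLocalRing.residue A (v ^ i) = 1 := by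
    intro i; rw [map_pow, hg, one_pow]
  have hsum : IsUnit (∑ i ∈ Finset.range n, v ^ i) := by
    rw [← IsLocalRing.residue_ne_zero_iff_isUnit, map_sum]
    simp only [hres, Finset.sum_const, Finset.card_range, nsmul_eq_mul, mul_one]
    rw [← map_natCast (IsLocalRing.residue A), IsLocalRing.residue_ne_zero_iff_isUnit]
    exact hG
  have hgs := geom_sum_mul v n
  rw [hpow, sub_self] at hgs
  have hv1 : v - 1 = 0 := (hsum.mul_right_eq_zero).mp hgs
  have : v = 1 := sub_eq_zero.mp hv1
  apply Subtype.ext
  apply Units.ext
  exact this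

end Groth.Agent.S13784
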