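import Groth.Statements.S13785
import Mathlib.LinearAlgebra.Matrix.Charpoly.Coeff
-- import your own Groth.Agent.* helpers here

set_option autoImplicit false
universe u
open CAlg

namespace Groth.Agent.S13785

/-- For any commutative ring A, the determinant of the generic n × n matrix is a nonzerodivisor of the
polynomial ring over A in the n² matrix entries. -/
theorem result (A : Type u) [CommRing A] (n : ℕ) :
    (Matrix.mvPolynomialX (Fin n) (Fin n) A).det ∈ nonZeroDivisors (MvPolynomial (Fin n × Fin n) A) := by
  set M := Matrix.mvPolynomialX (Fin n) (Fin n) A with hM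
  let ψ : MvPolynomial (Fin n × Fin n) A →ₐ[A] Polynomial (MvPolynomial (Fin n × Fin n) A) :=
    MvPolynomial.aeval (fun ij => (Matrix.charmatrix M) ij.1 ij.2)
  let L : Polynomial (MvPolynomial (Fin n × Fin n) A) →+* MvPolynomial (Fin n × Fin n) A :=
    (MvPolynomial.aeval (fun ij => -(MvPolynomial.X ij : MvPolynomial (Fin n × Fin n) A))).toRingHom.comp
      (Polynomial.evalRingHom 0)
  have hLψ : ∀ x, L (ψ x) = x := by
    have : L.comp ψ.toRingHom = RingHom.id _ := by
      apply MvPolynomial.ringHom_ext
      · intro a
        simp [L, ψ]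
      · intro ij
        simp [L, ψ, M, Matrix.charmatrix_apply, Matrix.diagonal_apply]
        split_ifs <;> simp
    intro x
    exact congrArg (fun f => f x) this
  have hψdet : ψ M.det = M.charpoly := by
    rw [AlgHom.map_det]
    congr 1
    ext i j
    simp [ψ, M]
  have hmon : ψ M.det ∈ nonZeroDivisors _ := by
    rw [hψdet]; exact (Matrix.charpoly_monic M).mem_nonZeroDivisors
  rw [mem_nonZeroDivisors_iff]
  constructor
  · intro x hx
    have h1 : ψ M.det * ψ x = 0 := by rw [← map_mul, hx, map_zero]
    have h2 := (mem_nonZeroDivisors_iff.mp hmon).1 _ h1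
    rw [← hLψ x, h2, map_zero]
  · intro x hx
    have h1 : ψ x * ψ M.det = 0 := by rw [← map_mul, hx, map_zero]
    have h2 := (mem_nonZeroDivisors_iff.mp hmon).2 _ h1
    rw [← hLψ x, h2, map_zero]

end Groth.Agent.S13785
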