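import Groth.Statements.S13787
import Groth.Agent.S13785
-- import your own Groth.Agent.* helpers here

set_option autoImplicit false
universe u
open CAlg

namespace Groth.Agent.S13787

theorem key (A : Type u) [CommRing A] [Nontrivial A] (n : ℕ) (hn : 0 < n) (a a' : Aˣ) (d : ℕ)
    (h : algebraMap A (Localization.Away (Matrix.mvPolynomialX (Fin n) (Fin n) A).det) a *
      (algebraMap (MvPolynomial (Fin n × Fin n) A) (Localization.Away (Matrix.mvPolynomialX (Fin n) (Fin n) A).det)
        (Matrix.mvPolynomialX (Fin n) (Fin n) A).det) ^ d =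
      algebraMap A (Localization.Away (Matrix.mvPolynomialX (Fin n) (Fin n) A).det) a') :
    d = 0 ∧ a = a' := by
  set D := (Matrix.mvPolynomialX (Fin n) (Fin n) A).det with hD
  have hDnz : D ∈ nonZeroDivisors _ := Groth.Agent.S13785.result A n
  have hinjL : Function.Injective (algebraMap (MvPolynomial (Fin n × Fin n) A) (Localization.Away D)) :=
    IsLocalization.injective (Localization.Away D) (M := Submonoid.powers D)
      (Submonoid.powers_le.mpr hDnz)
  have hsc : ∀ r : A, algebraMap A (Localization.Away D) r =
      algebraMap (MvPolynomial (Fin n × Fin n) A) (Localization.Away D) (MvPolynomial.C r) := by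
    intro r
    rw [IsScalarTower.algebraMap_apply A (MvPolynomial (Fin n × Fin n) A) (Localization.Away D)]
    rfl
  rw [hsc, hsc, ← map_pow, ← map_mul] at h
  have h2 := hinjL h
  have h3 := congrArg (MvPolynomial.eval (0 : Fin n × Fin n → A)) h2
  rw [map_mul, map_pow, MvPolynomial.eval_C, MvPolynomial.eval_C, hD,
    Matrix.eval_det_mvPolynomialX] at h3
  have hz : (Matrix.of fun i j : Fin n => (0 : Fin n × Fin n → A) (i, j)).det = 0 := by
    have : Nonempty (Fin n) := ⟨⟨0, hn⟩⟩
    have : (Matrix.of fun i j : Fin n => (0 : Fin n × Fin n → A) (i, j)) = 0 := by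
      ext i j; simp
    rw [this, Matrix.det_zero]
  rw [hz] at h3
  rcases Nat.eq_zero_or_pos d with hd | hd
  · refine ⟨hd, ?_⟩
    rw [hd, pow_zero, mul_one] at h3
    exact Units.ext h3
  · exfalso
    rw [zero_pow (Nat.pos_iff_ne_zero.mp hd), mul_zero] at h3
    exact (Units.ne_zero a') h3.symm


/-- Let A be a nonzero commutative ring and n ≥ 1, let det be the determinant of the generic n × n
matrix in the polynomial ring A[X] in its n² entries, and let A[X, 1/det] be the localization at det
(the coordinate ring of GL_n over A). The homomorphism Aˣ × ℤ → (A[X, 1/det])ˣ sending (a, e) to a ·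
det^e is injective. (The published statement takes the exponent in the group of locally constant
ℤ-valued functions on Spec A, which also covers A = 0; with integer exponents as here, A must be
nonzero and n ≥ 1.) -/
theorem result (A : Type u) [CommRing A] [Nontrivial A] (n : ℕ) (hn : 0 < n) :
    Function.Injective (fun p : Aˣ × ℤ =>
        Units.map (algebraMap A (Localization.Away (Matrix.mvPolynomialX (Fin n) (Fin n) A).det)).toMonoidHom p.1 *
          (IsLocalization.Away.algebraMap_isUnit (S := Localization.Away (Matrix.mvPolynomialX (Fin n) (Fin n) A).det)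
            (Matrix.mvPolynomialX (Fin n) (Fin n) A).det).unit ^ p.2) := by
  rintro ⟨a, e⟩ ⟨a', e'⟩ h
  simp only at h
  set D := (Matrix.mvPolynomialX (Fin n) (Fin n) A).det with hD
  set U := (IsLocalization.Away.algebraMap_isUnit (S := Localization.Away D) D).unit with hU
  have hUv : (U : Localization.Away D) = algebraMap (MvPolynomial (Fin n × Fin n) A) (Localization.Away D) D :=
    IsUnit.unit_spec _
  have reduce : ∀ (b b' : Aˣ) (f f' : ℤ) (d : ℕ), f = f' + d →
      Units.map (algebraMap A (Localization.Away D)).toMonoidHom b * U ^ f =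
        Units.map (algebraMap A (Localization.Away D)).toMonoidHom b' * U ^ f' → d = 0 ∧ b = b' := by
    intro b b' f f' d hf hbb
    rw [hf, zpow_add, zpow_natCast, mul_comm (U ^ f') (U ^ d), ← mul_assoc] at hbb
    have hbb' := mul_right_cancel hbb
    have hv := congrArg Units.val hbb'
    rw [Units.val_mul, Units.val_pow_eq_pow_val, hUv, Units.coe_map, Units.coe_map] at hv
    exact key A n hn b b' d hv
  rcases le_total e' e with hle | hle
  · obtain ⟨d, hd⟩ : ∃ d : ℕ, e = e' + d := ⟨(e - e').toNat, by omega⟩
    obtain ⟨hd0, hab⟩ := reduce a a' e e' d hd h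
    subst hab
    rw [hd, hd0]
    simp
  · obtain ⟨d, hd⟩ : ∃ d : ℕ, e' = e + d := ⟨(e' - e).toNat, by omega⟩
    obtain ⟨hd0, hab⟩ := reduce a' a e' e d hd h.symm
    subst hab
    rw [hd, hd0]
    simp

end Groth.Agent.S13787
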