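import Groth.Statements.S13789
-- import your own Groth.Agent.* helpers here

set_option autoImplicit false
universe u
open CAlg

namespace Groth.Agent.S13789

/-- Let A be a commutative ring with total ring of fractions Q and let B be a ring with A ⊆ B ⊆ Q. Then
the inclusion A ⊆ B carries nonzerodivisors of A to nonzerodivisors of B, and every nonzerodivisor
of B has the form r/u with r and u nonzerodivisors of A. -/
theorem result {A Q : Type u} [CommRing A] [CommRing Q] [Algebra A Q] [IsFractionRing A Q] (B : Subalgebra A Q) :
    (∀ a : A, a ∈ nonZeroDivisors A → algebraMap A B a ∈ nonZeroDivisors B) ∧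
    (∀ b : B, b ∈ nonZeroDivisors B → ∃ r u : A, r ∈ nonZeroDivisors A ∧ u ∈ nonZeroDivisors A ∧
      (b : Q) * algebraMap A Q u = algebraMap A Q r) := by
  constructor
  · intro a ha
    rw [mem_nonZeroDivisors_iff]
    refine ⟨fun y hy => ?_, fun y hy => ?_⟩
    · have hu : IsUnit (algebraMap A Q a) := IsLocalization.map_units Q ⟨a, ha⟩
      have h2 : algebraMap A Q a * (y : Q) = 0 := by
        have := congrArg (fun z : B => (z : Q)) hy
        simpa using this
      apply Subtype.ext
      simpa using (hu.mul_right_eq_zero).mp h2
    · have hu : IsUnit (algebraMap A Q a) := IsLocalization.map_units Q ⟨a, ha⟩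
      have h2 : (y : Q) * algebraMap A Q a = 0 := by
        have := congrArg (fun z : B => (z : Q)) hy
        simpa using this
      apply Subtype.ext
      simpa using (hu.mul_left_eq_zero).mp h2
  · intro b hb
    obtain ⟨⟨r, u⟩, hru⟩ := IsLocalization.surj (nonZeroDivisors A) (b : Q)
    refine ⟨r, u, ?_, u.2, hru⟩
    rw [mem_nonZeroDivisors_iff]
    have hinjQ : Function.Injective (algebraMap A Q) := IsFractionRing.injective A Q
    have key : ∀ y : A, r * y = 0 → y = 0 := by
      intro y hy
      have h1 : b * algebraMap A B (u * y) = 0 := by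
        apply Subtype.ext
        simp only [Subalgebra.coe_mul, Subalgebra.coe_algebraMap, map_mul, ZeroMemClass.coe_zero]
        rw [← mul_assoc, hru, ← map_mul, hy, map_zero]
      have h2 := (mem_nonZeroDivisors_iff.mp hb).1 _ h1
      have h3 : algebraMap A Q (u * y) = 0 := by
        have := congrArg (fun z : B => (z : Q)) h2
        simpa using this
      have h4 : u * y = 0 := hinjQ (by rw [h3, map_zero])
      exact (mem_nonZeroDivisors_iff.mp u.2).1 y h4
    exact ⟨key, fun y hy => key y (by rw [mul_comm]; exact hy)⟩

end Groth.Agent.S13789
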