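import Groth.Statements.S13790
import Groth.Agent.S13789
-- import your own Groth.Agent.* helpers here

set_option autoImplicit false
universe u
open CAlg

namespace Groth.Agent.S13790

/-- Let A be a commutative ring with total ring of fractions Q and let B be a ring with A ⊆ B ⊆ Q. Then
Q, with the inclusion B ⊆ Q, is the total ring of fractions of B. -/
theorem result {A Q : Type u} [CommRing A] [CommRing Q] [Algebra A Q] [IsFractionRing A Q] (B : Subalgebra A Q) :
    IsFractionRing B Q := by
  obtain ⟨h1, h2⟩ := Groth.Agent.S13789.result B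
  refine ⟨?_, ?_, ?_⟩
  · rintro ⟨b, hb⟩
    obtain ⟨r, u, hr, hu, hru⟩ := h2 b hb
    have hur : IsUnit (algebraMap A Q r) := IsLocalization.map_units Q ⟨r, hr⟩
    have huu : IsUnit (algebraMap A Q u) := IsLocalization.map_units Q ⟨u, hu⟩
    show IsUnit (algebraMap B Q b)
    have : algebraMap B Q b = (b : Q) := rfl
    rw [this]
    rw [← hru] at hur
    exact isUnit_of_mul_isUnit_left hur
  · intro q
    obtain ⟨⟨a, s⟩, has⟩ := IsLocalization.surj (nonZeroDivisors A) q
    refine ⟨⟨algebraMap A B a, ⟨algebraMap A B s, h1 s s.2⟩⟩, ?_⟩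
    simpa using has
  · intro x y hxy
    refine ⟨1, ?_⟩
    have : x = y := Subtype.ext hxy
    rw [this]

end Groth.Agent.S13790
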