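import Groth.Statements.S13794
import Mathlib.Tactic.LinearCombination
import Mathlib.Tactic.FieldSimp
import Mathlib.Algebra.Polynomial.Coeff
-- import your own Groth.Agent.* helpers here

set_option autoImplicit false
universe u
open Polynomial
open Curves

namespace Groth.Agent.S13794

/-- Let k be a field of characteristic not 3 and β ∈ k. If a line ax + by + c = 0 with a³ ≠ b³ is the
tangent line at a flex point of the affine cubic x³ + y³ + β = 3xy, then β is a cube in k. Here the
line is normalised to b ≠ 0 (the roles of x and y are symmetric) and the flex-tangency is expressed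
by the restriction of the cubic to the line being λ (x − x₀)³. -/
theorem result {k : Type u} [Field k] (h3 : (3 : k) ≠ 0)
    (β a b c : k) (hb : b ≠ 0) (hab : a ^ 3 ≠ b ^ 3) (lam x₀ : k)
    (hflex : (X : k[X]) ^ 3 + (C (-a / b) * X + C (-c / b)) ^ 3 + C β - 3 * X * (C (-a / b) * X + C (-c / b)) =
      C lam * (X - C x₀) ^ 3) :
    ∃ γ : k, β = γ ^ 3 := by
  set m := -a / b with hm
  set n := -c / b with hn
  have eL : (X : k[X]) ^ 3 + (C m * X + C n) ^ 3 + C β - 3 * X * (C m * X + C n) =
      C (1 + m^3) * X^3 + C (3*m^2*n - 3*m) * X^2 + C (3*m*n^2 - 3*n) * X + C (n^3 + β) := by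
    simp only [map_add, map_sub, map_mul, map_pow, map_one, map_ofNat]; ring
  have eR : C lam * (X - C x₀) ^ 3 =
      C lam * X^3 + C (-3*lam*x₀) * X^2 + C (3*lam*x₀^2) * X + C (-lam*x₀^3) := by
    simp only [map_mul, map_pow, map_neg, map_ofNat]; ring
  rw [eL, eR] at hflex
  clear_value m n
  have c3 := congrArg (fun q => Polynomial.coeff q 3) hflex
  have c2 := congrArg (fun q => Polynomial.coeff q 2) hflex
  have c1 := congrArg (fun q => Polynomial.coeff q 1) hflex
  have c0 := congrArg (fun q => Polynomial.coeff q 0) hflex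
  simp only [coeff_add, coeff_C_mul, coeff_X_pow, coeff_X, coeff_C] at c3 c2 c1 c0
  norm_num at c3 c2 c1 c0
  have hlam : lam ≠ 0 := by
    intro h0
    apply hab
    have hm3 : m ^ 3 * b ^ 3 = -a ^ 3 := by
      rw [hm, div_pow, div_mul_cancel₀ _ (pow_ne_zero 3 hb)]; ring
    have : m ^ 3 = -1 := by linear_combination c3 + h0
    rw [this] at hm3
    linear_combination hm3
  have h2 : m * (m * n - 1) = -lam * x₀ := by
    apply mul_left_cancel₀ h3
    linear_combination c2
  have h1 : n * (m * n - 1) = lam * x₀ ^ 2 := by
    apply mul_left_cancel₀ h3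
    linear_combination c1
  by_cases hx : x₀ = 0
  · refine ⟨-n, ?_⟩
    rw [hx] at c0
    linear_combination c0
  · have hfac : (n + m * x₀) * (m * n - 1) = 0 := by linear_combination x₀ * h2 + h1
    rcases mul_eq_zero.mp hfac with hnm | hmn
    · have hmx : m = x₀ := by linear_combination (-1 : k) * h2 + m ^ 2 * hnm - x₀ * c3
      refine ⟨-x₀, ?_⟩
      have hn2 : n = -x₀ ^ 2 := by linear_combination hnm - x₀ * hmx
      rw [hn2, ← c3, hmx] at c0
      linear_combination c0
    · exfalso
      rw [hmn, mul_zero] at h2
      have : lam * x₀ = 0 := by linear_combination h2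
      rcases mul_eq_zero.mp this with h | h
      · exact hlam h
      · exact hx h

end Groth.Agent.S13794
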