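import Groth.Statements.S13801
import Mathlib.Data.Nat.Factorial.BigOperators
import Mathlib.NumberTheory.Padics.PadicVal.Basic
-- import your own Groth.Agent.* helpers here

set_option autoImplicit false
open ChowMon

namespace Groth.Agent.S13801

theorem padicValNat_prod {ι : Type} (p : ℕ) [Fact p.Prime] (s : Finset ι) (f : ι → ℕ)
    (hf : ∀ i ∈ s, f i ≠ 0) :
    padicValNat p (∏ i ∈ s, f i) = ∑ i ∈ s, padicValNat p (f i) := by
  classical
  induction s using Finset.induction_on with
  | empty => simp
  | insert j s hj ih =>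
    rw [Finset.prod_insert hj, Finset.sum_insert hj, padicValNat.mul (hf j (Finset.mem_insert_self _ _))
      (Finset.prod_ne_zero_iff.mpr (fun i hi => hf i (Finset.mem_insert_of_mem hi))),
      ih (fun i hi => hf i (Finset.mem_insert_of_mem hi))]


/-- For a prime p and positive natural numbers a_1, ..., a_k with sum n one has v_p(a_1!) + ... +
v_p(a_k!) ≤ v_p(n!), and the inequality is strict whenever some a_i is not divisible by p^(v_p(n)). -/
theorem result {k : ℕ} (p : ℕ) [Fact p.Prime]
    (a : Fin k → ℕ) (ha : ∀ i, 0 < a i) :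
    (∑ i, padicValNat p (a i).factorial ≤ padicValNat p (∑ i, a i).factorial) ∧
      ((∃ i, ¬ p ^ padicValNat p (∑ j, a j) ∣ a i) →
        ∑ i, padicValNat p (a i).factorial < padicValNat p (∑ i, a i).factorial) := by
  classical
  have hsum : ∑ i, padicValNat p (a i).factorial = padicValNat p (∏ i, (a i).factorial) :=
    (padicValNat_prod p _ _ (fun i _ => Nat.factorial_ne_zero _)).symm
  rw [hsum]
  have hdvd : ∀ {x y : ℕ}, y ≠ 0 → x ∣ y → padicValNat p x ≤ padicValNat p y := by
    intro x y hy hxy
    exact (padicValNat_dvd_iff_le hy).mp (pow_padicValNat_dvd.trans hxy)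
  refine ⟨hdvd (Nat.factorial_ne_zero _) (Nat.prod_factorial_dvd_factorial_sum _ _), ?_⟩
  rintro ⟨i, hi⟩
  set n := ∑ j, a j with hn
  set a' : Fin k → ℕ := Function.update a i (a i - 1) with ha'
  have hai : 0 < a i := ha i
  have hsplit : n = a i + ∑ j ∈ Finset.univ.erase i, a j := by
    rw [hn, Finset.add_sum_erase _ _ (Finset.mem_univ i)]
  have hsum' : ∑ j, a' j = n - 1 := by
    rw [ha', Finset.sum_update_of_mem (Finset.mem_univ i), hsplit]
    have : Finset.univ \ {i} = Finset.univ.erase i := by
      ext j; simp [and_comm]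
    rw [this]
    omega
  have hnpos : 0 < n := by rw [hsplit]; omega
  set Q := ∏ j, (a' j).factorial with hQ
  have hQdvd : Q ∣ (n - 1).factorial := by
    rw [← hsum']; exact Nat.prod_factorial_dvd_factorial_sum _ _
  obtain ⟨R, hR⟩ := hQdvd
  have hprod : ∏ j, (a j).factorial = a i * Q := by
    rw [hQ, ← Finset.mul_prod_erase _ _ (Finset.mem_univ i), ← Finset.mul_prod_erase _ _ (Finset.mem_univ i)]
    rw [ha', Function.update_self, ← mul_assoc, Nat.mul_factorial_pred hai.ne']
    congr 1
    refine Finset.prod_congr rfl (fun j hj => ?_)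
    rw [Function.update_of_ne (Finset.ne_of_mem_erase hj)]
  have hfac : n.factorial = n * (Q * R) := by
    rw [← hR, Nat.mul_factorial_pred hnpos.ne']
  have hQ0 : Q ≠ 0 := Finset.prod_ne_zero_iff.mpr (fun j _ => Nat.factorial_ne_zero _)
  have hR0 : R ≠ 0 := by
    rintro rfl
    rw [mul_zero] at hR
    exact Nat.factorial_ne_zero _ hR
  rw [hprod, hfac, padicValNat.mul hai.ne' hQ0, padicValNat.mul hnpos.ne' (mul_ne_zero hQ0 hR0),
    padicValNat.mul hQ0 hR0]
  have hlt : padicValNat p (a i) < padicValNat p n := by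
    by_contra hle
    rw [not_lt] at hle
    exact hi ((pow_dvd_pow p hle).trans pow_padicValNat_dvd)
  omega

end Groth.Agent.S13801
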