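import Groth.Statements.S13807
import Mathlib.Algebra.GCDMonoid.IntegrallyClosed
import Mathlib.RingTheory.PrincipalIdealDomain
import Mathlib.Algebra.CharP.Reduced
import Mathlib.RingTheory.KrullDimension.Zero
import Mathlib.Algebra.CharP.Algebra
-- import your own Groth.Agent.* helpers here

set_option autoImplicit false
universe u
open EtaPt

namespace Groth.Agent.S13807

/-- For a field K the pointwise ring M_η(K) is all of N_η(K) = F(k((0))). Here η is a natural
transformation from the identity of the category of fields to an endofunctor F with F(η_K) bijective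
and η_K purely inseparable for every field K, N_η(A) is the product of the F(k(p)) over the primes p
of A with diagonal map t_A, and M_η(A) ⊆ N_η(A) is the subring of elements sent into the range of
t_R by every ring map from A to a valuation ring R at whose fraction field η is bijective; q_A : A →
M_η(A) is the corestriction of t_A. -/
theorem result (η : EtaPt.FieldEndo.{u}) (K : Type u) [Field K] : η.M K = ⊤ := by
  rw [eq_top_iff]
  intro x _
  intro R _ _ _ hR g
  obtain ⟨P0⟩ : Nonempty (PrimeSpectrum K) := inferInstance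
  obtain ⟨n, a, ha⟩ := η.exists_pow_mem_range_eta _ (x P0)
  set e := ringExpChar (P0.asIdeal.ResidueField) with he
  have : ExpChar P0.asIdeal.ResidueField e := ringExpChar.expChar _
  have hNpos : 0 < e ^ n := pow_pos (expChar_pos P0.asIdeal.ResidueField e) n
  have : P0.asIdeal.IsMaximal := by
    rw [P0.asIdeal.eq_bot_of_prime]; exact Ideal.bot_isMaximal
  obtain ⟨a', rfl⟩ := P0.asIdeal.algebraMap_residueField_surjective a
  let f : K →+* FractionRing R := (algebraMap R (FractionRing R)).comp g
  have hf1 : P0.asIdeal ≤ RingHom.ker f := by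
    rw [P0.asIdeal.eq_bot_of_prime]; exact bot_le
  have hf2 : P0.asIdeal.primeCompl ≤ (IsUnit.submonoid (FractionRing R)).comap f := by
    intro z hz
    have hz0 : z ≠ 0 := fun h => hz (h ▸ P0.asIdeal.zero_mem)
    exact isUnit_iff_ne_zero.mpr ((map_ne_zero f).mpr hz0)
  let ψ := Ideal.ResidueField.lift P0.asIdeal f hf1 hf2
  obtain ⟨y, hy⟩ := hR.2 (η.map ψ (x P0))
  have hnat : ∀ {k₁ k₂ : Type u} [Field k₁] [Field k₂] (φ : k₁ →+* k₂) (z : k₁),
      η.map φ (η.eta k₁ z) = η.eta k₂ (φ z) := by
    intro k₁ k₂ _ _ φ z
    have := congrArg (fun h => h z) (congrArg DFunLike.coe (η.eta_natural φ))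
    simpa only [RingHom.comp_apply] using this
  have hyN : y ^ (e ^ n) = f a' := by
    apply hR.1
    rw [map_pow, hy, ← map_pow, ← ha, hnat, Ideal.ResidueField.lift_algebraMap]
  have hyint : IsIntegral R y := by
    refine ⟨Polynomial.X ^ (e ^ n) - Polynomial.C (g a'),
      Polynomial.monic_X_pow_sub_C _ hNpos.ne', ?_⟩
    simp only [Polynomial.eval₂_sub, Polynomial.eval₂_X_pow, Polynomial.eval₂_C, hyN]
    simp [f]
  obtain ⟨r, hr⟩ := IsIntegrallyClosed.algebraMap_eq_of_integral hyint
  have hrN : r ^ (e ^ n) = g a' := by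
    apply IsFractionRing.injective R (FractionRing R)
    rw [map_pow, hr, hyN]; rfl
  refine ⟨r, ?_⟩
  funext q
  change η.eta _ (algebraMap R q.asIdeal.ResidueField r) =
    η.map (Ideal.ResidueField.map (PrimeSpectrum.comap g q).asIdeal q.asIdeal g rfl)
      (x (PrimeSpectrum.comap g q))
  suffices H : ∀ (P : PrimeSpectrum K) (hP : P.asIdeal = q.asIdeal.comap g),
      η.eta _ (algebraMap R q.asIdeal.ResidueField r) =
        η.map (Ideal.ResidueField.map P.asIdeal q.asIdeal g hP) (x P) from H _ rfl
  intro P hP
  obtain rfl : P = P0 := Subsingleton.elim _ _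
  have : ExpChar (η.obj q.asIdeal.ResidueField) e :=
    expChar_of_injective_ringHom
      (f := (η.eta _).comp (Ideal.ResidueField.map P.asIdeal q.asIdeal g hP))
      (RingHom.injective _) e
  apply iterateFrobenius_inj (η.obj q.asIdeal.ResidueField) e n
  simp only [iterateFrobenius_def]
  rw [← map_pow, ← map_pow, ← map_pow, ← ha, hrN, hnat, Ideal.ResidueField.map_algebraMap]

end Groth.Agent.S13807
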