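import Groth.Statements.S13808
import Mathlib.RingTheory.Valuation.LocalSubring
import Mathlib.RingTheory.Localization.AtPrime.Basic
-- import your own Groth.Agent.* helpers here

set_option autoImplicit false
universe u
open EtaPt

namespace Groth.Agent.S13808

theorem Nmap_apply' (η : EtaPt.FieldEndo.{u}) {A B : Type u} [CommRing A] [CommRing B]
    (g : A →+* B) (x : η.N A) (q : PrimeSpectrum B) (P : PrimeSpectrum A)
    (hP : PrimeSpectrum.comap g q = P) :
    η.Nmap g x q = η.map (Ideal.ResidueField.map P.asIdeal q.asIdeal g (by rw [← hP]; rfl)) (x P) := by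
  subst hP; rfl

theorem bij_eta_of_equiv (η : EtaPt.FieldEndo.{u}) {L₁ L₂ : Type u} [Field L₁] [Field L₂]
    (σ : L₁ ≃+* L₂) (h : Function.Bijective (η.eta L₂)) : Function.Bijective (η.eta L₁) := by
  have hmap : Function.Bijective (η.map (σ : L₁ →+* L₂)) := by
    refine Function.bijective_iff_has_inverse.mpr ⟨η.map (σ.symm : L₂ →+* L₁), ?_, ?_⟩
    · intro z
      have := congrArg (fun φ => φ z)
        (congrArg DFunLike.coe (η.map_comp (σ : L₁ →+* L₂) (σ.symm : L₂ →+* L₁)))
      simp only [RingHom.comp_apply] at this
      rw [← this]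
      have hc : (σ.symm : L₂ →+* L₁).comp (σ : L₁ →+* L₂) = RingHom.id L₁ := by ext; simp
      rw [hc, η.map_id]; rfl
    · intro z
      have := congrArg (fun φ => φ z)
        (congrArg DFunLike.coe (η.map_comp (σ.symm : L₂ →+* L₁) (σ : L₁ →+* L₂)))
      simp only [RingHom.comp_apply] at this
      rw [← this]
      have hc : (σ : L₁ →+* L₂).comp (σ.symm : L₂ →+* L₁) = RingHom.id L₂ := by ext; simp
      rw [hc, η.map_id]; rfl
  have hnat : (η.map (σ : L₁ →+* L₂)) ∘ (η.eta L₁) = (η.eta L₂) ∘ σ := by
    funext z; exact congrArg (fun φ => φ z) (congrArg DFunLike.coe (η.eta_natural (σ : L₁ →+* L₂)))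
  rw [← hmap.of_comp_iff', hnat]
  exact h.comp σ.bijective


/-- For an integral domain A such that η is bijective at the fraction field of A, the projection of
N_η(A) onto its factor F(k((0))) at the generic point is injective on M_η(A). Here η is a natural
transformation from the identity of the category of fields to an endofunctor F with F(η_K) bijective
and η_K purely inseparable for every field K, N_η(A) is the product of the F(k(p)) over the primes p
of A with diagonal map t_A, and M_η(A) ⊆ N_η(A) is the subring of elements sent into the range of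
t_R by every ring map from A to a valuation ring R at whose fraction field η is bijective; q_A : A →
M_η(A) is the corestriction of t_A. -/
theorem result (η : EtaPt.FieldEndo.{u}) (A : Type u) [CommRing A] [IsDomain A] (hA : η.InV A) :
    Set.InjOn (fun x : η.N A => x ⟨⊥, Ideal.isPrime_bot⟩) (η.M A) := by
  intro x hx y hy hxy
  simp only at hxy
  funext p
  have hu : ∀ z : p.asIdeal.primeCompl, IsUnit (algebraMap A (FractionRing A) z) := by
    intro z
    refine isUnit_iff_ne_zero.mpr ?_
    rw [Ne, IsFractionRing.to_map_eq_zero_iff]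
    intro h0
    exact z.2 (h0 ▸ p.asIdeal.zero_mem)
  let f : Localization.AtPrime p.asIdeal →+* FractionRing A := IsLocalization.lift hu
  obtain ⟨V, hV, hloc⟩ := IsLocalRing.exists_factor_valuationRing f
  let h : Localization.AtPrime p.asIdeal →+* V := f.codRestrict V.toSubring hV
  let g : A →+* V := h.comp (algebraMap A (Localization.AtPrime p.asIdeal))
  have hgval : ∀ a, ((g a : V) : FractionRing A) = algebraMap A (FractionRing A) a :=
    fun a => IsLocalization.lift_eq hu a
  have hginj : Function.Injective g := fun a b hab =>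
    IsFractionRing.injective A (FractionRing A) (by rw [← hgval, ← hgval, hab])
  have hVinv : η.InV V :=
    bij_eta_of_equiv η (FractionRing.algEquiv V (FractionRing A)).toRingEquiv hA
  obtain ⟨r, hr⟩ := hx V hVinv g
  obtain ⟨s, hs⟩ := hy V hVinv g
  have hbot : PrimeSpectrum.comap g ⟨⊥, Ideal.isPrime_bot⟩ = ⟨⊥, Ideal.isPrime_bot⟩ := by
    ext1
    exact Ideal.comap_bot_of_injective g hginj
  have hrs : r = s := by
    have e1 := congrFun hr ⟨⊥, Ideal.isPrime_bot⟩
    have e2 := congrFun hs ⟨⊥, Ideal.isPrime_bot⟩
    rw [Nmap_apply' η g x _ _ hbot] at e1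
    rw [Nmap_apply' η g y _ _ hbot] at e2
    rw [hxy] at e1
    have := e1.trans e2.symm
    change η.eta _ (algebraMap V _ r) = η.eta _ (algebraMap V _ s) at this
    have h3 : algebraMap V (⊥ : Ideal V).ResidueField r = algebraMap V (⊥ : Ideal V).ResidueField s :=
      (η.eta (⊥ : Ideal V).ResidueField).injective this
    exact IsFractionRing.injective V ((⊥ : Ideal V).ResidueField) h3
  have hcl : PrimeSpectrum.comap g (IsLocalRing.closedPoint V) = p := by
    have h1 : PrimeSpectrum.comap h (IsLocalRing.closedPoint V) =
        IsLocalRing.closedPoint (Localization.AtPrime p.asIdeal) :=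
      IsLocalRing.comap_closedPoint h
    ext1
    change Ideal.comap (algebraMap A (Localization.AtPrime p.asIdeal))
      (Ideal.comap h (IsLocalRing.maximalIdeal V)) = p.asIdeal
    have h2 := congrArg PrimeSpectrum.asIdeal h1
    change Ideal.comap h (IsLocalRing.maximalIdeal V) = IsLocalRing.maximalIdeal _ at h2
    rw [h2]
    exact Localization.AtPrime.under_maximalIdeal
  have e1 := congrFun hr (IsLocalRing.closedPoint V)
  have e2 := congrFun hs (IsLocalRing.closedPoint V)
  rw [Nmap_apply' η g x _ _ hcl] at e1
  rw [Nmap_apply' η g y _ _ hcl] at e2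
  rw [hrs] at e1
  exact (η.map _).injective (e1.symm.trans e2)

end Groth.Agent.S13808
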