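import Groth.Statements.S13809
import Groth.Agent.S13808
import Mathlib.RingTheory.Valuation.LocalSubring
import Mathlib.RingTheory.Localization.AtPrime.Basic
-- import your own Groth.Agent.* helpers here

set_option autoImplicit false
universe u
open EtaPt

namespace Groth.Agent.S13809

/-- For an integrally closed domain A such that η is bijective at the fraction field of A, the map q_A :
A → M_η(A) is bijective. Here η is a natural transformation from the identity of the category of
fields to an endofunctor F with F(η_K) bijective and η_K purely inseparable for every field K,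
N_η(A) is the product of the F(k(p)) over the primes p of A with diagonal map t_A, and M_η(A) ⊆
N_η(A) is the subring of elements sent into the range of t_R by every ring map from A to a valuation
ring R at whose fraction field η is bijective; q_A : A → M_η(A) is the corestriction of t_A. -/
theorem result (η : EtaPt.FieldEndo.{u}) (A : Type u) [CommRing A] [IsDomain A] [IsIntegrallyClosed A]
    (hA : η.InV A) : Function.Bijective (η.q A) := by
  have hnat : ∀ {k₁ k₂ : Type u} [Field k₁] [Field k₂] (φ : k₁ →+* k₂) (z : k₁),
      η.map φ (η.eta k₁ z) = η.eta k₂ (φ z) := by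
    intro k₁ k₂ _ _ φ z
    have := congrArg (fun h => h z) (congrArg DFunLike.coe (η.eta_natural φ))
    simpa only [RingHom.comp_apply] using this
  have hk0 : Function.Bijective (η.eta ((⊥ : Ideal A).ResidueField)) :=
    Groth.Agent.S13808.bij_eta_of_equiv η
      (IsLocalization.algEquiv (nonZeroDivisors A) ((⊥ : Ideal A).ResidueField)
        (FractionRing A)).toRingEquiv hA
  constructor
  · intro a b hab
    have h1 := congrArg (fun z : η.M A => (z : η.N A) ⟨⊥, Ideal.isPrime_bot⟩) hab
    change η.eta ((⊥ : Ideal A).ResidueField) (algebraMap A ((⊥ : Ideal A).ResidueField) a) =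
      η.eta ((⊥ : Ideal A).ResidueField) (algebraMap A ((⊥ : Ideal A).ResidueField) b) at h1
    exact IsFractionRing.injective A ((⊥ : Ideal A).ResidueField) ((η.eta _).injective h1)
  · rintro ⟨x, hx⟩
    obtain ⟨z, hz⟩ := hk0.2 (x ⟨⊥, Ideal.isPrime_bot⟩)
    have hzint : IsIntegral A z := by
      by_contra hni
      have hzR : z ∉ (integralClosure A ((⊥ : Ideal A).ResidueField)).toSubring := hni
      obtain ⟨V, hRV, hzV⟩ := Subring.exists_le_valuationSubring_of_isIntegrallyClosedIn hzR
      have hmemV : ∀ a : A, algebraMap A ((⊥ : Ideal A).ResidueField) a ∈ V.toSubring := fun a =>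
        hRV ((integralClosure A _).algebraMap_mem a)
      let g : A →+* V := (algebraMap A ((⊥ : Ideal A).ResidueField)).codRestrict V.toSubring hmemV
      have hginj : Function.Injective g := fun a b hab =>
        IsFractionRing.injective A ((⊥ : Ideal A).ResidueField) (congrArg Subtype.val hab)
      have hVinv : η.InV V := Groth.Agent.S13808.bij_eta_of_equiv η
        (FractionRing.algEquiv V ((⊥ : Ideal A).ResidueField)).toRingEquiv hk0
      obtain ⟨v, hv⟩ := hx V hVinv g
      have hbot : PrimeSpectrum.comap g ⟨⊥, Ideal.isPrime_bot⟩ = ⟨⊥, Ideal.isPrime_bot⟩ := by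
        ext1; exact Ideal.comap_bot_of_injective g hginj
      have e1 := congrFun hv ⟨⊥, Ideal.isPrime_bot⟩
      rw [Groth.Agent.S13808.Nmap_apply' η g x _ _ hbot, ← hz, hnat] at e1
      have e2 : algebraMap V ((⊥ : Ideal V).ResidueField) v =
          Ideal.ResidueField.map (⊥ : Ideal A) (⊥ : Ideal V) g (Ideal.comap_bot_of_injective g hginj).symm z :=
        (η.eta ((⊥ : Ideal V).ResidueField)).injective e1
      let ρ := IsLocalization.algEquiv (nonZeroDivisors V) ((⊥ : Ideal V).ResidueField)
        ((⊥ : Ideal A).ResidueField)
      have hρφ : ((ρ : (⊥ : Ideal V).ResidueField →+* (⊥ : Ideal A).ResidueField).comp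
          (Ideal.ResidueField.map (⊥ : Ideal A) (⊥ : Ideal V) g
            (Ideal.comap_bot_of_injective g hginj).symm)) = RingHom.id _ := by
        apply Ideal.ResidueField.ringHom_ext
        ext a
        simp only [RingHom.comp_apply, RingHom.id_apply]
        rw [Ideal.ResidueField.map_algebraMap]
        change ρ (algebraMap V _ (g a)) = _
        rw [AlgEquiv.commutes]
        rfl
      apply hzV
      have hz' : z = ρ (algebraMap V _ v) := by
        rw [e2]
        exact (congrArg (fun φ => φ z) (congrArg DFunLike.coe hρφ)).symm
      rw [hz', AlgEquiv.commutes]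
      exact v.2
    obtain ⟨c, hc⟩ := IsIntegrallyClosed.algebraMap_eq_of_integral hzint
    refine ⟨c, ?_⟩
    apply Subtype.ext
    apply Groth.Agent.S13808.result η A hA (η.t_mem_M A c) hx
    change η.eta ((⊥ : Ideal A).ResidueField) (algebraMap A ((⊥ : Ideal A).ResidueField) c) =
      x ⟨⊥, Ideal.isPrime_bot⟩
    rw [hc, hz]

end Groth.Agent.S13809
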