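import Groth.Statements.S13811
import Groth.Agent.S13808
import Mathlib.Algebra.GCDMonoid.IntegrallyClosed
import Mathlib.RingTheory.PrincipalIdealDomain
-- import your own Groth.Agent.* helpers here

set_option autoImplicit false
universe u
open EtaPt

namespace Groth.Agent.S13811

/-- If f : A → B is an integral ring map with N_η(f) bijective, then every ring map from A to a
valuation ring R at whose fraction field η is bijective factors through f. Here η is a natural
transformation from the identity of the category of fields to an endofunctor F with F(η_K) bijective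
and η_K purely inseparable for every field K, N_η(A) is the product of the F(k(p)) over the primes p
of A with diagonal map t_A, and M_η(A) ⊆ N_η(A) is the subring of elements sent into the range of
t_R by every ring map from A to a valuation ring R at whose fraction field η is bijective; q_A : A →
M_η(A) is the corestriction of t_A. -/
theorem result (η : EtaPt.FieldEndo.{u}) {A B : Type u} [CommRing A] [CommRing B] (f : A →+* B)
    (hf : f.IsIntegral) (hN : Function.Bijective (η.Nmap f))
    (R : Type u) [CommRing R] [IsDomain R] [ValuationRing R] (hR : η.InV R) (g : A →+* R) :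
    ∃ g' : B →+* R, g'.comp f = g := by
  classical
  have hnat : ∀ {k₁ k₂ : Type u} [Field k₁] [Field k₂] (φ : k₁ →+* k₂) (z : k₁),
      η.map φ (η.eta k₁ z) = η.eta k₂ (φ z) := by
    intro k₁ k₂ _ _ φ z
    have := congrArg (fun h => h z) (congrArg DFunLike.coe (η.eta_natural φ))
    simpa only [RingHom.comp_apply] using this
  obtain ⟨P, hPdef⟩ : ∃ P : PrimeSpectrum A, P = PrimeSpectrum.comap g ⟨⊥, Ideal.isPrime_bot⟩ :=
    ⟨_, rfl⟩
  have hPmem : ∀ a, a ∈ P.asIdeal ↔ g a = 0 := by
    intro a; subst hPdef; exact Ideal.mem_bot
  obtain ⟨Q, hQ⟩ : ∃ Q : PrimeSpectrum B, PrimeSpectrum.comap f Q = P := by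
    by_contra hne
    push Not at hne
    let x : η.N A := Pi.single P 1
    have h0 : η.Nmap f x = η.Nmap f 0 := by
      funext q
      rw [map_zero]
      change η.map _ (x (PrimeSpectrum.comap f q)) = 0
      simp only [x]
      rw [Pi.single_eq_of_ne (hne q), map_zero]
    have h1 := congrFun (hN.1 h0) P
    simp only [x, Pi.single_eq_same] at h1
    exact one_ne_zero h1
  have hQ' : P.asIdeal = Q.asIdeal.comap f := by rw [← hQ]; rfl
  set ι := Ideal.ResidueField.map P.asIdeal Q.asIdeal f hQ' with hιdef
  have hιsurj : Function.Surjective (η.map ι) := by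
    intro w
    obtain ⟨x, hx⟩ := hN.2 (Pi.single Q w)
    refine ⟨x P, ?_⟩
    have := congrFun hx Q
    rw [Groth.Agent.S13808.Nmap_apply' η f x Q P hQ, Pi.single_eq_same] at this
    exact this
  let Fι := RingEquiv.ofBijective (η.map ι) ⟨(η.map ι).injective, hιsurj⟩
  have hf1 : P.asIdeal ≤ RingHom.ker ((algebraMap R (FractionRing R)).comp g) := by
    intro a ha
    have ha' : g a = 0 := (hPmem a).1 ha
    simp [RingHom.mem_ker, ha']
  have hf2 : P.asIdeal.primeCompl ≤
      (IsUnit.submonoid (FractionRing R)).comap ((algebraMap R (FractionRing R)).comp g) := by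
    intro a ha
    have ha' : g a ≠ 0 := fun h0 => ha ((hPmem a).2 h0)
    change IsUnit ((algebraMap R (FractionRing R)) (g a))
    refine isUnit_iff_ne_zero.mpr ?_
    rw [Ne, IsFractionRing.to_map_eq_zero_iff]
    exact ha'
  let lam := Ideal.ResidueField.lift P.asIdeal ((algebraMap R (FractionRing R)).comp g) hf1 hf2
  let ηL := RingEquiv.ofBijective (η.eta (FractionRing R)) hR
  let ψ : B →+* FractionRing R := ηL.symm.toRingHom.comp ((η.map lam).comp
    (Fι.symm.toRingHom.comp ((η.eta Q.asIdeal.ResidueField).comp
      (algebraMap B Q.asIdeal.ResidueField))))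
  have hψf : ∀ a, ψ (f a) = algebraMap R (FractionRing R) (g a) := by
    intro a
    apply ηL.injective
    have e1 : algebraMap B Q.asIdeal.ResidueField (f a) = ι (algebraMap A P.asIdeal.ResidueField a) :=
      (Ideal.ResidueField.map_algebraMap _ _ _ _ a).symm
    have e2 : η.eta Q.asIdeal.ResidueField (ι (algebraMap A P.asIdeal.ResidueField a)) =
        Fι (η.eta P.asIdeal.ResidueField (algebraMap A P.asIdeal.ResidueField a)) :=
      (hnat ι _).symm
    have e3 : ηL (ψ (f a)) = η.map lam (Fι.symm (η.eta Q.asIdeal.ResidueField
        (algebraMap B Q.asIdeal.ResidueField (f a)))) := by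
      simp only [ψ, RingHom.comp_apply, RingEquiv.toRingHom_eq_coe, RingEquiv.coe_toRingHom,
        RingEquiv.apply_symm_apply]
    rw [e3, e1, e2, RingEquiv.symm_apply_apply, hnat]
    change η.eta _ (lam (algebraMap A P.asIdeal.ResidueField a)) = η.eta _ _
    rw [Ideal.ResidueField.lift_algebraMap]
    rfl
  have hint : ∀ b, IsIntegral R (ψ b) := by
    intro b
    obtain ⟨p, hpm, hp⟩ := hf b
    refine ⟨p.map g, hpm.map g, ?_⟩
    rw [Polynomial.eval₂_map]
    have : (algebraMap R (FractionRing R)).comp g = ψ.comp f := RingHom.ext fun a => (hψf a).symm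
    rw [this, ← Polynomial.hom_eval₂, hp, map_zero]
  have hr : ∀ b, ∃ r : R, algebraMap R (FractionRing R) r = ψ b := fun b =>
    IsIntegrallyClosed.algebraMap_eq_of_integral (hint b)
  have hinj := IsFractionRing.injective R (FractionRing R)
  let g' : B →+* R :=
    { toFun := fun b => Classical.choose (hr b)
      map_one' := hinj (by rw [Classical.choose_spec (hr 1), map_one, map_one])
      map_mul' := fun a b => hinj (by
        rw [Classical.choose_spec (hr (a * b)), map_mul, map_mul, Classical.choose_spec (hr a),
          Classical.choose_spec (hr b)])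
      map_zero' := hinj (by rw [Classical.choose_spec (hr 0), map_zero, map_zero])
      map_add' := fun a b => hinj (by
        rw [Classical.choose_spec (hr (a + b)), map_add, map_add, Classical.choose_spec (hr a),
          Classical.choose_spec (hr b)]) }
  refine ⟨g', RingHom.ext fun a => hinj ?_⟩
  change algebraMap R (FractionRing R) (Classical.choose (hr (f a))) = _
  rw [Classical.choose_spec (hr (f a)), hψf a]

end Groth.Agent.S13811
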