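import Groth.Statements.S13812
import Groth.Agent.S13811
-- import your own Groth.Agent.* helpers here

set_option autoImplicit false
universe u
open EtaPt

namespace Groth.Agent.S13812

theorem Nmap_comp (η : EtaPt.FieldEndo.{u}) {A B C : Type u} [CommRing A] [CommRing B] [CommRing C]
    (f : A →+* B) (h : B →+* C) (x : η.N A) :
    η.Nmap (h.comp f) x = η.Nmap h (η.Nmap f x) := by
  funext q
  rw [Groth.Agent.S13808.Nmap_apply' η (h.comp f) x q
      (PrimeSpectrum.comap f (PrimeSpectrum.comap h q)) rfl,
    Groth.Agent.S13808.Nmap_apply' η h (η.Nmap f x) q (PrimeSpectrum.comap h q) rfl,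
    Groth.Agent.S13808.Nmap_apply' η f x (PrimeSpectrum.comap h q)
      (PrimeSpectrum.comap f (PrimeSpectrum.comap h q)) rfl]
  rw [← RingHom.comp_apply (η.map _) (η.map _), ← η.map_comp]
  congr 2
  apply Ideal.ResidueField.ringHom_ext
  ext a
  simp only [RingHom.comp_apply]
  rw [Ideal.ResidueField.map_algebraMap, Ideal.ResidueField.map_algebraMap,
    Ideal.ResidueField.map_algebraMap]
  rfl


/-- If f : A → B is an integral ring map (A any commutative ring) with N_η(f) bijective, then N_η(f)
restricts to a bijection from M_η(A) onto M_η(B). Here η is a natural transformation from the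
identity of the category of fields to an endofunctor F with F(η_K) bijective and η_K purely
inseparable for every field K, N_η(A) is the product of the F(k(p)) over the primes p of A with
diagonal map t_A, and M_η(A) ⊆ N_η(A) is the subring of elements sent into the range of t_R by every
ring map from A to a valuation ring R at whose fraction field η is bijective; q_A : A → M_η(A) is
the corestriction of t_A. -/
theorem result (η : EtaPt.FieldEndo.{u}) {A B : Type u} [CommRing A] [CommRing B] (f : A →+* B)
    (hf : f.IsIntegral) (hN : Function.Bijective (η.Nmap f)) :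
    Set.BijOn (η.Nmap f) (η.M A) (η.M B) := by
  refine ⟨?_, hN.1.injOn, ?_⟩
  · intro x hx R _ _ _ hR h
    rw [← Nmap_comp]
    exact hx R hR (h.comp f)
  · intro y hy
    obtain ⟨x, rfl⟩ := hN.2 y
    refine ⟨x, ?_, rfl⟩
    intro R _ _ _ hR g
    obtain ⟨g', hg'⟩ := Groth.Agent.S13811.result η f hf hN R hR g
    rw [← hg', Nmap_comp]
    exact hy R hR g'

end Groth.Agent.S13812
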