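import Groth.Statements.S13810
import Groth.Agent.S13812
import Mathlib.RingTheory.Spectrum.Prime.Topology
-- import your own Groth.Agent.* helpers here

set_option autoImplicit false
universe u
open EtaPt

namespace Groth.Agent.S13810

theorem map_bij (η : EtaPt.FieldEndo.{u}) {L₁ L₂ : Type u} [Field L₁] [Field L₂]
    (φ : L₁ →+* L₂) (hφ : Function.Bijective φ) : Function.Bijective (η.map φ) := by
  let σ := RingEquiv.ofBijective φ hφ
  have hσ : (σ : L₁ →+* L₂) = φ := RingHom.ext fun _ => rfl
  rw [← hσ]
  refine Function.bijective_iff_has_inverse.mpr ⟨η.map (σ.symm : L₂ →+* L₁), ?_, ?_⟩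
  · intro z
    have := congrArg (fun ψ => ψ z)
      (congrArg DFunLike.coe (η.map_comp (σ : L₁ →+* L₂) (σ.symm : L₂ →+* L₁)))
    simp only [RingHom.comp_apply] at this
    rw [← this]
    have hc : (σ.symm : L₂ →+* L₁).comp (σ : L₁ →+* L₂) = RingHom.id L₁ := by ext; simp
    rw [hc, η.map_id]; rfl
  · intro z
    have := congrArg (fun ψ => ψ z)
      (congrArg DFunLike.coe (η.map_comp (σ.symm : L₂ →+* L₁) (σ : L₁ →+* L₂)))
    simp only [RingHom.comp_apply] at this
    rw [← this]
    have hc : (σ : L₁ →+* L₂).comp (σ.symm : L₂ →+* L₁) = RingHom.id L₂ := by ext; simp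
    rw [hc, η.map_id]; rfl


/-- For commutative rings A and B, the pair of maps N_η of the two projections restricts to a bijection
from M_η(A × B) onto M_η(A) × M_η(B). Here η is a natural transformation from the identity of the
category of fields to an endofunctor F with F(η_K) bijective and η_K purely inseparable for every
field K, N_η(A) is the product of the F(k(p)) over the primes p of A with diagonal map t_A, and
M_η(A) ⊆ N_η(A) is the subring of elements sent into the range of t_R by every ring map from A to a
valuation ring R at whose fraction field η is bijective; q_A : A → M_η(A) is the corestriction of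
t_A. -/
theorem result (η : EtaPt.FieldEndo.{u}) (A B : Type u) [CommRing A] [CommRing B] :
    Set.BijOn (fun x : η.N (A × B) => (η.Nmap (RingHom.fst A B) x, η.Nmap (RingHom.snd A B) x))
      (η.M (A × B)) ((η.M A : Set (η.N A)) ×ˢ (η.M B : Set (η.N B))) := by
  classical
  have hcases : ∀ P : PrimeSpectrum (A × B),
      (∃ p : PrimeSpectrum A, PrimeSpectrum.comap (RingHom.fst A B) p = P) ∨
      (∃ q : PrimeSpectrum B, PrimeSpectrum.comap (RingHom.snd A B) q = P) := by
    intro P
    rcases h : PrimeSpectrum.primeSpectrumProd A B P with p | q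
    · left; refine ⟨p, ?_⟩
      rw [← PrimeSpectrum.primeSpectrumProd_symm_inl, ← h, Equiv.symm_apply_apply]
    · right; refine ⟨q, ?_⟩
      rw [← PrimeSpectrum.primeSpectrumProd_symm_inr, ← h, Equiv.symm_apply_apply]
  have hfinj : Function.Injective (PrimeSpectrum.comap (RingHom.fst A B)) := by
    intro p1 p2 h
    rw [← PrimeSpectrum.primeSpectrumProd_symm_inl, ← PrimeSpectrum.primeSpectrumProd_symm_inl] at h
    exact Sum.inl_injective ((PrimeSpectrum.primeSpectrumProd A B).symm.injective h)
  have hsinj : Function.Injective (PrimeSpectrum.comap (RingHom.snd A B)) := by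
    intro p1 p2 h
    rw [← PrimeSpectrum.primeSpectrumProd_symm_inr, ← PrimeSpectrum.primeSpectrumProd_symm_inr] at h
    exact Sum.inr_injective ((PrimeSpectrum.primeSpectrumProd A B).symm.injective h)
  have hfs : ∀ p q, PrimeSpectrum.comap (RingHom.fst A B) p ≠
      PrimeSpectrum.comap (RingHom.snd A B) q := by
    intro p q h
    rw [← PrimeSpectrum.primeSpectrumProd_symm_inl, ← PrimeSpectrum.primeSpectrumProd_symm_inr] at h
    exact Sum.inl_ne_inr ((PrimeSpectrum.primeSpectrumProd A B).symm.injective h)
  have hsf : (RingHom.fst A B).SurjectiveOnStalks :=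
    RingHom.surjectiveOnStalks_of_surjective (fun a => ⟨(a, 0), rfl⟩)
  have hss : (RingHom.snd A B).SurjectiveOnStalks :=
    RingHom.surjectiveOnStalks_of_surjective (fun b => ⟨(0, b), rfl⟩)
  -- factorisation of maps to domains
  have hfact : ∀ (R : Type u) [CommRing R] [IsDomain R] (g : A × B →+* R),
      (∃ g₁ : A →+* R, g = g₁.comp (RingHom.fst A B)) ∨
      (∃ g₂ : B →+* R, g = g₂.comp (RingHom.snd A B)) := by
    intro R _ _ g
    have hid : IsIdempotentElem (g (1, 0)) := by
      change g (1, 0) * g (1, 0) = g (1, 0)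
      rw [← map_mul, Prod.mk_mul_mk, one_mul, zero_mul]
    have hsum : g (1, 0) + g (0, 1) = 1 := by
      rw [← map_add, Prod.mk_add_mk, add_zero, zero_add]; exact map_one g
    have hid' : g (1, 0) * (g (1, 0) - 1) = 0 := by rw [mul_sub, mul_one, hid, sub_self]
    rcases mul_eq_zero.mp hid' with h0 | h1
    · right
      have h01 : g (0, 1) = 1 := by rw [h0, zero_add] at hsum; exact hsum
      refine ⟨{ toFun := fun b => g (0, b)
                map_one' := h01
                map_mul' := fun a b => by
                  rw [← map_mul, Prod.mk_mul_mk, zero_mul]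
                map_zero' := by rw [← Prod.zero_eq_mk, map_zero]
                map_add' := fun a b => by
                  rw [← map_add, Prod.mk_add_mk, add_zero] }, ?_⟩
      ext ⟨a, b⟩
      change g (a, b) = g (0, b)
      have : (a, b) = (a, 0) * (1, 0) + (0, b) := by simp
      rw [this, map_add, map_mul, h0, mul_zero, zero_add]
    · left
      have h1 : g (1, 0) = 1 := sub_eq_zero.mp h1
      refine ⟨{ toFun := fun a => g (a, 0)
                map_one' := h1
                map_mul' := fun a b => by
                  rw [← map_mul, Prod.mk_mul_mk, zero_mul]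
                map_zero' := by rw [← Prod.zero_eq_mk, map_zero]
                map_add' := fun a b => by
                  rw [← map_add, Prod.mk_add_mk, add_zero] }, ?_⟩
      have h01 : g (0, 1) = 0 := by rw [h1] at hsum; exact by linear_combination hsum
      ext ⟨a, b⟩
      change g (a, b) = g (a, 0)
      have : (a, b) = (a, 0) + (0, b) * (0, 1) := by simp
      rw [this, map_add, map_mul, h01, mul_zero, add_zero]
  refine ⟨?_, ?_, ?_⟩
  · intro x hx
    refine ⟨?_, ?_⟩
    · intro R _ _ _ hR h
      change η.Nmap h (η.Nmap (RingHom.fst A B) x) ∈ _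
      rw [← Groth.Agent.S13812.Nmap_comp]
      exact hx R hR _
    · intro R _ _ _ hR h
      change η.Nmap h (η.Nmap (RingHom.snd A B) x) ∈ _
      rw [← Groth.Agent.S13812.Nmap_comp]
      exact hx R hR _
  · intro x1 _ x2 _ h12
    simp only [Prod.mk.injEq] at h12
    funext P
    rcases hcases P with ⟨p, rfl⟩ | ⟨q, rfl⟩
    · have e := congrFun h12.1 p
      rw [Groth.Agent.S13808.Nmap_apply' η _ x1 p _ rfl,
        Groth.Agent.S13808.Nmap_apply' η _ x2 p _ rfl] at e
      exact (η.map _).injective e
    · have e := congrFun h12.2 q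
      rw [Groth.Agent.S13808.Nmap_apply' η _ x1 q _ rfl,
        Groth.Agent.S13808.Nmap_apply' η _ x2 q _ rfl] at e
      exact (η.map _).injective e
  · rintro ⟨y, z⟩ ⟨hy, hz⟩
    have hsymm : ∀ {K₁ K₂ : Type u} [Field K₁] [Field K₂] (f : K₁ →+* K₂) (hf : Function.Bijective f)
        (v : K₂), f ((RingEquiv.ofBijective f hf).symm v) = v :=
      fun f hf v => (RingEquiv.ofBijective f hf).apply_symm_apply v
    let valf : ∀ (P : PrimeSpectrum (A × B)) (p : PrimeSpectrum A),
        PrimeSpectrum.comap (RingHom.fst A B) p = P → η.obj P.asIdeal.ResidueField :=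
      fun P p hp => (RingEquiv.ofBijective
        (η.map (Ideal.ResidueField.map P.asIdeal p.asIdeal (RingHom.fst A B) (by rw [← hp]; rfl)))
        (map_bij η _ (hsf.residueFieldMap_bijective _ _ _))).symm (y p)
    let vals : ∀ (P : PrimeSpectrum (A × B)) (q : PrimeSpectrum B),
        PrimeSpectrum.comap (RingHom.snd A B) q = P → η.obj P.asIdeal.ResidueField :=
      fun P q hq => (RingEquiv.ofBijective
        (η.map (Ideal.ResidueField.map P.asIdeal q.asIdeal (RingHom.snd A B) (by rw [← hq]; rfl)))
        (map_bij η _ (hss.residueFieldMap_bijective _ _ _))).symm (z q)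
    have valf_indep : ∀ P p1 p2 (h1 : PrimeSpectrum.comap (RingHom.fst A B) p1 = P)
        (h2 : PrimeSpectrum.comap (RingHom.fst A B) p2 = P), p1 = p2 → valf P p1 h1 = valf P p2 h2 := by
      intro P p1 p2 h1 h2 e; subst e; rfl
    have vals_indep : ∀ P q1 q2 (h1 : PrimeSpectrum.comap (RingHom.snd A B) q1 = P)
        (h2 : PrimeSpectrum.comap (RingHom.snd A B) q2 = P), q1 = q2 → vals P q1 h1 = vals P q2 h2 := by
      intro P q1 q2 h1 h2 e; subst e; rfl
    let x : η.N (A × B) := fun P =>
      if h : ∃ p : PrimeSpectrum A, PrimeSpectrum.comap (RingHom.fst A B) p = P then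
        valf P (Classical.choose h) (Classical.choose_spec h)
      else if h' : ∃ q : PrimeSpectrum B, PrimeSpectrum.comap (RingHom.snd A B) q = P then
        vals P (Classical.choose h') (Classical.choose_spec h')
      else 0
    have hxf : η.Nmap (RingHom.fst A B) x = y := by
      funext p
      rw [Groth.Agent.S13808.Nmap_apply' η _ x p _ rfl]
      have h : ∃ p' : PrimeSpectrum A, PrimeSpectrum.comap (RingHom.fst A B) p' =
          PrimeSpectrum.comap (RingHom.fst A B) p := ⟨p, rfl⟩
      have hx : x (PrimeSpectrum.comap (RingHom.fst A B) p) = valf _ p rfl := by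
        simp only [x, dif_pos h]
        exact valf_indep _ _ _ (Classical.choose_spec h) rfl (hfinj (Classical.choose_spec h))
      rw [hx]
      simp only [valf]
      exact hsymm _ _ _
    have hxs : η.Nmap (RingHom.snd A B) x = z := by
      funext q
      rw [Groth.Agent.S13808.Nmap_apply' η _ x q _ rfl]
      have hn : ¬ ∃ p' : PrimeSpectrum A, PrimeSpectrum.comap (RingHom.fst A B) p' =
          PrimeSpectrum.comap (RingHom.snd A B) q := fun ⟨p', hp'⟩ => hfs p' q hp'
      have h : ∃ q' : PrimeSpectrum B, PrimeSpectrum.comap (RingHom.snd A B) q' =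
          PrimeSpectrum.comap (RingHom.snd A B) q := ⟨q, rfl⟩
      have hx : x (PrimeSpectrum.comap (RingHom.snd A B) q) = vals _ q rfl := by
        simp only [x, dif_neg hn, dif_pos h]
        exact vals_indep _ _ _ (Classical.choose_spec h) rfl (hsinj (Classical.choose_spec h))
      rw [hx]
      simp only [vals]
      exact hsymm _ _ _
    refine ⟨x, ?_, ?_⟩
    · intro R _ _ _ hR g
      rcases hfact R g with ⟨g₁, rfl⟩ | ⟨g₂, rfl⟩
      · rw [Groth.Agent.S13812.Nmap_comp, hxf]; exact hy R hR g₁
      · rw [Groth.Agent.S13812.Nmap_comp, hxs]; exact hz R hR g₂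
    · simp only [hxf, hxs]

end Groth.Agent.S13810
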