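import Groth.Statements.S13819
import Groth.Agent.S13812
-- import your own Groth.Agent.* helpers here

set_option autoImplicit false
universe u
open EtaPt

namespace Groth.Agent.S13819

/-- Let A have finitely many minimal prime ideals and let f₁ : A → B', f₂ : B' → B be ring maps with
Spec(f₂ ∘ f₁) surjective, f₁ integral and N_η(f₁) bijective; then f₂ takes values in the subring
(B/A)_η of B (so it factors, necessarily uniquely, through the inclusion of (B/A)_η). Here η is a
natural transformation from the identity of the category of fields to an endofunctor F with F(η_K)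
bijective and η_K purely inseparable for every field K, N_η(A) is the product of the F(k(p)) over
the primes p of A with diagonal map t_A, and M_η(A) ⊆ N_η(A) is the subring of elements sent into
the range of t_R by every ring map from A to a valuation ring R at whose fraction field η is
bijective; q_A : A → M_η(A) is the corestriction of t_A. For a ring map f : A → B, (B/A)_η ⊆ B
denotes the subring of elements b with t_B(b) in N_η(f)(M_η(A)) (the image in B of the fibre product
of M_η(A) and B over M_η(B)), and q_{B/A} : A → (B/A)_η the corestriction of f. -/
theorem result (η : EtaPt.FieldEndo.{u}) {A B' B : Type u} [CommRing A] [CommRing B'] [CommRing B]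
    (hA : (minimalPrimes A).Finite) (f₁ : A →+* B') (f₂ : B' →+* B)
    (hs : Function.Surjective (PrimeSpectrum.comap (f₂.comp f₁)))
    (h₁ : f₁.IsIntegral) (hN : Function.Bijective (η.Nmap f₁)) :
    f₂.range ≤ η.rel (f₂.comp f₁) := by
  rintro _ ⟨b, rfl⟩
  obtain ⟨x, hx, hxb⟩ := (Groth.Agent.S13812.result η f₁ h₁ hN).2.2 (η.t_mem_M B' b)
  refine ⟨x, hx, ?_⟩
  change η.Nmap (f₂.comp f₁) x = η.t B (f₂ b)
  rw [Groth.Agent.S13812.Nmap_comp, hxb, η.Nmap_t_apply]

end Groth.Agent.S13819
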