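import Groth.Statements.S13905
import Mathlib
-- import your own Groth.Agent.* helpers here

set_option autoImplicit false
universe u
open ProjGeom

namespace Groth.Agent.S13905

open W4c1etcurveeff3b in
/-- Hyperplanes of projective n-space in general position, in linear-algebra form (V of dimension n + 1
over a field k, hyperplanes as n-dimensional subspaces, points as nonzero vectors): if S is a finite
set of hyperplanes in general position with at least n members and H is a hyperplane containing none
of the lines cut out by n members of S, then S with H added is again in general position. (The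
published statement is for hyperplanes of P^n_k and closed points; a closed point lying on n + 1
members is automatically one of the rational points cut out by n of them, so the condition on
nonzero vectors of V is the same condition.) -/
theorem result (k V : Type u) [Field k]
    [AddCommGroup V] [Module k V] [DecidableEq (Submodule k V)] (n : ℕ) (S : Finset (Submodule k V))
    (hS : InGeneralPosition k V n S) (hn : n ≤ S.card) (H : Submodule k V)
    (hH : Module.finrank k H = n)
    (havoid : ∀ T ⊆ S, T.card = n → ¬ (T.inf id ≤ H)) :
    InGeneralPosition k V n (insert H S) := by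
  obtain ⟨hV, hmem, hinf, hpts⟩ := hS
  by_cases hHS : H ∈ S
  · rw [Finset.insert_eq_of_mem hHS]; exact ⟨hV, hmem, hinf, hpts⟩
  have : FiniteDimensional k V := Module.finite_of_finrank_eq_succ hV
  have hnot : ∀ T' ⊆ S, T'.card ≤ n → ¬ (T'.inf id ≤ H) := by
    intro T' hT' hc hle
    obtain ⟨T'', hsub, hT''S, hcard⟩ := Finset.exists_subsuperset_card_eq hT' hc hn
    exact havoid T'' hT''S hcard ((Finset.inf_mono hsub).trans hle)
  have hdim : ∀ W : Submodule k V, ¬ W ≤ H →
      Module.finrank k ↥(H ⊓ W) + 1 = Module.finrank k W := by
    intro W hW
    have hsup : H ⊔ W = ⊤ := by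
      by_contra hne
      have hlt : H < H ⊔ W := lt_of_le_of_ne le_sup_left (fun heq => hW (heq ▸ le_sup_right))
      have h1 := Submodule.finrank_lt_finrank_of_lt hlt
      have h2 := Submodule.finrank_lt_finrank_of_lt (lt_top_iff_ne_top.mpr hne)
      rw [finrank_top] at h2
      omega
    have := Submodule.finrank_sup_add_finrank_inf_eq H W
    rw [hsup, finrank_top] at this
    omega
  have hsubS : ∀ T ⊆ insert H S, T.erase H ⊆ S := by
    intro T hT K hK
    have hK' := Finset.mem_erase.mp hK
    rcases Finset.mem_insert.mp (hT hK'.2) with h | h
    · exact absurd h hK'.1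
    · exact h
  have hsubS' : ∀ T ⊆ insert H S, H ∉ T → T ⊆ S := by
    intro T hT hHT K hK
    rcases Finset.mem_insert.mp (hT hK) with h | h
    · exact absurd (h ▸ hK) hHT
    · exact h
  refine ⟨hV, ?_, ?_, ?_⟩
  · intro K hK
    rcases Finset.mem_insert.mp hK with rfl | hK
    · exact hH
    · exact hmem K hK
  · intro T hT hc
    by_cases hHT : H ∈ T
    · have hT'S := hsubS T hT
      have hcard : (T.erase H).card + 1 = T.card := Finset.card_erase_add_one hHT
      have hinfT : T.inf id = H ⊓ (T.erase H).inf id := by
        conv_lhs => rw [← Finset.insert_erase hHT]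
        rw [Finset.inf_insert]; rfl
      rw [hinfT]
      have h1 := hinf (T.erase H) hT'S (by omega)
      have h2 := hdim ((T.erase H).inf id) (hnot (T.erase H) hT'S (by omega))
      omega
    · exact hinf T (hsubS' T hT hHT) hc
  · intro v hv T hT hvT
    by_cases hHT : H ∈ T
    · have hT'S := hsubS T hT
      have hcard : (T.erase H).card + 1 = T.card := Finset.card_erase_add_one hHT
      have hT'le : (T.erase H).card ≤ n :=
        hpts v hv (T.erase H) hT'S (fun K hK => hvT K (Finset.mem_of_mem_erase hK))
      by_contra hgt
      have hT'n : (T.erase H).card = n := by omega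
      have hfr := hinf (T.erase H) hT'S (by omega)
      rw [hT'n, show n + 1 - n = 1 by omega] at hfr
      have hvin : v ∈ (T.erase H).inf id :=
        Submodule.mem_finsetInf.mpr (fun K hK => hvT K (Finset.mem_of_mem_erase hK))
      have hspan : (k ∙ v) = (T.erase H).inf id := by
        apply Submodule.eq_of_le_of_finrank_eq
        · rw [Submodule.span_singleton_le_iff_mem]; exact hvin
        · rw [finrank_span_singleton hv, hfr]
      apply havoid (T.erase H) hT'S hT'n
      rw [← hspan, Submodule.span_singleton_le_iff_mem]
      exact hvT H hHT
    · exact hpts v hv T (hsubS' T hT hHT) hvT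

end Groth.Agent.S13905
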