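import Groth.Statements.S13963
import Mathlib
-- import your own Groth.Agent.* helpers here

set_option autoImplicit false
universe u
open TateLoc

open scoped Topology Pointwise

namespace Groth.Agent.S13963

/-- Let A' → A → A'' be continuous homomorphisms of locally compact, second-countable, Hausdorff abelian
topological groups which form a short exact sequence of abstract groups (the first injective, the
second surjective, image equal to kernel). If A' and A'' are compact, then A is compact. -/
theorem result (A' A A'' : Type u)
    [AddCommGroup A'] [TopologicalSpace A'] [IsTopologicalAddGroup A'] [SecondCountableTopology A'] [T2Space A']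
    [CompactSpace A']
    [AddCommGroup A] [TopologicalSpace A] [IsTopologicalAddGroup A] [LocallyCompactSpace A]
    [SecondCountableTopology A] [T2Space A]
    [AddCommGroup A''] [TopologicalSpace A''] [IsTopologicalAddGroup A''] [SecondCountableTopology A''] [T2Space A'']
    [CompactSpace A'']
    (f : A' →+ A) (g : A →+ A'') (hf : Continuous f) (hg : Continuous g)
    (hinj : Function.Injective f) (hsurj : Function.Surjective g) (hex : g.ker = f.range) :
    CompactSpace A := by
  have hopen : IsOpenMap g := AddMonoidHom.isOpenMap_of_sigmaCompact g hsurj hg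
  obtain ⟨V, hVc, hV0⟩ : ∃ V : Set A, IsCompact V ∧ V ∈ 𝓝 (0 : A) := exists_compact_mem_nhds 0
  let U : A → Set A'' := fun a => g '' ((fun y => y - a) ⁻¹' interior V)
  have hUopen : ∀ a, IsOpen (U a) := fun a =>
    hopen _ (isOpen_interior.preimage (continuous_id.sub continuous_const))
  have hcov : (Set.univ : Set A'') ⊆ ⋃ a, U a := by
    intro z _
    obtain ⟨x, rfl⟩ := hsurj z
    refine Set.mem_iUnion.mpr ⟨x, x, ?_, rfl⟩
    simp only [Set.mem_preimage, sub_self]
    exact mem_interior_iff_mem_nhds.mpr hV0
  obtain ⟨t, ht⟩ := isCompact_univ.elim_finite_subcover U hUopen hcov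
  let K : Set A := ⋃ a ∈ t, (fun y => a + y) '' V
  have hK : IsCompact K := t.isCompact_biUnion fun a _ => hVc.image (continuous_const.add continuous_id)
  have hL : IsCompact (Set.range f) := isCompact_range hf
  have hKL : IsCompact (K + Set.range f) := hK.add hL
  have hsub : (Set.univ : Set A) ⊆ K + Set.range f := by
    intro x _
    have hx := ht (Set.mem_univ (g x))
    simp only [Set.mem_iUnion] at hx
    obtain ⟨a, ha, y, hy, hyx⟩ := hx
    have hker : x - y ∈ g.ker := by
      rw [AddMonoidHom.mem_ker, map_sub, hyx, sub_self]
    rw [hex] at hker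
    obtain ⟨a', ha'⟩ := hker
    refine Set.mem_add.mpr ⟨a + (y - a), ?_, f a', ⟨a', rfl⟩, ?_⟩
    · exact Set.mem_biUnion ha ⟨y - a, interior_subset hy, rfl⟩
    · rw [ha']; abel
  exact isCompact_univ_iff.mp (hKL.of_isClosed_subset isClosed_univ hsub)

end Groth.Agent.S13963
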