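import Groth.Statements.S14088
import Mathlib
-- import your own Groth.Agent.* helpers here

set_option autoImplicit false
universe u
open ArSing

namespace Groth.Agent.S14088

noncomputable def helper21_P {A : Type*} [CommRing A] (h τ : A) (r : ℕ) : A :=
  ∏ i ∈ Finset.range r, (h + (i : A) * τ)

theorem helper21_P_succ {A : Type*} [CommRing A] (h τ : A) (r : ℕ) :
    helper21_P h τ (r+1) = helper21_P h τ r * (h + (r:A) * τ) := Finset.prod_range_succ _ _

theorem helper21_main {A : Type*} [CommRing A] (h τ : A) (m : ℕ) : ∀ n : ℕ,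
    helper21_P h τ n * helper21_P h τ m =
      ∑ s ∈ Finset.range (n + 1), (-1 : A) ^ s * (Nat.factorial s : A) * (Nat.choose n s : A) *
        (Nat.choose m s : A) * τ ^ s * helper21_P h τ (m + n - s) := by
  intro n
  induction n with
  | zero => simp [helper21_P]
  | succ n ih =>
    rw [helper21_P_succ, mul_comm (helper21_P h τ n) _, mul_assoc, ih, Finset.mul_sum]
    have hstep : ∀ s ∈ Finset.range (n+1), (h + (n:A) * τ) * ((-1 : A) ^ s * (Nat.factorial s : A) *
        (Nat.choose n s : A) * (Nat.choose m s : A) * τ ^ s * helper21_P h τ (m + n - s))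
       = (-1 : A) ^ s * (Nat.factorial s : A) * (Nat.choose n s : A) * (Nat.choose m s : A) * τ ^ s *
           helper21_P h τ (m + (n+1) - s)
         - (-1 : A) ^ s * (Nat.factorial s : A) * (Nat.choose n s : A) * (Nat.choose m s : A) *
           ((m:A) - s) * τ ^ (s+1) * helper21_P h τ (m + n - s) := by
      intro s hs
      rw [Finset.mem_range] at hs
      rw [show m + (n+1) - s = (m + n - s) + 1 by omega, helper21_P_succ]
      have : ((m + n - s : ℕ) : A) = (m:A) + n - s := by
        rw [Nat.cast_sub (by omega)]; push_cast; ring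
      rw [this]; ring
    rw [Finset.sum_congr rfl hstep, Finset.sum_sub_distrib]
    rw [Finset.sum_range_succ' _ (n+1)]
    have hc : ∀ s ∈ Finset.range (n+1), (-1 : A) ^ (s+1) * (Nat.factorial (s+1) : A) *
        (Nat.choose (n+1) (s+1) : A) * (Nat.choose m (s+1) : A) * τ ^ (s+1) *
        helper21_P h τ (m + (n+1) - (s+1))
       = (-1 : A) ^ (s+1) * (Nat.factorial (s+1) : A) * (Nat.choose n (s+1) : A) *
           (Nat.choose m (s+1) : A) * τ ^ (s+1) * helper21_P h τ (m + n - s)
         - (-1 : A) ^ s * (Nat.factorial s : A) * (Nat.choose n s : A) * (Nat.choose m s : A) *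
           ((m:A) - s) * τ ^ (s+1) * helper21_P h τ (m + n - s) := by
      intro s _
      rw [show m + (n+1) - (s+1) = m + n - s by omega, Nat.choose_succ_succ', Nat.factorial_succ]
      have key : ((s:A) + 1) * (Nat.choose m (s+1) : A) = (Nat.choose m s : A) * ((m:A) - s) := by
        rcases le_or_gt s m with hsm | hsm
        · have := Nat.choose_succ_right_eq m s
          have h' : ((Nat.choose m (s+1) * (s+1) : ℕ) : A) = ((Nat.choose m s * (m - s) : ℕ) : A) := by
            rw [this]
          push_cast [Nat.cast_sub hsm] at h'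
          linear_combination h'
        · rw [Nat.choose_eq_zero_of_lt hsm, Nat.choose_eq_zero_of_lt (by omega)]; simp
      push_cast
      linear_combination (-(-1 : A) ^ s * (Nat.factorial s : A) * (Nat.choose n s : A) * τ ^ (s+1) *
        helper21_P h τ (m + n - s)) * key
    rw [Finset.sum_congr rfl hc, Finset.sum_sub_distrib]
    have A1 : ∑ s ∈ Finset.range (n+1), (-1 : A) ^ s * (Nat.factorial s : A) * (Nat.choose n s : A) *
        (Nat.choose m s : A) * τ ^ s * helper21_P h τ (m + (n+1) - s)
        = ∑ s ∈ Finset.range n, (-1 : A) ^ (s+1) * (Nat.factorial (s+1) : A) * (Nat.choose n (s+1) : A) *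
           (Nat.choose m (s+1) : A) * τ ^ (s+1) * helper21_P h τ (m + n - s)
          + helper21_P h τ (m + n + 1) := by
      rw [Finset.sum_range_succ']
      congr 1
      · apply Finset.sum_congr rfl
        intro s _
        rw [show m + (n+1) - (s+1) = m + n - s by omega]
      · simp [show m + (n+1) = m + n + 1 by omega]
    have A2 : ∑ s ∈ Finset.range (n+1), (-1 : A) ^ (s+1) * (Nat.factorial (s+1) : A) *
        (Nat.choose n (s+1) : A) * (Nat.choose m (s+1) : A) * τ ^ (s+1) * helper21_P h τ (m + n - s)
        = ∑ s ∈ Finset.range n, (-1 : A) ^ (s+1) * (Nat.factorial (s+1) : A) * (Nat.choose n (s+1) : A) *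
           (Nat.choose m (s+1) : A) * τ ^ (s+1) * helper21_P h τ (m + n - s) := by
      rw [Finset.sum_range_succ, Nat.choose_succ_self]
      simp
    rw [A1, A2]
    simp only [pow_zero, Nat.factorial_zero, Nat.cast_one, Nat.choose_zero_right, mul_one, Nat.sub_zero]
    rw [show m + (n+1) = m + n + 1 by omega]
    ring

/-- The identity behind the torus-equivariant classes h_i = h_0 + i τ of the coordinate hyperplanes of a
projective space of binary forms, stated in an arbitrary commutative ring: for n ≤ m, (h_0 ⋯
h_(n-1))^2 · h_n ⋯ h_(m-1) equals the sum over s = 0, …, n of (-1)^s s! (n choose s) (m choose s)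
τ^s h_0 ⋯ h_(m+n-s-1), where h_i = h + i τ. (The published statement is in the equivariant Chow ring
of that projective space; only the relations h_i = h_j + (j - i) τ are used, so it holds in any
commutative ring.) -/
theorem result (A : Type u) [CommRing A] (h τ : A) (n m : ℕ) (hnm : n ≤ m) :
    (∏ i ∈ Finset.range n, (h + (i : A) * τ) ^ 2) * ∏ i ∈ Finset.Ico n m, (h + (i : A) * τ) =
      ∑ s ∈ Finset.range (n + 1), (-1 : A) ^ s * (Nat.factorial s : A) * (Nat.choose n s : A) *
        (Nat.choose m s : A) * τ ^ s * ∏ i ∈ Finset.range (m + n - s), (h + (i : A) * τ) := by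
  have h1 := helper21_main h τ m n
  unfold helper21_P at h1
  rw [← h1, Finset.prod_pow, sq, mul_assoc, Finset.prod_range_mul_prod_Ico _ hnm]

end Groth.Agent.S14088
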