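import Groth.Statements.S14097
import Mathlib
-- import your own Groth.Agent.* helpers here

set_option autoImplicit false
universe u
open ArSing

namespace Groth.Agent.S14097

theorem helper21_esymm_cons {A : Type*} [CommRing A] (a : A) (s : Multiset A) (j : ℕ) :
    (a ::ₘ s).esymm (j+1) = s.esymm (j+1) + a * s.esymm j := by
  simp only [Multiset.esymm, Multiset.powersetCard_cons, Multiset.map_add, Multiset.sum_add,
    Multiset.map_map, Function.comp_def, Multiset.prod_cons]
  rw [Multiset.sum_map_mul_left]

theorem helper21_esymm_zero {A : Type*} [CommRing A] (s : Multiset A) : s.esymm 0 = 1 := by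
  simp [Multiset.esymm, Multiset.powersetCard_zero_left]

noncomputable def helper21_T {A : Type*} [CommRing A] (τ : A) (s : Multiset A) : A :=
  ∑ j ∈ Finset.range (Multiset.card s), τ ^ (Multiset.card s - 1 - j) * s.esymm j

theorem helper21_T_cons {A : Type*} [CommRing A] (τ a : A) (s : Multiset A) :
    helper21_T τ (a ::ₘ s) = τ * helper21_T τ s + s.esymm (Multiset.card s) + a * helper21_T τ s := by
  unfold helper21_T
  rw [Multiset.card_cons]
  set n := Multiset.card s
  have key : τ * (∑ j ∈ Finset.range n, τ ^ (n - 1 - j) * s.esymm j) + s.esymm n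
      = ∑ j ∈ Finset.range n, τ ^ (n - 1 - j) * s.esymm (j+1) + τ ^ n := by
    have : τ * (∑ j ∈ Finset.range n, τ ^ (n - 1 - j) * s.esymm j) + s.esymm n
        = ∑ j ∈ Finset.range (n+1), τ ^ (n - j) * s.esymm j := by
      rw [Finset.sum_range_succ, Finset.mul_sum, Nat.sub_self, pow_zero, one_mul]
      congr 1
      apply Finset.sum_congr rfl
      intro j hj
      rw [Finset.mem_range] at hj
      rw [← mul_assoc, ← pow_succ']
      congr 2
      omega
    rw [this, Finset.sum_range_succ', helper21_esymm_zero, mul_one, Nat.sub_zero]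
    congr 1
    apply Finset.sum_congr rfl
    intro j hj
    congr 2
    omega
  rw [Finset.sum_range_succ']
  simp only [helper21_esymm_cons, helper21_esymm_zero, mul_add, Finset.sum_add_distrib, mul_one,
    Nat.add_sub_cancel, Nat.sub_zero]
  have e1 : ∀ j ∈ Finset.range n, τ ^ (n - (j+1)) * s.esymm (j+1) = τ ^ (n - 1 - j) * s.esymm (j+1) := by
    intro j _; congr 2; omega
  have e2 : ∀ j ∈ Finset.range n, τ ^ (n - (j+1)) * (a * s.esymm j) = a * (τ ^ (n - 1 - j) * s.esymm j) := by
    intro j _; rw [show n - (j+1) = n - 1 - j by omega]; ring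
  rw [Finset.sum_congr rfl e1, Finset.sum_congr rfl e2, ← Finset.mul_sum]
  linear_combination -key

/-- In any commutative ring, if h_0, …, h_(k-1) (k ≥ 2) and τ satisfy h_i^2 + τ h_i = 0, then ∏_(i ≤
k-2) (h_i + h_(i+1) + τ) = Σ_(j ≤ k-1) τ^(k-1-j) e_j(h), e_j the elementary symmetric functions.
(The published statement is the resulting formula for the class of the small diagonal in the Chow
ring of (P^1)^k, where the h_i are the hyperplane classes of the factors and satisfy these
relations; only the ring identity is asserted here.) -/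
theorem result (A : Type u) [CommRing A] (k : ℕ) (hk : 2 ≤ k) (τ : A)
    (h : ℕ → A) (hrel : ∀ i, i < k → h i ^ 2 + τ * h i = 0) :
    ∏ i ∈ Finset.range (k - 1), (h i + h (i + 1) + τ) =
      ∑ j ∈ Finset.range k, τ ^ (k - 1 - j) * (((Finset.range k).val.map h).esymm j) := by
  have hs : ∀ m, (Finset.range (m+1)).val.map h = h m ::ₘ (Finset.range m).val.map h := by
    intro m
    rw [Finset.range_val, Finset.range_val, Multiset.range_succ, Multiset.map_cons]
  have hcard : ∀ m, Multiset.card ((Finset.range m).val.map h) = m := by
    intro m; simp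
  have hTdef : ∀ m, helper21_T τ ((Finset.range m).val.map h)
      = ∑ j ∈ Finset.range m, τ ^ (m - 1 - j) * (((Finset.range m).val.map h).esymm j) := by
    intro m; unfold helper21_T; rw [hcard]
  have hTsucc : ∀ m, helper21_T τ ((Finset.range (m+1)).val.map h)
      = τ * helper21_T τ ((Finset.range m).val.map h) + ((Finset.range m).val.map h).esymm m
        + h m * helper21_T τ ((Finset.range m).val.map h) := by
    intro m
    rw [hs m, helper21_T_cons, hcard]
  have hQ : ∀ m, m + 1 ≤ k → h m * helper21_T τ ((Finset.range (m+1)).val.map h)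
      = ((Finset.range (m+1)).val.map h).esymm (m+1) := by
    intro m hm
    rw [hTsucc m, hs m, helper21_esymm_cons]
    have h0 : ((Finset.range m).val.map h).esymm (m+1) = 0 := by
      unfold Multiset.esymm
      rw [Multiset.powersetCard_eq_empty _ (by rw [hcard]; omega)]
      simp
    rw [h0]
    have := hrel m (by omega)
    linear_combination (helper21_T τ ((Finset.range m).val.map h)) * this
  have main : ∀ m, 1 ≤ m → m ≤ k → ∏ i ∈ Finset.range (m - 1), (h i + h (i + 1) + τ)
      = helper21_T τ ((Finset.range m).val.map h) := by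
    intro m hm1 hmk
    induction m with
    | zero => omega
    | succ m ih =>
      rcases Nat.eq_zero_or_pos m with h0 | hpos
      · subst h0
        rw [hTsucc 0]
        simp [helper21_T, helper21_esymm_zero]
      · obtain ⟨m', rfl⟩ : ∃ m', m = m' + 1 := ⟨m - 1, by omega⟩
        rw [show m' + 1 + 1 - 1 = (m' + 1 - 1) + 1 by omega, Finset.prod_range_succ,
          ih (by omega) (by omega), show m' + 1 - 1 = m' by omega, hTsucc (m'+1)]
        have := hQ m' (by omega)
        linear_combination this
  rw [main k (by omega) le_rfl, hTdef]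

end Groth.Agent.S14097
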