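import Groth.Statements.S14115
import Mathlib
-- import your own Groth.Agent.* helpers here

set_option autoImplicit false
universe u v
open SuperComm

namespace Groth.Agent.S14115

/-- Let S be an associative unital algebra over a commutative ring R, x an element and y_0, …, y_n
elements such that the anticommutator x y_i + y_i x equals r_i · 1 for scalars r_i ∈ R. Then the
graded commutator of x with the ordered product y_0 ⋯ y_n, namely x (y_0 ⋯ y_n) + (-1)^n (y_0 ⋯ y_n)
x, equals the sum over p of (-1)^p r_p times the ordered product of the y_q with q ≠ p. (The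
published statement takes x homogeneous of degree 1 and the y_i homogeneous of degree -1 in a graded
algebra with unit in degree 0, the signs being those of the supercommutator; this row states the
identity for arbitrary elements satisfying the anticommutation relations, which is what the
computation proves.) -/
theorem result {R : Type u} {S : Type v} [CommRing R] [Ring S]
    [Algebra R S] (n : ℕ) (x : S) (y : Fin (n + 1) → S) (r : Fin (n + 1) → R)
    (h : ∀ i : Fin (n + 1), x * y i + y i * x = algebraMap R S (r i)) :
    x * (List.ofFn y).prod + (-1 : S) ^ n * ((List.ofFn y).prod * x) =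
      ∑ p : Fin (n + 1), (-1 : S) ^ (p : ℕ) * (r p • (List.ofFn (fun q : Fin n => y (p.succAbove q))).prod) := by
  induction n with
  | zero =>
    simp only [List.ofFn_succ, List.ofFn_zero, List.prod_cons, List.prod_nil, mul_one, pow_zero,
      one_mul, Finset.univ_unique, Finset.sum_singleton, Fin.default_eq_zero, Fin.val_zero]
    rw [h 0, Algebra.algebraMap_eq_smul_one, Fin.sum_univ_succ, Fin.sum_univ_zero]
    simp
  | succ m ih =>
    have ih' := ih (fun i => y i.succ) (fun i => r i.succ) (fun i => h i.succ)
    rw [List.ofFn_succ, List.prod_cons, Fin.sum_univ_succ]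
    simp only [Fin.val_zero, pow_zero, one_mul, Fin.succAbove_zero, Fin.val_succ]
    have e1 : ∀ p : Fin (m + 1), (List.ofFn fun q : Fin (m + 1) => y (p.succ.succAbove q)) =
        y 0 :: List.ofFn (fun q : Fin m => y (p.succAbove q).succ) := by
      intro p
      rw [List.ofFn_succ, Fin.succ_succAbove_zero]
      congr 1
      apply List.ofFn_inj.mpr
      funext q
      rw [Fin.succ_succAbove_succ]
    simp only [e1, List.prod_cons]
    have hsum : ∀ (Z : Fin (m + 1) → S),
        ∑ p : Fin (m + 1), (-1 : S) ^ ((p : ℕ) + 1) * r p.succ • (y 0 * Z p) =
          -(y 0 * ∑ p : Fin (m + 1), (-1 : S) ^ (p : ℕ) * r p.succ • Z p) := by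
      intro Z
      rw [Finset.mul_sum, ← Finset.sum_neg_distrib]
      apply Finset.sum_congr rfl
      intro p _
      simp only [Algebra.smul_def]
      rw [← mul_assoc (algebraMap R S (r p.succ)) (y 0), Algebra.commutes, mul_assoc]
      rcases neg_one_pow_eq_or S (p : ℕ) with hp | hp
      · rw [pow_succ, hp]; noncomm_ring
      · rw [pow_succ, hp]; noncomm_ring
    rw [hsum, ← ih', Algebra.smul_def, ← h 0]
    rcases neg_one_pow_eq_or S m with hp | hp
    · rw [pow_succ, hp]; noncomm_ring
    · rw [pow_succ, hp]; noncomm_ring

end Groth.Agent.S14115
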