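import Groth.Statements.S14118
import Mathlib
-- import your own Groth.Agent.* helpers here

set_option autoImplicit false
universe u v w
open SuperComm

namespace Groth.Agent.S14118

/-- Let R be a commutative ring and M a finitely ℤ-graded R-module with finitely many nonzero graded
pieces, each finite free, presented as a finite family of finite free R-modules M_i with integer
degrees deg i (the piece of degree n being the product of the M_i with deg i = n); an endomorphism φ
of the total module Π_i M_i has degree a when its (i, j) block vanishes unless deg j = deg i + a;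
the supertrace of an endomorphism is the trace of its composite with the grading involution ε = Σ_i
(-1)^{deg i} pr_i. If φ and ψ have degrees a and b, the supertrace of the supercommutator φψ -
(-1)^{ab} ψφ vanishes. (The published statement allows the graded pieces to be finitely generated
projective; this row takes them finite free, where the trace is the ordinary trace of a free
module.) -/
theorem result {R : Type u} [CommRing R] {ι : Type v} [Fintype ι] [DecidableEq ι]
    (deg : ι → ℤ) (M : ι → Type w) [∀ i, AddCommGroup (M i)] [∀ i, Module R (M i)]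
    [∀ i, Module.Free R (M i)] [∀ i, Module.Finite R (M i)]
    (a b : ℤ) (φ ψ : (Π k, M k) →ₗ[R] (Π k, M k))
    (hφ : ∀ i j : ι, deg j ≠ deg i + a → (LinearMap.proj j) ∘ₗ φ ∘ₗ (LinearMap.single R M i) = 0)
    (hψ : ∀ i j : ι, deg j ≠ deg i + b → (LinearMap.proj j) ∘ₗ ψ ∘ₗ (LinearMap.single R M i) = 0) :
    LinearMap.trace R (Π k, M k)
      ((∑ i : ι, (LinearMap.single R M i) ∘ₗ (((-1 : R) ^ (deg i).natAbs) • (LinearMap.proj i : (Π k, M k) →ₗ[R] M i))) ∘ₗ (φ ∘ₗ ψ - ((-1 : R) ^ (a * b).natAbs) • (ψ ∘ₗ φ))) = 0 := by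
  set c : ι → R := fun i => (-1 : R) ^ (deg i).natAbs with hc
  set s : R := (-1 : R) ^ (a * b).natAbs with hs
  -- supertrace formula
  have hstr : ∀ X : (Π k, M k) →ₗ[R] (Π k, M k),
      LinearMap.trace R (Π k, M k) ((∑ i : ι, (LinearMap.single R M i) ∘ₗ (c i • (LinearMap.proj i : (Π k, M k) →ₗ[R] M i))) ∘ₗ X) =
        ∑ i, c i * LinearMap.trace R (M i) ((LinearMap.proj i) ∘ₗ X ∘ₗ (LinearMap.single R M i)) := by
    intro X
    have hsum : ∀ (Y : ι → ((Π k, M k) →ₗ[R] (Π k, M k))), (∑ i, Y i) ∘ₗ X = ∑ i, (Y i ∘ₗ X) := by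
      intro Y; ext x; simp
    rw [hsum, map_sum]
    apply Finset.sum_congr rfl
    intro i _
    rw [LinearMap.comp_assoc, LinearMap.trace_comp_comm', LinearMap.smul_comp, LinearMap.smul_comp,
      map_smul, smul_eq_mul, LinearMap.comp_assoc]
  -- expansion of a composite
  have hexp : ∀ (X Y : (Π k, M k) →ₗ[R] (Π k, M k)) (i : ι),
      LinearMap.trace R (M i) ((LinearMap.proj i) ∘ₗ (X ∘ₗ Y) ∘ₗ (LinearMap.single R M i)) =
        ∑ j, LinearMap.trace R (M j) (((LinearMap.proj j) ∘ₗ Y ∘ₗ (LinearMap.single R M i)) ∘ₗ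
          ((LinearMap.proj i) ∘ₗ X ∘ₗ (LinearMap.single R M j))) := by
    intro X Y i
    have hid : (LinearMap.proj i) ∘ₗ (X ∘ₗ Y) ∘ₗ (LinearMap.single R M i) =
        ∑ j, ((LinearMap.proj i) ∘ₗ X ∘ₗ (LinearMap.single R M j)) ∘ₗ
          ((LinearMap.proj j) ∘ₗ Y ∘ₗ (LinearMap.single R M i)) := by
      apply LinearMap.ext; intro m
      rw [LinearMap.sum_apply]
      simp only [LinearMap.comp_apply]
      conv_lhs => rw [← Finset.univ_sum_single (Y (LinearMap.single R M i m))]
      rw [map_sum, map_sum]
      rfl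
    rw [hid, map_sum]
    apply Finset.sum_congr rfl
    intro j _
    rw [LinearMap.trace_comp_comm']
  rw [LinearMap.comp_sub, LinearMap.comp_smul, map_sub, map_smul, hstr, hstr]
  simp only [hexp]
  -- rewrite second sum
  have h2 : ∑ i, c i * ∑ j, LinearMap.trace R (M j) (((LinearMap.proj j) ∘ₗ φ ∘ₗ (LinearMap.single R M i)) ∘ₗ
          ((LinearMap.proj i) ∘ₗ ψ ∘ₗ (LinearMap.single R M j))) =
      ∑ i, ∑ j, c j * LinearMap.trace R (M j) (((LinearMap.proj j) ∘ₗ ψ ∘ₗ (LinearMap.single R M i)) ∘ₗ
          ((LinearMap.proj i) ∘ₗ φ ∘ₗ (LinearMap.single R M j))) := by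
    simp only [Finset.mul_sum]
    rw [Finset.sum_comm]
    apply Finset.sum_congr rfl; intro i _
    apply Finset.sum_congr rfl; intro j _
    rw [LinearMap.trace_comp_comm']
  rw [h2, smul_eq_mul]
  simp only [Finset.mul_sum]
  rw [← Finset.sum_sub_distrib]
  apply Finset.sum_eq_zero
  intro i _
  rw [← Finset.sum_sub_distrib]
  apply Finset.sum_eq_zero
  intro j _
  by_cases hA : deg i = deg j + a
  · by_cases hB : deg j = deg i + b
    · have hb : b = -a := by omega
      have hpow : ∀ x : ℤ, (-1 : R) ^ x.natAbs = if Even x then 1 else -1 := by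
        intro x
        split_ifs with hx
        · exact (Int.natAbs_even.mpr hx).neg_one_pow
        · exact (Int.natAbs_odd.mpr (Int.not_even_iff_odd.mp hx)).neg_one_pow
      have hci : c i = s * c j := by
        simp only [hc, hs]
        rw [hpow, hpow, hpow, hA, hb]
        rcases Int.even_or_odd a with ha | ha <;> rcases Int.even_or_odd (deg j) with hd | hd <;>
          simp [ha, hd, Int.even_add, Int.even_mul, parity_simps, Int.not_even_iff_odd.mpr]
      rw [hci, mul_assoc, sub_self]
    · rw [hψ i j (by omega)]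
      simp
  · rw [hφ j i (by omega)]
    simp

end Groth.Agent.S14118
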