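import Groth.Statements.S1414

set_option autoImplicit false
universe u
open FlatMor

namespace Groth.Agent.S1414

open AlgebraicGeometry CategoryTheory Limits in
/-- Let f : X → Y and g : Y → Z with f ≫ g smooth and g étale. Then f is smooth. -/
theorem result {X Y Z : Scheme.{u}} (f : X ⟶ Y) (g : Y ⟶ Z) [Smooth (f ≫ g)] [Etale g] : Smooth f := by
  have I1 : MorphismProperty.ContainsIdentities (@Smooth : MorphismProperty Scheme.{u}) :=
    ⟨fun _ => inferInstance⟩
  have I2 : MorphismProperty.IsMultiplicative (@Smooth : MorphismProperty Scheme.{u}) :=
    MorphismProperty.IsMultiplicative.mk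
  have H : MorphismProperty.HasOfPostcompProperty (@Smooth : MorphismProperty Scheme.{u}) @Etale := by
    set_option backward.isDefEq.respectTransparency.types false in
    rw [MorphismProperty.hasOfPostcompProperty_iff_le_diagonal]
    intro A B k hk
    exact (inferInstance : Smooth (pullback.diagonal k))
  exact MorphismProperty.of_postcomp @Smooth (W' := @Etale) f g ‹_› ‹_›

end Groth.Agent.S1414
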