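import Groth.Statements.S14280
import Mathlib
-- import your own Groth.Agent.* helpers here

set_option autoImplicit false
universe u
open SpSeq

namespace Groth.Agent.S14280

theorem helper21_trace_bound {V : Type*} [AddCommGroup V] [Module ℂ V] [FiniteDimensional ℂ V]
    (f : V →ₗ[ℂ] V) (B : ℝ) (hB : 0 ≤ B)
    (h : ∀ μ : ℂ, Module.End.HasEigenvalue f μ → ‖μ‖ ≤ B) :
    ‖LinearMap.trace ℂ V f‖ ≤ (Module.finrank ℂ V : ℝ) * B := by
  rw [Module.End.trace_eq_sum_roots_charpoly_of_splits (IsAlgClosed.splits _)]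
  have hroots : ∀ μ ∈ f.charpoly.roots, ‖μ‖ ≤ B := by
    intro μ hμ
    rw [Polynomial.mem_roots'] at hμ
    exact h μ ((Module.End.hasEigenvalue_iff_isRoot_charpoly f μ).mpr hμ.2)
  calc ‖f.charpoly.roots.sum‖ ≤ (f.charpoly.roots.map (fun x => ‖x‖)).sum := norm_multiset_sum_le _
    _ ≤ (Multiset.card f.charpoly.roots : ℝ) * B := by
        have := Multiset.sum_le_card_nsmul (f.charpoly.roots.map (fun x => ‖x‖)) B
          (by intro x hx; rw [Multiset.mem_map] at hx; obtain ⟨μ, hμ, rfl⟩ := hx; exact hroots μ hμ)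
        simpa [nsmul_eq_mul] using this
    _ ≤ (f.charpoly.natDegree : ℝ) * B := by
        gcongr
        exact_mod_cast Polynomial.card_roots' _
    _ = (Module.finrank ℂ V : ℝ) * B := by rw [LinearMap.charpoly_natDegree]

/-- Let E^{p,q} (p, q ≥ 0) be finite-dimensional complex vector spaces each carrying an endomorphism Φ,
and suppose that for a natural number N and functions a, c ≥ 0 (real) and b, d (natural numbers) one
has E^{p,q} = 0 for q > N, |μ| ≤ a(q)c(p) for every eigenvalue μ of Φ on E^{p,q}, and dim E^{p,q} ≤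
b(q)d(p). If Σ_p c(p)d(p) converges then the family of traces tr(Φ | E^{p,q}) is absolutely summable
over all pairs (p, q). (The published statement takes a and b defined on {0, …, N} only; here they
are functions on all natural numbers, which changes nothing since E^{p,q} = 0 for q > N.) -/
theorem result
    (E : ℕ → ℕ → Type u) [∀ p q, AddCommGroup (E p q)] [∀ p q, Module ℂ (E p q)]
    [∀ p q, FiniteDimensional ℂ (E p q)] (Φ : ∀ p q, E p q →ₗ[ℂ] E p q)
    (N : ℕ) (a c : ℕ → ℝ) (b d : ℕ → ℕ) (ha : ∀ q, 0 ≤ a q) (hc : ∀ p, 0 ≤ c p)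
    (h1 : ∀ p q, N < q → Subsingleton (E p q))
    (h2 : ∀ p q (μ : ℂ), Module.End.HasEigenvalue (Φ p q) μ → ‖μ‖ ≤ a q * c p)
    (h3 : ∀ p q, Module.finrank ℂ (E p q) ≤ b q * d p)
    (hsum : Summable fun p : ℕ => c p * (d p : ℝ)) :
    Summable fun pq : ℕ × ℕ => ‖LinearMap.trace ℂ (E pq.1 pq.2) (Φ pq.1 pq.2)‖ := by
  let g : ℕ → ℝ := fun q => if q ≤ N then (b q : ℝ) * a q else 0
  have hg : Summable g := by
    apply summable_of_ne_finset_zero (s := Finset.range (N+1))
    intro q hq
    simp only [Finset.mem_range, not_lt] at hq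
    simp only [g, if_neg (show ¬ q ≤ N by omega)]
  have hg0 : 0 ≤ g := by
    intro q
    simp only [g]
    split_ifs
    · exact mul_nonneg (Nat.cast_nonneg _) (ha q)
    · exact le_rfl
  have hcd0 : 0 ≤ fun p : ℕ => c p * (d p : ℝ) := fun p => mul_nonneg (hc p) (Nat.cast_nonneg _)
  have hprod := Summable.mul_of_nonneg hsum hg hcd0 hg0
  refine Summable.of_nonneg_of_le (fun _ => norm_nonneg _) ?_ hprod
  rintro ⟨p, q⟩
  simp only
  by_cases hq : q ≤ N
  · simp only [g, if_pos hq]
    have hB : 0 ≤ a q * c p := mul_nonneg (ha q) (hc p)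
    calc ‖LinearMap.trace ℂ (E p q) (Φ p q)‖ ≤ (Module.finrank ℂ (E p q) : ℝ) * (a q * c p) :=
          helper21_trace_bound (Φ p q) _ hB (h2 p q)
      _ ≤ ((b q * d p : ℕ) : ℝ) * (a q * c p) := by
          gcongr
          exact_mod_cast h3 p q
      _ = c p * (d p : ℝ) * ((b q : ℝ) * a q) := by push_cast; ring
  · simp only [g, if_neg hq, mul_zero]
    have := h1 p q (by omega)
    have : Φ p q = 0 := Subsingleton.elim _ _
    rw [this, map_zero, norm_zero]

end Groth.Agent.S14280
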