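import Groth.Statements.S14294
import Mathlib
-- import your own Groth.Agent.* helpers here

set_option autoImplicit false
universe u v
open PtDeg

namespace Groth.Agent.S14294

/-- Let A and G be abelian groups, written additively, and f : A → G a map which is pointed of degree 2,
that is f(x+y+z) + f(x) + f(y) + f(z) = f(x+y) + f(x+z) + f(y+z) for all x, y, z in A. If an integer
n satisfies n·x = 0 for every x in A, then 2n·f(x) = 0 for every x in A, and if moreover n is odd
then n·f(x) = 0 for every x in A. -/
theorem result {A : Type u} {G : Type v} [AddCommGroup A] [AddCommGroup G]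
    (f : A → G) (hf : ∀ x y z : A, f (x + y + z) + f x + f y + f z = f (x + y) + f (x + z) + f (y + z))
    (n : ℤ) (hn : ∀ x : A, n • x = 0) :
    (∀ x : A, (2 * n) • f x = 0) ∧ (Odd n → ∀ x : A, n • f x = 0) := by
  have h0 : f 0 = 0 := by
    have h := hf 0 0 0
    simp only [add_zero] at h
    have h' : f 0 + f 0 + f 0 + f 0 = f 0 + f 0 + f 0 + 0 := by rw [h, add_zero]
    exact add_left_cancel h'
  have hNx : ∀ x : A, n.natAbs • x = 0 := by
    intro x
    rcases Int.natAbs_eq n with h | h
    · have := hn x; rw [h, natCast_zsmul] at this; exact this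
    · have := hn x; rw [h, neg_smul, neg_eq_zero, natCast_zsmul] at this; exact this
  have key : ∀ x : A, (2 * n.natAbs) • f x = 0 ∧ (Odd n.natAbs → n.natAbs • f x = 0) := by
    intro x
    let B : A →+ G :=
      { toFun := fun y => f (y + x) - f y - f x
        map_zero' := by simp [h0]
        map_add' := by
          intro y z
          have := hf y z x
          show f (y + z + x) - f (y + z) - f x = (f (y + x) - f y - f x) + (f (z + x) - f z - f x)
          have h2 : f (y + z + x) = f (y + z) + f (y + x) + f (z + x) - f y - f z - f x := by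
            rw [← this]; abel
          rw [h2]; abel }
    have hBdef : ∀ y, B y = f (y + x) - f y - f x := fun y => rfl
    have hBN : n.natAbs • B x = 0 := by rw [← map_nsmul, hNx]; exact map_zero B
    have hfk : ∀ k : ℕ, f (k • x) = k • f x + (k.choose 2) • B x := by
      intro k
      induction k with
      | zero => simp [h0]
      | succ k ih =>
        have e : f ((k + 1) • x) = B (k • x) + f (k • x) + f x := by
          rw [hBdef, succ_nsmul]; abel
        rw [e, map_nsmul, ih, Nat.choose_succ_succ', Nat.choose_one_right, add_nsmul, add_nsmul,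
          one_nsmul]
        abel
    have hfN := hfk n.natAbs
    rw [hNx, h0] at hfN
    constructor
    · have e1 : (2 * n.natAbs) • f x = - ((2 * n.natAbs.choose 2) • B x) := by
        rw [mul_nsmul', mul_nsmul', eq_neg_iff_add_eq_zero, ← nsmul_add, ← hfN, nsmul_zero]
      rw [e1, neg_eq_zero]
      have e2 : 2 * n.natAbs.choose 2 = n.natAbs * (n.natAbs - 1) := by
        rw [Nat.choose_two_right, mul_comm]
        have : 2 ∣ n.natAbs * (n.natAbs - 1) := (Nat.even_mul_pred_self _).two_dvd
        rw [Nat.div_mul_cancel this]
      rw [e2, mul_nsmul, hBN, nsmul_zero]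
    · intro hodd
      obtain ⟨m, hm⟩ := hodd
      have e2 : n.natAbs.choose 2 = n.natAbs * m := by
        rw [Nat.choose_two_right, hm]
        have : (2 * m + 1) * (2 * m + 1 - 1) = (m * (2 * m + 1)) * 2 := by
          rw [Nat.add_sub_cancel]; ring
        rw [this, Nat.mul_div_cancel _ (by norm_num), mul_comm]
      rw [e2, mul_nsmul, hBN, nsmul_zero, add_zero] at hfN
      exact hfN.symm
  constructor
  · intro x
    rcases Int.natAbs_eq n with h | h
    · rw [h]; have := (key x).1; rw [← natCast_zsmul] at this; exact_mod_cast this
    · rw [h]; have := (key x).1; rw [← natCast_zsmul] at this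
      rw [mul_neg, neg_smul, neg_eq_zero]; exact_mod_cast this
  · intro hodd x
    have hodd' : Odd n.natAbs := Int.natAbs_odd.mpr hodd
    rcases Int.natAbs_eq n with h | h
    · rw [h]; have := (key x).2 hodd'; rw [natCast_zsmul]; exact this
    · rw [h, neg_smul, neg_eq_zero, natCast_zsmul]; exact (key x).2 hodd'

end Groth.Agent.S14294
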