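import Groth.Statements.S14295
import Mathlib
-- import your own Groth.Agent.* helpers here

set_option autoImplicit false
universe u v
open PtDeg

namespace Groth.Agent.S14295

/-- Let A and G be abelian groups, written additively, and f : A → G a map which is pointed of degree 2,
that is f(x+y+z) + f(x) + f(y) + f(z) = f(x+y) + f(x+z) + f(y+z) for all x, y, z in A. Then for
every integer n and every x in A one has f(n·x) = (n(n+1)/2)·f(x) + (n(n−1)/2)·f(−x) (the two
coefficients are the integers n(n+1)/2 and n(n−1)/2). -/
theorem result {A : Type u} {G : Type v} [AddCommGroup A] [AddCommGroup G]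
    (f : A → G) (hf : ∀ x y z : A, f (x + y + z) + f x + f y + f z = f (x + y) + f (x + z) + f (y + z))
    (n : ℤ) (x : A) :
    f (n • x) = (n * (n + 1) / 2) • f x + (n * (n - 1) / 2) • f (-x) := by
  have h0 : f 0 = 0 := by
    have h := hf 0 0 0
    simp only [add_zero] at h
    have h' : f 0 + f 0 + f 0 + f 0 = f 0 + f 0 + f 0 + 0 := by rw [h, add_zero]
    exact add_left_cancel h'
  have hrec : ∀ m : ℤ, f ((m + 1) • x) + f ((m - 1) • x) = f (m • x) + f (m • x) + f x + f (-x) := by
    intro m
    have h := hf (m • x) x (-x)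
    simp only [add_neg_cancel_right, add_neg_cancel, h0, add_zero] at h
    rw [add_smul, one_smul, sub_smul, one_smul, sub_eq_add_neg, ← h]
  have hT : ∀ m : ℤ, (m + 1) * (m + 1 + 1) / 2 + (m - 1) * (m - 1 + 1) / 2 = 2 * (m * (m + 1) / 2) + 1 := by
    intro m
    have e1 : (m + 1) * (m + 1 + 1) = m * m + 3 * m + 2 := by ring
    have e2 : (m - 1) * (m - 1 + 1) = m * m - m := by ring
    have e3 : m * (m + 1) = m * m + m := by ring
    have hev : 2 ∣ m * m + m := by
      rw [← e3]; exact (Int.even_mul_succ_self m).two_dvd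
    rw [e1, e2, e3]
    generalize m * m = q at *
    omega
  have hS : ∀ m : ℤ, (m + 1) * (m + 1 - 1) / 2 + (m - 1) * (m - 1 - 1) / 2 = 2 * (m * (m - 1) / 2) + 1 := by
    intro m
    have e1 : (m + 1) * (m + 1 - 1) = m * m + m := by ring
    have e2 : (m - 1) * (m - 1 - 1) = m * m - 3 * m + 2 := by ring
    have e3 : m * (m - 1) = m * m - m := by ring
    have hev : 2 ∣ m * m + m := by
      have : m * m + m = m * (m + 1) := by ring
      rw [this]; exact (Int.even_mul_succ_self m).two_dvd
    rw [e1, e2, e3]
    generalize m * m = q at *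
    omega
  let F : ℤ → G := fun m => (m * (m + 1) / 2) • f x + (m * (m - 1) / 2) • f (-x)
  have hFrec : ∀ m : ℤ, F (m + 1) + F (m - 1) = F m + F m + f x + f (-x) := by
    intro m
    simp only [F]
    calc ((m + 1) * (m + 1 + 1) / 2) • f x + ((m + 1) * (m + 1 - 1) / 2) • f (-x) +
          (((m - 1) * (m - 1 + 1) / 2) • f x + ((m - 1) * (m - 1 - 1) / 2) • f (-x))
        = ((m + 1) * (m + 1 + 1) / 2 + (m - 1) * (m - 1 + 1) / 2) • f x +
          ((m + 1) * (m + 1 - 1) / 2 + (m - 1) * (m - 1 - 1) / 2) • f (-x) := by
          rw [add_smul, add_smul]; abel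
      _ = _ := by
          rw [hT, hS, add_smul, add_smul, one_smul, one_smul, mul_smul, mul_smul, two_smul, two_smul]
          abel
  let D : ℤ → G := fun m => f (m • x) - F m
  have hD0 : D 0 = 0 := by simp [D, F, h0]
  have hD1 : D 1 = 0 := by
    simp only [D, F, one_smul]
    norm_num
  have hDrec : ∀ m : ℤ, D (m + 1) - D m = D m - D (m - 1) := by
    intro m
    have h1 := hrec m
    have h2 := hFrec m
    simp only [D]
    have : f ((m + 1) • x) - F (m + 1) = (f (m • x) + f (m • x) + f x + f (-x) - f ((m - 1) • x)) -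
        (F m + F m + f x + f (-x) - F (m - 1)) := by
      rw [← h1, ← h2]; abel
    rw [this]; abel
  have hE : ∀ m : ℤ, D (m + 1) - D m = 0 := by
    intro m
    induction m using Int.induction_on with
    | zero => simp [hD0, hD1]
    | succ i ih => rw [hDrec, add_sub_cancel_right]; exact ih
    | pred i ih => rw [sub_add_cancel, ← hDrec]; exact ih
  have hD : ∀ m : ℤ, D m = 0 := by
    intro m
    induction m using Int.induction_on with
    | zero => exact hD0
    | succ i ih => have := hE i; rw [ih, sub_zero] at this; exact this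
    | pred i ih => have := hE (-(i : ℤ) - 1); rw [sub_add_cancel, ih, zero_sub, neg_eq_zero] at this; exact this
  have := hD n
  simp only [D, sub_eq_zero] at this
  exact this

end Groth.Agent.S14295
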