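import Groth.Statements.S14296
import Mathlib
-- import your own Groth.Agent.* helpers here

set_option autoImplicit false
universe u v
open PtDeg

namespace Groth.Agent.S14296

/-- Let G and H be abelian groups, written additively, n an integer such that 2n²·x = 0 for every x in
G, and d : G → H a quadratic map, meaning that d is pointed of degree 2 (d(x+y+z) + d(x) + d(y) +
d(z) = d(x+y) + d(x+z) + d(y+z) for all x, y, z) and even (d(−x) = d(x) for all x). Then d(2n·x) = 0
for every x in G. -/
theorem result {G : Type u} {H : Type v} [AddCommGroup G] [AddCommGroup H]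
    (n : ℤ) (hn : ∀ x : G, (2 * n ^ 2) • x = 0)
    (d : G → H) (hd : ∀ x y z : G, d (x + y + z) + d x + d y + d z = d (x + y) + d (x + z) + d (y + z))
    (heven : ∀ x : G, d (-x) = d x) (x : G) :
    d ((2 * n) • x) = 0 := by
  have h0 : d 0 = 0 := by
    have h := hd 0 0 0
    simp only [add_zero] at h
    have h' : d 0 + d 0 + d 0 + d 0 = d 0 + d 0 + d 0 + 0 := by rw [h, add_zero]
    exact add_left_cancel h'
  have hNx : ∀ y : G, (2 * n.natAbs ^ 2) • y = 0 := by
    intro y
    have := hn y
    have e : (2 * n ^ 2 : ℤ) = ((2 * n.natAbs ^ 2 : ℕ) : ℤ) := by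
      push_cast; rw [sq_abs]
    rw [e, natCast_zsmul] at this
    exact this
  let B : G →+ H :=
    { toFun := fun y => d (y + x) - d y - d x
      map_zero' := by simp [h0]
      map_add' := by
        intro y z
        have := hd y z x
        show d (y + z + x) - d (y + z) - d x = (d (y + x) - d y - d x) + (d (z + x) - d z - d x)
        have h2 : d (y + z + x) = d (y + z) + d (y + x) + d (z + x) - d y - d z - d x := by
          rw [← this]; abel
        rw [h2]; abel }
  have hBdef : ∀ y, B y = d (y + x) - d y - d x := fun y => rfl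
  have hBx : B x = 2 • d x := by
    have h1 : B (-x) = - B x := map_neg B x
    rw [hBdef, neg_add_cancel, h0, heven] at h1
    rw [two_nsmul, ← neg_neg (B x), ← h1]; abel
  have hfk : ∀ k : ℕ, d (k • x) = k • d x + (k.choose 2) • B x := by
    intro k
    induction k with
    | zero => simp [h0]
    | succ k ih =>
      have e : d ((k + 1) • x) = B (k • x) + d (k • x) + d x := by
        rw [hBdef, succ_nsmul]; abel
      rw [e, map_nsmul, ih, Nat.choose_succ_succ', Nat.choose_one_right, add_nsmul, add_nsmul,
        one_nsmul]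
      abel
  have hsq : ∀ k : ℕ, d (k • x) = (k * k) • d x := by
    intro k
    rw [hfk, hBx, ← mul_nsmul', ← add_nsmul]
    congr 1
    rw [Nat.choose_two_right]
    have : 2 ∣ k * (k - 1) := (Nat.even_mul_pred_self _).two_dvd
    rw [Nat.div_mul_cancel this]
    rcases k with _ | k
    · simp
    · simp only [Nat.add_sub_cancel]; ring
  have hmain : d ((2 * n.natAbs) • x) = 0 := by
    rw [hsq]
    have e : (2 * n.natAbs * (2 * n.natAbs)) = 2 * (2 * n.natAbs ^ 2) := by ring
    rw [e, mul_nsmul, ← hBx, ← map_nsmul, hNx, map_zero]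
  rcases Int.natAbs_eq n with h | h
  · rw [h]
    have e : ((2 : ℤ) * (n.natAbs : ℤ)) • x = (2 * n.natAbs) • x := by
      rw [← natCast_zsmul]; push_cast; rfl
    rw [e, hmain]
  · rw [h]
    have e : ((2 : ℤ) * -(n.natAbs : ℤ)) • x = -((2 * n.natAbs) • x) := by
      rw [mul_neg, neg_smul, ← natCast_zsmul]; push_cast; rfl
    rw [e, heven, hmain]

end Groth.Agent.S14296
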