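import Groth.Statements.S14305
import Mathlib
-- import your own Groth.Agent.* helpers here

set_option autoImplicit false
universe u v
open PtDeg

namespace Groth.Agent.S14305

theorem helper21_powerset_map {α β : Type*} [DecidableEq β] (s : Finset α) (e : α ↪ β) :
    (s.map e).powerset = s.powerset.map ⟨fun t => t.map e, Finset.map_injective e⟩ := by
  ext t
  simp only [Finset.mem_powerset, Finset.mem_map, Function.Embedding.coeFn_mk]
  constructor
  · intro ht
    obtain ⟨u, hu, rfl⟩ := Finset.subset_map_iff.mp ht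
    exact ⟨u, hu, rfl⟩
  · rintro ⟨u, hu, rfl⟩
    exact Finset.map_subset_map.mpr hu

def helper21_D {A G : Type*} [AddCommGroup A] [AddCommGroup G] (f : A → G) (m : ℕ)
    (x : Fin m → A) : G :=
  ∑ I ∈ (Finset.univ : Finset (Fin m)).powerset, ((-1 : ℤ) ^ (m + I.card)) • f (∑ i ∈ I, x i)

theorem helper21_D_snoc {A G : Type*} [AddCommGroup A] [AddCommGroup G] (f : A → G) (n : ℕ)
    (z : Fin n → A) (b : A) :
    helper21_D f (n+1) (Fin.snoc z b) = ∑ J ∈ (Finset.univ : Finset (Fin n)).powerset,
      ((-1 : ℤ) ^ (n + J.card)) • (f (b + ∑ i ∈ J, z i) - f (∑ i ∈ J, z i)) := by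
  classical
  unfold helper21_D
  rw [Fin.univ_castSuccEmb, Finset.cons_eq_insert, Finset.sum_powerset_insert (by simp),
    helper21_powerset_map, Finset.sum_map, Finset.sum_map, ← Finset.sum_add_distrib]
  apply Finset.sum_congr rfl
  intro J _
  simp only [Function.Embedding.coeFn_mk]
  have hnot : Fin.last n ∉ J.map Fin.castSuccEmb := by simp [Fin.castSucc_ne_last]
  rw [Finset.card_insert_of_notMem hnot, Finset.sum_insert hnot, Finset.card_map, Finset.sum_map]
  simp only [Fin.castSuccEmb_apply, Fin.snoc_castSucc, Fin.snoc_last]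
  rw [smul_sub, show n + 1 + (J.card + 1) = (n + J.card) + 1 + 1 by ring,
    show n + 1 + J.card = (n + J.card) + 1 by ring, pow_succ, pow_succ, pow_succ]
  simp only [mul_neg, mul_one, neg_neg, neg_smul]
  abel

theorem helper21_key {A G : Type*} [AddCommGroup A] [AddCommGroup G] (f : A → G) (n : ℕ)
    (y : Fin n → A) (j : Fin n) (a b : A) :
    helper21_D f (n+1) (Fin.snoc (Function.update y j a) b) =
      helper21_D f n (Function.update y j (a + b)) - helper21_D f n (Function.update y j a)
        - helper21_D f n (Function.update y j b) := by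
  classical
  rw [helper21_D_snoc]
  unfold helper21_D
  rw [← Finset.sum_sub_distrib, ← Finset.sum_sub_distrib]
  rw [← Finset.insert_erase (Finset.mem_univ j),
    Finset.sum_powerset_insert (Finset.notMem_erase j _),
    Finset.sum_powerset_insert (Finset.notMem_erase j _), ← Finset.sum_add_distrib,
    ← Finset.sum_add_distrib]
  apply Finset.sum_congr rfl
  intro K hK
  rw [Finset.mem_powerset] at hK
  have hjK : j ∉ K := fun h => Finset.notMem_erase j _ (hK h)
  have hs : ∀ c : A, ∑ i ∈ K, Function.update y j c i = ∑ i ∈ K, y i := by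
    intro c
    apply Finset.sum_congr rfl
    intro i hi
    rw [Function.update_of_ne (by rintro rfl; exact hjK hi)]
  have hs' : ∀ c : A, ∑ i ∈ insert j K, Function.update y j c i = c + ∑ i ∈ K, y i := by
    intro c
    rw [Finset.sum_insert hjK, Function.update_self, hs]
  simp only [hs, hs']
  rw [Finset.card_insert_of_notMem hjK,
    show n + (K.card + 1) = (n + K.card) + 1 by ring, pow_succ,
    show b + (a + ∑ i ∈ K, y i) = a + b + ∑ i ∈ K, y i by abel]
  simp only [mul_neg, mul_one, neg_smul, smul_sub]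
  abel

/-- Let A and G be abelian groups, written additively, f : A → G a map and n ≥ 1. For k ≥ 0 the k-th
deviation of f is the map A^k → G, (y_1, …, y_k) ↦ Σ_{∅ ≠ I ⊆ {1,…,k}} (−1)^{k+|I|} f(Σ_{i ∈ I}
y_i). Then f is pointed of degree n, meaning that its (n+1)-st deviation vanishes identically, if
and only if its n-th deviation is additive in each variable separately (with the other variables
fixed). -/
theorem result {A : Type u} {G : Type v} [AddCommGroup A] [AddCommGroup G]
    (f : A → G) (n : ℕ) (hn : 1 ≤ n) :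
    (∀ x : Fin (n + 1) → A, ∑ I ∈ ((Finset.univ : Finset (Fin (n + 1))).powerset.erase ∅), ((-1 : ℤ) ^ (n + 1 + I.card)) • f (∑ i ∈ I, x i) = 0) ↔
      (∀ (j : Fin n) (y : Fin n → A) (a b : A),
        ∑ I ∈ ((Finset.univ : Finset (Fin n)).powerset.erase ∅), ((-1 : ℤ) ^ (n + I.card)) • f (∑ i ∈ I, (Function.update y j (a + b)) i) =
          ∑ I ∈ ((Finset.univ : Finset (Fin n)).powerset.erase ∅), ((-1 : ℤ) ^ (n + I.card)) • f (∑ i ∈ I, (Function.update y j a) i) + ∑ I ∈ ((Finset.univ : Finset (Fin n)).powerset.erase ∅), ((-1 : ℤ) ^ (n + I.card)) • f (∑ i ∈ I, (Function.update y j b) i)) := by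
  classical
  have hT : ∀ (m : ℕ) (x : Fin m → A),
      ∑ I ∈ ((Finset.univ : Finset (Fin m)).powerset.erase ∅), ((-1 : ℤ) ^ (m + I.card)) • f (∑ i ∈ I, x i)
        = helper21_D f m x - ((-1 : ℤ) ^ m) • f 0 := by
    intro m x
    rw [Finset.sum_erase_eq_sub (Finset.empty_mem_powerset _)]
    simp [helper21_D]
  simp only [hT]
  constructor
  · intro H j y a b
    have h1 := H (Fin.snoc (Function.update y j a) b)
    rw [helper21_key, pow_succ, mul_neg_one, neg_smul] at h1
    rw [← sub_eq_zero, ← h1]
    abel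
  · intro H x
    obtain ⟨m, rfl⟩ : ∃ m, n = m + 1 := ⟨n - 1, by omega⟩
    have hx : x = Fin.snoc (Function.update (Fin.init x) (Fin.last m) (x (Fin.castSucc (Fin.last m))))
        (x (Fin.last (m+1))) := by
      have hu : Function.update (Fin.init x) (Fin.last m) (x (Fin.castSucc (Fin.last m))) =
          Fin.init x := Function.update_eq_self (Fin.last m) (Fin.init x)
      rw [hu, Fin.snoc_init_self]
    have h1 := H (Fin.last m) (Fin.init x) (x (Fin.castSucc (Fin.last m))) (x (Fin.last (m+1)))
    rw [← sub_eq_zero] at h1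
    rw [hx, helper21_key, pow_succ (-1 : ℤ) (m + 1), mul_neg_one, neg_smul, ← h1]
    abel

end Groth.Agent.S14305
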