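import Groth.Statements.S14307
import Mathlib
-- import your own Groth.Agent.* helpers here

set_option autoImplicit false
universe u v
open PtDeg

namespace Groth.Agent.S14307

/-- Let A and G be abelian groups, written additively, f : A → G a map and n ≥ 1. If a tuple x ∈ A^n has
some coordinate equal to 0, then the n-th deviation of f at x, namely Σ_{∅ ≠ I ⊆ {1,…,n}}
(−1)^{n+|I|} f(Σ_{i ∈ I} x_i), equals (−1)^{n+1} f(0). -/
theorem result {A : Type u} {G : Type v} [AddCommGroup A] [AddCommGroup G]
    (f : A → G) (n : ℕ) (hn : 1 ≤ n) (x : Fin n → A) (i : Fin n) (hx : x i = 0) :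
    ∑ I ∈ ((Finset.univ : Finset (Fin n)).powerset.erase ∅), ((-1 : ℤ) ^ (n + I.card)) • f (∑ j ∈ I, x j) =
      ((-1 : ℤ) ^ (n + 1)) • f 0 := by
  classical
  set S : Finset (Fin n) → G := fun I => ((-1 : ℤ) ^ (n + I.card)) • f (∑ j ∈ I, x j) with hS
  have htot : ∑ I ∈ (Finset.univ : Finset (Fin n)).powerset, S I = 0 := by
    have hu : (Finset.univ : Finset (Fin n)) = insert i (Finset.univ.erase i) := by
      rw [Finset.insert_erase (Finset.mem_univ i)]
    rw [hu, Finset.sum_powerset_insert (Finset.notMem_erase i _), ← Finset.sum_add_distrib]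
    apply Finset.sum_eq_zero
    intro t ht
    rw [Finset.mem_powerset] at ht
    have hit : i ∉ t := fun h => Finset.notMem_erase i _ (ht h)
    simp only [hS]
    rw [Finset.card_insert_of_notMem hit, Finset.sum_insert hit, hx, zero_add, ← add_smul,
      ← add_assoc, pow_succ, mul_neg_one, add_neg_cancel, zero_smul]
  have hmem : (∅ : Finset (Fin n)) ∈ (Finset.univ : Finset (Fin n)).powerset := Finset.empty_mem_powerset _
  have := Finset.sum_erase_add _ S hmem
  rw [htot] at this
  change ∑ I ∈ ((Finset.univ : Finset (Fin n)).powerset.erase ∅), S I = _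
  rw [eq_neg_of_add_eq_zero_left this]
  simp only [hS, Finset.card_empty, add_zero, Finset.sum_empty, pow_succ, mul_neg_one, neg_smul]

end Groth.Agent.S14307
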