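import Groth.Statements.S14308
import Mathlib
-- import your own Groth.Agent.* helpers here

set_option autoImplicit false
universe u v w x y
open CAlg

namespace Groth.Agent.S14308

/-- Let R be a commutative ring and A, B, C commutative R-algebras with R-algebra maps i : A → B and j :
A → C that are jointly injective, an element c of B, a ring map u : C → B/(c) with u ∘ j equal to i
followed by reduction modulo c, and an element ζ of A with i ζ = c and j ζ = 0. Let η : R[X_σ, Z] →
A be an R-algebra map sending Z to ζ whose restriction to R[X_σ], composed with j, is onto C; let a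
: R[Y_τ] → B be a surjective R-algebra map and η_Z : R[X_σ, Z] → R[Y_τ] an R-algebra map with a ∘
η_Z = i ∘ η. If η_Z is surjective, then η is surjective. (The published statement is for the rings
of cycle classes, with coefficients ℤ[1/6], of a smooth quotient stack, of a smooth closed substack
of codimension d with top Chern class c of its normal bundle a non-zero-divisor, and of the open
complement, where ζ is the class of the closed substack; this row states the ring-theoretic content
for any such square of commutative rings in which A embeds in B × C.) -/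
theorem result
    {R : Type u} [CommRing R] {A : Type v} {B : Type w} {C : Type x}
    [CommRing A] [CommRing B] [CommRing C] [Algebra R A] [Algebra R B] [Algebra R C]
    (i : A →ₐ[R] B) (j : A →ₐ[R] C)
    (hinj : ∀ t : A, i t = 0 → j t = 0 → t = 0)
    (c : B) (u : C →+* B ⧸ Ideal.span ({c} : Set B))
    (hu : ∀ t : A, u (j t) = Ideal.Quotient.mk (Ideal.span ({c} : Set B)) (i t))
    (ζ : A) (hiζ : i ζ = c) (hjζ : j ζ = 0)
    {σ τ : Type y}
    (η : MvPolynomial (Option σ) R →ₐ[R] A) (hη : η (MvPolynomial.X none) = ζ)
    (hηU : Function.Surjective ((j.comp η).comp (MvPolynomial.rename (Option.some : σ → Option σ))))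
    (a : MvPolynomial τ R →ₐ[R] B) (ha : Function.Surjective a)
    (ηZ : MvPolynomial (Option σ) R →ₐ[R] MvPolynomial τ R)
    (hcomm : ∀ t, a (ηZ t) = i (η t)) (hηZ : Function.Surjective ηZ) :
    Function.Surjective η := by
  intro t
  obtain ⟨P, hP⟩ := hηU (j t)
  simp only [AlgHom.coe_comp, Function.comp_apply] at hP
  set P' := MvPolynomial.rename (Option.some : σ → Option σ) P with hP'
  set t₁ := t - η P' with ht₁
  have hj1 : j t₁ = 0 := by rw [ht₁, map_sub, hP, sub_self]
  have hi1 : i t₁ ∈ Ideal.span ({c} : Set B) := by
    rw [← Ideal.Quotient.eq_zero_iff_mem, ← hu, hj1, map_zero]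
  obtain ⟨b, hb⟩ := Ideal.mem_span_singleton'.mp hi1
  obtain ⟨Q, hQ⟩ := ha b
  obtain ⟨S, hS⟩ := hηZ Q
  have hbS : b = i (η S) := by rw [← hQ, ← hS, hcomm]
  set t₂ := t₁ - ζ * η S with ht₂
  have hi2 : i t₂ = 0 := by
    rw [ht₂, map_sub, map_mul, hiζ, ← hbS, ← hb]; ring
  have hj2 : j t₂ = 0 := by
    rw [ht₂, map_sub, map_mul, hjζ, hj1]; ring
  have h0 := hinj t₂ hi2 hj2
  refine ⟨P' + MvPolynomial.X none * S, ?_⟩
  rw [map_add, map_mul, hη]
  rw [ht₂, ht₁] at h0
  linear_combination -h0

end Groth.Agent.S14308
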