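import Groth.Statements.S1433

set_option autoImplicit false
universe u
open FlatMor

namespace Groth.Agent.S1433

open AlgebraicGeometry CategoryTheory Limits in
/-- If the canonical morphism X → Spec Γ(X, O_X) has a retraction, then X is affine. -/
theorem result (X : Scheme.{u}) (r : Spec Γ(X, ⊤) ⟶ X) (h : X.toSpecΓ ≫ r = 𝟙 X) : IsAffine X := by
  -- `r.appTop` is inverse to the isomorphism `X.toSpecΓ.appTop`.
  have h1 : r.appTop ≫ X.toSpecΓ.appTop = 𝟙 _ := by
    rw [← Scheme.Hom.comp_appTop, h]; rfl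
  have h2 : IsIso r.appTop := by
    rw [Scheme.toSpecΓ_appTop] at h1
    have : r.appTop = (Scheme.ΓSpecIso Γ(X, ⊤)).inv := by
      rw [← Category.comp_id r.appTop, ← Iso.hom_inv_id (Scheme.ΓSpecIso Γ(X, ⊤)),
        ← Category.assoc, h1, Category.id_comp]
    rw [this]; infer_instance
  -- hence `e := r ≫ X.toSpecΓ` is an isomorphism
  have h3 : IsIso (r ≫ X.toSpecΓ) := by
    rw [Scheme.toSpecΓ_naturality]; infer_instance
  -- and `e` is idempotent, so it is the identity
  have h4 : r ≫ X.toSpecΓ = 𝟙 _ := by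
    have he : (r ≫ X.toSpecΓ) ≫ (r ≫ X.toSpecΓ) = (r ≫ X.toSpecΓ) ≫ 𝟙 _ := by
      rw [Category.assoc, ← Category.assoc X.toSpecΓ, h, Category.id_comp, Category.comp_id]
    exact (cancel_epi (r ≫ X.toSpecΓ)).1 he
  exact ⟨⟨r, h, h4⟩⟩

end Groth.Agent.S1433
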