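import Groth.Statements.S14351
import Mathlib
-- import your own Groth.Agent.* helpers here

set_option autoImplicit false
universe u
open CAlg

open TensorProduct

namespace Groth.Agent.S14351

/-- For ring maps A → B → C with C faithfully flat over B and C faithfully flat over A, the ring B is
faithfully flat over A. -/
theorem result (A B C : Type u) [CommRing A] [CommRing B]
    [CommRing C] [Algebra A B] [Algebra B C] [Algebra A C] [IsScalarTower A B C]
    [Module.FaithfullyFlat B C] [Module.FaithfullyFlat A C] : Module.FaithfullyFlat A B := by
  have hflat : Module.Flat A B := by
    rw [Module.Flat.iff_lTensor_preserves_injective_linearMap]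
    intro N P _ _ _ _ f hf
    have h1 : Function.Injective ((f.baseChange B).lTensor C) := by
      have h2 : Function.Injective (f.lTensor C) := Module.Flat.lTensor_preserves_injective_linearMap f hf
      have : ⇑((f.baseChange B).lTensor C) =
          ⇑(AlgebraTensorModule.cancelBaseChange A B C C P).symm ∘
            ⇑(f.lTensor C) ∘ ⇑(AlgebraTensorModule.cancelBaseChange A B C C N) := by
        funext x
        induction x using TensorProduct.induction_on with
        | zero => simp
        | tmul c y =>
          induction y using TensorProduct.induction_on with
          | zero => simp
          | tmul b n =>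
            simp only [AlgebraTensorModule.cancelBaseChange_tmul, Function.comp_apply, LinearMap.lTensor_tmul, LinearMap.baseChange_tmul, AlgebraTensorModule.cancelBaseChange_symm_tmul]
            rw [TensorProduct.smul_tmul, TensorProduct.smul_tmul', smul_eq_mul, mul_one]
          | add x y hx hy => simp_all [tmul_add]
        | add x y hx hy => simp_all
      rw [this]
      exact (AlgebraTensorModule.cancelBaseChange A B C C P).symm.injective.comp
        (h2.comp (AlgebraTensorModule.cancelBaseChange A B C C N).injective)
    rw [Module.FaithfullyFlat.lTensor_injective_iff_injective B C] at h1
    exact h1
  apply Module.FaithfullyFlat.of_comap_surjective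
  have hs := PrimeSpectrum.comap_surjective_of_faithfullyFlat (A := A) (B := C)
  rw [IsScalarTower.algebraMap_eq A B C, PrimeSpectrum.comap_comp] at hs
  exact Function.Surjective.of_comp hs

end Groth.Agent.S14351
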