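import Groth.Statements.S1438
import Mathlib
-- import your own Groth.Agent.* helpers here

set_option autoImplicit false
universe u
open FlatMor

namespace Groth.Agent.S1438

open AlgebraicGeometry CategoryTheory Limits in
/-- A separated scheme with an open covering by n + 1 affine opens has affine stratification number at
most n: it admits an affine stratification with index set {0, …, n}. -/
theorem result (X : Scheme.{u}) [X.IsSeparated] (n : ℕ) (U : Fin (n + 1) → X.Opens)
    (hU : ∀ i, IsAffineOpen (U i)) (hcov : ⨆ i, U i = ⊤) :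
    MoreMor.HasAffineStratification X n := by
  classical
  have hex : ∀ x : X, ∃ i, x ∈ U i := by
    intro x
    have : x ∈ (⨆ i, U i : X.Opens) := by rw [hcov]; trivial
    simpa [TopologicalSpace.Opens.mem_iSup] using this
  let F : X → Finset (Fin (n + 1)) := fun x => Finset.univ.filter (fun i => x ∈ U i)
  have hF : ∀ x, (F x).Nonempty := fun x => by
    obtain ⟨i, hi⟩ := hex x
    exact ⟨i, by simp [F, hi]⟩
  let m : X → Fin (n + 1) := fun x => (F x).min' (hF x)
  have hm1 : ∀ x, x ∈ U (m x) := fun x => by
    have := (F x).min'_mem (hF x)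
    simpa [F] using this
  have hm2 : ∀ x i, x ∈ U i → m x ≤ i := fun x i hi =>
    (F x).min'_le i (by simp [F, hi])
  have hge : ∀ x a, a ≤ m x ↔ ∀ i, i < a → x ∉ U i := by
    intro x a
    constructor
    · intro h i hi hxi
      exact absurd (lt_of_le_of_lt (hm2 x i hxi) hi) (not_lt.mpr h)
    · intro h
      by_contra hc
      exact h (m x) (lt_of_not_ge hc) (hm1 x)
  have heq : ∀ x a, m x = a ↔ x ∈ U a ∧ ∀ i, i < a → x ∉ U i := by
    intro x a
    constructor
    · rintro rfl; exact ⟨hm1 x, (hge x (m x)).mp le_rfl⟩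
    · rintro ⟨h1, h2⟩
      exact le_antisymm (hm2 x a h1) ((hge x a).mpr h2)
  refine ⟨fun x => Fin.rev (m x), ?_, ?_⟩
  · intro j
    have : {x : X | Fin.rev (m x) ≤ j} = ⋂ i ∈ {i : Fin (n + 1) | i < Fin.rev j}, ((U i : Set X)ᶜ) := by
      ext x
      simp only [Set.mem_setOf_eq, Set.mem_iInter, Set.mem_compl_iff, SetLike.mem_coe]
      rw [← Fin.rev_le_rev, Fin.rev_rev, hge]
    rw [this]
    exact isClosed_biInter fun i _ => (U i).isOpen.isClosed_compl
  · intro j
    set i := Fin.rev j with hi
    let C : Set X := {x | ∀ i', i' < i → x ∉ U i'}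
    have hC : IsClosed C := by
      have : C = ⋂ i' ∈ {i' : Fin (n + 1) | i' < i}, ((U i' : Set X)ᶜ) := by
        ext x; simp [C]
      rw [this]
      exact isClosed_biInter fun i' _ => (U i').isOpen.isClosed_compl
    have hlev : {x : X | Fin.rev (m x) = j} = (U i : Set X) ∩ C := by
      ext x
      simp only [Set.mem_setOf_eq, Set.mem_inter_iff, SetLike.mem_coe]
      rw [← Fin.rev_rev j, Fin.rev_inj, ← hi, heq]
      exact Iff.rfl
    let R := Γ(X, U i)
    let T' : Set (PrimeSpectrum R) := (hU i).fromSpec ⁻¹' C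
    have hT' : IsClosed T' := hC.preimage (hU i).fromSpec.continuous
    let I : Ideal R := PrimeSpectrum.vanishingIdeal T'
    have hsurj : Function.Surjective (Ideal.Quotient.mk I) := Ideal.Quotient.mk_surjective
    have : IsClosedImmersion (Spec.map (CommRingCat.ofHom (Ideal.Quotient.mk I))) :=
      IsClosedImmersion.spec_of_surjective _ hsurj
    let ι : Spec (CommRingCat.of (R ⧸ I)) ⟶ X :=
      Spec.map (CommRingCat.ofHom (Ideal.Quotient.mk I)) ≫ (hU i).fromSpec
    have : IsAffineHom (ι ≫ terminal.from X) := isAffineHom_of_isAffine _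
    refine ⟨Spec (CommRingCat.of (R ⧸ I)), ι, inferInstance, inferInstance,
      IsAffineHom.of_comp ι (terminal.from X), ?_⟩
    rw [hlev]
    have hr : Set.range (Spec.map (CommRingCat.ofHom (Ideal.Quotient.mk I))) = T' := by
      change Set.range (PrimeSpectrum.comap (Ideal.Quotient.mk I)) = T'
      rw [range_comap_of_surjective _ (Ideal.Quotient.mk I) hsurj, Ideal.mk_ker,
        PrimeSpectrum.zeroLocus_vanishingIdeal_eq_closure, hT'.closure_eq]
    have : Set.range ι = (hU i).fromSpec '' T' := by
      ext x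
      simp only [ι, Set.mem_range, Set.mem_image, Scheme.Hom.comp_apply]
      constructor
      · rintro ⟨z, rfl⟩
        exact ⟨_, hr ▸ Set.mem_range_self z, rfl⟩
      · rintro ⟨w, hw, rfl⟩
        rw [← hr] at hw
        obtain ⟨z, rfl⟩ := hw
        exact ⟨z, rfl⟩
    rw [this]
    show (hU i).fromSpec '' ((hU i).fromSpec ⁻¹' C) = _
    rw [Set.image_preimage_eq_inter_range, (hU i).range_fromSpec, Set.inter_comm]

end Groth.Agent.S1438
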