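import Groth.Statements.S14401
import Mathlib
-- import your own Groth.Agent.* helpers here

set_option autoImplicit false
universe u
open CategoryTheory AlgebraicGeometry
open Props

namespace Groth.Agent.S14401

/-- Let X be a Noetherian scheme all of whose local rings are integral domains. Then each irreducible
component of X is an open subset of X, and each point of X lies on exactly one irreducible component
(so the irreducible components of X are pairwise disjoint, open and closed, and coincide with the
connected components). (The published statement assumes X regular and Noetherian; its argument uses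
only that the local rings of X are domains, which is the hypothesis taken here.) -/
theorem result (X : Scheme.{u}) [AlgebraicGeometry.IsNoetherian X]
    (hX : ∀ x : X, IsDomain (X.presheaf.stalk x)) :
    (∀ Z ∈ irreducibleComponents (X : Type u), IsOpen Z) ∧
      ∀ x : X, ∃! Z, Z ∈ irreducibleComponents (X : Type u) ∧ x ∈ Z := by
  have key : ∀ x : X, ∃ W ∈ irreducibleComponents (X : Type u), x ∈ W ∧
      ∀ Z ∈ irreducibleComponents (X : Type u), x ∈ Z → Z = W := by
    intro x
    have hdom := hX x
    have hirr : IrreducibleSpace (PrimeSpectrum (X.presheaf.stalk x)) :=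
      PrimeSpectrum.irreducibleSpace
    have hG : IsIrreducible (Set.range (X.fromSpecStalk x)) := by
      rw [← Set.image_univ]
      exact (IrreducibleSpace.isIrreducible_univ (PrimeSpectrum (X.presheaf.stalk x))).image _
        (X.fromSpecStalk x).continuous.continuousOn
    rw [Scheme.range_fromSpecStalk] at hG
    obtain ⟨W, hW, hGW⟩ := exists_mem_irreducibleComponents_subset_of_isIrreducible _ hG.closure
    refine ⟨W, hW, ?_, ?_⟩
    · exact hGW (subset_closure (specializes_refl x))
    · intro Z hZ hxZ
      have hZc := isClosed_of_mem_irreducibleComponents Z hZ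
      have hη : closure ({hZ.1.genericPoint} : Set X) = Z := hZ.1.closure_genericPoint hZc
      have hηx : hZ.1.genericPoint ⤳ x := by
        rw [specializes_iff_mem_closure, hη]; exact hxZ
      have hZsub : Z ⊆ W := by
        rw [← hη]
        apply closure_minimal _ (isClosed_of_mem_irreducibleComponents W hW)
        rw [Set.singleton_subset_iff]
        exact hGW (subset_closure hηx)
      exact le_antisymm hZsub (hZ.2 hW.1 hZsub)
  refine ⟨?_, ?_⟩
  · intro Z hZ
    have hfin := TopologicalSpace.NoetherianSpace.finite_irreducibleComponents (α := X)
    have hcompl : Zᶜ = ⋃ W ∈ (irreducibleComponents (X : Type u) \ {Z}), W := by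
      ext y
      simp only [Set.mem_compl_iff, Set.mem_iUnion, Set.mem_sdiff, Set.mem_singleton_iff,
        exists_prop]
      constructor
      · intro hy
        obtain ⟨W, hW, hyW, -⟩ := key y
        exact ⟨W, ⟨hW, fun h => hy (h ▸ hyW)⟩, hyW⟩
      · rintro ⟨W, ⟨hW, hWZ⟩, hyW⟩ hyZ
        obtain ⟨W', -, -, huniq⟩ := key y
        exact hWZ ((huniq W hW hyW).trans (huniq Z hZ hyZ).symm)
    have hclosed : IsClosed (⋃ W ∈ (irreducibleComponents (X : Type u) \ {Z}), W) :=
      (hfin.subset Set.sdiff_subset).isClosed_biUnion
        (fun W hW => isClosed_of_mem_irreducibleComponents W hW.1)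
    rw [← isClosed_compl_iff, hcompl]
    exact hclosed
  · intro x
    obtain ⟨W, hW, hxW, huniq⟩ := key x
    exact ⟨W, ⟨hW, hxW⟩, fun Z hZ => huniq Z hZ.1 hZ.2⟩

end Groth.Agent.S14401
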