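import Groth.Statements.S14405
import Mathlib
-- import your own Groth.Agent.* helpers here

set_option autoImplicit false
open Polynomial
open HilbNum

namespace Groth.Agent.S14405

theorem helper21_antideriv : ∀ n : ℕ, ∀ Q : ℚ[X], Q.natDegree ≤ n →
    ∃ P : ℚ[X], P.natDegree ≤ n + 1 ∧ (Q.natDegree = n → Q ≠ 0 → P.natDegree = n + 1) ∧
      ∀ x : ℚ, P.eval x - P.eval (x - 1) = Q.eval x := by
  intro n
  induction n with
  | zero =>
    intro Q hQ
    refine ⟨C (Q.coeff 0) * X, ?_, ?_, ?_⟩
    · exact (natDegree_C_mul_le _ _).trans natDegree_X_le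
    · intro _ hQ0
      have hc : Q.coeff 0 ≠ 0 := by
        intro h0
        apply hQ0
        rw [eq_C_of_natDegree_le_zero hQ, h0, C_0]
      rw [natDegree_C_mul_X _ hc]
    · intro x
      rw [eq_C_of_natDegree_le_zero hQ]
      simp only [eval_mul, eval_C, eval_X, coeff_C_zero]
      ring
  | succ n ih =>
    intro Q hQ
    set c : ℚ := Q.coeff (n + 1) with hc
    set a : ℚ := c / ((n : ℚ) + 2) with ha
    set T : ℚ[X] := C a * X ^ (n + 2) with hT
    have hTcomp : ∀ x : ℚ, T.eval x - T.eval (x - 1) =
        (C a * X ^ (n + 2) - C a * (X + C (-1)) ^ (n + 2)).eval x := by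
      intro x
      simp only [hT, eval_sub, eval_mul, eval_C, eval_pow, eval_X, eval_add]
      ring
    set R : ℚ[X] := Q - (C a * X ^ (n + 2) - C a * (X + C (-1)) ^ (n + 2)) with hR
    have hRdeg : R.natDegree ≤ n := by
      rw [natDegree_le_iff_coeff_eq_zero]
      intro k hk
      have hk' : n + 1 ≤ k := by exact_mod_cast hk
      simp only [hR, coeff_sub, coeff_C_mul, coeff_X_pow, coeff_X_add_C_pow]
      rcases Nat.lt_or_ge k (n + 2) with hk2 | hk2
      · have hkn : k = n + 1 := by omega
        subst hkn
        have : n + 2 - (n + 1) = 1 := by omega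
        rw [this]
        simp only [show n + 1 ≠ n + 2 by omega, if_false, Nat.choose_succ_self_right, pow_one]
        rw [← hc, ha]
        push_cast
        field_simp
        ring
      · have hQk : Q.coeff k = 0 := coeff_eq_zero_of_natDegree_lt (by omega)
        rcases Nat.lt_or_ge (n + 2) k with hk3 | hk3
        · rw [hQk, if_neg (by omega), Nat.choose_eq_zero_of_lt hk3]
          simp
        · have hkk : k = n + 2 := by omega
          subst hkk
          simp [hQk]
    obtain ⟨P₁, hP₁deg, -, hP₁⟩ := ih R hRdeg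
    refine ⟨P₁ + T, ?_, ?_, ?_⟩
    · apply natDegree_add_le_of_degree_le
      · omega
      · rw [hT]; exact natDegree_C_mul_X_pow_le a (n + 2)
    · intro hQn hQ0
      have hc0 : c ≠ 0 := by
        rw [hc, ← hQn]
        exact leadingCoeff_ne_zero.mpr hQ0
      have ha0 : a ≠ 0 := by
        rw [ha]
        exact div_ne_zero hc0 (by positivity)
      have hTdeg : T.natDegree = n + 2 := by
        rw [hT, natDegree_C_mul_X_pow (n + 2) a ha0]
      rw [natDegree_add_eq_right_of_natDegree_lt (by omega), hTdeg]
    · intro x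
      have h1 := hP₁ x
      have h2 := hTcomp x
      simp only [eval_add]
      have h3 : R.eval x = Q.eval x - (C a * X ^ (n + 2) - C a * (X + C (-1)) ^ (n + 2)).eval x := by
        rw [hR, eval_sub]
      linarith


/-- Let φ be a function from the integers to the rationals and Q a nonzero polynomial with rational
coefficients of degree d such that φ(m) - φ(m-1) = Q(m) for every integer m. Then there is a
polynomial P with rational coefficients, of degree d + 1, such that φ(m) = P(m) for every integer m.
(The explicit form of P in the binomial basis is not part of this statement.) -/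
theorem result (φ : ℤ → ℚ) (d : ℕ) (Q : ℚ[X]) (hQ : Q ≠ 0)
    (hd : Q.natDegree = d) (h : ∀ m : ℤ, φ m - φ (m - 1) = Q.eval (m : ℚ)) :
    ∃ P : ℚ[X], P.natDegree = d + 1 ∧ ∀ m : ℤ, φ m = P.eval (m : ℚ) := by
  obtain ⟨P₀, -, hP₀deg, hP₀⟩ := helper21_antideriv d Q hd.le
  have hdeg := hP₀deg hd hQ
  let D : ℤ → ℚ := fun m => φ m - P₀.eval (m : ℚ)
  have hD : ∀ m : ℤ, D m = D (m - 1) := by
    intro m
    have h1 := h m
    have h2 := hP₀ (m : ℚ)
    simp only [D]
    push_cast
    linarith
  have hD0 : ∀ m : ℤ, D m = D 0 := by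
    intro m
    induction m using Int.induction_on with
    | zero => rfl
    | succ i ih => rw [hD ((i : ℤ) + 1), add_sub_cancel_right, ih]
    | pred i ih => rw [← ih, hD (-(i : ℤ))]
  refine ⟨P₀ + C (D 0), ?_, ?_⟩
  · rw [natDegree_add_C, hdeg]
  · intro m
    rw [eval_add, eval_C, ← hD0 m]
    simp only [D]
    ring

end Groth.Agent.S14405
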