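import Groth.Statements.S14442
import Mathlib
-- import your own Groth.Agent.* helpers here

set_option autoImplicit false
universe u
open GrNak

namespace Groth.Agent.S14442

/-- Let R be a commutative ℕ-graded ring with irrelevant ideal R_+ = ⊕_{i>0} R_i, M an ℕ-graded R-module
and N a graded submodule of M (closed under taking homogeneous components). If M = R_+ M + N then N
= M. (The published statement is for finitely generated ℤ-graded modules over a graded quotient of a
polynomial ring, whose degrees are then bounded below; stated here for non-negatively graded modules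
over any ℕ-graded commutative ring, where the same lowest-degree argument applies without finite
generation.) -/
theorem result {R : Type u} [CommRing R] {σ : Type u} [SetLike σ R] [AddSubmonoidClass σ R]
    (𝒜 : ℕ → σ) [GradedRing 𝒜]
    {M : Type u} [AddCommGroup M] [Module R M] {τ : Type u} [SetLike τ M] [AddSubmonoidClass τ M]
    (ℳ : ℕ → τ) [DirectSum.Decomposition ℳ] [SetLike.GradedSMul 𝒜 ℳ]
    (N : Submodule R M) (hN : ∀ x ∈ N, ∀ i : ℕ, (DirectSum.decompose ℳ x i : M) ∈ N)
    (h : (HomogeneousIdeal.irrelevant 𝒜).toIdeal • (⊤ : Submodule R M) ⊔ N = ⊤) :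
    N = ⊤ := by
  classical
  have hπadd : ∀ (i : ℕ) (x y : M), (DirectSum.decompose ℳ (x + y) i : M)
      = (DirectSum.decompose ℳ x i : M) + (DirectSum.decompose ℳ y i : M) := by
    intro i x y; rw [DirectSum.decompose_add, DirectSum.add_apply, AddMemClass.coe_add]
  have hπzero : ∀ i : ℕ, (DirectSum.decompose ℳ (0:M) i : M) = 0 := by
    intro i; rw [DirectSum.decompose_zero, DirectSum.zero_apply, ZeroMemClass.coe_zero]
  have key : ∀ i : ℕ, ∀ x : M, x ∈ ℳ i → x ∈ N := by
    intro i
    induction i using Nat.strong_induction_on with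
    | _ i ih =>
    intro x hx
    have hP_hom : ∀ (j : ℕ), 1 ≤ j → ∀ a : R, a ∈ 𝒜 j → ∀ m : M,
        (DirectSum.decompose ℳ (a • m) i : M) ∈ N := by
      intro j hj a ha m
      induction m using DirectSum.Decomposition.inductionOn ℳ with
      | zero => rw [smul_zero, hπzero]; exact N.zero_mem
      | @homogeneous k m =>
        have ham : a • (m : M) ∈ ℳ (j + k) := SetLike.GradedSMul.smul_mem ha m.2
        by_cases hjk : j + k = i
        · rw [hjk] at ham
          rw [DirectSum.decompose_of_mem_same ℳ ham]
          exact N.smul_mem a (ih k (by omega) _ m.2)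
        · rw [DirectSum.decompose_of_mem_ne ℳ ham hjk]
          exact N.zero_mem
      | add m m' h1 h2 => rw [smul_add, hπadd]; exact N.add_mem h1 h2
    have hP : ∀ y ∈ (HomogeneousIdeal.irrelevant 𝒜).toIdeal • (⊤ : Submodule R M),
        (DirectSum.decompose ℳ y i : M) ∈ N := by
      intro y hy
      refine Submodule.smul_induction_on hy ?_ ?_
      · intro r hr m _
        have hr0 : (DirectSum.decompose 𝒜 r 0 : R) = 0 := by
          have := (HomogeneousIdeal.mem_irrelevant_iff 𝒜 r).mp hr
          rwa [GradedRing.proj_apply] at this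
        rw [← DirectSum.sum_support_decompose 𝒜 r, Finset.sum_smul]
        apply Finset.sum_induction _ (fun y : M => (DirectSum.decompose ℳ y i : M) ∈ N)
        · intro y y' h1 h2; rw [hπadd]; exact N.add_mem h1 h2
        · rw [hπzero]; exact N.zero_mem
        · intro j _
          rcases Nat.eq_zero_or_pos j with hj | hj
          · subst hj; rw [hr0, zero_smul, hπzero]; exact N.zero_mem
          · exact hP_hom j hj _ (SetLike.coe_mem _) m
      · intro y y' h1 h2; rw [hπadd]; exact N.add_mem h1 h2
    have hx' : x ∈ (HomogeneousIdeal.irrelevant 𝒜).toIdeal • (⊤ : Submodule R M) ⊔ N := by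
      rw [h]; trivial
    obtain ⟨y, hy, n, hn, rfl⟩ := Submodule.mem_sup.mp hx'
    rw [← DirectSum.decompose_of_mem_same ℳ hx, hπadd]
    exact N.add_mem (hP y hy) (hN n hn i)
  rw [eq_top_iff]
  intro x _
  rw [← DirectSum.sum_support_decompose ℳ x]
  exact N.sum_mem (fun i _ => key i _ (SetLike.coe_mem _))

end Groth.Agent.S14442
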