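import Groth.Statements.S14479
import Mathlib
-- import your own Groth.Agent.* helpers here

set_option autoImplicit false
universe u
open CharCyc

namespace Groth.Agent.S14479

/-- Let V be a finite-dimensional vector space over a field k. If dim V is even or the characteristic of
k is different from 2, there is a bilinear form B on V such that the bilinear form (v, w) ↦ B(v, w)
+ B(w, v) (B plus its transpose, as a map V → V^∨) is nondegenerate. -/
theorem result (k V : Type u) [Field k] [AddCommGroup V] [Module k V]
    [FiniteDimensional k V] (h : Even (Module.finrank k V) ∨ ringChar k ≠ 2) :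
    ∃ B : LinearMap.BilinForm k V, (B + B.flip).Nondegenerate := by
  -- transport lemma
  have transport : ∀ (W : Type u) [AddCommGroup W] [Module k W] (e : V ≃ₗ[k] W)
      (B₀ : LinearMap.BilinForm k W), (B₀ + B₀.flip).Nondegenerate →
      ∃ B : LinearMap.BilinForm k V, (B + B.flip).Nondegenerate := by
    intro W _ _ e B₀ hB₀
    refine ⟨LinearMap.BilinForm.congr e.symm B₀, ?_⟩
    have : LinearMap.BilinForm.congr e.symm B₀ + (LinearMap.BilinForm.congr e.symm B₀).flip =
        LinearMap.BilinForm.congr e.symm (B₀ + B₀.flip) := by
      ext x y
      simp [LinearMap.BilinForm.congr_apply]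
    rw [this]
    exact hB₀.congr e.symm
  rcases h with ⟨m, hm⟩ | h2
  · let W := (Fin m → k) × (Fin m → k)
    have hdim : Module.finrank k V = Module.finrank k W := by
      simp [W, Module.finrank_prod, Module.finrank_fin_fun, hm]
    let e : V ≃ₗ[k] W := LinearEquiv.ofFinrankEq V W hdim
    let B₀ : LinearMap.BilinForm k W := LinearMap.mk₂ k (fun p q => p.1 ⬝ᵥ q.2)
      (fun p p' q => by rw [Prod.fst_add, add_dotProduct])
      (fun c p q => by rw [Prod.smul_fst, smul_dotProduct, smul_eq_mul])
      (fun p q q' => by rw [Prod.snd_add, dotProduct_add])
      (fun c p q => by rw [Prod.smul_snd, dotProduct_smul, smul_eq_mul])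
    apply transport W e B₀
    have key : ∀ p : W, (∀ q : W, p.1 ⬝ᵥ q.2 + q.1 ⬝ᵥ p.2 = 0) → p = 0 := by
      intro p hp
      ext i
      · have := hp (0, Pi.single i 1)
        simpa using this
      · have := hp (Pi.single i 1, 0)
        simpa using this
    constructor
    · intro p hp
      apply key p
      intro q
      have := hp q
      simpa [B₀] using this
    · intro p hp
      apply key p
      intro q
      have := hp q
      simp [B₀] at this
      rw [add_comm]; exact this
  · have h2' : (2 : k) ≠ 0 := Ring.two_ne_zero h2
    let W := Fin (Module.finrank k V) → k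
    have hdim : Module.finrank k V = Module.finrank k W := by
      simp [W, Module.finrank_fin_fun]
    let e : V ≃ₗ[k] W := LinearEquiv.ofFinrankEq V W hdim
    let B₀ : LinearMap.BilinForm k W := LinearMap.mk₂ k (fun p q => p ⬝ᵥ q)
      (fun p p' q => by rw [add_dotProduct])
      (fun c p q => by rw [smul_dotProduct, smul_eq_mul])
      (fun p q q' => by rw [dotProduct_add])
      (fun c p q => by rw [dotProduct_smul, smul_eq_mul])
    apply transport W e B₀
    have key : ∀ p : W, (∀ q : W, p ⬝ᵥ q + q ⬝ᵥ p = 0) → p = 0 := by
      intro p hp
      ext i
      have := hp (Pi.single i 1)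
      simp at this
      have h3 : (2 : k) * p i = 0 := by rw [two_mul]; exact this
      rcases mul_eq_zero.mp h3 with h4 | h4
      · exact absurd h4 h2'
      · exact h4
    constructor
    · intro p hp
      apply key p
      intro q
      have := hp q
      simpa [B₀] using this
    · intro p hp
      apply key p
      intro q
      have := hp q
      simp [B₀] at this
      rw [add_comm]; exact this

end Groth.Agent.S14479
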