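import Groth.Statements.S14491
import Mathlib
-- import your own Groth.Agent.* helpers here

set_option autoImplicit false
universe w v u
open DerTri

open CategoryTheory Limits Pretriangulated

namespace Groth.Agent.S14491

open CategoryTheory Pretriangulated in
/-- In the derived category D(C) of an abelian category C, let E ⟶ F ⟶ G be two morphisms with E
concentrated in non-positive degrees and G concentrated in non-negative degrees for the canonical
t-structure. If two morphisms G ⟶ E⟦1⟧ both complete E ⟶ F ⟶ G to a distinguished triangle, then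
they are equal. (The published statement is phrased with the morphism G⟦-1⟧ ⟶ E of the triangle
G⟦-1⟧ ⟶ E ⟶ F ⟶ G; this row uses the equivalent connecting morphism G ⟶ E⟦1⟧ of the rotated
triangle.) -/
theorem result {C : Type u} [Category.{v} C] [Abelian C]
    [HasDerivedCategory.{w} C] {E F G : DerivedCategory C} (u : E ⟶ F) (v : F ⟶ G)
    [E.IsLE 0] [G.IsGE 0] (w w' : G ⟶ E⟦(1 : ℤ)⟧)
    (hw : Triangle.mk u v w ∈ distTriang (DerivedCategory C))
    (hw' : Triangle.mk u v w' ∈ distTriang (DerivedCategory C)) :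
    w = w' := by
  obtain ⟨c, hc₁, hc₂⟩ := complete_distinguished_triangle_morphism _ _ hw hw' (𝟙 E) (𝟙 F)
    ((Category.comp_id u).trans (Category.id_comp u).symm)
  let c' : G ⟶ G := c
  have hc₁' : v ≫ c' = v := by
    have : v ≫ c' = 𝟙 F ≫ v := hc₁
    rw [this, Category.id_comp]
  have hc₂' : w = c' ≫ w' := by
    have : w ≫ (shiftFunctor (DerivedCategory C) (1 : ℤ)).map (𝟙 E) = c' ≫ w' := hc₂
    rw [CategoryTheory.Functor.map_id, Category.comp_id] at this
    exact this
  have h1 : (Triangle.mk u v w).mor₂ ≫ (c' - 𝟙 G) = 0 := by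
    change v ≫ (c' - 𝟙 G) = 0
    rw [Preadditive.comp_sub, hc₁', Category.comp_id, sub_self]
  obtain ⟨g, hg⟩ := Triangle.yoneda_exact₃ _ hw (c' - 𝟙 G) h1
  have hE : DerivedCategory.TStructure.t.IsLE (E⟦(1 : ℤ)⟧) (-1) :=
    DerivedCategory.TStructure.t.isLE_shift E 0 1 (-1)
  have hg0 : g = 0 := DerivedCategory.TStructure.t.zero_of_isLE_of_isGE g (-1) 0 (by norm_num) hE
    inferInstance
  have hg' : c' = 𝟙 G := by
    rw [hg0, comp_zero] at hg
    exact sub_eq_zero.mp hg
  rw [hc₂', hg', Category.id_comp]

end Groth.Agent.S14491
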