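import Groth.Statements.S14511
import Mathlib
-- import your own Groth.Agent.* helpers here

set_option autoImplicit false
universe u
open CAlgX

namespace Groth.Agent.S14511

theorem helper21_term (R : Type*) [CommRing R] (r : ℕ) (m : Fin r →₀ ℕ) (hm : ∑ i, m i ≤ r) :
    (if m = ∑ i : Fin r, Finsupp.single i 1 then (1:R) else 0) =
      ∑ J : Finset (Fin r), (-1 : R) ^ J.card * ∏ i, (if i ∈ J then (-1 : R) else 0) ^ (m i) := by
  classical
  have hterm : ∀ J : Finset (Fin r), (-1 : R) ^ J.card * ∏ i, (if i ∈ J then (-1 : R) else 0) ^ (m i)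
      = (∏ i ∈ J, (-(-1 : R) ^ (m i))) * ∏ i ∈ Finset.univ \ J, (0 : R) ^ (m i) := by
    intro J
    rw [← Finset.prod_mul_prod_compl J, ← Finset.compl_eq_univ_sdiff]
    have h1 : ∏ i ∈ J, (if i ∈ J then (-1 : R) else 0) ^ (m i) = ∏ i ∈ J, (-1 : R) ^ (m i) :=
      Finset.prod_congr rfl (fun i hi => by rw [if_pos hi])
    have h2 : ∏ i ∈ Jᶜ, (if i ∈ J then (-1 : R) else 0) ^ (m i) = ∏ i ∈ Jᶜ, (0 : R) ^ (m i) :=
      Finset.prod_congr rfl (fun i hi => by rw [if_neg (Finset.mem_compl.mp hi)])
    rw [h1, h2, ← mul_assoc]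
    congr 1
    rw [← Finset.prod_const, ← Finset.prod_mul_distrib]
    apply Finset.prod_congr rfl
    intro i _
    ring
  rw [Finset.sum_congr rfl (fun J _ => hterm J)]
  rw [← Finset.powerset_univ, ← Finset.prod_add]
  by_cases h0 : ∃ i, m i = 0
  · obtain ⟨i, hi⟩ := h0
    have hne : m ≠ ∑ i : Fin r, Finsupp.single i 1 := by
      intro he
      have := congrArg (fun f => f i) he
      simp [Finsupp.finset_sum_apply, Finsupp.single_apply] at this
      omega
    rw [if_neg hne]
    symm
    apply Finset.prod_eq_zero (Finset.mem_univ i)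
    rw [hi]; simp
  · push_neg at h0
    have h1 : ∀ i, m i = 1 := by
      by_contra hcon
      push_neg at hcon
      obtain ⟨j, hj⟩ := hcon
      have hlt : ∑ _i : Fin r, 1 < ∑ i, m i :=
        Finset.sum_lt_sum (fun i _ => Nat.one_le_iff_ne_zero.mpr (h0 i))
          ⟨j, Finset.mem_univ j, by have := h0 j; omega⟩
      simp at hlt
      omega
    have he : m = ∑ i : Fin r, Finsupp.single i 1 := by
      ext i
      simp [Finsupp.finset_sum_apply, Finsupp.single_apply, h1 i]
    rw [if_pos he]
    symm
    apply Finset.prod_eq_one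
    intro i _
    rw [h1 i]; simp

/-- Let R be a commutative ring and P ∈ R[x_1, …, x_r] a polynomial of total degree at most r. Then the
coefficient of the monomial x_1 ⋯ x_r in P equals Σ_J (−1)^{|J|} P(δ_J), the sum over all subsets J
⊆ {1, …, r} (the empty one included), where δ_J is the point with coordinate −1 at the indices in J
and 0 at the others. -/
theorem result (R : Type u) [CommRing R] (r : ℕ)
    (P : MvPolynomial (Fin r) R) (hP : P.totalDegree ≤ r) :
    MvPolynomial.coeff (∑ i : Fin r, Finsupp.single i 1) P =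
      ∑ J : Finset (Fin r), (-1 : R) ^ J.card * MvPolynomial.eval (fun j => if j ∈ J then (-1 : R) else 0) P := by
  classical
  have hsum : ∀ J : Finset (Fin r), MvPolynomial.eval (fun j => if j ∈ J then (-1 : R) else 0) P
      = ∑ m ∈ P.support, P.coeff m * ∏ i, (if i ∈ J then (-1 : R) else 0) ^ (m i) := by
    intro J
    conv_lhs => rw [P.as_sum]
    rw [map_sum]
    apply Finset.sum_congr rfl
    intro m _
    rw [MvPolynomial.eval_monomial, Finsupp.prod_fintype _ _ (fun i => pow_zero _)]
  have hcoeff : MvPolynomial.coeff (∑ i : Fin r, Finsupp.single i 1) P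
      = ∑ m ∈ P.support, P.coeff m * (if m = ∑ i : Fin r, Finsupp.single i 1 then (1:R) else 0) := by
    conv_lhs => rw [P.as_sum]
    rw [MvPolynomial.coeff_sum]
    apply Finset.sum_congr rfl
    intro m _
    rw [MvPolynomial.coeff_monomial]
    split_ifs <;> simp
  rw [hcoeff]
  simp_rw [hsum, Finset.mul_sum]
  rw [Finset.sum_comm]
  apply Finset.sum_congr rfl
  intro m hm
  have hdeg : ∑ i, m i ≤ r := by
    have := MvPolynomial.le_totalDegree hm
    rw [Finsupp.sum_fintype _ _ (fun _ => rfl)] at this
    omega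
  rw [helper21_term R r m hdeg, Finset.mul_sum]
  apply Finset.sum_congr rfl
  intro J _
  ring

end Groth.Agent.S14511
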