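import Groth.Statements.S14615
import Mathlib.Tactic.Abel
-- import your own Groth.Agent.* helpers here

set_option autoImplicit false
universe u
open Formal2

namespace Groth.Agent.S14615

/-- Let … → G_2 → G_1 → G_0 be an inverse system of abelian groups with transition maps t_n : G_{n+1} →
G_n, and suppose that for every i there is j ≥ i such that the composite transition map G_j → G_i is
zero; this is expressed by asking that every sequence (x_n) ∈ ∏ G_n satisfying x_n = t_n(x_{n+1})
for i ≤ n < j has x_i = 0. Then both lim G_n and lim¹ G_n vanish: the map (x_n) ↦ (x_n −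
t_n(x_{n+1})) on ∏ G_n, whose kernel is lim and whose cokernel is lim¹, is injective and surjective. -/
theorem result (G : ℕ → Type u)
    [∀ n, AddCommGroup (G n)] (t : ∀ n, G (n + 1) →+ G n)
    (h : ∀ i : ℕ, ∃ j : ℕ, i ≤ j ∧
      ∀ x : ∀ n, G n, (∀ n, i ≤ n → n < j → x n = t n (x (n + 1))) → x i = 0) :
    Formal2.limZero G t = ⊥ ∧ Function.Surjective (Formal2.towerDiff G t) := by
  classical
  refine ⟨?_, ?_⟩
  · rw [eq_bot_iff]
    intro x hx
    rw [AddMonoidHom.mem_ker] at hx
    rw [AddSubgroup.mem_bot]
    funext i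
    obtain ⟨j, _, hj⟩ := h i
    apply hj x
    intro n _ _
    have := congrFun hx n
    exact sub_eq_zero.1 this
  · intro y
    let aux : ℕ → ∀ k, G k := fun d =>
      Nat.rec (motive := fun _ => ∀ k, G k) (fun _ => 0) (fun _ ih k => y k + t k (ih (k + 1))) d
    have aux_succ : ∀ d k, aux (d + 1) k = y k + t k (aux d (k + 1)) := fun d k => rfl
    let sol : ℕ → ∀ k, G k := fun N k => aux (N - k) k
    have sol_lt : ∀ N k, k < N → sol N k = y k + t k (sol N (k + 1)) := by
      intro N k hk
      show aux (N - k) k = y k + t k (aux (N - (k + 1)) (k + 1))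
      have e : N - k = (N - (k + 1)) + 1 := by omega
      rw [e, aux_succ]
    let J : ℕ → ℕ := fun n => Classical.choose (h n)
    have hJ : ∀ n, n ≤ J n ∧ ∀ x : ∀ n, G n, (∀ m, n ≤ m → m < J n → x m = t m (x (m + 1))) →
        x n = 0 := fun n => Classical.choose_spec (h n)
    have indep : ∀ n N₁ N₂, J n ≤ N₁ → J n ≤ N₂ → sol N₁ n = sol N₂ n := by
      intro n N₁ N₂ h₁ h₂
      have := (hJ n).2 (fun m => sol N₁ m - sol N₂ m) (by
        intro m _ hm
        rw [sol_lt N₁ m (by omega), sol_lt N₂ m (by omega), map_sub]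
        abel)
      exact sub_eq_zero.1 this
    refine ⟨fun n => sol (J n) n, ?_⟩
    funext n
    show sol (J n) n - t n (sol (J (n + 1)) (n + 1)) = y n
    set N := max (J n) (J (n + 1)) + n + 1 with hN
    rw [indep n (J n) N le_rfl (by omega), indep (n + 1) (J (n + 1)) N le_rfl (by omega),
      sol_lt N n (by omega)]
    abel

end Groth.Agent.S14615
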