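import Groth.Statements.S14616
import Mathlib.Tactic.Abel
import Mathlib.Algebra.BigOperators.Group.Finset.Basic
import Mathlib.Algebra.Order.BigOperators.Group.Finset
-- import your own Groth.Agent.* helpers here

set_option autoImplicit false
universe u
open Formal2

namespace Groth.Agent.S14616

open CategoryTheory in
/-- Let … → G_2 → G_1 → G_0 be an inverse system of abelian groups with transition maps t_n : G_{n+1} →
G_n which satisfies the Mittag-Leffler condition: for every i there is j ≥ i such that for all k ≥ j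
the images of G_k → G_i and G_j → G_i coincide. Then lim¹ G_n = 0, i.e. the map (x_n) ↦ (x_n −
t_n(x_{n+1})) on ∏ G_n is surjective. -/
theorem result (G : ℕ → Type u) [∀ n, AddCommGroup (G n)]
    (t : ∀ n, G (n + 1) →+ G n)
    (h : (Functor.ofOpSequence (X := fun n => AddCommGrpCat.of (G n))
      (fun n => AddCommGrpCat.ofHom (t n)) ⋙ forget AddCommGrpCat).IsMittagLeffler) :
    Function.Surjective (Formal2.towerDiff G t) := by
  classical
  set F := CategoryTheory.Functor.ofOpSequence (X := fun n => AddCommGrpCat.of (G n))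
    (fun n => AddCommGrpCat.ofHom (t n)) ⋙ CategoryTheory.forget AddCommGrpCat with hF
  let T : ∀ {m n : ℕ}, n ≤ m → G m →+ G n := fun {m n} hnm =>
    ((CategoryTheory.Functor.ofOpSequence (X := fun n => AddCommGrpCat.of (G n))
      (fun n => AddCommGrpCat.ofHom (t n))).map (CategoryTheory.homOfLE hnm).op).hom
  have hTF : ∀ {m n : ℕ} (hnm : n ≤ m) (x : G m), T hnm x = F.map (CategoryTheory.homOfLE hnm).op x :=
    fun _ _ => rfl
  have hT1 : ∀ (n : ℕ) (x : G (n + 1)), T (Nat.le_add_right n 1) x = t n x := by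
    intro n x
    have := CategoryTheory.Functor.ofOpSequence_map_homOfLE_succ
      (X := fun n => AddCommGrpCat.of (G n)) (fun n => AddCommGrpCat.ofHom (t n)) n
    simp only [T]
    rw [this]
    rfl
  have hTid : ∀ (n : ℕ) (x : G n), T (le_refl n) x = x := by
    intro n x
    have : (CategoryTheory.homOfLE (le_refl n)).op = CategoryTheory.CategoryStruct.id (Opposite.op n) :=
      Subsingleton.elim _ _
    simp only [T, this, CategoryTheory.Functor.map_id]
    rfl
  have hTcomp : ∀ {k m n : ℕ} (h1 : n ≤ m) (h2 : m ≤ k) (x : G k),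
      T h1 (T h2 x) = T (h1.trans h2) x := by
    intro k m n h1 h2 x
    have : (CategoryTheory.homOfLE (h1.trans h2)).op =
        (CategoryTheory.homOfLE h2).op ≫ (CategoryTheory.homOfLE h1).op := Subsingleton.elim _ _
    simp only [T, this, CategoryTheory.Functor.map_comp]
    rfl
  -- eventual images
  let E : ∀ n : ℕ, Set (G n) := fun n => F.eventualRange (Opposite.op n)
  have hML := (F.isMittagLeffler_iff_eventualRange).1 h
  have hN : ∀ n : ℕ, ∃ m : ℕ, ∃ hnm : n ≤ m, E n = Set.range (T hnm) := by
    intro n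
    obtain ⟨i, f, hf⟩ := hML (Opposite.op n)
    refine ⟨Opposite.unop i, CategoryTheory.leOfHom f.unop, ?_⟩
    have : f = (CategoryTheory.homOfLE (CategoryTheory.leOfHom f.unop)).op := Subsingleton.elim _ _
    rw [show E n = F.eventualRange (Opposite.op n) from rfl, hf, this]
    rfl
  choose N hNle hNE using hN
  have hEsub : ∀ n (k : ℕ) (hk : n ≤ k), E n ⊆ Set.range (T hk) := by
    intro n k hk x hx
    have := (F.mem_eventualRange_iff).1 hx (CategoryTheory.homOfLE hk).op
    exact this
  have hErange : ∀ n (k : ℕ) (hk : N n ≤ k), Set.range (T (le_trans (hNle n) hk)) ⊆ E n := by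
    intro n k hk x ⟨y, hy⟩
    rw [hNE n]
    refine ⟨T hk y, ?_⟩
    rw [hTcomp, ← hy]
  have hE0 : ∀ n, (0 : G n) ∈ E n := by
    intro n; rw [hNE n]; exact ⟨0, map_zero _⟩
  have hEsubm : ∀ n (a b : G n), a ∈ E n → b ∈ E n → a - b ∈ E n := by
    intro n a b ha hb
    rw [hNE n] at ha hb ⊢
    obtain ⟨a', rfl⟩ := ha
    obtain ⟨b', rfl⟩ := hb
    exact ⟨a' - b', map_sub _ _ _⟩
  have hEadd : ∀ n (a b : G n), a ∈ E n → b ∈ E n → a + b ∈ E n := by
    intro n a b ha hb
    have h0 := hEsubm n 0 b (hE0 n) hb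
    have := hEsubm n a (0 - b) ha h0
    simpa using this
  have hsurj : ∀ n (a : G n), a ∈ E n → ∃ b ∈ E (n + 1), t n b = a := by
    intro n a ha
    have := h.eq_image_eventualRange F (CategoryTheory.homOfLE (Nat.le_add_right n 1)).op
    have ha' : a ∈ F.map (CategoryTheory.homOfLE (Nat.le_add_right n 1)).op '' E (n + 1) := by
      rw [← this]; exact ha
    obtain ⟨b, hb, hba⟩ := ha'
    refine ⟨b, hb, ?_⟩
    calc t n b = T (Nat.le_add_right n 1) b := (hT1 n b).symm
      _ = a := hba
  -- step 2: solve with right-hand side in the eventual images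
  have step2 : ∀ w : ∀ n, G n, (∀ n, w n ∈ E n) → ∃ x : ∀ n, G n, towerDiff G t x = w := by
    intro w hw
    let X : ∀ n : ℕ, {a : G n // a ∈ E n} := fun n => Nat.rec (motive := fun n => {a : G n // a ∈ E n})
      ⟨0, hE0 0⟩
      (fun n xn => ⟨Classical.choose (hsurj n (xn.1 - w n) (hEsubm n _ _ xn.2 (hw n))),
        (Classical.choose_spec (hsurj n (xn.1 - w n) (hEsubm n _ _ xn.2 (hw n)))).1⟩) n
    refine ⟨fun n => (X n).1, ?_⟩
    funext n
    show (X n).1 - t n (X (n + 1)).1 = w n
    have : t n (X (n + 1)).1 = (X n).1 - w n :=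
      (Classical.choose_spec (hsurj n ((X n).1 - w n) (hEsubm n _ _ (X n).2 (hw n)))).2
    rw [this, sub_sub_cancel]
  -- step 1: partial sums
  intro y
  let f : ∀ n : ℕ, ℕ → G n := fun n i => if hni : n ≤ i then T hni (y i) else 0
  let s : ℕ → ∀ n : ℕ, G n := fun m n => ∑ i ∈ Finset.range m, f n i
  have hf_rel : ∀ n i, f n i = (if i = n then y n else 0) + t n (f (n + 1) i) := by
    intro n i
    by_cases h1 : n + 1 ≤ i
    · have h2 : n ≤ i := by omega
      have hne : i ≠ n := by omega
      simp only [f, dif_pos h1, dif_pos h2, if_neg hne, zero_add]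
      rw [← hT1, hTcomp]
    · by_cases h3 : i = n
      · subst h3
        simp only [f, dif_pos (le_refl i), dif_neg h1, map_zero, add_zero, hTid, if_true, ite_true, eq_self_iff_true]
      · have h4 : ¬ n ≤ i := by omega
        simp only [f, dif_neg h4, dif_neg h1, if_neg h3, map_zero, add_zero]
  have hs_rel : ∀ m n, n + 1 ≤ m → s m n = y n + t n (s m (n + 1)) := by
    intro m n hm
    simp only [s]
    rw [Finset.sum_congr rfl (fun i _ => hf_rel n i), Finset.sum_add_distrib, map_sum]
    rw [Finset.sum_ite_eq' (Finset.range m) n (fun _ => y n)]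
    rw [if_pos (Finset.mem_range.2 (by omega))]
  have hs_diff : ∀ n a, N n ≤ a → s a n - s (N n) n ∈ E n := by
    intro n a ha
    induction a, ha using Nat.le_induction with
    | base => rw [sub_self]; exact hE0 n
    | succ a ha ih =>
      have : s (a + 1) n - s (N n) n = (s a n - s (N n) n) + f n a := by
        simp only [s, Finset.sum_range_succ]; abel
      rw [this]
      apply hEadd n _ _ ih
      have hna : n ≤ a := le_trans (hNle n) ha
      simp only [f, dif_pos hna]
      exact hErange n a ha ⟨y a, rfl⟩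
  have hs_two : ∀ n a b, N n ≤ a → N n ≤ b → s a n - s b n ∈ E n := by
    intro n a b ha hb
    have := hEsubm n _ _ (hs_diff n a ha) (hs_diff n b hb)
    rwa [sub_sub_sub_cancel_right] at this
  let M : ℕ → ℕ := fun n => n + 1 + ∑ k ∈ Finset.range (n + 1), N k
  have hMN : ∀ n, N n ≤ M n := by
    intro n
    have : N n ≤ ∑ k ∈ Finset.range (n + 1), N k :=
      Finset.single_le_sum (f := N) (fun _ _ => Nat.zero_le _) (Finset.mem_range.2 (by omega))
    simp only [M]; omega
  have hMN' : ∀ n, N n ≤ M (n + 1) := by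
    intro n
    have : N n ≤ ∑ k ∈ Finset.range (n + 1 + 1), N k :=
      Finset.single_le_sum (f := N) (fun _ _ => Nat.zero_le _) (Finset.mem_range.2 (by omega))
    simp only [M]; omega
  have hM1 : ∀ n, n + 1 ≤ M (n + 1) := by intro n; simp only [M]; omega
  let z : ∀ n, G n := fun n => s (M n) n
  have hz : ∀ n, y n - (z n - t n (z (n + 1))) ∈ E n := by
    intro n
    have h1 := hs_rel (M (n + 1)) n (hM1 n)
    have : y n - (z n - t n (z (n + 1))) = s (M (n + 1)) n - s (M n) n := by
      simp only [z]
      rw [h1]; abel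
    rw [this]
    exact hs_two n _ _ (hMN' n) (hMN n)
  obtain ⟨x, hx⟩ := step2 (fun n => y n - (z n - t n (z (n + 1)))) hz
  refine ⟨z + x, ?_⟩
  rw [map_add, hx]
  funext n
  show (z n - t n (z (n + 1))) + (y n - (z n - t n (z (n + 1)))) = y n
  abel

end Groth.Agent.S14616
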