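import Groth.Statements.S14617
import Mathlib.Tactic.Abel
-- import your own Groth.Agent.* helpers here

set_option autoImplicit false
universe u
open Formal2

namespace Groth.Agent.S14617

/-- Let 0 → (G'_n) → (G_n) → (G''_n) → 0 be a short exact sequence of inverse systems of abelian groups
indexed by ℕ: maps u_n : G'_n → G_n and v_n : G_n → G''_n commuting with the transition maps, with
u_n injective, v_n surjective and ker v_n = im u_n for every n. Writing lim and lim¹ for the kernel
and cokernel of (x_n) ↦ (x_n − t_n(x_{n+1})) on the product, there is an exact sequence 0 → lim G' →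
lim G → lim G'' → lim¹ G' → lim¹ G → lim¹ G'' → 0 in which the four outer maps are the ones induced
by u and v on products and the connecting map δ sends a compatible sequence (z_n) to the class of
the unique (w_n) with u_n(w_n) = y_n − t_n(y_{n+1}), for any levelwise lift (y_n) of (z_n). -/
theorem result (G' G G'' : ℕ → Type u)
    [∀ n, AddCommGroup (G' n)] [∀ n, AddCommGroup (G n)] [∀ n, AddCommGroup (G'' n)]
    (t' : ∀ n, G' (n + 1) →+ G' n) (t : ∀ n, G (n + 1) →+ G n) (t'' : ∀ n, G'' (n + 1) →+ G'' n)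
    (u : ∀ n, G' n →+ G n) (v : ∀ n, G n →+ G'' n)
    (hu : ∀ n x, t n (u (n + 1) x) = u n (t' n x)) (hv : ∀ n x, t'' n (v (n + 1) x) = v n (t n x))
    (hinj : ∀ n, Function.Injective (u n)) (hsurj : ∀ n, Function.Surjective (v n))
    (hex : ∀ n, (v n).ker = (u n).range) :
    ∃ (α : Formal2.limZero G' t' →+ Formal2.limZero G t) (β : Formal2.limZero G t →+ Formal2.limZero G'' t'')
      (δ : Formal2.limZero G'' t'' →+ Formal2.limOne G' t')
      (ε : Formal2.limOne G' t' →+ Formal2.limOne G t) (ζ : Formal2.limOne G t →+ Formal2.limOne G'' t''),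
      (∀ (x : Formal2.limZero G' t') (n : ℕ), (α x : ∀ n, G n) n = u n ((x : ∀ n, G' n) n)) ∧
      (∀ (x : Formal2.limZero G t) (n : ℕ), (β x : ∀ n, G'' n) n = v n ((x : ∀ n, G n) n)) ∧
      (∀ (z : Formal2.limZero G'' t'') (y : ∀ n, G n) (w : ∀ n, G' n),
          (∀ n, v n (y n) = (z : ∀ n, G'' n) n) → (∀ n, u n (w n) = Formal2.towerDiff G t y n) →
            δ z = (QuotientAddGroup.mk w : Formal2.limOne G' t')) ∧
      (∀ y : ∀ n, G' n, ε (QuotientAddGroup.mk y : Formal2.limOne G' t') =
          (QuotientAddGroup.mk (fun n => u n (y n)) : Formal2.limOne G t)) ∧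
      (∀ y : ∀ n, G n, ζ (QuotientAddGroup.mk y : Formal2.limOne G t) =
          (QuotientAddGroup.mk (fun n => v n (y n)) : Formal2.limOne G'' t'')) ∧
      Function.Injective α ∧ α.range = β.ker ∧ β.range = δ.ker ∧ δ.range = ε.ker ∧ ε.range = ζ.ker ∧
      Function.Surjective ζ := by
  classical
  let U : (∀ n, G' n) →+ (∀ n, G n) :=
    { toFun := fun x n => u n (x n)
      map_zero' := by funext n; simp
      map_add' := fun a b => by funext n; simp }
  let V : (∀ n, G n) →+ (∀ n, G'' n) :=
    { toFun := fun x n => v n (x n)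
      map_zero' := by funext n; simp
      map_add' := fun a b => by funext n; simp }
  have hDU : ∀ x, towerDiff G t (U x) = U (towerDiff G' t' x) := by
    intro x; funext n
    show u n (x n) - t n (u (n+1) (x (n+1))) = u n (x n - t' n (x (n+1)))
    rw [hu, map_sub]
  have hDV : ∀ x, towerDiff G'' t'' (V x) = V (towerDiff G t x) := by
    intro x; funext n
    show v n (x n) - t'' n (v (n+1) (x (n+1))) = v n (x n - t n (x (n+1)))
    rw [hv, map_sub]
  have hUinj : Function.Injective U := by
    intro a b hab; funext n; exact hinj n (congrFun hab n)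
  have hVU : ∀ x, V (U x) = 0 := by
    intro x; funext n
    show v n (u n (x n)) = 0
    have : u n (x n) ∈ (u n).range := AddMonoidHom.mem_range.2 ⟨x n, rfl⟩
    rw [← hex n] at this
    exact AddMonoidHom.mem_ker.1 this
  have hkerV : ∀ y, V y = 0 → ∃ c, U c = y := by
    intro y hy
    have : ∀ n, ∃ c, u n c = y n := by
      intro n
      have : y n ∈ (v n).ker := AddMonoidHom.mem_ker.2 (congrFun hy n)
      rw [hex n] at this
      exact AddMonoidHom.mem_range.1 this
    choose c hc using this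
    exact ⟨c, funext hc⟩
  have hVsurj : ∀ z, ∃ y, V y = z := by
    intro z
    choose y hy using fun n => hsurj n (z n)
    exact ⟨y, funext hy⟩
  let α : limZero G' t' →+ limZero G t :=
    (U.comp (limZero G' t').subtype).codRestrict (limZero G t) (fun x => by
      rw [AddMonoidHom.mem_ker]
      show towerDiff G t (U x) = 0
      rw [hDU, AddMonoidHom.mem_ker.1 x.2, map_zero])
  let β : limZero G t →+ limZero G'' t'' :=
    (V.comp (limZero G t).subtype).codRestrict (limZero G'' t'') (fun x => by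
      rw [AddMonoidHom.mem_ker]
      show towerDiff G'' t'' (V x) = 0
      rw [hDV, AddMonoidHom.mem_ker.1 x.2, map_zero])
  let ε : limOne G' t' →+ limOne G t :=
    QuotientAddGroup.map _ _ U (by
      intro x hx
      obtain ⟨x, rfl⟩ := AddMonoidHom.mem_range.1 hx
      exact AddSubgroup.mem_comap.2 (AddMonoidHom.mem_range.2 ⟨U x, hDU x⟩))
  let ζ : limOne G t →+ limOne G'' t'' :=
    QuotientAddGroup.map _ _ V (by
      intro x hx
      obtain ⟨x, rfl⟩ := AddMonoidHom.mem_range.1 hx
      exact AddSubgroup.mem_comap.2 (AddMonoidHom.mem_range.2 ⟨V x, hDV x⟩))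
  have hlift : ∀ z : limZero G'' t'', ∃ y : ∀ n, G n, ∃ w : ∀ n, G' n,
      V y = z ∧ U w = towerDiff G t y := by
    intro z
    obtain ⟨y, hy⟩ := hVsurj z
    have : V (towerDiff G t y) = 0 := by rw [← hDV, hy]; exact AddMonoidHom.mem_ker.1 z.2
    obtain ⟨w, hw⟩ := hkerV _ this
    exact ⟨y, w, hy, hw⟩
  choose Y W hYV hWU using hlift
  have hwd : ∀ (y1 y2 : ∀ n, G n) (w1 w2 : ∀ n, G' n), V y1 = V y2 →
      U w1 = towerDiff G t y1 → U w2 = towerDiff G t y2 →
      (QuotientAddGroup.mk w1 : limOne G' t') = QuotientAddGroup.mk w2 := by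
    intro y1 y2 w1 w2 hy h1 h2
    obtain ⟨c, hc⟩ := hkerV (y1 - y2) (by rw [map_sub, hy, sub_self])
    rw [QuotientAddGroup.eq_iff_sub_mem]
    refine AddMonoidHom.mem_range.2 ⟨c, hUinj ?_⟩
    rw [← hDU, hc, map_sub, map_sub, h1, h2]
  let δ : limZero G'' t'' →+ limOne G' t' :=
    { toFun := fun z => QuotientAddGroup.mk (W z)
      map_zero' := by
        have := hwd (Y 0) 0 (W 0) 0 (by rw [hYV, map_zero]; rfl) (hWU 0) (by rw [map_zero, map_zero])
        exact this.trans rfl
      map_add' := fun a b => by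
        have := hwd (Y (a+b)) (Y a + Y b) (W (a+b)) (W a + W b)
          (by simp only [map_add, hYV, AddSubgroup.coe_add]) (hWU _)
          (by rw [map_add, map_add, hWU, hWU])
        exact this.trans rfl }
  have hδ : ∀ (z : limZero G'' t'') (y : ∀ n, G n) (w : ∀ n, G' n),
      (∀ n, v n (y n) = (z : ∀ n, G'' n) n) → (∀ n, u n (w n) = towerDiff G t y n) →
        δ z = (QuotientAddGroup.mk w : limOne G' t') := by
    intro z y w hy hw
    show (QuotientAddGroup.mk (W z) : limOne G' t') = QuotientAddGroup.mk w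
    exact hwd (Y z) y (W z) w (by rw [hYV]; exact (funext hy).symm) (hWU z) (funext hw)
  refine ⟨α, β, δ, ε, ζ, fun x n => rfl, fun x n => rfl, hδ, fun y => rfl, fun y => rfl,
    ?_, ?_, ?_, ?_, ?_, ?_⟩
  · intro a b hab
    apply Subtype.ext
    apply hUinj
    exact congrArg Subtype.val hab
  · ext x
    rw [AddMonoidHom.mem_range, AddMonoidHom.mem_ker]
    constructor
    · rintro ⟨c, rfl⟩
      apply Subtype.ext
      exact hVU c
    · intro hx
      have hx' : V (x : ∀ n, G n) = 0 := congrArg Subtype.val hx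
      obtain ⟨c, hc⟩ := hkerV _ hx'
      have hc0 : towerDiff G' t' c = 0 := by
        apply hUinj
        rw [← hDU, hc, map_zero]
        exact AddMonoidHom.mem_ker.1 x.2
      exact ⟨⟨c, AddMonoidHom.mem_ker.2 hc0⟩, Subtype.ext hc⟩
  · ext z
    rw [AddMonoidHom.mem_range, AddMonoidHom.mem_ker]
    constructor
    · rintro ⟨x, rfl⟩
      have h0 : towerDiff G t (x : ∀ n, G n) = 0 := AddMonoidHom.mem_ker.1 x.2
      refine (hδ (β x) (x : ∀ n, G n) 0 (fun n => rfl) (fun n => ?_)).trans rfl
      rw [h0]; simp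
    · intro hz
      have hz' : (QuotientAddGroup.mk (W z) : limOne G' t') = 0 := hz
      rw [QuotientAddGroup.eq_zero_iff] at hz'
      obtain ⟨c, hc⟩ := AddMonoidHom.mem_range.1 hz'
      refine ⟨⟨Y z - U c, ?_⟩, ?_⟩
      · rw [AddMonoidHom.mem_ker, map_sub, hDU, hc, hWU, sub_self]
      · apply Subtype.ext
        show V (Y z - U c) = z
        rw [map_sub, hVU, sub_zero, hYV]
  · ext q
    rw [AddMonoidHom.mem_range, AddMonoidHom.mem_ker]
    constructor
    · rintro ⟨z, rfl⟩
      show (QuotientAddGroup.mk (U (W z)) : limOne G t) = 0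
      rw [hWU, QuotientAddGroup.eq_zero_iff]
      exact AddMonoidHom.mem_range.2 ⟨Y z, rfl⟩
    · intro hq
      obtain ⟨w, rfl⟩ := QuotientAddGroup.mk_surjective q
      have hq' : (QuotientAddGroup.mk (U w) : limOne G t) = 0 := hq
      rw [QuotientAddGroup.eq_zero_iff] at hq'
      obtain ⟨y, hy⟩ := AddMonoidHom.mem_range.1 hq'
      have hz : V y ∈ limZero G'' t'' := by
        rw [AddMonoidHom.mem_ker, hDV, hy, hVU]
      exact ⟨⟨V y, hz⟩, hδ ⟨V y, hz⟩ y w (fun n => rfl) (fun n => congrFun hy.symm n)⟩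
  · ext q
    rw [AddMonoidHom.mem_range, AddMonoidHom.mem_ker]
    constructor
    · rintro ⟨p, rfl⟩
      obtain ⟨w, rfl⟩ := QuotientAddGroup.mk_surjective p
      show (QuotientAddGroup.mk (V (U w)) : limOne G'' t'') = 0
      rw [hVU, QuotientAddGroup.mk_zero]
    · intro hq
      obtain ⟨y, rfl⟩ := QuotientAddGroup.mk_surjective q
      have hq' : (QuotientAddGroup.mk (V y) : limOne G'' t'') = 0 := hq
      rw [QuotientAddGroup.eq_zero_iff] at hq'
      obtain ⟨a, ha⟩ := AddMonoidHom.mem_range.1 hq'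
      obtain ⟨b, hb⟩ := hVsurj a
      obtain ⟨c, hc⟩ := hkerV (y - towerDiff G t b) (by rw [map_sub, ← hDV, hb, ha, sub_self])
      refine ⟨QuotientAddGroup.mk c, ?_⟩
      show (QuotientAddGroup.mk (U c) : limOne G t) = QuotientAddGroup.mk y
      rw [hc, QuotientAddGroup.eq_iff_sub_mem]
      refine AddMonoidHom.mem_range.2 ⟨-b, ?_⟩
      rw [map_neg]; abel
  · intro q
    obtain ⟨a, rfl⟩ := QuotientAddGroup.mk_surjective q
    obtain ⟨b, hb⟩ := hVsurj a
    exact ⟨QuotientAddGroup.mk b, by subst hb; rfl⟩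

end Groth.Agent.S14617
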