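import Groth.Statements.S14676
import Mathlib.RingTheory.Henselian
import Mathlib.Algebra.Polynomial.Div
import Mathlib.Tactic.Ring
-- import your own Groth.Agent.* helpers here

set_option autoImplicit false
universe u
open CAlg

namespace Groth.Agent.S14676

open Polynomial
open scoped Ring

/-- Let A be a commutative ring which is separated and complete for the I-adic topology of an ideal I,
let P be any polynomial over A (not assumed monic) and a₀ an element of A such that P(a₀) lies in I
and P'(a₀) is a unit modulo I. Then there is a unique a in A congruent to a₀ modulo I with P(a) = 0. -/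
theorem result (A : Type u) [CommRing A] (I : Ideal A) [IsAdicComplete I A]
    (P : Polynomial A) (a₀ : A) (h₀ : P.eval a₀ ∈ I)
    (h₁ : IsUnit (Ideal.Quotient.mk I (P.derivative.eval a₀))) :
    ∃! a : A, a - a₀ ∈ I ∧ P.IsRoot a := by
  classical
  have hloc := isLocalHom_of_le_jacobson_bot I (IsAdicComplete.le_jacobson_bot I)
  -- uniqueness
  have huniq : ∀ a b : A, a - a₀ ∈ I → b - a₀ ∈ I → P.IsRoot a → P.IsRoot b → a = b := by
    intro a b ha hb hra hrb
    obtain ⟨c, hc⟩ := exists_mul_sq_add_linear_part_eq_eval_add P a (b - a)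
    rw [add_sub_cancel, hrb.eq_zero, hra.eq_zero, add_zero] at hc
    have hI : b - a ∈ I := by
      have := I.sub_mem hb ha
      rwa [sub_sub_sub_cancel_right] at this
    have hunit : IsUnit (c * (b - a) + P.derivative.eval a) := by
      apply IsUnit.of_map (Ideal.Quotient.mk I)
      have h1 : Ideal.Quotient.mk I (c * (b - a) + P.derivative.eval a) =
          Ideal.Quotient.mk I (P.derivative.eval a₀) := by
        rw [Ideal.Quotient.eq]
        have h2 : P.derivative.eval a - P.derivative.eval a₀ ∈ I := by
          obtain ⟨d, hd⟩ := Polynomial.sub_dvd_eval_sub a a₀ P.derivative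
          rw [hd]
          exact I.mul_mem_right _ ha
        have := I.add_mem (I.mul_mem_left c hI) h2
        rwa [← add_sub_assoc] at this
      rw [h1]
      exact h₁
    have h3 : (c * (b - a) + P.derivative.eval a) * (b - a) = 0 := by
      rw [← hc]; ring
    have h4 : b - a = 0 := by
      obtain ⟨u, hu⟩ := hunit
      have := congrArg (fun z => (↑u⁻¹ : A) * z) h3
      simp only [mul_zero, ← mul_assoc, ← hu, Units.inv_mul, one_mul] at this
      exact this
    exact (sub_eq_zero.1 h4).symm
  -- existence (Newton's method, as in Mathlib's `IsAdicComplete.henselianRing`, which does not use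
  -- monicity)
  have hex : ∃ a : A, P.IsRoot a ∧ a - a₀ ∈ I := by
    let f := P
    let f' := derivative f
    let c : ℕ → A := fun n => Nat.recOn n a₀ fun _ b => b - f.eval b * (f'.eval b)⁻¹ʳ
    have hc : ∀ n, c (n + 1) = c n - f.eval (c n) * (f'.eval (c n))⁻¹ʳ := by
      intro n
      simp only [c]
    have hc_mod : ∀ n, c n ≡ a₀ [SMOD I] := by
      intro n
      induction n with
      | zero => rfl
      | succ n ih => ?_
      rw [hc, sub_eq_add_neg, ← add_zero a₀]
      refine ih.add ?_
      rw [SModEq.zero, Ideal.neg_mem_iff]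
      refine I.mul_mem_right _ ?_
      rw [← SModEq.zero] at h₀ ⊢
      exact (ih.eval f).trans h₀
    have hf'c : ∀ n, IsUnit (f'.eval (c n)) := by
      intro n
      apply IsUnit.of_map (Ideal.Quotient.mk I)
      convert! h₁ using 1
      exact SModEq.def.mp ((hc_mod n).eval _)
    have hfcI : ∀ n, f.eval (c n) ∈ I ^ (n + 1) := by
      intro n
      induction n with
      | zero => simpa only [Nat.rec_zero, zero_add, pow_one] using! h₀
      | succ n ih => ?_
      rw [← taylor_eval_sub (c n), hc, sub_eq_add_neg, sub_eq_add_neg,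
        add_neg_cancel_comm]
      rw [eval_eq_sum, sum_over_range' _ _ _ (lt_add_of_pos_right _ zero_lt_two), ←
        Finset.sum_range_add_sum_Ico _ (Nat.le_add_left _ _)]
      swap
      · intro i
        rw [zero_mul]
      refine Ideal.add_mem _ ?_ ?_
      · rw [← one_add_one_eq_two, Finset.sum_range_succ, Finset.range_one, Finset.sum_singleton,
          taylor_coeff_zero, taylor_coeff_one, pow_zero, pow_one, mul_one, mul_neg,
          mul_left_comm, Ring.mul_inverse_cancel _ (hf'c n), mul_one, add_neg_cancel]
        exact Ideal.zero_mem _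
      · refine Submodule.sum_mem _ ?_
        simp only [Finset.mem_Ico]
        rintro i ⟨h2i, _⟩
        have aux : n + 2 ≤ i * (n + 1) := by trans 2 * (n + 1) <;> nlinarith only [h2i]
        refine Ideal.mul_mem_left _ _ (Ideal.pow_le_pow_right aux ?_)
        rw [pow_mul']
        exact Ideal.pow_mem_pow ((Ideal.neg_mem_iff _).2 <| Ideal.mul_mem_right _ _ ih) _
    have aux : ∀ m n, m ≤ n → c m ≡ c n [SMOD (I ^ m • ⊤ : Ideal A)] := by
      intro m n hmn
      rw [← Ideal.one_eq_top, Ideal.smul_eq_mul, mul_one]
      obtain ⟨k, rfl⟩ := Nat.exists_eq_add_of_le hmn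
      clear hmn
      induction k with
      | zero => rw [add_zero]
      | succ k ih => ?_
      rw [← add_assoc, hc, ← add_zero (c m), sub_eq_add_neg]
      refine ih.add ?_
      symm
      rw [SModEq.zero, Ideal.neg_mem_iff]
      refine Ideal.mul_mem_right _ _ (Ideal.pow_le_pow_right ?_ (hfcI _))
      rw [add_assoc]
      exact le_self_add
    obtain ⟨a, ha⟩ := IsPrecomplete.prec' c (aux _ _)
    refine ⟨a, ?_, ?_⟩
    · show f.IsRoot a
      suffices ∀ n, f.eval a ≡ 0 [SMOD (I ^ n • ⊤ : Ideal A)] by exact IsHausdorff.haus' _ this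
      intro n
      specialize ha n
      rw [← Ideal.one_eq_top, Ideal.smul_eq_mul, mul_one] at ha ⊢
      refine (ha.symm.eval f).trans ?_
      rw [SModEq.zero]
      exact Ideal.pow_le_pow_right le_self_add (hfcI _)
    · show a - a₀ ∈ I
      specialize ha (0 + 1)
      rw [hc, pow_one, ← Ideal.one_eq_top, Ideal.smul_eq_mul, mul_one, sub_eq_add_neg] at ha
      rw [← SModEq.sub_mem, ← add_zero a₀]
      refine ha.symm.trans (SModEq.rfl.add ?_)
      rw [SModEq.zero, Ideal.neg_mem_iff]
      exact Ideal.mul_mem_right _ _ h₀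
  obtain ⟨a, hra, ha⟩ := hex
  exact ⟨a, ⟨ha, hra⟩, fun b hb => huniq b a hb.1 ha hb.2 hra⟩

end Groth.Agent.S14676
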