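import Groth.Statements.S14677
import Mathlib.RingTheory.AdicCompletion.AsTensorProduct
import Mathlib.RingTheory.AdicCompletion.Exactness
-- import your own Groth.Agent.* helpers here

set_option autoImplicit false
universe u
open CAlg

namespace Groth.Agent.S14677

open TensorProduct

/-- Let A be a Noetherian commutative ring, I and J ideals of A and M a finitely generated A-module.
Then the map of I-adic completions induced by the inclusion of the submodule JM into M is injective
with image exactly J·M̂, where M̂ is the I-adic completion of M; that is, the completion of JM is J
times the completion of M. (The published statement does not say that A is Noetherian; its proof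
uses exactness of completion on finitely generated modules, which needs it, so this row assumes A
Noetherian.) -/
theorem result (A : Type u) [CommRing A] [IsNoetherianRing A] (I J : Ideal A)
    (M : Type u) [AddCommGroup M] [Module A M] [Module.Finite A M] :
    Function.Injective (AdicCompletion.map I (J • (⊤ : Submodule A M)).subtype) ∧
      LinearMap.range (AdicCompletion.map I (J • (⊤ : Submodule A M)).subtype) =
        (J.map (algebraMap A (AdicCompletion I A))) • (⊤ : Submodule (AdicCompletion I A) (AdicCompletion I M)) := by
  classical
  set N : Submodule A M := J • (⊤ : Submodule A M) with hN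
  haveI : IsNoetherian A M := isNoetherian_of_isNoetherianRing_of_finite A M
  haveI : Module.Finite A N := Module.IsNoetherian.finite A N
  set f : N →ₗ[A] M := N.subtype with hf
  refine ⟨AdicCompletion.map_injective I (Submodule.injective_subtype N), ?_⟩
  set Ah := AdicCompletion I A
  -- the statement for the tensor product `Â ⊗ -`
  have htens : LinearMap.range (TensorProduct.AlgebraTensorModule.map
      (LinearMap.id : Ah →ₗ[Ah] Ah) f) =
      (J.map (algebraMap A Ah)) • (⊤ : Submodule Ah (Ah ⊗[A] M)) := by
    apply le_antisymm
    · rintro _ ⟨z, rfl⟩
      induction z using TensorProduct.induction_on with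
      | zero => simp
      | tmul a n =>
        obtain ⟨n, hn⟩ := n
        simp only [TensorProduct.AlgebraTensorModule.map_tmul, LinearMap.id_apply, hf,
          Submodule.subtype_apply]
        refine Submodule.smul_induction_on' hn ?_ ?_
        · intro j hj m _
          have : a ⊗ₜ[A] (j • m) = (algebraMap A Ah j) • (a ⊗ₜ[A] m) := by
            rw [← TensorProduct.smul_tmul, TensorProduct.smul_tmul', algebraMap_smul]
          rw [this]
          exact Submodule.smul_mem_smul (Ideal.mem_map_of_mem _ hj) Submodule.mem_top
        · intro x _ y _ hx hy
          rw [TensorProduct.tmul_add]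
          exact Submodule.add_mem _ hx hy
      | add x y hx hy =>
        rw [map_add]
        exact Submodule.add_mem _ hx hy
    · rw [Submodule.smul_le]
      rintro r hr z -
      induction hr using Submodule.span_induction generalizing z with
      | mem x hx =>
        obtain ⟨j, hj, rfl⟩ := hx
        induction z using TensorProduct.induction_on with
        | zero => rw [smul_zero]; exact Submodule.zero_mem _
        | tmul a m =>
          have hjm : j • m ∈ N := Submodule.smul_mem_smul hj Submodule.mem_top
          refine ⟨a ⊗ₜ[A] (⟨j • m, hjm⟩ : N), ?_⟩
          simp only [TensorProduct.AlgebraTensorModule.map_tmul, LinearMap.id_apply, hf,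
            Submodule.subtype_apply]
          rw [← TensorProduct.smul_tmul, TensorProduct.smul_tmul', algebraMap_smul]
        | add x y hx hy =>
          rw [smul_add]
          exact Submodule.add_mem _ hx hy
      | zero => rw [zero_smul]; exact Submodule.zero_mem _
      | add x y _ _ hx hy => rw [add_smul]; exact Submodule.add_mem _ (hx z) (hy z)
      | smul c x _ hx =>
        rw [smul_eq_mul, mul_smul]
        exact Submodule.smul_mem _ c (hx z)
  -- transport along `Â ⊗ M ≅ M̂`
  have hmap := AdicCompletion.tensor_map_id_left_eq_map I f
  set eM := AdicCompletion.ofTensorProductEquivOfFiniteNoetherian I M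
  set eN := AdicCompletion.ofTensorProductEquivOfFiniteNoetherian I N
  have hmap' : AdicCompletion.map I f = eM.toLinearMap ∘ₗ
      (TensorProduct.AlgebraTensorModule.map (LinearMap.id : Ah →ₗ[Ah] Ah) f) ∘ₗ
      eN.symm.toLinearMap := by
    rw [hmap]
    ext x
    simp
  rw [hmap', LinearMap.range_comp, LinearMap.range_comp, LinearEquiv.range, Submodule.map_top,
    htens, Submodule.map_smul'']
  congr 1
  rw [Submodule.map_top, LinearEquiv.range]

end Groth.Agent.S14677
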