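import Groth.Statements.S14680
import Mathlib.RingTheory.AdicCompletion.Exactness
import Mathlib.RingTheory.Nakayama
import Mathlib.LinearAlgebra.Quotient.Basic
-- import your own Groth.Agent.* helpers here

set_option autoImplicit false
universe u
open CAlg

namespace Groth.Agent.S14680

/-- Let A be a Noetherian commutative ring and f : M' → M, g : M → M'' linear maps between finitely
generated A-modules. Then the sequence 0 → M' → M → M'' → 0 is exact — f injective, the image of f
equal to the kernel of g, g surjective — if and only if for every maximal ideal m of A the sequence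
of m-adic completions 0 → M'^ → M^ → M''^ → 0 (maps induced by f and g) is exact in the same sense. -/
theorem result (A : Type u) [CommRing A] [IsNoetherianRing A]
    (M' M M'' : Type u) [AddCommGroup M'] [Module A M'] [AddCommGroup M] [Module A M] [AddCommGroup M''] [Module A M'']
    [Module.Finite A M'] [Module.Finite A M] [Module.Finite A M''] (f : M' →ₗ[A] M) (g : M →ₗ[A] M'') :
    (Function.Injective f ∧ Function.Exact f g ∧ Function.Surjective g) ↔
      ∀ (m : Ideal A) [m.IsMaximal],
        Function.Injective (AdicCompletion.map m f) ∧ Function.Exact (AdicCompletion.map m f) (AdicCompletion.map m g) ∧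
          Function.Surjective (AdicCompletion.map m g) := by
  classical
  -- L1: a finite module all of whose completions at maximal ideals vanish is zero
  have L1 : ∀ (X : Type u) [AddCommGroup X] [Module A X] [Module.Finite A X],
      (∀ (m : Ideal A) [m.IsMaximal], Subsingleton (AdicCompletion m X)) → ∀ x : X, x = 0 := by
    intro X _ _ _ hX x
    have hann : ∀ (m : Ideal A), m.IsMaximal → ∃ r : A, r ∉ m ∧ ∀ y : X, r • y = 0 := by
      intro m hm
      have h1 : Subsingleton (X ⧸ (m ^ 1 • (⊤ : Submodule A X))) := by
        have := hX m
        exact (AdicCompletion.eval_surjective m X 1).subsingleton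
      rw [Submodule.Quotient.subsingleton_iff, pow_one] at h1
      obtain ⟨r, hr1, hr⟩ := Submodule.exists_sub_one_mem_and_smul_eq_zero_of_fg_of_le_smul m
        (⊤ : Submodule A X) (Module.Finite.fg_top) (by rw [h1])
      refine ⟨r, fun hrm => hm.ne_top ?_, fun y => hr y Submodule.mem_top⟩
      rw [Ideal.eq_top_iff_one]
      have := m.sub_mem hrm hr1
      simpa using this
    by_contra hx
    have hne : Module.annihilator A X ≠ ⊤ := by
      intro htop
      apply hx
      have : (1 : A) ∈ Module.annihilator A X := by rw [htop]; exact Submodule.mem_top
      rw [Module.mem_annihilator] at this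
      simpa using this x
    obtain ⟨m, hm, hle⟩ := Ideal.exists_le_maximal _ hne
    obtain ⟨r, hrm, hr⟩ := hann m hm
    exact hrm (hle ((Module.mem_annihilator).2 hr))
  -- L2: surjectivity can be detected on completions
  have L2 : ∀ (X Y : Type u) [AddCommGroup X] [Module A X] [AddCommGroup Y] [Module A Y]
      [Module.Finite A X] [Module.Finite A Y] (u : X →ₗ[A] Y),
      (∀ (m : Ideal A) [m.IsMaximal], Function.Surjective (AdicCompletion.map m u)) →
      Function.Surjective u := by
    intro X Y _ _ _ _ _ _ u hu
    set C := Y ⧸ LinearMap.range u
    have hC : ∀ c : C, c = 0 := by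
      apply L1 C
      intro m hm
      refine ⟨fun a b => ?_⟩
      have hz : ∀ z : AdicCompletion m C, z = 0 := by
        intro z
        obtain ⟨y, rfl⟩ := AdicCompletion.map_surjective m (Submodule.mkQ_surjective _) z
        obtain ⟨x, rfl⟩ := hu m y
        rw [AdicCompletion.map_comp_apply]
        have : (LinearMap.range u).mkQ ∘ₗ u = 0 := by
          ext x; simp
        rw [this, AdicCompletion.map_zero, LinearMap.zero_apply]
      rw [hz a, hz b]
    intro y
    have := hC (Submodule.Quotient.mk y)
    rw [Submodule.Quotient.mk_eq_zero] at this
    exact this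
  constructor
  · rintro ⟨hf, hfg, hg⟩ m _
    exact ⟨AdicCompletion.map_injective m hf, AdicCompletion.map_exact hf hfg hg,
      AdicCompletion.map_surjective m hg⟩
  · intro H
    haveI : IsNoetherian A M' := isNoetherian_of_isNoetherianRing_of_finite A M'
    haveI : IsNoetherian A M := isNoetherian_of_isNoetherianRing_of_finite A M
    haveI : IsNoetherian A M'' := isNoetherian_of_isNoetherianRing_of_finite A M''
    -- injectivity of f
    have hf : Function.Injective f := by
      rw [← LinearMap.ker_eq_bot, eq_bot_iff]
      intro x hx
      haveI : Module.Finite A (LinearMap.ker f) := Module.IsNoetherian.finite A _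
      have := L1 (LinearMap.ker f) (fun m hm => ?_) ⟨x, hx⟩
      · simpa using congrArg Subtype.val this
      · refine ⟨fun a b => ?_⟩
        have hinj := AdicCompletion.map_injective m (Submodule.injective_subtype (LinearMap.ker f))
        have hz : ∀ z, AdicCompletion.map m (LinearMap.ker f).subtype z = 0 := by
          intro z
          apply (H m).1
          rw [AdicCompletion.map_comp_apply]
          have : f ∘ₗ (LinearMap.ker f).subtype = 0 := by ext y; simpa using y.2
          rw [this, AdicCompletion.map_zero, LinearMap.zero_apply, map_zero]
        exact hinj ((hz a).trans (hz b).symm)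
    -- surjectivity of g
    have hg : Function.Surjective g := L2 M M'' g (fun m hm => (H m).2.2)
    -- g ∘ f = 0
    have hgf : ∀ x, g (f x) = 0 := by
      intro x
      set R := LinearMap.range (g ∘ₗ f)
      haveI : Module.Finite A R := Module.IsNoetherian.finite A _
      have := L1 R (fun m hm => ?_) ⟨g (f x), x, rfl⟩
      · simpa using congrArg Subtype.val this
      · refine ⟨fun a b => ?_⟩
        have hz : ∀ z : AdicCompletion m R, z = 0 := by
          intro z
          obtain ⟨y, rfl⟩ := AdicCompletion.map_surjective m (LinearMap.surjective_rangeRestrict (g ∘ₗ f)) z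
          apply AdicCompletion.map_injective m (Submodule.injective_subtype R)
          rw [AdicCompletion.map_comp_apply, map_zero]
          have : R.subtype ∘ₗ (g ∘ₗ f).rangeRestrict = g ∘ₗ f := by ext; simp [R]
          rw [this, ← AdicCompletion.map_comp_apply]
          exact ((H m).2.1 _).2 ⟨y, rfl⟩
        rw [hz a, hz b]
    refine ⟨hf, ?_, hg⟩
    -- exactness in the middle
    set u : M' →ₗ[A] LinearMap.ker g := f.codRestrict (LinearMap.ker g) hgf
    haveI : Module.Finite A (LinearMap.ker g) := Module.IsNoetherian.finite A _
    have hu : Function.Surjective u := by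
      apply L2 M' (LinearMap.ker g) u
      intro m hm z
      have hκ := AdicCompletion.map_injective m (Submodule.injective_subtype (LinearMap.ker g))
      have hz : AdicCompletion.map m g (AdicCompletion.map m (LinearMap.ker g).subtype z) = 0 := by
        rw [AdicCompletion.map_comp_apply]
        have : g ∘ₗ (LinearMap.ker g).subtype = 0 := by ext y; simpa using y.2
        rw [this, AdicCompletion.map_zero, LinearMap.zero_apply]
      obtain ⟨x, hx⟩ := ((H m).2.1 _).1 hz
      refine ⟨x, hκ ?_⟩
      rw [AdicCompletion.map_comp_apply, ← hx]
      have hcomp : (LinearMap.ker g).subtype ∘ₗ u = f := by ext; rfl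
      rw [hcomp]
    intro y
    constructor
    · intro hy
      obtain ⟨x, hx⟩ := hu ⟨y, hy⟩
      exact ⟨x, congrArg Subtype.val hx⟩
    · rintro ⟨x, rfl⟩
      exact hgf x

end Groth.Agent.S14680
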