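import Groth.Statements.S1484
import Mathlib
-- import your own Groth.Agent.* helpers here

set_option autoImplicit false
universe u
open FlatMor

namespace Groth.Agent.S1484

/-- Let R be a ring, p_1, …, p_r primes of R none of which is contained in another, k_i ⊆ κ(p_i)
subfields over which κ(p_i) is not algebraic, and J an ideal of R contained in none of the p_i. Then
some x ∈ J has image in κ(p_i) transcendental over k_i for every i. -/
theorem result {R : Type u} [CommRing R] {r : ℕ} (p : Fin r → Ideal R) [∀ i, (p i).IsPrime]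
    (hp : ∀ i j, i ≠ j → ¬ p i ≤ p j) (k : ∀ i, Subfield (p i).ResidueField)
    (hk : ∀ i, ¬ Algebra.IsAlgebraic ↥(k i) (p i).ResidueField) (J : Ideal R) (hJ : ∀ i, ¬ J ≤ p i) :
    ∃ x ∈ J, ∀ i, Transcendental ↥(k i) (algebraMap R (p i).ResidueField x) := by
  classical
  have hA : ∀ i, ∃ t : R, Transcendental (k i) (algebraMap R (p i).ResidueField t) := by
    intro i
    by_contra hcon
    apply hk i
    have h1 : ∀ t : R, IsAlgebraic (k i)
        (algebraMap (R ⧸ p i) (p i).ResidueField (Ideal.Quotient.mk (p i) t)) := by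
      intro t
      have : ¬ Transcendental (k i) (algebraMap R (p i).ResidueField t) := fun h => hcon ⟨t, h⟩
      rw [Transcendental, not_not] at this
      rwa [IsScalarTower.algebraMap_apply R (R ⧸ p i) (p i).ResidueField t] at this
    refine ⟨fun z => ?_⟩
    obtain ⟨a, b, -, rfl⟩ := IsFractionRing.div_surjective (R ⧸ p i) z
    obtain ⟨a', rfl⟩ := Ideal.Quotient.mk_surjective a
    obtain ⟨b', rfl⟩ := Ideal.Quotient.mk_surjective b
    rw [div_eq_mul_inv]
    exact (h1 a').mul (h1 b').inv
  have hB : ∀ i, ∃ y, y ∈ J ∧ y ∉ p i ∧ ∀ j, j ≠ i → y ∈ p j := by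
    intro i
    obtain ⟨Q, hQdef⟩ : ∃ Q : Ideal R, Q = J * ∏ j ∈ Finset.univ.erase i, p j := ⟨_, rfl⟩
    have hQJ : Q ≤ J := by rw [hQdef]; exact Ideal.mul_le_left
    have hQj : ∀ j, j ≠ i → Q ≤ p j := by
      intro j hj
      rw [hQdef]
      exact Ideal.mul_le_right.trans (Ideal.prod_le_inf.trans
        (Finset.inf_le (Finset.mem_erase.mpr ⟨hj, Finset.mem_univ _⟩)))
    have hQ : ¬ Q ≤ p i := by
      intro hle
      rw [hQdef] at hle
      rcases ((inferInstance : (p i).IsPrime).mul_le).mp hle with h | h
      · exact hJ i h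
      · obtain ⟨j, hj, hle'⟩ := ((inferInstance : (p i).IsPrime).prod_le).mp h
        exact hp j i (Finset.ne_of_mem_erase hj) hle'
    obtain ⟨y, hyQ, hyp⟩ := SetLike.not_le_iff_exists.mp hQ
    exact ⟨y, hQJ hyQ, hyp, fun j hj => hQj j hj hyQ⟩
  choose t ht using hA
  choose y hyJ hyp hyq using hB
  let u : Fin r → R := fun i =>
    if Transcendental (k i) (algebraMap R (p i).ResidueField (y i * t i)) then t i else t i ^ 2
  refine ⟨∑ i, y i * u i, Ideal.sum_mem _ fun i _ => Ideal.mul_mem_right _ _ (hyJ i), fun i => ?_⟩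
  have hsum : algebraMap R (p i).ResidueField (∑ j, y j * u j) =
      algebraMap R (p i).ResidueField (y i * u i) := by
    rw [map_sum, Finset.sum_eq_single i]
    · intro j _ hji
      rw [Ideal.algebraMap_residueField_eq_zero]
      exact Ideal.mul_mem_right _ _ (hyq j i (Ne.symm hji))
    · intro h; exact absurd (Finset.mem_univ i) h
  rw [hsum]
  have hy0 : algebraMap R (p i).ResidueField (y i) ≠ 0 := by
    rw [Ne, Ideal.algebraMap_residueField_eq_zero]; exact hyp i
  have ht0 : algebraMap R (p i).ResidueField (t i) ≠ 0 := by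
    intro h0
    apply ht i
    rw [h0]
    exact isAlgebraic_zero
  by_cases hc : Transcendental (k i) (algebraMap R (p i).ResidueField (y i * t i))
  · have : u i = t i := if_pos hc
    rw [this]; exact hc
  · have : u i = t i ^ 2 := if_neg hc
    rw [this]
    intro halg
    rw [Transcendental, not_not] at hc
    apply ht i
    have hne : algebraMap R (p i).ResidueField (y i * t i) ≠ 0 := by
      rw [map_mul]; exact mul_ne_zero hy0 ht0
    have : algebraMap R (p i).ResidueField (t i) =
        algebraMap R (p i).ResidueField (y i * t i ^ 2) /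
          algebraMap R (p i).ResidueField (y i * t i) := by
      rw [eq_div_iff hne]; simp only [map_mul, map_pow]; ring
    rw [this, div_eq_mul_inv]
    exact halg.mul hc.inv

end Groth.Agent.S1484
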