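import Groth.Statements.S14848
import Mathlib.Tactic.LinearCombination
import Mathlib.Tactic.FieldSimp
import Mathlib.Tactic.Ring
import Mathlib.Tactic.FinCases
import Mathlib.Tactic.NormNum
-- import your own Groth.Agent.* helpers here

set_option autoImplicit false
universe u v
open McKay

namespace Groth.Agent.S14848

open Matrix

/-- Let K be a field of characteristic zero, L an extension field of K and ξ ∈ L a primitive n-th root
of unity (n ≥ 1) with ξ + ξ⁻¹ ∈ K, say ξ + ξ⁻¹ = 2c with c ∈ K (the character of the natural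
two-dimensional representation of the cyclic group of order n takes values in K). Then the cyclic
group of order n is realisable over K as a subgroup of SL(2, K): there is an element of SL(2, K) of
order n. -/
theorem result {K : Type u} {L : Type v} [Field K] [Field L]
    [CharZero K] [Algebra K L] (n : ℕ) (hn : 1 ≤ n) (ξ : L) (hξ : IsPrimitiveRoot ξ n) (c : K)
    (hc : algebraMap K L (2 * c) = ξ + ξ⁻¹) :
    ∃ M : Matrix.SpecialLinearGroup (Fin 2) K, orderOf M = n := by
  classical
  have hξ0 : ξ ≠ 0 := hξ.ne_zero (by omega)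
  rcases (show n = 1 ∨ n = 2 ∨ 3 ≤ n by omega) with h1 | h2 | h3
  · subst h1
    exact ⟨1, orderOf_one⟩
  · subst h2
    let M : Matrix.SpecialLinearGroup (Fin 2) K :=
      ⟨!![-1, 0; 0, -1], by simp [Matrix.det_fin_two]⟩
    refine ⟨M, ?_⟩
    have : Fact (Nat.Prime 2) := ⟨Nat.prime_two⟩
    apply orderOf_eq_prime
    · apply Subtype.ext
      rw [Matrix.SpecialLinearGroup.coe_pow]
      show (!![-1, 0; 0, -1] : Matrix (Fin 2) (Fin 2) K) ^ 2 = 1
      ext i j
      fin_cases i <;> fin_cases j <;> simp [sq, Matrix.mul_apply, Fin.sum_univ_two]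
    · intro h
      have := congrArg (fun N : Matrix.SpecialLinearGroup (Fin 2) K =>
        (N : Matrix (Fin 2) (Fin 2) K) 0 0) h
      simp only [M, Matrix.SpecialLinearGroup.coe_one, Matrix.one_apply_eq] at this
      have h2 : (2 : K) = 0 := by
        have : (-1 : K) - 1 = 0 := by simpa using sub_eq_zero.2 this
        linear_combination -this
      exact two_ne_zero h2
  · let A : Matrix (Fin 2) (Fin 2) K := !![0, -1; 1, 2 * c]
    have hA : A.det = 1 := by simp [A, Matrix.det_fin_two]
    let M : Matrix.SpecialLinearGroup (Fin 2) K := ⟨A, hA⟩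
    refine ⟨M, ?_⟩
    let f := algebraMap K L
    have hAL : A.map f = !![0, -1; 1, ξ + ξ⁻¹] := by
      rw [← hc]
      ext i j
      fin_cases i <;> fin_cases j <;> simp [A, f]
    have hsq : ξ ^ 2 ≠ 1 := by
      intro h
      have := (hξ.pow_eq_one_iff_dvd 2).1 h
      have := Nat.le_of_dvd (by norm_num) this
      omega
    have hne : ξ⁻¹ - ξ ≠ 0 := by
      intro h
      apply hsq
      have : ξ⁻¹ = ξ := (sub_eq_zero.1 h)
      calc ξ ^ 2 = ξ * ξ := sq ξ
        _ = ξ * ξ⁻¹ := by rw [this]
        _ = 1 := mul_inv_cancel₀ hξ0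
    let v₁ : Fin 2 → L := ![1, -ξ]
    let v₂ : Fin 2 → L := ![1, -ξ⁻¹]
    have hv₁ : (A.map f) *ᵥ v₁ = ξ • v₁ := by
      rw [hAL]
      ext i
      fin_cases i
      · simp [v₁, Matrix.mulVec, dotProduct, Fin.sum_univ_two]
      · simp [v₁, Matrix.mulVec, dotProduct, Fin.sum_univ_two]
        field_simp
        ring
    have hv₂ : (A.map f) *ᵥ v₂ = ξ⁻¹ • v₂ := by
      rw [hAL]
      ext i
      fin_cases i
      · simp [v₂, Matrix.mulVec, dotProduct, Fin.sum_univ_two]
      · simp [v₂, Matrix.mulVec, dotProduct, Fin.sum_univ_two]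
        field_simp
        ring
    have hpow : ∀ (k : ℕ) (v : Fin 2 → L) (μ : L), (A.map f) *ᵥ v = μ • v →
        ((A.map f) ^ k) *ᵥ v = μ ^ k • v := by
      intro k v μ hv
      induction k with
      | zero => simp
      | succ k ih =>
        rw [pow_succ, ← Matrix.mulVec_mulVec, hv, Matrix.mulVec_smul, ih, smul_smul, pow_succ,
          mul_comm]
    have hcoe : ∀ k : ℕ, ((M ^ k : Matrix.SpecialLinearGroup (Fin 2) K) :
        Matrix (Fin 2) (Fin 2) K) = A ^ k := fun k => by
      rw [Matrix.SpecialLinearGroup.coe_pow]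
    have hmap : ∀ k : ℕ, (A ^ k).map f = (A.map f) ^ k := fun k =>
      (map_pow f.mapMatrix A k)
    have hfinj : Function.Injective f := f.injective
    -- M ^ n = 1
    have hMn : M ^ n = 1 := by
      have hAn : (A.map f) ^ n = 1 := by
        set N := (A.map f) ^ n with hN
        have e1 : N *ᵥ v₁ = v₁ := by rw [hN, hpow n v₁ ξ hv₁, hξ.pow_eq_one, one_smul]
        have e2 : N *ᵥ v₂ = v₂ := by rw [hN, hpow n v₂ ξ⁻¹ hv₂, inv_pow, hξ.pow_eq_one, inv_one, one_smul]
        rw [Matrix.eta_fin_two N] at e1 e2 ⊢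
        have a1 := congrFun e1 0
        have a2 := congrFun e1 1
        have a3 := congrFun e2 0
        have a4 := congrFun e2 1
        simp [v₁, v₂, Matrix.mulVec, dotProduct, Fin.sum_univ_two] at a1 a2 a3 a4
        have hb : N 0 1 = 0 := by
          have : N 0 1 * (ξ⁻¹ - ξ) = 0 := by linear_combination a1 - a3
          exact (mul_eq_zero.1 this).resolve_right hne
        have hd : N 1 1 = 1 := by
          have : (N 1 1 - 1) * (ξ⁻¹ - ξ) = 0 := by linear_combination a2 - a4
          exact sub_eq_zero.1 ((mul_eq_zero.1 this).resolve_right hne)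
        have ha : N 0 0 = 1 := by rw [hb] at a1; linear_combination a1
        have hc' : N 1 0 = 0 := by rw [hd] at a2; linear_combination a2
        rw [ha, hb, hc', hd]
        exact (Matrix.one_fin_two).symm
      have : (A ^ n).map f = (1 : Matrix (Fin 2) (Fin 2) K).map f := by
        rw [hmap, hAn, Matrix.map_one _ (map_zero f) (map_one f)]
      have hA1 : A ^ n = 1 := Matrix.map_injective hfinj this
      apply Subtype.ext
      rw [hcoe, hA1]
      rfl
    have hdvd : n ∣ orderOf M := by
      have h1 : M ^ orderOf M = 1 := pow_orderOf_eq_one M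
      have h2 : A ^ orderOf M = 1 := by
        rw [← hcoe, h1]
        rfl
      have h3 : (A.map f) ^ orderOf M = 1 := by
        rw [← hmap, h2, Matrix.map_one _ (map_zero f) (map_one f)]
      have h4 := hpow (orderOf M) v₁ ξ hv₁
      rw [h3, Matrix.one_mulVec] at h4
      have h5 := congrFun h4 0
      simp [v₁] at h5
      exact (hξ.pow_eq_one_iff_dvd _).1 h5.symm
    exact Nat.dvd_antisymm (orderOf_dvd_of_pow_eq_one hMn) hdvd

end Groth.Agent.S14848
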