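import Groth.Statements.S14849
import Mathlib.Tactic.LinearCombination
import Mathlib.Tactic.FieldSimp
import Mathlib.Tactic.Ring
import Mathlib.Tactic.FinCases
import Mathlib.Tactic.NormNum
-- import your own Groth.Agent.* helpers here

set_option autoImplicit false
universe u v
open McKay

namespace Groth.Agent.S14849

open Matrix

/-- Let K be a field of characteristic zero, L an extension field of K, n ≥ 2, and ξ ∈ L a primitive
2n-th root of unity with ξ + ξ⁻¹ = 2c for some c ∈ K. If the Hilbert symbol of -1 and c² - 1 over K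
equals 1, i.e. x² - (c² - 1) y² = -1 has a solution in K, then the binary dihedral group of order 4n
(generators σ, τ with τ² = σⁿ = (τσ)²) is isomorphic to a subgroup of SL(2, K). (The published
statement is an equivalence; this row is the direction realising the group from a solution of the
conic.) -/
theorem result {K : Type u} {L : Type v}
    [Field K] [Field L] [CharZero K] [Algebra K L] (n : ℕ) (hn : 2 ≤ n) (ξ : L)
    (hξ : IsPrimitiveRoot ξ (2 * n)) (c : K) (hc : algebraMap K L (2 * c) = ξ + ξ⁻¹)
    (hsol : ∃ x y : K, x ^ 2 - (c ^ 2 - 1) * y ^ 2 = -1) :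
    ∃ f : QuaternionGroup n →* Matrix.SpecialLinearGroup (Fin 2) K, Function.Injective f := by
  classical
  obtain ⟨x, y, hxy⟩ := hsol
  have hn0 : 0 < n := by omega
  have : NeZero (2 * n) := ⟨by omega⟩
  have hξ0 : ξ ≠ 0 := hξ.ne_zero (by omega)
  let A : Matrix (Fin 2) (Fin 2) K := !![0, -1; 1, 2 * c]
  have hA : A.det = 1 := by simp [A, Matrix.det_fin_two]
  let C : Matrix.SpecialLinearGroup (Fin 2) K := ⟨A, hA⟩
  have hord : orderOf C = 2 * n := by
    let f := algebraMap K L
    have hAL : A.map f = !![0, -1; 1, ξ + ξ⁻¹] := by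
      rw [← hc]
      ext i j
      fin_cases i <;> fin_cases j <;> simp [A, f]
    have hsq : ξ ^ 2 ≠ 1 := by
      intro h
      have := (hξ.pow_eq_one_iff_dvd 2).1 h
      have := Nat.le_of_dvd (by norm_num) this
      omega
    have hne : ξ⁻¹ - ξ ≠ 0 := by
      intro h
      apply hsq
      have : ξ⁻¹ = ξ := (sub_eq_zero.1 h)
      calc ξ ^ 2 = ξ * ξ := sq ξ
        _ = ξ * ξ⁻¹ := by rw [this]
        _ = 1 := mul_inv_cancel₀ hξ0
    let v₁ : Fin 2 → L := ![1, -ξ]
    let v₂ : Fin 2 → L := ![1, -ξ⁻¹]
    have hv₁ : (A.map f) *ᵥ v₁ = ξ • v₁ := by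
      rw [hAL]
      ext i
      fin_cases i
      · simp [v₁, Matrix.mulVec, dotProduct, Fin.sum_univ_two]
      · simp [v₁, Matrix.mulVec, dotProduct, Fin.sum_univ_two]
        field_simp
        ring
    have hv₂ : (A.map f) *ᵥ v₂ = ξ⁻¹ • v₂ := by
      rw [hAL]
      ext i
      fin_cases i
      · simp [v₂, Matrix.mulVec, dotProduct, Fin.sum_univ_two]
      · simp [v₂, Matrix.mulVec, dotProduct, Fin.sum_univ_two]
        field_simp
        ring
    have hpow : ∀ (k : ℕ) (v : Fin 2 → L) (μ : L), (A.map f) *ᵥ v = μ • v →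
        ((A.map f) ^ k) *ᵥ v = μ ^ k • v := by
      intro k v μ hv
      induction k with
      | zero => simp
      | succ k ih =>
        rw [pow_succ, ← Matrix.mulVec_mulVec, hv, Matrix.mulVec_smul, ih, smul_smul, pow_succ,
          mul_comm]
    have hcoe : ∀ k : ℕ, ((C ^ k : Matrix.SpecialLinearGroup (Fin 2) K) :
        Matrix (Fin 2) (Fin 2) K) = A ^ k := fun k => by
      rw [Matrix.SpecialLinearGroup.coe_pow]
    have hmap : ∀ k : ℕ, (A ^ k).map f = (A.map f) ^ k := fun k =>
      (map_pow f.mapMatrix A k)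
    have hfinj : Function.Injective f := f.injective
    -- C ^ (2 * n) = 1
    have hMn : C ^ (2 * n) = 1 := by
      have hAn : (A.map f) ^ (2 * n) = 1 := by
        set N := (A.map f) ^ (2 * n) with hN
        have e1 : N *ᵥ v₁ = v₁ := by rw [hN, hpow (2 * n) v₁ ξ hv₁, hξ.pow_eq_one, one_smul]
        have e2 : N *ᵥ v₂ = v₂ := by rw [hN, hpow (2 * n) v₂ ξ⁻¹ hv₂, inv_pow, hξ.pow_eq_one, inv_one, one_smul]
        rw [Matrix.eta_fin_two N] at e1 e2 ⊢
        have a1 := congrFun e1 0
        have a2 := congrFun e1 1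
        have a3 := congrFun e2 0
        have a4 := congrFun e2 1
        simp [v₁, v₂, Matrix.mulVec, dotProduct, Fin.sum_univ_two] at a1 a2 a3 a4
        have hb : N 0 1 = 0 := by
          have : N 0 1 * (ξ⁻¹ - ξ) = 0 := by linear_combination a1 - a3
          exact (mul_eq_zero.1 this).resolve_right hne
        have hd : N 1 1 = 1 := by
          have : (N 1 1 - 1) * (ξ⁻¹ - ξ) = 0 := by linear_combination a2 - a4
          exact sub_eq_zero.1 ((mul_eq_zero.1 this).resolve_right hne)
        have ha : N 0 0 = 1 := by rw [hb] at a1; linear_combination a1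
        have hc' : N 1 0 = 0 := by rw [hd] at a2; linear_combination a2
        rw [ha, hb, hc', hd]
        exact (Matrix.one_fin_two).symm
      have : (A ^ (2 * n)).map f = (1 : Matrix (Fin 2) (Fin 2) K).map f := by
        rw [hmap, hAn, Matrix.map_one _ (map_zero f) (map_one f)]
      have hA1 : A ^ (2 * n) = 1 := Matrix.map_injective hfinj this
      apply Subtype.ext
      rw [hcoe, hA1]
      rfl
    have hdvd : (2 * n) ∣ orderOf C := by
      have h1 : C ^ orderOf C = 1 := pow_orderOf_eq_one C
      have h2 : A ^ orderOf C = 1 := by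
        rw [← hcoe, h1]
        rfl
      have h3 : (A.map f) ^ orderOf C = 1 := by
        rw [← hmap, h2, Matrix.map_one _ (map_zero f) (map_one f)]
      have h4 := hpow (orderOf C) v₁ ξ hv₁
      rw [h3, Matrix.one_mulVec] at h4
      have h5 := congrFun h4 0
      simp [v₁] at h5
      exact (hξ.pow_eq_one_iff_dvd _).1 h5.symm
    exact Nat.dvd_antisymm (orderOf_dvd_of_pow_eq_one hMn) hdvd

  have hCm : C ^ (2 * n) = 1 := by rw [← hord]; exact pow_orderOf_eq_one C
  -- the matrix X
  let B : Matrix (Fin 2) (Fin 2) K := !![x - c * y, 2 * c * (x - c * y) + y; y, -(x - c * y)]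
  have hB : B.det = 1 := by
    simp only [B, Matrix.det_fin_two_of]
    linear_combination -hxy
  let X : Matrix.SpecialLinearGroup (Fin 2) K := ⟨B, hB⟩
  have hCXC : C * X * C = X := by
    apply Subtype.ext
    show A * B * A = B
    ext i j
    fin_cases i <;> fin_cases j <;> simp [A, B, Matrix.mul_apply, Fin.sum_univ_two] <;> ring1
  have hBB : B * B = -1 := by
    ext i j
    fin_cases i <;> fin_cases j <;> simp [B, Matrix.mul_apply, Fin.sum_univ_two] <;>
      first | ring1 | linear_combination hxy
  have key : ∀ Q : Matrix (Fin 2) (Fin 2) K, Q.det = 1 → Q * Q = 1 → Q ≠ 1 → Q = -1 := by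
    intro Q hd hQQ hQ1
    rw [Matrix.det_fin_two] at hd
    have e00 := congrFun (congrFun hQQ 0) 0
    have e01 := congrFun (congrFun hQQ 0) 1
    have e10 := congrFun (congrFun hQQ 1) 0
    have e11 := congrFun (congrFun hQQ 1) 1
    simp [Matrix.mul_apply, Fin.sum_univ_two] at e00 e01 e10 e11
    by_cases hs : Q 0 0 + Q 1 1 = 0
    · exfalso
      have h2 : (2 : K) = 0 := by linear_combination Q 0 0 * hs - e00 - hd
      exact two_ne_zero h2
    · have hq : Q 0 1 = 0 := by
        have : Q 0 1 * (Q 0 0 + Q 1 1) = 0 := by linear_combination e01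
        exact (mul_eq_zero.1 this).resolve_right hs
      have hr : Q 1 0 = 0 := by
        have : Q 1 0 * (Q 0 0 + Q 1 1) = 0 := by linear_combination e10
        exact (mul_eq_zero.1 this).resolve_right hs
      have hps : Q 0 0 = Q 1 1 := by
        have : (Q 0 0 - Q 1 1) ^ 2 = 0 := by
          linear_combination e00 + e11 - 2 * hd - 4 * Q 1 0 * hq
        exact sub_eq_zero.1 (pow_eq_zero_iff (n := 2) (by norm_num) |>.1 this)
      have hp : Q 0 0 = 1 ∨ Q 0 0 = -1 := by
        have : (Q 0 0 - 1) * (Q 0 0 + 1) = 0 := by linear_combination e00 - Q 1 0 * hq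
        rcases mul_eq_zero.1 this with h | h
        · left; linear_combination h
        · right; linear_combination h
      rcases hp with hp | hp
      · exfalso; apply hQ1
        ext i j; fin_cases i <;> fin_cases j <;> simp [hp, hq, hr, ← hps]
      · ext i j; fin_cases i <;> fin_cases j <;> simp [hp, hq, hr, ← hps]
  have hPP : ((C ^ n : Matrix.SpecialLinearGroup (Fin 2) K) : Matrix (Fin 2) (Fin 2) K) *
      ((C ^ n : Matrix.SpecialLinearGroup (Fin 2) K) : Matrix (Fin 2) (Fin 2) K) = 1 := by
    (rw [← Matrix.SpecialLinearGroup.coe_mul, ← pow_add, ← two_mul, hCm]) <;> rfl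
  have hP1 : ((C ^ n : Matrix.SpecialLinearGroup (Fin 2) K) : Matrix (Fin 2) (Fin 2) K) ≠ 1 := by
    intro h
    have h1 : C ^ n = 1 := Subtype.ext (h.trans Matrix.SpecialLinearGroup.coe_one.symm)
    have h2 := orderOf_dvd_of_pow_eq_one h1
    rw [hord] at h2
    have := Nat.le_of_dvd (by omega) h2
    omega
  have hCn : ((C ^ n : Matrix.SpecialLinearGroup (Fin 2) K) : Matrix (Fin 2) (Fin 2) K) = -1 :=
    key _ (C ^ n).2 hPP hP1
  have hXX : X * X = C ^ n := by
    apply Subtype.ext
    rw [Matrix.SpecialLinearGroup.coe_mul, hCn]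
    exact hBB
  have hCinvX : C * X = X * C⁻¹ := eq_mul_inv_of_mul_eq hCXC
  have hpowX : ∀ k : ℕ, C ^ k * X = X * C⁻¹ ^ k := by
    intro k
    induction k with
    | zero => simp
    | succ k ih =>
      rw [pow_succ C k, mul_assoc, hCinvX, ← mul_assoc, ih, mul_assoc, ← pow_succ C⁻¹ k]
  have hinvpow : ∀ k : ℕ, k ≤ 2 * n → C⁻¹ ^ k = C ^ (2 * n - k) := by
    intro k hk
    rw [inv_pow]
    apply inv_eq_of_mul_eq_one_left
    rw [← pow_add, Nat.sub_add_cancel hk, hCm]
  have hval : ∀ k : ℕ, C ^ ((k : ZMod (2 * n))).val = C ^ k := by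
    intro k
    rw [ZMod.val_natCast, ← hord, pow_mod_orderOf]
  have hcast_add : ∀ i j : ZMod (2 * n), ((i.val + j.val : ℕ) : ZMod (2 * n)) = i + j := by
    intro i j; rw [Nat.cast_add, ZMod.natCast_zmod_val, ZMod.natCast_zmod_val]
  have hcast_sub : ∀ (k : ℕ) (i j : ZMod (2 * n)),
      ((k + j.val + (2 * n - i.val) : ℕ) : ZMod (2 * n)) = (k : ZMod (2 * n)) + j - i := by
    intro k i j
    rw [Nat.cast_add, Nat.cast_add, Nat.cast_sub (le_of_lt (ZMod.val_lt i)), ZMod.natCast_self,
      ZMod.natCast_zmod_val, ZMod.natCast_zmod_val]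
    ring
  let F : QuaternionGroup n → Matrix.SpecialLinearGroup (Fin 2) K := fun q =>
    match q with
    | .a i => C ^ i.val
    | .xa i => X * C ^ i.val
  let φ : QuaternionGroup n →* Matrix.SpecialLinearGroup (Fin 2) K :=
    { toFun := F
      map_one' := by
        show C ^ (0 : ZMod (2 * n)).val = 1
        rw [ZMod.val_zero, pow_zero]
      map_mul' := by
        rintro (i | i) (j | j)
        · rw [QuaternionGroup.a_mul_a]
          show C ^ (i + j).val = C ^ i.val * C ^ j.val
          rw [← pow_add, ← hcast_add i j, hval]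
        · rw [QuaternionGroup.a_mul_xa]
          show X * C ^ (j - i).val = C ^ i.val * (X * C ^ j.val)
          have e := hcast_sub 0 i j
          simp only [Nat.cast_zero, zero_add] at e
          rw [← e, hval, ← mul_assoc, hpowX, hinvpow _ (le_of_lt (ZMod.val_lt i)), mul_assoc,
            ← pow_add]
          exact congrArg (fun e => X * C ^ e) (by omega)
        · rw [QuaternionGroup.xa_mul_a]
          show X * C ^ (i + j).val = X * C ^ i.val * C ^ j.val
          rw [← hcast_add i j, hval, mul_assoc, ← pow_add]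
        · rw [QuaternionGroup.xa_mul_xa]
          show C ^ ((n : ZMod (2 * n)) + j - i).val = X * C ^ i.val * (X * C ^ j.val)
          rw [← hcast_sub n i j, hval]
          rw [show X * C ^ i.val * (X * C ^ j.val) = X * (C ^ i.val * X) * C ^ j.val by
            simp only [mul_assoc]]
          rw [hpowX, hinvpow _ (le_of_lt (ZMod.val_lt i)), ← mul_assoc, hXX, mul_assoc, ← pow_add,
            ← pow_add]
          exact congrArg (fun e => C ^ e) (by omega) }
  refine ⟨φ, (injective_iff_map_eq_one φ).2 ?_⟩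
  rintro (i | i) hx
  · have hx' : C ^ i.val = 1 := hx
    have hdvd := orderOf_dvd_of_pow_eq_one hx'
    rw [hord] at hdvd
    have h0 : i.val = 0 := Nat.eq_zero_of_dvd_of_lt hdvd (ZMod.val_lt i)
    rw [ZMod.val_eq_zero] at h0
    rw [h0]
    rfl
  · have hx' : X * C ^ i.val = 1 := hx
    exfalso
    have hXeq : X = (C ^ i.val)⁻¹ := eq_inv_of_mul_eq_one_left hx'
    have hcomm : C * X = X * C := by
      rw [hXeq]
      exact ((Commute.self_pow C i.val).inv_right).eq
    have h1 : X * (C * C) = X * 1 := by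
      rw [mul_one, ← mul_assoc, ← hcomm]; exact hCXC
    have hC2 : C ^ 2 = 1 := by rw [sq]; exact mul_left_cancel h1
    have h2 := orderOf_dvd_of_pow_eq_one hC2
    rw [hord] at h2
    have := Nat.le_of_dvd (by norm_num) h2
    omega

end Groth.Agent.S14849
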