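import Groth.Statements.S14871
-- import your own Groth.Agent.* helpers here

set_option autoImplicit false
universe u v
open PLie

namespace Groth.Agent.S14871

/-- Let `L` be a finite-dimensional Lie algebra over a field of characteristic `p` equipped with a
`p`-mapping `φ`. Then the solvable radical of `L` is stable under `φ` (it is a `p`-subalgebra). -/
theorem result
    (k : Type u) [Field k] (p : ℕ) [Fact p.Prime] [CharP k p]
    (L : Type v) [LieRing L] [LieAlgebra k L] [Module.Finite k L]
    (φ : PLie.PMap k p L) (x : L) (hx : x ∈ LieAlgebra.radical k L) :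
    φ x ∈ LieAlgebra.radical k L := by
  classical
  set R := LieAlgebra.radical k L with hR
  have hp : 0 < p := (Fact.out : p.Prime).pos
  -- brackets with φ x land in the radical
  have hφb : ∀ b : L, ⁅φ x, b⁆ ∈ R := by
    intro b
    have h1 : ⁅φ x, b⁆ = (LieAlgebra.ad k L x ^ p) b := by
      rw [← φ.ad_map x]
      rfl
    have h2 : (LieAlgebra.ad k L x ^ p) b = ⁅x, (LieAlgebra.ad k L x ^ (p - 1)) b⁆ := by
      conv_lhs => rw [show p = (p - 1) + 1 from (Nat.sub_add_cancel hp).symm, pow_succ']
      rfl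
    rw [h1, h2]
    exact lie_mem_left k L R _ _ hx
  have hJb : ∀ a ∈ R.toSubmodule ⊔ Submodule.span k {φ x}, ∀ b : L, ⁅a, b⁆ ∈ R := by
    intro a ha b
    obtain ⟨r, hr, z, hz, rfl⟩ := Submodule.mem_sup.1 ha
    obtain ⟨c, rfl⟩ := Submodule.mem_span_singleton.1 hz
    rw [add_lie, smul_lie]
    exact R.add_mem (lie_mem_left k L R _ _ hr) (R.smul_mem c (hφb b))
  let J : LieIdeal k L :=
    { toSubmodule := R.toSubmodule ⊔ Submodule.span k {φ x}
      lie_mem := by
        intro y z hz
        have := hJb z hz y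
        rw [← lie_skew]
        exact Submodule.mem_sup_left (R.toSubmodule.neg_mem this) }
  have hxJ : φ x ∈ J := Submodule.mem_sup_right (Submodule.subset_span rfl)
  have hJ1 : LieAlgebra.derivedSeriesOfIdeal k L 1 J ≤ R := by
    rw [LieAlgebra.derivedSeriesOfIdeal_succ, LieAlgebra.derivedSeriesOfIdeal_zero,
      LieSubmodule.lie_le_iff]
    intro a ha b _
    exact hJb a ha b
  have hRsolv : LieAlgebra.IsSolvable R := LieAlgebra.radicalIsSolvable k L
  obtain ⟨n, hn⟩ := (LieAlgebra.isSolvable_iff k R).1 hRsolv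
  rw [LieIdeal.derivedSeries_eq_bot_iff] at hn
  have hJsolv : LieAlgebra.IsSolvable J := by
    rw [LieAlgebra.isSolvable_iff k J]
    refine ⟨n + 1, ?_⟩
    rw [LieIdeal.derivedSeries_eq_bot_iff, LieAlgebra.derivedSeriesOfIdeal_add, eq_bot_iff]
    calc LieAlgebra.derivedSeriesOfIdeal k L n (LieAlgebra.derivedSeriesOfIdeal k L 1 J)
        ≤ LieAlgebra.derivedSeriesOfIdeal k L n R := LieAlgebra.derivedSeriesOfIdeal_mono hJ1 n
      _ = ⊥ := hn
  exact (LieAlgebra.LieIdeal.solvable_iff_le_radical k L J).1 hJsolv hxJ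

end Groth.Agent.S14871
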