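import Groth.Statements.S14873
import Mathlib.Algebra.Lie.Engel
-- import your own Groth.Agent.* helpers here

set_option autoImplicit false
universe u v
open PLie

namespace Groth.Agent.S14873

/-- Let `L` be a finite-dimensional Lie algebra over a field of characteristic `p` equipped with a
`p`-mapping `φ`, and let `I` be an ideal of `L` stable under `φ` all of whose elements are
`p`-nilpotent (for instance the `p`-radical, the largest such ideal). Then `I` is nilpotent as a Lie
ring, hence lies in the nilradical of `L`. (The published item also records that the nilradical lies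
in the solvable radical, which is immediate since nilpotent ideals are solvable.) -/
theorem result
    (k : Type u) [Field k] (p : ℕ) [Fact p.Prime] [CharP k p]
    (L : Type v) [LieRing L] [LieAlgebra k L] [Module.Finite k L]
    (φ : PLie.PMap k p L) (I : LieIdeal k L) (hsub : ∀ x ∈ I, φ x ∈ I)
    (hnil : ∀ x ∈ I, PLie.IsPNilpotent φ x) : LieRing.IsNilpotent I := by
  classical
  have hiter : ∀ (n : ℕ) (x : L), LieAlgebra.ad k L (φ.toFun^[n] x) = LieAlgebra.ad k L x ^ (p ^ n) := by
    intro n
    induction n with
    | zero => intro x; simp
    | succ n ih =>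
      intro x
      rw [Function.iterate_succ_apply', φ.ad_map, ih, ← pow_mul, ← pow_succ]
  have hres : ∀ (x : I) (m : ℕ) (y : I),
      (((LieAlgebra.ad k I x) ^ m) y : L) = ((LieAlgebra.ad k L (x : L)) ^ m) (y : L) := by
    intro x m
    induction m with
    | zero => intro y; simp
    | succ m ih =>
      intro y
      rw [pow_succ', Module.End.mul_apply, pow_succ', Module.End.mul_apply, LieAlgebra.ad_apply,
        LieAlgebra.ad_apply, ← ih]
      rfl
  have : IsNoetherian k I := inferInstance
  rw [LieAlgebra.isNilpotent_iff_forall (R := k)]
  intro x
  obtain ⟨n, hn⟩ := hnil x x.2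
  refine ⟨p ^ n, ?_⟩
  ext y
  rw [hres, ← hiter, hn]
  simp

end Groth.Agent.S14873
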