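import Groth.Statements.S14973
import Mathlib.Tactic.Abel
-- import your own Groth.Agent.* helpers here

set_option autoImplicit false
universe u v
open Diff16

namespace Groth.Agent.S14973

/-- In ring form. Let B be a commutative ring, L a ring with a ring homomorphism f from B, and L_0, L_1,
L_2, … additive subgroups of L exhausting L such that for every b in B, f(b) commutes with every
element of L_0 and, for each i, the commutator f(b) x - x f(b) of f(b) with an element x of L_(i+1)
lies in L_i. Let M be a multiplicative subset of B. Then M acts invertibly on the right of the left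
localisation of L at M (L viewed as a B-module through left multiplication): in elementwise terms,
(a) if x is in L and m, u are in M with f(u) x f(m) = 0, then f(u') x = 0 for some u' in M; (b) for
every x in L and m in M there are e in M and y in L with f(e) x = y f(m). (The published statement
assumes a filtration satisfying all the axioms of a filtered ring of differential operators on an
affine scheme; this row assumes only an exhaustive family of additive subgroups on which commutators
with the image of B lower the index.) -/
theorem result
    {B : Type u} [CommRing B] {L : Type v} [Ring L] (f : B →+* L) (F : ℕ → AddSubgroup L)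
    (hex : ∀ x : L, ∃ i : ℕ, x ∈ F i)
    (h0 : ∀ x ∈ F 0, ∀ b : B, f b * x = x * f b)
    (hS : ∀ (i : ℕ), ∀ x ∈ F (i + 1), ∀ b : B, f b * x - x * f b ∈ F i)
    (M : Submonoid B) :
    (∀ (x : L) (m u : B), m ∈ M → u ∈ M → f u * x * f m = 0 → ∃ u' ∈ M, f u' * x = 0) ∧
    (∀ (x : L) (m : B), m ∈ M → ∃ e ∈ M, ∃ y : L, f e * x = y * f m) := by
  refine ⟨?_, ?_⟩
  · intro x m u hm hu hx
    have P : ∀ i : ℕ, ∀ z ∈ F i, z * f m = 0 → f m ^ (i + 1) * z = 0 := by
      intro i
      induction i with
      | zero =>
        intro z hz hzm
        rw [zero_add, pow_one, h0 z hz m, hzm]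
      | succ i ih =>
        intro z hz hzm
        have ha := hS i z hz m
        have hazm : (f m * z - z * f m) * f m = 0 := by
          rw [sub_mul, mul_assoc, hzm, mul_zero, zero_mul, sub_zero]
        have := ih _ ha hazm
        rw [hzm, sub_zero] at this
        rw [pow_succ, mul_assoc]
        exact this
    obtain ⟨i, hi⟩ := hex (f u * x)
    have h1 := P i (f u * x) hi (by rw [hx])
    refine ⟨m ^ (i + 1) * u, M.mul_mem (M.pow_mem hm _) hu, ?_⟩
    rw [map_mul, map_pow, mul_assoc]
    exact h1
  · intro x m hm
    have P : ∀ i : ℕ, ∀ z ∈ F i, ∃ y : L, f m ^ (i + 1) * z = y * f m := by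
      intro i
      induction i with
      | zero =>
        intro z hz
        exact ⟨z, by rw [zero_add, pow_one, h0 z hz m]⟩
      | succ i ih =>
        intro z hz
        obtain ⟨y', hy'⟩ := ih _ (hS i z hz m)
        refine ⟨y' + f m ^ (i + 1) * z, ?_⟩
        have hz' : f m * z = (f m * z - z * f m) + z * f m := by abel
        rw [pow_succ, mul_assoc, hz', mul_add, hy', add_mul, mul_assoc]
    obtain ⟨i, hi⟩ := hex x
    obtain ⟨y, hy⟩ := P i x hi
    exact ⟨m ^ (i + 1), M.pow_mem hm _, y, by rw [map_pow]; exact hy⟩

end Groth.Agent.S14973
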