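import Groth.Statements.S15017
import Mathlib.Tactic.Linarith
-- import your own Groth.Agent.* helpers here

set_option autoImplicit false
open TFCurv

namespace Groth.Agent.S15017

/-- Let Γ be a numerical semigroup (a submonoid of (ℕ, +) with finite complement), Γ ≠ ℕ, with conductor
c (every n ≥ c lies in Γ, c − 1 does not). If Γ is symmetric (for x < c, x is a gap exactly when c −
1 − x ∈ Γ) and has multiplicity greater than 2 (neither 1 nor 2 lies in Γ), then Γ is generated by
its elements smaller than c: every minimal generator of Γ is less than the conductor. -/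
theorem result (Γ : AddSubmonoid ℕ) (c : ℕ) (hc : ∀ n : ℕ, c ≤ n → n ∈ Γ) (hc0 : c ≠ 0) (hc1 : c - 1 ∉ Γ) (hsymm : ∀ x : ℕ, x < c → (x ∉ Γ ↔ c - 1 - x ∈ Γ)) (he : (1 : ℕ) ∉ Γ ∧ (2 : ℕ) ∉ Γ) : AddSubmonoid.closure {γ : ℕ | γ ∈ Γ ∧ γ < c} = Γ := by
  classical
  set T : Set ℕ := {γ : ℕ | γ ∈ Γ ∧ γ < c} with hT
  apply le_antisymm
  · rw [AddSubmonoid.closure_le]
    intro γ hγ
    exact hγ.1
  · -- multiplicity
    have hex : ∃ m, 0 < m ∧ m ∈ Γ := ⟨c, Nat.pos_of_ne_zero hc0, hc c le_rfl⟩
    set e := Nat.find hex with he_def
    have he_spec : 0 < e ∧ e ∈ Γ := Nat.find_spec hex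
    have he_min : ∀ m, 0 < m → m ∈ Γ → e ≤ m := fun m hm hmΓ => Nat.find_min' hex ⟨hm, hmΓ⟩
    have he1 : e ≠ 1 := fun h => he.1 (h ▸ he_spec.2)
    have he2 : e ≠ 2 := fun h => he.2 (h ▸ he_spec.2)
    have he3 : 3 ≤ e := by have := he_spec.1; omega
    have hec : e ≤ c := he_min c (Nat.pos_of_ne_zero hc0) (hc c le_rfl)
    have hc3 : 3 ≤ c := le_trans he3 hec
    have hec' : e < c := by
      rcases Nat.lt_or_eq_of_le hec with h | h
      · exact h
      · exfalso
        have h1 : c - 1 - 1 ∈ Γ := (hsymm 1 (by omega)).1 he.1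
        have := he_min (c - 1 - 1) (by omega) h1
        omega
    intro n hn
    induction n using Nat.strong_induction_on with
    | _ n ih =>
    by_cases hnc : n < c
    · exact AddSubmonoid.subset_closure ⟨hn, hnc⟩
    push_neg at hnc
    have heT : e ∈ AddSubmonoid.closure T := AddSubmonoid.subset_closure ⟨he_spec.2, hec'⟩
    by_cases hne : n - e ∈ Γ
    · have h1 := ih (n - e) (by omega) hne
      have := AddSubmonoid.add_mem _ heT h1
      rwa [Nat.add_sub_cancel' (by omega)] at this
    · have hnec : n - e < c := by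
        by_contra h
        exact hne (hc _ (by omega))
      have hm : c - 1 - (n - e) ∈ Γ := (hsymm (n - e) hnec).1 hne
      have hm0 : c - 1 - (n - e) = 0 := by
        by_contra h
        have := he_min _ (Nat.pos_of_ne_zero h) hm
        omega
      have hn_eq : n = c - 1 + e := by omega
      -- a residue different from those of 0 and n
      obtain ⟨r, hr1, hr2, hrn⟩ : ∃ r, 0 < r ∧ r < e ∧ r ≠ n % e := by
        by_cases h1 : 1 = n % e
        · exact ⟨2, by omega, by omega, by omega⟩
        · exact ⟨1, by omega, by omega, h1⟩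
      have hexw : ∃ w, w ∈ Γ ∧ w % e = r := by
        refine ⟨c * e + r, hc _ ?_, ?_⟩
        · nlinarith
        · rw [Nat.mul_add_mod_of_lt hr2]  -- (c * e + r) % e = r
      set w := Nat.find hexw with hw_def
      have hw_spec : w ∈ Γ ∧ w % e = r := Nat.find_spec hexw
      have hw0 : 0 < w := by
        rcases Nat.eq_zero_or_pos w with h | h
        · exfalso
          have := hw_spec.2
          rw [h, Nat.zero_mod] at this
          omega
        · exact h
      have hwe : e ≤ w := he_min w hw0 hw_spec.1
      have hwe' : w - e ∉ Γ := by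
        intro hmem
        have hmod : (w - e) % e = r := by
          have : w = (w - e) + e := by omega
          rw [← hw_spec.2, this, Nat.add_mod_right]
          simp
        have := Nat.find_min hexw (m := w - e) (by omega)
        exact this ⟨hmem, hmod⟩
      have hwec : w - e < c := by
        by_contra h
        exact hwe' (hc _ (by omega))
      have hnw : c - 1 - (w - e) ∈ Γ := (hsymm (w - e) hwec).1 hwe'
      have hnw' : c - 1 - (w - e) = n - w := by omega
      rw [hnw'] at hnw
      have hwn : w ≠ n := by
        intro h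
        apply hrn
        rw [← hw_spec.2, h]
      have hwlt : w < n := by omega
      have h1 := ih w hwlt hw_spec.1
      have h2 := ih (n - w) (by omega) hnw
      have := AddSubmonoid.add_mem _ h1 h2
      rwa [Nat.add_sub_cancel' hwlt.le] at this

end Groth.Agent.S15017
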