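import Groth.Statements.S15018
-- import your own Groth.Agent.* helpers here

set_option autoImplicit false
open TFCurv

namespace Groth.Agent.S15018

/-- Let Γ be a numerical semigroup (a submonoid of (ℕ, +) with finite complement), Γ ≠ ℕ, with conductor
c (every n ≥ c lies in Γ, c − 1 does not). Then Γ is symmetric (for x < c, x is a gap exactly when c
− 1 − x ∈ Γ) if and only if there is exactly one gap n of Γ such that Γ ∪ {n} is again stable under
adding elements of Γ, i.e. n + γ ∈ Γ for every nonzero γ ∈ Γ. -/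
theorem result (Γ : AddSubmonoid ℕ) (c : ℕ) (hc : ∀ n : ℕ, c ≤ n → n ∈ Γ) (hc0 : c ≠ 0) (hc1 : c - 1 ∉ Γ) : (∀ x : ℕ, x < c → (x ∉ Γ ↔ c - 1 - x ∈ Γ)) ↔ ∃! n : ℕ, n ∉ Γ ∧ ∀ γ : ℕ, γ ∈ Γ → γ ≠ 0 → n + γ ∈ Γ := by
  classical
  have hPFc : (c - 1) ∉ Γ ∧ ∀ γ : ℕ, γ ∈ Γ → γ ≠ 0 → c - 1 + γ ∈ Γ :=
    ⟨hc1, fun γ _ hγ0 => hc _ (by omega)⟩
  constructor
  · intro hsym
    refine ⟨c - 1, hPFc, ?_⟩
    rintro n ⟨hn, hadd⟩
    have hnc : n < c := by
      by_contra h
      exact hn (hc n (by omega))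
    have h1 : c - 1 - n ∈ Γ := (hsym n hnc).1 hn
    by_contra hne
    have h2 := hadd (c - 1 - n) h1 (by omega)
    have h3 : n + (c - 1 - n) = c - 1 := by omega
    rw [h3] at h2
    exact hc1 h2
  · rintro ⟨n, hPF, huniq⟩
    have hn : c - 1 = n := huniq (c - 1) hPFc
    intro x hx
    constructor
    · intro hxΓ
      set P : ℕ → Prop := fun y => x ≤ y ∧ y ∉ Γ ∧ y - x ∈ Γ with hP
      have hPx : P x := ⟨le_refl x, hxΓ, by simpa using Γ.zero_mem⟩
      set y := Nat.findGreatest P c with hy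
      have hPy : P y := Nat.findGreatest_spec (P := P) (m := x) (by omega) hPx
      have hPFy : y ∉ Γ ∧ ∀ γ : ℕ, γ ∈ Γ → γ ≠ 0 → y + γ ∈ Γ := by
        refine ⟨hPy.2.1, ?_⟩
        intro γ hγ hγ0
        by_contra hyγ
        have hle : y + γ ≤ c := by
          by_contra h
          exact hyγ (hc _ (by omega))
        have hP' : P (y + γ) := by
          refine ⟨by have := hPy.1; omega, hyγ, ?_⟩
          have := Γ.add_mem hPy.2.2 hγ
          have heq : y - x + γ = y + γ - x := by have := hPy.1; omega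
          rwa [heq] at this
        exact Nat.findGreatest_is_greatest (P := P) (k := y + γ) (by omega) hle hP'
      have hyn : y = n := huniq y hPFy
      have : y - x ∈ Γ := hPy.2.2
      rwa [hyn, ← hn] at this
    · intro h hxΓ
      have := Γ.add_mem hxΓ h
      have heq : x + (c - 1 - x) = c - 1 := by omega
      rw [heq] at this
      exact hc1 this

end Groth.Agent.S15018
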