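import Groth.Statements.S15019
import Mathlib.Order.Interval.Finset.Nat
-- import your own Groth.Agent.* helpers here

set_option autoImplicit false
open TFCurv

namespace Groth.Agent.S15019

/-- Let Γ be a numerical semigroup (a submonoid of (ℕ, +) with finite complement), Γ ≠ ℕ, with conductor
c (every n ≥ c lies in Γ, c − 1 does not), let e be its multiplicity (the least nonzero element of
Γ), and let S ⊆ ℕ be a Γ-module in normal form: 0 ∈ S and γ + s ∈ S for all γ ∈ Γ, s ∈ S. Then the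
set of gaps n of S with S ∪ {n} again a Γ-module (n + γ ∈ S for every nonzero γ ∈ Γ) has at most e −
1 elements, and so does the set of nonzero s ∈ S with S ∖ {s} again a Γ-module (s − γ ∉ S for every
nonzero γ ∈ Γ with γ ≤ s). -/
theorem result (Γ : AddSubmonoid ℕ) (c : ℕ) (hc : ∀ n : ℕ, c ≤ n → n ∈ Γ) (hc0 : c ≠ 0) (hc1 : c - 1 ∉ Γ) (e : ℕ) (he : e ∈ Γ) (he0 : e ≠ 0) (hemin : ∀ γ : ℕ, γ ∈ Γ → γ ≠ 0 → e ≤ γ) (S : Set ℕ) (hS0 : (0 : ℕ) ∈ S) (hS : ∀ γ : ℕ, γ ∈ Γ → ∀ s : ℕ, s ∈ S → γ + s ∈ S) : {n : ℕ | n ∉ S ∧ ∀ γ : ℕ, γ ∈ Γ → γ ≠ 0 → n + γ ∈ S}.encard ≤ ((e - 1 : ℕ) : ℕ∞) ∧ {s : ℕ | s ∈ S ∧ s ≠ 0 ∧ ∀ γ : ℕ, γ ∈ Γ → γ ≠ 0 → γ ≤ s → s - γ ∉ S}.encard ≤ ((e - 1 : ℕ) : ℕ∞) := by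
  have hepos : 0 < e := Nat.pos_of_ne_zero he0
  have hmul : ∀ k : ℕ, e * k ∈ Γ := by
    intro k
    have := Γ.nsmul_mem he k
    rwa [smul_eq_mul, mul_comm] at this
  -- difference of two numbers with the same residue is a multiple of e
  have hdiff : ∀ a b : ℕ, a % e = b % e → a ≤ b → b - a = e * ((b - a) / e) := by
    intro a b hab hle
    have h0 : (b - a) % e = 0 := Nat.sub_mod_eq_zero_of_mod_eq hab.symm
    exact (Nat.mul_div_cancel' (Nat.dvd_of_mod_eq_zero h0)).symm
  have htarget : (↑(Finset.Ioo 0 e) : Set ℕ).encard = ((e - 1 : ℕ) : ℕ∞) := by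
    rw [Set.encard_coe_eq_coe_finsetCard, Nat.card_Ioo]
    rfl
  constructor
  · rw [← htarget]
    apply Set.encard_le_encard_of_injOn (f := fun n => n % e)
    · rintro n ⟨hnS, hadd⟩
      simp only [Finset.coe_Ioo, Set.mem_Ioo]
      refine ⟨?_, Nat.mod_lt n hepos⟩
      by_contra h0
      have h0' : n % e = 0 := by omega
      have hn : n = e * (n / e) := (Nat.mul_div_cancel' (Nat.dvd_of_mod_eq_zero h0')).symm
      apply hnS
      have := hS _ (hmul (n / e)) 0 hS0
      rwa [add_zero, ← hn] at this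
    · rintro a ⟨haS, hadda⟩ b ⟨hbS, haddb⟩ hab
      simp only at hab
      by_contra hne
      rcases Nat.lt_or_gt_of_ne hne with hlt | hlt
      · have hd := hdiff a b hab hlt.le
        have hk : e * ((b - a) / e) ≠ 0 := by omega
        have := hadda _ (hmul ((b - a) / e)) hk
        rw [← hd, Nat.add_sub_cancel' hlt.le] at this
        exact hbS this
      · have hd := hdiff b a hab.symm hlt.le
        have hk : e * ((a - b) / e) ≠ 0 := by omega
        have := haddb _ (hmul ((a - b) / e)) hk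
        rw [← hd, Nat.add_sub_cancel' hlt.le] at this
        exact haS this
  · rw [← htarget]
    apply Set.encard_le_encard_of_injOn (f := fun n => n % e)
    · rintro s ⟨hsS, hs0, hrem⟩
      simp only [Finset.coe_Ioo, Set.mem_Ioo]
      refine ⟨?_, Nat.mod_lt s hepos⟩
      by_contra h0
      have h0' : s % e = 0 := by omega
      have hs : s = e * (s / e) := (Nat.mul_div_cancel' (Nat.dvd_of_mod_eq_zero h0')).symm
      have hne : e * (s / e) ≠ 0 := by omega
      have := hrem _ (hmul (s / e)) hne (by omega)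
      rw [← hs, Nat.sub_self] at this
      exact this hS0
    · rintro a ⟨haS, ha0, hrema⟩ b ⟨hbS, hb0, hremb⟩ hab
      simp only at hab
      by_contra hne
      rcases Nat.lt_or_gt_of_ne hne with hlt | hlt
      · have hd := hdiff a b hab hlt.le
        have hk : e * ((b - a) / e) ≠ 0 := by omega
        have := hremb _ (hmul ((b - a) / e)) hk (by omega)
        rw [← hd, Nat.sub_sub_self hlt.le] at this
        exact this haS
      · have hd := hdiff b a hab.symm hlt.le
        have hk : e * ((a - b) / e) ≠ 0 := by omega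
        have := hrema _ (hmul ((a - b) / e)) hk (by omega)
        rw [← hd, Nat.sub_sub_self hlt.le] at this
        exact this hbS

end Groth.Agent.S15019
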