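import Groth.Statements.S15020
-- import your own Groth.Agent.* helpers here

set_option autoImplicit false
open TFCurv

namespace Groth.Agent.S15020

/-- Let Γ be a numerical semigroup (a submonoid of (ℕ, +) with finite complement), Γ ≠ ℕ, with conductor
c (every n ≥ c lies in Γ, c − 1 does not), and let S ⊆ ℕ be a Γ-module in normal form (0 ∈ S and γ +
s ∈ S for all γ ∈ Γ, s ∈ S) with conductor c(S): every n ≥ c(S) lies in S and either c(S) = 0 or
c(S) − 1 ∉ S. Then the number of elements of S smaller than c(S) is at most the number of gaps of Γ. -/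
theorem result (Γ : AddSubmonoid ℕ) (c : ℕ) (hc : ∀ n : ℕ, c ≤ n → n ∈ Γ) (hc0 : c ≠ 0) (hc1 : c - 1 ∉ Γ) (S : Set ℕ) (hS0 : (0 : ℕ) ∈ S) (hS : ∀ γ : ℕ, γ ∈ Γ → ∀ s : ℕ, s ∈ S → γ + s ∈ S) (cS : ℕ) (hcS : ∀ n : ℕ, cS ≤ n → n ∈ S) (hcS1 : cS = 0 ∨ cS - 1 ∉ S) : {s : ℕ | s ∈ S ∧ s < cS}.ncard ≤ (↑Γ : Set ℕ)ᶜ.ncard := by
  have hfin : ((↑Γ : Set ℕ)ᶜ).Finite := by
    apply (Set.finite_lt_nat c).subset
    intro n hn
    simp only [Set.mem_setOf_eq]
    by_contra h
    exact hn (hc n (by omega))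
  rcases hcS1 with h0 | h1
  · subst h0
    have : {s : ℕ | s ∈ S ∧ s < 0} = ∅ := by
      ext s; simp
    rw [this, Set.ncard_empty]
    exact Nat.zero_le _
  · apply Set.ncard_le_ncard_of_injOn (fun s => cS - 1 - s) _ _ hfin
    · rintro s ⟨hsS, hslt⟩
      intro hmem
      have := hS _ hmem s hsS
      have heq : cS - 1 - s + s = cS - 1 := by omega
      rw [heq] at this
      exact h1 this
    · rintro a ⟨_, ha⟩ b ⟨_, hb⟩ hab
      simp only at hab
      omega

end Groth.Agent.S15020
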