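import Groth.Statements.S15162
import Mathlib.Algebra.CharP.Lemmas
import Mathlib.Algebra.CharP.Algebra
import Mathlib.Tactic.LinearCombination
import Mathlib.Tactic.FinCases
import Mathlib.GroupTheory.OrderOfElement
-- import your own Groth.Agent.* helpers here

set_option autoImplicit false
open Matrix
open BddFin

namespace Groth.Agent.S15162

/-- Let Γ be a finite subgroup of GL_2(ℤ) acting on ℤ² by matrix multiplication. If every element of Γ
has a non-zero fixed vector in ℤ², then there is a non-zero vector of ℤ² fixed by all of Γ. -/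
theorem result
    (Γ : Subgroup (Matrix.GeneralLinearGroup (Fin 2) ℤ)) [Finite Γ]
    (h : ∀ γ ∈ Γ, ∃ v : Fin 2 → ℤ, v ≠ 0 ∧ (γ : Matrix (Fin 2) (Fin 2) ℤ) *ᵥ v = v) :
    ∃ v : Fin 2 → ℤ, v ≠ 0 ∧ ∀ γ ∈ Γ, (γ : Matrix (Fin 2) (Fin 2) ℤ) *ᵥ v = v := by
  classical
  -- key lemma: a unipotent-looking element of finite order is the identity
  have key : ∀ γ : Matrix (Fin 2) (Fin 2) ℤ, γ.det = 1 → (∃ v : Fin 2 → ℤ, v ≠ 0 ∧ γ *ᵥ v = v) →
      ∀ n : ℕ, 0 < n → γ ^ n = 1 → γ = 1 := by
    intro γ hdet ⟨v, hv0, hv⟩ n hn hγn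
    set a := γ 0 0
    set b := γ 0 1
    set c := γ 1 0
    set d := γ 1 1
    have hγ : γ = !![a, b; c, d] := Matrix.eta_fin_two γ
    have hdet' : a * d - b * c = 1 := by rw [← hdet, hγ, Matrix.det_fin_two_of]
    have e0 : a * v 0 + b * v 1 = v 0 := by
      have := congrFun hv 0
      rw [hγ] at this
      simpa [Matrix.mulVec, dotProduct, Fin.sum_univ_two] using this
    have e1 : c * v 0 + d * v 1 = v 1 := by
      have := congrFun hv 1
      rw [hγ] at this
      simpa [Matrix.mulVec, dotProduct, Fin.sum_univ_two] using this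
    have htr : a + d = 2 := by
      have h0 : ((a - 1) * (d - 1) - b * c) * v 0 = 0 := by linear_combination (d - 1) * e0 - b * e1
      have h1 : ((a - 1) * (d - 1) - b * c) * v 1 = 0 := by linear_combination (a - 1) * e1 - c * e0
      have hz : (a - 1) * (d - 1) - b * c = 0 := by
        by_contra hne
        apply hv0
        funext i
        fin_cases i
        · exact (mul_eq_zero.1 h0).resolve_left hne
        · exact (mul_eq_zero.1 h1).resolve_left hne
      linear_combination hdet' - hz
    have hNN : (γ - 1) * (γ - 1) = 0 := by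
      rw [hγ]
      ext i j
      fin_cases i <;> fin_cases j <;>
        simp [Matrix.mul_apply, Fin.sum_univ_two, Matrix.one_apply]
      · linear_combination a * htr - hdet'
      · linear_combination b * htr
      · linear_combination c * htr
      · linear_combination d * htr - hdet'
    have hpow : ∀ m : ℕ, (1 + (γ - 1)) ^ m = 1 + m • (γ - 1) := by
      intro m
      induction m with
      | zero => simp
      | succ k ih =>
        rw [pow_succ, ih, add_mul, mul_add, mul_add, one_mul, mul_one, smul_mul_assoc, hNN,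
          smul_zero, add_zero, succ_nsmul]
        simp only [one_mul]
        abel
    have h1 : 1 + n • (γ - 1) = 1 := by
      rw [← hpow n]
      simpa using hγn
    have h2 : n • (γ - 1) = 0 := by simpa using h1
    have h3 : γ - 1 = 0 := by
      ext i j
      have := congrFun (congrFun h2 i) j
      simp at this
      rcases this with h | h
      · omega
      · simpa using h
    exact sub_eq_zero.1 h3
  have hfin : ∀ γ ∈ Γ, ∃ n : ℕ, 0 < n ∧ (γ : Matrix (Fin 2) (Fin 2) ℤ) ^ n = 1 := by
    intro γ hγ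
    let g : Γ := ⟨γ, hγ⟩
    refine ⟨orderOf g, (isOfFinOrder_of_finite g).orderOf_pos, ?_⟩
    have h1 : g ^ orderOf g = 1 := pow_orderOf_eq_one g
    have h2 : (γ ^ orderOf g : Matrix.GeneralLinearGroup (Fin 2) ℤ) = 1 := by
      have := congrArg Subtype.val h1
      simpa [g] using this
    have h3 := congrArg Units.val h2
    simpa [Units.val_pow_eq_pow_val] using h3
  have hone : ∀ γ ∈ Γ, (γ : Matrix (Fin 2) (Fin 2) ℤ).det = 1 → γ = 1 := by
    intro γ hγ hdet
    obtain ⟨n, hn, hpow⟩ := hfin γ hγ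
    have := key _ hdet (h γ hγ) n hn hpow
    ext1
    simpa using this
  have hdet : ∀ γ : Matrix.GeneralLinearGroup (Fin 2) ℤ,
      (γ : Matrix (Fin 2) (Fin 2) ℤ).det = 1 ∨ (γ : Matrix (Fin 2) (Fin 2) ℤ).det = -1 := by
    intro γ
    exact Int.isUnit_iff.1 (Matrix.isUnits_det_units γ)
  by_cases hall : ∀ γ ∈ Γ, (γ : Matrix (Fin 2) (Fin 2) ℤ).det = 1
  · refine ⟨Pi.single 0 1, ?_, ?_⟩
    · intro h0
      have := congrFun h0 0
      simp at this
    · intro γ hγ
      rw [hone γ hγ (hall γ hγ)]
      simp only [Units.val_one, Matrix.one_mulVec]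
  · push_neg at hall
    obtain ⟨r, hr, hrdet⟩ := hall
    have hrdet' : (r : Matrix (Fin 2) (Fin 2) ℤ).det = -1 := (hdet r).resolve_left hrdet
    obtain ⟨v, hv0, hv⟩ := h r hr
    refine ⟨v, hv0, ?_⟩
    intro γ hγ
    rcases hdet γ with hg | hg
    · rw [hone γ hγ hg]
      simp only [Units.val_one, Matrix.one_mulVec]
    · have hm : r⁻¹ * γ ∈ Γ := Γ.mul_mem (Γ.inv_mem hr) hγ
      have hrinv : ((r⁻¹ : Matrix.GeneralLinearGroup (Fin 2) ℤ) : Matrix (Fin 2) (Fin 2) ℤ).det *
          (r : Matrix (Fin 2) (Fin 2) ℤ).det = 1 := by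
        rw [← Matrix.det_mul, ← Units.val_mul, inv_mul_cancel, Units.val_one, Matrix.det_one]
      have hd : ((r⁻¹ * γ : Matrix.GeneralLinearGroup (Fin 2) ℤ) : Matrix (Fin 2) (Fin 2) ℤ).det = 1 := by
        rw [Units.val_mul, Matrix.det_mul, hg]
        rw [hrdet'] at hrinv
        exact hrinv
      have h1 := hone _ hm hd
      have hγr : γ = r := by
        rw [inv_mul_eq_one] at h1
        exact h1.symm
      rw [hγr]
      exact hv

end Groth.Agent.S15162
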