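import Groth.Statements.S15163
import Mathlib.Tactic.LinearCombination
import Mathlib.Tactic.FinCases
import Mathlib.Tactic.Linarith
import Mathlib.LinearAlgebra.Matrix.Trace
import Mathlib.LinearAlgebra.Matrix.Adjugate
import Groth.Agent.S15162
-- import your own Groth.Agent.* helpers here

set_option autoImplicit false
open Matrix
open BddFin

namespace Groth.Agent.S15163

theorem tr_bound (B : Matrix (Fin 2) (Fin 2) ℤ) (hdet : B.det = 1) (n : ℕ) (hn : 0 < n)
    (hBn : B ^ n = 1) : |B.trace| ≤ 2 := by
  by_contra hcon
  have hcon' : 2 < |B.trace| := lt_of_not_ge hcon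
  set t := B.trace with ht
  have hd : B 0 0 * B 1 1 - B 0 1 * B 1 0 = 1 := by rw [← hdet, Matrix.det_fin_two]
  have hCH : B ^ 2 = t • B - 1 := by
    rw [ht, Matrix.trace_fin_two]
    ext i j
    fin_cases i <;> fin_cases j <;>
      simp [sq, Matrix.mul_apply, Fin.sum_univ_two, Matrix.one_apply, -zsmul_eq_mul, Matrix.smul_apply]
    · linear_combination -hd
    · ring
    · ring
    · linear_combination -hd
  have hrec : ∀ k : ℕ, (B ^ (k + 2)).trace = t * (B ^ (k + 1)).trace - (B ^ k).trace := by
    intro k
    have : B ^ (k + 2) = t • B ^ (k + 1) - B ^ k := by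
      rw [pow_add, hCH, mul_sub, mul_smul_comm, mul_one, ← pow_succ]
    rw [this, Matrix.trace_sub, Matrix.trace_smul, smul_eq_mul]
  have key : ∀ k : ℕ, 2 ≤ |(B ^ k).trace| ∧ |(B ^ k).trace| < |(B ^ (k + 1)).trace| := by
    intro k
    induction k with
    | zero =>
      simp only [pow_zero, Matrix.trace_one, Fintype.card_fin, zero_add, pow_one]
      refine ⟨by norm_num, ?_⟩
      rw [← ht]
      norm_num
      linarith
    | succ k ih =>
      obtain ⟨h1, h2⟩ := ih
      refine ⟨by linarith, ?_⟩
      rw [show k + 1 + 1 = k + 2 by ring, hrec k]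
      have h3 := abs_sub_abs_le_abs_sub (t * (B ^ (k + 1)).trace) ((B ^ k).trace)
      rw [abs_mul] at h3
      have h4 : 3 * |(B ^ (k + 1)).trace| ≤ |t| * |(B ^ (k + 1)).trace| :=
        mul_le_mul_of_nonneg_right (by linarith) (abs_nonneg _)
      linarith
  obtain ⟨m, rfl⟩ : ∃ m, n = m + 1 := ⟨n - 1, by omega⟩
  have h5 := (key m).2
  have h6 := (key m).1
  rw [hBn, Matrix.trace_one, Fintype.card_fin] at h5
  norm_num at h5
  linarith

/-- Let Γ be a finite subgroup of GL_2(ℤ) and d > 6 an integer. Suppose some vector w of (ℤ/dℤ)², with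
m·w ≠ 0 for all 0 < m < d, is fixed by the reduction modulo d of every element of Γ. Then some
non-zero vector of ℤ² is fixed by all of Γ. -/
theorem result
    (Γ : Subgroup (Matrix.GeneralLinearGroup (Fin 2) ℤ)) [Finite Γ] (d : ℕ) (hd : 6 < d)
    (w : Fin 2 → ZMod d) (hw : ∀ m : ℕ, 0 < m → m < d → m • w ≠ 0)
    (hfix : ∀ γ ∈ Γ, ((γ : Matrix (Fin 2) (Fin 2) ℤ).map (Int.castRingHom (ZMod d))) *ᵥ w = w) :
    ∃ v : Fin 2 → ℤ, v ≠ 0 ∧ ∀ γ ∈ Γ, (γ : Matrix (Fin 2) (Fin 2) ℤ) *ᵥ v = v := by
  classical
  apply Groth.Agent.S15162.result Γ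
  intro γ hγ
  set A := (γ : Matrix (Fin 2) (Fin 2) ℤ) with hA
  obtain ⟨n, hn, hpow⟩ : ∃ n : ℕ, 0 < n ∧ A ^ n = 1 := by
    let g : Γ := ⟨γ, hγ⟩
    refine ⟨orderOf g, (isOfFinOrder_of_finite g).orderOf_pos, ?_⟩
    have h1 : g ^ orderOf g = 1 := pow_orderOf_eq_one g
    have h2 : (γ ^ orderOf g : Matrix.GeneralLinearGroup (Fin 2) ℤ) = 1 := by
      have := congrArg Subtype.val h1
      simpa [g] using this
    have h3 := congrArg Units.val h2
    simpa [hA, Units.val_pow_eq_pow_val] using h3
  have hdetA : A.det = 1 ∨ A.det = -1 := Int.isUnit_iff.1 (Matrix.isUnits_det_units γ)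
  set a := A 0 0 with ha
  set b := A 0 1 with hb
  set c := A 1 0 with hc
  set e := A 1 1 with he
  have hAe : A = !![a, b; c, e] := Matrix.eta_fin_two A
  have hdet' : A.det = a * e - b * c := by rw [Matrix.det_fin_two]
  have htr : A.trace = a + e := by rw [Matrix.trace_fin_two]
  set D := (a - 1) * (e - 1) - b * c with hD
  by_cases hD0 : D = 0
  · -- a non-zero kernel vector of `A - 1`
    by_cases h1 : b ≠ 0 ∨ a - 1 ≠ 0
    · refine ⟨![b, 1 - a], ?_, ?_⟩
      · intro h0
        rcases h1 with h1 | h1
        · exact h1 (by simpa using congrFun h0 0)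
        · apply h1
          have := congrFun h0 1
          simp at this
          linarith
      · rw [hAe]
        ext i
        fin_cases i
        · simp [Matrix.mulVec, dotProduct, Fin.sum_univ_two]
          ring
        · simp [Matrix.mulVec, dotProduct, Fin.sum_univ_two]
          linear_combination -hD0
    · push_neg at h1
      obtain ⟨hb0, ha1⟩ := h1
      by_cases h2 : c ≠ 0 ∨ e - 1 ≠ 0
      · refine ⟨![e - 1, -c], ?_, ?_⟩
        · intro h0
          rcases h2 with h2 | h2
          · apply h2
            have := congrFun h0 1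
            simp at this
            exact this
          · exact h2 (by simpa using congrFun h0 0)
        · rw [hAe]
          ext i
          fin_cases i
          · simp [Matrix.mulVec, dotProduct, Fin.sum_univ_two]
            linear_combination hD0
          · simp [Matrix.mulVec, dotProduct, Fin.sum_univ_two]
            ring
      · push_neg at h2
        obtain ⟨hc0, he1⟩ := h2
        refine ⟨![1, 0], ?_, ?_⟩
        · intro h0
          have := congrFun h0 0
          simp at this
        · rw [hAe]
          ext i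
          fin_cases i
          · simp [Matrix.mulVec, dotProduct, Fin.sum_univ_two]
            linear_combination ha1
          · simp [Matrix.mulVec, dotProduct, Fin.sum_univ_two]
            exact hc0
  · exfalso
    -- |D| ≤ 4
    have hDb : 0 < |D| ∧ |D| ≤ 4 := by
      refine ⟨abs_pos.2 hD0, ?_⟩
      rcases hdetA with h | h
      · have hb2 := tr_bound A h n hn hpow
        rw [htr] at hb2
        have hDe : D = 2 - (a + e) := by
          rw [hdet'] at h
          linear_combination h
        rw [hDe]
        rw [abs_le] at hb2 ⊢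
        constructor <;> linarith [hb2.1, hb2.2]
      · have hA2det : (A ^ 2).det = 1 := by rw [Matrix.det_pow, h]; norm_num
        have hA2pow : (A ^ 2) ^ n = 1 := by rw [← pow_mul, mul_comm, pow_mul, hpow, one_pow]
        have hb2 := tr_bound (A ^ 2) hA2det n hn hA2pow
        have htr2 : (A ^ 2).trace = (a + e) ^ 2 - 2 * (a * e - b * c) := by
          rw [sq A, hAe, Matrix.trace_fin_two]
          simp [Matrix.mul_apply, Fin.sum_univ_two]
          ring
        rw [htr2] at hb2
        rw [hdet'] at h
        rw [h] at hb2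
        have hsq : (a + e) ^ 2 = 0 := by
          rw [abs_le] at hb2
          nlinarith [sq_nonneg (a + e), hb2.2]
        have hae : a + e = 0 := pow_eq_zero_iff (n := 2) (by norm_num) |>.1 hsq
        have : D = 0 := by linear_combination h - hae
        exact absurd this hD0
    -- D • w = 0
    set f := Int.castRingHom (ZMod d) with hf
    have hNw : ((A - 1).map f) *ᵥ w = 0 := by
      have := hfix γ hγ
      rw [Matrix.map_sub _ (map_sub f) A 1, Matrix.map_one _ (map_zero f) (map_one f),
        Matrix.sub_mulVec, this,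
        Matrix.one_mulVec, sub_self]
    have hdetN : (A - 1).det = D := by
      rw [hAe, hD]
      simp [Matrix.det_fin_two] <;> ring
    have hDw : (f D) • w = 0 := by
      have := congrArg (fun v => ((A - 1).map f).adjugate *ᵥ v) hNw
      simp only [Matrix.mulVec_mulVec, Matrix.adjugate_mul, Matrix.mulVec_zero] at this
      have hdm : ((A - 1).map f).det = f D := by
        rw [← hdetN, RingHom.map_det, RingHom.mapMatrix_apply]
      rw [Matrix.smul_mulVec, Matrix.one_mulVec, hdm] at this
      exact this
    have hfD : f D = (D : ZMod d) := by rw [hf]; simp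
    have hnat : (D.natAbs) • w = 0 := by
      rw [← Nat.cast_smul_eq_nsmul (ZMod d)]
      rw [hfD] at hDw
      rcases Int.natAbs_eq D with h | h
      · rw [h, Int.cast_natCast] at hDw
        exact hDw
      · rw [h, Int.cast_neg, Int.cast_natCast, neg_smul, neg_eq_zero] at hDw
        exact hDw
    have hpos : 0 < D.natAbs := Int.natAbs_pos.2 hD0
    have hlt : D.natAbs < d := by
      have : (D.natAbs : ℤ) ≤ 4 := by rw [Int.natCast_natAbs]; exact hDb.2
      omega
    exact hw D.natAbs hpos hlt hnat

end Groth.Agent.S15163
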