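import Groth.Statements.S15164
import Mathlib.Algebra.CharP.Lemmas
import Mathlib.Algebra.CharP.Algebra
import Mathlib.Tactic.LinearCombination
-- import your own Groth.Agent.* helpers here

set_option autoImplicit false
universe u v
open BddFin

namespace Groth.Agent.S15164

/-- Let K be a field of characteristic p > 2, V a finite-dimensional K-vector space and q a quadratic
form on V that does not represent zero (q x = 0 only for x = 0). Then the group of K-linear
automorphisms of V preserving q has no element of order p: if g preserves q and g ^ p = 1 then g =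
1. (Non-degeneracy of q, also assumed in the published statement, follows from anisotropy since 2 is
invertible, so it is not repeated here.) -/
theorem result
    (K : Type u) [Field K] (p : ℕ) [Fact p.Prime] [CharP K p] (hp : p ≠ 2)
    (V : Type v) [AddCommGroup V] [Module K V] [FiniteDimensional K V]
    (q : QuadraticForm K V) (hq : q.Anisotropic)
    (g : V ≃ₗ[K] V) (hg : ∀ x : V, q (g x) = q x) (hgp : g ^ p = 1) : g = 1 := by
  classical
  by_cases hV : Subsingleton V
  · ext v
    exact Subsingleton.elim _ _
  rw [not_subsingleton_iff_nontrivial] at hV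
  have : CharP (Module.End K V) p :=
    charP_of_injective_algebraMap (algebraMap K (Module.End K V)).injective p
  have hpp : p.Prime := Fact.out
  have h2 : (2 : K) ≠ 0 := by
    intro h
    have : (p : ℕ) ∣ 2 := (CharP.cast_eq_zero_iff K p 2).1 (by exact_mod_cast h)
    exact hp ((Nat.prime_dvd_prime_iff_eq hpp Nat.prime_two).1 this)
  set G : Module.End K V := g.toLinearMap with hG
  have hGp : G ^ p = 1 := by
    ext v
    rw [Module.End.pow_apply, Module.End.one_apply]
    have h1 : (g ^ p) v = v := by rw [hgp]; rfl
    rw [LinearEquiv.coe_pow] at h1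
    exact h1
  set N : Module.End K V := G - 1 with hN
  have hNp : N ^ p = 0 := by
    rw [hN, sub_pow_char_of_commute p (Commute.one_right G), hGp, one_pow, sub_self]
  by_contra hg1
  have hN0 : N ≠ 0 := by
    intro h
    apply hg1
    ext v
    have : N v = 0 := by rw [h]; rfl
    rw [hN, LinearMap.sub_apply, Module.End.one_apply, sub_eq_zero] at this
    exact this
  have hex : ∃ k, N ^ (k + 1) = 0 := ⟨p - 1, by rw [Nat.sub_add_cancel hpp.one_lt.le]; exact hNp⟩
  set k := Nat.find hex with hk
  have hk0 : k ≠ 0 := by
    intro h
    have := Nat.find_spec hex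
    rw [← hk, h, zero_add, pow_one] at this
    exact hN0 this
  have hNk : N ^ k ≠ 0 := by
    have := Nat.find_min hex (m := k - 1) (by omega)
    rwa [Nat.sub_add_cancel (Nat.pos_of_ne_zero hk0)] at this
  have hNk1 : N ^ (k + 1) = 0 := Nat.find_spec hex
  obtain ⟨z, hz⟩ : ∃ z, (N ^ k) z ≠ 0 := by
    by_contra h
    push_neg at h
    exact hNk (LinearMap.ext h)
  set y := (N ^ (k - 1)) z with hy
  set u := N y with hu
  have hu' : u = (N ^ k) z := by
    rw [hu, hy, ← Module.End.mul_apply, ← pow_succ', Nat.sub_add_cancel (Nat.pos_of_ne_zero hk0)]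
  have hNu : N u = 0 := by
    rw [hu', ← Module.End.mul_apply, ← pow_succ', hNk1]
    rfl
  have hGv : ∀ v, g v = v + N v := by
    intro v
    rw [hN, LinearMap.sub_apply, Module.End.one_apply]
    simp [hG]
  have hgy : g y = y + u := hGv y
  have hgu : g u = u := by rw [hGv u, hNu, add_zero]
  have hggy : g (g y) = y + u + u := by rw [hgy, map_add, hgy, hgu]
  have e1 : q (y + u) = q y := by rw [← hgy, hg]
  have e2 : q (y + u + u) = q y := by rw [← hggy, hg, hg]
  rw [QuadraticMap.map_add q (y + u) u, e1, QuadraticMap.polar_add_left] at e2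
  rw [QuadraticMap.map_add q y u] at e1
  have hpself : QuadraticMap.polar q u u = 2 * q u := by
    rw [QuadraticMap.polar_self, two_smul, two_mul]
  rw [hpself] at e2
  have hqu2 : 2 * q u = 0 := by linear_combination e2 - e1
  have hqu : q u = 0 := by
    rcases mul_eq_zero.1 hqu2 with h | h
    · exact absurd h h2
    · exact h
  have := hq u hqu
  rw [hu'] at this
  exact hz this

end Groth.Agent.S15164
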