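import Groth.Statements.S15165
import Mathlib.Tactic.LinearCombination
import Mathlib.Tactic.Abel
import Mathlib.Tactic.Ring
import Mathlib.Algebra.Polynomial.AlgebraMap
-- import your own Groth.Agent.* helpers here

set_option autoImplicit false
universe u v
open Polynomial
open BddFin

namespace Groth.Agent.S15165

/-- Let K be a field of characteristic different from 2 such that K contains all roots of unity (for
every n ≥ 1 the polynomial X^n − 1 splits into linear factors over K), V a finite-dimensional
K-vector space and q a quadratic form on V that does not represent zero. If a K-linear automorphism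
g of V preserves q and has finite order (g ^ d = 1 for some d ≥ 1), then g ^ 2 = 1. (The published
statement also covers perfect fields of characteristic 2; this row is the case of characteristic ≠
2.) -/
theorem result
    (K : Type u) [Field K] (hK : ∀ n : ℕ, 0 < n → (X ^ n - 1 : K[X]).Splits) (h2 : (2 : K) ≠ 0)
    (V : Type v) [AddCommGroup V] [Module K V] [FiniteDimensional K V]
    (q : QuadraticForm K V) (hq : q.Anisotropic)
    (g : V ≃ₗ[K] V) (hg : ∀ x : V, q (g x) = q x) (d : ℕ) (hd : 0 < d) (hgd : g ^ d = 1) :
    g ^ 2 = 1 := by
  classical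
  set T : Module.End K V := g.toLinearMap with hTdef
  have hTpow : ∀ (n : ℕ) (x : V), (T ^ n) x = (g ^ n) x := by
    intro n x
    rw [Module.End.pow_apply, LinearEquiv.pow_apply]
    rfl
  have hT : T ^ d = 1 := by
    ext x
    rw [hTpow, hgd]
    rfl
  have hqT : ∀ x, q (T x) = q x := hg
  -- eigenvalues satisfy ζ ^ 2 = 1
  have heig : ∀ (ζ : K) (v : V), T v = ζ • v → v ≠ 0 → ζ * ζ = 1 := by
    intro ζ v hv hv0
    have h1 := hqT v
    rw [hv, QuadraticMap.map_smul, smul_eq_mul] at h1
    have hqv : q v ≠ 0 := fun h => hv0 (hq v h)
    have : (ζ * ζ - 1) * q v = 0 := by rw [sub_mul, h1, one_mul, sub_self]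
    exact sub_eq_zero.1 ((mul_eq_zero.1 this).resolve_right hqv)
  have hsplit := hK d hd
  have hmonic : (X ^ d - 1 : K[X]).Monic := by
    have := Polynomial.monic_X_pow_sub_C (1 : K) (n := d) (by omega)
    simpa using this
  set s := (X ^ d - 1 : K[X]).roots with hs_def
  have hP : (X ^ d - 1 : K[X]) = (s.map (fun a => X - C a)).prod :=
    hsplit.eq_prod_roots_of_monic hmonic
  let p : K → Prop := fun ζ => ζ * ζ = 1
  set R := ((s.filter p).map (fun a => X - C a)).prod with hR
  set Q := ((s.filter (fun ζ => ¬ p ζ)).map (fun a => X - C a)).prod with hQ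
  have hPQR : (X ^ d - 1 : K[X]) = Q * R := by
    rw [hP, hR, hQ, ← Multiset.prod_add, ← Multiset.map_add, add_comm, Multiset.filter_add_not]
  have haeval : Polynomial.aeval T (X ^ d - 1 : K[X]) = 0 := by
    simp [hT]
  have hQinj : Function.Injective (Polynomial.aeval T Q) := by
    have key : ∀ t : Multiset K, (∀ ζ ∈ t, ¬ p ζ) →
        Function.Injective (Polynomial.aeval T ((t.map (fun a => X - C a)).prod)) := by
      intro t
      induction t using Multiset.induction_on with
      | empty =>
        intro _
        simp only [Multiset.map_zero, Multiset.prod_zero, map_one]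
        exact Function.injective_id
      | cons a t ih =>
        intro ht
        rw [Multiset.map_cons, Multiset.prod_cons, map_mul, Module.End.coe_mul]
        refine Function.Injective.comp ?_ (ih (fun ζ hζ => ht ζ (Multiset.mem_cons_of_mem hζ)))
        have hpa : ¬ p a := ht a (Multiset.mem_cons_self a t)
        rw [injective_iff_map_eq_zero]
        intro v hv
        by_contra hv0
        apply hpa
        apply heig a v _ hv0
        simp only [map_sub, Polynomial.aeval_X, Polynomial.aeval_C, LinearMap.sub_apply,
          Module.algebraMap_end_apply] at hv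
        exact sub_eq_zero.1 hv
    exact key _ (fun ζ hζ => (Multiset.mem_filter.1 hζ).2)
  have hR0 : Polynomial.aeval T R = 0 := by
    have h := haeval
    rw [hPQR, map_mul] at h
    ext v
    apply hQinj
    have := congrArg (fun f : Module.End K V => f v) h
    simp only [Module.End.mul_apply, LinearMap.zero_apply] at this
    rw [this, LinearMap.zero_apply, map_zero]
  have hdvd : R ∣ (X ^ 2 - 1 : K[X]) ^ (Multiset.card (s.filter p)) := by
    have key : ∀ t : Multiset K, (∀ ζ ∈ t, p ζ) →
        (t.map (fun a => X - C a)).prod ∣ (X ^ 2 - 1 : K[X]) ^ (Multiset.card t) := by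
      intro t
      induction t using Multiset.induction_on with
      | empty => intro _; simp
      | cons a t ih =>
        intro ht
        rw [Multiset.map_cons, Multiset.prod_cons, Multiset.card_cons, pow_succ']
        apply mul_dvd_mul
        · have ha : a * a = 1 := ht a (Multiset.mem_cons_self a t)
          refine ⟨X + C a, ?_⟩
          have : (X - C a) * (X + C a) = X ^ 2 - C (a * a) := by
            rw [C_mul]; ring
          rw [this, ha, C_1]
        · exact ih (fun ζ hζ => ht ζ (Multiset.mem_cons_of_mem hζ))
    exact key _ (fun ζ hζ => (Multiset.mem_filter.1 hζ).2)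
  obtain ⟨W, hW⟩ := hdvd
  set m := Multiset.card (s.filter p)
  set N : Module.End K V := T ^ 2 - 1 with hNdef
  have hNm : N ^ m = 0 := by
    have : Polynomial.aeval T ((X ^ 2 - 1 : K[X]) ^ m) = 0 := by
      rw [hW, map_mul, hR0, zero_mul]
    simpa [hNdef] using this
  have hU : ∀ x, q ((T ^ 2) x) = q x := fun x => by
    rw [sq, Module.End.mul_apply, hqT, hqT]
  have key : ∀ v, N (N v) = 0 → N v = 0 := by
    intro v hv
    set w := N v with hw
    have hUw : (T ^ 2) w = w := by
      have : N w = 0 := hv
      rw [hNdef, LinearMap.sub_apply, Module.End.one_apply, sub_eq_zero] at this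
      exact this
    have hUv : (T ^ 2) v = v + w := by
      rw [hw, hNdef, LinearMap.sub_apply, Module.End.one_apply]
      abel
    have hUUv : (T ^ 2) ((T ^ 2) v) = v + (2 : K) • w := by
      rw [hUv, map_add, hUv, hUw, two_smul]
      abel
    have e1 : q (v + w) = q v := by rw [← hUv, hU]
    have e2 : q (v + (2 : K) • w) = q v := by rw [← hUUv, hU, hU]
    rw [QuadraticMap.map_add (⇑q) v w] at e1
    rw [QuadraticMap.map_add (⇑q) v ((2 : K) • w)] at e2
    rw [QuadraticMap.map_smul, QuadraticMap.polar_smul_right] at e2
    simp only [smul_eq_mul] at e2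
    have : (2 : K) * q w = 0 := by linear_combination e2 - 2 * e1
    have hqw : q w = 0 := (mul_eq_zero.1 this).resolve_left h2
    exact hq w hqw
  have hNzero : ∀ j : ℕ, N ^ (j + 1) = 0 → N = 0 := by
    intro j
    induction j with
    | zero => intro h; simpa using h
    | succ j ih =>
      intro h
      apply ih
      ext x
      have h' : N (N ((N ^ j) x)) = 0 := by
        have h'' : (N ^ (j + 1 + 1)) x = 0 := by rw [h]; rfl
        rw [pow_succ', pow_succ', Module.End.mul_apply, Module.End.mul_apply] at h''
        exact h''
      have := key ((N ^ j) x) h'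
      rw [pow_succ', Module.End.mul_apply, this]
      rfl
  have hN0 : N = 0 := hNzero m (by rw [pow_succ, hNm, zero_mul])
  ext x
  have hx : (T ^ 2) x = x := by
    have := congrArg (fun f : Module.End K V => f x) hN0
    simp only [hNdef, LinearMap.sub_apply, Module.End.one_apply, LinearMap.zero_apply,
      sub_eq_zero] at this
    exact this
  rw [← hTpow 2 x, hx]
  rfl

end Groth.Agent.S15165
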