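import Groth.Statements.S15166
import Groth.Agent.S15165
import Mathlib.LinearAlgebra.FiniteDimensional.Lemmas
import Mathlib.SetTheory.Cardinal.Finite
import Mathlib.GroupTheory.OrderOfElement
-- import your own Groth.Agent.* helpers here

set_option autoImplicit false
universe u v
open Polynomial
open BddFin

namespace Groth.Agent.S15166

theorem sq_one {K : Type u} [Field K] (hK : ∀ n : ℕ, 0 < n → (X ^ n - 1 : K[X]).Splits)
    (h2 : (2 : K) ≠ 0) {V : Type v} [AddCommGroup V] [Module K V] [FiniteDimensional K V]
    (q : QuadraticForm K V) (hq : q.Anisotropic)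
    (G : Subgroup (V ≃ₗ[K] V)) [Finite G] (hG : ∀ g ∈ G, ∀ x : V, q (g x) = q x)
    (g : V ≃ₗ[K] V) (hg : g ∈ G) : g * g = 1 := by
  let g' : G := ⟨g, hg⟩
  have h1 : g' ^ orderOf g' = 1 := pow_orderOf_eq_one g'
  have h2' : g ^ orderOf g' = 1 := by
    have := congrArg Subtype.val h1
    simpa [g'] using this
  have := Groth.Agent.S15165.result K hK h2 V q hq g (hG g hg) (orderOf g')
    (isOfFinOrder_of_finite g').orderOf_pos h2'
  rw [← sq]
  exact this

theorem comm_of {K : Type u} [Field K] (hK : ∀ n : ℕ, 0 < n → (X ^ n - 1 : K[X]).Splits)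
    (h2 : (2 : K) ≠ 0) {V : Type v} [AddCommGroup V] [Module K V] [FiniteDimensional K V]
    (q : QuadraticForm K V) (hq : q.Anisotropic)
    (G : Subgroup (V ≃ₗ[K] V)) [Finite G] (hG : ∀ g ∈ G, ∀ x : V, q (g x) = q x) :
    ∀ g ∈ G, ∀ h ∈ G, g * h = h * g := by
  intro g hg h hh
  have e1 := sq_one hK h2 q hq G hG g hg
  have e2 := sq_one hK h2 q hq G hG h hh
  have e3 := sq_one hK h2 q hq G hG (g * h) (G.mul_mem hg hh)
  have ig : g⁻¹ = g := inv_eq_of_mul_eq_one_right e1
  have ih : h⁻¹ = h := inv_eq_of_mul_eq_one_right e2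
  have igh : (g * h)⁻¹ = g * h := inv_eq_of_mul_eq_one_right e3
  rw [mul_inv_rev, ig, ih] at igh
  exact igh.symm

theorem bound {K : Type u} [Field K] (hK : ∀ n : ℕ, 0 < n → (X ^ n - 1 : K[X]).Splits)
    (h2 : (2 : K) ≠ 0) : ∀ (n : ℕ) (V : Type v) [AddCommGroup V] [Module K V]
    [FiniteDimensional K V] (q : QuadraticForm K V), q.Anisotropic → Module.finrank K V = n →
    ∀ (G : Subgroup (V ≃ₗ[K] V)) [Finite G], (∀ g ∈ G, ∀ x : V, q (g x) = q x) →
    Nat.card G ≤ 2 ^ n := by
  classical
  intro n
  induction n using Nat.strong_induction_on with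
  | _ n ih =>
  intro V _ _ _ q hq hn G _ hG
  have hsq := sq_one hK h2 q hq G hG
  have hcomm := comm_of hK h2 q hq G hG
  have hsqx : ∀ g ∈ G, ∀ x : V, g (g x) = x := fun g hg x => by
    have := congrArg (fun f : V ≃ₗ[K] V => f x) (hsq g hg)
    simpa using this
  by_cases hcase : ∃ g₀ ∈ G, (∃ x₀ : V, g₀ x₀ ≠ x₀) ∧ (∃ y₀ : V, g₀ y₀ ≠ -y₀)
  · obtain ⟨g₀, hg₀, ⟨x₀, hx₀⟩, ⟨y₀, hy₀⟩⟩ := hcase
    let P : Submodule K V := LinearMap.ker ((g₀ : V →ₗ[K] V) - LinearMap.id)
    let M : Submodule K V := LinearMap.ker ((g₀ : V →ₗ[K] V) + LinearMap.id)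
    have memP : ∀ v, v ∈ P ↔ g₀ v = v := fun v => by
      simp [P, sub_eq_zero]
    have memM : ∀ v, v ∈ M ↔ g₀ v = -v := fun v => by
      simp [M, add_eq_zero_iff_eq_neg]
    have hcompl : IsCompl P M := by
      constructor
      · rw [Submodule.disjoint_def]
        intro v hvP hvM
        rw [memP] at hvP
        rw [memM, hvP] at hvM
        have : (2 : K) • v = 0 := by
          rw [two_smul]
          nth_rewrite 1 [hvM]
          exact neg_add_cancel v
        exact (smul_eq_zero.1 this).resolve_left h2
      · rw [codisjoint_iff, eq_top_iff]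
        intro v _
        have hv : v = (2 : K)⁻¹ • (v + g₀ v) + (2 : K)⁻¹ • (v - g₀ v) := by
          rw [← smul_add, add_add_sub_cancel, ← two_smul K v, smul_smul, inv_mul_cancel₀ h2,
            one_smul]
        rw [hv]
        refine Submodule.add_mem_sup ?_ ?_
        · rw [memP, map_smul, map_add, hsqx g₀ hg₀, add_comm]
        · rw [memM, map_smul, map_sub, hsqx g₀ hg₀, ← smul_neg, neg_sub]
    have hPne : P ≠ ⊥ := by
      intro hP
      apply hy₀
      have hmem : y₀ + g₀ y₀ ∈ P := by rw [memP, map_add, hsqx g₀ hg₀, add_comm]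
      rw [hP, Submodule.mem_bot] at hmem
      rw [eq_neg_iff_add_eq_zero, add_comm]
      exact hmem
    have hMne : M ≠ ⊥ := by
      intro hM
      apply hx₀
      have hmem : x₀ - g₀ x₀ ∈ M := by rw [memM, map_sub, hsqx g₀ hg₀, neg_sub]
      rw [hM, Submodule.mem_bot, sub_eq_zero] at hmem
      exact hmem.symm
    have hdim := Submodule.finrank_add_eq_of_isCompl hcompl
    have hP1 : 0 < Module.finrank K P := by
      rw [Nat.pos_iff_ne_zero, Ne, Submodule.finrank_eq_zero]; exact hPne
    have hM1 : 0 < Module.finrank K M := by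
      rw [Nat.pos_iff_ne_zero, Ne, Submodule.finrank_eq_zero]; exact hMne
    -- restrictions
    have hmapP : ∀ h ∈ G, P.map (h : V →ₗ[K] V) = P := by
      intro h hh
      apply le_antisymm
      · rintro _ ⟨v, hv, rfl⟩
        rw [SetLike.mem_coe, memP] at hv
        show h v ∈ P
        rw [memP]
        have := congrArg (fun f : V ≃ₗ[K] V => f v) (hcomm g₀ hg₀ h hh)
        change g₀ (h v) = h (g₀ v) at this
        rw [this, hv]
      · intro v hv
        refine ⟨h v, ?_, hsqx h hh v⟩
        rw [SetLike.mem_coe, memP]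
        rw [memP] at hv
        have := congrArg (fun f : V ≃ₗ[K] V => f v) (hcomm g₀ hg₀ h hh)
        change g₀ (h v) = h (g₀ v) at this
        rw [this, hv]
    have hmapM : ∀ h ∈ G, M.map (h : V →ₗ[K] V) = M := by
      intro h hh
      apply le_antisymm
      · rintro _ ⟨v, hv, rfl⟩
        rw [SetLike.mem_coe, memM] at hv
        show h v ∈ M
        rw [memM]
        have := congrArg (fun f : V ≃ₗ[K] V => f v) (hcomm g₀ hg₀ h hh)
        change g₀ (h v) = h (g₀ v) at this
        rw [this, hv, map_neg]
      · intro v hv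
        refine ⟨h v, ?_, hsqx h hh v⟩
        rw [SetLike.mem_coe, memM]
        rw [memM] at hv
        have := congrArg (fun f : V ≃ₗ[K] V => f v) (hcomm g₀ hg₀ h hh)
        change g₀ (h v) = h (g₀ v) at this
        rw [this, hv, map_neg]
    let ρP : G →* (P ≃ₗ[K] P) :=
      { toFun := fun h => (h : V ≃ₗ[K] V).ofSubmodules P P (hmapP h h.2)
        map_one' := by ext x; rfl
        map_mul' := by intro a b; ext x; rfl }
    let ρM : G →* (M ≃ₗ[K] M) :=
      { toFun := fun h => (h : V ≃ₗ[K] V).ofSubmodules M M (hmapM h h.2)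
        map_one' := by ext x; rfl
        map_mul' := by intro a b; ext x; rfl }
    haveI : Finite ρP.range := Finite.of_surjective ρP.rangeRestrict ρP.rangeRestrict_surjective
    haveI : Finite ρM.range := Finite.of_surjective ρM.rangeRestrict ρM.rangeRestrict_surjective
    have hbP : Nat.card ρP.range ≤ 2 ^ Module.finrank K P := by
      refine ih _ (by omega) P (q.comp P.subtype) ?_ rfl ρP.range ?_
      · intro x hx
        have : (x : V) = 0 := hq _ hx
        exact Subtype.ext this
      · rintro _ ⟨h, rfl⟩ x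
        show q ((h : V ≃ₗ[K] V) (x : V)) = q x
        exact hG h h.2 x
    have hbM : Nat.card ρM.range ≤ 2 ^ Module.finrank K M := by
      refine ih _ (by omega) M (q.comp M.subtype) ?_ rfl ρM.range ?_
      · intro x hx
        have : (x : V) = 0 := hq _ hx
        exact Subtype.ext this
      · rintro _ ⟨h, rfl⟩ x
        show q ((h : V ≃ₗ[K] V) (x : V)) = q x
        exact hG h h.2 x
    have hinj : Function.Injective (fun h : G => (ρP.rangeRestrict h, ρM.rangeRestrict h)) := by
      intro a b hab
      simp only [Prod.mk.injEq] at hab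
      obtain ⟨h1, h2'⟩ := hab
      apply Subtype.ext
      apply LinearEquiv.ext
      intro v
      have hv : v ∈ P ⊔ M := by rw [hcompl.codisjoint.eq_top]; exact Submodule.mem_top
      obtain ⟨p, hp, m, hm, rfl⟩ := Submodule.mem_sup.1 hv
      have e1 := congrArg (fun f : ρP.range => ((f : P ≃ₗ[K] P) ⟨p, hp⟩ : V)) h1
      have e2 := congrArg (fun f : ρM.range => ((f : M ≃ₗ[K] M) ⟨m, hm⟩ : V)) h2'
      simp only [MonoidHom.coe_rangeRestrict] at e1 e2
      rw [map_add, map_add]
      exact congrArg₂ (· + ·) e1 e2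
    calc Nat.card G ≤ Nat.card (ρP.range × ρM.range) := Nat.card_le_card_of_injective _ hinj
      _ = Nat.card ρP.range * Nat.card ρM.range := Nat.card_prod _ _
      _ ≤ 2 ^ Module.finrank K P * 2 ^ Module.finrank K M := Nat.mul_le_mul hbP hbM
      _ = 2 ^ n := by rw [← pow_add, hdim, hn]
  · push_neg at hcase
    rcases Nat.eq_zero_or_pos n with h0 | hpos
    · have hV : ∀ x : V, x = 0 := (finrank_zero_iff_forall_zero).1 (hn.trans h0)
      rw [h0, pow_zero]
      apply Finite.card_le_one_iff_subsingleton.2
      refine ⟨fun a b => Subtype.ext (LinearEquiv.ext fun x => ?_)⟩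
      rw [hV x, map_zero, map_zero]
    · have h2le : Nat.card G ≤ 2 := by
        let f : G → Bool := fun h => decide (∀ x : V, (h : V ≃ₗ[K] V) x = x)
        have hf : Function.Injective f := by
          intro a b hab
          apply Subtype.ext
          apply LinearEquiv.ext
          intro v
          by_cases ha : ∀ x : V, (a : V ≃ₗ[K] V) x = x
          · have hb : ∀ x : V, (b : V ≃ₗ[K] V) x = x := by
              have : f a = true := by simp [f, ha]
              rw [hab] at this
              simpa [f] using this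
            rw [ha v, hb v]
          · have hb : ¬ ∀ x : V, (b : V ≃ₗ[K] V) x = x := by
              have : f a = false := by simp [f, ha]
              rw [hab] at this
              simpa [f] using this
            push_neg at ha hb
            obtain ⟨xa, hxa⟩ := ha
            obtain ⟨xb, hxb⟩ := hb
            rw [hcase a a.2 ⟨xa, hxa⟩ v, hcase b b.2 ⟨xb, hxb⟩ v]
        have := Nat.card_le_card_of_injective f hf
        simpa using this
      calc Nat.card G ≤ 2 := h2le
        _ = 2 ^ 1 := by norm_num
        _ ≤ 2 ^ n := Nat.pow_le_pow_right (by norm_num) hpos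

/-- Let K be a field of characteristic different from 2 such that K contains all roots of unity (for
every n ≥ 1 the polynomial X^n − 1 splits into linear factors over K), V a finite-dimensional
K-vector space and q a quadratic form on V that does not represent zero. Then every finite subgroup
of the group of K-linear automorphisms of V preserving q is abelian and has order at most 2 ^ (dim
V). (The published statement also covers perfect fields of characteristic 2; this row is the case of
characteristic ≠ 2.) -/
theorem result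
    (K : Type u) [Field K] (hK : ∀ n : ℕ, 0 < n → (X ^ n - 1 : K[X]).Splits) (h2 : (2 : K) ≠ 0)
    (V : Type v) [AddCommGroup V] [Module K V] [FiniteDimensional K V]
    (q : QuadraticForm K V) (hq : q.Anisotropic)
    (G : Subgroup (V ≃ₗ[K] V)) [Finite G] (hG : ∀ g ∈ G, ∀ x : V, q (g x) = q x) :
    (∀ g ∈ G, ∀ h ∈ G, g * h = h * g) ∧ Nat.card G ≤ 2 ^ Module.finrank K V := by
  exact ⟨comm_of hK h2 q hq G hG, bound hK h2 _ V q hq rfl G hG⟩

end Groth.Agent.S15166
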