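import Groth.Statements.S1517
-- import your own Groth.Agent.* helpers here

set_option autoImplicit false
universe u
open Brauer

namespace Groth.Agent.S1517

/-- Let A be a ring with no nontrivial two-sided ideals and M a nonzero right ideal, viewed as a right
A-module with endomorphism ring A'. Then every A'-linear endomorphism of M is right multiplication
by exactly one element of A; that is, the natural map from A to the bicommutant of M is a bijection. -/
theorem result (A : Type u) [Ring A] [IsSimpleRing A]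
    (M : Submodule Aᵐᵒᵖ A) (hM : M ≠ ⊥)
    (g : Module.End (Module.End Aᵐᵒᵖ M) M) :
    ∃! a : A, ∀ m : M, (g m : A) = (m : A) * a := by
  classical
  have mulmem : ∀ (n : A) (x : A), n ∈ M → n * x ∈ M := by
    intro n x hn
    have := M.smul_mem (MulOpposite.op x) hn
    rwa [op_smul_eq_mul] at this
  -- a set closed like a two-sided ideal and containing `M` contains `1`
  have key : ∀ (S : Set A), 0 ∈ S → (∀ {x y}, x ∈ S → y ∈ S → x + y ∈ S) →
      (∀ {x}, x ∈ S → -x ∈ S) → (∀ {x y}, y ∈ S → x * y ∈ S) →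
      (∀ {x y}, x ∈ S → x * y ∈ S) → (∀ m ∈ M, m ∈ S) → (1 : A) ∈ S := by
    intro S h0 hadd hneg hl hr hM'
    let J : TwoSidedIdeal A := TwoSidedIdeal.mk' S h0 hadd hneg hl hr
    rcases eq_bot_or_eq_top J with h | h
    · exfalso
      obtain ⟨m, hm, hm0⟩ := Submodule.exists_mem_ne_zero_of_ne_bot hM
      have : m ∈ J := (TwoSidedIdeal.mem_mk' S h0 hadd hneg hl hr m).mpr (hM' m hm)
      rw [h] at this
      exact hm0 ((TwoSidedIdeal.mem_bot A).mp this)
    · have : (1 : A) ∈ J := by rw [h]; exact TwoSidedIdeal.mem_top A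
      exact (TwoSidedIdeal.mem_mk' S h0 hadd hneg hl hr 1).mp this
  let lam : M → Module.End Aᵐᵒᵖ M := fun n =>
    { toFun := fun m => ⟨(n : A) * m, mulmem n m n.2⟩
      map_add' := by intro x y; apply Subtype.ext; simp [mul_add]
      map_smul' := by
        intro r m; apply Subtype.ext
        simp [MulOpposite.smul_eq_mul_unop, mul_assoc] }
  have hlam : ∀ (n m : M), g (lam n m) = lam n (g m) := by
    intro n m
    have := g.map_smul (lam n) m
    simpa only [Module.End.smul_def] using this
  let S : Set A := {y | ∀ z : A, ∃ c : A, ∀ n : M,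
    (g ⟨(n : A) * (y * z), mulmem n (y * z) n.2⟩ : A) = (n : A) * c}
  have h1 : (1 : A) ∈ S := by
    refine key S ?_ ?_ ?_ ?_ ?_ ?_
    · intro z; refine ⟨0, fun n => ?_⟩
      have : (⟨(n : A) * (0 * z), mulmem n (0 * z) n.2⟩ : M) = 0 := by
        apply Subtype.ext; simp
      rw [this, map_zero]; simp
    · intro x y hx hy z
      obtain ⟨c1, hc1⟩ := hx z
      obtain ⟨c2, hc2⟩ := hy z
      refine ⟨c1 + c2, fun n => ?_⟩
      have : (⟨(n : A) * ((x + y) * z), mulmem n ((x + y) * z) n.2⟩ : M) =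
          ⟨(n : A) * (x * z), mulmem n (x * z) n.2⟩ + ⟨(n : A) * (y * z), mulmem n (y * z) n.2⟩ := by
        apply Subtype.ext; simp [add_mul, mul_add]
      rw [this, map_add, Submodule.coe_add, hc1, hc2, mul_add]
    · intro x hx z
      obtain ⟨c1, hc1⟩ := hx z
      refine ⟨-c1, fun n => ?_⟩
      have : (⟨(n : A) * (-x * z), mulmem n (-x * z) n.2⟩ : M) =
          -⟨(n : A) * (x * z), mulmem n (x * z) n.2⟩ := by
        apply Subtype.ext; simp
      rw [this, map_neg, Submodule.coe_neg, hc1, mul_neg]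
    · intro x y hy z
      obtain ⟨c, hc⟩ := hy z
      refine ⟨x * c, fun n => ?_⟩
      have : (⟨(n : A) * (x * y * z), mulmem n (x * y * z) n.2⟩ : M) =
          ⟨((⟨(n : A) * x, mulmem n x n.2⟩ : M) : A) * (y * z),
            mulmem _ (y * z) (mulmem n x n.2)⟩ := by
        apply Subtype.ext; simp [mul_assoc]
      rw [this, hc]; simp [mul_assoc]
    · intro x y hx z
      obtain ⟨c, hc⟩ := hx (y * z)
      refine ⟨c, fun n => ?_⟩
      have : (⟨(n : A) * (x * y * z), mulmem n (x * y * z) n.2⟩ : M) =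
          ⟨(n : A) * (x * (y * z)), mulmem n (x * (y * z)) n.2⟩ := by
        apply Subtype.ext; simp [mul_assoc]
      rw [this, hc]
    · intro m hm z
      refine ⟨(g ⟨m * z, mulmem m z hm⟩ : A), fun n => ?_⟩
      have : (⟨(n : A) * (m * z), mulmem n (m * z) n.2⟩ : M) = lam n ⟨m * z, mulmem m z hm⟩ := rfl
      rw [this, hlam]
      rfl
  obtain ⟨c, hc⟩ := h1 1
  have hgc : ∀ m : M, (g m : A) = (m : A) * c := by
    intro m
    have : (⟨(m : A) * (1 * 1), mulmem m (1 * 1) m.2⟩ : M) = m := by
      apply Subtype.ext; simp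
    rw [← hc m, this]
  refine ⟨c, hgc, fun a' ha' => ?_⟩
  have hz : ∀ m ∈ M, m * (a' - c) = 0 := by
    intro m hm
    have e1 := ha' ⟨m, hm⟩
    have e2 := hgc ⟨m, hm⟩
    rw [mul_sub, ← e1, ← e2, sub_self]
  let S' : Set A := {y | ∀ z : A, y * z * (a' - c) = 0}
  have h1' : (1 : A) ∈ S' := by
    refine key S' ?_ ?_ ?_ ?_ ?_ ?_
    · intro z; simp
    · intro x y hx hy z
      rw [add_mul, add_mul, hx z, hy z, add_zero]
    · intro x hx z
      rw [neg_mul, neg_mul, hx z, neg_zero]
    · intro x y hy z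
      rw [mul_assoc, mul_assoc, ← mul_assoc y, hy z, mul_zero]
    · intro x y hx z
      rw [mul_assoc x, hx (y * z)]
    · intro m hm z
      exact hz _ (mulmem m z hm)
  have := h1' 1
  rw [one_mul, one_mul, sub_eq_zero] at this
  exact this

end Groth.Agent.S1517
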