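import Groth.Statements.S15172
import Mathlib.Algebra.Polynomial.Roots
-- import your own Groth.Agent.* helpers here

set_option autoImplicit false
universe u v
open Polynomial
open BddFin

namespace Groth.Agent.S15172

/-- Let L be a field of characteristic p > 0 and s a finite subset of L containing 0 and closed under
addition (a finite additive subgroup). Then the polynomial f = ∏_{a ∈ s} (X - a) is additive: f (x +
y) = f x + f y for all x, y in any commutative L-algebra (equivalently, as an identity of
polynomials in two variables). -/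
theorem result
    (L : Type u) [Field L] (p : ℕ) [Fact p.Prime] [CharP L p] (s : Finset L) (h0 : (0 : L) ∈ s)
    (hadd : ∀ a ∈ s, ∀ b ∈ s, a + b ∈ s) (R : Type v) [CommRing R] [Algebra L R] (x y : R) :
    aeval (x + y) (∏ a ∈ s, (X - C a)) = aeval x (∏ a ∈ s, (X - C a)) + aeval y (∏ a ∈ s, (X - C a)) := by
  classical
  set f : L[X] := ∏ a ∈ s, (X - C a) with hf
  have hfmonic : f.Monic := monic_prod_of_monic _ _ (fun a _ => monic_X_sub_C a)
  have hfdeg : f.natDegree = s.card := by
    rw [hf, natDegree_prod_of_monic _ _ (fun a _ => monic_X_sub_C a)]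
    simp
  have himg : ∀ a ∈ s, s.image (· + a) = s := by
    intro a ha
    apply Finset.eq_of_subset_of_card_le
    · intro b hb
      obtain ⟨c, hc, rfl⟩ := Finset.mem_image.1 hb
      exact hadd c hc a ha
    · rw [Finset.card_image_of_injective _ (add_left_injective a)]
  have hneg : ∀ a ∈ s, -a ∈ s := by
    intro a ha
    have h0' : (0 : L) ∈ s.image (· + a) := by rw [himg a ha]; exact h0
    obtain ⟨c, hc, hca⟩ := Finset.mem_image.1 h0'
    have : c = -a := eq_neg_of_add_eq_zero_left hca
    rwa [← this]
  have hsub : ∀ a ∈ s, f.comp (X - C a) = f := by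
    intro a ha
    rw [hf, prod_comp]
    conv_rhs => rw [← himg a ha, Finset.prod_image (fun b _ c _ h => add_left_injective a h)]
    apply Finset.prod_congr rfl
    intro b _
    rw [sub_comp, X_comp, C_comp, map_add, sub_sub, add_comm (C a)]
  have hshift : ∀ a ∈ s, f.comp (X + C a) = f := by
    intro a ha
    have := hsub (-a) (hneg a ha)
    rwa [map_neg, sub_neg_eq_add] at this
  have hroot : ∀ a ∈ s, f.eval a = 0 := by
    intro a ha
    rw [hf, eval_prod]
    exact Finset.prod_eq_zero ha (by simp)
  -- the two-variable polynomial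
  set A : (L[X])[X] := (f.map C).comp (X + C X) with hA
  set B : (L[X])[X] := f.map C with hB
  set F : (L[X])[X] := A - B - C f with hF
  have hBmonic : B.Monic := hfmonic.map C
  have hBdeg : B.natDegree = s.card := by rw [hB, hfmonic.natDegree_map, hfdeg]
  have hq : (X + C X : (L[X])[X]).natDegree = 1 := natDegree_X_add_C X
  have hAdeg : A.natDegree = s.card := by rw [hA, natDegree_comp, hq, mul_one, hBdeg]
  have hAlc : A.leadingCoeff = 1 := by
    rw [hA, leadingCoeff_comp (by rw [hq]; exact one_ne_zero), hBmonic.leadingCoeff,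
      (monic_X_add_C X).leadingCoeff, one_pow, mul_one]
  have hAmonic : A.Monic := hAlc
  have hn : 0 < s.card := Finset.card_pos.2 ⟨0, h0⟩
  have hF0 : F = 0 := by
    by_contra hF0
    have hdeg : F.natDegree < s.card := by
      rw [natDegree_lt_iff_degree_lt hF0]
      have h1 : (A - B).degree < A.degree := by
        apply degree_sub_lt_left _ hAmonic.ne_zero (by rw [hAlc, hBmonic.leadingCoeff])
        rw [degree_eq_natDegree hAmonic.ne_zero, degree_eq_natDegree hBmonic.ne_zero, hAdeg, hBdeg]
      rw [degree_eq_natDegree hAmonic.ne_zero, hAdeg] at h1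
      have h2 : (C f : (L[X])[X]).degree < (s.card : WithBot ℕ) :=
        lt_of_le_of_lt degree_C_le (by exact_mod_cast hn)
      exact lt_of_le_of_lt (degree_sub_le _ _) (max_lt h1 h2)
    apply hF0
    apply eq_zero_of_natDegree_lt_card_of_eval_eq_zero' F (s.map ⟨C, C_injective⟩) _
      (by rw [Finset.card_map]; exact hdeg)
    intro b hb
    obtain ⟨a, ha, rfl⟩ := Finset.mem_map.1 hb
    simp only [Function.Embedding.coeFn_mk]
    rw [hF, eval_sub, eval_sub, hA, hB, eval_comp, eval_add, eval_X, eval_C, eval_map, eval_map,
      eval_C, eval₂_at_apply, hroot a ha, map_zero, sub_zero, add_comm]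
    rw [show eval₂ C (X + C a) f = f.comp (X + C a) from rfl, hshift a ha, sub_self]
  -- evaluate
  have hAB : A = B + C f := by
    rw [← sub_eq_zero, ← sub_sub]
    exact hF0
  have key := congrArg (fun P : (L[X])[X] => P.eval₂ (aeval x).toRingHom y) hAB
  have hcomp : (aeval x).toRingHom.comp C = algebraMap L R := by
    ext c
    simp
  rw [eval₂_add, eval₂_C, hA, hB, eval₂_comp, eval₂_map, eval₂_map, hcomp] at key
  simp only [eval₂_add, eval₂_X, eval₂_C, AlgHom.toRingHom_eq_coe, RingHom.coe_coe, aeval_X] at key
  rw [← aeval_def, ← aeval_def] at key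
  rw [add_comm x y, key, add_comm]

end Groth.Agent.S15172
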