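import Groth.Statements.S15224
import Mathlib.Tactic
-- import your own Groth.Agent.* helpers here

set_option autoImplicit false
open Finset
open W4c2rk2extmaps

namespace Groth.Agent.S15224

/-- In a commutative ℚ-algebra R let y be an element and put c_k = y^k / k! for every k. Then for k ≥ 2,
Σ_{i=1}^{k-1} (-1)^(i-1) c_i c_(k-i) + (-1)^(k-1) c_k = c_k. (The published statement concerns the
Chern classes of a specific vector bundle on a Jacobian, which are of the form c_k = (4θ)^k / k!;
the printed argument establishes the identity for every sequence of this form in a commutative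
ℚ-algebra, which is the form stated here.) -/
theorem result (R : Type*) [CommRing R] [Algebra ℚ R] (y : R)
    (c : ℕ → R) (hc : ∀ k : ℕ, c k = ((Nat.factorial k : ℚ)⁻¹) • y ^ k)
    (k : ℕ) (hk : 2 ≤ k) :
    (∑ i ∈ Finset.Ico 1 k, (-1 : R) ^ (i - 1) * c i * c (k - i)) + (-1 : R) ^ (k - 1) * c k = c k := by
  -- rational coefficient of each term
  have e1 : ∀ i ∈ Finset.Ico 1 k, (-1 : R) ^ (i - 1) * c i * c (k - i) =
      ((-1 : ℚ) ^ (i - 1) * ((Nat.factorial i : ℚ)⁻¹ * (Nat.factorial (k - i) : ℚ)⁻¹)) • y ^ k := by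
    intro i hi
    have hik : i ≤ k := le_of_lt (Finset.mem_Ico.mp hi).2
    rw [hc i, hc (k - i)]
    have hy : y ^ k = y ^ i * y ^ (k - i) := by rw [← pow_add, Nat.add_sub_cancel' hik]
    rw [hy]
    simp only [Algebra.smul_def, map_mul, map_pow, map_neg, map_one]
    ring
  have e2 : (-1 : R) ^ (k - 1) * c k = ((-1 : ℚ) ^ (k - 1) * (Nat.factorial k : ℚ)⁻¹) • y ^ k := by
    rw [hc k]
    simp only [Algebra.smul_def, map_mul, map_pow, map_neg, map_one]
    ring
  rw [Finset.sum_congr rfl e1, ← Finset.sum_smul, e2, ← add_smul, hc k]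
  congr 1
  -- the rational identity
  have key : ∀ i ∈ Finset.Ico 1 k, (-1 : ℚ) ^ (i - 1) *
      ((Nat.factorial i : ℚ)⁻¹ * (Nat.factorial (k - i) : ℚ)⁻¹) =
      -((-1 : ℚ) ^ i * (k.choose i : ℚ)) * (Nat.factorial k : ℚ)⁻¹ := by
    intro i hi
    have hi1 : 1 ≤ i := (Finset.mem_Ico.mp hi).1
    have hik : i ≤ k := le_of_lt (Finset.mem_Ico.mp hi).2
    have hch : (k.choose i : ℚ) * (Nat.factorial i : ℚ) * (Nat.factorial (k - i) : ℚ) =
        (Nat.factorial k : ℚ) := by exact_mod_cast Nat.choose_mul_factorial_mul_factorial hik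
    have hpow : (-1 : ℚ) ^ i = -((-1 : ℚ) ^ (i - 1)) := by
      rw [show i = (i - 1) + 1 by omega, pow_succ]
      simp
    rw [hpow, ← hch]
    have h1 : (Nat.factorial i : ℚ) ≠ 0 := by positivity
    have h2 : (Nat.factorial (k - i) : ℚ) ≠ 0 := by positivity
    have h3 : (k.choose i : ℚ) ≠ 0 := by
      exact_mod_cast (Nat.choose_pos hik).ne'
    field_simp
  rw [Finset.sum_congr rfl key, ← Finset.sum_mul]
  have halt : (∑ i ∈ Finset.range (k + 1), ((-1 : ℚ) ^ i * (k.choose i : ℚ))) = 0 := by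
    have := Int.alternating_sum_range_choose_of_ne (n := k) (by omega)
    exact_mod_cast this
  rw [Finset.sum_range_succ, Finset.range_eq_Ico,
    Finset.sum_eq_sum_Ico_succ_bot (show 0 < k by omega)] at halt
  simp only [pow_zero, Nat.choose_zero_right, Nat.cast_one, mul_one, Nat.choose_self] at halt
  have hsum : ∑ i ∈ Finset.Ico 1 k, -((-1 : ℚ) ^ i * (k.choose i : ℚ)) = 1 + (-1 : ℚ) ^ k := by
    rw [Finset.sum_neg_distrib]
    linarith
  rw [hsum]
  have hpow : (-1 : ℚ) ^ k = -((-1 : ℚ) ^ (k - 1)) := by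
    rw [show k = (k - 1) + 1 by omega, pow_succ]
    simp
  rw [hpow]
  ring

end Groth.Agent.S15224
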