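import Groth.Statements.S15292
import Groth.Agent.Lib_helper23_DeRham
-- import your own Groth.Agent.* helpers here

set_option autoImplicit false
universe u
open DeRham

namespace Groth.Agent.S15292

open exteriorPower in
/-- Let R → A be a ring map and d a family of R-linear maps from p-forms to (p+1)-forms on the exterior
powers of the Kähler differentials of A over R, p ≥ 0, satisfying the de Rham rule d(b₀ db₁ ∧ … ∧
db_p) = db₀ ∧ db₁ ∧ … ∧ db_p for all p and all bᵢ in A. Then the composite of two consecutive d is
zero in every degree; together with the rule this says that d is a de Rham differential of the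
Kähler differentials. -/
theorem result (R A : Type u) [CommRing R] [CommRing A] [Algebra R A]
    (d : ∀ p : ℕ, ↥(⋀[A]^p (Ω[A⁄R])) →ₗ[R] ↥(⋀[A]^(p + 1) (Ω[A⁄R])))
    (hd : DeRham.IsRule (KaehlerDifferential.D R A) d) :
    DeRham.IsDiff (KaehlerDifferential.D R A) d := by
  refine ⟨hd, fun p => ?_⟩
  have h := Groth.Agent.helper23DeRham.ext_gen (R := R) (A := A) p
    ((d (p + 1) ∘ₗ d p).toAddMonoidHom) 0 (fun b₀ b => ?_)
  · ext x
    have := congrArg (fun F => F x) h
    simpa using this
  · simp only [LinearMap.toAddMonoidHom_coe, LinearMap.coe_comp, Function.comp_apply,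
      AddMonoidHom.zero_apply]
    rw [hd p b₀ b]
    have e : exteriorPower.ιMulti A (p + 1) (Fin.cons (KaehlerDifferential.D R A b₀)
        (fun i => KaehlerDifferential.D R A (b i)) : Fin (p + 1) → Ω[A⁄R]) =
        gen (KaehlerDifferential.D R A) (p + 1) 1 (Fin.cons b₀ b) := by
      rw [gen, one_smul]
      congr 1
      funext i
      refine Fin.cases ?_ (fun j => ?_) i <;> simp
    rw [e, hd (p + 1) 1 (Fin.cons b₀ b)]
    have e2 : (Fin.cons (KaehlerDifferential.D R A 1)
        (fun i => KaehlerDifferential.D R A ((Fin.cons b₀ b : Fin (p + 1) → A) i)) :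
          Fin (p + 2) → Ω[A⁄R]) 0 = 0 := by
      simp
    exact (exteriorPower.ιMulti A (p + 2)).map_coord_zero 0 e2

end Groth.Agent.S15292
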