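import Groth.Statements.S15293
import Mathlib.Tactic
-- import your own Groth.Agent.* helpers here

set_option autoImplicit false
universe u
open DeRham

namespace Groth.Agent.S15293

open exteriorPower in
/-- For a commutative square of ring maps R → A → B, R → S → B (B an algebra over R, A and S
compatibly), there is a family of additive maps ψ_p from the p-forms of A over R to the p-forms of B
over S, p ≥ 0, which is the map of de Rham complexes induced by the square: ψ_p sends b₀ db₁ ∧ … ∧
db_p to g(b₀) d(g b₁) ∧ … ∧ d(g b_p), where g : A → B is the structure map. In degree 0 this is g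
and in degree 1 the induced map on Kähler differentials. -/
theorem result (R S A B : Type u) [CommRing R] [CommRing S] [CommRing A] [CommRing B]
    [Algebra R S] [Algebra R A] [Algebra R B] [Algebra A B] [Algebra S B]
    [IsScalarTower R A B] [IsScalarTower R S B] :
    ∃ ψ : ∀ p : ℕ, ↥(⋀[A]^p (Ω[A⁄R])) →+ ↥(⋀[B]^p (Ω[B⁄S])),
      DeRham.IsCxMap (KaehlerDifferential.D R A) (KaehlerDifferential.D S B) (algebraMap A B) ψ := by
  have : SMulCommClass S A B := ⟨fun s a b => by
    simp only [Algebra.smul_def]; ring⟩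
  let φ : Ω[A⁄R] →ₗ[A] Ω[B⁄S] := KaehlerDifferential.map R S A B
  let G : ∀ p : ℕ, Ω[A⁄R] [⋀^Fin p]→ₗ[A] ↥(⋀[B]^p (Ω[B⁄S])) := fun p =>
    { ((exteriorPower.ιMulti B p).toMultilinearMap.restrictScalars A).compLinearMap
        (fun _ => φ) with
      map_eq_zero_of_eq' := fun v i j hij hne => by
        show exteriorPower.ιMulti B p (fun k => φ (v k)) = 0
        exact (exteriorPower.ιMulti B p).map_eq_zero_of_eq _ (by simp [hij]) hne }
  have hG : ∀ (p : ℕ) (v : Fin p → Ω[A⁄R]), G p v = exteriorPower.ιMulti B p (fun k => φ (v k)) :=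
    fun p v => rfl
  let F : ∀ p : ℕ, ↥(⋀[A]^p (Ω[A⁄R])) →ₗ[A] ↥(⋀[B]^p (Ω[B⁄S])) := fun p =>
    exteriorPower.alternatingMapLinearEquiv (G p)
  refine ⟨fun p => (F p).toAddMonoidHom, fun p b₀ b => ?_⟩
  simp only [LinearMap.toAddMonoidHom_coe, gen, map_smul, F,
    exteriorPower.alternatingMapLinearEquiv_apply_ιMulti, hG, φ, KaehlerDifferential.map_D]
  rw [algebraMap_smul]

end Groth.Agent.S15293
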