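import Groth.Statements.S15294
import Groth.Agent.Lib_helper23_DeRham
-- import your own Groth.Agent.* helpers here

set_option autoImplicit false
universe u
open DeRham

namespace Groth.Agent.S15294

open exteriorPower in
/-- The map of de Rham complexes attached to a square of ring maps is compatible with the differentials.
Precisely: let R → A and S → B be ring maps with B an algebra over A (and over R, compatibly), let d
and d' be de Rham differentials of the Kähler differentials of A over R and of B over S, and let ψ
be a family of additive maps from p-forms of A over R to p-forms of B over S which is the induced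
map for the structure map g : A → B, sending b₀ db₁ ∧ … ∧ db_p to g(b₀) d(g b₁) ∧ … ∧ d(g b_p). Then
ψ in degree p+1 composed with d equals d' composed with ψ in degree p. (The published statement is
for a commutative square of ring maps R → S, A → B; once the family ψ is given the conclusion holds
for any ring maps, the square being needed only to produce ψ.) -/
theorem result (R S A B : Type u) [CommRing R] [CommRing S] [CommRing A] [CommRing B]
    [Algebra R A] [Algebra S B] [Algebra A B] [Algebra R B] [IsScalarTower R A B]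
    (d : ∀ p : ℕ, ↥(⋀[A]^p (Ω[A⁄R])) →ₗ[R] ↥(⋀[A]^(p + 1) (Ω[A⁄R])))
    (hd : DeRham.IsDiff (KaehlerDifferential.D R A) d)
    (d' : ∀ p : ℕ, ↥(⋀[B]^p (Ω[B⁄S])) →ₗ[S] ↥(⋀[B]^(p + 1) (Ω[B⁄S])))
    (hd' : DeRham.IsDiff (KaehlerDifferential.D S B) d')
    (ψ : ∀ p : ℕ, ↥(⋀[A]^p (Ω[A⁄R])) →+ ↥(⋀[B]^p (Ω[B⁄S])))
    (hψ : DeRham.IsCxMap (KaehlerDifferential.D R A) (KaehlerDifferential.D S B) (algebraMap A B) ψ)
    (p : ℕ) (x : ↥(⋀[A]^p (Ω[A⁄R]))) :
    ψ (p + 1) (d p x) = d' p (ψ p x) := by
  have h := Groth.Agent.helper23DeRham.ext_gen (R := R) (A := A) p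
    ((ψ (p + 1)).comp (d p).toAddMonoidHom) ((d' p).toAddMonoidHom.comp (ψ p)) (fun b₀ b => ?_)
  · have := congrArg (fun F => F x) h
    simpa using this
  · simp only [AddMonoidHom.coe_comp, LinearMap.toAddMonoidHom_coe, Function.comp_apply]
    rw [hd.1 p b₀ b, hψ p b₀ b, hd'.1 p]
    have e : exteriorPower.ιMulti A (p + 1) (Fin.cons (KaehlerDifferential.D R A b₀)
        (fun i => KaehlerDifferential.D R A (b i)) : Fin (p + 1) → Ω[A⁄R]) =
        gen (KaehlerDifferential.D R A) (p + 1) 1 (Fin.cons b₀ b) := by
      rw [gen, one_smul]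
      congr 1
      funext i
      refine Fin.cases ?_ (fun j => ?_) i <;> simp
    rw [e, hψ (p + 1) 1 (Fin.cons b₀ b), gen, map_one, one_smul]
    congr 1
    funext i
    refine Fin.cases ?_ (fun j => ?_) i <;> simp

end Groth.Agent.S15294
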