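import Groth.Statements.S15297
import Groth.Agent.Lib_helper23_DeRham
-- import your own Groth.Agent.* helpers here

set_option autoImplicit false
universe u
open DeRham

namespace Groth.Agent.S15297

open exteriorPower in
/-- Let R → A be a ring map and d a de Rham differential of the Kähler differentials of A over R. Then
each d from p-forms to (p+1)-forms, an R-linear map between A-modules, is a differential operator of
order at most 1 relative to R → A: every commutator of d with multiplication by an element of A is
A-linear. -/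
theorem result (R A : Type u) [CommRing R] [CommRing A] [Algebra R A]
    (d : ∀ p : ℕ, ↥(⋀[A]^p (Ω[A⁄R])) →ₗ[R] ↥(⋀[A]^(p + 1) (Ω[A⁄R])))
    (hd : DeRham.IsDiff (KaehlerDifferential.D R A) d) (p : ℕ) :
    Diff16.IsDiffOpLE R A ↥(⋀[A]^p (Ω[A⁄R])) ↥(⋀[A]^(p + 1) (Ω[A⁄R])) 1 (d p) := by
  simp only [Diff16.IsDiffOpLE]
  intro b b' m
  simp only [Diff16.commutator, LinearMap.sub_apply, LinearMap.comp_apply,
    LinearMap.restrictScalars_apply, LinearMap.lsmul_apply]
  let F : ↥(⋀[A]^p (Ω[A⁄R])) →+ ↥(⋀[A]^(p + 1) (Ω[A⁄R])) :=
    { toFun := fun m => d p (b • b' • m) - b • d p (b' • m) - b' • d p (b • m) + b' • b • d p m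
      map_zero' := by simp
      map_add' := fun x y => by
        simp only [smul_add, map_add]
        abel }
  have hF := Groth.Agent.helper23DeRham.ext_gen (R := R) (A := A) p F 0 (fun c β => ?_)
  · have h := congrArg (fun G => G m) hF
    simp only [F, AddMonoidHom.coe_mk, ZeroHom.coe_mk, AddMonoidHom.zero_apply] at h
    rw [smul_sub]
    rw [← sub_eq_zero, ← h]
    abel
  · have hs : ∀ a c' : A, a • gen (KaehlerDifferential.D R A) p c' β =
        gen (KaehlerDifferential.D R A) p (a * c') β := by
      intro a c'
      simp [gen, smul_smul]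
    let W : Ω[A⁄R] →ₗ[A] ↥(⋀[A]^(p + 1) (Ω[A⁄R])) :=
      (exteriorPower.ιMulti A (p + 1)).toMultilinearMap.toLinearMap
        (Fin.cons 0 (fun i => KaehlerDifferential.D R A (β i))) 0
    have hW : ∀ x : A, d p (gen (KaehlerDifferential.D R A) p x β) =
        W (KaehlerDifferential.D R A x) := by
      intro x
      rw [hd.1 p x β]
      simp [W, MultilinearMap.toLinearMap_apply, Fin.update_cons_zero]
    simp only [F, AddMonoidHom.coe_mk, ZeroHom.coe_mk, AddMonoidHom.zero_apply]
    simp only [hs, hW]
    simp only [Derivation.leibniz, map_add, map_smul, smul_add, smul_smul]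
    module

end Groth.Agent.S15297
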