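import Groth.Statements.S15490
import Mathlib.Tactic
-- import your own Groth.Agent.* helpers here

set_option autoImplicit false
universe u
open IsoNat

namespace Groth.Agent.S15490

/-- Let f : G → G' be a group homomorphism, A a commutative ring and α an element of the regular
representation of G over A (a finitely supported function G → A). If the pushforward β = f_*α
(summing coefficients along f) is nonzero and is an eigenvector for the translation action of an
element g' of G' — β(g'⁻¹ k) = l β(k) for all k and some scalar l — then g' lies in the image of f
(and hence β comes from the regular representation of the image). (The published statement asks only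
α ≠ 0; when f is not injective the pushforward of a nonzero α can vanish, and the zero vector lies
in every eigen-submodule, so the hypothesis is placed on f_*α, which is how the result is used.) -/
theorem result
    {G G' : Type u} [Group G] [Group G'] (f : G →* G')
    (A : Type u) [CommRing A] (α : G →₀ A) (g' : G') (l : A)
    (hne : Finsupp.mapDomain f α ≠ 0)
    (he : ∀ k : G', Finsupp.mapDomain f α (g'⁻¹ * k) = l * Finsupp.mapDomain f α k) :
    g' ∈ f.range := by
  by_contra hg
  apply hne
  have hz : ∀ k : G', k ∉ Set.range f → Finsupp.mapDomain f α k = 0 := fun k hk =>
    Finsupp.mapDomain_of_notMem_range _ _ hk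
  ext k
  rw [Finsupp.coe_zero, Pi.zero_apply]
  by_cases hk : k ∈ Set.range f
  · obtain ⟨a, rfl⟩ := hk
    have h1 : g' * f a ∉ Set.range f := by
      rintro ⟨b, hb⟩
      apply hg
      refine ⟨b * a⁻¹, ?_⟩
      rw [map_mul, hb, map_inv, mul_inv_cancel_right]
    have h2 := he (g' * f a)
    rw [inv_mul_cancel_left, hz _ h1, mul_zero] at h2
    exact h2
  · exact hz k hk

end Groth.Agent.S15490
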