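import Groth.Statements.S15495
import Mathlib.Tactic
import Mathlib.Algebra.CharP.Lemmas
import Mathlib.RingTheory.Artinian.Ring
-- import your own Groth.Agent.* helpers here

set_option autoImplicit false
universe u
open CAlg

namespace Groth.Agent.S15495

/-- In an Artinian local ring R whose maximal ideal m contains the prime number p, the multiplicative
group 1 + m is annihilated under some power of p: there is n with (1 + x)^(p^n) = 1 for every x in
m. (The published text makes this assertion inside a proof, for Artinian local algebras over the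
Witt ring of a perfect field of characteristic p; only p ∈ m and the nilpotence of m are used.) -/
theorem result
    (R : Type u) [CommRing R] [IsLocalRing R] [IsArtinianRing R]
    (p : ℕ) (hp : p.Prime) (hpm : (p : R) ∈ IsLocalRing.maximalIdeal R) :
    ∃ n : ℕ, ∀ x ∈ IsLocalRing.maximalIdeal R, (1 + x) ^ (p ^ n) = 1 := by
  set m := IsLocalRing.maximalIdeal R with hm
  have hnil : IsNilpotent m := by
    have h := IsArtinianRing.isNilpotent_jacobson_bot (R := R)
    rwa [IsLocalRing.jacobson_eq_maximalIdeal ⊥ bot_ne_top] at h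
  obtain ⟨N, hN⟩ := hnil
  have claim : ∀ x ∈ m, ∀ n : ℕ, (1 + x) ^ (p ^ n) - 1 ∈ m ^ (n + 1) := by
    intro x hx n
    induction n with
    | zero => simpa using hx
    | succ n ih =>
      set z := (1 + x) ^ (p ^ n) - 1 with hz
      have h1 : (1 + x) ^ (p ^ (n + 1)) = (1 + z) ^ p := by
        rw [hz, add_sub_cancel, pow_succ, pow_mul]
      obtain ⟨r, hr⟩ := exists_add_pow_prime_eq hp (1 : R) z
      rw [h1, hr, one_pow, mul_one]
      have e : 1 + z ^ p + (p : R) * z * r - 1 = z ^ p + (p : R) * z * r := by ring
      rw [e]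
      refine Ideal.add_mem _ ?_ ?_
      · have h2 : z ^ p ∈ (m ^ (n + 1)) ^ p := Ideal.pow_mem_pow ih p
        rw [← pow_mul] at h2
        have hp2 := hp.two_le
        exact Ideal.pow_le_pow_right (by nlinarith) h2
      · refine Ideal.mul_mem_right _ _ ?_
        have h3 : (p : R) * z ∈ m * m ^ (n + 1) := Ideal.mul_mem_mul hpm ih
        rwa [← pow_succ'] at h3
  refine ⟨N, fun x hx => ?_⟩
  have h := claim x hx N
  have h' : (1 + x) ^ (p ^ N) - 1 ∈ m ^ N := Ideal.pow_le_pow_right (Nat.le_succ N) h
  rw [hN, Ideal.zero_eq_bot, Ideal.mem_bot, sub_eq_zero] at h'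
  exact h'

end Groth.Agent.S15495
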