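import Groth.Statements.S15498
import Mathlib.Tactic
-- import your own Groth.Agent.* helpers here

set_option autoImplicit false
open NewtonPoly

namespace Groth.Agent.S15498

lemma col (m n i : ℕ) (hm : 0 < m) (hn : 0 < n) (hi : i ≤ m + n) :
    ((Finset.range (m + 1)).filter (fun j => i ≤ j + n ∧ j * (m + n) < i * m)).card =
      (i * m + (m + n) - 1) / (m + n) - (i - n) := by
  have hh : 0 < m + n := by omega
  have : (Finset.range (m + 1)).filter (fun j => i ≤ j + n ∧ j * (m + n) < i * m) =
      Finset.Ico (i - n) ((i * m + (m + n) - 1) / (m + n)) := by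
    ext j
    simp only [Finset.mem_filter, Finset.mem_range, Finset.mem_Ico]
    have key : j < (i * m + (m + n) - 1) / (m + n) ↔ j * (m + n) < i * m := by
      rw [Nat.lt_iff_add_one_le, Nat.le_div_iff_mul_le hh, add_mul, one_mul]
      omega
    rw [key]
    constructor
    · rintro ⟨_, h1, h2⟩
      exact ⟨by omega, h2⟩
    · rintro ⟨h1, h2⟩
      refine ⟨?_, by omega, h2⟩
      have h3 : i * m ≤ (m + n) * m := Nat.mul_le_mul_right m hi
      have h4 : j * (m + n) < (m + n) * m := lt_of_lt_of_le h2 h3
      have h5 : j < m := by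
        rw [mul_comm] at h4
        exact Nat.lt_of_mul_lt_mul_left h4
      omega
  rw [this, Nat.card_Ico]


lemma cdiv_zero (m n : ℕ) (hh : 0 < m + n) : (0 * m + (m + n) - 1) / (m + n) = 0 := by
  rw [zero_mul, zero_add]
  exact Nat.div_eq_of_lt (by omega)

lemma cdiv_top (m n : ℕ) (hh : 0 < m + n) : ((m + n) * m + (m + n) - 1) / (m + n) = m := by
  apply Nat.div_eq_of_lt_le
  · have : m * (m + n) = (m + n) * m := by ring
    omega
  · have : (m + 1) * (m + n) = (m + n) * m + (m + n) := by ring
    omega

lemma pair (m n i : ℕ) (hm : 0 < m) (hn : 0 < n) (hcop : Nat.Coprime m n) (hi0 : 0 < i)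
    (hih : i < m + n) :
    (i * m + (m + n) - 1) / (m + n) + ((m + n - i) * m + (m + n) - 1) / (m + n) = m + 1 := by
  have hh : 0 < m + n := by omega
  have hndvd : ¬ (m + n) ∣ i * m := by
    intro hd
    have hc : Nat.Coprime (m + n) m := by
      rw [Nat.coprime_comm]; exact Nat.coprime_self_add_right.mpr hcop
    have := hc.dvd_of_dvd_mul_right hd
    have := Nat.le_of_dvd hi0 this
    omega
  set q := i * m / (m + n) with hq
  set r := i * m % (m + n) with hr
  have e := Nat.div_add_mod (i * m) (m + n)
  rw [← hq, ← hr] at e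
  have hr0 : 0 < r := by
    rcases Nat.eq_zero_or_pos r with h0 | h0
    · exact absurd (Nat.dvd_of_mod_eq_zero h0) hndvd
    · exact h0
  have hrh : r < m + n := Nat.mod_lt _ hh
  have hqm : q < m := by
    have h1 : i * m < (m + n) * m := Nat.mul_lt_mul_of_pos_right hih hm
    by_contra hc
    push Not at hc
    have h2 : (m + n) * m ≤ (m + n) * q := Nat.mul_le_mul_left _ hc
    omega
  have c1 : (i * m + (m + n) - 1) / (m + n) = q + 1 := by
    apply Nat.div_eq_of_lt_le
    · have : (q + 1) * (m + n) = (m + n) * q + (m + n) := by ring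
      omega
    · have : (q + 1 + 1) * (m + n) = (m + n) * q + (m + n) + (m + n) := by ring
      omega
  have hsub : (m + n - i) * m = (m + n) * m - i * m := Nat.sub_mul _ _ _
  have c2 : ((m + n - i) * m + (m + n) - 1) / (m + n) = m - q := by
    apply Nat.div_eq_of_lt_le
    · have : (m - q) * (m + n) = (m + n) * m - (m + n) * q := by
        rw [Nat.sub_mul]; ring_nf
      have h3 : (m + n) * q ≤ (m + n) * m := Nat.mul_le_mul_left _ hqm.le
      have h4 : i * m ≤ (m + n) * m := Nat.mul_le_mul_right _ hih.le
      omega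
    · have : (m - q + 1) * (m + n) = (m + n) * m - (m + n) * q + (m + n) := by
        rw [Nat.add_mul, Nat.sub_mul]; ring_nf
      have h3 : (m + n) * q ≤ (m + n) * m := Nat.mul_le_mul_left _ hqm.le
      have h4 : i * m ≤ (m + n) * m := Nat.mul_le_mul_right _ hih.le
      omega
  rw [c1, c2]
  omega

/-- Let m, n ≥ 1 be coprime, h = m + n, δ the segment from (0,0) to (h,m) (the isoclinic Newton polygon
of slope m/h) and ρ the ordinary polygon with n slopes 0 followed with m slopes 1, so ρ(i) = max(0,
i − n). The integer points (i,j), 0 ≤ i ≤ h, on or above ρ and strictly below δ — that is max(0, i −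
n) ≤ j and j·h < i·m — are (m−1)(n−1)/2 + (m+n−1) in number (which equals mn − r for r =
(m−1)(n−1)/2). (The published text works under m ≥ n > 0 coprime; the inequality m ≥ n is not used
and not assumed.) -/
theorem result
    (m n : ℕ) (hm : 0 < m) (hn : 0 < n) (hmn : Nat.Coprime m n) :
    ((Finset.range (m + n + 1) ×ˢ Finset.range (m + 1)).filter
      (fun ij : ℕ × ℕ => ij.1 ≤ ij.2 + n ∧ ij.2 * (m + n) < ij.1 * m)).card
      = (m - 1) * (n - 1) / 2 + (m + n - 1) := by
  have hh : 0 < m + n := by omega
  have hA : ((Finset.range (m + n + 1) ×ˢ Finset.range (m + 1)).filter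
      (fun ij : ℕ × ℕ => ij.1 ≤ ij.2 + n ∧ ij.2 * (m + n) < ij.1 * m)).card =
      ∑ i ∈ Finset.range (m + n + 1), ((i * m + (m + n) - 1) / (m + n) - (i - n)) := by
    rw [Finset.card_filter, Finset.sum_product]
    refine Finset.sum_congr rfl fun i hi => ?_
    rw [← col m n i hm hn (by simp at hi; omega), Finset.card_filter]
  have hle : ∀ i ∈ Finset.range (m + n + 1), i - n ≤ (i * m + (m + n) - 1) / (m + n) := by
    intro i hi
    simp only [Finset.mem_range] at hi
    rw [Nat.le_div_iff_mul_le hh]
    rcases le_or_gt i n with hin | hin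
    · rw [Nat.sub_eq_zero_of_le hin, zero_mul]; exact Nat.zero_le _
    · obtain ⟨k, rfl⟩ : ∃ k, i = n + k := ⟨i - n, by omega⟩
      have hk : k ≤ m := by omega
      rw [show n + k - n = k by omega]
      have : k * n ≤ m * n := Nat.mul_le_mul_right n hk
      have e1 : k * (m + n) = k * m + k * n := by ring
      have e2 : (n + k) * m = n * m + k * m := by ring
      have e3 : m * n = n * m := by ring
      omega
  rw [hA, Finset.sum_tsub_distrib _ hle]
  have hC : ∑ i ∈ Finset.range (m + n + 1), (i - n) = ∑ k ∈ Finset.range (m + 1), k := by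
    rw [show m + n + 1 = n + (m + 1) by ring, Finset.sum_range_add]
    have : ∑ x ∈ Finset.range n, (x - n) = 0 :=
      Finset.sum_eq_zero (fun x hx => by simp at hx; omega)
    rw [this, zero_add]
    exact Finset.sum_congr rfl fun k _ => by omega
  have hC2 : (∑ k ∈ Finset.range (m + 1), k) * 2 = (m + 1) * m := by
    rw [Finset.sum_range_id_mul_two]; simp
  have hterm : ∀ i ∈ Finset.range (m + n + 1),
      (i * m + (m + n) - 1) / (m + n) + ((m + n - i) * m + (m + n) - 1) / (m + n)
        + ((if i = 0 then 1 else 0) + (if i = m + n then 1 else 0)) = m + 1 := by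
    intro i hi
    simp only [Finset.mem_range] at hi
    rcases Nat.eq_zero_or_pos i with rfl | hi0
    · rw [cdiv_zero m n hh, Nat.sub_zero, cdiv_top m n hh]
      have : (0 : ℕ) ≠ m + n := by omega
      simp [this]
      try omega
    · by_cases hih : i = m + n
      · subst hih
        rw [cdiv_top m n hh, Nat.sub_self, cdiv_zero m n hh]
        have : m + n ≠ 0 := by omega
        simp [this]
        try omega
      · rw [pair m n i hm hn hmn hi0 (by omega)]
        have : i ≠ 0 := by omega
        simp [hih, this]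
        try omega
  have hsum := Finset.sum_congr rfl hterm
  rw [Finset.sum_add_distrib, Finset.sum_add_distrib, Finset.sum_add_distrib] at hsum
  have hrefl : ∑ i ∈ Finset.range (m + n + 1), ((m + n - i) * m + (m + n) - 1) / (m + n) =
      ∑ i ∈ Finset.range (m + n + 1), (i * m + (m + n) - 1) / (m + n) := by
    have := Finset.sum_range_reflect (fun i => (i * m + (m + n) - 1) / (m + n)) (m + n + 1)
    rw [← this]
    refine Finset.sum_congr rfl fun i hi => ?_
    simp only [Finset.mem_range] at hi
    rw [show m + n + 1 - 1 - i = m + n - i by omega]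
  rw [hrefl] at hsum
  rw [hC]
  simp only [Finset.sum_ite_eq', Finset.mem_range, Finset.sum_const, Finset.card_range,
    smul_eq_mul] at hsum
  have h1 : 0 < m + n + 1 := by omega
  have h2 : m + n < m + n + 1 := by omega
  simp only [h1, h2, if_true] at hsum
  set S1 := ∑ i ∈ Finset.range (m + n + 1), (i * m + (m + n) - 1) / (m + n) with hS1
  set S2 := ∑ k ∈ Finset.range (m + 1), k with hS2
  obtain ⟨a, rfl⟩ : ∃ a, m = a + 1 := ⟨m - 1, by omega⟩
  obtain ⟨b, rfl⟩ : ∃ b, n = b + 1 := ⟨n - 1, by omega⟩
  have hev : Even (a * b) := by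
    rw [Nat.even_mul]
    by_contra hc
    simp only [not_or, Nat.not_even_iff_odd] at hc
    obtain ⟨ha, hb⟩ := hc
    have h2a : 2 ∣ a + 1 := by rcases ha with ⟨k, hk⟩; exact ⟨k + 1, by omega⟩
    have h2b : 2 ∣ b + 1 := by rcases hb with ⟨k, hk⟩; exact ⟨k + 1, by omega⟩
    have := Nat.dvd_gcd h2a h2b
    rw [Nat.Coprime.gcd_eq_one hmn] at this
    omega
  obtain ⟨t, ht⟩ := hev
  rw [show a + 1 - 1 = a by omega, show b + 1 - 1 = b by omega, ht]
  ring_nf at hsum hC2 ht ⊢
  omega

end Groth.Agent.S15498
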