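import Groth.Statements.S15525
import Mathlib.Tactic
import Mathlib.LinearAlgebra.Matrix.Charpoly.Coeff
import Mathlib.Algebra.Polynomial.Reverse
import Mathlib.FieldTheory.IsAlgClosed.Basic
import Mathlib.Analysis.Complex.Polynomial.Basic
-- import your own Groth.Agent.* helpers here

set_option autoImplicit false
universe u
open Zeta

namespace Groth.Agent.S15525

open Polynomial ComplexConjugate

lemma reverse_X_sub_C' (a : ℂ) : (X - C a).reverse = 1 - C a * X := by
  rw [Polynomial.reverse, natDegree_X_sub_C, reflect_sub]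
  have h1 : reflect 1 (X : ℂ[X]) = 1 := by
    have := reflect_monomial (R := ℂ) 1 1
    simp [revAt_le] at this
    simpa using this
  rw [h1, reflect_C]
  ring

lemma key (s : Multiset ℂ) (hs : ∀ z ∈ s, ‖z‖ = 1) :
    ((s.map fun a => X - C a).prod).reverse =
      C (((s.map fun a => X - C a).prod).coeff 0) * ((s.map fun a => X - C a).prod).map (starRingEnd ℂ) := by
  induction s using Multiset.induction_on with
  | empty => simp [Polynomial.reverse]
  | cons a s ih =>
    have ha : ‖a‖ = 1 := hs a (Multiset.mem_cons_self a s)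
    have ih' := ih (fun z hz => hs z (Multiset.mem_cons_of_mem hz))
    simp only [Multiset.map_cons, Multiset.prod_cons]
    rw [reverse_mul_of_domain, ih', reverse_X_sub_C', mul_coeff_zero, Polynomial.map_mul]
    have hconj : a * conj a = 1 := by
      rw [Complex.mul_conj, Complex.normSq_eq_norm_sq, ha]; simp
    have hlin : (1 : ℂ[X]) - C a * X = C (-a) * (X - C (conj a)) := by
      rw [mul_sub, ← C_mul, neg_mul, hconj]; simp; ring
    rw [hlin]
    simp only [Polynomial.map_sub, Polynomial.map_X, Polynomial.map_C, coeff_sub, coeff_X_zero,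
      coeff_C_zero, zero_sub, C_mul]
    ring

/-- Let L be a field with a ring embedding ι into ℂ and M an r × r matrix over L all of whose
eigenvalues, the complex roots of its characteristic polynomial mapped along ι, have absolute value
1. Then every coefficient of the characteristic polynomial of the block-diagonal matrix with blocks
M and the inverse transpose of M is mapped by ι into ℝ. This is the pointwise content of the
assertion that for a lisse sheaf F pure of weight 0 the sum of F and its dual is real, the Frobenius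
of the dual acting by the inverse transpose. -/
theorem result (L : Type u) [Field L] (ι : L →+* ℂ)
    {r : ℕ} (M : Matrix (Fin r) (Fin r) L)
    (hM : ∀ z ∈ ((Matrix.charpoly M).map ι).roots, ‖z‖ = 1) (n : ℕ) :
    (ι ((Matrix.fromBlocks M 0 0 (M⁻¹).transpose).charpoly.coeff n)).im = 0 := by
  set χ := M.charpoly with hχ
  set Q := χ.map ι with hQ
  have hmonic : Q.Monic := (Matrix.charpoly_monic M).map ι
  have hQprod : (Q.roots.map fun a => X - C a).prod = Q :=
    prod_multiset_X_sub_C_of_monic_of_roots_card_eq hmonic IsAlgClosed.card_roots_eq_natDegree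
  have hdetc : M.det = (-1) ^ r * χ.coeff 0 := by
    rw [Matrix.det_eq_sign_charpoly_coeff, Fintype.card_fin]
  have hQ0 : Q.coeff 0 = (-1) ^ r * ι M.det := by
    rw [hQ, coeff_map, hdetc, map_mul, map_pow, map_neg, map_one, ← mul_assoc, ← mul_pow]
    simp
  have hdet : M.det ≠ 0 := by
    intro h0
    have hroot : (0 : ℂ) ∈ Q.roots := by
      rw [mem_roots hmonic.ne_zero, IsRoot, ← coeff_zero_eq_eval_zero, hQ0, h0]
      simp
    have := hM 0 hroot
    simp at this
  have hunit : IsUnit M := (Matrix.isUnit_iff_isUnit_det M).mpr (isUnit_iff_ne_zero.mpr hdet)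
  have hP : (Matrix.fromBlocks M 0 0 (M⁻¹).transpose).charpoly =
      χ * ((-1) ^ r * C (M.det)⁻¹ * χ.reverse) := by
    rw [Matrix.charpoly_fromBlocks_zero₁₂, Matrix.charpoly_transpose, Matrix.charpoly_inv M hunit,
      Fintype.card_fin, Matrix.reverse_charpoly, Ring.inverse_eq_inv]
  have hrev : χ.reverse.map ι = Q.reverse := by
    rw [Polynomial.reverse, Polynomial.reverse, hQ, natDegree_map, reflect_map]
  have hkey := key Q.roots hM
  rw [hQprod] at hkey
  have hW : (Matrix.fromBlocks M 0 0 (M⁻¹).transpose).charpoly.map ι = Q * Q.map (starRingEnd ℂ) := by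
    rw [hP, Polynomial.map_mul, Polynomial.map_mul, Polynomial.map_mul, hrev, hkey, hQ0]
    simp only [Polynomial.map_pow, Polynomial.map_neg, Polynomial.map_one, Polynomial.map_C, map_inv₀]
    have hD : ι M.det ≠ 0 := (map_ne_zero ι).mpr hdet
    rw [C_mul, C_pow, C_neg, C_1]
    have : ((-1 : ℂ[X]) ^ r * C (ι M.det)⁻¹ * ((-1) ^ r * C (ι M.det))) = 1 := by
      rw [show ((-1 : ℂ[X]) ^ r * C (ι M.det)⁻¹ * ((-1) ^ r * C (ι M.det))) =
        ((-1) ^ r * (-1) ^ r) * (C (ι M.det)⁻¹ * C (ι M.det)) by ring, ← C_mul, inv_mul_cancel₀ hD,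
        ← mul_pow]
      simp
    calc Q * ((-1) ^ r * C (ι M.det)⁻¹ * ((-1) ^ r * C (ι M.det) * Q.map (starRingEnd ℂ)))
        = Q * (((-1 : ℂ[X]) ^ r * C (ι M.det)⁻¹ * ((-1) ^ r * C (ι M.det))) * Q.map (starRingEnd ℂ)) := by ring
      _ = Q * Q.map (starRingEnd ℂ) := by rw [this, one_mul]
  have hc : ι ((Matrix.fromBlocks M 0 0 (M⁻¹).transpose).charpoly.coeff n) =
      (Q * Q.map (starRingEnd ℂ)).coeff n := by
    rw [← hW, coeff_map]
  rw [hc]
  have hfix' : ∀ A : ℂ[X], (A * A.map (starRingEnd ℂ)).map (starRingEnd ℂ) =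
      A * A.map (starRingEnd ℂ) := by
    intro A
    rw [Polynomial.map_mul, Polynomial.map_map]
    have : (starRingEnd ℂ).comp (starRingEnd ℂ) = RingHom.id ℂ := by
      ext z; simp
    rw [this, Polynomial.map_id, mul_comm]
  have := congrArg (fun p : ℂ[X] => p.coeff n) (hfix' Q)
  simp only [coeff_map] at this
  exact Complex.conj_eq_iff_im.mp this

end Groth.Agent.S15525
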