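import Groth.Statements.S15546
import Mathlib.Tactic
import Mathlib.RingTheory.Flat.Basic
import Mathlib.RingTheory.PowerBasis
import Mathlib.FieldTheory.Perfect
import Mathlib.RingTheory.Flat.FaithfullyFlat.Basic
-- import your own Groth.Agent.* helpers here

set_option autoImplicit false
open scoped TensorProduct
universe u
open Unram

namespace Groth.Agent.S15546

/-- Let E be a finite extension of a field k which is not separable over k, and K an algebraic closure
of k. Then E ⊗_k K has a nonzero nilpotent element. -/
theorem result (k E K : Type u) [Field k] [Field E]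
    [Algebra k E] [FiniteDimensional k E] [Field K] [Algebra k K] [IsAlgClosure k K]
    (h : ¬ Algebra.IsSeparable k E) : ∃ x : E ⊗[k] K, x ≠ 0 ∧ IsNilpotent x := by
  classical
  have hK : IsAlgClosed K := IsAlgClosure.isAlgClosed k
  obtain ⟨x, hx⟩ : ∃ x : E, ¬ IsSeparable k x := by
    by_contra hc
    simp only [not_exists, not_not] at hc
    exact h ⟨hc⟩
  have hint : IsIntegral k x := Algebra.IsIntegral.isIntegral x
  have hf0 : minpoly k x ≠ 0 := minpoly.ne_zero hint
  set F := (minpoly k x).map (algebraMap k K) with hFdef
  have hFsep : ¬ F.Separable := by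
    rw [hFdef, Polynomial.separable_map]; exact hx
  have hFsq : ¬ Squarefree F := by rwa [← PerfectField.separable_iff_squarefree]
  obtain ⟨g, hgg, hgu⟩ : ∃ g, g * g ∣ F ∧ ¬ IsUnit g := by
    simp only [Squarefree, not_forall] at hFsq
    obtain ⟨g, hg, hu⟩ := hFsq
    exact ⟨g, hg, hu⟩
  obtain ⟨h', hh'⟩ := hgg
  have hF0 : F ≠ 0 := (Polynomial.map_ne_zero_iff (algebraMap k K).injective).mpr hf0
  let z : K ⊗[k] E := 1 ⊗ₜ x
  let y : K ⊗[k] E := Polynomial.aeval z (g * h')
  have hz : Polynomial.aeval z F = 0 := by
    rw [hFdef, Polynomial.aeval_map_algebraMap]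
    have : z = Algebra.TensorProduct.includeRight x := rfl
    rw [this, Polynomial.aeval_algHom_apply, minpoly.aeval, map_zero]
  have hy2 : y ^ 2 = 0 := by
    have : (g * h') * (g * h') = F * h' := by rw [hh']; ring
    show (Polynomial.aeval z (g * h')) ^ 2 = 0
    rw [sq, ← map_mul, this, map_mul, hz, zero_mul]
  have hg0 : g ≠ 0 := by rintro rfl; simp at hh'; exact hF0 hh'
  have hh0 : h' ≠ 0 := by rintro rfl; simp at hh'; exact hF0 hh'
  have hy0 : y ≠ 0 := by
    intro hy
    have hdeg : (g * h').natDegree < (minpoly k x).natDegree := by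
      have h1 : F.natDegree = (minpoly k x).natDegree := Polynomial.natDegree_map _
      have h2 : F.natDegree = g.natDegree + g.natDegree + h'.natDegree := by
        rw [hh', Polynomial.natDegree_mul (mul_ne_zero hg0 hg0) hh0,
          Polynomial.natDegree_mul hg0 hg0]
      have h3 : 0 < g.natDegree := by
        by_contra hc
        have : g.natDegree = 0 := by omega
        rw [Polynomial.natDegree_eq_zero] at this
        obtain ⟨c, rfl⟩ := this
        apply hgu
        have : c ≠ 0 := by rintro rfl; simp at hg0
        exact Polynomial.isUnit_C.mpr (Ne.isUnit this)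
      have h4 : (g * h').natDegree = g.natDegree + h'.natDegree := Polynomial.natDegree_mul hg0 hh0
      omega
    have hli := Module.Flat.linearIndependent_one_tmul (S := K) (linearIndependent_pow (K := k) x)
    have hy' : Polynomial.aeval z (g * h') = 0 := hy
    rw [Polynomial.aeval_eq_sum_range' hdeg] at hy'
    have hp : g * h' = 0 := by
      ext i
      simp only [Polynomial.coeff_zero]
      by_cases hi : i < (minpoly k x).natDegree
      · have := Fintype.linearIndependent_iff.mp hli (fun j => (g * h').coeff j) ?_ ⟨i, hi⟩
        · exact this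
        · rw [← hy', Finset.sum_range (fun i => (g * h').coeff i • z ^ i)]
          refine Finset.sum_congr rfl fun j _ => ?_
          simp [z, Algebra.TensorProduct.tmul_pow]
      · exact Polynomial.coeff_eq_zero_of_natDegree_lt (by omega)
    exact mul_ne_zero hg0 hh0 hp
  refine ⟨Algebra.TensorProduct.comm k K E y, ?_, ?_⟩
  · intro h0
    apply hy0
    have := congrArg (Algebra.TensorProduct.comm k K E).symm h0
    simpa using this
  · exact ⟨2, by rw [← map_pow, hy2, map_zero]⟩

end Groth.Agent.S15546
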