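import Groth.Statements.S15560
import Mathlib.Tactic
-- import your own Groth.Agent.* helpers here

set_option autoImplicit false
universe u v w
open KronMod

namespace Groth.Agent.S15560

/-- Let f be a Kronecker module with n arrows over a field K, from a space V of dimension d₋₁ > 0 to a
space W of dimension d₀ > 0. If n·d₋₁ < d₀ or n·d₀ < d₋₁, then f is not semistable; that is, there
are no semistable Kronecker modules of dimension vector (d₋₁, d₀). (The published statement assumes
K algebraically closed of characteristic zero and n ≥ 2; this row allows any field K and any number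
n of arrows.) -/
theorem result (K : Type u) [Field K] (V : Type v) (W : Type w)
    [AddCommGroup V] [Module K V] [FiniteDimensional K V]
    [AddCommGroup W] [Module K W] [FiniteDimensional K W]
    (n : ℕ) (f : Fin n → (V →ₗ[K] W))
    (hV : 0 < Module.finrank K V) (hW : 0 < Module.finrank K W)
    (h : n * Module.finrank K V < Module.finrank K W ∨ n * Module.finrank K W < Module.finrank K V) :
    ¬ KronMod.IsSemistable f := by
  have : Nontrivial V := Module.nontrivial_of_finrank_pos hV
  have : Nontrivial W := Module.nontrivial_of_finrank_pos hW
  rintro ⟨_, hs⟩
  rcases h with h | h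
  · -- the subrepresentation (V, sum of the images)
    let ψ : (Fin n → V) →ₗ[K] W := ∑ j, (f j).comp (LinearMap.proj j)
    have hfin : Module.finrank K (LinearMap.range ψ) ≤ n * Module.finrank K V := by
      refine (LinearMap.finrank_range_le ψ).trans (le_of_eq ?_)
      rw [Module.finrank_pi_fintype, Finset.sum_const, Finset.card_univ, Fintype.card_fin,
        smul_eq_mul]
    have hsub : IsSubrep f (⊤ : Submodule K V) (LinearMap.range ψ) := by
      intro j
      rintro w ⟨v, _, rfl⟩
      refine ⟨Pi.single j v, ?_⟩
      simp only [ψ, LinearMap.sum_apply, LinearMap.comp_apply, LinearMap.proj_apply]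
      rw [Finset.sum_eq_single j]
      · simp
      · intro b _ hb
        simp [Pi.single_apply, hb]
      · simp
    have hne : LinearMap.range ψ ≠ ⊤ := by
      intro htop
      have := Submodule.finrank_le (LinearMap.range ψ)
      rw [htop, finrank_top] at hfin
      omega
    have := hs ⊤ (LinearMap.range ψ) hsub (fun h' => top_ne_bot h'.1) (fun h' => hne h'.2)
    rw [finrank_top] at this
    have h2 : Module.finrank K V * Module.finrank K (LinearMap.range ψ) <
        Module.finrank K V * Module.finrank K W :=
      Nat.mul_lt_mul_of_pos_left (by omega) hV
    rw [mul_comm (Module.finrank K W)] at this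
    omega
  · -- the subrepresentation (common kernel, 0)
    let χ : V →ₗ[K] (Fin n → W) := LinearMap.pi f
    have hrk := LinearMap.finrank_range_add_finrank_ker χ
    have hfin : Module.finrank K (LinearMap.range χ) ≤ n * Module.finrank K W := by
      refine (Submodule.finrank_le _).trans (le_of_eq ?_)
      rw [Module.finrank_pi_fintype, Finset.sum_const, Finset.card_univ, Fintype.card_fin,
        smul_eq_mul]
    have hker : 0 < Module.finrank K (LinearMap.ker χ) := by omega
    have hsub : IsSubrep f (LinearMap.ker χ) (⊥ : Submodule K W) := by
      intro j
      rintro w ⟨v, hv, rfl⟩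
      have : χ v = 0 := hv
      have hj := congr_fun this j
      simp only [χ, LinearMap.pi_apply, Pi.zero_apply] at hj
      simp [hj]
    have hne : LinearMap.ker χ ≠ ⊥ := by
      intro hb
      rw [hb, finrank_bot] at hker
      omega
    have := hs (LinearMap.ker χ) ⊥ hsub (fun h' => hne h'.1) (fun h' => bot_ne_top h'.2)
    rw [finrank_bot, mul_zero] at this
    have := Nat.mul_pos hW hker
    omega

end Groth.Agent.S15560
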