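import Groth.Statements.S15562
import Groth.Agent.Lib_helper23_Kron
-- import your own Groth.Agent.* helpers here

set_option autoImplicit false
universe u v w
open KronMod

namespace Groth.Agent.S15562

/-- Over a field K, for V of dimension d₋₁ > 0 and W of dimension n·d₋₁, semistable Kronecker modules
with n arrows from V to W exist, and any two of them are isomorphic as Kronecker modules; in other
words the moduli space K(n; d₋₁, n·d₋₁) of semistable Kronecker modules is a single point. (The
published statement assumes K algebraically closed of characteristic zero and n ≥ 2; this row allows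
any field K and any number n of arrows.) -/
theorem result (K : Type u) [Field K] (V : Type v) (W : Type w)
    [AddCommGroup V] [Module K V] [FiniteDimensional K V]
    [AddCommGroup W] [Module K W] [FiniteDimensional K W]
    (n : ℕ) (hV : 0 < Module.finrank K V) (hW : Module.finrank K W = n * Module.finrank K V) :
    (∃ f : Fin n → (V →ₗ[K] W), KronMod.IsSemistable f) ∧
    ∀ f f' : Fin n → (V →ₗ[K] W), KronMod.IsSemistable f → KronMod.IsSemistable f' →
      KronMod.AreIso f f' := by
  have hdim : Module.finrank K (Fin n → V) = Module.finrank K W := by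
    rw [Groth.Agent.helper23Kron.finrank_fun_fin, hW]
  refine ⟨?_, ?_⟩
  · let e : (Fin n → V) ≃ₗ[K] W := LinearEquiv.ofFinrankEq _ _ hdim
    refine ⟨fun j => (e : (Fin n → V) →ₗ[K] W).comp (LinearMap.single K (fun _ => V) j), ?_⟩
    rw [Groth.Agent.helper23Kron.ss_iff_psi _ hV hW]
    have hψ : ⇑(Groth.Agent.helper23Kron.psiL
        (fun j => (e : (Fin n → V) →ₗ[K] W).comp (LinearMap.single K (fun _ => V) j))) = ⇑e := by
      funext v
      rw [Groth.Agent.helper23Kron.psiL_apply]
      simp only [LinearMap.coe_comp, LinearEquiv.coe_coe, Function.comp_apply,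
        LinearMap.coe_single]
      rw [← map_sum]
      congr 1
      exact (Finset.univ_sum_single v)
    rw [hψ]
    exact e.bijective
  · intro f f' hf hf'
    have hb := (Groth.Agent.helper23Kron.ss_iff_psi f hV hW).mp hf
    have hb' := (Groth.Agent.helper23Kron.ss_iff_psi f' hV hW).mp hf'
    let E := LinearEquiv.ofBijective (Groth.Agent.helper23Kron.psiL f) hb
    let E' := LinearEquiv.ofBijective (Groth.Agent.helper23Kron.psiL f') hb'
    refine ⟨LinearEquiv.refl K V, E.symm.trans E', fun j => ?_⟩
    ext v
    simp only [LinearMap.coe_comp, LinearEquiv.coe_coe, Function.comp_apply,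
      LinearEquiv.refl_apply, LinearEquiv.trans_apply]
    have h1 : E.symm (f j v) = Pi.single j v := by
      rw [LinearEquiv.symm_apply_eq]
      show f j v = Groth.Agent.helper23Kron.psiL f (Pi.single j v)
      rw [Groth.Agent.helper23Kron.psiL_single]
    rw [h1]
    show Groth.Agent.helper23Kron.psiL f' (Pi.single j v) = f' j v
    rw [Groth.Agent.helper23Kron.psiL_single]

end Groth.Agent.S15562
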