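import Groth.Statements.S15563
import Groth.Agent.Lib_helper23_Kron
-- import your own Groth.Agent.* helpers here

set_option autoImplicit false
universe u v w
open KronMod

namespace Groth.Agent.S15563

/-- Let f be a Kronecker module with n arrows over a field K, from V of dimension d₋₁ > 0 to W of
dimension n·d₋₁. Then f is stable if and only if f is semistable and d₋₁ = 1: for d₋₁ = 1 every
semistable module is stable (so the stable locus of K(n; 1, n) is the one point), while for d₋₁ > 1
no module is stable. (The published statement assumes K algebraically closed of characteristic zero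
and n ≥ 2; this row allows any field K and any number n of arrows.) -/
theorem result (K : Type u) [Field K] (V : Type v) (W : Type w)
    [AddCommGroup V] [Module K V] [FiniteDimensional K V]
    [AddCommGroup W] [Module K W] [FiniteDimensional K W]
    (n : ℕ) (f : Fin n → (V →ₗ[K] W))
    (hV : 0 < Module.finrank K V) (hW : Module.finrank K W = n * Module.finrank K V) :
    KronMod.IsStable f ↔ (KronMod.IsSemistable f ∧ Module.finrank K V = 1) := by
  have : Nontrivial V := Module.nontrivial_of_finrank_pos hV
  constructor
  · intro hst
    refine ⟨⟨hst.1, fun V' W' h a b => le_of_lt (hst.2 V' W' h a b)⟩, ?_⟩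
    by_contra h1
    have h2 : 2 ≤ Module.finrank K V := by omega
    obtain ⟨v, hv⟩ := exists_ne (0 : V)
    let V' : Submodule K V := K ∙ v
    have hV' : Module.finrank K V' = 1 := finrank_span_singleton hv
    let φ : (Fin n → K) →ₗ[K] W := (Groth.Agent.helper23Kron.psiL f).comp
      (LinearMap.pi fun j => (LinearMap.proj j : (Fin n → K) →ₗ[K] K).smulRight v)
    have hφ : Module.finrank K (LinearMap.range φ) ≤ n := by
      refine (LinearMap.finrank_range_le φ).trans (le_of_eq ?_)
      simp
    have hsub : IsSubrep f V' (LinearMap.range φ) := by
      intro j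
      rintro w ⟨x, hx, rfl⟩
      obtain ⟨a, rfl⟩ := Submodule.mem_span_singleton.mp hx
      refine ⟨Pi.single j a, ?_⟩
      have : (LinearMap.pi fun j => (LinearMap.proj j : (Fin n → K) →ₗ[K] K).smulRight v)
          (Pi.single j a) = Pi.single j (a • v) := by
        funext i
        by_cases hij : i = j
        · subst hij; simp
        · simp [hij]
      simp only [φ, LinearMap.coe_comp, Function.comp_apply]
      rw [this, Groth.Agent.helper23Kron.psiL_single]
    have hne1 : V' ≠ ⊥ := by
      intro hb
      apply hv
      have : v ∈ V' := Submodule.mem_span_singleton_self v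
      rw [hb] at this
      exact (Submodule.mem_bot K).mp this
    have hne2 : V' ≠ ⊤ := by
      intro ht
      have : Module.finrank K V' = Module.finrank K V := by rw [ht, finrank_top]
      omega
    have := hst.2 V' (LinearMap.range φ) hsub (fun h' => hne1 h'.1) (fun h' => hne2 h'.1)
    rw [hV', hW, mul_one] at this
    have h3 : Module.finrank K V * Module.finrank K (LinearMap.range φ) ≤
        Module.finrank K V * n := Nat.mul_le_mul_left _ hφ
    rw [mul_comm n] at this
    omega
  · rintro ⟨hss, h1⟩
    have hb := (Groth.Agent.helper23Kron.ss_iff_psi f hV hW).mp hss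
    refine ⟨hss.1, ?_⟩
    intro V' W' hsub hn1 hn2
    have hle := Submodule.finrank_le V'
    rw [h1] at hle
    rcases Nat.le_one_iff_eq_zero_or_eq_one.mp hle with h0 | h0
    · have hVb : V' = ⊥ := Submodule.finrank_eq_zero.mp h0
      have hWb : W' ≠ ⊥ := fun h' => hn1 ⟨hVb, h'⟩
      have hpos : 0 < Module.finrank K W' := by
        rw [Nat.pos_iff_ne_zero]
        intro h'
        exact hWb (Submodule.finrank_eq_zero.mp h')
      rw [h0, mul_zero, h1, one_mul]
      exact hpos
    · have hVt : V' = ⊤ := Submodule.eq_top_of_finrank_eq (h0.trans h1.symm)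
      exfalso
      apply hn2
      refine ⟨hVt, ?_⟩
      rw [eq_top_iff]
      intro w _
      obtain ⟨x, rfl⟩ := hb.2 w
      rw [Groth.Agent.helper23Kron.psiL_apply]
      refine Submodule.sum_mem _ fun j _ => hsub j ⟨x j, ?_, rfl⟩
      rw [hVt]
      exact Submodule.mem_top

end Groth.Agent.S15563
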