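import Groth.Statements.S15564
import Mathlib.Tactic
-- import your own Groth.Agent.* helpers here

set_option autoImplicit false
universe u v w
open KronMod

namespace Groth.Agent.S15564

theorem sub_bot_or_top_h23 {K : Type u} [Field K] {U : Type v} [AddCommGroup U] [Module K U]
    [FiniteDimensional K U] (hU : Module.finrank K U = 1) (U' : Submodule K U) :
    U' = ⊥ ∨ U' = ⊤ := by
  have h := Submodule.finrank_le U'
  rw [hU] at h
  rcases Nat.le_one_iff_eq_zero_or_eq_one.mp h with h0 | h1
  · exact Or.inl (Submodule.finrank_eq_zero.mp h0)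
  · exact Or.inr (Submodule.eq_top_of_finrank_eq (h1.trans hU.symm))

/-- For a Kronecker module f with n arrows over a field K between one-dimensional spaces V and W,
semistability, stability and f ≠ 0 are equivalent: the semistable locus and the stable locus of
dimension vector (1, 1) are both the complement of the zero module. (The published statement assumes
K algebraically closed of characteristic zero and n ≥ 2; this row allows any field K and any n.) -/
theorem result (K : Type u) [Field K] (V : Type v) (W : Type w)
    [AddCommGroup V] [Module K V] [FiniteDimensional K V]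
    [AddCommGroup W] [Module K W] [FiniteDimensional K W]
    (n : ℕ) (f : Fin n → (V →ₗ[K] W))
    (hV : Module.finrank K V = 1) (hW : Module.finrank K W = 1) :
    (KronMod.IsSemistable f ↔ f ≠ 0) ∧ (KronMod.IsStable f ↔ f ≠ 0) := by
  have : Nontrivial V := Module.nontrivial_of_finrank_eq_succ hV
  have : Nontrivial W := Module.nontrivial_of_finrank_eq_succ hW
  -- the subrepresentation (⊤, ⊥) exists exactly when f = 0
  have hsub0 : f = 0 → IsSubrep f (⊤ : Submodule K V) (⊥ : Submodule K W) := by
    intro hf j
    rw [hf]
    simp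
  have hne1 : ¬ ((⊤ : Submodule K V) = ⊥ ∧ (⊥ : Submodule K W) = ⊥) := fun h => top_ne_bot h.1
  have hne2 : ¬ ((⊤ : Submodule K V) = ⊤ ∧ (⊥ : Submodule K W) = ⊤) := fun h => bot_ne_top h.2
  have hstab : f ≠ 0 → IsStable f := by
    intro hf
    refine ⟨by omega, ?_⟩
    intro V' W' hs h1 h2
    rw [hV, hW]
    rcases sub_bot_or_top_h23 hV V' with rfl | rfl <;>
      rcases sub_bot_or_top_h23 hW W' with rfl | rfl
    · exact absurd ⟨rfl, rfl⟩ h1
    · simp [hW]
    · exfalso
      apply hf
      funext j
      have := hs j
      rw [Submodule.map_top, le_bot_iff, LinearMap.range_eq_bot] at this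
      simpa using this
    · exact absurd ⟨rfl, rfl⟩ h2
  refine ⟨⟨fun hs hf => ?_, fun hf => ?_⟩, ⟨fun hs hf => ?_, hstab⟩⟩
  · have := hs.2 ⊤ ⊥ (hsub0 hf) hne1 hne2
    simp [hV, hW] at this
  · refine ⟨(hstab hf).1, fun V' W' h a b => le_of_lt ((hstab hf).2 V' W' h a b)⟩
  · have := hs.2 ⊤ ⊥ (hsub0 hf) hne1 hne2
    simp [hV, hW] at this

end Groth.Agent.S15564
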