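import Groth.Statements.S15565
import Mathlib.Tactic
import Mathlib.LinearAlgebra.Eigenspace.Triangularizable
-- import your own Groth.Agent.* helpers here

set_option autoImplicit false
universe u v w
open KronMod

namespace Groth.Agent.S15565

/-- Over an algebraically closed field K, a Kronecker module with two arrows between spaces V and W of
the same dimension k ≥ 2 is never stable: the stable locus of dimension vector (k, k) for the
Kronecker quiver with two arrows is empty. (The published statement also assumes characteristic
zero; this row does not.) -/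
theorem result (K : Type u) [Field K] [IsAlgClosed K] (V : Type v) (W : Type w)
    [AddCommGroup V] [Module K V] [FiniteDimensional K V]
    [AddCommGroup W] [Module K W] [FiniteDimensional K W]
    (f : Fin 2 → (V →ₗ[K] W)) (k : ℕ) (hk : 2 ≤ k)
    (hV : Module.finrank K V = k) (hW : Module.finrank K W = k) :
    ¬ KronMod.IsStable f := by
  have : Nontrivial V := Module.nontrivial_of_finrank_pos (show 0 < Module.finrank K V by omega)
  rintro ⟨_, hs⟩
  -- find a nonzero `v` whose two images lie on a common line
  obtain ⟨v, w, hv, h0, h1⟩ : ∃ (v : V) (w : W), v ≠ 0 ∧ f 0 v ∈ K ∙ w ∧ f 1 v ∈ K ∙ w := by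
    by_cases hinj : Function.Injective (f 0)
    · have hsurj : Function.Surjective (f 0) :=
        (LinearMap.injective_iff_surjective_of_finrank_eq_finrank (hV.trans hW.symm)).mp hinj
      let e := LinearEquiv.ofBijective (f 0) ⟨hinj, hsurj⟩
      let T : Module.End K V := (e.symm : W →ₗ[K] V).comp (f 1)
      obtain ⟨μ, hμ⟩ := Module.End.exists_eigenvalue T
      obtain ⟨x, hx⟩ := hμ.exists_hasEigenvector
      have hTx := hx.apply_eq_smul
      refine ⟨x, f 0 x, hx.2, Submodule.mem_span_singleton_self _, ?_⟩
      have : f 1 x = μ • f 0 x := by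
        have h2 : e (T x) = e (μ • x) := by rw [hTx]
        simp only [T, LinearMap.coe_comp, LinearEquiv.coe_coe, Function.comp_apply,
          LinearEquiv.apply_symm_apply, map_smul] at h2
        exact h2
      rw [this]
      exact Submodule.smul_mem _ _ (Submodule.mem_span_singleton_self _)
    · rw [injective_iff_map_eq_zero] at hinj
      push Not at hinj
      obtain ⟨x, hx0, hx⟩ := hinj
      refine ⟨x, f 1 x, hx, ?_, Submodule.mem_span_singleton_self _⟩
      rw [hx0]
      exact Submodule.zero_mem _
  have hsub : IsSubrep f (K ∙ v) (K ∙ w) := by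
    intro j
    rintro y ⟨x, hx, rfl⟩
    obtain ⟨a, rfl⟩ := Submodule.mem_span_singleton.mp hx
    rw [map_smul]
    refine Submodule.smul_mem _ _ ?_
    fin_cases j
    · exact h0
    · exact h1
  have hV' : Module.finrank K (K ∙ v) = 1 := finrank_span_singleton hv
  have hW' : Module.finrank K (K ∙ w) ≤ 1 := by
    have := finrank_span_le_card (R := K) ({w} : Set W)
    simpa using this
  have hne1 : (K ∙ v) ≠ ⊥ := by
    intro hb
    have : Module.finrank K (K ∙ v) = 0 := by rw [hb, finrank_bot]
    omega
  have hne2 : (K ∙ v) ≠ ⊤ := by
    intro ht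
    have : Module.finrank K (K ∙ v) = k := by rw [ht, finrank_top, hV]
    omega
  have := hs _ _ hsub (fun h' => hne1 h'.1) (fun h' => hne2 h'.1)
  rw [hV', hV, hW, mul_one] at this
  have : k * Module.finrank K (K ∙ w) ≤ k * 1 := Nat.mul_le_mul_left _ hW'
  omega

end Groth.Agent.S15565
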