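import Groth.Statements.S15567
import Mathlib.Tactic
import Mathlib.LinearAlgebra.Dual.Lemmas
-- import your own Groth.Agent.* helpers here

set_option autoImplicit false
universe u v w
open KronMod

namespace Groth.Agent.S15567

/-- generic (semi)stability with comparison relation `R` -/
def GenStab {K : Type u} [Field K] {V : Type v} {W : Type w}
    [AddCommGroup V] [Module K V] [AddCommGroup W] [Module K W] {n : ℕ}
    (R : ℕ → ℕ → Prop) (f : Fin n → (V →ₗ[K] W)) : Prop :=
  0 < Module.finrank K V + Module.finrank K W ∧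
  ∀ (V' : Submodule K V) (W' : Submodule K W), IsSubrep f V' W' →
    ¬ (V' = ⊥ ∧ W' = ⊥) → ¬ (V' = ⊤ ∧ W' = ⊤) →
    R (Module.finrank K W * Module.finrank K V') (Module.finrank K V * Module.finrank K W')

theorem genA {K : Type u} [Field K] {V : Type v} {W : Type w}
    [AddCommGroup V] [Module K V] [FiniteDimensional K V]
    [AddCommGroup W] [Module K W] [FiniteDimensional K W] {n : ℕ}
    (R : ℕ → ℕ → Prop)
    (hR : ∀ dV dW v' w' q p : ℕ, q + v' = dV → p + w' = dW →
      R (dW * v') (dV * w') → R (dV * p) (dW * q))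
    (f : Fin n → (V →ₗ[K] W)) (hf : GenStab R f) : GenStab R (fun j => (f j).dualMap) := by
  refine ⟨by have := hf.1; rw [Subspace.dual_finrank_eq, Subspace.dual_finrank_eq]; omega, ?_⟩
  intro P Q hsub hn1 hn2
  rw [Subspace.dual_finrank_eq, Subspace.dual_finrank_eq]
  have hsub' : IsSubrep f Q.dualCoannihilator P.dualCoannihilator := by
    intro j
    rintro w ⟨x, hx, rfl⟩
    rw [SetLike.mem_coe, Submodule.mem_dualCoannihilator] at hx
    rw [Submodule.mem_dualCoannihilator]
    intro ψ hψ
    have := hsub j ⟨ψ, hψ, rfl⟩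
    exact hx _ this
  have hq := Subspace.finrank_add_finrank_dualCoannihilator_eq Q
  have hp := Subspace.finrank_add_finrank_dualCoannihilator_eq P
  have hn1' : ¬ (Q.dualCoannihilator = ⊥ ∧ P.dualCoannihilator = ⊥) := by
    rintro ⟨h1, h2⟩
    rw [h1, finrank_bot, add_zero] at hq
    rw [h2, finrank_bot, add_zero] at hp
    apply hn2
    refine ⟨Submodule.eq_top_of_finrank_eq ?_, Submodule.eq_top_of_finrank_eq ?_⟩
    · rw [hp, Subspace.dual_finrank_eq]
    · rw [hq, Subspace.dual_finrank_eq]
  have hn2' : ¬ (Q.dualCoannihilator = ⊤ ∧ P.dualCoannihilator = ⊤) := by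
    rintro ⟨h1, h2⟩
    rw [h1, finrank_top] at hq
    rw [h2, finrank_top] at hp
    apply hn1
    refine ⟨Submodule.finrank_eq_zero.mp (by omega), Submodule.finrank_eq_zero.mp (by omega)⟩
  have := hf.2 _ _ hsub' hn1' hn2'
  exact hR _ _ _ _ _ _ hq hp this

theorem genB {K : Type u} [Field K] {V : Type v} {W : Type w}
    [AddCommGroup V] [Module K V] [FiniteDimensional K V]
    [AddCommGroup W] [Module K W] [FiniteDimensional K W] {n : ℕ}
    (R : ℕ → ℕ → Prop)
    (hR : ∀ dV dW v' w' q p : ℕ, q + v' = dV → p + w' = dW →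
      R (dV * p) (dW * q) → R (dW * v') (dV * w'))
    (f : Fin n → (V →ₗ[K] W)) (hf : GenStab R (fun j => (f j).dualMap)) : GenStab R f := by
  refine ⟨by have := hf.1; rw [Subspace.dual_finrank_eq, Subspace.dual_finrank_eq] at this; omega, ?_⟩
  intro V' W' hsub hn1 hn2
  have hsub' : IsSubrep (fun j => (f j).dualMap) W'.dualAnnihilator V'.dualAnnihilator := by
    intro j
    rintro φ ⟨ψ, hψ, rfl⟩
    rw [SetLike.mem_coe, Submodule.mem_dualAnnihilator] at hψ
    rw [Submodule.mem_dualAnnihilator]
    intro x hx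
    exact hψ _ (hsub j ⟨x, hx, rfl⟩)
  have hv := Subspace.finrank_add_finrank_dualAnnihilator_eq V'
  have hw := Subspace.finrank_add_finrank_dualAnnihilator_eq W'
  have hn1' : ¬ (W'.dualAnnihilator = ⊥ ∧ V'.dualAnnihilator = ⊥) := by
    rintro ⟨h1, h2⟩
    rw [h1, finrank_bot, add_zero] at hw
    rw [h2, finrank_bot, add_zero] at hv
    exact hn2 ⟨Submodule.eq_top_of_finrank_eq hv, Submodule.eq_top_of_finrank_eq hw⟩
  have hn2' : ¬ (W'.dualAnnihilator = ⊤ ∧ V'.dualAnnihilator = ⊤) := by
    rintro ⟨h1, h2⟩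
    rw [h1, finrank_top, Subspace.dual_finrank_eq] at hw
    rw [h2, finrank_top, Subspace.dual_finrank_eq] at hv
    exact hn1 ⟨Submodule.finrank_eq_zero.mp (by omega), Submodule.finrank_eq_zero.mp (by omega)⟩
  have := hf.2 _ _ hsub' hn1' hn2'
  rw [Subspace.dual_finrank_eq, Subspace.dual_finrank_eq] at this
  -- q + v' = dV with q = finrank V'^⊥ etc.
  exact hR _ _ _ _ _ _ (by omega) (by omega) this

/-- Duality of Kronecker modules. Let f be a Kronecker module with n arrows over a field K, from V to W,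
both finite-dimensional. The dual module has arrows the transposes f_j^∨ : W^∨ → V^∨, so its
dimension vector is (d₀, d₋₁). Then f is semistable if and only if its dual is, and f is stable if
and only if its dual is. This is the module-level content of the isomorphism K(n; d₋₁, d₀) ≅ K(n;
d₀, d₋₁) of moduli spaces, stated here without the moduli spaces. (The published statement assumes K
algebraically closed of characteristic zero and n ≥ 2; this row allows any field K and any number n
of arrows.) -/
theorem result (K : Type u) [Field K] (V : Type v) (W : Type w)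
    [AddCommGroup V] [Module K V] [FiniteDimensional K V]
    [AddCommGroup W] [Module K W] [FiniteDimensional K W]
    (n : ℕ) (f : Fin n → (V →ₗ[K] W)) :
    (KronMod.IsSemistable f ↔ KronMod.IsSemistable (fun j => (f j).dualMap)) ∧
    (KronMod.IsStable f ↔ KronMod.IsStable (fun j => (f j).dualMap)) := by
  have hle1 : ∀ dV dW v' w' q p : ℕ, q + v' = dV → p + w' = dW →
      dW * v' ≤ dV * w' → dV * p ≤ dW * q := by
    intro dV dW v' w' q p h1 h2 h3; subst h1 h2; nlinarith
  have hle2 : ∀ dV dW v' w' q p : ℕ, q + v' = dV → p + w' = dW →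
      dV * p ≤ dW * q → dW * v' ≤ dV * w' := by
    intro dV dW v' w' q p h1 h2 h3; subst h1 h2; nlinarith
  have hlt1 : ∀ dV dW v' w' q p : ℕ, q + v' = dV → p + w' = dW →
      dW * v' < dV * w' → dV * p < dW * q := by
    intro dV dW v' w' q p h1 h2 h3; subst h1 h2; nlinarith
  have hlt2 : ∀ dV dW v' w' q p : ℕ, q + v' = dV → p + w' = dW →
      dV * p < dW * q → dW * v' < dV * w' := by
    intro dV dW v' w' q p h1 h2 h3; subst h1 h2; nlinarith
  exact ⟨⟨genA (· ≤ ·) hle1 f, genB (· ≤ ·) hle2 f⟩, ⟨genA (· < ·) hlt1 f, genB (· < ·) hlt2 f⟩⟩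

end Groth.Agent.S15567
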