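import Groth.Statements.S15569
import Groth.Agent.Lib_helper23_Kron
-- import your own Groth.Agent.* helpers here

set_option autoImplicit false
universe u v w
open KronMod

namespace Groth.Agent.S15569

/-- Over a field K, for W of dimension d₀ > 0 and V of dimension n·d₀, semistable Kronecker modules with
n arrows from V to W exist, and any two of them are isomorphic as Kronecker modules: the moduli
space K(n; n·d₀, d₀) is a single point. This is the case dual to dimension vector (d₋₁, n·d₋₁). (The
published statement assumes K algebraically closed of characteristic zero and n ≥ 2; this row allows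
any field K and any number n of arrows.) -/
theorem result (K : Type u) [Field K] (V : Type v) (W : Type w)
    [AddCommGroup V] [Module K V] [FiniteDimensional K V]
    [AddCommGroup W] [Module K W] [FiniteDimensional K W]
    (n : ℕ) (hW : 0 < Module.finrank K W) (hV : Module.finrank K V = n * Module.finrank K W) :
    (∃ f : Fin n → (V →ₗ[K] W), KronMod.IsSemistable f) ∧
    ∀ f f' : Fin n → (V →ₗ[K] W), KronMod.IsSemistable f → KronMod.IsSemistable f' →
      KronMod.AreIso f f' := by
  have hdim : Module.finrank K V = Module.finrank K (Fin n → W) := by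
    rw [Groth.Agent.helper23Kron.finrank_fun_fin, hV]
  refine ⟨?_, ?_⟩
  · let e : V ≃ₗ[K] (Fin n → W) := LinearEquiv.ofFinrankEq _ _ hdim
    refine ⟨fun j => (LinearMap.proj j).comp (e : V →ₗ[K] (Fin n → W)), ?_⟩
    rw [Groth.Agent.helper23Kron.ss_iff_chi _ hW hV]
    have hχ : ⇑(LinearMap.pi (fun j => (LinearMap.proj j).comp (e : V →ₗ[K] (Fin n → W)))) =
        ⇑e := by
      funext v
      funext j
      simp
    rw [hχ]
    exact e.bijective
  · intro f f' hf hf'
    have hb := (Groth.Agent.helper23Kron.ss_iff_chi f hW hV).mp hf
    have hb' := (Groth.Agent.helper23Kron.ss_iff_chi f' hW hV).mp hf'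
    let E := LinearEquiv.ofBijective (LinearMap.pi f) hb
    let E' := LinearEquiv.ofBijective (LinearMap.pi f') hb'
    refine ⟨E.trans E'.symm, LinearEquiv.refl K W, fun j => ?_⟩
    ext v
    simp only [LinearMap.coe_comp, LinearEquiv.coe_coe, Function.comp_apply,
      LinearEquiv.refl_apply, LinearEquiv.trans_apply]
    have h1 : E' (E'.symm (E v)) = E v := E'.apply_symm_apply (E v)
    have h2 := congr_fun h1 j
    exact h2.symm

end Groth.Agent.S15569
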