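import Groth.Statements.S15570
import Groth.Agent.Lib_helper23_Kron
-- import your own Groth.Agent.* helpers here

set_option autoImplicit false
universe u v w
open KronMod

namespace Groth.Agent.S15570

/-- Let f be a Kronecker module with n arrows over a field K, from V of dimension n·d₀ to W of dimension
d₀ > 0. Then f is stable if and only if f is semistable and d₀ = 1: for d₀ = 1 every semistable
module is stable (the stable locus of K(n; n, 1) is the one point), while for d₀ > 1 no module is
stable. This is the case dual to dimension vector (d₋₁, n·d₋₁). (The published statement assumes K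
algebraically closed of characteristic zero and n ≥ 2; this row allows any field K and any number n
of arrows.) -/
theorem result (K : Type u) [Field K] (V : Type v) (W : Type w)
    [AddCommGroup V] [Module K V] [FiniteDimensional K V]
    [AddCommGroup W] [Module K W] [FiniteDimensional K W]
    (n : ℕ) (f : Fin n → (V →ₗ[K] W))
    (hW : 0 < Module.finrank K W) (hV : Module.finrank K V = n * Module.finrank K W) :
    KronMod.IsStable f ↔ (KronMod.IsSemistable f ∧ Module.finrank K W = 1) := by
  have : Nontrivial W := Module.nontrivial_of_finrank_pos hW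
  constructor
  · intro hst
    refine ⟨⟨hst.1, fun V' W' h a b => le_of_lt (hst.2 V' W' h a b)⟩, ?_⟩
    by_contra h1
    have h2 : 2 ≤ Module.finrank K W := by omega
    let b := Module.finBasis K W
    let i0 : Fin (Module.finrank K W) := ⟨0, hW⟩
    let ℓ : W →ₗ[K] K := b.coord i0
    have hℓsurj : Function.Surjective ℓ := by
      intro c
      refine ⟨c • b i0, ?_⟩
      simp [ℓ]
    have hrn := LinearMap.finrank_range_add_finrank_ker ℓ
    rw [LinearMap.range_eq_top.mpr hℓsurj, finrank_top, Module.finrank_self] at hrn
    let χ : V →ₗ[K] (Fin n → K) := LinearMap.pi fun j => ℓ.comp (f j)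
    have hrn2 := LinearMap.finrank_range_add_finrank_ker χ
    have hχ : Module.finrank K (LinearMap.range χ) ≤ n := by
      refine (Submodule.finrank_le _).trans (le_of_eq ?_)
      simp
    have hsub : IsSubrep f (LinearMap.ker χ) (LinearMap.ker ℓ) := by
      intro j
      rintro w ⟨x, hx, rfl⟩
      have hj := congr_fun (show χ x = 0 from hx) j
      simpa [χ] using hj
    have hne1 : LinearMap.ker ℓ ≠ ⊥ := by
      intro hb
      rw [hb, finrank_bot] at hrn
      omega
    have hne2 : LinearMap.ker ℓ ≠ ⊤ := by
      intro ht
      rw [ht, finrank_top] at hrn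
      omega
    have := hst.2 _ _ hsub (fun h' => hne1 h'.2) (fun h' => hne2 h'.2)
    rw [hV] at this
    set d := Module.finrank K W
    set a := Module.finrank K (LinearMap.ker χ)
    set c := Module.finrank K (LinearMap.ker ℓ)
    have hc : c + 1 = d := by omega
    have ha : n * d ≤ a + n := by omega
    have key : n * d * c ≤ d * a := by
      have e1 : n * d * c + n * d = n * d * d := by rw [← hc]; ring
      nlinarith
    omega
  · rintro ⟨hss, h1⟩
    have hb := (Groth.Agent.helper23Kron.ss_iff_chi f hW hV).mp hss
    refine ⟨hss.1, ?_⟩
    intro V' W' hsub hn1 hn2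
    have hle := Submodule.finrank_le W'
    rw [h1] at hle
    rcases Nat.le_one_iff_eq_zero_or_eq_one.mp hle with h0 | h0
    · have hWb : W' = ⊥ := Submodule.finrank_eq_zero.mp h0
      exfalso
      apply hn1
      refine ⟨?_, hWb⟩
      rw [eq_bot_iff]
      intro x hx
      rw [Submodule.mem_bot]
      apply hb.1
      rw [map_zero]
      funext j
      have := hsub j ⟨x, hx, rfl⟩
      rw [hWb, Submodule.mem_bot] at this
      simpa using this
    · have hWt : W' = ⊤ := Submodule.eq_top_of_finrank_eq (h0.trans h1.symm)
      have hVt : V' ≠ ⊤ := fun h' => hn2 ⟨h', hWt⟩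
      have hlt := Submodule.finrank_lt hVt
      rw [hV, h1] at hlt
      rw [h0, h1, hV, h1]
      omega

end Groth.Agent.S15570
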