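import Groth.Statements.S15572
import Groth.Agent.Lib_helper23_Kron
-- import your own Groth.Agent.* helpers here

set_option autoImplicit false
universe u v w
open KronMod

namespace Groth.Agent.S15572

/-- Let f be a Kronecker module with n arrows over a field K, from V of dimension n·d₀ to W of dimension
d₀ > 0. Then f is semistable if and only if the map V → Wⁿ sending v to (f_j(v))_j is bijective,
i.e. the arrows have zero common kernel. This is the characterisation dual to the one for dimension
vector (d₋₁, n·d₋₁), where the sum map Vⁿ → W is bijective. (The published statement assumes K
algebraically closed of characteristic zero and n ≥ 2; this row allows any field K and any number n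
of arrows.) -/
theorem result (K : Type u) [Field K] (V : Type v) (W : Type w)
    [AddCommGroup V] [Module K V] [FiniteDimensional K V]
    [AddCommGroup W] [Module K W] [FiniteDimensional K W]
    (n : ℕ) (f : Fin n → (V →ₗ[K] W))
    (hW : 0 < Module.finrank K W) (hV : Module.finrank K V = n * Module.finrank K W) :
    KronMod.IsSemistable f ↔ Function.Bijective (fun v : V => fun j : Fin n => f j v) := by
  exact Groth.Agent.helper23Kron.ss_iff_chi f hW hV

end Groth.Agent.S15572
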