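import Groth.Statements.S15590
import Mathlib.Tactic
import Mathlib.RingTheory.Flat.FaithfullyFlat.Algebra
import Mathlib.RingTheory.Ideal.GoingUp
import Mathlib.RingTheory.DedekindDomain.Basic
import Mathlib.RingTheory.Localization.FractionRing
-- import your own Groth.Agent.* helpers here

set_option autoImplicit false
universe u v
open CAlg

namespace Groth.Agent.S15590

/-- Let A → B be an injective homomorphism of commutative rings which makes B a finite flat A-module,
and suppose B is a Dedekind domain (Noetherian, integrally closed, of Krull dimension at most one; a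
field is allowed). Then A is a Dedekind domain. -/
theorem result (A : Type u) (B : Type v)
    [CommRing A] [CommRing B] [Algebra A B] [IsDedekindDomain B]
    (hinj : Function.Injective (algebraMap A B)) [Module.Finite A B] [Module.Flat A B] :
    IsDedekindDomain A := by
  have : IsDomain A := hinj.isDomain
  have : FaithfulSMul A B := (faithfulSMul_iff_algebraMap_injective A B).mpr hinj
  have : Module.FaithfullyFlat A B := inferInstance
  -- Noetherian
  have hnoeth : IsNoetherianRing A := by
    have hB : WellFoundedGT (Ideal B) :=
      isNoetherian_iff'.mp (isNoetherianRing_iff.mp inferInstance)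
    have hsm : StrictMono (fun I : Ideal A => I.map (algebraMap A B)) :=
      Monotone.strictMono_of_injective (fun _ _ h => Ideal.map_mono h)
        Ideal.map_injective_of_faithfullyFlat
    have : WellFoundedGT (Ideal A) := hsm.wellFoundedGT
    exact isNoetherianRing_iff.mpr (isNoetherian_iff'.mpr this)
  -- dimension
  have hdim : Ring.DimensionLEOne A := by
    refine ⟨fun {p} hp0 hp => ?_⟩
    obtain ⟨Q, -, hQ, hQp⟩ := Ideal.exists_ideal_over_prime_of_isIntegral (S := B) p ⊥
      (by rw [Ideal.comap_bot_of_injective _ hinj]; exact bot_le)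
    have hQ0 : Q ≠ ⊥ := by
      rintro rfl
      apply hp0
      rw [← hQp, Ideal.comap_bot_of_injective _ hinj]
    have : Q.IsMaximal := Ideal.IsPrime.isMaximal hQ hQ0
    rw [← hQp]
    exact Ideal.isMaximal_comap_of_isIntegral_of_isMaximal Q
  rw [isDedekindDomain_iff A (FractionRing A)]
  refine ⟨inferInstance, hnoeth, hdim, ?_⟩
  intro x hx
  let L := FractionRing B
  let g : A →+* L := (algebraMap B L).comp (algebraMap A B)
  have hg : Function.Injective g := (IsFractionRing.injective B L).comp hinj
  let lift : FractionRing A →+* L := IsFractionRing.lift hg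
  obtain ⟨⟨a, s⟩, hxs⟩ := IsLocalization.mk'_surjective (nonZeroDivisors A) x
  -- y integral over B
  have hyint : IsIntegral B (lift x) := by
    obtain ⟨f, hfm, hf⟩ := hx
    refine ⟨f.map (algebraMap A B), hfm.map _, ?_⟩
    rw [Polynomial.eval₂_map]
    have : (algebraMap B L).comp (algebraMap A B) = lift.comp (algebraMap A (FractionRing A)) := by
      ext z
      simp [lift, g, IsFractionRing.lift_algebraMap]
    rw [this, ← Polynomial.hom_eval₂, hf, map_zero]
  obtain ⟨b, hb⟩ := IsIntegrallyClosed.isIntegral_iff.mp hyint
  have hs0 : g s ≠ 0 := by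
    intro h
    have : (s : A) = 0 := hg (by rw [h, map_zero])
    exact nonZeroDivisors.coe_ne_zero s this
  have hy : lift x = g a / g s := by
    rw [← hxs]
    exact IsFractionRing.lift_mk' hg a s
  have hbs : b * algebraMap A B s = algebraMap A B a := by
    apply IsFractionRing.injective B L
    rw [map_mul, hb, hy]
    change g a / g s * g s = g a
    exact div_mul_cancel₀ (g a) hs0
  have ha : a ∈ Ideal.span {(s : A)} := by
    rw [← Ideal.comap_map_eq_self_of_faithfullyFlat (B := B) (Ideal.span {(s : A)}),
      Ideal.mem_comap, Ideal.map_span, Set.image_singleton, Ideal.mem_span_singleton]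
    exact ⟨b, by rw [← hbs, mul_comm]⟩
  obtain ⟨c, hc⟩ := Ideal.mem_span_singleton.mp ha
  refine ⟨c, ?_⟩
  rw [← hxs, eq_comm, IsLocalization.mk'_eq_iff_eq_mul, hc, map_mul, mul_comm]

end Groth.Agent.S15590
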