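import Groth.Statements.S15706
import Mathlib.Tactic
import Mathlib.RingTheory.Ideal.AssociatedPrime.Finiteness
import Mathlib.RingTheory.Ideal.MinimalPrime.Localization
import Mathlib.RingTheory.Ideal.Operations
-- import your own Groth.Agent.* helpers here

set_option autoImplicit false
universe u
open CAlg

namespace Groth.Agent.S15706

/-- Let A be a Noetherian ring with Serre's property (S_1), stated here in the equivalent form that
every associated prime of A is a minimal prime of A. Let I be an ideal of A and b an element of A/I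
which is regular (a non-zero-divisor) in A/I. Then b is the image of a regular element of A. -/
theorem result (A : Type u) [CommRing A]
    [IsNoetherianRing A] (hS1 : ∀ p ∈ associatedPrimes A A, p ∈ minimalPrimes A) (I : Ideal A)
    (b : A ⧸ I) (hb : b ∈ nonZeroDivisors (A ⧸ I)) :
    ∃ a : A, a ∈ nonZeroDivisors A ∧ Ideal.Quotient.mk I a = b := by
  classical
  obtain ⟨c, rfl⟩ := Ideal.Quotient.mk_surjective b
  set S := associatedPrimes A A with hSdef
  have hSfin : S.Finite := associatedPrimes.finite A A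
  have hprime : ∀ p ∈ S, p.IsPrime := fun p hp => IsAssociatedPrime.isPrime hp
  set T : Set (Ideal A) := {p | p ∈ S ∧ c ∈ p} with hTdef
  set U : Set (Ideal A) := {p | p ∈ S ∧ c ∉ p} with hUdef
  have hTfin : T.Finite := hSfin.subset (fun p hp => hp.1)
  have hUfin : U.Finite := hSfin.subset (fun p hp => hp.1)
  have hTprime : ∀ p ∈ T, p.IsPrime := fun p hp => hprime p hp.1
  -- Claim 1
  have hI : ¬ ((I : Set A) ⊆ ⋃ p ∈ T, (fun q : Ideal A => q) p) := by
    intro h
    rw [Ideal.subset_union_prime_finite hTfin ⊥ ⊥ (fun p hp _ _ => hTprime p hp)] at h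
    obtain ⟨p, hpT, hIp⟩ := h
    have hpmin : p ∈ minimalPrimes A := hS1 p hpT.1
    have hpI : p ∈ I.minimalPrimes := by
      refine ⟨⟨hpmin.1.1, hIp⟩, fun q hq hqp => hpmin.2 ⟨hq.1, bot_le⟩ hqp⟩
    rw [Ideal.minimalPrimes_eq_comap] at hpI
    obtain ⟨q, hq, hqp⟩ := hpI
    have hcq : Ideal.Quotient.mk I c ∈ q := by
      have : c ∈ q.comap (Ideal.Quotient.mk I) := by rw [hqp]; exact hpT.2
      exact this
    exact notMem_nonZeroDivisors_of_mem_mem_minimalPrimes hcq hq hb
  -- Claim 2
  have hU : ∀ q ∈ U, ¬ ((q : Set A) ⊆ ⋃ p ∈ T, (fun q : Ideal A => q) p) := by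
    intro q hqU h
    rw [Ideal.subset_union_prime_finite hTfin ⊥ ⊥ (fun p hp _ _ => hTprime p hp)] at h
    obtain ⟨p, hpT, hqp⟩ := h
    have hpmin : p ∈ minimalPrimes A := hS1 p hpT.1
    have hqprime : q.IsPrime := hprime q hqU.1
    have hpq : p ≤ q := hpmin.2 ⟨hqprime, bot_le⟩ hqp
    exact hqU.2 (hpq hpT.2)
  choose! w hwq hwT using fun q (hq : q ∈ U) => Set.not_subset.mp (hU q hq)
  obtain ⟨z, hzI, hzT⟩ := Set.not_subset.mp hI
  let W : A := ∏ q ∈ hUfin.toFinset, w q
  have hWU : ∀ q ∈ U, W ∈ q := by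
    intro q hq
    have hdvd : w q ∣ W := Finset.dvd_prod_of_mem _ (hUfin.mem_toFinset.mpr hq)
    obtain ⟨k, hk⟩ := hdvd
    rw [hk]
    exact Ideal.mul_mem_right _ _ (hwq q hq)
  have hWT : ∀ p ∈ T, W ∉ p := by
    intro p hp hWp
    have := hTprime p hp
    rw [Ideal.IsPrime.prod_mem_iff] at hWp
    obtain ⟨q, hqU, hwp⟩ := hWp
    have hqU' : q ∈ U := hUfin.mem_toFinset.mp hqU
    apply hwT q hqU'
    exact Set.mem_biUnion hp hwp
  refine ⟨c + z * W, ?_, ?_⟩
  · have hnot : c + z * W ∉ ⋃ p ∈ S, (p : Set A) := by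
      intro hmem
      simp only [Set.mem_iUnion, SetLike.mem_coe] at hmem
      obtain ⟨p, hpS, hap⟩ := hmem
      have := hprime p hpS
      by_cases hcp : c ∈ p
      · have hzw : z * W ∈ p := by
          have := p.sub_mem hap hcp
          simpa using this
        rcases Ideal.IsPrime.mem_or_mem (hprime p hpS) hzw with hz | hW
        · exact hzT (Set.mem_biUnion (show p ∈ T from ⟨hpS, hcp⟩) hz)
        · exact hWT p ⟨hpS, hcp⟩ hW
      · have hW : W ∈ p := hWU p ⟨hpS, hcp⟩
        have : c ∈ p := by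
          have := p.sub_mem hap (Ideal.mul_mem_left p z hW)
          simpa using this
        exact hcp this
    rw [hSdef, biUnion_associatedPrimes_eq_compl_nonZeroDivisors] at hnot
    simpa using hnot
  · rw [map_add, map_mul, Ideal.Quotient.eq_zero_iff_mem.mpr hzI, zero_mul, add_zero]

end Groth.Agent.S15706
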