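import Groth.Statements.S15707
import Mathlib.Tactic
import Mathlib.RingTheory.Ideal.AssociatedPrime.Localization
-- import your own Groth.Agent.* helpers here

set_option autoImplicit false
universe u
open CAlg

namespace Groth.Agent.S15707

/-- Let A be a Noetherian ring with Serre's property (S_1), stated here as: every associated prime of A
is a minimal prime. Let I be an ideal and B = A/I. Then the B-module Hom_A(B, A), with B acting
through the source, is torsion-free: an A-linear map φ : B → A which is killed by a regular element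
b of B, in the sense that φ(b x) = 0 for all x, is zero. -/
theorem result (A : Type u) [CommRing A]
    [IsNoetherianRing A] (hS1 : ∀ p ∈ associatedPrimes A A, p ∈ minimalPrimes A) (I : Ideal A)
    (φ : (A ⧸ I) →ₗ[A] A) (b : A ⧸ I) (hb : b ∈ nonZeroDivisors (A ⧸ I))
    (h : ∀ x : A ⧸ I, φ (b * x) = 0) : φ = 0 := by
  refine LinearMap.ext fun x => ?_
  rw [LinearMap.zero_apply]
  by_contra hm
  obtain ⟨P, hP, hcolon⟩ := exists_le_isAssociatedPrime_of_isNoetherianRing A (φ x) hm
  have hPmin := hS1 P hP
  obtain ⟨a0, rfl⟩ := Ideal.Quotient.mk_surjective b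
  have hIP : I ≤ P := by
    intro i hi
    apply hcolon
    rw [Submodule.mem_colon_singleton, Submodule.mem_bot, ← map_smul]
    have : i • x = 0 := by
      obtain ⟨y, rfl⟩ := Ideal.Quotient.mk_surjective x
      rw [Algebra.smul_def, Ideal.Quotient.algebraMap_eq, ← map_mul,
        Ideal.Quotient.eq_zero_iff_mem]
      exact I.mul_mem_right _ hi
    rw [this, map_zero]
  have ha0 : a0 ∈ P := by
    apply hcolon
    rw [Submodule.mem_colon_singleton, Submodule.mem_bot, ← map_smul]
    have : a0 • x = Ideal.Quotient.mk I a0 * x := by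
      rw [Algebra.smul_def, Ideal.Quotient.algebraMap_eq]
    rw [this, h]
  -- P is a minimal prime over I, hence associated to A ⧸ I
  have hPI : P ∈ I.minimalPrimes := by
    refine ⟨⟨hP.isPrime, hIP⟩, fun q hq hqP => hPmin.2 ⟨hq.1, bot_le⟩ hqP⟩
  have hass : P ∈ associatedPrimes A (A ⧸ I) := by
    apply Module.associatedPrimes.minimalPrimes_annihilator_subset_associatedPrimes A (A ⧸ I)
    rw [Ideal.annihilator_quotient]
    exact hPI
  have hzd := biUnion_associatedPrimes_eq_zero_divisors A (A ⧸ I)
  have hmem : a0 ∈ ⋃ p ∈ associatedPrimes A (A ⧸ I), (p : Set A) :=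
    Set.mem_iUnion₂_of_mem hass ha0
  rw [hzd] at hmem
  obtain ⟨y, hy0, hy⟩ := hmem
  apply hy0
  have : y * Ideal.Quotient.mk I a0 = 0 := by
    rw [mul_comm, ← Ideal.Quotient.algebraMap_eq, ← Algebra.smul_def]
    exact hy
  exact (mem_nonZeroDivisors_iff.mp hb).2 y this

end Groth.Agent.S15707
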