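import Groth.Statements.S15749
import Mathlib.Tactic
import Mathlib.RingTheory.LaurentSeries
import Mathlib.RingTheory.Idempotents
import Mathlib.RingTheory.Nilpotent.Lemmas
import Mathlib.Algebra.Polynomial.Div
-- import your own Groth.Agent.* helpers here

set_option autoImplicit false
universe u
open CAlg

namespace Groth.Agent.S15749

/-- For an arbitrary commutative ring R, every idempotent of the ring of formal Laurent series R((t)) is
the constant series attached to a unique idempotent of R. Equivalently, the structure map R → R((t))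
induces a bijection on idempotents, so that the spectrum of R((t)) is connected if and only if the
spectrum of R is. No reducedness is assumed. -/
theorem result (R : Type u) [CommRing R]
    (e : LaurentSeries R) (he : IsIdempotentElem e) :
    ∃! r : R, IsIdempotentElem r ∧ HahnSeries.C r = e := by
  suffices H : ∃ r : R, HahnSeries.C r = e by
    obtain ⟨r, hr⟩ := H
    refine ⟨r, ⟨?_, hr⟩, fun s ⟨_, hs⟩ => HahnSeries.C_injective (hs.trans hr.symm)⟩
    apply HahnSeries.C_injective (Γ := ℤ)
    show HahnSeries.C (r * r) = HahnSeries.C r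
    rw [map_mul, hr]; exact he
  -- Step 1: coefficients away from 0 are nilpotent
  have hnil : ∀ n : ℤ, n ≠ 0 → IsNilpotent (e.coeff n) := by
    intro n hn
    rw [nilpotent_iff_mem_prime]
    intro P hP
    let f : R →ₙ+* R ⧸ P := (Ideal.Quotient.mk P).toNonUnitalRingHom
    have hidem : IsIdempotentElem (e.map f) := by
      show e.map f * e.map f = e.map f
      rw [← HahnSeries.map_mul, he.eq]
    rcases IsIdempotentElem.iff_eq_zero_or_one.mp hidem with h0 | h1
    · have := congrArg (fun s => s.coeff n) h0
      simp only [HahnSeries.map_coeff, HahnSeries.coeff_zero] at this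
      exact Ideal.Quotient.eq_zero_iff_mem.mp this
    · have := congrArg (fun s => s.coeff n) h1
      simp only [HahnSeries.map_coeff, HahnSeries.coeff_one, hn, if_false] at this
      exact Ideal.Quotient.eq_zero_iff_mem.mp this
  -- Step 2: the nonnegative part and the (nilpotent) negative part
  let p : PowerSeries R := PowerSeries.mk fun n => e.coeff n
  let x : LaurentSeries R := HahnSeries.ofPowerSeries ℤ R p
  have hxneg : ∀ n : ℤ, n < 0 → x.coeff n = 0 := by
    intro n hn
    simp only [x, HahnSeries.ofPowerSeries_apply]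
    apply HahnSeries.embDomain_of_notMem_range
    rintro ⟨m, hm⟩
    simp at hm
    omega
  have hxnn : ∀ m : ℕ, x.coeff m = e.coeff m := by
    intro m
    simp [x, p, HahnSeries.ofPowerSeries_apply_coeff]
  set ν := e - x with hν
  have hνnil : IsNilpotent ν := by
    have hsum : ν = ∑ n ∈ Finset.Ico e.order 0, HahnSeries.single n (e.coeff n) := by
      ext m
      rw [HahnSeries.coeff_sum, hν, HahnSeries.coeff_sub]
      by_cases hm : m ∈ Finset.Ico e.order 0
      · rw [Finset.sum_eq_single_of_mem m hm
          (fun b _ hbm => HahnSeries.coeff_single_of_ne (Ne.symm hbm)),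
          HahnSeries.coeff_single_same]
        rw [Finset.mem_Ico] at hm
        rw [hxneg m hm.2, sub_zero]
      · rw [Finset.sum_eq_zero (fun b hb => HahnSeries.coeff_single_of_ne
          (fun h => hm (by rw [h]; exact hb)))]
        rw [Finset.mem_Ico] at hm
        by_cases h1 : m < 0
        · rw [hxneg m h1, sub_zero]
          exact HahnSeries.coeff_eq_zero_of_lt_order (by
            by_contra h2; exact hm ⟨not_lt.mp h2, h1⟩)
        · obtain ⟨k, rfl⟩ : ∃ k : ℕ, m = k := ⟨m.toNat, by omega⟩
          rw [hxnn k, sub_self]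
    rw [hsum]
    refine isNilpotent_sum fun n hn => ?_
    have hn0 : n ≠ 0 := by simp [Finset.mem_Ico] at hn; omega
    have : HahnSeries.single n (e.coeff n) =
        HahnSeries.C (e.coeff n) * HahnSeries.single n (1 : R) := by
      rw [HahnSeries.C_apply, HahnSeries.single_mul_single, zero_add, mul_one]
    rw [this]
    exact Commute.isNilpotent_mul_right (Commute.all _ _) ((hnil n hn0).map HahnSeries.C)
  -- Step 3: lift
  have hxx : IsNilpotent (x - x ^ 2) := by
    have : x - x ^ 2 = ν * (2 * e - 1 - ν) := by
      have hx' : x = e - ν := by rw [hν]; ring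
      rw [hx']
      have := he.eq
      linear_combination (-1 : LaurentSeries R) * this
    rw [this]
    exact Commute.isNilpotent_mul_right (Commute.all _ _) hνnil
  obtain ⟨n, hn⟩ := hxx
  have hn' : (x - x ^ 2) ^ (n + 1) = 0 := by rw [pow_succ, hn, zero_mul]
  have hE := isIdempotentElem_one_sub_one_sub_pow_pow x (n + 1) hn'
  have hEe : 1 - (1 - x ^ (n + 1)) ^ (n + 1) = e := by
    apply eq_of_isNilpotent_sub_of_isIdempotentElem hE he
    have hqe : 1 - (1 - e ^ (n + 1)) ^ (n + 1) = e := by
      rw [he.pow_succ_eq, he.one_sub.pow_succ_eq]; ring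
    have hdvd : x - e ∣ (1 - (1 - x ^ (n + 1)) ^ (n + 1)) - e := by
      have := Polynomial.sub_dvd_eval_sub x e
        (1 - (1 - Polynomial.X ^ (n + 1)) ^ (n + 1) : Polynomial (LaurentSeries R))
      simp only [Polynomial.eval_sub, Polynomial.eval_one, Polynomial.eval_pow,
        Polynomial.eval_X] at this
      rw [hqe] at this
      exact this
    obtain ⟨c, hc⟩ := hdvd
    rw [hc]
    have : x - e = -ν := by rw [hν]; ring
    rw [this]
    exact Commute.isNilpotent_mul_right (Commute.all _ _) hνnil.neg
  set P : PowerSeries R := 1 - (1 - p ^ (n + 1)) ^ (n + 1) with hPdef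
  have hPe : HahnSeries.ofPowerSeries ℤ R P = e := by
    rw [← hEe, hPdef]
    simp only [map_sub, map_one, map_pow]
    rfl
  have hPidem : IsIdempotentElem P := by
    apply HahnSeries.ofPowerSeries_injective (Γ := ℤ) (R := R)
    show HahnSeries.ofPowerSeries ℤ R (P * P) = HahnSeries.ofPowerSeries ℤ R P
    rw [map_mul, hPe]; exact he
  -- Step 4: idempotent power series are constant
  set a₀ := PowerSeries.constantCoeff P with ha₀
  have hc : IsIdempotentElem (PowerSeries.C a₀ : PowerSeries R) :=
    (hPidem.map PowerSeries.constantCoeff).map PowerSeries.C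
  set d := P - PowerSeries.C a₀ with hd
  have hd3 : d ^ 3 = d := by
    have h1 := hPidem.eq
    have h2 := hc.eq
    rw [hd]
    linear_combination (P + 1 - 3 * PowerSeries.C a₀) * h1 + (3 * P - PowerSeries.C a₀ - 1) * h2
  have hd2 : IsIdempotentElem (d ^ 2) := by
    show d ^ 2 * d ^ 2 = d ^ 2
    calc d ^ 2 * d ^ 2 = d ^ 3 * d := by ring
    _ = d * d := by rw [hd3]
    _ = d ^ 2 := by ring
  have hXd : PowerSeries.X ∣ d := by
    rw [PowerSeries.X_dvd_iff, hd, map_sub, ha₀, PowerSeries.constantCoeff_C, sub_self]
  have hd2zero : d ^ 2 = 0 := by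
    ext m
    have hpow : d ^ 2 = (d ^ 2) ^ (m + 1) := (hd2.pow_succ_eq m).symm
    have hdvd : PowerSeries.X ^ (m + 1) ∣ d ^ 2 := by
      rw [hpow]; exact pow_dvd_pow_of_dvd (dvd_pow hXd two_ne_zero) _
    rw [PowerSeries.X_pow_dvd_iff] at hdvd
    simpa using hdvd m (Nat.lt_succ_self m)
  have hd0 : d = 0 := by rw [← hd3, pow_succ, hd2zero, zero_mul]
  have hP : P = PowerSeries.C a₀ := sub_eq_zero.mp hd0
  refine ⟨a₀, ?_⟩
  rw [← hPe, hP, HahnSeries.ofPowerSeries_C]

end Groth.Agent.S15749
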