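import Groth.Statements.S15817
import Mathlib.Tactic
import Mathlib.CategoryTheory.Limits.Types.Pullbacks
import Mathlib.Algebra.Category.ModuleCat.Limits
-- import your own Groth.Agent.* helpers here

set_option autoImplicit false
universe u v
open CategoryTheory
open CAlg

namespace Groth.Agent.S15817

/-- Let A be a commutative ring, M an A-module and P, Q submodules of M. Then the commuting square of
quotient projections with corners M/(P ∩ Q), M/P, M/Q and M/(P + Q) is cartesian in the category of
A-modules: M/(P ∩ Q) is the fibre product of M/P and M/Q over M/(P + Q). -/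
theorem result (A : Type u) [CommRing A] (M : Type v) [AddCommGroup M] [Module A M]
    (P Q : Submodule A M) :
    IsPullback (ModuleCat.ofHom (Submodule.factor (inf_le_left : P ⊓ Q ≤ P)))
      (ModuleCat.ofHom (Submodule.factor (inf_le_right : P ⊓ Q ≤ Q)))
      (ModuleCat.ofHom (Submodule.factor (le_sup_left : P ≤ P ⊔ Q)))
      (ModuleCat.ofHom (Submodule.factor (le_sup_right : Q ≤ P ⊔ Q))) := by
  have e : ModuleCat.ofHom (Submodule.factor (inf_le_left : P ⊓ Q ≤ P)) ≫
      ModuleCat.ofHom (Submodule.factor (le_sup_left : P ≤ P ⊔ Q)) =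
      ModuleCat.ofHom (Submodule.factor (inf_le_right : P ⊓ Q ≤ Q)) ≫
      ModuleCat.ofHom (Submodule.factor (le_sup_right : Q ≤ P ⊔ Q)) := by
    ext x
    rfl
  have : Limits.ReflectsLimit (Limits.cospan (ModuleCat.ofHom (Submodule.factor (le_sup_left : P ≤ P ⊔ Q)))
      (ModuleCat.ofHom (Submodule.factor (le_sup_right : Q ≤ P ⊔ Q)))) (forget (ModuleCat.{v} A)) :=
    Limits.reflectsLimit_of_reflectsIsomorphisms _ _
  refine IsPullback.of_map (forget (ModuleCat.{v} A)) e ?_
  rw [Limits.Types.isPullback_iff]
  refine ⟨?_, ?_, ?_⟩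
  · rw [← Functor.map_comp, ← Functor.map_comp, e]
  · rintro x y ⟨h1, h2⟩
    obtain ⟨x, rfl⟩ := Submodule.Quotient.mk_surjective _ x
    obtain ⟨y, rfl⟩ := Submodule.Quotient.mk_surjective _ y
    change Submodule.Quotient.mk x = Submodule.Quotient.mk y at h1
    change Submodule.Quotient.mk x = Submodule.Quotient.mk y at h2
    rw [Submodule.Quotient.eq] at h1 h2 ⊢
    exact ⟨h1, h2⟩
  · intro a c h
    obtain ⟨x, rfl⟩ := Submodule.Quotient.mk_surjective _ a
    obtain ⟨y, rfl⟩ := Submodule.Quotient.mk_surjective _ c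
    change Submodule.Quotient.mk x = Submodule.Quotient.mk y at h
    rw [Submodule.Quotient.eq] at h
    obtain ⟨p, hp, q, hq, hpq⟩ := Submodule.mem_sup.mp h
    refine ⟨Submodule.Quotient.mk (x - p), ?_, ?_⟩
    · change Submodule.Quotient.mk (x - p) = Submodule.Quotient.mk x
      rw [Submodule.Quotient.eq]
      simpa using P.neg_mem hp
    · change Submodule.Quotient.mk (x - p) = Submodule.Quotient.mk y
      rw [Submodule.Quotient.eq]
      have : x - p - y = q := by
        rw [show x - p - y = (x - y) - p by abel, ← hpq]; abel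
      rw [this]
      exact hq

end Groth.Agent.S15817
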