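import Groth.Statements.S15832
import Mathlib.Tactic
-- import your own Groth.Agent.* helpers here

set_option autoImplicit false
universe u
open TopGrp

namespace Groth.Agent.S15832

theorem aux {T : Type u} [Group T] (P : Subgroup T → Prop) (G : Set (Set T))
    (hG : ∀ S, S ∈ G ↔ ∃ Γ : Subgroup T, P Γ ∧ ∃ x y : T, S = (fun g : T => x * g * y) '' (Γ : Set T))
    [t : TopologicalSpace T] (ht : t = TopologicalSpace.generateFrom G) :
    NonarchimedeanGroup T := by
  have hopen : ∀ (Γ : Subgroup T), P Γ → ∀ x y : T,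
      IsOpen ((fun g : T => x * g * y) '' (Γ : Set T)) := by
    intro Γ hΓ x y
    rw [ht]
    exact TopologicalSpace.isOpen_generateFrom_of_mem ((hG _).mpr ⟨Γ, hΓ, x, y, rfl⟩)
  have hc : Continuous (fun p : T × T => p.1 * p.2) := by
    have key : ∀ s ∈ G, IsOpen ((fun p : T × T => p.1 * p.2) ⁻¹' s) := by
      intro s hs
      obtain ⟨Γ, hΓ, x, y, rfl⟩ := (hG s).mp hs
      rw [isOpen_prod_iff]
      intro a b hab
      obtain ⟨γ₀, hγ₀, he⟩ := hab
      simp only at he
      refine ⟨(fun g : T => (a * b * y⁻¹) * g * (y * b⁻¹)) '' (Γ : Set T),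
        (fun g : T => (b * y⁻¹) * g * y) '' (Γ : Set T), hopen Γ hΓ _ _, hopen Γ hΓ _ _,
        ⟨1, Γ.one_mem, by group⟩, ⟨1, Γ.one_mem, by group⟩, ?_⟩
      rintro ⟨u, v⟩ ⟨⟨γ₁, h₁, rfl⟩, ⟨γ₂, h₂, rfl⟩⟩
      refine ⟨γ₀ * γ₁ * γ₂, Γ.mul_mem (Γ.mul_mem hγ₀ h₁) h₂, ?_⟩
      simp only
      rw [← he]
      group
    have h1 : @Continuous (T × T) T _ (TopologicalSpace.generateFrom G)
        (fun p : T × T => p.1 * p.2) :=
      continuous_generateFrom_iff.mpr key
    rwa [← ht] at h1
  have hi : Continuous (fun g : T => g⁻¹) := by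
    have key : ∀ s ∈ G, IsOpen ((fun g : T => g⁻¹) ⁻¹' s) := by
      intro s hs
      obtain ⟨Γ, hΓ, x, y, rfl⟩ := (hG s).mp hs
      have : (fun g : T => g⁻¹) ⁻¹' ((fun g : T => x * g * y) '' (Γ : Set T)) =
          (fun g : T => y⁻¹ * g * x⁻¹) '' (Γ : Set T) := by
        ext g
        constructor
        · rintro ⟨γ, hγ, he⟩
          simp only at he
          refine ⟨γ⁻¹, Γ.inv_mem hγ, ?_⟩
          simp only
          rw [← inv_inv g, ← he]
          group
        · rintro ⟨γ, hγ, rfl⟩
          refine ⟨γ⁻¹, Γ.inv_mem hγ, ?_⟩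
          simp only
          group
      rw [this]
      exact hopen Γ hΓ _ _
    have h1 : @Continuous T T _ (TopologicalSpace.generateFrom G) (fun g : T => g⁻¹) :=
      continuous_generateFrom_iff.mpr key
    rwa [← ht] at h1
  have hna : ∀ U ∈ nhds (1 : T), ∃ V : OpenSubgroup T, (V : Set T) ⊆ U := by
    intro U hU
    let Fl : Filter T :=
      { sets := {U | ∃ V : OpenSubgroup T, (V : Set T) ⊆ U}
        univ_sets := ⟨⊤, Set.subset_univ _⟩
        sets_of_superset := fun {A B} ⟨V, hV⟩ hAB => ⟨V, hV.trans hAB⟩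
        inter_sets := fun {A B} ⟨V₁, h₁⟩ ⟨V₂, h₂⟩ =>
          ⟨V₁ ⊓ V₂, by rw [OpenSubgroup.coe_inf]; exact Set.inter_subset_inter h₁ h₂⟩ }
    have hn : nhds (1 : T) = ⨅ s ∈ {s | (1 : T) ∈ s ∧ s ∈ G}, Filter.principal s := by
      rw [ht]; exact TopologicalSpace.nhds_generateFrom
    have hle : Fl ≤ nhds (1 : T) := by
      rw [hn]
      refine le_iInf₂ fun s hs => ?_
      rw [Filter.le_principal_iff]
      obtain ⟨h1s, hsG⟩ := hs
      obtain ⟨Γ, hΓ, x, y, rfl⟩ := (hG s).mp hsG
      obtain ⟨γ₀, hγ₀, he⟩ := h1s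
      simp only at he
      let H : Subgroup T := Γ.comap (MulAut.conj y).toMonoidHom
      have hmem : ∀ g, g ∈ H ↔ y * g * y⁻¹ ∈ Γ := by
        intro g
        simp [H, Subgroup.mem_comap, MulAut.conj_apply]
      have hHset : (H : Set T) = (fun g : T => y⁻¹ * g * y) '' (Γ : Set T) := by
        ext g
        rw [SetLike.mem_coe, hmem]
        constructor
        · intro hg
          exact ⟨y * g * y⁻¹, hg, by simp only; group⟩
        · rintro ⟨γ, hγ, rfl⟩
          have hyy : y * (y⁻¹ * γ * y) * y⁻¹ = γ := by group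
          simp only
          rw [hyy]; exact hγ
      have hHopen : IsOpen (H : Set T) := by rw [hHset]; exact hopen Γ hΓ _ _
      refine ⟨⟨H, hHopen⟩, ?_⟩
      intro g hg
      have hg' : y * g * y⁻¹ ∈ Γ := (hmem g).mp hg
      refine ⟨γ₀ * (y * g * y⁻¹), Γ.mul_mem hγ₀ hg', ?_⟩
      have hx : x = (γ₀ * y)⁻¹ := by
        rw [eq_inv_iff_mul_eq_one, ← mul_assoc]; exact he
      simp only
      rw [hx]
      group
    exact hle hU
  exact { continuous_mul := hc, continuous_inv := hi, is_nonarchimedean := hna }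

/-- For a group T with a topology, let B be the family of two-sided translates x Γ y, where Γ runs over
the subgroups of T open in the given topology and x, y over T; the topology generated by B makes T a
topological group in which every neighbourhood of the identity contains a subgroup open for that
topology. (The published statement is for the free topological product of two Noohi groups whose
open subgroups form a basis of neighbourhoods of the identity; the argument uses only the group
structure and the chosen family of subgroups, so the row is stated for an arbitrary group with a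
topology. The published conventions include Hausdorffness in the word topological group; this row
does not assert it, and the published argument does not prove it.) -/
theorem result (T : Type u) [Group T]
    [TopologicalSpace T] :
    @NonarchimedeanGroup T _ (TopologicalSpace.generateFrom
      {S : Set T | ∃ (Γ : OpenSubgroup T) (x y : T), S = (fun g : T => x * g * y) '' (Γ : Set T)}) := by
  refine @aux T _ (fun Γ => IsOpen (Γ : Set T))
    {S : Set T | ∃ (Γ : OpenSubgroup T) (x y : T), S = (fun g : T => x * g * y) '' (Γ : Set T)} ?_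
    (TopologicalSpace.generateFrom
      {S : Set T | ∃ (Γ : OpenSubgroup T) (x y : T), S = (fun g : T => x * g * y) '' (Γ : Set T)})
    rfl
  intro S
  constructor
  · rintro ⟨Γ, x, y, h⟩
    exact ⟨Γ.toSubgroup, Γ.isOpen, x, y, h⟩
  · rintro ⟨Γ, hΓ, x, y, h⟩
    exact ⟨⟨Γ, hΓ⟩, x, y, h⟩

end Groth.Agent.S15832
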