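import Groth.Statements.S15835
import Mathlib.Tactic
import Mathlib.Algebra.Polynomial.Expand
import Mathlib.Algebra.CharP.Lemmas
import Mathlib.NumberTheory.Padics.PadicVal.Basic
import Mathlib.LinearAlgebra.Matrix.Charpoly.Basic
-- import your own Groth.Agent.* helpers here

set_option autoImplicit false
universe u
open SprIso

namespace Groth.Agent.S15835

/-- Over a commutative ring R of prime characteristic p, let n ≥ 1 and let p^m be the largest power of p
dividing n. The locus of n × n matrices with characteristic polynomial t^n is stable under adding a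
scalar matrix a·1 with n·a = 0 exactly when a^(p^m) = 0: for X with characteristic polynomial t^n
and such an a, the matrix X + a·1 has characteristic polynomial t^n if and only if a^(p^m) = 0.
(Stated on points with values in an arbitrary ring of characteristic p; the scheme-theoretic
assertion about the nilpotent scheme of SL_n is this statement for all such rings.) -/
theorem result (p : ℕ) [Fact p.Prime] (R : Type u) [CommRing R]
    [CharP R p] (n : ℕ) (hn : 0 < n) (X : Matrix (Fin n) (Fin n) R) (hX : X.charpoly = Polynomial.X ^ n)
    (a : R) (ha : (n : R) * a = 0) :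
    (X + Matrix.scalar (Fin n) a).charpoly = Polynomial.X ^ n ↔ a ^ (p ^ padicValNat p n) = 0 := by
  set v := padicValNat p n with hv
  have hp : p.Prime := Fact.out
  obtain ⟨m, hm⟩ : p ^ v ∣ n := pow_padicValNat_dvd
  have hpm : ¬ p ∣ m := by
    intro h
    have h2 : p ^ (v + 1) ∣ n := by
      rw [pow_succ]
      conv_rhs => rw [hm]
      exact Nat.mul_dvd_mul_left _ h
    exact pow_succ_padicValNat_not_dvd (p := p) hn.ne' h2
  have hq : 0 < p ^ v := pow_pos hp.pos v
  have hm0 : 0 < m := by
    rcases Nat.eq_zero_or_pos m with h | h
    · rw [h, mul_zero] at hm; omega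
    · exact h
  have hcp : (X + Matrix.scalar (Fin n) a).charpoly = (Polynomial.X - Polynomial.C a) ^ n := by
    have : X + Matrix.scalar (Fin n) a = X - Matrix.scalar (Fin n) (-a) := by
      rw [map_neg, sub_neg_eq_add]
    rw [this, Matrix.charpoly_sub_scalar, hX, Polynomial.X_pow_comp, map_neg, ← sub_eq_add_neg]
  rw [hcp]
  set q := p ^ v with hqdef
  have hexp : (Polynomial.X - Polynomial.C a) ^ n =
      Polynomial.expand R q ((Polynomial.X - Polynomial.C (a ^ q)) ^ m) := by
    rw [map_pow, map_sub, Polynomial.expand_X, Polynomial.expand_C, hm, pow_mul,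
      sub_pow_char_pow, ← Polynomial.C_pow]
  constructor
  · intro h
    have h1 := congrArg (fun f => Polynomial.coeff f (q * (m - 1))) (hexp.symm.trans h)
    rw [Polynomial.coeff_expand hq, if_pos (dvd_mul_right q (m - 1)),
      Nat.mul_div_cancel_left _ hq, Polynomial.coeff_X_pow] at h1
    rw [sub_eq_add_neg, ← map_neg, Polynomial.coeff_X_add_C_pow] at h1
    have hne : q * (m - 1) ≠ n := by
      rw [hm]
      intro h'
      have := Nat.eq_of_mul_eq_mul_left hq h'
      omega
    rw [if_neg hne] at h1
    have hmm : m - (m - 1) = 1 := by omega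
    rw [hmm, pow_one, Nat.choose_symm (by omega), Nat.choose_one_right] at h1
    have hu : IsUnit (m : R) := by
      have h0 : (m : ZMod p) ≠ 0 := by
        rwa [Ne, ZMod.natCast_eq_zero_iff]
      have hunit : IsUnit (m : ZMod p) := isUnit_iff_ne_zero.mpr h0
      have := hunit.map (ZMod.castHom (dvd_refl p) R)
      simpa using this
    rw [hu.mul_left_eq_zero, neg_eq_zero] at h1
    exact h1
  · intro h
    rw [hexp, h, map_zero, sub_zero, map_pow, Polynomial.expand_X, ← pow_mul, ← hm]

end Groth.Agent.S15835
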