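import Groth.Statements.S15840
import Mathlib.Tactic
import Mathlib.Algebra.Polynomial.Expand
import Mathlib.Algebra.CharP.Lemmas
import Mathlib.NumberTheory.Padics.PadicVal.Basic
-- import your own Groth.Agent.* helpers here

set_option autoImplicit false
universe u
open SprIso

namespace Groth.Agent.S15840

/-- For G = SL_n (n = r + 1) over a field of characteristic p > 0, write n = m p^e with m prime to p, so
that the identity component of the centre of G is μ_{p^e} embedded diagonally. The character of the
i-th exterior power of the standard representation takes the value C(n, i) α^i at a point α of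
μ_{p^e}, and this is constant: for every commutative ring R of characteristic p and every α in R
with α^(p^e) = 1 one has C(n, i) α^i = C(n, i) in R, for all i. -/
theorem result (p : ℕ) [Fact p.Prime] (R : Type u) [CommRing R]
    [CharP R p] (n : ℕ) (hn : 0 < n) (α : R) (hα : α ^ (p ^ padicValNat p n) = 1) (i : ℕ) :
    (n.choose i : R) * α ^ i = (n.choose i : R) := by
  set v := padicValNat p n with hv
  obtain ⟨m, hm⟩ : p ^ v ∣ n := pow_padicValNat_dvd
  have hq : 0 < p ^ v := pow_pos (Fact.out : p.Prime).pos v
  have hpoly : ((Polynomial.X : Polynomial R) + 1) ^ n =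
      Polynomial.expand R (p ^ v) ((Polynomial.X + 1) ^ m) := by
    rw [map_pow, map_add, Polynomial.expand_X, map_one, hm, pow_mul, add_pow_char_pow, one_pow]
  have hcoeff := congrArg (fun f => Polynomial.coeff f i) hpoly
  simp only [Polynomial.coeff_X_add_one_pow, Polynomial.coeff_expand hq] at hcoeff
  by_cases hdvd : p ^ v ∣ i
  · obtain ⟨j, rfl⟩ := hdvd
    rw [pow_mul, hα, one_pow, mul_one]
  · rw [if_neg hdvd] at hcoeff
    rw [hcoeff, zero_mul]

end Groth.Agent.S15840
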