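import Groth.Statements.S15846
import Mathlib.Tactic
import Mathlib.Algebra.Order.Chebyshev
-- import your own Groth.Agent.* helpers here

set_option autoImplicit false
open Surf

namespace Groth.Agent.S15846

/-- Let x ≥ 3 be an integer and let b, a_1, …, a_8 be integers with a_1^2 + ⋯ + a_8^2 = x + b^2 and
-(a_1 + ⋯ + a_8) = x - 2 + 3b (the system governing walls for rank-two sheaves on the projective
plane blown up in at most eight points). If b > 0, then b ≤ 2. -/
theorem result (x : ℤ) (hx : 3 ≤ x) (b : ℤ) (a : Fin 8 → ℤ)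
    (h1 : ∑ i, a i ^ 2 = x + b ^ 2) (h2 : -(∑ i, a i) = x - 2 + 3 * b) (hb : 0 < b) : b ≤ 2 := by
  have hcs : (∑ i, a i) ^ 2 ≤ (Finset.univ : Finset (Fin 8)).card * ∑ i, a i ^ 2 :=
    sq_sum_le_card_mul_sum_sq
  simp only [Finset.card_univ, Fintype.card_fin] at hcs
  have hs : ∑ i, a i = -(x - 2 + 3 * b) := by linarith
  rw [hs, h1] at hcs
  push_cast at hcs
  by_contra hcon
  have hb3 : 3 ≤ b := by omega
  nlinarith [mul_nonneg (sub_nonneg.mpr hx) (sub_nonneg.mpr hb3)]

end Groth.Agent.S15846
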