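import Groth.Statements.S15897
-- import your own Groth.Agent.* helpers here

set_option autoImplicit false
universe u v
open CartDual

namespace Groth.Agent.S15897

/-- Let R be a commutative ring and A a commutative Hopf algebra over R which is finitely generated and
projective as an R-module (a finite locally free R-group scheme G = Spec A, not assumed
commutative). If the convolution product on the dual Hopf algebra Hom_R(A, R) is commutative, then A
is cocommutative, i.e. G is a commutative group scheme. (The dual Hopf algebra is commutative
exactly when A is cocommutative; the other implication is immediate and not stated. The published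
notes work over a Noetherian base ring; the row allows any commutative base ring.) -/
theorem result (R : Type u) [CommRing R] (A : Type v) [CommRing A] [HopfAlgebra R A]
    [Module.Finite R A] [Module.Projective R A] (h : ∀ x y : CartDual.D R A, x * y = y * x) :
    Coalgebra.IsCocomm R A := by
  constructor
  apply LinearMap.ext
  intro a
  rw [LinearMap.comp_apply, ← sub_eq_zero, ← Module.forall_dual_apply_eq_zero_iff R]
  intro φ
  obtain ⟨ψ, rfl⟩ := (CartDual.dualTensorEquiv R A A).surjective φ
  rw [CartDual.dualTensorEquiv_apply]
  induction ψ using TensorProduct.induction_on with
  | zero => simp
  | tmul f g =>
    have key := congrArg (fun x : CartDual.D R A => x a) (h (WithConv.toConv g) (WithConv.toConv f))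
    simp only [LinearMap.convMul_apply] at key
    rw [map_sub, sub_eq_zero]
    have e1 : ∀ w : TensorProduct R A A, TensorProduct.dualDistrib R A A (TensorProduct.tmul R f g) (TensorProduct.comm R A A w)
        = LinearMap.mul' R R (TensorProduct.map g f w) := by
      intro w
      induction w using TensorProduct.induction_on with
      | zero => simp
      | tmul x y => simp [mul_comm]
      | add w1 w2 h1 h2 => rw [map_add, map_add, map_add, map_add, h1, h2]
    have e2 : ∀ w : TensorProduct R A A, TensorProduct.dualDistrib R A A (TensorProduct.tmul R f g) w
        = LinearMap.mul' R R (TensorProduct.map f g w) := by
      intro w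
      induction w using TensorProduct.induction_on with
      | zero => simp
      | tmul x y => simp
      | add w1 w2 h1 h2 => rw [map_add, map_add, map_add, h1, h2]
    rw [LinearEquiv.coe_coe, e1, e2]
    exact key
  | add ψ1 ψ2 h1 h2 => rw [map_add, LinearMap.add_apply, h1, h2, add_zero]

end Groth.Agent.S15897
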