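import Groth.Statements.S15987
-- import your own Groth.Agent.* helpers here

set_option autoImplicit false
universe u v
open Deform

namespace Groth.Agent.S15987

open TrivSqZeroExt in
noncomputable def h24_phi (k : Type*) [Field k] (A : Type*) [CommRing A] [Algebra k A]
    (D : Derivation k A A) : DualNumber A →ₐ[k] DualNumber A where
  toFun x := inl x.fst + inr (D x.fst + x.snd)
  map_one' := by
    ext <;> simp
  map_mul' x y := by
    ext
    · simp
    · simp [Derivation.leibniz, smul_eq_mul]
      ring
  map_zero' := by
    ext <;> simp
  map_add' x y := by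
    ext
    · simp
    · simp; ring
  commutes' r := by
    ext
    · simp [algebraMap_eq_inl']
    · simp [algebraMap_eq_inl']

open TrivSqZeroExt in
theorem h24_phi_apply (k : Type*) [Field k] (A : Type*) [CommRing A] [Algebra k A]
    (D : Derivation k A A) (x : DualNumber A) :
    h24_phi k A D x = inl x.fst + inr (D x.fst + x.snd) := rfl

open TrivSqZeroExt in
/-- Let k be a field, A a commutative k-algebra and q_i : A → k (i ∈ ι) k-algebra maps (marked k-points
of Spec A). The k-algebra automorphisms φ of the ring of dual numbers A[ε] that fix ε (so are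
k[ε]-linear), are the identity modulo ε, and satisfy q_i((φ x)_ε) = q_i(x_ε) for all i and x
(compatibility with the trivial lifts A[ε] → k[ε] of the marked points) are in bijection with the
k-derivations D : A → A such that q_i ∘ D = 0 for every i, the bijection sending φ to a ↦ (φ(a))_ε.
(The source identifies the right-hand side with the global vector fields vanishing at the marked
points; the condition the computation yields is q_i ∘ D = 0, which is the same for Spec A smooth
over k but is weaker in general, e.g. for A = k[x]/(x^2) with 2 invertible in k.) -/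
theorem result
    (k : Type u) [Field k] (A : Type u) [CommRing A] [Algebra k A] {ι : Type v} (q : ι → (A →ₐ[k] k)) :
    ∃ e : {φ : DualNumber A ≃ₐ[k] DualNumber A //
            φ DualNumber.eps = DualNumber.eps ∧ (∀ x, (φ x).fst = x.fst) ∧
              ∀ i x, q i (φ x).snd = q i x.snd} ≃
          {D : Derivation k A A // ∀ i a, q i (D a) = 0},
      ∀ φ (a : A), (e φ).1 a = (φ.1 (inl a : DualNumber A)).snd := by
  -- the derivation attached to an automorphism
  let Dof : {φ : DualNumber A ≃ₐ[k] DualNumber A //
            φ DualNumber.eps = DualNumber.eps ∧ (∀ x, (φ x).fst = x.fst) ∧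
              ∀ i x, q i (φ x).snd = q i x.snd} → Derivation k A A := fun φ =>
    { toFun := fun a => (φ.1 (inl a : DualNumber A)).snd
      map_add' := fun a b => by
        show (φ.1 (inl (a + b) : DualNumber A)).snd = (φ.1 (inl a : DualNumber A)).snd + (φ.1 (inl b : DualNumber A)).snd
        rw [inl_add, map_add, snd_add]
      map_smul' := fun c a => by
        simp only [RingHom.id_apply]
        rw [inl_smul A c a, map_smul, snd_smul]
      map_one_eq_zero' := by simp
      leibniz' := fun a b => by
        show (φ.1 (inl (a * b) : DualNumber A)).snd = a • (φ.1 (inl b : DualNumber A)).snd + b • (φ.1 (inl a : DualNumber A)).snd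
        rw [show (inl (a * b) : DualNumber A) = inl a * inl b by simp, map_mul, snd_mul,
          φ.2.2.1, φ.2.2.1]
        simp [smul_eq_mul, add_comm, mul_comm] }
  have hDof : ∀ φ a, Dof φ a = (φ.1 (inl a : DualNumber A)).snd := fun _ _ => rfl
  have hphi_comp : ∀ D : Derivation k A A, ∀ x, h24_phi k A (-D) (h24_phi k A D x) = x := by
    intro D x
    ext <;> simp [h24_phi_apply]
  have hphi_comp' : ∀ D : Derivation k A A, ∀ x, h24_phi k A D (h24_phi k A (-D) x) = x := by
    intro D x
    ext <;> simp [h24_phi_apply]
  let auto : Derivation k A A → (DualNumber A ≃ₐ[k] DualNumber A) := fun D =>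
    AlgEquiv.ofAlgHom (h24_phi k A D) (h24_phi k A (-D))
      (AlgHom.ext fun x => hphi_comp' D x) (AlgHom.ext fun x => hphi_comp D x)
  have hauto : ∀ D x, auto D x = inl x.fst + inr (D x.fst + x.snd) := fun _ _ => rfl
  refine ⟨{ toFun := fun φ => ⟨Dof φ, fun i a => ?_⟩
            invFun := fun D => ⟨auto D.1, ?_, ?_, ?_⟩
            left_inv := ?_
            right_inv := ?_ }, fun φ a => rfl⟩
  · rw [hDof]
    have := φ.2.2.2 i (inl a)
    rw [this, snd_inl, map_zero]
  · rw [hauto]; ext <;> simp
  · intro x; rw [hauto]; simp
  · intro i x
    rw [hauto]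
    simp [D.2 i]
  · intro φ
    apply Subtype.ext
    apply AlgEquiv.ext
    intro x
    show auto (Dof φ) x = φ.1 x
    rw [hauto]
    have hx : x = inl x.fst + inl x.snd * DualNumber.eps := by
      ext <;> simp
    have hinl : ∀ a : A, φ.1 (inl a) = inl a + inr (Dof φ a) := by
      intro a
      ext
      · rw [φ.2.2.1]; simp
      · simp [hDof]
    conv_rhs => rw [hx, map_add, map_mul, φ.2.1, hinl, hinl]
    ext <;> simp
  · intro D
    apply Subtype.ext
    apply Derivation.ext
    intro a
    show Dof ⟨auto D.1, _⟩ a = D.1 a
    rw [hDof]
    show (auto D.1 (inl a)).snd = D.1 a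
    rw [hauto]
    simp

end Groth.Agent.S15987
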