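import Groth.Statements.S16014
import Mathlib.Tactic.Ring
import Mathlib.Tactic.Linarith
import Mathlib.Algebra.BigOperators.Ring.Finset
import Mathlib.Algebra.BigOperators.Group.Finset.Sigma
-- import your own Groth.Agent.* helpers here

set_option autoImplicit false
universe u
open W4c3ghconstell

namespace Groth.Agent.S16014

/-- Let B = ⊕_{n ∈ ℤ} ⊕_τ B^n_τ be a bigraded finite-dimensional vector space, τ running over a finite
index set, with B^n = 0 for n < −N and for n > M (N, M integers); put d(n, τ) = dim B^n_τ. For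
rational numbers φ_τ write φ(C) = Σ_τ φ_τ dim C_τ for a τ-graded piece C, and let B^{≥n} = ⊕_{m ≥ n}
B^m, so that dim B^{≥n}_τ = Σ_{n ≤ m ≤ M} d(m, τ). Then Σ_{−N ≤ n ≤ M} n · φ(B^n) = Σ_{−N+1 ≤ n ≤ M}
φ(B^{≥n}) − N · φ(B). (Stated directly on the dimension function d.) -/
theorem result {τ : Type u} [Fintype τ] (d : ℤ → τ → ℕ) (φ : τ → ℚ) (N M : ℤ)
    (hN : ∀ n, n < -N → d n = 0) (hM : ∀ n, M < n → d n = 0) :
    ∑ n ∈ Finset.Icc (-N) M, (n : ℚ) * (∑ t, φ t * (d n t : ℚ)) =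
      ∑ n ∈ Finset.Icc (-N + 1) M, (∑ t, φ t * (∑ m ∈ Finset.Icc n M, (d m t : ℚ))) -
        (N : ℚ) * (∑ t, φ t * (∑ m ∈ Finset.Icc (-N) M, (d m t : ℚ))) := by
  set g : ℤ → ℚ := fun m => ∑ t, φ t * (d m t : ℚ) with hg
  have hsw : ∀ n : ℤ, (∑ t, φ t * (∑ m ∈ Finset.Icc n M, (d m t : ℚ))) = ∑ m ∈ Finset.Icc n M, g m := by
    intro n
    simp only [hg, Finset.mul_sum]
    exact Finset.sum_comm
  simp_rw [hsw]
  set a : ℤ := -N with ha
  have hNa : (N : ℚ) = -(a : ℚ) := by rw [ha]; push_cast; ring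
  rw [hNa]
  -- double sum
  have hdouble : ∑ n ∈ Finset.Icc (a + 1) M, ∑ m ∈ Finset.Icc n M, g m =
      ∑ m ∈ Finset.Icc (a + 1) M, ((m : ℚ) - a) * g m := by
    rw [Finset.sum_comm' (t' := Finset.Icc (a + 1) M) (s' := fun m => Finset.Icc (a + 1) m)]
    · refine Finset.sum_congr rfl fun m hm => ?_
      rw [Finset.sum_const, Int.card_Icc, nsmul_eq_mul]
      rw [Finset.mem_Icc] at hm
      congr 1
      have : (0 : ℤ) ≤ m + 1 - (a + 1) := by omega
      rw [show ((m + 1 - (a + 1)).toNat : ℚ) = ((m + 1 - (a + 1) : ℤ) : ℚ) by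
        exact_mod_cast Int.toNat_of_nonneg this]
      push_cast; ring
    · intro n m
      simp only [Finset.mem_Icc]
      constructor <;> intro h <;> omega
  rw [hdouble]
  have hsub : ∑ m ∈ Finset.Icc (a + 1) M, ((m : ℚ) - a) * g m =
      ∑ m ∈ Finset.Icc a M, ((m : ℚ) - a) * g m := by
    apply Finset.sum_subset
    · intro x hx
      rw [Finset.mem_Icc] at hx ⊢
      omega
    · intro x hx hx'
      rw [Finset.mem_Icc] at hx hx'
      have : x = a := by omega
      rw [this, sub_self, zero_mul]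
  rw [hsub, Finset.mul_sum, ← Finset.sum_sub_distrib]
  refine Finset.sum_congr rfl fun m _ => ?_
  ring

end Groth.Agent.S16014
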