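import Groth.Statements.S16016
-- import your own Groth.Agent.* helpers here

set_option autoImplicit false
universe u
open W4c3ghconstell

namespace Groth.Agent.S16016

/-- Let k be a field with 2 ≠ 0, index k⁶ by two copies of {0,1,2} (basis vectors p₁, p₂, p₃ in the
first copy and p₄, p₅, p₆ in the second), let Q be the symmetric matrix with blocks ((0, 1), (1,
0)), so that the form it defines pairs pᵢ with pᵢ₊₃, and let W₀ be the span of p₁ and p₂. Then a 6 ×
6 matrix A satisfies AᵀQ + QA = 0 (A lies in the orthogonal Lie algebra of Q) and has the image of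
Aᵀ contained in W₀ if and only if A = a · (E₄₂ − E₅₁) for some scalar a, where Eᵢⱼ is the matrix
unit. (The lemma in the source concludes that the set of such A inside a certain nilpotent orbit
closure of this Lie algebra is one-dimensional; this row is the computation its proof performs,
which determines all such A in the Lie algebra. Characteristic 2 is excluded: there E₁₄ᵀ also
qualifies.) -/
theorem result (k : Type u) [Field k] (h2 : (2 : k) ≠ 0)
    (A : Matrix (Fin 3 ⊕ Fin 3) (Fin 3 ⊕ Fin 3) k) :
    (A.transpose * Matrix.fromBlocks (0 : Matrix (Fin 3) (Fin 3) k) 1 1 0 +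
        Matrix.fromBlocks (0 : Matrix (Fin 3) (Fin 3) k) 1 1 0 * A = 0 ∧
      LinearMap.range (Matrix.mulVecLin A.transpose) ≤
        Submodule.span k {Pi.single (Sum.inl 0 : Fin 3 ⊕ Fin 3) (1 : k), Pi.single (Sum.inl 1 : Fin 3 ⊕ Fin 3) (1 : k)}) ↔
    ∃ a : k, A = a • (Matrix.single (Sum.inr 0) (Sum.inl 1) (1 : k) - Matrix.single (Sum.inr 1) (Sum.inl 0) (1 : k)) := by
  set Q : Matrix (Fin 3 ⊕ Fin 3) (Fin 3 ⊕ Fin 3) k := Matrix.fromBlocks (0 : Matrix (Fin 3) (Fin 3) k) 1 1 0 with hQ
  have hent : ∀ i j, ((A.transpose * Q + Q * A : Matrix (Fin 3 ⊕ Fin 3) (Fin 3 ⊕ Fin 3) k) i j) =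
      (match j with | Sum.inl b => A (Sum.inr b) i | Sum.inr b => A (Sum.inl b) i) +
      (match i with | Sum.inl a => A (Sum.inr a) j | Sum.inr a => A (Sum.inl a) j) := by
    intro i j
    rcases i with a | a <;> rcases j with b | b <;>
      simp [hQ, Matrix.mul_apply, Fintype.sum_sum_type, Matrix.one_apply]
  have hcol : ∀ x : Fin 3 ⊕ Fin 3, Matrix.mulVecLin A.transpose (Pi.single x 1) = fun j => A x j := by
    intro x
    ext j
    simp
  constructor
  · rintro ⟨h1, hr⟩
    have hz : ∀ x j, j ≠ Sum.inl 0 → j ≠ Sum.inl 1 → A x j = 0 := by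
      intro x j hj0 hj1
      have hm : Matrix.mulVecLin A.transpose (Pi.single x 1) ∈
          Submodule.span k {Pi.single (Sum.inl 0 : Fin 3 ⊕ Fin 3) (1 : k), Pi.single (Sum.inl 1 : Fin 3 ⊕ Fin 3) (1 : k)} :=
        hr ⟨_, rfl⟩
      rw [hcol, Submodule.mem_span_pair] at hm
      obtain ⟨c, d, hcd⟩ := hm
      have := congrFun hcd j
      simp [Pi.single_apply, hj0, hj1] at this
      exact this.symm
    have he : ∀ i j, ((A.transpose * Q + Q * A : Matrix (Fin 3 ⊕ Fin 3) (Fin 3 ⊕ Fin 3) k) i j) = 0 := by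
      intro i j; rw [h1]; rfl
    simp only [hent] at he
    refine ⟨A (Sum.inr 0) (Sum.inl 1), ?_⟩
    have z2 : ∀ x, A x (Sum.inl 2) = 0 := fun x => hz x _ (by simp) (by simp)
    have zr : ∀ x b, A x (Sum.inr b) = 0 := fun x b => hz x _ (by simp) (by simp)
    -- skew part
    have sk : ∀ a b, A (Sum.inr b) (Sum.inl a) + A (Sum.inr a) (Sum.inl b) = 0 := fun a b => he (Sum.inl a) (Sum.inl b)
    have ll : ∀ a b, A (Sum.inl b) (Sum.inl a) + A (Sum.inr a) (Sum.inr b) = 0 := fun a b => he (Sum.inl a) (Sum.inr b)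
    have ll' : ∀ a b, A (Sum.inl b) (Sum.inl a) = 0 := by
      intro a b; have := ll a b; rwa [zr, add_zero] at this
    have diag : ∀ a, A (Sum.inr a) (Sum.inl a) = 0 := by
      intro a
      have := sk a a
      have h' : (2 : k) * A (Sum.inr a) (Sum.inl a) = 0 := by rw [two_mul]; exact this
      exact (mul_eq_zero.1 h').resolve_left h2
    have r2 : ∀ a, A (Sum.inr 2) (Sum.inl a) = 0 := by
      intro a; have := sk a 2; rwa [z2, add_zero] at this
    have s10 : A (Sum.inr 1) (Sum.inl 0) = -A (Sum.inr 0) (Sum.inl 1) := by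
      have := sk 0 1; exact eq_neg_of_add_eq_zero_left this
    ext i j
    rcases i with a | a <;> rcases j with b | b
    · rw [ll']
      simp [Matrix.single_apply]
    · rw [zr]
      simp [Matrix.single_apply]
    · fin_cases a <;> fin_cases b <;> simp [Matrix.single_apply, diag, r2, s10, z2]
    · rw [zr]
      simp [Matrix.single_apply]
  · rintro ⟨a, rfl⟩
    constructor
    · ext i j
      rw [hent]
      rcases i with c | c <;> rcases j with d | d <;> fin_cases c <;> fin_cases d <;>
        simp [Matrix.single_apply]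
    · rintro _ ⟨v, rfl⟩
      rw [Submodule.mem_span_pair]
      refine ⟨-(a * v (Sum.inr 1)), a * v (Sum.inr 0), ?_⟩
      ext j
      rcases j with d | d <;> fin_cases d <;>
        simp [Matrix.mulVec, dotProduct, Fintype.sum_sum_type, Matrix.single_apply, Pi.single_apply]

end Groth.Agent.S16016
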