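import Groth.Statements.S16030
-- import your own Groth.Agent.* helpers here

set_option autoImplicit false
universe u
open CAlg

namespace Groth.Agent.S16030

/-- For a finite set F of points of the spectrum of a commutative ring A and an open subset U containing
F, some basic open D(a) contains F and is contained in U. -/
theorem result
    (A : Type u) [CommRing A] (F : Set (PrimeSpectrum A)) (hF : F.Finite)
    (U : TopologicalSpace.Opens (PrimeSpectrum A)) (hFU : F ⊆ (U : Set (PrimeSpectrum A))) :
    ∃ a : A, F ⊆ (PrimeSpectrum.basicOpen a : Set (PrimeSpectrum A)) ∧ PrimeSpectrum.basicOpen a ≤ U := by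
  rcases F.eq_empty_or_nonempty with hE | ⟨p₀, hp₀⟩
  · refine ⟨0, by simp [hE], ?_⟩
    intro x hx
    simp at hx
  set Z : Set (PrimeSpectrum A) := (U : Set (PrimeSpectrum A))ᶜ with hZ
  have hZc : IsClosed Z := U.isOpen.isClosed_compl
  set I : Ideal A := PrimeSpectrum.vanishingIdeal Z with hI
  have key : ¬ ((I : Set A) ⊆ ⋃ p ∈ F, (p.asIdeal : Set A)) := by
    rw [Ideal.subset_union_prime_finite hF p₀ p₀ (fun i _ _ _ => i.isPrime)]
    rintro ⟨p, hpF, hle⟩
    have hpZ : p ∈ Z := by
      have : p ∈ PrimeSpectrum.zeroLocus (I : Set A) := by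
        rw [PrimeSpectrum.mem_zeroLocus]; exact hle
      rw [hI, PrimeSpectrum.zeroLocus_vanishingIdeal_eq_closure, hZc.closure_eq] at this
      exact this
    exact hpZ (hFU hpF)
  rw [Set.not_subset] at key
  obtain ⟨a, haI, haF⟩ := key
  refine ⟨a, ?_, ?_⟩
  · intro p hp
    rw [SetLike.mem_coe, PrimeSpectrum.mem_basicOpen]
    intro hap
    exact haF (Set.mem_biUnion hp hap)
  · intro q hq
    rw [PrimeSpectrum.mem_basicOpen] at hq
    by_contra hqU
    have hqZ : q ∈ Z := hqU
    exact hq ((PrimeSpectrum.mem_vanishingIdeal _ _).1 haI q hqZ)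

end Groth.Agent.S16030
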