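import Groth.Statements.S1615
-- import your own Groth.Agent.* helpers here

set_option autoImplicit false
universe u
open CategoryTheory CategoryTheory.Limits AlgebraicGeometry
open Constr

namespace Groth.Agent.S1615

/-- For a graded ring A, quasi-compactness of Proj A is equivalent to the existence of finitely many
homogeneous elements of positive degree generating an ideal whose radical contains the irrelevant
ideal A_+. -/
theorem result {R A : Type u} [CommRing R] [CommRing A] [Algebra R A] (𝒜 : ℕ → Submodule R A) [GradedAlgebra 𝒜] :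
    CompactSpace ↥(Proj 𝒜) ↔ ∃ s : Finset A, (∀ f ∈ s, ∃ d : ℕ, 0 < d ∧ f ∈ 𝒜 d) ∧
      (HomogeneousIdeal.irrelevant 𝒜).toIdeal ≤ (Ideal.span (s : Set A)).radical := by
  classical
  constructor
  · intro hc
    -- the basic opens `D₊(f)`, `f` homogeneous of positive degree, cover `Proj 𝒜`
    have hcov : ∀ x : Proj 𝒜, ∃ f : {f : A // ∃ d : ℕ, 0 < d ∧ f ∈ 𝒜 d},
        x ∈ Proj.basicOpen 𝒜 f.1 := by
      intro x
      obtain ⟨a, ha, hax⟩ := SetLike.not_le_iff_exists.mp x.not_irrelevant_le
      have hxa : x ∈ Proj.basicOpen 𝒜 a := hax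
      rw [Proj.basicOpen_eq_iSup_proj, TopologicalSpace.Opens.mem_iSup] at hxa
      obtain ⟨i, hi⟩ := hxa
      have hi0 : i ≠ 0 := by
        rintro rfl
        have h0 : GradedRing.proj 𝒜 0 a = 0 := ha
        rw [h0, Proj.basicOpen_zero] at hi
        exact hi
      refine ⟨⟨GradedRing.proj 𝒜 i a, i, Nat.pos_of_ne_zero hi0, ?_⟩, hi⟩
      rw [GradedRing.proj_apply]
      exact SetLike.coe_mem _
    obtain ⟨t, ht⟩ := isCompact_univ.elim_finite_subcover
      (fun f : {f : A // ∃ d : ℕ, 0 < d ∧ f ∈ 𝒜 d} => (Proj.basicOpen 𝒜 f.1 : Set (Proj 𝒜)))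
      (fun f => (Proj.basicOpen 𝒜 f.1).isOpen)
      (fun x _ => by
        obtain ⟨f, hf⟩ := hcov x
        exact Set.mem_iUnion.mpr ⟨f, hf⟩)
    refine ⟨t.image Subtype.val, ?_, ?_⟩
    · intro f hf
      obtain ⟨g, -, rfl⟩ := Finset.mem_image.mp hf
      exact g.2
    · have hhom : (Ideal.span ((t.image Subtype.val : Finset A) : Set A)).IsHomogeneous 𝒜 := by
        apply Ideal.homogeneous_span
        intro x hx
        obtain ⟨g, -, rfl⟩ := Finset.mem_image.mp hx
        obtain ⟨d, -, hd⟩ := g.2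
        exact ⟨d, hd⟩
      rw [hhom.radical_eq]
      intro a ha
      rw [Submodule.mem_sInf]
      rintro J ⟨hJ, hsJ, hJp⟩
      by_contra hcon
      have hnot : ¬ HomogeneousIdeal.irrelevant 𝒜 ≤ (⟨J, hJ⟩ : HomogeneousIdeal 𝒜) := by
        intro hle
        exact hcon (hle ha)
      let y : Proj 𝒜 := ⟨⟨J, hJ⟩, hJp, hnot⟩
      have hy := ht (Set.mem_univ y)
      simp only [Set.mem_iUnion] at hy
      obtain ⟨f, hft, hyf⟩ := hy
      apply hyf
      show f.1 ∈ J
      apply hsJ
      apply Ideal.subset_span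
      exact Finset.mem_coe.mpr (Finset.mem_image_of_mem _ hft)
  · rintro ⟨s, hs, hrad⟩
    constructor
    have hcov : (Set.univ : Set (Proj 𝒜)) = ⋃ f ∈ s, (Proj.basicOpen 𝒜 f : Set (Proj 𝒜)) := by
      ext x
      simp only [Set.mem_univ, Set.mem_iUnion, true_iff]
      by_contra hcon
      push Not at hcon
      apply x.not_irrelevant_le
      intro a ha
      have h1 : Ideal.span (s : Set A) ≤ x.asHomogeneousIdeal.toIdeal := by
        rw [Ideal.span_le]
        intro f hf
        have := hcon f hf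
        simpa [Proj.mem_basicOpen] using this
      have h2 := (Ideal.IsPrime.radical_le_iff x.isPrime).mpr h1
      exact h2 (hrad ha)
    rw [hcov]
    refine s.isCompact_biUnion fun f hf => ?_
    obtain ⟨d, hd, hfd⟩ := hs f hf
    exact (Proj.isAffineOpen_basicOpen 𝒜 f hfd hd).isCompact

end Groth.Agent.S1615
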