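import Groth.Statements.S16234
import Mathlib.RingTheory.Ideal.AssociatedPrime.Finiteness
import Mathlib.RingTheory.KrullDimension.Module
-- import your own Groth.Agent.* helpers here

set_option autoImplicit false
universe u v
open CAlg

namespace Groth.Agent.S16234

theorem h24_support_quot_prime (A : Type*) [CommRing A] (p : PrimeSpectrum A) :
    Module.support A (A ⧸ p.asIdeal) = PrimeSpectrum.zeroLocus (p.asIdeal : Set A) := by
  rw [Module.support_eq_zeroLocus, Ideal.annihilator_quotient]

theorem h24_bwd (A : Type*) [CommRing A] (M : Type*) [AddCommGroup M] [Module A M]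
    (h : IsFiniteLength A M) : ∀ p ∈ Module.support A M, p.asIdeal.IsMaximal := by
  induction h with
  | of_subsingleton =>
    intro p hp
    rw [Module.support_eq_empty] at hp
    exact hp.elim
  | @of_simple_quotient M _ _ N hsimple hN ih =>
    intro p hp
    rw [Module.support_of_exact (f := N.subtype) (g := N.mkQ)
      (LinearMap.exact_subtype_mkQ N) N.injective_subtype N.mkQ_surjective] at hp
    rcases hp with hp | hp
    · exact ih p hp
    · obtain ⟨m, hm, ⟨e⟩⟩ := isSimpleModule_iff_quot_maximal.mp hsimple
      rw [e.support_eq, Module.support_eq_zeroLocus, Ideal.annihilator_quotient] at hp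
      have hle : m ≤ p.asIdeal := hp
      have : m = p.asIdeal := hm.eq_of_le p.isPrime.ne_top hle
      rw [← this]; exact hm

/-- For a finitely generated module M over a Noetherian commutative ring A, every prime ideal in the
support of M is a maximal ideal if and only if M has finite length. -/
theorem result (A : Type u) [CommRing A] [IsNoetherianRing A]
    (M : Type v) [AddCommGroup M] [Module A M] [Module.Finite A M] :
    (∀ p ∈ Module.support A M, p.asIdeal.IsMaximal) ↔ IsFiniteLength A M := by
  refine ⟨fun h => ?_, h24_bwd A M⟩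
  revert h
  refine IsNoetherianRing.induction_on_isQuotientEquivQuotientPrime A (M := M) inferInstance
    (motive := fun N _ _ _ => (∀ p ∈ Module.support A N, p.asIdeal.IsMaximal) → IsFiniteLength A N)
    ?_ ?_ ?_
  · intro N _ _ _ _ _
    exact IsFiniteLength.of_subsingleton
  · intro N _ _ _ p e hN
    have hp : p ∈ Module.support A N := by
      rw [e.support_eq, h24_support_quot_prime]
      exact (PrimeSpectrum.mem_zeroLocus _ _).2 subset_rfl
    have hmax := hN p hp
    have : IsSimpleModule A N := isSimpleModule_iff_quot_maximal.mpr ⟨p.asIdeal, hmax, ⟨e⟩⟩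
    rw [isFiniteLength_iff_isNoetherian_isArtinian]
    exact ⟨inferInstance, inferInstance⟩
  · intro N₁ _ _ _ N₂ _ _ _ N₃ _ _ _ f g hf hg hfg h1 h3 hN
    rw [Module.support_of_exact hfg hf hg] at hN
    have i1 := h1 fun p hp => hN p (Or.inl hp)
    have i3 := h3 fun p hp => hN p (Or.inr hp)
    rw [isFiniteLength_iff_isNoetherian_isArtinian] at i1 i3 ⊢
    obtain ⟨n1, a1⟩ := i1
    obtain ⟨n3, a3⟩ := i3
    have hrk : LinearMap.range f = LinearMap.ker g := by
      ext x; exact (hfg x).symm
    exact ⟨isNoetherian_of_range_eq_ker f g hrk, isArtinian_of_range_eq_ker f g hrk⟩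

end Groth.Agent.S16234
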