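import Groth.Statements.S16356
import Mathlib.RingTheory.WittVector.DiscreteValuationRing
import Mathlib.Data.Nat.Factorization.Basic
import Mathlib.Data.Nat.Choose.Dvd
import Mathlib.Algebra.Ring.GeomSum
import Mathlib.Tactic.Ring
import Mathlib.Tactic.Linarith
-- import your own Groth.Agent.* helpers here

set_option autoImplicit false
universe u
open OrdAV

namespace Groth.Agent.S16356

theorem h24_cc_p (p : ℕ) [Fact p.Prime] (k : Type u) [Field k] [CharP k p] :
    WittVector.constantCoeff (p : WittVector p k) = 0 := by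
  rw [map_natCast]; exact CharP.cast_eq_zero k p

theorem h24_lemB (p : ℕ) [Fact p.Prime] (hp : p ≠ 2) (k : Type u) [Field k] [CharP k p]
    [PerfectRing k p] (m : ℕ) (hm : 1 ≤ m) (c : (WittVector p k)ˣ) :
    ∃ c' : (WittVector p k)ˣ, (1 + (p : WittVector p k)^m * c)^p =
      1 + (p : WittVector p k)^(m+1) * c' := by
  have hp3 : 3 ≤ p := by have := (Fact.out : p.Prime).two_le; omega
  set P : WittVector p k := (p : WittVector p k) with hP
  set y := P^m * (c : WittVector p k) with hy
  have hdiv : P^(m+2) ∣ ∑ i ∈ Finset.range (p - 1),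
      y^(i+2) * (1:WittVector p k)^(p - (i+2)) * (p.choose (i+2) : WittVector p k) := by
    apply Finset.dvd_sum
    intro i hi
    rw [Finset.mem_range] at hi
    rw [one_pow, mul_one]
    have hyi : ∀ j, y^j = P^(m*j) * (c : WittVector p k)^j := fun j => by rw [hy, mul_pow, pow_mul]
    by_cases hip : i + 2 < p
    · obtain ⟨t, ht⟩ := Nat.Prime.dvd_choose_self (Fact.out : p.Prime) (by omega : i + 2 ≠ 0) hip
      rw [ht, hyi]
      push_cast
      have hmi : m + 1 ≤ m * (i+2) := by nlinarith
      obtain ⟨e, he⟩ : ∃ e, m * (i+2) = (m+1) + e := ⟨m*(i+2) - (m+1), by omega⟩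
      rw [he, pow_add]
      exact ⟨P^e * (c : WittVector p k)^(i+2) * (t : WittVector p k), by rw [hP]; ring⟩
    · have hi2 : i + 2 = p := by omega
      rw [hi2, Nat.choose_self, Nat.cast_one, mul_one, hyi]
      have hmp : m + 2 ≤ m * p := by nlinarith
      obtain ⟨e, he⟩ : ∃ e, m * p = (m+2) + e := ⟨m*p - (m+2), by omega⟩
      rw [he, pow_add]
      exact ⟨P^e * (c : WittVector p k)^p, by ring⟩
  obtain ⟨w, hw⟩ := hdiv
  have hexp : (1 + y)^p = 1 + P * y + ∑ i ∈ Finset.range (p - 1),
      y^(i+2) * (1:WittVector p k)^(p - (i+2)) * (p.choose (i+2) : WittVector p k) := by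
    rw [add_comm 1 y, add_pow]
    have hp1 : p + 1 = (p - 1) + 1 + 1 := by omega
    rw [hp1, Finset.sum_range_succ', Finset.sum_range_succ']
    simp only [pow_zero, one_pow, mul_one, Nat.choose_zero_right, Nat.cast_one, zero_add, pow_one,
      Nat.choose_one_right]
    rw [hP]
    ring
  have hcu : IsUnit ((c : WittVector p k) + P * w) := by
    apply WittVector.isUnit_of_coeff_zero_ne_zero
    have : WittVector.constantCoeff ((c : WittVector p k) + P * w) = WittVector.constantCoeff (c : WittVector p k) := by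
      rw [map_add, map_mul, hP, h24_cc_p, zero_mul, add_zero]
    rw [WittVector.constantCoeff_apply, WittVector.constantCoeff_apply] at this
    rw [this]
    exact (c.isUnit.map WittVector.constantCoeff).ne_zero
  refine ⟨hcu.unit, ?_⟩
  rw [hexp, hw, IsUnit.unit_spec, hy]
  ring

/-- For an odd prime p and a perfect field k of characteristic p, a root of unity in the ring of Witt
vectors W(k) whose residue in k is 1 is itself 1: if x ^ n = 1 with n ≥ 1 and the zeroth Witt
component of x is 1, then x = 1. (For p = 2 this fails: -1 in W(F_2).) -/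
theorem result (p : ℕ) [Fact p.Prime] (hp : p ≠ 2)
    (k : Type u) [Field k] [CharP k p] [PerfectRing k p]
    (x : WittVector p k) (n : ℕ) (hn : 0 < n) (hx : x ^ n = 1) (h0 : x.coeff 0 = 1) : x = 1 := by
  by_contra hne
  set P : WittVector p k := (p : WittVector p k) with hP
  have hP0 : P ≠ 0 := (WittVector.irreducible p).ne_zero
  have hy : x - 1 ≠ 0 := sub_ne_zero.mpr hne
  obtain ⟨m, b, hyb⟩ := WittVector.exists_eq_pow_p_mul' (x - 1) hy
  rw [← hP] at hyb
  have hcx : WittVector.constantCoeff x = 1 := h0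
  have hm : 1 ≤ m := by
    by_contra hm0
    have hm0' : m = 0 := by omega
    rw [hm0', pow_zero, one_mul] at hyb
    have h1 := congrArg WittVector.constantCoeff hyb
    rw [map_sub, hcx, map_one, sub_self] at h1
    exact (b.isUnit.map WittVector.constantCoeff).ne_zero h1.symm
  -- lemma A
  have lemA : ∀ (M : ℕ), 1 ≤ M → ∀ (c : (WittVector p k)ˣ) (q : ℕ), ¬ p ∣ q →
      ∃ c' : (WittVector p k)ˣ, (1 + P^M * c)^q = 1 + P^M * c' := by
    intro M hM c q hq
    set z := 1 + P^M * (c : WittVector p k) with hz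
    have hgeom := mul_geom_sum z q
    have hS : IsUnit (∑ i ∈ Finset.range q, z ^ i) := by
      apply WittVector.isUnit_of_coeff_zero_ne_zero
      change WittVector.constantCoeff _ ≠ 0
      have hzc : WittVector.constantCoeff z = 1 := by
        rw [hz, map_add, map_one, map_mul, map_pow, hP, h24_cc_p, zero_pow (by omega), zero_mul, add_zero]
      rw [map_sum]
      simp only [map_pow, hzc, one_pow, Finset.sum_const, Finset.card_range, nsmul_eq_mul, mul_one]
      intro hq0
      exact hq ((CharP.cast_eq_zero_iff k p q).mp hq0)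
    refine ⟨c * hS.unit, ?_⟩
    have : z - 1 = P^M * (c : WittVector p k) := by rw [hz]; ring
    rw [this] at hgeom
    rw [Units.val_mul, IsUnit.unit_spec]
    linear_combination -hgeom
  -- iterate lemma B
  have iter : ∀ a : ℕ, ∃ c : (WittVector p k)ˣ, x^(p^a) = 1 + P^(m+a) * c := by
    intro a
    induction a with
    | zero => exact ⟨b, by rw [pow_zero, pow_one, add_zero]; linear_combination hyb⟩
    | succ a ih =>
      obtain ⟨c, hc⟩ := ih
      obtain ⟨c', hc'⟩ := h24_lemB p hp k (m + a) (by omega) c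
      exact ⟨c', by rw [pow_succ, pow_mul, hc, hP, hc']; ring⟩
  obtain ⟨a, q, hq, hnq⟩ := Nat.exists_eq_pow_mul_and_not_dvd (by omega : n ≠ 0) p
    (Fact.out : p.Prime).ne_one
  obtain ⟨c, hc⟩ := iter a
  obtain ⟨c', hc'⟩ := lemA (m + a) (by omega) c q hq
  have h1 : x ^ n = 1 + P^(m+a) * c' := by rw [hnq, pow_mul, hc, hc']
  rw [hx] at h1
  have h2 : P^(m+a) * (c' : WittVector p k) = 0 := by linear_combination -h1
  rcases mul_eq_zero.mp h2 with h3 | h3
  · exact hP0 (pow_eq_zero_iff (by omega) |>.mp h3)
  · exact c'.ne_zero h3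

end Groth.Agent.S16356
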