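import Groth.Statements.S16357
import Mathlib.Algebra.Polynomial.Lifts
import Mathlib.Tactic.FieldSimp
import Mathlib.Tactic.Ring
import Mathlib.Algebra.Field.Subfield.Basic
-- import your own Groth.Agent.* helpers here

set_option autoImplicit false
universe u
open OrdAV

namespace Groth.Agent.S16357

/-- Over a field L of characteristic zero, a monic polynomial h whose square has rational coefficients
has rational coefficients itself. -/
theorem result (L : Type u) [Field L] [CharZero L]
    (h : Polynomial L) (hm : h.Monic) (f : Polynomial ℚ)
    (hf : h ^ 2 = Polynomial.map (algebraMap ℚ L) f) :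
    ∃ g : Polynomial ℚ, Polynomial.map (algebraMap ℚ L) g = h := by
  set K : Subfield L := (algebraMap ℚ L).fieldRange with hK
  set n := h.natDegree with hn
  have hcn : h.coeff n = 1 := hm
  have hbig : ∀ j, n < j → h.coeff j = 0 := fun j hj => Polynomial.coeff_eq_zero_of_natDegree_lt hj
  have hfm : ∀ m, (h * h).coeff m ∈ K := by
    intro m
    rw [← sq, hf, Polynomial.coeff_map]
    exact ⟨f.coeff m, rfl⟩
  have key : ∀ k, k ≤ n → h.coeff (n - k) ∈ K := by
    intro k
    induction k using Nat.strong_induction_on with
    | _ k ih =>
      intro hk
      rcases Nat.eq_zero_or_pos k with hk0 | hkpos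
      · subst hk0
        rw [Nat.sub_zero, hcn]
        exact K.one_mem
      · set m := 2 * n - k with hm'
        set T : ℕ → L := fun j => h.coeff j * h.coeff (m - j) with hT
        have hsum : (h * h).coeff m = ∑ j ∈ Finset.range (m + 1), T j := by
          rw [Polynomial.coeff_mul, Finset.Nat.sum_antidiagonal_eq_sum_range_succ (fun a b => h.coeff a * h.coeff b)]
        set S : Finset ℕ := {n - k, n} with hS
        have hSsub : S ⊆ Finset.range (m + 1) := by
          intro j hj
          rw [hS, Finset.mem_insert, Finset.mem_singleton] at hj
          rw [Finset.mem_range]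
          omega
        have hsplit : ∑ j ∈ Finset.range (m + 1), T j =
            ∑ j ∈ Finset.range (m + 1), (if j ∈ S then 0 else T j) + (T (n - k) + T n) := by
          have e1 : ∀ j, T j = (if j ∈ S then 0 else T j) + (if j ∈ S then T j else 0) := by
            intro j; split_ifs <;> simp
          rw [Finset.sum_congr rfl (fun j _ => e1 j), Finset.sum_add_distrib, Finset.sum_ite_mem,
            Finset.inter_eq_right.2 hSsub, hS, Finset.sum_pair (by omega)]
        have hT1 : T (n - k) = h.coeff (n - k) := by
          simp only [hT]
          rw [show m - (n - k) = n by omega, hcn, mul_one]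
        have hT2 : T n = h.coeff (n - k) := by
          simp only [hT]
          rw [show m - n = n - k by omega, hcn, one_mul]
        have hrest : ∑ j ∈ Finset.range (m + 1), (if j ∈ S then 0 else T j) ∈ K := by
          refine K.sum_mem fun j hj => ?_
          split_ifs with hjS
          · exact K.zero_mem
          · rw [hS, Finset.mem_insert, Finset.mem_singleton, not_or] at hjS
            rcases lt_or_ge n j with hj1 | hj1
            · simp only [hT]; rw [hbig j hj1, zero_mul]; exact K.zero_mem
            rcases lt_or_ge j (n - k) with hj2 | hj2
            · simp only [hT]; rw [hbig (m - j) (by omega), mul_zero]; exact K.zero_mem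
            · simp only [hT]
              refine K.mul_mem ?_ ?_
              · have := ih (n - j) (by omega) (by omega)
                rwa [show n - (n - j) = j by omega] at this
              · have := ih (j + k - n) (by omega) (by omega)
                rwa [show n - (j + k - n) = m - j by omega] at this
        have heq : h.coeff (n - k) = ((h * h).coeff m - ∑ j ∈ Finset.range (m + 1), (if j ∈ S then 0 else T j)) / 2 := by
          rw [hsum, hsplit, hT1, hT2]
          field_simp
          ring
        rw [heq]
        refine K.div_mem (K.sub_mem (hfm m) hrest) ?_
        exact ⟨2, by simp⟩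
  have hall : ∀ j, h.coeff j ∈ Set.range (algebraMap ℚ L) := by
    intro j
    rcases le_or_gt j n with hj | hj
    · have := key (n - j) (by omega)
      rw [show n - (n - j) = j by omega] at this
      exact this
    · rw [hbig j hj]; exact ⟨0, map_zero _⟩
  have hl : h ∈ Polynomial.lifts (algebraMap ℚ L) := (Polynomial.lifts_iff_coeff_lifts h).2 hall
  obtain ⟨g, hg⟩ := Polynomial.mem_lifts h |>.1 hl
  exact ⟨g, hg⟩

end Groth.Agent.S16357
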