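import Groth.Statements.S16358
import Mathlib.RingTheory.WittVector.DiscreteValuationRing
import Mathlib.LinearAlgebra.FreeModule.PID
import Mathlib.Algebra.Module.Projective
-- import your own Groth.Agent.* helpers here

set_option autoImplicit false
universe u v w
open OrdAV

namespace Groth.Agent.S16358

/-- Let k be a perfect field of characteristic p > 0 and W = W(k); let M be a finitely generated free
W-module on which a finite group G acts W-linearly, with invariant submodule M^G. Then the map
(W/pW) ⊗ M^G → (W/pW) ⊗ M induced by the inclusion is injective. Since M^G is free, this implies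
rank_W M^G ≤ dim_k (M/pM)^G; the published statement is that inequality, and this row states the
stronger injectivity. -/
theorem result (p : ℕ) [Fact p.Prime]
    (k : Type u) [Field k] [CharP k p] [PerfectRing k p]
    (M : Type v) [AddCommGroup M] [Module (WittVector p k) M]
    [Module.Free (WittVector p k) M] [Module.Finite (WittVector p k) M]
    (G : Type w) [Group G] [Finite G] (ρ : Representation (WittVector p k) G M) :
    Function.Injective
      (LinearMap.lTensor (WittVector p k ⧸ Ideal.span {(p : WittVector p k)}) ρ.invariants.subtype) := by
  have : Module.IsTorsionFree (WittVector p k) (M ⧸ ρ.invariants) := by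
    apply Module.IsTorsionFree.of_smul_eq_zero
    intro r x hx
    induction x using Submodule.Quotient.induction_on with
    | H m =>
      rw [← Submodule.Quotient.mk_smul, Submodule.Quotient.mk_eq_zero] at hx
      by_cases hr : r = 0
      · left; exact hr
      · right
        rw [Submodule.Quotient.mk_eq_zero]
        rw [Representation.mem_invariants] at hx ⊢
        intro g
        have h1 := hx g
        rw [map_smul] at h1
        have h2 : r • (ρ g m - m) = 0 := by rw [smul_sub, h1, sub_self]
        exact sub_eq_zero.mp ((smul_eq_zero_iff_right hr).mp h2)
  have : Module.Free (WittVector p k) (M ⧸ ρ.invariants) := Module.free_of_finite_type_torsion_free'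
  obtain ⟨s, hs⟩ := Module.projective_lifting_property ρ.invariants.mkQ LinearMap.id
    (Submodule.mkQ_surjective _)
  have hmem : ∀ m, m - s (ρ.invariants.mkQ m) ∈ ρ.invariants := fun m => by
    rw [← Submodule.Quotient.mk_eq_zero, Submodule.Quotient.mk_sub]
    have := LinearMap.congr_fun hs (ρ.invariants.mkQ m)
    simp only [LinearMap.comp_apply, LinearMap.id_apply, Submodule.mkQ_apply] at this ⊢
    rw [this, sub_self]
  let r : M →ₗ[WittVector p k] ρ.invariants :=
    LinearMap.codRestrict ρ.invariants (LinearMap.id - s.comp ρ.invariants.mkQ) hmem
  have hr : r.comp ρ.invariants.subtype = LinearMap.id := by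
    ext n
    have h0 : (Submodule.Quotient.mk (n : M) : M ⧸ ρ.invariants) = 0 :=
      (Submodule.Quotient.mk_eq_zero _).mpr n.2
    simp [r, h0]
  intro x y hxy
  have h := congrArg (LinearMap.lTensor (WittVector p k ⧸ Ideal.span {(p : WittVector p k)}) r) hxy
  rw [← LinearMap.comp_apply, ← LinearMap.comp_apply, ← LinearMap.lTensor_comp, hr,
    LinearMap.lTensor_id] at h
  exact h

end Groth.Agent.S16358
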