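import Groth.Statements.S16362
import Mathlib.Tactic.Ring
import Mathlib.Tactic.FieldSimp
-- import your own Groth.Agent.* helpers here

set_option autoImplicit false
universe u
open MovLem

namespace Groth.Agent.S16362

theorem h24_reindex {M : Type*} [AddCommMonoid M] (N : ℕ) (g : ℕ → M) :
    ∑ i ∈ Finset.Icc 1 N, g (N - i) = ∑ j ∈ Finset.range N, g j := by
  refine Finset.sum_nbij' (fun i => N - i) (fun j => N - j) ?_ ?_ ?_ ?_ ?_
  · intro i hi
    simp only [Finset.mem_Icc, Finset.mem_range] at hi ⊢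
    omega
  · intro j hj
    simp only [Finset.mem_Icc, Finset.mem_range] at hj ⊢
    omega
  · intro i hi
    simp only [Finset.mem_Icc] at hi
    omega
  · intro j hj
    simp only [Finset.mem_range] at hj
    omega
  · intro i _
    rfl

theorem h24_key {K : Type*} [Field K] (zb ub : K) (hub : ub ≠ 0) (N : ℕ) (c : ℕ → K) :
    ub ^ N * ((zb / ub) ^ N + ∑ i ∈ Finset.Icc 1 N, c i * (zb / ub) ^ (N - i)) =
      zb ^ N + ∑ i ∈ Finset.Icc 1 N, c i * zb ^ (N - i) * ub ^ i := by
  rw [mul_add, Finset.mul_sum]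
  congr 1
  · rw [div_pow, mul_div_cancel₀ _ (pow_ne_zero _ hub)]
  · refine Finset.sum_congr rfl fun i hi => ?_
    rw [Finset.mem_Icc] at hi
    have : ub ^ N = ub ^ (N - i) * ub ^ i := by rw [← pow_add, Nat.sub_add_cancel hi.2]
    rw [this, div_pow]
    have h2 : ub ^ (N - i) ≠ 0 := pow_ne_zero _ hub
    field_simp

/-- Let A be a commutative ring, p a prime ideal of A, and ζ, u elements of A with u not in p. Then the
quotient of the classes of ζ and u in the fraction field of the domain A ⧸ p is integral over A ⧸ p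
if and only if there exist a natural number N and elements a_1, …, a_N of A such that ζ^N + a_1
ζ^(N-1) u + ⋯ + a_N u^N lies in p; equivalently, some binary form of degree N with coefficients in
A, monic in the first variable, evaluated at (ζ, u), lies in p. -/
theorem result
    {A : Type u} [CommRing A] (p : Ideal A) [p.IsPrime] (ζ u : A) (hu : u ∉ p) :
    IsIntegral (A ⧸ p)
        (algebraMap (A ⧸ p) (FractionRing (A ⧸ p)) (Ideal.Quotient.mk p ζ) /
          algebraMap (A ⧸ p) (FractionRing (A ⧸ p)) (Ideal.Quotient.mk p u)) ↔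
      ∃ (N : ℕ) (a : ℕ → A),
        ζ ^ N + ∑ i ∈ Finset.Icc 1 N, a i * ζ ^ (N - i) * u ^ i ∈ p := by
  set f := algebraMap (A ⧸ p) (FractionRing (A ⧸ p)) with hf
  have hfinj : Function.Injective f := IsFractionRing.injective (A ⧸ p) (FractionRing (A ⧸ p))
  have hub : f (Ideal.Quotient.mk p u) ≠ 0 := by
    intro h
    apply hu
    rw [← Ideal.Quotient.eq_zero_iff_mem]
    exact hfinj (by rw [h, map_zero])
  set zb := f (Ideal.Quotient.mk p ζ) with hzb
  set ub := f (Ideal.Quotient.mk p u) with hubdef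
  have himg : ∀ (N : ℕ) (a : ℕ → A), f (Ideal.Quotient.mk p
      (ζ ^ N + ∑ i ∈ Finset.Icc 1 N, a i * ζ ^ (N - i) * u ^ i)) =
      zb ^ N + ∑ i ∈ Finset.Icc 1 N, f (Ideal.Quotient.mk p (a i)) * zb ^ (N - i) * ub ^ i := by
    intro N a
    simp [map_add, map_sum, map_mul, map_pow, hzb, hubdef]
  constructor
  · rintro ⟨P, hPm, hP⟩
    set N := P.natDegree with hN
    choose a ha using fun i : ℕ => Ideal.Quotient.mk_surjective (I := p) (P.coeff (N - i))
    refine ⟨N, a, ?_⟩
    rw [← Ideal.Quotient.eq_zero_iff_mem]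
    apply hfinj
    rw [himg, map_zero]
    simp_rw [ha]
    rw [← h24_key zb ub hub N (fun i => f (P.coeff (N - i)))]
    have hev : Polynomial.eval₂ f (zb / ub) P = (zb / ub) ^ N +
        ∑ i ∈ Finset.Icc 1 N, f (P.coeff (N - i)) * (zb / ub) ^ (N - i) := by
      rw [Polynomial.eval₂_eq_sum_range, Finset.sum_range_succ, ← hN]
      rw [show P.coeff N = 1 from hPm, map_one, one_mul, add_comm]
      congr 1
      exact (h24_reindex N (fun j => f (P.coeff j) * (zb / ub) ^ j)).symm
    rw [← hev, hP, mul_zero]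
  · rintro ⟨N, a, hmem⟩
    refine ⟨Polynomial.X ^ N + ∑ i ∈ Finset.Icc 1 N,
      Polynomial.C (Ideal.Quotient.mk p (a i)) * Polynomial.X ^ (N - i), ?_, ?_⟩
    · apply Polynomial.monic_X_pow_add
      refine lt_of_le_of_lt (Polynomial.degree_sum_le _ _) ?_
      rw [Finset.sup_lt_iff (WithBot.bot_lt_coe _)]
      intro i hi
      rw [Finset.mem_Icc] at hi
      refine lt_of_le_of_lt (Polynomial.degree_C_mul_X_pow_le _ _) ?_
      exact_mod_cast (show N - i < N by omega)
    · have h0 : f (Ideal.Quotient.mk p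
          (ζ ^ N + ∑ i ∈ Finset.Icc 1 N, a i * ζ ^ (N - i) * u ^ i)) = 0 := by
        rw [Ideal.Quotient.eq_zero_iff_mem.2 hmem, map_zero]
      rw [himg, ← h24_key zb ub hub N (fun i => f (Ideal.Quotient.mk p (a i)))] at h0
      have hpow : ub ^ N ≠ 0 := pow_ne_zero _ hub
      have h1 := (mul_eq_zero.1 h0).resolve_left hpow
      rw [← h1]
      simp only [Polynomial.eval₂_add, Polynomial.eval₂_finsetSum, Polynomial.eval₂_X_pow,
        Polynomial.eval₂_mul, Polynomial.eval₂_C]
      rfl

end Groth.Agent.S16362
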