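import Groth.Statements.S16371
import Mathlib.Tactic.LinearCombination
import Mathlib.Tactic.Ring
-- import your own Groth.Agent.* helpers here

set_option autoImplicit false
universe u v w
open FrobAlg

namespace Groth.Agent.S16371

theorem h24_pow_add_eps {B : Type*} [CommRing B] (a ε : B) (hε : ε ^ 2 = 0) (n : ℕ) :
    (a + ε) ^ (n + 1) = a ^ (n + 1) + ((n + 1 : ℕ) : B) * a ^ n * ε := by
  induction n with
  | zero => simp
  | succ k ih =>
    rw [pow_succ, ih]
    have : ε * ε = 0 := by rw [← sq]; exact hε
    push_cast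
    linear_combination ((k : B) + 1) * a ^ k * this

/-- Let p be a prime, A a commutative ring and B, C commutative A-algebras with p² = 0 in B. If two
A-algebra maps g₁, g₂ : C → B agree modulo p, then they agree on every element of C which is
congruent modulo p to an element of the A-subalgebra generated by the p-th powers. (The source
states this for liftings over a flat ℤ/p²-thickening of two smooth schemes and the subsheaf of
functions whose reduction lies in the image of the relative Frobenius; the smoothness and lifting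
hypotheses are not needed for the identity.) -/
theorem result
    (p : ℕ) [Fact p.Prime] (A : Type u) [CommRing A] (B : Type v) [CommRing B] [Algebra A B]
    (C : Type w) [CommRing C] [Algebra A C] (hp : (p : B) ^ 2 = 0)
    (g₁ g₂ : C →ₐ[A] B) (hg : ∀ x : C, g₁ x - g₂ x ∈ Ideal.span ({(p : B)} : Set B))
    (x y : C) (hy : y ∈ Algebra.adjoin A (Set.range fun c : C => c ^ p))
    (hxy : x - y ∈ Ideal.span ({(p : C)} : Set C)) :
    g₁ x = g₂ x := by
  have hpos : 0 < p := (Fact.out : p.Prime).pos
  have key : ∀ c : C, g₁ (c ^ p) = g₂ (c ^ p) := by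
    intro c
    obtain ⟨b, hb⟩ := Ideal.mem_span_singleton'.1 (hg c)
    have e1 : g₁ c = g₂ c + b * p := by rw [hb]; ring
    have hε : (b * (p : B)) ^ 2 = 0 := by rw [mul_pow, hp, mul_zero]
    obtain ⟨n, rfl⟩ : ∃ n, p = n + 1 := ⟨p - 1, by omega⟩
    rw [map_pow, map_pow, e1, h24_pow_add_eps _ _ hε n]
    have : ((n + 1 : ℕ) : B) * g₂ c ^ n * (b * ((n + 1 : ℕ) : B)) =
        ((n + 1 : ℕ) : B) ^ 2 * (g₂ c ^ n * b) := by ring
    rw [this, hp, zero_mul, add_zero]
  have hyeq : g₁ y = g₂ y := by
    have hle : Algebra.adjoin A (Set.range fun c : C => c ^ p) ≤ AlgHom.equalizer g₁ g₂ := by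
      rw [Algebra.adjoin_le_iff]
      rintro _ ⟨c, rfl⟩
      exact key c
    exact hle hy
  obtain ⟨z, hz⟩ := Ideal.mem_span_singleton'.1 hxy
  have hx : x = y + z * p := by rw [hz]; ring
  obtain ⟨b, hb⟩ := Ideal.mem_span_singleton'.1 (hg z)
  have : g₁ x - g₂ x = 0 := by
    rw [hx, map_add, map_add, map_mul, map_mul, map_natCast, map_natCast, hyeq]
    have : g₁ z = g₂ z + b * p := by rw [hb]; ring
    rw [this]
    linear_combination b * hp
  exact sub_eq_zero.1 this

end Groth.Agent.S16371
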