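import Groth.Statements.S16374
import Mathlib.Tactic.LinearCombination
import Mathlib.Tactic.Ring
-- import your own Groth.Agent.* helpers here

set_option autoImplicit false
universe u v w
open FrobAlg

namespace Groth.Agent.S16374

/-- Let p be a prime, A a commutative ring, B and C commutative A-algebras with p² = 0 in B, and g : C →
B an A-algebra map such that every g(c) is congruent modulo p to an element of the A-subalgebra of B
generated by the p-th powers (g lifts a relative Frobenius). Then d(g(x)) = 0 in the module of
Kähler differentials of B over A for every x ∈ C that is congruent modulo p to an element of the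
A-subalgebra of C generated by the p-th powers. (The source works with a lifting of the relative
Frobenius of a smooth scheme over a ℤ/p²-thickening and the subsheaf of functions whose reduction
comes from the Frobenius twist; smoothness is not needed for this vanishing.) -/
theorem result
    (p : ℕ) [Fact p.Prime] (A : Type u) [CommRing A] (B : Type v) [CommRing B] [Algebra A B]
    (C : Type w) [CommRing C] [Algebra A C] (hp : (p : B) ^ 2 = 0)
    (g : C →ₐ[A] B)
    (hg : ∀ c : C, ∃ u ∈ Algebra.adjoin A (Set.range fun b : B => b ^ p),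
      g c - u ∈ Ideal.span ({(p : B)} : Set B))
    (x y : C) (hy : y ∈ Algebra.adjoin A (Set.range fun c : C => c ^ p))
    (hxy : x - y ∈ Ideal.span ({(p : C)} : Set C)) :
    KaehlerDifferential.D A B (g x) = 0 := by
  set D := KaehlerDifferential.D A B with hD
  have hpp : ∀ ω : Ω[B⁄A], (p : B) • (p : B) • ω = 0 := by
    intro ω
    rw [smul_smul, ← sq, hp, zero_smul]
  -- (ii) D u ∈ p • Ω for u in adjoin of p-th powers
  have hii : ∀ u ∈ Algebra.adjoin A (Set.range fun b : B => b ^ p), ∃ ω, D u = (p : B) • ω := by
    intro u hu
    induction hu using Algebra.adjoin_induction with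
    | mem x hx =>
      obtain ⟨b, rfl⟩ := hx
      refine ⟨b ^ (p - 1) • D b, ?_⟩
      rw [Derivation.leibniz_pow, ← Nat.cast_smul_eq_nsmul B]
    | algebraMap r => exact ⟨0, by rw [Derivation.map_algebraMap, smul_zero]⟩
    | add x y _ _ hx hy =>
      obtain ⟨ω, hω⟩ := hx
      obtain ⟨ω', hω'⟩ := hy
      exact ⟨ω + ω', by rw [Derivation.map_add, hω, hω', smul_add]⟩
    | mul x y _ _ hx hy =>
      obtain ⟨ω, hω⟩ := hx
      obtain ⟨ω', hω'⟩ := hy
      refine ⟨x • ω' + y • ω, ?_⟩
      rw [Derivation.leibniz, hω, hω', smul_add, smul_comm x, smul_comm y]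
  -- (iii) p • D (g c) = 0
  have hiii : ∀ c : C, (p : B) • D (g c) = 0 := by
    intro c
    obtain ⟨u, hu, hcu⟩ := hg c
    obtain ⟨w, hw⟩ := Ideal.mem_span_singleton'.1 hcu
    obtain ⟨ω, hω⟩ := hii u hu
    have : g c = u + w * p := by rw [hw]; ring
    rw [this, Derivation.map_add, Derivation.leibniz, Derivation.map_natCast, smul_zero, zero_add,
      hω, smul_add, hpp, zero_add, hpp]
  -- (v) D (g y) = 0 for y in adjoin
  have hv : ∀ y ∈ Algebra.adjoin A (Set.range fun c : C => c ^ p), D (g y) = 0 := by
    intro y hy
    induction hy using Algebra.adjoin_induction with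
    | mem x hx =>
      obtain ⟨c, rfl⟩ := hx
      rw [map_pow, Derivation.leibniz_pow, ← Nat.cast_smul_eq_nsmul B, smul_comm, hiii, smul_zero]
    | algebraMap r => rw [AlgHom.commutes, Derivation.map_algebraMap]
    | add x y _ _ hx hy => rw [map_add, Derivation.map_add, hx, hy, add_zero]
    | mul x y _ _ hx hy => rw [map_mul, Derivation.leibniz, hx, hy, smul_zero, smul_zero, add_zero]
  obtain ⟨z, hz⟩ := Ideal.mem_span_singleton'.1 hxy
  have hx : x = y + z * p := by rw [hz]; ring
  rw [hx, map_add, map_mul, map_natCast, Derivation.map_add, hv y hy, zero_add, Derivation.leibniz,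
    Derivation.map_natCast, smul_zero, zero_add, hiii]

end Groth.Agent.S16374
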