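import Groth.Statements.S1638
import Mathlib.LinearAlgebra.Basis.VectorSpace
-- import your own Groth.Agent.* helpers here

set_option autoImplicit false
universe u
open Brauer

namespace Groth.Agent.S1638

/-- Let A and A' be algebras over a field k with subalgebras B ⊆ A and B' ⊆ A' having centralizers C and
C'. Then the centralizer of the image of B ⊗ B' in A ⊗_k A' is the image of C ⊗_k C'. -/
theorem result (k : Type u) [Field k] (A A' : Type u) [Ring A] [Ring A'] [Algebra k A] [Algebra k A']
    (B : Subalgebra k A) (B' : Subalgebra k A') :
    Subalgebra.centralizer k ((Algebra.TensorProduct.map B.val B'.val).range : Set (TensorProduct k A A')) =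
      (Algebra.TensorProduct.map (Subalgebra.centralizer k (B : Set A)).val (Subalgebra.centralizer k (B' : Set A')).val).range := by
  set CB := Subalgebra.centralizer k (B : Set A) with hCB
  set CB' := Subalgebra.centralizer k (B' : Set A') with hCB'
  ext x
  constructor
  · intro hx
    have hx1 : x ∈ Subalgebra.centralizer k
        ((Algebra.TensorProduct.includeLeft (S := k) : A →ₐ[k] TensorProduct k A A') '' (B : Set A)) := by
      refine Subalgebra.centralizer_le k _ _ ?_ hx
      rintro _ ⟨b, hb, rfl⟩
      exact ⟨⟨b, hb⟩ ⊗ₜ 1, by simp⟩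
    have hx2 : x ∈ Subalgebra.centralizer k
        ((Algebra.TensorProduct.includeRight : A' →ₐ[k] TensorProduct k A A') '' (B' : Set A')) := by
      refine Subalgebra.centralizer_le k _ _ ?_ hx
      rintro _ ⟨b, hb, rfl⟩
      exact ⟨1 ⊗ₜ ⟨b, hb⟩, by simp⟩
    rw [Subalgebra.centralizer_coe_image_includeLeft_eq_center_tensorProduct] at hx1
    rw [Subalgebra.centralizer_coe_image_includeRight_eq_center_tensorProduct] at hx2
    obtain ⟨y, rfl⟩ := hx1
    obtain ⟨z, hz⟩ := hx2
    obtain ⟨p, hp⟩ := CB'.val.toLinearMap.exists_leftInverse_of_injective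
      (LinearMap.ker_eq_bot.mpr Subtype.val_injective)
    have hp' : ∀ c : CB', p (c : A') = c := fun c => LinearMap.congr_fun hp c
    let q : A' →ₗ[k] A' := CB'.val.toLinearMap ∘ₗ p
    have claim1 : ∀ w : TensorProduct k A CB',
        LinearMap.lTensor A q (Algebra.TensorProduct.map (AlgHom.id k A) CB'.val w) =
          Algebra.TensorProduct.map (AlgHom.id k A) CB'.val w := by
      intro w
      induction w using TensorProduct.induction_on with
      | zero => simp
      | tmul a c => simp [q, hp']
      | add w₁ w₂ h₁ h₂ => simp only [map_add, h₁, h₂]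
    have claim2 : ∀ w : TensorProduct k CB A',
        LinearMap.lTensor A q (Algebra.TensorProduct.map CB.val (AlgHom.id k A') w) =
          Algebra.TensorProduct.map CB.val CB'.val (LinearMap.lTensor CB p w) := by
      intro w
      induction w using TensorProduct.induction_on with
      | zero => simp
      | tmul c a => simp [q]
      | add w₁ w₂ h₁ h₂ => simp only [map_add, h₁, h₂]
    have hz' : Algebra.TensorProduct.map (AlgHom.id k A) CB'.val z =
        Algebra.TensorProduct.map CB.val (AlgHom.id k A') y := hz
    refine ⟨LinearMap.lTensor CB p y, ?_⟩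
    show Algebra.TensorProduct.map CB.val CB'.val (LinearMap.lTensor CB p y) =
      Algebra.TensorProduct.map CB.val (AlgHom.id k A') y
    rw [← claim2, ← hz', claim1]
  · rintro ⟨y, rfl⟩
    rw [Subalgebra.mem_centralizer_iff]
    rintro _ ⟨t, rfl⟩
    show Algebra.TensorProduct.map B.val B'.val t * Algebra.TensorProduct.map CB.val CB'.val y =
      Algebra.TensorProduct.map CB.val CB'.val y * Algebra.TensorProduct.map B.val B'.val t
    induction t using TensorProduct.induction_on with
    | zero => simp
    | add t₁ t₂ h₁ h₂ => simp only [map_add, add_mul, mul_add, h₁, h₂]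
    | tmul b b' =>
      induction y using TensorProduct.induction_on with
      | zero => simp
      | add y₁ y₂ h₁ h₂ => simp only [map_add, add_mul, mul_add, h₁, h₂]
      | tmul c c' =>
        simp only [Algebra.TensorProduct.map_tmul, Subalgebra.coe_val,
          Algebra.TensorProduct.tmul_mul_tmul]
        have e1 : (b : A) * c = c * b :=
          (Subalgebra.mem_centralizer_iff k).mp c.2 b b.2
        have e2 : (b' : A') * c' = c' * b' :=
          (Subalgebra.mem_centralizer_iff k).mp c'.2 b' b'.2
        rw [e1, e2]

end Groth.Agent.S1638
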