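import Groth.Statements.S16390
import Mathlib.NumberTheory.Padics.Hensel
import Mathlib.Algebra.Polynomial.SpecificDegree
import Mathlib.Analysis.Complex.Norm
import Mathlib.Tactic.ComputeDegree
import Mathlib.Tactic.LinearCombination
-- import your own Groth.Agent.* helpers here

set_option autoImplicit false
open AbVar

namespace Groth.Agent.S16390

/-- Let p be a prime number, r > 2 and q = p^r. The polynomial x² − p x + q is irreducible over ℚ, each
of its complex roots has absolute value √q (so its roots are Weil q-numbers), and it has two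
distinct roots in ℚ_p, of p-adic valuations 1 and r − 1. The published lemma also computes the index
of the endomorphism algebra of the simple abelian variety attached to a root; this row does not
state that part. -/
theorem result (p r : ℕ) [Fact p.Prime] (hr : 2 < r) :
    Irreducible (Polynomial.X ^ 2 - Polynomial.C (p : ℚ) * Polynomial.X + Polynomial.C ((p : ℚ) ^ r)) ∧
      (∀ π : ℂ, π ^ 2 - (p : ℂ) * π + (p : ℂ) ^ r = 0 → ‖π‖ = Real.sqrt ((p : ℝ) ^ r)) ∧
      ∃ a b : ℚ_[p], a ≠ b ∧ a ^ 2 - (p : ℚ_[p]) * a + (p : ℚ_[p]) ^ r = 0 ∧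
        b ^ 2 - (p : ℚ_[p]) * b + (p : ℚ_[p]) ^ r = 0 ∧ a.valuation = 1 ∧ b.valuation = (r : ℤ) - 1 := by
  refine ⟨?_, ?_, ?_⟩
  · have hp2 : (2:ℕ) ≤ p := (Fact.out : p.Prime).two_le
    apply Polynomial.irreducible_of_degree_le_three_of_not_isRoot
    · have : (Polynomial.X ^ 2 - Polynomial.C (p : ℚ) * Polynomial.X + Polynomial.C ((p : ℚ) ^ r)).natDegree = 2 := by
        compute_degree!
      rw [this]; decide
    · intro x hx
      simp only [Polynomial.IsRoot, Polynomial.eval_add, Polynomial.eval_sub, Polynomial.eval_pow,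
        Polynomial.eval_X, Polynomial.eval_mul, Polynomial.eval_C] at hx
      have hpq : (2:ℚ) ≤ p := by exact_mod_cast hp2
      have h3 : (p:ℚ)^3 ≤ (p:ℚ)^r := pow_le_pow_right₀ (by linarith) (by omega)
      have h4 : (p:ℚ)^3 = p * p^2 := by ring
      nlinarith [sq_nonneg (2*x - p), sq_nonneg (p:ℚ)]
  · have hp2 : (2:ℕ) ≤ p := (Fact.out : p.Prime).two_le
    have hpq : (2:ℝ) ≤ p := by exact_mod_cast hp2
    have h3 : (p:ℝ)^3 ≤ (p:ℝ)^r := pow_le_pow_right₀ (by linarith) (by omega)
    have h4 : (p:ℝ)^3 = p * p^2 := by ring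
    intro π hπ
    have hq : ((p:ℂ)^r) = (((p:ℝ)^r : ℝ) : ℂ) := by push_cast; rfl
    rw [hq] at hπ
    have hre := congrArg Complex.re hπ
    have him := congrArg Complex.im hπ
    simp only [pow_two, Complex.sub_re, Complex.add_re, Complex.mul_re, Complex.natCast_re,
      Complex.natCast_im, Complex.ofReal_re, Complex.zero_re, Complex.sub_im, Complex.add_im,
      Complex.mul_im, Complex.ofReal_im, Complex.zero_im] at hre him
    rw [Complex.norm_eq_sqrt_sq_add_sq]
    congr 1
    have hy : π.im * (2 * π.re - p) = 0 := by linarith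
    rcases mul_eq_zero.mp hy with h | h
    · rw [h] at hre
      exfalso
      nlinarith [sq_nonneg (2*π.re - p), sq_nonneg (p:ℝ)]
    · have hx : π.re = p / 2 := by linarith
      rw [hx] at hre ⊢
      nlinarith
  · have hp2 : (2:ℕ) ≤ p := (Fact.out : p.Prime).two_le
    have hp_pos : (0:ℝ) < p := by exact_mod_cast (show 0 < p by omega)
    have hp1 : (p:ℝ) ≠ 1 := by exact_mod_cast (show p ≠ 1 by omega)
    have hval : ∀ x : ℚ_[p], ∀ n : ℤ, ‖x‖ = (p:ℝ)^(-n) → x.valuation = n := by
      intro x n hx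
      have hx0 : x ≠ 0 := by
        rintro rfl
        rw [norm_zero] at hx
        exact (zpow_pos hp_pos (-n)).ne' hx.symm
      have h1 := Padic.norm_eq_zpow_neg_valuation hx0
      rw [hx] at h1
      have h2 := (zpow_right_inj₀ hp_pos hp1).mp h1
      omega
    set F : Polynomial ℤ_[p] := Polynomial.X ^ 2 - Polynomial.X + Polynomial.C ((p:ℤ_[p])^(r-2)) with hF
    have hF0 : Polynomial.aeval (0:ℤ_[p]) F = (p:ℤ_[p])^(r-2) := by
      simp [hF]
    have hF1 : Polynomial.aeval (0:ℤ_[p]) (Polynomial.derivative F) = -1 := by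
      rw [hF, Polynomial.derivative_add, Polynomial.derivative_C]
      simp
    have hpr : ‖(p:ℤ_[p])^(r-2)‖ < 1 := by
      rw [norm_pow]
      refine pow_lt_one₀ (norm_nonneg _) ?_ (by omega)
      rw [PadicInt.norm_p]
      exact inv_lt_one_of_one_lt₀ (by exact_mod_cast (show 1 < p by omega))
    obtain ⟨z, hz, hz1, -, -⟩ := hensels_lemma (F := F) (a := 0) (by
      rw [hF0, hF1, norm_neg, norm_one, one_pow]; exact hpr)
    rw [hF1, norm_neg, norm_one, sub_zero] at hz1
    have hzeq : z ^ 2 - z + (p:ℤ_[p])^(r-2) = 0 := by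
      simpa [hF] using hz
    have h1z : ‖1 - z‖ = 1 := by
      apply le_antisymm (PadicInt.norm_le_one _)
      have := PadicInt.nonarchimedean (1 - z) z
      rw [sub_add_cancel, norm_one] at this
      rcases le_max_iff.mp this with h | h
      · exact h
      · linarith
    have hzn : ‖z‖ = (p:ℝ)^(-((r-2 : ℕ) : ℤ)) := by
      have h5 : z * (1 - z) = (p:ℤ_[p])^(r-2) := by linear_combination -hzeq
      have h6 := congrArg norm h5
      rw [norm_mul, h1z, mul_one, PadicInt.norm_p_pow] at h6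
      exact h6
    -- coerce to ℚ_[p]
    set Z : ℚ_[p] := (z : ℚ_[p]) with hZ
    have hZeq : Z ^ 2 - Z + (p:ℚ_[p])^(r-2) = 0 := by
      have := congrArg (fun w : ℤ_[p] => (w : ℚ_[p])) hzeq
      simpa using this
    have hpr2 : (p:ℚ_[p])^r = (p:ℚ_[p])^2 * (p:ℚ_[p])^(r-2) := by
      rw [← pow_add]; congr 1; omega
    refine ⟨(p:ℚ_[p]) * (1 - Z), (p:ℚ_[p]) * Z, ?_, ?_, ?_, ?_, ?_⟩
    rotate_left
    · rw [hpr2]; linear_combination (p:ℚ_[p])^2 * hZeq
    · rw [hpr2]; linear_combination (p:ℚ_[p])^2 * hZeq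
    · apply hval
      rw [norm_mul, Padic.norm_p]
      have : ‖(1 - Z)‖ = 1 := by
        have e : (1 - Z) = ((1 - z : ℤ_[p]) : ℚ_[p]) := by rw [hZ]; push_cast; rfl
        rw [e, PadicInt.padic_norm_e_of_padicInt, h1z]
      rw [this, mul_one, zpow_neg_one]
    · apply hval
      rw [norm_mul, Padic.norm_p]
      have : ‖Z‖ = (p:ℝ)^(-((r-2 : ℕ) : ℤ)) := by
        rw [hZ, PadicInt.padic_norm_e_of_padicInt, hzn]
      rw [this, ← zpow_neg_one, ← zpow_add₀ hp_pos.ne']
      congr 1
      push_cast [show 2 ≤ r by omega]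
      ring
    · intro hab
      have ha : ((p:ℚ_[p]) * (1 - Z)).valuation = 1 := by
        apply hval
        rw [norm_mul, Padic.norm_p]
        have : ‖(1 - Z)‖ = 1 := by
          have e : (1 - Z) = ((1 - z : ℤ_[p]) : ℚ_[p]) := by rw [hZ]; push_cast; rfl
          rw [e, PadicInt.padic_norm_e_of_padicInt, h1z]
        rw [this, mul_one, zpow_neg_one]
      have hb : ((p:ℚ_[p]) * Z).valuation = (r:ℤ) - 1 := by
        apply hval
        rw [norm_mul, Padic.norm_p]
        have : ‖Z‖ = (p:ℝ)^(-((r-2 : ℕ) : ℤ)) := by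
          rw [hZ, PadicInt.padic_norm_e_of_padicInt, hzn]
        rw [this, ← zpow_neg_one, ← zpow_add₀ hp_pos.ne']
        congr 1
        push_cast [show 2 ≤ r by omega]
        ring
      rw [hab, hb] at ha
      omega

end Groth.Agent.S16390
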