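import Groth.Statements.S16401
import Mathlib.Tactic.Abel
-- import your own Groth.Agent.* helpers here

set_option autoImplicit false
universe u v
open CAlgX

namespace Groth.Agent.S16401

theorem h24_prod_mem {R : Type*} [CommRing R] {ι : Type*} [AddCommGroup ι]
    (E : ι → AddSubgroup R) (h0 : E 0 = ⊤)
    (hmul : ∀ a b : ι, ∀ x ∈ E a, ∀ y ∈ E b, x * y ∈ E (a + b))
    {κ : Type*} [DecidableEq κ] (s : Finset κ) (f : κ → R) (w : κ → ι) (hf : ∀ i ∈ s, f i ∈ E (w i)) :
    ∏ i ∈ s, f i ∈ E (∑ i ∈ s, w i) := by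
  induction s using Finset.induction_on with
  | empty => simp [h0]
  | insert a s ha ih =>
    rw [Finset.prod_insert ha, Finset.sum_insert ha]
    exact hmul _ _ _ (hf a (Finset.mem_insert_self a s)) _
      (ih fun i hi => hf i (Finset.mem_insert_of_mem hi))

theorem h24_det_mem {R : Type*} [CommRing R] {ι : Type*} [AddCommGroup ι]
    (E : ι → AddSubgroup R) (h0 : E 0 = ⊤)
    (hmul : ∀ a b : ι, ∀ x ∈ E a, ∀ y ∈ E b, x * y ∈ E (a + b))
    {r : ℕ} (β γ : Fin r → ι) (M : Matrix (Fin r) (Fin r) R) (hM : ∀ a b, M a b ∈ E (γ a - β b)) :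
    M.det ∈ E (∑ a, γ a - ∑ b, β b) := by
  rw [Matrix.det_apply]
  refine AddSubgroup.sum_mem _ fun σ _ => ?_
  have hp : ∏ i, M (σ i) i ∈ E (∑ i, (γ (σ i) - β i)) :=
    h24_prod_mem E h0 hmul _ _ _ fun i _ => hM (σ i) i
  have he : ∑ i, (γ (σ i) - β i) = ∑ a, γ a - ∑ b, β b := by
    rw [Finset.sum_sub_distrib, Equiv.sum_comp σ γ]
  rw [he] at hp
  rw [Units.smul_def]
  exact AddSubgroup.zsmul_mem _ hp _

/-- Let R be a commutative ring and (E_a), a ∈ ι, a family of additive subgroups of R indexed by an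
additive commutative group ι, with E_0 = R and E_a · E_b ⊆ E_{a+b}. Let β, γ : Fin r → ι be weight
vectors with Σ_j β_j = Σ_i γ_i, and let ϑ be an r × r matrix over R with ϑ_{ij} ∈ E_{γ_i − β_j} for
all i, j and with unit determinant. Then a column vector u satisfies u_j ∈ E_{β_j} for every j if
and only if (ϑ u)_i ∈ E_{γ_i} for every i; since ϑ is invertible this says that ϑ maps the box Π_j
E_{β_j} bijectively onto the box Π_i E_{γ_i}. -/
theorem result
    {R : Type u} [CommRing R] {ι : Type v} [AddCommGroup ι]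
    (E : ι → AddSubgroup R) (h0 : E 0 = ⊤)
    (hmul : ∀ a b : ι, ∀ x ∈ E a, ∀ y ∈ E b, x * y ∈ E (a + b))
    {r : ℕ} (wβ wγ : Fin r → ι) (hsum : ∑ j, wβ j = ∑ i, wγ i)
    (ϑ : Matrix (Fin r) (Fin r) R) (hϑ : ∀ i j, ϑ i j ∈ E (wγ i - wβ j))
    (hdet : IsUnit ϑ.det) (u : Fin r → R) :
    (∀ j, u j ∈ E (wβ j)) ↔ ∀ i, ϑ.mulVec u i ∈ E (wγ i) := by
  constructor
  · intro hu i
    simp only [Matrix.mulVec, dotProduct]
    refine AddSubgroup.sum_mem _ fun j _ => ?_
    have := hmul _ _ _ (hϑ i j) _ (hu j)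
    rwa [sub_add_cancel] at this
  · intro hv j
    have hinv : ϑ⁻¹ * ϑ = 1 := Matrix.nonsing_inv_mul ϑ hdet
    have hu : u = ϑ⁻¹.mulVec (ϑ.mulVec u) := by
      rw [Matrix.mulVec_mulVec, hinv, Matrix.one_mulVec]
    rw [hu]
    simp only [Matrix.mulVec, dotProduct]
    refine AddSubgroup.sum_mem _ fun i _ => ?_
    have hadj : ϑ.adjugate j i ∈ E (wβ j - wγ i) := by
      rw [Matrix.adjugate_apply]
      have hM : ∀ a b, (ϑ.updateRow i (Pi.single j 1)) a b ∈
          E (Function.update wγ i (wβ j) a - wβ b) := by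
        intro a b
        by_cases ha : a = i
        · subst ha
          rw [Matrix.updateRow_self, Function.update_self]
          by_cases hb : b = j
          · subst hb
            rw [Pi.single_eq_same, sub_self, h0]
            exact AddSubgroup.mem_top _
          · rw [Pi.single_eq_of_ne hb]
            exact AddSubgroup.zero_mem _
        · rw [Matrix.updateRow_ne ha, Function.update_of_ne ha]
          exact hϑ a b
      have := h24_det_mem E h0 hmul wβ (Function.update wγ i (wβ j)) _ hM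
      have hs : ∑ a, Function.update wγ i (wβ j) a - ∑ b, wβ b = wβ j - wγ i := by
        rw [Finset.sum_update_of_mem (Finset.mem_univ i), hsum]
        have : (Finset.univ \ {i} : Finset (Fin r)) = Finset.univ.erase i := by
          ext x; simp [and_comm]
        rw [this, ← Finset.sum_erase_add Finset.univ wγ (Finset.mem_univ i)]
        abel
      rwa [hs] at this
    rw [Matrix.inv_def]
    simp only [Matrix.smul_apply, smul_eq_mul]
    have hinvmem : Ring.inverse ϑ.det ∈ E 0 := by rw [h0]; exact AddSubgroup.mem_top _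
    have := hmul _ _ _ (hmul _ _ _ hinvmem _ hadj) _ (hv i)
    have he : 0 + (wβ j - wγ i) + wγ i = wβ j := by abel
    rwa [he] at this

end Groth.Agent.S16401
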