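import Groth.Statements.S16405
-- import your own Groth.Agent.* helpers here

set_option autoImplicit false
universe u v
open InvQ

namespace Groth.Agent.S16405

/-- In weight form. Let b : L → ℤ^r be an injective homomorphism of abelian groups (the case in view: L
the character group of a maximal torus T of a semisimple group over ℂ and b the map dual to the
surjection of the rank-r split torus T' onto T that sends the i-th coordinate cocharacter to the
primitive generator of the i-th ray of the Weyl chamber; only the injectivity of b is used, and ℂ is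
replaced by any commutative ring k). Grade the monoid algebra k[L × ℕ^r] (the coordinate ring of T ×
𝔸^r) by ℤ^r, the monomial (w, n) having weight b(w) + n (the weights of the T'-action u·(t, v) =
(b^∨(u) t, u v)), and grade k[ℕ^r] by ℤ^r/b(L), the monomial n having weight the class of n (the
weights of the action on 𝔸^r of the diagonalizable kernel Z of T' → T, a finite group in the case in
view). For a diagonalizable group acting on an affine scheme the ring of invariants is the
weight-zero part, so the two weight-zero parts are the coordinate rings of the quotients (T ×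
𝔸^r)//T' and 𝔸^r//Z. The statement: the algebra map k[L × ℕ^r] → k[ℕ^r] induced by the projection L
× ℕ^r → ℕ^r (restriction to the slice 1 × 𝔸^r) maps the weight-zero part of k[L × ℕ^r] bijectively
onto the weight-zero part of k[ℕ^r]; hence it induces an isomorphism of k-algebras between them. -/
theorem result
    (k : Type u) [CommRing k] (r : ℕ) (L : Type v) [AddCommGroup L]
    (b : L →+ (Fin r → ℤ)) (hb : Function.Injective b) :
    Set.BijOn
      (AddMonoidAlgebra.mapDomainAlgHom k k (AddMonoidHom.snd L (Fin r → ℕ)))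
      (AddMonoidAlgebra.gradeBy k
        (b.comp (AddMonoidHom.fst L (Fin r → ℕ)) +
          (AddMonoidHom.compLeft (Nat.castAddMonoidHom ℤ) (Fin r)).comp (AddMonoidHom.snd L (Fin r → ℕ))) 0 :
        Set (AddMonoidAlgebra k (L × (Fin r → ℕ))))
      (AddMonoidAlgebra.gradeBy k
        ((QuotientAddGroup.mk' b.range).comp (AddMonoidHom.compLeft (Nat.castAddMonoidHom ℤ) (Fin r))) 0 :
        Set (AddMonoidAlgebra k (Fin r → ℕ))) := by
  classical
  set w : L × (Fin r → ℕ) →+ (Fin r → ℤ) := b.comp (AddMonoidHom.fst L (Fin r → ℕ)) +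
          (AddMonoidHom.compLeft (Nat.castAddMonoidHom ℤ) (Fin r)).comp (AddMonoidHom.snd L (Fin r → ℕ)) with hw
  set c : (Fin r → ℕ) →+ (Fin r → ℤ) ⧸ b.range :=
    (QuotientAddGroup.mk' b.range).comp (AddMonoidHom.compLeft (Nat.castAddMonoidHom ℤ) (Fin r)) with hc
  have hwapp : ∀ p : L × (Fin r → ℕ), w p = b p.1 + (fun i => ((p.2 i : ℕ) : ℤ)) := by
    intro p; rfl
  have hcapp : ∀ n : Fin r → ℕ, c n = 0 ↔ (fun i => ((n i : ℕ) : ℤ)) ∈ b.range := by
    intro n
    show (QuotientAddGroup.mk' b.range) _ = 0 ↔ _
    rw [QuotientAddGroup.mk'_apply, QuotientAddGroup.eq_zero_iff]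
    rfl
  have hmd : ∀ x : AddMonoidAlgebra k (L × (Fin r → ℕ)),
      (AddMonoidAlgebra.mapDomainAlgHom k k (AddMonoidHom.snd L (Fin r → ℕ)) x).coeff
        = Finsupp.mapDomain Prod.snd x.coeff := by
    intro x; rfl
  -- key: w p = 0 → p.1 determined by p.2
  have key : ∀ p : L × (Fin r → ℕ), w p = 0 → b p.1 = -(fun i => ((p.2 i : ℕ) : ℤ)) := by
    intro p hp
    rw [hwapp] at hp
    exact eq_neg_of_add_eq_zero_left hp
  refine ⟨?_, ?_, ?_⟩
  · -- MapsTo
    intro x hx
    rw [SetLike.mem_coe, AddMonoidAlgebra.mem_gradeBy_iff] at hx ⊢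
    intro n hn
    rw [hmd] at hn
    have := Finsupp.mapDomain_support hn
    rw [Finset.mem_image] at this
    obtain ⟨p, hp, rfl⟩ := this
    have h0 : w p = 0 := hx hp
    show c p.2 = 0
    rw [hcapp]
    refine ⟨-p.1, ?_⟩
    rw [map_neg, key p h0, neg_neg]
  · -- InjOn
    intro x hx y hy hxy
    rw [SetLike.mem_coe, AddMonoidAlgebra.mem_gradeBy_iff] at hx hy
    have hinj : Set.InjOn (Prod.snd : L × (Fin r → ℕ) → (Fin r → ℕ)) (w ⁻¹' {0}) := by
      intro p hp q hq hpq
      have h1 := key p hp
      have h2 := key q hq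
      rw [hpq] at h1
      exact Prod.ext (hb (h1.trans h2.symm)) hpq
    have h := Finsupp.mapDomain_injOn (M := k) (w ⁻¹' {0}) hinj hx hy
      (by rw [← hmd, ← hmd, hxy])
    exact AddMonoidAlgebra.coeff_injective h
  · -- SurjOn
    intro y hy
    rw [SetLike.mem_coe, AddMonoidAlgebra.mem_gradeBy_iff] at hy
    let g : (Fin r → ℕ) → L := fun n =>
      if h : ∃ l, b l = -(fun i => ((n i : ℕ) : ℤ)) then h.choose else 0
    let σ : (Fin r → ℕ) → L × (Fin r → ℕ) := fun n => (g n, n)
    refine ⟨AddMonoidAlgebra.ofCoeff (Finsupp.mapDomain σ y.coeff), ?_, ?_⟩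
    · rw [SetLike.mem_coe, AddMonoidAlgebra.mem_gradeBy_iff]
      intro p hp
      have := Finsupp.mapDomain_support hp
      rw [Finset.mem_image] at this
      obtain ⟨n, hn, rfl⟩ := this
      have hcn : c n = 0 := hy hn
      rw [hcapp] at hcn
      obtain ⟨l, hl⟩ := hcn
      have hex : ∃ l, b l = -(fun i => ((n i : ℕ) : ℤ)) := ⟨-l, by rw [map_neg, hl]⟩
      show w (g n, n) = 0
      rw [hwapp]
      simp only [g, dif_pos hex]
      rw [hex.choose_spec, neg_add_cancel]
    · apply AddMonoidAlgebra.coeff_injective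
      rw [hmd]
      show Finsupp.mapDomain Prod.snd (Finsupp.mapDomain σ y.coeff) = y.coeff
      rw [← Finsupp.mapDomain_comp]
      exact Finsupp.mapDomain_id

end Groth.Agent.S16405
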