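import Groth.Statements.S16414
import Mathlib.Tactic.Linarith
import Mathlib.Tactic.Ring
-- import your own Groth.Agent.* helpers here

set_option autoImplicit false
open Dieud

namespace Groth.Agent.S16414

/-- Let μ be a rational number with 0 < μ ≤ 1 and i an integer, and put f(i,j) = max(−i−j, −j, 0) for
integers j. Then min over all integers j of f(i,j) + jμ exists and equals max(−iμ, 0). -/
theorem result (μ : ℚ) (hμ0 : 0 < μ) (hμ1 : μ ≤ 1) (i : ℤ) :
    IsLeast (Set.range fun j : ℤ => ((max (max (-i - j) (-j)) 0 : ℤ) : ℚ) + (j : ℚ) * μ)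
      (max (-(i : ℚ) * μ) 0) := by
  constructor
  · rcases le_or_gt 0 i with h | h
    · refine ⟨0, ?_⟩
      simp only
      have h1 : max (max (-i - 0) (-0)) 0 = (0:ℤ) := by omega
      rw [h1]
      have h2 : -(i:ℚ) * μ ≤ 0 := by
        have : (0:ℚ) ≤ i := by exact_mod_cast h
        nlinarith
      rw [max_eq_right h2]; simp
    · refine ⟨-i, ?_⟩
      simp only
      have h3 : max (max (-i - -i) (- -i)) 0 = (0:ℤ) := by omega
      rw [h3]
      have h2 : 0 ≤ -(i:ℚ) * μ := by
        have : (i:ℚ) < 0 := by exact_mod_cast h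
        nlinarith
      rw [max_eq_left h2]
      push_cast
      ring
  · rintro _ ⟨j, rfl⟩
    simp only
    set m : ℤ := max (max (-i - j) (-j)) 0 with hm
    have e1 : -i - j ≤ m := by omega
    have e2 : -j ≤ m := by omega
    have e3 : 0 ≤ m := by omega
    have q1 : ((-i - j : ℤ) : ℚ) ≤ (m : ℚ) := by exact_mod_cast e1
    have q2 : ((-j : ℤ) : ℚ) ≤ (m : ℚ) := by exact_mod_cast e2
    have q3 : (0 : ℚ) ≤ (m : ℚ) := by exact_mod_cast e3
    push_cast at q1 q2
    apply max_le
    · rcases le_or_gt (i + j) 0 with h | h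
      · have : ((i + j : ℤ) : ℚ) ≤ 0 := by exact_mod_cast h
        push_cast at this
        nlinarith
      · have : (0 : ℚ) < ((i + j : ℤ) : ℚ) := by exact_mod_cast h
        push_cast at this
        nlinarith
    · rcases le_or_gt 0 j with h | h
      · have : (0 : ℚ) ≤ (j : ℚ) := by exact_mod_cast h
        nlinarith
      · have : (j : ℚ) < 0 := by exact_mod_cast h
        nlinarith

end Groth.Agent.S16414
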