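import Groth.Statements.S16415
-- import your own Groth.Agent.* helpers here

set_option autoImplicit false
open Dieud

namespace Groth.Agent.S16415

/-- Let μ be a rational number with 0 < μ ≤ 1, N a natural number and i an integer. The minimum of m +
jμ over all pairs of integers (m, j) with m ≥ max(−i−j, −j, 0) and 2m + i + 2j ≥ N exists and equals
μ · max(⌈(N−i)/2⌉, −i, 0). (The published statement prints the value as max(⌈(N−i)/2⌉, −iμ, 0),
without the factor μ on the first term; the printed argument computes μ · max(⌈(N−i)/2⌉, −i, 0),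
attained at m = 0, and for N = 2, i = 0, μ = 1/2 the pair (m, j) = (0, 1) gives 1/2 < 1, so the
value with the factor μ is stated here.) -/
theorem result (μ : ℚ) (hμ0 : 0 < μ) (hμ1 : μ ≤ 1)
    (N : ℕ) (i : ℤ) :
    IsLeast {x : ℚ | ∃ m j : ℤ, max (max (-i - j) (-j)) 0 ≤ m ∧ (N : ℤ) ≤ 2 * m + i + 2 * j ∧
        x = (m : ℚ) + (j : ℚ) * μ}
      (((max (max ⌈((N : ℚ) - i) / 2⌉ (-i)) 0 : ℤ) : ℚ) * μ) := by
  set c : ℤ := max (max ⌈((N : ℚ) - i) / 2⌉ (-i)) 0 with hc
  have hc1 : ⌈((N : ℚ) - i) / 2⌉ ≤ c := by omega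
  have hc2 : -i ≤ c := by omega
  have hc3 : 0 ≤ c := by omega
  constructor
  · refine ⟨0, c, ?_, ?_, ?_⟩
    · omega
    · have h1 : ((N : ℚ) - i) / 2 ≤ (c : ℚ) := by
        have := Int.le_ceil (((N : ℚ) - i) / 2)
        have h2 : ((⌈((N : ℚ) - i) / 2⌉ : ℤ) : ℚ) ≤ (c : ℚ) := by exact_mod_cast hc1
        linarith
      have h3 : ((N : ℤ) : ℚ) ≤ ((i + 2 * c : ℤ) : ℚ) := by
        push_cast
        linarith
      have h4 : (N : ℤ) ≤ i + 2 * c := by exact_mod_cast h3
      omega
    · simp
  · rintro _ ⟨m, j, hm, hN, rfl⟩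
    have e1 : -i - j ≤ m := by omega
    have e2 : -j ≤ m := by omega
    have e3 : 0 ≤ m := by omega
    have hceil : ⌈((N : ℚ) - i) / 2⌉ ≤ m + j := by
      rw [Int.ceil_le]
      have : ((N : ℤ) : ℚ) ≤ ((2 * m + i + 2 * j : ℤ) : ℚ) := by exact_mod_cast hN
      push_cast at this ⊢
      linarith
    have q1 : ((-i - j : ℤ) : ℚ) ≤ (m : ℚ) := by exact_mod_cast e1
    have q2 : ((-j : ℤ) : ℚ) ≤ (m : ℚ) := by exact_mod_cast e2
    have q3 : (0 : ℚ) ≤ (m : ℚ) := by exact_mod_cast e3
    push_cast at q1 q2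
    rw [hc]
    rcases le_total ⌈((N : ℚ) - i) / 2⌉ (-i) with h | h
    · rw [max_eq_right h]
      rcases le_total (-i) 0 with h' | h'
      · rw [max_eq_right h']
        push_cast
        rcases le_or_gt 0 j with hj | hj
        · have : (0 : ℚ) ≤ (j : ℚ) := by exact_mod_cast hj
          nlinarith
        · have : (j : ℚ) < 0 := by exact_mod_cast hj
          nlinarith
      · rw [max_eq_left h']
        push_cast
        rcases le_or_gt (i + j) 0 with hh | hh
        · have : ((i + j : ℤ) : ℚ) ≤ 0 := by exact_mod_cast hh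
          push_cast at this
          nlinarith
        · have : (0 : ℚ) < ((i + j : ℤ) : ℚ) := by exact_mod_cast hh
          push_cast at this
          nlinarith
    · rw [max_eq_left h]
      rcases le_total ⌈((N : ℚ) - i) / 2⌉ 0 with h' | h'
      · rw [max_eq_right h']
        push_cast
        rcases le_or_gt 0 j with hj | hj
        · have : (0 : ℚ) ≤ (j : ℚ) := by exact_mod_cast hj
          nlinarith
        · have : (j : ℚ) < 0 := by exact_mod_cast hj
          nlinarith
      · rw [max_eq_left h']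
        have : ((⌈((N : ℚ) - i) / 2⌉ : ℤ) : ℚ) ≤ ((m + j : ℤ) : ℚ) := by exact_mod_cast hceil
        push_cast at this
        nlinarith

end Groth.Agent.S16415
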