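import Groth.Statements.S16519
import Mathlib.Data.Int.Interval
import Mathlib.Data.Fintype.Pi
import Mathlib.Tactic.LinearCombination
import Mathlib.Tactic.Linarith
import Mathlib.Algebra.Order.BigOperators.Group.Finset
-- import your own Groth.Agent.* helpers here

set_option autoImplicit false
open CubicSurf

namespace Groth.Agent.S16519

def h24T : Finset (ℤ × (Fin 6 → ℤ)) :=
  (Finset.Icc (1:ℤ) 5).biUnion (fun a =>
    ((Fintype.piFinset fun _ : Fin 6 => Finset.Icc ((a-2)/2) ((a+1)/2)).filter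
      (fun b => 3 * a - (Finset.univ.sum fun i => b i) = 3 ∧
        a ^ 2 - (Finset.univ.sum fun i => b i ^ 2) = 1)).image (fun b => (a, b)))

theorem h24T_card : h24T.card = 72 := by decide +kernel

theorem h24_sq8 (y : ℤ) (hy : y^2 ≤ 8) : -2 ≤ y ∧ y ≤ 2 := by
  constructor <;> nlinarith

theorem h24_sq4 (y : ℤ) (hy : y^2 ≤ 4) : -2 ≤ y ∧ y ≤ 2 := by
  constructor <;> nlinarith

theorem h24_div (a c : ℤ) (h : -2 ≤ 2 * c - a + 1 ∧ 2 * c - a + 1 ≤ 2) :
    (a-2)/2 ≤ c ∧ c ≤ (a+1)/2 := by omega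

theorem h24_bounds (a : ℤ) (b : Fin 6 → ℤ) (h1 : 3 * a - (Finset.univ.sum fun i => b i) = 3)
    (h2 : a ^ 2 - (Finset.univ.sum fun i => b i ^ 2) = 1) :
    (1 ≤ a ∧ a ≤ 5) ∧ ∀ i, (a-2)/2 ≤ b i ∧ b i ≤ (a+1)/2 := by
  have hsum : (Finset.univ.sum fun j => (2 * b j - a + 1)^2) = 8 - 2*(a-3)^2 := by
    rw [Fin.sum_univ_six]
    rw [Fin.sum_univ_six] at h1 h2
    linear_combination (4*(a-1)) * h1 + (-4) * h2
  have hnn : 0 ≤ Finset.univ.sum fun j => (2 * b j - a + 1)^2 :=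
    Finset.sum_nonneg (fun j _ => sq_nonneg _)
  have ha3 : (a-3)^2 ≤ 4 := by linarith
  have ha := h24_sq4 (a-3) ha3
  refine ⟨by omega, fun i => ?_⟩
  have h' : (2 * b i - a + 1)^2 ≤ Finset.univ.sum (fun j => (2 * b j - a + 1)^2) :=
    Finset.single_le_sum (f := fun j => (2 * b j - a + 1)^2) (fun j _ => sq_nonneg _)
      (Finset.mem_univ i)
  have h3 := h24_sq8 (2 * b i - a + 1) (by linarith [sq_nonneg (a-3)])
  exact h24_div a (b i) h3

/-- On a smooth cubic surface there are exactly 72 divisor classes L with L² = 1 and L · K = −3. Stated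
in the lattice ℤ^{1,6} with basis l, e_1, …, e_6 (l² = 1, e_i² = −1, K = −3l + Σ e_i): the integer
vectors (a, b) ∈ ℤ × ℤ^6, standing for a·l − Σ b_i e_i, with 3a − Σ b_i = 3 and a² − Σ b_i² = 1 form
a set of exactly 72 elements. -/
theorem result :
    {p : ℤ × (Fin 6 → ℤ) | 3 * p.1 - (Finset.univ.sum fun i => p.2 i) = 3 ∧
        p.1 ^ 2 - (Finset.univ.sum fun i => p.2 i ^ 2) = 1}.ncard = 72 := by
  have hS : {p : ℤ × (Fin 6 → ℤ) | 3 * p.1 - (Finset.univ.sum fun i => p.2 i) = 3 ∧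
        p.1 ^ 2 - (Finset.univ.sum fun i => p.2 i ^ 2) = 1} = (h24T : Set (ℤ × (Fin 6 → ℤ))) := by
    ext ⟨a, b⟩
    rw [Set.mem_setOf_eq, Finset.mem_coe, h24T, Finset.mem_biUnion]
    constructor
    · rintro ⟨h1, h2⟩
      obtain ⟨ha, hb⟩ := h24_bounds a b h1 h2
      refine ⟨a, Finset.mem_Icc.mpr ha, ?_⟩
      rw [Finset.mem_image]
      refine ⟨b, ?_, rfl⟩
      rw [Finset.mem_filter, Fintype.mem_piFinset]
      exact ⟨fun i => Finset.mem_Icc.mpr (hb i), h1, h2⟩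
    · rintro ⟨a', -, hmem⟩
      rw [Finset.mem_image] at hmem
      obtain ⟨b', hb', he⟩ := hmem
      rw [Finset.mem_filter] at hb'
      obtain ⟨rfl, rfl⟩ := Prod.mk.inj he
      exact hb'.2
  rw [hS, Set.ncard_coe_finset]
  exact h24T_card

end Groth.Agent.S16519
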