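import Groth.Statements.S16661
-- import your own Groth.Agent.* helpers here

set_option autoImplicit false
universe v u
open TensorProduct
open Conn

namespace Groth.Agent.S16661

theorem ev_rid {B Ω M : Type u} [CommRing B] [AddCommGroup Ω] [Module B Ω] [AddCommGroup M] [Module B M]
    (θ : Ω →ₗ[B] B) (m : M) (T : (M →ₗ[B] M) ⊗[B] Ω) :
    (TensorProduct.rid B (M →ₗ[B] M) (TensorProduct.map LinearMap.id θ T)) m =
      TensorProduct.rid B M (TensorProduct.map LinearMap.id θ
        (TensorProduct.map (LinearMap.applyₗ m) LinearMap.id T)) := by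
  induction T using TensorProduct.induction_on with
  | zero => simp
  | tmul ψ ω => simp
  | add S T hS hT => simp only [map_add, LinearMap.add_apply, hS, hT]

theorem rid_map_comm {B Ω M : Type u} [CommRing B] [AddCommGroup Ω] [Module B Ω] [AddCommGroup M] [Module B M]
    (θ : Ω →ₗ[B] B) (φ : M →ₗ[B] M) (S : M ⊗[B] Ω) :
    TensorProduct.rid B M (TensorProduct.map LinearMap.id θ (TensorProduct.map φ LinearMap.id S)) =
      φ (TensorProduct.rid B M (TensorProduct.map LinearMap.id θ S)) := by
  induction S using TensorProduct.induction_on with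
  | zero => simp
  | tmul m ω => simp
  | add S T hS hT => simp only [map_add, hS, hT]

theorem key {A : Type v} {B Ω M : Type u}
    [CommRing A] [CommRing B] [Algebra A B]
    [AddCommGroup Ω] [Module B Ω] [Module A Ω] [IsScalarTower A B Ω]
    [AddCommGroup M] [Module B M] [Module A M] [IsScalarTower A B M]
    (nabla : M →ₗ[A] M ⊗[B] Ω)
    (nablaE : (M →ₗ[B] M) →ₗ[A] (M →ₗ[B] M) ⊗[B] Ω) (hE : Conn.IsHomConn nabla nabla nablaE)
    (θ : Ω →ₗ[B] B) (ψ : M →ₗ[B] M) (m : M) :
    Conn.along nablaE θ ψ m = Conn.along nabla θ (ψ m) - ψ (Conn.along nabla θ m) := by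
  rw [Conn.along_apply, ev_rid, hE ψ m, map_sub, map_sub, rid_map_comm, Conn.along_apply, Conn.along_apply]

theorem trace_along {A : Type v} {B Ω M : Type u}
    [CommRing A] [CommRing B] [Algebra A B]
    [AddCommGroup Ω] [Module B Ω] [Module A Ω] [IsScalarTower A B Ω]
    [AddCommGroup M] [Module B M] [Module A M] [IsScalarTower A B M] [Module.Finite B M] [Module.Free B M]
    (δ : Derivation A B Ω) (nabla : M →ₗ[A] M ⊗[B] Ω) (hc : Conn.IsConn δ nabla)
    (nablaE : (M →ₗ[B] M) →ₗ[A] (M →ₗ[B] M) ⊗[B] Ω) (hE : Conn.IsHomConn nabla nabla nablaE)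
    (θ : Ω →ₗ[B] B) (φ : M →ₗ[B] M) :
    LinearMap.trace B M (Conn.along nablaE θ φ) = θ (δ (LinearMap.trace B M φ)) := by
  classical
  let b := Module.Free.chooseBasis B M
  set D := Conn.along nabla θ with hD
  have hkey : ∀ m, Conn.along nablaE θ φ m = D (φ m) - φ (D m) := key nabla nablaE hE θ φ
  have hDsmul : ∀ (c : B) (m : M), D (c • m) = c • D m + θ (δ c) • m := by
    intro c m
    rw [hD, Conn.along_apply, hc c m, map_add, map_add, map_smul, map_smul, Conn.along_apply]
    simp
  have htr : ∀ ψ : M →ₗ[B] M, LinearMap.trace B M ψ = ∑ j, b.repr (ψ (b j)) j := by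
    intro ψ
    rw [LinearMap.trace_eq_matrix_trace B b, Matrix.trace]
    simp [LinearMap.toMatrix_apply]
  have hDsum : ∀ m : M, D m = ∑ i, (b.repr m i • D (b i) + θ (δ (b.repr m i)) • b i) := by
    intro m
    conv_lhs => rw [← b.sum_repr m]
    rw [map_sum]
    simp only [hDsmul]
  have hA : ∀ j, b.repr (D (φ (b j))) j =
      ∑ i, b.repr (φ (b j)) i * b.repr (D (b i)) j + θ (δ (b.repr (φ (b j)) j)) := by
    intro j
    rw [hDsum, map_sum]
    simp only [map_add, map_smul, Finsupp.coe_finsetSum, Finset.sum_apply, Finsupp.add_apply,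
      Finsupp.smul_apply, Module.Basis.repr_self, smul_eq_mul, Finset.sum_add_distrib]
    congr 1
    simp [Finsupp.single_apply]
  have hB : ∀ j, b.repr (φ (D (b j))) j = ∑ k, b.repr (D (b j)) k * b.repr (φ (b k)) j := by
    intro j
    conv_lhs => rw [← b.sum_repr (D (b j))]
    simp only [map_sum, map_smul, Finsupp.coe_finsetSum, Finset.sum_apply, Finsupp.smul_apply, smul_eq_mul]
  rw [htr, htr φ]
  simp only [hkey, map_sub, Finsupp.sub_apply, Finset.sum_sub_distrib, hA, hB, Finset.sum_add_distrib,
    map_sum]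
  rw [Finset.sum_comm (f := fun j k => b.repr (D (b j)) k * b.repr (φ (b k)) j)]
  simp only [mul_comm, add_sub_cancel_left]


/-- Let B be an A-algebra with a receptacle of differentials (Ω, δ), Ω a finite free B-module (the
affine-local form of differentials locally free of finite type), let M be a finite free B-module
(the local form of a vector bundle) with a connection ∇ : M → M ⊗ Ω, and let ∇_E be the induced
connection on the B-linear endomorphisms of M, the one with (ev_m ⊗ 1)(∇_E φ) = ∇(φ m) − (φ ⊗ 1)(∇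
m). Give B the connection b ↦ 1 ⊗ δ b. Then the trace map End_B(M) → B is horizontal: 1 ⊗ δ(tr φ) =
(tr ⊗ 1)(∇_E φ) for every endomorphism φ. -/
theorem result {A : Type v} {B Ω M : Type u}
    [CommRing A] [CommRing B] [Algebra A B]
    [AddCommGroup Ω] [Module B Ω] [Module A Ω] [IsScalarTower A B Ω] [Module.Finite B Ω] [Module.Free B Ω]
    [AddCommGroup M] [Module B M] [Module A M] [IsScalarTower A B M] [Module.Finite B M] [Module.Free B M]
    (δ : Derivation A B Ω) (nabla : M →ₗ[A] M ⊗[B] Ω) (hc : Conn.IsConn δ nabla)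
    (nablaE : (M →ₗ[B] M) →ₗ[A] (M →ₗ[B] M) ⊗[B] Ω) (hE : Conn.IsHomConn nabla nabla nablaE) :
    Conn.IsHorizontal nablaE (Conn.triv δ) (LinearMap.trace B M) := by
  classical
  intro φ
  let bΩ := Module.Free.chooseBasis B Ω
  apply (TensorProduct.equivFinsuppOfBasisRight bΩ).injective
  ext i
  rw [TensorProduct.equivFinsuppOfBasisRight_apply, TensorProduct.equivFinsuppOfBasisRight_apply]
  have h1 : ∀ Y : (M →ₗ[B] M) ⊗[B] Ω,
      TensorProduct.rid B B ((bΩ.coord i).lTensor B (TensorProduct.map (LinearMap.trace B M) LinearMap.id Y)) =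
        LinearMap.trace B M (TensorProduct.rid B (M →ₗ[B] M) (TensorProduct.map LinearMap.id (bΩ.coord i) Y)) := by
    intro Y
    induction Y using TensorProduct.induction_on with
    | zero => simp
    | tmul ψ ω => simp
    | add S T hS hT => simp only [map_add, hS, hT]
  rw [h1, Conn.triv_apply]
  rw [show TensorProduct.rid B (M →ₗ[B] M) (TensorProduct.map LinearMap.id (bΩ.coord i) (nablaE φ)) =
    Conn.along nablaE (bΩ.coord i) φ from rfl]
  rw [trace_along δ nabla hc nablaE hE]
  simp

end Groth.Agent.S16661
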