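import Groth.Statements.S16662
-- import your own Groth.Agent.* helpers here
import Groth.Agent.Lib_helper25_Conn

set_option autoImplicit false
universe v u
open TensorProduct
open Conn

namespace Groth.Agent.S16662

/-- Let B be an A-algebra with a receptacle of differentials (Ω, δ), Ω a finite free B-module, and let
E, F, G be B-modules with connections ∇_E, ∇_F, ∇_G, with E and F finitely presented. Equip
Hom_B(E,F), Hom_B(F,G) and Hom_B(E,G) with the induced connections (the connection ∇'' on Hom_B(X,Y)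
being the one with (ev_x ⊗ 1)(∇'' φ) = ∇_Y(φ x) − (φ ⊗ 1)(∇_X x)), and Hom_B(F,G) ⊗ Hom_B(E,F) with
the tensor product of these connections. Then the composition map Hom_B(F,G) ⊗ Hom_B(E,F) →
Hom_B(E,G), ψ ⊗ φ ↦ ψ ∘ φ, is horizontal. -/
theorem result {A : Type v} {B Ω E F G : Type u}
    [CommRing A] [CommRing B] [Algebra A B]
    [AddCommGroup Ω] [Module B Ω] [Module A Ω] [IsScalarTower A B Ω] [Module.Finite B Ω] [Module.Free B Ω]
    [AddCommGroup E] [Module B E] [Module A E] [IsScalarTower A B E] [Module.FinitePresentation B E]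
    [AddCommGroup F] [Module B F] [Module A F] [IsScalarTower A B F] [Module.FinitePresentation B F]
    [AddCommGroup G] [Module B G] [Module A G] [IsScalarTower A B G]
    (δ : Derivation A B Ω)
    (nE : E →ₗ[A] E ⊗[B] Ω) (hcE : Conn.IsConn δ nE)
    (nF : F →ₗ[A] F ⊗[B] Ω) (hcF : Conn.IsConn δ nF)
    (nG : G →ₗ[A] G ⊗[B] Ω) (hcG : Conn.IsConn δ nG)
    (nEF : (E →ₗ[B] F) →ₗ[A] (E →ₗ[B] F) ⊗[B] Ω) (hEF : Conn.IsHomConn nE nF nEF)
    (nFG : (F →ₗ[B] G) →ₗ[A] (F →ₗ[B] G) ⊗[B] Ω) (hFG : Conn.IsHomConn nF nG nFG)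
    (nEG : (E →ₗ[B] G) →ₗ[A] (E →ₗ[B] G) ⊗[B] Ω) (hEG : Conn.IsHomConn nE nG nEG)
    (nT : (F →ₗ[B] G) ⊗[B] (E →ₗ[B] F) →ₗ[A] ((F →ₗ[B] G) ⊗[B] (E →ₗ[B] F)) ⊗[B] Ω)
    (hT : Conn.IsTensorConn nFG nEF nT) :
    Conn.IsHorizontal nT nEG (TensorProduct.lift (LinearMap.llcomp B E F G)) := by
  intro x
  induction x using TensorProduct.induction_on with
  | zero => simp
  | tmul ψ φ =>
    apply Groth.Agent.Lib_helper25_Conn.ext_of_ev
    intro e
    have h1 : ∀ T : (F →ₗ[B] G) ⊗[B] Ω,
        TensorProduct.map (LinearMap.applyₗ e) LinearMap.id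
          (TensorProduct.map (TensorProduct.lift (LinearMap.llcomp B E F G)) LinearMap.id
            (Conn.swapR (T ⊗ₜ[B] φ))) = TensorProduct.map (LinearMap.applyₗ (φ e)) LinearMap.id T := by
      intro T
      induction T using TensorProduct.induction_on with
      | zero => simp
      | tmul χ ω => rw [Conn.swapR_tmul]; simp
      | add S T hS hT => rw [TensorProduct.add_tmul, map_add, map_add, map_add, hS, hT, map_add]
    have h2 : ∀ S : (E →ₗ[B] F) ⊗[B] Ω,
        TensorProduct.map (LinearMap.applyₗ e) LinearMap.id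
          (TensorProduct.map (TensorProduct.lift (LinearMap.llcomp B E F G)) LinearMap.id
            ((TensorProduct.assoc B (F →ₗ[B] G) (E →ₗ[B] F) Ω).symm (ψ ⊗ₜ[B] S))) =
          TensorProduct.map ψ LinearMap.id (TensorProduct.map (LinearMap.applyₗ e) LinearMap.id S) := by
      intro S
      induction S using TensorProduct.induction_on with
      | zero => simp
      | tmul χ ω => simp
      | add S T hS hT => rw [TensorProduct.tmul_add, map_add, map_add, map_add, hS, hT, map_add, map_add]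
    have h3 : (TensorProduct.lift (LinearMap.llcomp B E F G)) (ψ ⊗ₜ[B] φ) = ψ ∘ₗ φ := by
      rw [TensorProduct.lift.tmul]; rfl
    rw [hEG, hT ψ φ, map_add, map_add, h1, h2, hFG, hEF, map_sub, TensorProduct.map_map,
      LinearMap.id_comp, h3, LinearMap.comp_apply]
    abel
  | add x y hx hy =>
    simp only [map_add]
    rw [hx, hy]

end Groth.Agent.S16662
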