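import Groth.Statements.S16663
-- import your own Groth.Agent.* helpers here

set_option autoImplicit false
universe v u
open TensorProduct
open Conn

namespace Groth.Agent.S16663

theorem ev_rid {B Ω M : Type u} [CommRing B] [AddCommGroup Ω] [Module B Ω] [AddCommGroup M] [Module B M]
    (θ : Ω →ₗ[B] B) (m : M) (T : (M →ₗ[B] M) ⊗[B] Ω) :
    (TensorProduct.rid B (M →ₗ[B] M) (TensorProduct.map LinearMap.id θ T)) m =
      TensorProduct.rid B M (TensorProduct.map LinearMap.id θ
        (TensorProduct.map (LinearMap.applyₗ m) LinearMap.id T)) := by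
  induction T using TensorProduct.induction_on with
  | zero => simp
  | tmul ψ ω => simp
  | add S T hS hT => simp only [map_add, LinearMap.add_apply, hS, hT]

theorem rid_map_comm {B Ω M : Type u} [CommRing B] [AddCommGroup Ω] [Module B Ω] [AddCommGroup M] [Module B M]
    (θ : Ω →ₗ[B] B) (φ : M →ₗ[B] M) (S : M ⊗[B] Ω) :
    TensorProduct.rid B M (TensorProduct.map LinearMap.id θ (TensorProduct.map φ LinearMap.id S)) =
      φ (TensorProduct.rid B M (TensorProduct.map LinearMap.id θ S)) := by
  induction S using TensorProduct.induction_on with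
  | zero => simp
  | tmul m ω => simp
  | add S T hS hT => simp only [map_add, hS, hT]

theorem key {A : Type v} {B Ω M : Type u}
    [CommRing A] [CommRing B] [Algebra A B]
    [AddCommGroup Ω] [Module B Ω] [Module A Ω] [IsScalarTower A B Ω]
    [AddCommGroup M] [Module B M] [Module A M] [IsScalarTower A B M]
    (nabla : M →ₗ[A] M ⊗[B] Ω)
    (nablaE : (M →ₗ[B] M) →ₗ[A] (M →ₗ[B] M) ⊗[B] Ω) (hE : Conn.IsHomConn nabla nabla nablaE)
    (θ : Ω →ₗ[B] B) (ψ : M →ₗ[B] M) (m : M) :
    Conn.along nablaE θ ψ m = Conn.along nabla θ (ψ m) - ψ (Conn.along nabla θ m) := by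
  rw [Conn.along_apply, ev_rid, hE ψ m, map_sub, map_sub, rid_map_comm, Conn.along_apply, Conn.along_apply]

theorem trace_along {A : Type v} {B Ω M : Type u}
    [CommRing A] [CommRing B] [Algebra A B]
    [AddCommGroup Ω] [Module B Ω] [Module A Ω] [IsScalarTower A B Ω]
    [AddCommGroup M] [Module B M] [Module A M] [IsScalarTower A B M] [Module.Finite B M] [Module.Free B M]
    (δ : Derivation A B Ω) (nabla : M →ₗ[A] M ⊗[B] Ω) (hc : Conn.IsConn δ nabla)
    (nablaE : (M →ₗ[B] M) →ₗ[A] (M →ₗ[B] M) ⊗[B] Ω) (hE : Conn.IsHomConn nabla nabla nablaE)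
    (θ : Ω →ₗ[B] B) (φ : M →ₗ[B] M) :
    LinearMap.trace B M (Conn.along nablaE θ φ) = θ (δ (LinearMap.trace B M φ)) := by
  classical
  let b := Module.Free.chooseBasis B M
  set D := Conn.along nabla θ with hD
  have hkey : ∀ m, Conn.along nablaE θ φ m = D (φ m) - φ (D m) := key nabla nablaE hE θ φ
  have hDsmul : ∀ (c : B) (m : M), D (c • m) = c • D m + θ (δ c) • m := by
    intro c m
    rw [hD, Conn.along_apply, hc c m, map_add, map_add, map_smul, map_smul, Conn.along_apply]
    simp
  have htr : ∀ ψ : M →ₗ[B] M, LinearMap.trace B M ψ = ∑ j, b.repr (ψ (b j)) j := by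
    intro ψ
    rw [LinearMap.trace_eq_matrix_trace B b, Matrix.trace]
    simp [LinearMap.toMatrix_apply]
  have hDsum : ∀ m : M, D m = ∑ i, (b.repr m i • D (b i) + θ (δ (b.repr m i)) • b i) := by
    intro m
    conv_lhs => rw [← b.sum_repr m]
    rw [map_sum]
    simp only [hDsmul]
  have hA : ∀ j, b.repr (D (φ (b j))) j =
      ∑ i, b.repr (φ (b j)) i * b.repr (D (b i)) j + θ (δ (b.repr (φ (b j)) j)) := by
    intro j
    rw [hDsum, map_sum]
    simp only [map_add, map_smul, Finsupp.coe_finsetSum, Finset.sum_apply, Finsupp.add_apply,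
      Finsupp.smul_apply, Module.Basis.repr_self, smul_eq_mul, Finset.sum_add_distrib]
    congr 1
    simp [Finsupp.single_apply]
  have hB : ∀ j, b.repr (φ (D (b j))) j = ∑ k, b.repr (D (b j)) k * b.repr (φ (b k)) j := by
    intro j
    conv_lhs => rw [← b.sum_repr (D (b j))]
    simp only [map_sum, map_smul, Finsupp.coe_finsetSum, Finset.sum_apply, Finsupp.smul_apply, smul_eq_mul]
  rw [htr, htr φ]
  simp only [hkey, map_sub, Finsupp.sub_apply, Finset.sum_sub_distrib, hA, hB, Finset.sum_add_distrib,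
    map_sum]
  rw [Finset.sum_comm (f := fun j k => b.repr (D (b j)) k * b.repr (φ (b k)) j)]
  simp only [mul_comm, add_sub_cancel_left]


theorem rid_map_comm' {B Ω X Y : Type u} [CommRing B] [AddCommGroup Ω] [Module B Ω] [AddCommGroup X] [Module B X]
    [AddCommGroup Y] [Module B Y]
    (θ : Ω →ₗ[B] B) (f : X →ₗ[B] Y) (S : X ⊗[B] Ω) :
    TensorProduct.rid B Y (TensorProduct.map LinearMap.id θ (TensorProduct.map f LinearMap.id S)) =
      f (TensorProduct.rid B X (TensorProduct.map LinearMap.id θ S)) := by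
  induction S using TensorProduct.induction_on with
  | zero => simp
  | tmul m ω => simp
  | add S T hS hT => simp only [map_add, hS, hT]


/-- Let B be an A-algebra with a receptacle of differentials (Ω, δ), Ω a finite free B-module (the local
form of a weakly smooth scheme), and let M be a finitely ℤ-graded B-module presented as a finite
family of finite free B-modules M_i with integer degrees deg i (the local form of a graded vector
bundle), with total module Π_i M_i. Let ∇ be a connection on Π_i M_i preserving the grading, in the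
sense that (pr_j ⊗ 1)(∇(ι_i m)) = 0 for m ∈ M_i whenever deg i ≠ deg j, and let ∇_E be the induced
connection on the B-linear endomorphisms, the one with (ev_m ⊗ 1)(∇_E φ) = ∇(φ m) − (φ ⊗ 1)(∇ m).
Give B the connection b ↦ 1 ⊗ δ b. Then the supertrace, φ ↦ tr(ε ∘ φ) with ε = Σ_i (−1)^{deg i} ι_i
∘ pr_i the grading involution, is a horizontal map End_B(Π_i M_i) → B. -/
theorem result {A : Type v} {B Ω ι : Type u}
    [CommRing A] [CommRing B] [Algebra A B]
    [AddCommGroup Ω] [Module B Ω] [Module A Ω] [IsScalarTower A B Ω] [Module.Finite B Ω] [Module.Free B Ω]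
    [Fintype ι] [DecidableEq ι] (deg : ι → ℤ) (M : ι → Type u)
    [∀ i, AddCommGroup (M i)] [∀ i, Module B (M i)] [∀ i, Module A (M i)] [∀ i, IsScalarTower A B (M i)]
    [∀ i, Module.Free B (M i)] [∀ i, Module.Finite B (M i)]
    (δ : Derivation A B Ω) (nabla : (Π k, M k) →ₗ[A] (Π k, M k) ⊗[B] Ω) (hc : Conn.IsConn δ nabla)
    (hgr : ∀ i j : ι, deg i ≠ deg j → ∀ m : M i,
      TensorProduct.map (LinearMap.proj j : (Π k, M k) →ₗ[B] M j) LinearMap.id (nabla (LinearMap.single B M i m)) = 0)
    (nablaE : ((Π k, M k) →ₗ[B] (Π k, M k)) →ₗ[A] ((Π k, M k) →ₗ[B] (Π k, M k)) ⊗[B] Ω)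
    (hE : Conn.IsHomConn nabla nabla nablaE) :
    Conn.IsHorizontal nablaE (Conn.triv δ)
      (LinearMap.trace B (Π k, M k) ∘ₗ LinearMap.llcomp B (Π k, M k) (Π k, M k) (Π k, M k)
        (∑ i : ι, (LinearMap.single B M i) ∘ₗ (((-1 : B) ^ (deg i).natAbs) • (LinearMap.proj i : (Π k, M k) →ₗ[B] M i)))) := by
  classical
  set ε : (Π k, M k) →ₗ[B] (Π k, M k) :=
    ∑ i : ι, (LinearMap.single B M i) ∘ₗ (((-1 : B) ^ (deg i).natAbs) • (LinearMap.proj i : (Π k, M k) →ₗ[B] M i))
    with hεdef
  have hε : ∀ (x : Π k, M k) (j : ι), ε x j = (-1 : B) ^ (deg j).natAbs • x j := by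
    intro x j
    rw [hεdef]
    simp [Finset.sum_apply, Pi.single_apply]
  have hδc : ∀ n : ℕ, δ ((-1 : B) ^ n) = 0 := by
    intro n
    rw [Derivation.leibniz_pow, map_neg, Derivation.map_one_eq_zero, neg_zero, smul_zero, smul_zero]
  intro φ
  let bΩ := Module.Free.chooseBasis B Ω
  apply (TensorProduct.equivFinsuppOfBasisRight bΩ).injective
  ext q
  rw [TensorProduct.equivFinsuppOfBasisRight_apply, TensorProduct.equivFinsuppOfBasisRight_apply]
  set θ := bΩ.coord q with hθ
  set D := Conn.along nabla θ with hD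
  have hDsmul : ∀ (c : B) (m : Π k, M k), D (c • m) = c • D m + θ (δ c) • m := by
    intro c m
    rw [hD, Conn.along_apply, hc c m, map_add, map_add, map_smul, map_smul, Conn.along_apply]
    simp
  have hDproj : ∀ i j : ι, deg i ≠ deg j → ∀ m : M i, D (LinearMap.single B M i m) j = 0 := by
    intro i j hij m
    have h := hgr i j hij m
    have : (LinearMap.proj j : (Π k, M k) →ₗ[B] M j) (D (LinearMap.single B M i m)) = 0 := by
      rw [hD, Conn.along_apply, ← rid_map_comm', h, map_zero, map_zero]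
    simpa using this
  have hcomm1 : ∀ (i : ι) (m : M i), D (ε (LinearMap.single B M i m)) = ε (D (LinearMap.single B M i m)) := by
    intro i m
    have e1 : ε (LinearMap.single B M i m) = (-1 : B) ^ (deg i).natAbs • LinearMap.single B M i m := by
      ext j
      rw [hε, Pi.smul_apply]
      by_cases hj : j = i
      · subst hj; rfl
      · simp [Pi.single_apply, hj]
    rw [e1, hDsmul, hδc, map_zero, zero_smul, add_zero]
    ext j
    rw [hε, Pi.smul_apply]
    by_cases hij : deg i = deg j
    · rw [hij]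
    · rw [hDproj i j hij m, smul_zero, smul_zero]
  have hcomm : ∀ x : Π k, M k, D (ε x) = ε (D x) := by
    intro x
    rw [← Finset.univ_sum_single x]
    simp only [map_sum]
    refine Finset.sum_congr rfl (fun i _ => ?_)
    exact hcomm1 i (x i)
  have hcommE : ε ∘ₗ Conn.along nablaE θ φ = Conn.along nablaE θ (ε ∘ₗ φ) := by
    refine LinearMap.ext (fun m => ?_)
    rw [LinearMap.comp_apply, key nabla nablaE hE, key nabla nablaE hE, map_sub, LinearMap.comp_apply,
      LinearMap.comp_apply, hcomm]
  have h1 : ∀ Y : ((Π k, M k) →ₗ[B] (Π k, M k)) ⊗[B] Ω,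
      TensorProduct.rid B B (θ.lTensor B (TensorProduct.map
        (LinearMap.trace B (Π k, M k) ∘ₗ LinearMap.llcomp B (Π k, M k) (Π k, M k) (Π k, M k) ε) LinearMap.id Y)) =
        LinearMap.trace B (Π k, M k) (ε ∘ₗ TensorProduct.rid B ((Π k, M k) →ₗ[B] (Π k, M k))
          (TensorProduct.map LinearMap.id θ Y)) := by
    intro Y
    induction Y using TensorProduct.induction_on with
    | zero => simp
    | tmul ψ ω => simp [LinearMap.llcomp_apply', LinearMap.comp_smul, map_smul, smul_eq_mul]
    | add S T hS hT => simp only [map_add, hS, hT, LinearMap.comp_add]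
  rw [h1, Conn.triv_apply]
  rw [show TensorProduct.rid B ((Π k, M k) →ₗ[B] (Π k, M k)) (TensorProduct.map LinearMap.id θ (nablaE φ)) =
    Conn.along nablaE θ φ from rfl]
  rw [hcommE, trace_along δ nabla hc nablaE hE]
  simp [LinearMap.llcomp_apply']

end Groth.Agent.S16663
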