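import Groth.Statements.S16664
-- import your own Groth.Agent.* helpers here

set_option autoImplicit false
universe v u
open TensorProduct
open Conn

namespace Groth.Agent.S16664

theorem ev_rid {B Ω M : Type u} [CommRing B] [AddCommGroup Ω] [Module B Ω] [AddCommGroup M] [Module B M]
    (θ : Ω →ₗ[B] B) (m : M) (T : (M →ₗ[B] M) ⊗[B] Ω) :
    (TensorProduct.rid B (M →ₗ[B] M) (TensorProduct.map LinearMap.id θ T)) m =
      TensorProduct.rid B M (TensorProduct.map LinearMap.id θ
        (TensorProduct.map (LinearMap.applyₗ m) LinearMap.id T)) := by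
  induction T using TensorProduct.induction_on with
  | zero => simp
  | tmul ψ ω => simp
  | add S T hS hT => simp only [map_add, LinearMap.add_apply, hS, hT]

theorem rid_map_comm {B Ω M : Type u} [CommRing B] [AddCommGroup Ω] [Module B Ω] [AddCommGroup M] [Module B M]
    (θ : Ω →ₗ[B] B) (φ : M →ₗ[B] M) (S : M ⊗[B] Ω) :
    TensorProduct.rid B M (TensorProduct.map LinearMap.id θ (TensorProduct.map φ LinearMap.id S)) =
      φ (TensorProduct.rid B M (TensorProduct.map LinearMap.id θ S)) := by
  induction S using TensorProduct.induction_on with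
  | zero => simp
  | tmul m ω => simp
  | add S T hS hT => simp only [map_add, hS, hT]

theorem key {A : Type v} {B Ω M : Type u}
    [CommRing A] [CommRing B] [Algebra A B]
    [AddCommGroup Ω] [Module B Ω] [Module A Ω] [IsScalarTower A B Ω]
    [AddCommGroup M] [Module B M] [Module A M] [IsScalarTower A B M]
    (nabla : M →ₗ[A] M ⊗[B] Ω)
    (nablaE : (M →ₗ[B] M) →ₗ[A] (M →ₗ[B] M) ⊗[B] Ω) (hE : Conn.IsHomConn nabla nabla nablaE)
    (θ : Ω →ₗ[B] B) (ψ : M →ₗ[B] M) (m : M) :
    Conn.along nablaE θ ψ m = Conn.along nabla θ (ψ m) - ψ (Conn.along nabla θ m) := by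
  rw [Conn.along_apply, ev_rid, hE ψ m, map_sub, map_sub, rid_map_comm, Conn.along_apply, Conn.along_apply]


/-- Let B be an A-algebra with a receptacle of differentials (Ω, δ), Ω free on a finite basis ω_1, …,
ω_n, let M be a finitely presented B-module with a connection ∇, let ∇_E be the induced connection
on the B-linear endomorphisms of M (the one with (ev_m ⊗ 1)(∇_E φ) = ∇(φ m) − (φ ⊗ 1)(∇ m)), and for
each q let ∇_q = (1 ⊗ ω_q^*) ∘ ∇_E be the covariant derivative on End_B(M) along the q-th vector of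
the dual basis. If an endomorphism φ satisfies φ ∘ ∇_q(φ) + ∇_q(φ) ∘ φ = 0 for every q, then for all
q, r one has φ ∘ ∇_q(∇_r(φ)) + ∇_q(∇_r(φ)) ∘ φ + ∇_q(φ) ∘ ∇_r(φ) + ∇_r(φ) ∘ ∇_q(φ) = 0. (The
published statement takes M graded with ∇ preserving the grading and φ of odd degree, and is written
with supercommutators; for such φ the supercommutators in question are exactly these
anticommutators, and the identity holds for an arbitrary endomorphism.) -/
theorem result {A : Type v} {B Ω M : Type u}
    [CommRing A] [CommRing B] [Algebra A B]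
    [AddCommGroup Ω] [Module B Ω] [Module A Ω] [IsScalarTower A B Ω] {n : ℕ} (bΩ : Module.Basis (Fin n) B Ω)
    [AddCommGroup M] [Module B M] [Module A M] [IsScalarTower A B M] [Module.FinitePresentation B M]
    (δ : Derivation A B Ω) (nabla : M →ₗ[A] M ⊗[B] Ω) (hc : Conn.IsConn δ nabla)
    (nablaE : (M →ₗ[B] M) →ₗ[A] (M →ₗ[B] M) ⊗[B] Ω) (hE : Conn.IsHomConn nabla nabla nablaE)
    (φ : M →ₗ[B] M)
    (hφ : ∀ q : Fin n, φ ∘ₗ Conn.along nablaE (bΩ.coord q) φ + Conn.along nablaE (bΩ.coord q) φ ∘ₗ φ = 0)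
    (q r : Fin n) :
    φ ∘ₗ Conn.along nablaE (bΩ.coord q) (Conn.along nablaE (bΩ.coord r) φ)
      + Conn.along nablaE (bΩ.coord q) (Conn.along nablaE (bΩ.coord r) φ) ∘ₗ φ
      + Conn.along nablaE (bΩ.coord q) φ ∘ₗ Conn.along nablaE (bΩ.coord r) φ
      + Conn.along nablaE (bΩ.coord r) φ ∘ₗ Conn.along nablaE (bΩ.coord q) φ = 0 := by
  ext m
  have h1 := LinearMap.congr_fun (hφ r) m
  have h2 := LinearMap.congr_fun (hφ r) (Conn.along nabla (bΩ.coord q) m)
  simp only [LinearMap.add_apply, LinearMap.comp_apply, key nabla nablaE hE, map_sub,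
    LinearMap.zero_apply] at h1 h2 ⊢
  have h3 := congrArg (Conn.along nabla (bΩ.coord q)) h1
  simp only [map_add, map_sub, map_zero] at h3
  have e := congrArg₂ (fun a b : M => a - b) h3 h2
  simp only [sub_zero] at e
  refine Eq.trans ?_ e
  abel

end Groth.Agent.S16664
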