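import Groth.Statements.S16665
-- import your own Groth.Agent.* helpers here

set_option autoImplicit false
universe v u
open TensorProduct
open Conn

namespace Groth.Agent.S16665

/-- Let B be an A-algebra with a receptacle of differentials (Ω, δ), Ω a finite free B-module, and let E
and F be B-modules with connections ∇_E and ∇_F, E finitely presented. Equip Hom_B(E,F) with the
induced connection ∇'' (the one with (ev_e ⊗ 1)(∇'' φ) = ∇_F(φ e) − (φ ⊗ 1)(∇_E e)) and Hom_B(E,F) ⊗
E with the tensor product of ∇'' and ∇_E. Then the evaluation map Hom_B(E,F) ⊗ E → F, φ ⊗ e ↦ φ(e),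
is horizontal. (The published statement is for bounded complexes with termwise connections, the Hom
complex and the tensor-product complex; this row is the case of single modules, that is, complexes
concentrated in one degree.) -/
theorem result {A : Type v} {B Ω E F : Type u}
    [CommRing A] [CommRing B] [Algebra A B]
    [AddCommGroup Ω] [Module B Ω] [Module A Ω] [IsScalarTower A B Ω] [Module.Finite B Ω] [Module.Free B Ω]
    [AddCommGroup E] [Module B E] [Module A E] [IsScalarTower A B E] [Module.FinitePresentation B E]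
    [AddCommGroup F] [Module B F] [Module A F] [IsScalarTower A B F]
    (δ : Derivation A B Ω)
    (nE : E →ₗ[A] E ⊗[B] Ω) (hcE : Conn.IsConn δ nE)
    (nF : F →ₗ[A] F ⊗[B] Ω) (hcF : Conn.IsConn δ nF)
    (nEF : (E →ₗ[B] F) →ₗ[A] (E →ₗ[B] F) ⊗[B] Ω) (hEF : Conn.IsHomConn nE nF nEF)
    (nT : (E →ₗ[B] F) ⊗[B] E →ₗ[A] ((E →ₗ[B] F) ⊗[B] E) ⊗[B] Ω) (hT : Conn.IsTensorConn nEF nE nT) :
    Conn.IsHorizontal nT nF (TensorProduct.lift (LinearMap.id : (E →ₗ[B] F) →ₗ[B] (E →ₗ[B] F))) := by
  intro x
  induction x using TensorProduct.induction_on with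
  | zero => simp
  | tmul φ e =>
    rw [hT φ e, map_add]
    have h1 : ∀ T : (E →ₗ[B] F) ⊗[B] Ω,
        TensorProduct.map (TensorProduct.lift (LinearMap.id : (E →ₗ[B] F) →ₗ[B] (E →ₗ[B] F))) LinearMap.id
          (Conn.swapR (T ⊗ₜ[B] e)) = TensorProduct.map (LinearMap.applyₗ e) LinearMap.id T := by
      intro T
      induction T using TensorProduct.induction_on with
      | zero => simp
      | tmul ψ ω => rw [Conn.swapR_tmul]; simp
      | add S T hS hT => rw [TensorProduct.add_tmul, map_add, map_add, hS, hT, map_add]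
    have h2 : ∀ S : E ⊗[B] Ω,
        TensorProduct.map (TensorProduct.lift (LinearMap.id : (E →ₗ[B] F) →ₗ[B] (E →ₗ[B] F))) LinearMap.id
          ((TensorProduct.assoc B (E →ₗ[B] F) E Ω).symm (φ ⊗ₜ[B] S)) = TensorProduct.map φ LinearMap.id S := by
      intro S
      induction S using TensorProduct.induction_on with
      | zero => simp
      | tmul e' ω => simp
      | add S T hS hT => rw [TensorProduct.tmul_add, map_add, map_add, hS, hT, map_add]
    rw [h1, h2, hEF φ e, TensorProduct.lift.tmul, LinearMap.id_apply, sub_add_cancel]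
  | add x y hx hy =>
    simp only [map_add]
    rw [hx, hy]

end Groth.Agent.S16665
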