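import Groth.Statements.S16666
-- import your own Groth.Agent.* helpers here
import Groth.Agent.Lib_helper25_Conn

set_option autoImplicit false
universe v u
open TensorProduct
open Conn

namespace Groth.Agent.S16666

/-- Let B be an A-algebra with a receptacle of differentials (Ω, δ), Ω a finite free B-module, and let
E, F, G be B-modules with connections ∇_E, ∇_F, ∇_G, E finitely presented. Equip Hom_B(E,F) and
Hom_B(E, F ⊗ G) with the induced connections (the connection ∇'' on Hom_B(E,Y) being the one with
(ev_e ⊗ 1)(∇'' φ) = ∇_Y(φ e) − (φ ⊗ 1)(∇_E e)), and F ⊗ G and Hom_B(E,F) ⊗ G with the tensor-product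
connections. Then the canonical map Hom_B(E,F) ⊗ G → Hom_B(E, F ⊗ G), φ ⊗ g ↦ (e ↦ φ(e) ⊗ g), is
horizontal. (The published statement is for bounded complexes with termwise connections, the Hom
complex and the tensor-product complex; this row is the case of single modules, that is, complexes
concentrated in one degree.) -/
theorem result {A : Type v} {B Ω E F G : Type u}
    [CommRing A] [CommRing B] [Algebra A B]
    [AddCommGroup Ω] [Module B Ω] [Module A Ω] [IsScalarTower A B Ω] [Module.Finite B Ω] [Module.Free B Ω]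
    [AddCommGroup E] [Module B E] [Module A E] [IsScalarTower A B E] [Module.FinitePresentation B E]
    [AddCommGroup F] [Module B F] [Module A F] [IsScalarTower A B F]
    [AddCommGroup G] [Module B G] [Module A G] [IsScalarTower A B G]
    (δ : Derivation A B Ω)
    (nE : E →ₗ[A] E ⊗[B] Ω) (hcE : Conn.IsConn δ nE)
    (nF : F →ₗ[A] F ⊗[B] Ω) (hcF : Conn.IsConn δ nF)
    (nG : G →ₗ[A] G ⊗[B] Ω) (hcG : Conn.IsConn δ nG)
    (nEF : (E →ₗ[B] F) →ₗ[A] (E →ₗ[B] F) ⊗[B] Ω) (hEF : Conn.IsHomConn nE nF nEF)
    (nFG : F ⊗[B] G →ₗ[A] (F ⊗[B] G) ⊗[B] Ω) (hFG : Conn.IsTensorConn nF nG nFG)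
    (nH : (E →ₗ[B] F ⊗[B] G) →ₗ[A] (E →ₗ[B] F ⊗[B] G) ⊗[B] Ω) (hH : Conn.IsHomConn nE nFG nH)
    (nS : (E →ₗ[B] F) ⊗[B] G →ₗ[A] ((E →ₗ[B] F) ⊗[B] G) ⊗[B] Ω) (hS : Conn.IsTensorConn nEF nG nS) :
    Conn.IsHorizontal nS nH (TensorProduct.rTensorHomToHomRTensor (RingHom.id B) E F G) := by
  intro x
  induction x using TensorProduct.induction_on with
  | zero => simp
  | tmul φ g =>
    apply Groth.Agent.Lib_helper25_Conn.ext_of_ev
    intro e
    have h1 : ∀ T : (E →ₗ[B] F) ⊗[B] Ω,
        TensorProduct.map (LinearMap.applyₗ e) LinearMap.id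
          (TensorProduct.map (TensorProduct.rTensorHomToHomRTensor (RingHom.id B) E F G) LinearMap.id
            (Conn.swapR (T ⊗ₜ[B] g))) =
          Conn.swapR (TensorProduct.map (LinearMap.applyₗ e) LinearMap.id T ⊗ₜ[B] g) := by
      intro T
      induction T using TensorProduct.induction_on with
      | zero => simp
      | tmul χ ω => simp [Conn.swapR_tmul]
      | add S T hS hT =>
        rw [TensorProduct.add_tmul, map_add, map_add, map_add, hS, hT, map_add, TensorProduct.add_tmul, map_add]
    have h2 : ∀ S : G ⊗[B] Ω,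
        TensorProduct.map (LinearMap.applyₗ e) LinearMap.id
          (TensorProduct.map (TensorProduct.rTensorHomToHomRTensor (RingHom.id B) E F G) LinearMap.id
            ((TensorProduct.assoc B (E →ₗ[B] F) G Ω).symm (φ ⊗ₜ[B] S))) =
          (TensorProduct.assoc B F G Ω).symm (φ e ⊗ₜ[B] S) := by
      intro S
      induction S using TensorProduct.induction_on with
      | zero => simp
      | tmul g' ω => simp
      | add S T hS hT =>
        rw [TensorProduct.tmul_add, map_add, map_add, map_add, hS, hT, TensorProduct.tmul_add, map_add]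
    have h5 : ∀ X : E ⊗[B] Ω, Conn.swapR (TensorProduct.map φ LinearMap.id X ⊗ₜ[B] g) =
        TensorProduct.map (TensorProduct.rTensorHomToHomRTensor (RingHom.id B) E F G (φ ⊗ₜ[B] g))
          LinearMap.id X := by
      intro X
      induction X using TensorProduct.induction_on with
      | zero => simp
      | tmul e' ω => simp [Conn.swapR_tmul]
      | add S T hS hT => rw [map_add, TensorProduct.add_tmul, map_add, hS, hT, map_add]
    have h6 : (TensorProduct.rTensorHomToHomRTensor (RingHom.id B) E F G (φ ⊗ₜ[B] g)) e = φ e ⊗ₜ[B] g :=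
      TensorProduct.rTensorHomToHomRTensor_apply _ _ _
    rw [hH, hS φ g, map_add, map_add, h1, h2, hEF, h6, hFG, TensorProduct.sub_tmul, map_sub, h5]
    abel
  | add x y hx hy =>
    simp only [map_add]
    rw [hx, hy]

end Groth.Agent.S16666
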