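import Groth.Statements.S16707
import Mathlib.LinearAlgebra.TensorProduct.Quotient
import Mathlib.RingTheory.Flat.Equalizer
-- import your own Groth.Agent.* helpers here

set_option autoImplicit false
universe u v
open CAlg

namespace Groth.Agent.S16707

/-- Nakayama's lemma for a nilpotent ideal, without finiteness: if `(A ⧸ I) ⊗ P = 0` then `P = 0`. -/
theorem subsingleton_of_tensor_quot {A : Type u} [CommRing A] {I : Ideal A} (hI : IsNilpotent I)
    (P : Type*) [AddCommGroup P] [Module A P]
    (h : Subsingleton (TensorProduct A (A ⧸ I) P)) : Subsingleton P := by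
  have h1 : Subsingleton (P ⧸ (I • (⊤ : Submodule A P))) :=
    (TensorProduct.quotTensorEquivQuotSMul P I).symm.injective.subsingleton
  rw [Submodule.Quotient.subsingleton_iff] at h1
  obtain ⟨n, hn⟩ := hI
  have key : ∀ k : ℕ, I ^ k • (⊤ : Submodule A P) = ⊤ := by
    intro k
    induction k with
    | zero => simp
    | succ k ih => rw [pow_succ, Submodule.mul_smul, h1, ih]
  have := key n
  rw [hn, Submodule.zero_eq_bot, Submodule.bot_smul] at this
  refine ⟨fun a b => ?_⟩
  have ha : a ∈ (⊥ : Submodule A P) := this ▸ Submodule.mem_top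
  have hb : b ∈ (⊥ : Submodule A P) := this ▸ Submodule.mem_top
  rw [Submodule.mem_bot] at ha hb
  rw [ha, hb]

open TensorProduct in
/-- Let A be a commutative ring, I a nilpotent ideal of A and f : M → N a homomorphism of A-modules with
N flat over A (no finiteness assumption on M or N). If the base change of f to A/I, that is M/IM →
N/IN, is bijective, then f is bijective. -/
theorem result (A : Type u) [CommRing A] (I : Ideal A)
    (hI : IsNilpotent I) (M N : Type v) [AddCommGroup M] [Module A M] [AddCommGroup N] [Module A N]
    [Module.Flat A N] (f : M →ₗ[A] N)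
    (hf : Function.Bijective (f.baseChange (A ⧸ I))) :
    Function.Bijective f := by
  have hg : ∀ x, f.baseChange (A ⧸ I) x = f.lTensor (A ⧸ I) x := fun x => rfl
  have hsurjT : Function.Surjective (f.lTensor (A ⧸ I)) := by
    intro y
    obtain ⟨x, hx⟩ := hf.2 y
    exact ⟨x, by rw [← hg]; exact hx⟩
  have hinjT : Function.Injective (f.lTensor (A ⧸ I)) := by
    intro x y hxy
    apply hf.1
    rw [hg, hg]
    exact hxy
  -- surjectivity
  have hsurj : Function.Surjective f := by
    let π := (LinearMap.range f).mkQ
    have hex : Function.Exact f π := LinearMap.exact_map_mkQ_range f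
    have hπ : Function.Surjective π := Submodule.mkQ_surjective _
    have hexT := lTensor_exact (A ⧸ I) hex hπ
    have hsub : Subsingleton (TensorProduct A (A ⧸ I) (N ⧸ LinearMap.range f)) := by
      refine ⟨fun a b => ?_⟩
      have h0 : ∀ c : TensorProduct A (A ⧸ I) (N ⧸ LinearMap.range f), c = 0 := by
        intro c
        obtain ⟨x, rfl⟩ := LinearMap.lTensor_surjective (A ⧸ I) hπ c
        obtain ⟨z, rfl⟩ := hsurjT x
        exact hexT.apply_apply_eq_zero z
      rw [h0 a, h0 b]
    have := subsingleton_of_tensor_quot hI _ hsub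
    rw [Submodule.Quotient.subsingleton_iff] at this
    exact LinearMap.range_eq_top.mp this
  refine ⟨?_, hsurj⟩
  -- injectivity
  have hinjK := LinearMap.lTensor_injective_of_exact_of_flat f hsurj (LinearMap.ker f).subtype
    (LinearMap.ker f).injective_subtype (LinearMap.exact_subtype_ker_map f) (A ⧸ I)
  have hsubK : Subsingleton (TensorProduct A (A ⧸ I) (LinearMap.ker f)) := by
    refine ⟨fun a b => ?_⟩
    have h0 : ∀ c : TensorProduct A (A ⧸ I) (LinearMap.ker f), c = 0 := by
      intro c
      apply hinjK
      apply hinjT
      rw [map_zero, map_zero, ← LinearMap.comp_apply, ← LinearMap.lTensor_comp]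
      rw [show f ∘ₗ (LinearMap.ker f).subtype = 0 from LinearMap.ext fun x => x.2]
      simp
    rw [h0 a, h0 b]
  have := subsingleton_of_tensor_quot hI _ hsubK
  rw [← LinearMap.ker_eq_bot]
  exact Submodule.eq_bot_of_subsingleton

end Groth.Agent.S16707
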