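import Groth.Statements.S16762
import Mathlib.LinearAlgebra.TensorProduct.Tower
import Mathlib.RingTheory.Flat.FaithfullyFlat.Basic
-- import your own Groth.Agent.* helpers here

set_option autoImplicit false
universe u
open CAlgX
open scoped TensorProduct

namespace Groth.Agent.S16762

/-- Let A → A' be faithfully flat and u : M → N a map of A-modules. Then u is universally injective (u ⊗
id_Q injective for every A-module Q) if and only if its base change A' ⊗_A M → A' ⊗_A N is
universally injective as a map of A'-modules. -/
theorem result (A A' : Type u) [CommRing A] [CommRing A']
    [Algebra A A'] [Module.FaithfullyFlat A A'] {M N : Type u} [AddCommGroup M] [Module A M]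
    [AddCommGroup N] [Module A N] (u : M →ₗ[A] N) :
    CAlgX.UniversallyInjective A u ↔ CAlgX.UniversallyInjective A' (u.baseChange A') := by
  constructor
  · intro h Q _ _
    letI : Module A Q := Module.compHom Q (algebraMap A A')
    haveI : IsScalarTower A A' Q := ⟨fun a b q => by
      show (a • b) • q = (algebraMap A A' a) • (b • q)
      rw [Algebra.smul_def, mul_smul]⟩
    have hQ := h Q
    let φM : (A' ⊗[A] M) ⊗[A'] Q ≃+ M ⊗[A] Q :=
      (TensorProduct.comm A' (A' ⊗[A] M) Q).toAddEquiv.trans
        ((TensorProduct.AlgebraTensorModule.cancelBaseChange A A' A' Q M).toAddEquiv.trans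
          (TensorProduct.comm A Q M).toAddEquiv)
    let φN : (A' ⊗[A] N) ⊗[A'] Q ≃+ N ⊗[A] Q :=
      (TensorProduct.comm A' (A' ⊗[A] N) Q).toAddEquiv.trans
        ((TensorProduct.AlgebraTensorModule.cancelBaseChange A A' A' Q N).toAddEquiv.trans
          (TensorProduct.comm A Q N).toAddEquiv)
    have key : ∀ x, φN ((u.baseChange A').rTensor Q x) = (u.rTensor Q) (φM x) := by
      intro x
      induction x using TensorProduct.induction_on with
      | zero => simp
      | tmul y q =>
        induction y using TensorProduct.induction_on with
        | zero => simp
        | tmul a m => simp [φM, φN, LinearMap.baseChange_tmul]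
        | add y z hy hz =>
          rw [TensorProduct.add_tmul, map_add, map_add, map_add, map_add, hy, hz]
      | add x y hx hy => rw [map_add, map_add, map_add, map_add, hx, hy]
    intro x y hxy
    have := congrArg φN hxy
    rw [key, key] at this
    exact φM.injective (hQ this)
  · intro h Q _ _
    have hQ := h (A' ⊗[A] Q)
    rw [← Module.FaithfullyFlat.lTensor_injective_iff_injective A A']
    have key : ∀ x, (TensorProduct.AlgebraTensorModule.distribBaseChange A A' N Q)
        ((u.rTensor Q).lTensor A' x) =
        ((u.baseChange A').rTensor (A' ⊗[A] Q))
          (TensorProduct.AlgebraTensorModule.distribBaseChange A A' M Q x) := by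
      intro x
      induction x using TensorProduct.induction_on with
      | zero => simp
      | tmul a y =>
        induction y using TensorProduct.induction_on with
        | zero => simp
        | tmul m q => simp [LinearMap.baseChange_tmul]
        | add y z hy hz =>
          rw [TensorProduct.tmul_add, map_add, map_add, map_add, map_add, hy, hz]
      | add x y hx hy => rw [map_add, map_add, map_add, map_add, hx, hy]
    intro x y hxy
    have := congrArg (TensorProduct.AlgebraTensorModule.distribBaseChange A A' N Q) hxy
    rw [key, key] at this
    exact (TensorProduct.AlgebraTensorModule.distribBaseChange A A' M Q).injective (hQ this)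

end Groth.Agent.S16762
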