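import Groth.Statements.S16792
-- import your own Groth.Agent.* helpers here

set_option autoImplicit false
universe v u
open LogConn

namespace Groth.Agent.S16792

open TensorProduct

section
variable {A : Type v} {B L E : Type u} [CommRing A] [CommRing B]
    [Algebra A B] [AddCommGroup L] [Module B L] [Module A L] [IsScalarTower A B L]
    [AddCommGroup E] [Module B E] [Module A E] [IsScalarTower A B E]
    (lam : B) {n : ℕ} (t : Fin n → B) (bΩ : Module.Basis (Fin n) B (KaehlerDifferential A B))
    (hbΩ : ∀ i, bΩ i = KaehlerDifferential.D A B (t i))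
    (ω : Module.Basis (Fin n) B L) (ι : KaehlerDifferential A B →ₗ[B] L)
    (hι : ∀ i, ι (KaehlerDifferential.D A B (t i)) = t i • ω i)
    (nabla : E →ₗ[A] E ⊗[B] L)
    (hc : Conn.IsLamConn (ι.compDer (KaehlerDifferential.D A B)) lam nabla)

include hbΩ hι hc in
theorem comp_smul (i : Fin n) (b : B) (e : E) :
    LogConn.comp nabla ω i (b • e) =
      b • LogConn.comp nabla ω i e + (lam * (bΩ.coord i (KaehlerDifferential.D A B b) * t i)) • e := by
  have hcoord : ω.coord i (ι (KaehlerDifferential.D A B b)) = bΩ.coord i (KaehlerDifferential.D A B b) * t i := by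
    conv_lhs => rw [← bΩ.sum_repr (KaehlerDifferential.D A B b)]
    simp only [map_sum, map_smul, hbΩ, hι, Module.Basis.coord_apply, Module.Basis.repr_self,
      smul_eq_mul]
    rw [Finset.sum_eq_single i]
    · simp [mul_comm]
    · intro j _ hj; simp [Finsupp.single_apply, hj]
    · intro h; exact absurd (Finset.mem_univ _) h
  simp only [LogConn.comp, Conn.along_apply]
  rw [hc b e, map_add, map_add, map_smul, map_smul, map_smul, map_smul]
  have hcd : (ι.compDer (KaehlerDifferential.D A B)) b = ι (KaehlerDifferential.D A B b) := rfl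
  simp only [TensorProduct.map_tmul, LinearMap.id_apply, TensorProduct.rid_tmul, smul_smul]
  rw [hcd, hcoord]

include hbΩ in
theorem coord_D_prod (k : Fin n) (S : Finset (Fin n)) (hk : k ∉ S) :
    bΩ.coord k (KaehlerDifferential.D A B (∏ i ∈ S, t i)) = 0 := by
  classical
  induction S using Finset.induction_on with
  | empty => simp
  | insert a S ha ih =>
    rw [Finset.prod_insert ha, Derivation.leibniz, map_add, map_smul, map_smul,
      ih (fun h => hk (Finset.mem_insert_of_mem h)), ← hbΩ, Module.Basis.coord_apply, Module.Basis.repr_self]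
    have hka : k ≠ a := fun h => hk (h ▸ Finset.mem_insert_self _ _)
    simp [Finsupp.single_apply, Ne.symm hka]

theorem compProd_insert (k : Fin n) (K : Finset (Fin n)) (hk : ∀ x ∈ K, k < x) :
    LogConn.compProd nabla ω (insert k K) = LogConn.comp nabla ω k ∘ₗ LogConn.compProd nabla ω K := by
  have hkK : k ∉ K := fun h => lt_irrefl _ (hk k h)
  simp only [LogConn.compProd]
  rw [Finset.sort_insert (fun x1 x2 : Fin n => x1 ≤ x2) (fun b hb => le_of_lt (hk b hb)) hkK]
  rfl

theorem mem_piece (I J : Finset (Fin n)) (hJ : J ⊆ I) (e : E) :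
    (∏ i ∈ I \ J, t i) • LogConn.compProd nabla ω J e ∈ LogConn.piece nabla ω t I := by
  unfold LogConn.piece
  exact Submodule.mem_iSup_of_mem J (Submodule.mem_iSup_of_mem (Finset.mem_powerset.mpr hJ)
    (LinearMap.mem_range_self _ e))

theorem piece_le (I : Finset (Fin n)) (X : Submodule A E)
    (h : ∀ J ⊆ I, ∀ e : E, (∏ i ∈ I \ J, t i) • LogConn.compProd nabla ω J e ∈ X) :
    LogConn.piece nabla ω t I ≤ X := by
  unfold LogConn.piece
  refine iSup₂_le (fun J hJ => ?_)
  rintro _ ⟨e, rfl⟩
  exact h J (Finset.mem_powerset.mp hJ) e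

/-- L3 -/
theorem smul_piece (I J : Finset (Fin n)) (hJ : J ⊆ I) (x : E) (hx : x ∈ LogConn.piece nabla ω t J) :
    (∏ i ∈ I \ J, t i) • x ∈ LogConn.piece nabla ω t I := by
  classical
  have := piece_le t ω nabla J
    ((LogConn.piece nabla ω t I).comap ((LinearMap.lsmul B E (∏ i ∈ I \ J, t i)).restrictScalars A))
    (fun K hK e => by
      simp only [Submodule.mem_comap, LinearMap.coe_restrictScalars, LinearMap.lsmul_apply, smul_smul]
      have hKI : K ⊆ I := hK.trans hJ
      have hprod : (∏ i ∈ I \ J, t i) * (∏ i ∈ J \ K, t i) = ∏ i ∈ I \ K, t i := by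
        rw [← Finset.prod_union (Finset.disjoint_of_subset_right Finset.sdiff_subset Finset.sdiff_disjoint)]
        congr 1
        ext x
        simp only [Finset.mem_union, Finset.mem_sdiff]
        constructor
        · rintro (⟨h1, h2⟩ | ⟨h1, h2⟩)
          · exact ⟨h1, fun h => h2 (hK h)⟩
          · exact ⟨hJ h1, h2⟩
        · rintro ⟨h1, h2⟩
          by_cases hxJ : x ∈ J
          · exact Or.inr ⟨hxJ, h2⟩
          · exact Or.inl ⟨h1, hxJ⟩
      rw [hprod]
      exact mem_piece t ω nabla I K hKI e)
  exact this hx

include hbΩ hι hc in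
/-- L1 -/
theorem comp_piece (k : Fin n) (K : Finset (Fin n)) (hk : ∀ x ∈ K, k < x) (x : E)
    (hx : x ∈ LogConn.piece nabla ω t K) :
    LogConn.comp nabla ω k x ∈ LogConn.piece nabla ω t (insert k K) := by
  classical
  have hkK : k ∉ K := fun h => lt_irrefl _ (hk k h)
  refine piece_le t ω nabla K ((LogConn.piece nabla ω t (insert k K)).comap (LogConn.comp nabla ω k))
    (fun J hJ e => ?_) hx
  rw [Submodule.mem_comap, comp_smul lam t bΩ hbΩ ω ι hι nabla hc,
    coord_D_prod t bΩ hbΩ k (K \ J) (fun h => hkK (Finset.mem_sdiff.mp h).1), zero_mul, mul_zero, zero_smul,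
    add_zero, ← LinearMap.comp_apply, ← compProd_insert ω nabla k J (fun x hx => hk x (hJ hx))]
  have hsd : insert k K \ insert k J = K \ J := by
    ext y
    simp only [Finset.mem_sdiff, Finset.mem_insert]
    constructor
    · rintro ⟨h1, h2⟩
      exact ⟨h1.resolve_left (fun hy => h2 (Or.inl hy)), fun hy => h2 (Or.inr hy)⟩
    · rintro ⟨h1, h2⟩
      refine ⟨Or.inr h1, ?_⟩
      rintro (hy | hy)
      · exact hkK (hy ▸ h1)
      · exact h2 hy
  rw [← hsd]
  exact mem_piece t ω nabla (insert k K) (insert k J) (Finset.insert_subset_insert k hJ) e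

include hbΩ hι hc in
theorem smul_compProd_mem (K : Finset (Fin n)) : ∀ (c : B) (e : E),
    c • LogConn.compProd nabla ω K e ∈ LogConn.piece nabla ω t K := by
  classical
  induction K using Finset.induction_on_min with
  | empty =>
    intro c e
    have := mem_piece t ω nabla ∅ ∅ (subset_refl _) (c • e)
    simpa [LogConn.compProd] using this
  | insert k K hk ih =>
    intro c e
    have hkK : k ∉ K := fun h => lt_irrefl _ (hk k h)
    rw [compProd_insert ω nabla k K hk, LinearMap.comp_apply]
    set y := LogConn.compProd nabla ω K e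
    have h1 := comp_smul lam t bΩ hbΩ ω ι hι nabla hc k c y
    have h2 : c • LogConn.comp nabla ω k y = LogConn.comp nabla ω k (c • y) -
        t k • ((lam * bΩ.coord k (KaehlerDifferential.D A B c)) • y) := by
      rw [h1, smul_smul]
      rw [show t k * (lam * bΩ.coord k (KaehlerDifferential.D A B c)) =
        lam * (bΩ.coord k (KaehlerDifferential.D A B c) * t k) by ring]
      abel
    rw [h2]
    refine Submodule.sub_mem _ (comp_piece lam t bΩ hbΩ ω ι hι nabla hc k K hk _ (ih c e)) ?_
    have hsd : insert k K \ K = {k} := by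
      ext y
      simp only [Finset.mem_sdiff, Finset.mem_insert, Finset.mem_singleton]
      constructor
      · rintro ⟨h1, h2⟩; exact h1.resolve_right h2
      · rintro rfl; exact ⟨Or.inl rfl, hkK⟩
    have := smul_piece t ω nabla (insert k K) K (Finset.subset_insert k K) _ (ih (lam * bΩ.coord k (KaehlerDifferential.D A B c)) e)
    rw [hsd, Finset.prod_singleton] at this
    exact this

end


open TensorProduct in
/-- Let B be a commutative algebra over a commutative ring A, let λ ∈ B, and let t₁, …, tₙ ∈ B be
elements whose differentials dt₁, …, dtₙ form a basis of the module Ω of Kähler differentials of B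
over A. Let L be a B-module free on ω₁, …, ωₙ together with a B-linear map ι : Ω → L sending dtᵢ to
tᵢ ωᵢ (L plays the role of the module of differentials with logarithmic poles along t₁ ⋯ tₙ, and ωᵢ
that of dlog tᵢ), and let E be a B-module with an A-linear map ∇ : E → E ⊗ L obeying the λ-twisted
Leibniz rule ∇(b e) = b ∇e + λ e ⊗ ι(db). Write ∇ᵢ for the components of ∇ in the basis ω and, for a
finite set J of indices, ∇_J for the composite of the ∇ⱼ, j ∈ J, taken in increasing order. Then for
every finite set I of indices the A-submodule E_I = Σ_{J ⊆ I} (∏_{i ∈ I∖J} tᵢ) · ∇_J(E) of E is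
stable under multiplication by every element of B. (Flatness of ∇ and λ coming from the base ring,
both part of the published setting, are not used.) -/
theorem result {A : Type v} {B L E : Type u} [CommRing A] [CommRing B]
    [Algebra A B] [AddCommGroup L] [Module B L] [Module A L] [IsScalarTower A B L]
    [AddCommGroup E] [Module B E] [Module A E] [IsScalarTower A B E]
    (lam : B) {n : ℕ} (t : Fin n → B) (bΩ : Module.Basis (Fin n) B (KaehlerDifferential A B))
    (hbΩ : ∀ i, bΩ i = KaehlerDifferential.D A B (t i))
    (ω : Module.Basis (Fin n) B L) (ι : KaehlerDifferential A B →ₗ[B] L)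
    (hι : ∀ i, ι (KaehlerDifferential.D A B (t i)) = t i • ω i)
    (nabla : E →ₗ[A] E ⊗[B] L)
    (hc : Conn.IsLamConn (ι.compDer (KaehlerDifferential.D A B)) lam nabla)
    (I : Finset (Fin n)) (b : B) (x : E) (hx : x ∈ LogConn.piece nabla ω t I) :
    b • x ∈ LogConn.piece nabla ω t I := by
  classical
  refine piece_le t ω nabla I ((LogConn.piece nabla ω t I).comap ((LinearMap.lsmul B E b).restrictScalars A))
    (fun J hJ e => ?_) hx
  rw [Submodule.mem_comap, LinearMap.coe_restrictScalars, LinearMap.lsmul_apply, smul_comm]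
  exact smul_piece t ω nabla I J hJ _ (smul_compProd_mem lam t bΩ hbΩ ω ι hι nabla hc J b e)

end Groth.Agent.S16792
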