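import Groth.Statements.S16795
-- import your own Groth.Agent.* helpers here
import Groth.Agent.S16792

set_option autoImplicit false
universe v u
open LogConn

namespace Groth.Agent.S16795

open TensorProduct
open Groth.Agent.S16792 in
section
variable {A : Type v} {B L E : Type u} [CommRing A] [CommRing B]
    [Algebra A B] [AddCommGroup L] [Module B L] [Module A L] [IsScalarTower A B L]
    [AddCommGroup E] [Module B E] [Module A E] [IsScalarTower A B E]
    (lam : B) {n : ℕ} (t : Fin n → B) (bΩ : Module.Basis (Fin n) B (KaehlerDifferential A B))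
    (hbΩ : ∀ i, bΩ i = KaehlerDifferential.D A B (t i))
    (ω : Module.Basis (Fin n) B L) (ι : KaehlerDifferential A B →ₗ[B] L)
    (hι : ∀ i, ι (KaehlerDifferential.D A B (t i)) = t i • ω i)
    (nabla : E →ₗ[A] E ⊗[B] L)
    (hc : Conn.IsLamConn (ι.compDer (KaehlerDifferential.D A B)) lam nabla)

/-- the `B`-span of `t_{J∖J'} ∇_{J'} y`, `J' ⊆ J`. -/
noncomputable def Gen (y : E) (J : Finset (Fin n)) : Submodule B E :=
  Submodule.span B {x | ∃ J' ⊆ J, x = (∏ i ∈ J \ J', t i) • LogConn.compProd nabla ω J' y}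

theorem tk_Gen (y : E) (k : Fin n) (K : Finset (Fin n)) (hkK : k ∉ K) (x : E) (hx : x ∈ Gen t ω nabla y K) :
    t k • x ∈ Gen t ω nabla y (insert k K) := by
  classical
  have : Gen t ω nabla y K ≤ (Gen t ω nabla y (insert k K)).comap (LinearMap.lsmul B E (t k)) := by
    refine Submodule.span_le.mpr ?_
    rintro _ ⟨J', hJ', rfl⟩
    simp only [SetLike.mem_coe, Submodule.mem_comap, LinearMap.lsmul_apply, smul_smul]
    refine Submodule.subset_span ⟨J', hJ'.trans (Finset.subset_insert k K), ?_⟩
    congr 1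
    rw [← Finset.prod_insert (s := K \ J') (fun h => hkK (Finset.mem_sdiff.mp h).1)]
    congr 1
    ext z
    simp only [Finset.mem_insert, Finset.mem_sdiff]
    constructor
    · rintro (rfl | ⟨h1, h2⟩)
      · exact ⟨Or.inl rfl, fun h => hkK (hJ' h)⟩
      · exact ⟨Or.inr h1, h2⟩
    · rintro ⟨h1 | h1, h2⟩
      · exact Or.inl h1
      · exact Or.inr ⟨h1, h2⟩
  exact this hx

include hbΩ hι hc in
theorem comp_Gen (y : E) (k : Fin n) (K : Finset (Fin n)) (hk : ∀ x ∈ K, k < x) (x : E)
    (hx : x ∈ Gen t ω nabla y K) :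
    LogConn.comp nabla ω k x ∈ Gen t ω nabla y (insert k K) := by
  classical
  have hkK : k ∉ K := fun h => lt_irrefl _ (hk k h)
  induction hx using Submodule.span_induction with
  | mem x hx =>
    obtain ⟨J', hJ', rfl⟩ := hx
    rw [comp_smul lam t bΩ hbΩ ω ι hι nabla hc,
      coord_D_prod t bΩ hbΩ k (K \ J') (fun h => hkK (Finset.mem_sdiff.mp h).1), zero_mul, mul_zero, zero_smul,
      add_zero, ← LinearMap.comp_apply, ← compProd_insert ω nabla k J' (fun x hx => hk x (hJ' hx))]
    refine Submodule.subset_span ⟨insert k J', Finset.insert_subset_insert k hJ', ?_⟩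
    congr 2
    ext z
    simp only [Finset.mem_sdiff, Finset.mem_insert]
    constructor
    · rintro ⟨h1, h2⟩
      refine ⟨Or.inr h1, ?_⟩
      rintro (hz | hz)
      · exact hkK (hz ▸ h1)
      · exact h2 hz
    · rintro ⟨h1, h2⟩
      exact ⟨h1.resolve_left (fun hz => h2 (Or.inl hz)), fun hz => h2 (Or.inr hz)⟩
  | zero => simp
  | add x z _ _ hx hz => rw [map_add]; exact Submodule.add_mem _ hx hz
  | smul b x hxmem hx =>
    rw [comp_smul lam t bΩ hbΩ ω ι hι nabla hc]
    refine Submodule.add_mem _ (Submodule.smul_mem _ b hx) ?_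
    rw [show lam * (bΩ.coord k (KaehlerDifferential.D A B b) * t k) =
      (lam * bΩ.coord k (KaehlerDifferential.D A B b)) * t k by ring, mul_smul]
    exact Submodule.smul_mem _ _ (tk_Gen t ω nabla y k K hkK x hxmem)

include hbΩ hι hc in
theorem compProd_Gen (y : E) (J : Finset (Fin n)) : ∀ c : B,
    LogConn.compProd nabla ω J (c • y) ∈ Gen t ω nabla y J := by
  classical
  induction J using Finset.induction_on_min with
  | empty =>
    intro c
    have h0 : LogConn.compProd nabla ω ∅ (c • y) = c • ((∏ i ∈ (∅ : Finset (Fin n)) \ ∅, t i) •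
        LogConn.compProd nabla ω ∅ y) := by
      simp [LogConn.compProd]
    rw [h0]
    exact Submodule.smul_mem _ _ (Submodule.subset_span ⟨∅, subset_refl _, rfl⟩)
  | insert k K hk ih =>
    intro c
    rw [compProd_insert ω nabla k K hk, LinearMap.comp_apply]
    exact comp_Gen lam t bΩ hbΩ ω ι hι nabla hc y k K hk _ (ih c)

theorem prod_sdiff_mul (I J K : Finset (Fin n)) (hK : K ⊆ J) (hJ : J ⊆ I) :
    (∏ i ∈ I \ J, t i) * (∏ i ∈ J \ K, t i) = ∏ i ∈ I \ K, t i := by
  classical
  rw [← Finset.prod_union (Finset.disjoint_of_subset_right Finset.sdiff_subset Finset.sdiff_disjoint)]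
  congr 1
  ext x
  simp only [Finset.mem_union, Finset.mem_sdiff]
  constructor
  · rintro (⟨h1, h2⟩ | ⟨h1, h2⟩)
    · exact ⟨h1, fun h => h2 (hK h)⟩
    · exact ⟨hJ h1, h2⟩
  · rintro ⟨h1, h2⟩
    by_cases hxJ : x ∈ J
    · exact Or.inr ⟨hxJ, h2⟩
    · exact Or.inl ⟨h1, hxJ⟩

end


open TensorProduct in
/-- Let B be a commutative algebra over a commutative ring A, λ ∈ B, and t₁, …, tₙ ∈ B elements whose
differentials dt₁, …, dtₙ form a basis of the Kähler differentials Ω of B over A; let L be a
B-module free on ω₁, …, ωₙ with a B-linear ι : Ω → L sending dtᵢ to tᵢ ωᵢ (ωᵢ playing the role of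
dlog tᵢ), and E a B-module with an A-linear ∇ : E → E ⊗ L obeying the λ-twisted Leibniz rule ∇(b e)
= b ∇e + λ e ⊗ ι(db); write ∇ᵢ for the components of ∇ in the basis ω, ∇_J for their composite over
a finite index set J in increasing order, and E_I = Σ_{J ⊆ I} (∏_{i ∈ I∖J} tᵢ) · ∇_J(E) (an
A-submodule of E) for a finite index set I. Suppose E is generated over B by finitely many elements
e₁, …, e_m. Then for every finite index set I the piece E_I is the B-span of the finitely many
elements (∏_{i ∈ I∖J} tᵢ) · ∇_J(e_k), J ⊆ I, 1 ≤ k ≤ m; in particular E_I is a finitely generated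
B-module. (The published statement is phrased for sheaves — E_w is quasi-coherent, resp. coherent,
when E is — and its proof exhibits these generators; flatness of ∇ is not used.) -/
theorem result {A : Type v} {B L E : Type u} [CommRing A] [CommRing B]
    [Algebra A B] [AddCommGroup L] [Module B L] [Module A L] [IsScalarTower A B L]
    [AddCommGroup E] [Module B E] [Module A E] [IsScalarTower A B E]
    (lam : B) {n : ℕ} (t : Fin n → B) (bΩ : Module.Basis (Fin n) B (KaehlerDifferential A B))
    (hbΩ : ∀ i, bΩ i = KaehlerDifferential.D A B (t i))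
    (ω : Module.Basis (Fin n) B L) (ι : KaehlerDifferential A B →ₗ[B] L)
    (hι : ∀ i, ι (KaehlerDifferential.D A B (t i)) = t i • ω i)
    (nabla : E →ₗ[A] E ⊗[B] L)
    (hc : Conn.IsLamConn (ι.compDer (KaehlerDifferential.D A B)) lam nabla)
    {m : ℕ} (e : Fin m → E) (he : Submodule.span B (Set.range e) = ⊤) (I : Finset (Fin n)) :
    (Submodule.span B (⋃ J ∈ I.powerset, Set.range (fun k : Fin m =>
        (∏ i ∈ I \ J, t i) • LogConn.compProd nabla ω J (e k)))).restrictScalars A =
      LogConn.piece nabla ω t I := by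
  classical
  set S := ⋃ J ∈ I.powerset, Set.range (fun k : Fin m =>
    (∏ i ∈ I \ J, t i) • LogConn.compProd nabla ω J (e k)) with hS
  let P : Submodule B E :=
    { carrier := LogConn.piece nabla ω t I
      add_mem' := fun ha hb => Submodule.add_mem _ ha hb
      zero_mem' := Submodule.zero_mem _
      smul_mem' := fun b x hx => Groth.Agent.S16792.result lam t bΩ hbΩ ω ι hι nabla hc I b x hx }
  apply le_antisymm
  · intro x hx
    have hle : Submodule.span B S ≤ P := by
      refine Submodule.span_le.mpr ?_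
      intro z hz
      rw [hS, Set.mem_iUnion₂] at hz
      obtain ⟨J, hJ, k, rfl⟩ := hz
      exact Groth.Agent.S16792.mem_piece t ω nabla I J (Finset.mem_powerset.mp hJ) (e k)
    exact hle hx
  · refine Groth.Agent.S16792.piece_le t ω nabla I _ (fun J hJ y => ?_)
    have hy : y ∈ Submodule.span B (Set.range e) := by rw [he]; trivial
    obtain ⟨c, rfl⟩ := (Submodule.mem_span_range_iff_exists_fun B).mp hy
    rw [map_sum, Finset.smul_sum]
    refine Submodule.sum_mem _ (fun k _ => ?_)
    have hG : Gen t ω nabla (e k) J ≤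
        (Submodule.span B S).comap (LinearMap.lsmul B E (∏ i ∈ I \ J, t i)) := by
      refine Submodule.span_le.mpr ?_
      rintro _ ⟨J', hJ', rfl⟩
      simp only [SetLike.mem_coe, Submodule.mem_comap, LinearMap.lsmul_apply, smul_smul]
      rw [prod_sdiff_mul t I J J' hJ' hJ]
      refine Submodule.subset_span ?_
      rw [hS, Set.mem_iUnion₂]
      exact ⟨J', Finset.mem_powerset.mpr (hJ'.trans hJ), k, rfl⟩
    exact hG (compProd_Gen lam t bΩ hbΩ ω ι hι nabla hc (e k) J (c k))

end Groth.Agent.S16795
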