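import Groth.Statements.S1682
-- import your own Groth.Agent.* helpers here

set_option autoImplicit false
universe u
open CategoryTheory CategoryTheory.Limits AlgebraicGeometry TopologicalSpace
open SDiv

namespace Groth.Agent.S1682

/-- Let b : X' ⟶ X be a blowing-up of X along the quasi-coherent ideal sheaf 𝓘, with centre Z = support
of 𝓘. Then b restricted over the open complement of Z is an isomorphism. -/
theorem result {X X' : Scheme.{u}} (𝓘 : X.IdealSheafData) (b : X' ⟶ X) (hb : BlowUp.IsBlowUp b 𝓘) :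
    IsIso (b ∣_ 𝓘.support.compl) := by
  set U : X.Opens := 𝓘.support.compl with hU
  -- any morphism landing in the complement of the centre pulls `𝓘` back to the unit ideal,
  -- which is effective Cartier
  have key : ∀ (Y : Scheme.{u}) (g : Y ⟶ X), Set.range g ⊆ (U : Set X) →
      BlowUp.IsEffCartierIdeal (𝓘.comap g) := by
    intro Y g hg
    have htop : 𝓘.comap g = ⊤ := by
      rw [← Scheme.IdealSheafData.support_eq_bot_iff, Scheme.IdealSheafData.support_comap]
      ext y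
      simp only [Closeds.coe_preimage, Set.mem_preimage, SetLike.mem_coe, Closeds.coe_bot,
        Set.mem_empty_iff_false, iff_false]
      intro hy
      exact (hg ⟨y, rfl⟩) hy
    rw [htop]
    intro y
    obtain ⟨W, hW, hyW, -⟩ := exists_isAffineOpen_mem_and_subset (U := ⊤) (x := y) trivial
    exact ⟨⟨W, hW⟩, hyW, 1, one_mem _, by simp [Scheme.IdealSheafData.ideal_top]⟩
  obtain ⟨h, hh, -⟩ := hb.2 U.toScheme U.ι (key _ _ (by simp [Scheme.Opens.range_ι]))
  have hrange : Set.range h ⊆ Set.range (b ⁻¹ᵁ U).ι := by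
    rw [Scheme.Opens.range_ι]
    rintro _ ⟨x, rfl⟩
    show b (h x) ∈ U
    rw [← Scheme.Hom.comp_apply, hh]
    exact x.2
  set h' : U.toScheme ⟶ (b ⁻¹ᵁ U).toScheme := IsOpenImmersion.lift (b ⁻¹ᵁ U).ι h hrange
  have hh' : h' ≫ (b ⁻¹ᵁ U).ι = h := IsOpenImmersion.lift_fac _ _ _
  obtain ⟨k, -, hk⟩ := hb.2 (b ⁻¹ᵁ U).toScheme ((b ⁻¹ᵁ U).ι ≫ b) (key _ _ (by
    rintro _ ⟨x, rfl⟩
    exact x.2))
  refine ⟨⟨h', ?_, ?_⟩⟩
  · rw [← cancel_mono (b ⁻¹ᵁ U).ι, Category.assoc, hh', Category.id_comp]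
    have e1 := hk ((b ∣_ U) ≫ h) (by show ((b ∣_ U) ≫ h) ≫ b = _; rw [Category.assoc, hh, morphismRestrict_ι])
    have e2 := hk (b ⁻¹ᵁ U).ι rfl
    rw [e1, e2]
  · rw [← cancel_mono U.ι, Category.assoc, morphismRestrict_ι, ← Category.assoc, hh', hh,
      Category.id_comp]

end Groth.Agent.S1682
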