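import Groth.Statements.S1693
-- import your own Groth.Agent.* helpers here

set_option autoImplicit false
universe u
open CategoryTheory CategoryTheory.Limits AlgebraicGeometry TopologicalSpace
open SDiv

namespace Groth.Agent.S1693

/-- Let X be a locally Noetherian scheme and Z a closed subset. Then the irreducible components of Z
form a locally finite family of subsets of X. -/
theorem result (X : Scheme.{u}) [IsLocallyNoetherian X] (Z : Set ↥X) (hZ : IsClosed Z) :
    LocallyFinite (fun T : ↥(irreducibleComponents ↥Z) => ((↑) '' (T.1 : Set ↥Z) : Set ↥X)) := by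
  intro x
  obtain ⟨W, hW, hxW, -⟩ := exists_isAffineOpen_mem_and_subset (U := ⊤) (x := x) trivial
  have : IsNoetherianRing Γ(X, W) := IsLocallyNoetherian.component_noetherian ⟨W, hW⟩
  have hWn : NoetherianSpace W := noetherianSpace_of_isAffineOpen W hW
  refine ⟨W, W.isOpen.mem_nhds hxW, ?_⟩
  -- the open subset of `Z` lying over `W`
  set W' : Set Z := Subtype.val ⁻¹' (W : Set X) with hW'
  have hW'o : IsOpen W' := W.isOpen.preimage continuous_subtype_val
  let ι : W' → Z := Subtype.val
  have hι : Topology.IsOpenEmbedding ι := hW'o.isOpenEmbedding_subtypeVal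
  have hW'n : NoetherianSpace W' := by
    let WS : Set X := (W : Set X)
    have hWn' : NoetherianSpace WS := hWn
    let j : W' → WS := fun w => ⟨w.1.1, w.2⟩
    have h0 : Topology.IsInducing (fun w : W' => ((w : Z) : X)) :=
      Topology.IsInducing.comp (g := (Subtype.val : Z → X)) (f := (Subtype.val : W' → Z))
        Topology.IsInducing.subtypeVal Topology.IsInducing.subtypeVal
    have hj : Topology.IsInducing j :=
      (Topology.IsInducing.subtypeVal (t := WS)).of_comp_iff.mp h0
    exact hj.noetherianSpace
  have hfin := NoetherianSpace.finite_irreducibleComponents (α := W')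
  let F : irreducibleComponents Z → Set W' := fun T => ι ⁻¹' T.1
  have key : ∀ T : irreducibleComponents Z,
      ((Subtype.val '' T.1) ∩ (W : Set X)).Nonempty → (T.1 ∩ Set.range ι).Nonempty := by
    rintro T ⟨_, ⟨z, hz, rfl⟩, hzW⟩
    exact ⟨z, hz, ⟨z, hzW⟩, rfl⟩
  have key' : ∀ T : irreducibleComponents Z,
      ((Subtype.val '' T.1) ∩ (W : Set X)).Nonempty → (ι ⁻¹' T.1).Nonempty := by
    intro T hT
    obtain ⟨z, hz, w, rfl⟩ := key T hT
    exact ⟨w, hz⟩
  apply Set.Finite.of_finite_image (f := F)
  · apply hfin.subset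
    rintro _ ⟨T, hT, rfl⟩
    exact preimage_mem_irreducibleComponents T.2 hι (key T hT)
  · intro T₁ h₁ T₂ h₂ heq
    apply Subtype.ext
    rw [← closure_image_preimage_of_isPreirreducible ι hι.isOpenMap T₁.1 (key' T₁ h₁)
        T₁.2.1.2 (isClosed_of_mem_irreducibleComponents _ T₁.2),
      ← closure_image_preimage_of_isPreirreducible ι hι.isOpenMap T₂.1 (key' T₂ h₂)
        T₂.2.1.2 (isClosed_of_mem_irreducibleComponents _ T₂.2)]
    have : ι ⁻¹' T₁.1 = ι ⁻¹' T₂.1 := heq
    rw [this]

end Groth.Agent.S1693
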