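import Groth.Statements.S16962
-- import your own Groth.Agent.* helpers here

set_option autoImplicit false
universe u
open ConstAct

namespace Groth.Agent.S16962

open TensorProduct

/-- coefficient extraction `B ⊗ F → B` at `g`. -/
noncomputable def ex (R : Type u) [CommRing R] (B : Type u) [CommRing B] [Algebra R B] (Γ : Type u)
    (g : Γ) : B ⊗[R] ConstGrp.F R Γ →ₗ[R] B :=
  (TensorProduct.rid R B).toLinearMap ∘ₗ (ConstGrp.ev R g).toLinearMap.lTensor B

theorem ex_tmul (R : Type u) [CommRing R] (B : Type u) [CommRing B] [Algebra R B] (Γ : Type u)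
    (g : Γ) (b : B) (f : ConstGrp.F R Γ) : ex R B Γ g (b ⊗ₜ f) = f g • b := by
  simp [ex]

/-- double extraction `B ⊗ (F ⊗ F) → B` at `(g, h)`. -/
noncomputable def ex2 (R : Type u) [CommRing R] (B : Type u) [CommRing B] [Algebra R B] (Γ : Type u)
    (g h : Γ) : B ⊗[R] (ConstGrp.F R Γ ⊗[R] ConstGrp.F R Γ) →ₗ[R] B :=
  ex R B Γ g ∘ₗ ((TensorProduct.rid R (ConstGrp.F R Γ)).toLinearMap ∘ₗ
    (ConstGrp.ev R h).toLinearMap.lTensor (ConstGrp.F R Γ)).lTensor B

theorem ex2_tmul (R : Type u) [CommRing R] (B : Type u) [CommRing B] [Algebra R B] (Γ : Type u)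
    (g h : Γ) (b : B) (f1 f2 : ConstGrp.F R Γ) : ex2 R B Γ g h (b ⊗ₜ (f1 ⊗ₜ f2)) = (f2 h * f1 g) • b := by
  simp [ex2, ex_tmul, smul_smul]

section
variable (R : Type u) [CommRing R] (B : Type u) [CommRing B] [Algebra R B] (Γ : Type u) [Group Γ]
  [Fintype Γ] [DecidableEq Γ]

theorem decomp (x : B ⊗[R] ConstGrp.F R Γ) : x = ∑ g : Γ, ex R B Γ g x ⊗ₜ ConstGrp.e R g := by
  induction x using TensorProduct.induction_on with
  | zero => simp
  | tmul b f =>
    simp only [ex_tmul]
    conv_lhs => rw [ConstGrp.eq_sum_smul_e f]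
    rw [TensorProduct.tmul_sum]
    refine Finset.sum_congr rfl (fun g _ => ?_)
    rw [TensorProduct.smul_tmul]
  | add x y hx hy =>
    conv_lhs => rw [hx, hy]
    rw [← Finset.sum_add_distrib]
    refine Finset.sum_congr rfl (fun g _ => ?_)
    rw [map_add, TensorProduct.add_tmul]

theorem ex_mul (g : Γ) (z w : B ⊗[R] ConstGrp.F R Γ) : ex R B Γ g (z * w) = ex R B Γ g z * ex R B Γ g w := by
  induction z using TensorProduct.induction_on with
  | zero => simp
  | tmul b f =>
    induction w using TensorProduct.induction_on with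
    | zero => simp
    | tmul b' f' =>
      rw [Algebra.TensorProduct.tmul_mul_tmul, ex_tmul, ex_tmul, ex_tmul, ConstGrp.mul_apply,
        smul_mul_smul_comm]
    | add w w' hw hw' => rw [mul_add, map_add, map_add, hw, hw', mul_add]
  | add z z' hz hz' => rw [add_mul, map_add, map_add, hz, hz', add_mul]

theorem ex2_assoc (g h : Γ) (w : B ⊗[R] ConstGrp.F R Γ) (f : ConstGrp.F R Γ) :
    ex2 R B Γ g h (TensorProduct.assoc R B (ConstGrp.F R Γ) (ConstGrp.F R Γ) (w ⊗ₜ f)) = f h • ex R B Γ g w := by
  induction w using TensorProduct.induction_on with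
  | zero => simp
  | tmul b f1 => rw [TensorProduct.assoc_tmul, ex2_tmul, ex_tmul, smul_smul]
  | add w w' hw hw' => rw [TensorProduct.add_tmul, map_add, map_add, hw, hw', map_add, smul_add]

theorem ex2_comul (g h : Γ) (z : B ⊗[R] ConstGrp.F R Γ) :
    ex2 R B Γ g h ((Coalgebra.comul (R := R) (A := ConstGrp.F R Γ)).lTensor B z) = ex R B Γ (g * h) z := by
  induction z using TensorProduct.induction_on with
  | zero => simp
  | tmul b f =>
    rw [LinearMap.lTensor_tmul, ConstGrp.comul_eq_sum, ex_tmul]
    simp only [TensorProduct.tmul_sum, map_sum, TensorProduct.tmul_smul, map_smul, ex2_tmul, ConstGrp.e_apply]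
    simp only [mul_ite, mul_one, mul_zero, ite_smul, zero_smul, smul_ite, smul_zero]
    rw [Finset.sum_eq_single g]
    · rw [Finset.sum_eq_single h]
      · simp [smul_smul]
      · intro c _ hc; simp only [if_neg (Ne.symm hc), ite_self]
      · intro hh; exact absurd (Finset.mem_univ _) hh
    · intro a _ ha
      refine Finset.sum_eq_zero (fun c _ => ?_)
      simp [Ne.symm ha]
    · intro hh; exact absurd (Finset.mem_univ _) hh
  | add z z' hz hz' => rw [map_add, map_add, hz, hz', map_add]

end

theorem msa_ext {Γ B : Type u} [Monoid Γ] [Semiring B] (a1 a2 : MulSemiringAction Γ B)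
    (h : ∀ (g : Γ) (b : B), a1.smul g b = a2.smul g b) : a1 = a2 := by
  cases a1 with
  | @mk d1 o1 m1 =>
    cases a2 with
    | @mk d2 o2 m2 =>
      cases d1 with
      | @mk ma1 z1 ad1 =>
        cases d2 with
        | @mk ma2 z2 ad2 =>
          have : ma1 = ma2 := MulAction.ext (funext₂ h)
          subst this
          rfl


open TensorProduct in
/-- Let R be a commutative ring, Γ a finite group and B a commutative R-algebra equipped with a comodule
structure over the Hopf algebra of R-valued functions on Γ (the coordinate ring of the constant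
group scheme of Γ over Spec R, with basis the indicator functions e_γ) whose coaction B → B ⊗ Fun(Γ,
R) is a homomorphism of algebras, i.e. an action of the constant group scheme on Spec B. Then there
is exactly one action of Γ on B by R-algebra automorphisms whose associated coaction b ↦ Σ_γ (γ · b)
⊗ e_γ is the given coaction; and for that action the ring of invariants of the comodule algebra (the
b whose coaction is b ⊗ 1) equals the ring of elements fixed by Γ. (That the coaction associated
with an action is a comodule algebra structure is the other direction of the published equivalence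
and is a construction here.) -/
theorem result (R : Type u) [CommRing R]
    (B : Type u) [CommRing B] [Algebra R B] (Γ : Type u) [Group Γ] [Fintype Γ] [DecidableEq Γ]
    [HopfRep.Comod R (ConstGrp.F R Γ) B] [GLin.IsCoactAlg R (ConstGrp.F R Γ) B] :
    ∃! a : MulSemiringAction Γ B, ∃ _ : SMulCommClass Γ R B,
      ConstAct.coactLin R B Γ = HopfRep.Comod.coact (k := R) (A := ConstGrp.F R Γ) (V := B) ∧
        GLin.invariants R (ConstGrp.F R Γ) B = ConstAct.inv R B Γ := by
  set ρ := HopfRep.Comod.coact (k := R) (A := ConstGrp.F R Γ) (V := B) with hρ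
  have hone : ∀ b : B, ex R B Γ 1 (ρ b) = b := by
    intro b
    have h := LinearMap.congr_fun (HopfRep.Comod.counit_comp (k := R) (A := ConstGrp.F R Γ) (V := B)) b
    have e1 : (ConstGrp.ev R (1 : Γ)).toLinearMap = (Coalgebra.counit (R := R) (A := ConstGrp.F R Γ)) := by
      ext f; rfl
    simp only [LinearMap.comp_apply, LinearMap.flip_apply, TensorProduct.mk_apply] at h
    rw [ex, LinearMap.comp_apply, e1, hρ, h]
    simp
  have hmul : ∀ (g h : Γ) (b : B), ex R B Γ (g * h) (ρ b) = ex R B Γ g (ρ (ex R B Γ h (ρ b))) := by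
    intro g h b
    have hc := LinearMap.congr_fun (HopfRep.Comod.coassoc (k := R) (A := ConstGrp.F R Γ) (V := B)) b
    simp only [LinearMap.comp_apply, LinearEquiv.coe_coe] at hc
    rw [← hρ] at hc
    rw [← ex2_comul, ← hc]
    generalize ρ b = z
    induction z using TensorProduct.induction_on with
    | zero => simp
    | tmul b' f =>
      rw [LinearMap.rTensor_tmul, ex2_assoc, ex_tmul, map_smul, map_smul]
    | add z z' hz hz' => rw [map_add, map_add, map_add, hz, hz', map_add, map_add, map_add]
  let act : MulSemiringAction Γ B :=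
    { smul := fun g b => ex R B Γ g (ρ b)
      one_smul := hone
      mul_smul := hmul
      smul_zero := fun g => by
        show ex R B Γ g (ρ 0) = 0
        simp
      smul_add := fun g x y => by
        show ex R B Γ g (ρ (x + y)) = ex R B Γ g (ρ x) + ex R B Γ g (ρ y)
        simp only [map_add]
      smul_one := fun g => by
        show ex R B Γ g (ρ 1) = 1
        rw [hρ, GLin.IsCoactAlg.coact_one, Algebra.TensorProduct.one_def, ex_tmul, ConstGrp.one_apply, one_smul]
      smul_mul := fun g x y => by
        show ex R B Γ g (ρ (x * y)) = ex R B Γ g (ρ x) * ex R B Γ g (ρ y)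
        rw [hρ, GLin.IsCoactAlg.coact_mul, ex_mul] }
  have hact : ∀ (g : Γ) (b : B), act.smul g b = ex R B Γ g (ρ b) := fun _ _ => rfl
  refine ⟨act, ?_, ?_⟩
  · letI := act
    have scc : SMulCommClass Γ R B := ⟨fun g r b => by
      show ex R B Γ g (ρ (r • b)) = r • ex R B Γ g (ρ b)
      rw [map_smul, map_smul]⟩
    refine ⟨scc, ?_, ?_⟩
    · refine LinearMap.ext (fun b => ?_)
      rw [ConstAct.coactLin_apply]
      conv_rhs => rw [decomp R B Γ (ρ b)]
      rfl
    · ext b
      change ρ b = b ⊗ₜ[R] (1 : ConstGrp.F R Γ) ↔ ∀ g : Γ, ex R B Γ g (ρ b) = b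
      constructor
      · intro hb g
        rw [hb, ex_tmul, ConstGrp.one_apply, one_smul]
      · intro hb
        rw [decomp R B Γ (ρ b)]
        simp only [hb]
        rw [← TensorProduct.tmul_sum, ConstGrp.sum_e]
  · rintro a' ⟨scc', h1, -⟩
    apply msa_ext
    intro g b
    have := congrArg (ex R B Γ g) (LinearMap.congr_fun h1 b)
    rw [hact, ← this, ConstAct.coactLin_apply, map_sum]
    simp only [ex_tmul, ConstGrp.e_apply, ite_smul, one_smul, zero_smul]
    rw [Finset.sum_ite_eq Finset.univ g, if_pos (Finset.mem_univ _)]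
    rfl

end Groth.Agent.S16962
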