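import Groth.Statements.S16963
-- import your own Groth.Agent.* helpers here

set_option autoImplicit false
universe u
open scoped BigOperators
open ConstAct

namespace Groth.Agent.S16963

open TensorProduct

/-- coefficient extraction `B ⊗ F → B` at `g`. -/
noncomputable def ex (R : Type u) [CommRing R] (B : Type u) [CommRing B] [Algebra R B] (Γ : Type u)
    (g : Γ) : B ⊗[R] ConstGrp.F R Γ →ₗ[R] B :=
  (TensorProduct.rid R B).toLinearMap ∘ₗ (ConstGrp.ev R g).toLinearMap.lTensor B

theorem ex_tmul (R : Type u) [CommRing R] (B : Type u) [CommRing B] [Algebra R B] (Γ : Type u)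
    (g : Γ) (b : B) (f : ConstGrp.F R Γ) : ex R B Γ g (b ⊗ₜ f) = f g • b := by
  simp [ex]


open TensorProduct in
/-- Let R be a commutative ring and Γ a finite group acting on a commutative R-algebra B by R-algebra
automorphisms; regard B as a comodule algebra over the Hopf algebra of R-valued functions on Γ (the
constant group scheme of Γ acting on Spec B) through the coaction b ↦ Σ_γ (γ · b) ⊗ e_γ. Then the
action is tame — there is a comodule map α from the Hopf algebra, with its regular coaction, to B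
with α(1) = 1 (a total integral) — if and only if the trace b ↦ Σ_γ γ · b, which takes values in the
ring of invariants B^Γ, maps B onto B^Γ. -/
theorem result (R : Type u) [CommRing R]
    (B : Type u) [CommRing B] [Algebra R B] (Γ : Type u) [Group Γ] [Fintype Γ] [DecidableEq Γ]
    [MulSemiringAction Γ B] [SMulCommClass Γ R B] :
    letI := ConstAct.comod R B Γ
    (∃ α : ConstGrp.F R Γ →ₗ[R] B, Hoch.IsComodHom (ConstGrp.F R Γ) α ∧ α 1 = 1) ↔
      ∀ c : B, c ∈ ConstAct.inv R B Γ → ∃ b : B, ∑ γ : Γ, γ • b = c := by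
  let _ := ConstAct.comod R B Γ
  constructor
  · rintro ⟨α, hα, h1⟩
    have key : ∀ g : Γ, g • α (ConstGrp.e R 1) = α (ConstGrp.e R g⁻¹) := by
      intro g
      have h := congrArg (ex R B Γ g) (LinearMap.congr_fun hα (ConstGrp.e R 1))
      change ex R B Γ g (ConstAct.coactLin R B Γ (α (ConstGrp.e R 1))) =
        ex R B Γ g (α.rTensor (ConstGrp.F R Γ) (Coalgebra.comul (R := R) (ConstGrp.e R (1 : Γ)))) at h
      rw [ConstAct.coactLin_apply, ConstGrp.comul_e] at h
      simp only [map_sum, LinearMap.rTensor_tmul, ex_tmul, ConstGrp.e_apply, ite_smul, one_smul,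
        zero_smul] at h
      rw [Finset.sum_ite_eq Finset.univ g, if_pos (Finset.mem_univ _)] at h
      rw [h, Finset.sum_eq_single g⁻¹]
      · simp
      · intro b _ hb
        rw [if_neg]
        intro hg
        apply hb
        rw [hg]; simp
      · intro hh; exact absurd (Finset.mem_univ _) hh
    have hsum : ∑ g : Γ, g • α (ConstGrp.e R 1) = 1 := by
      simp_rw [key]
      rw [show (∑ x : Γ, α (ConstGrp.e R x⁻¹)) = ∑ x : Γ, α (ConstGrp.e R x) from
        Fintype.sum_equiv (Equiv.inv Γ) _ _ (fun x => rfl), ← map_sum, ConstGrp.sum_e, h1]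
    intro c hc
    refine ⟨c * α (ConstGrp.e R 1), ?_⟩
    simp_rw [smul_mul']
    have hc' : ∀ g : Γ, g • c = c := (ConstAct.mem_inv R B Γ c).mp hc
    simp_rw [hc', ← Finset.mul_sum, hsum, mul_one]
  · intro h
    obtain ⟨a, ha⟩ := h 1 ((ConstAct.mem_inv R B Γ 1).mpr (fun g => smul_one g))
    let α : ConstGrp.F R Γ →ₗ[R] B := ∑ g : Γ, (ConstGrp.ev R g).toLinearMap.smulRight (g⁻¹ • a)
    have hα : ∀ f : ConstGrp.F R Γ, α f = ∑ g : Γ, f g • (g⁻¹ • a) := by
      intro f
      simp [α, LinearMap.sum_apply]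
    refine ⟨α, ?_, ?_⟩
    · refine LinearMap.ext (fun f => ?_)
      change ConstAct.coactLin R B Γ (α f) = α.rTensor (ConstGrp.F R Γ) (Coalgebra.comul (R := R) f)
      rw [ConstAct.coactLin_apply, ConstGrp.comul_eq_sum, hα]
      simp only [map_sum, map_smul, LinearMap.rTensor_tmul, hα, Finset.smul_sum]
      have hsimp : ∀ x : Γ, (∑ g : Γ, ConstGrp.e R x g • g⁻¹ • a) = x⁻¹ • a := by
        intro x
        simp only [ConstGrp.e_apply, ite_smul, one_smul, zero_smul]
        rw [Finset.sum_ite_eq' Finset.univ x, if_pos (Finset.mem_univ _)]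
      simp only [hsimp]
      rw [Finset.sum_comm (f := fun x y => f (x * y) • ((x⁻¹ • a) ⊗ₜ[R] ConstGrp.e R y))]
      refine Finset.sum_congr rfl (fun x _ => ?_)
      rw [TensorProduct.sum_tmul]
      refine Fintype.sum_equiv (Equiv.mulRight x⁻¹) _ _ (fun h => ?_)
      simp only [Equiv.coe_mulRight, inv_mul_cancel_right, mul_inv_rev, inv_inv]
      rw [smul_comm x (f h) (h⁻¹ • a), TensorProduct.smul_tmul']
      congr 2
      rw [smul_smul]
    · rw [hα]
      simp only [ConstGrp.one_apply, one_smul]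
      rw [show (∑ x : Γ, x⁻¹ • a) = ∑ x : Γ, x • a from
        Fintype.sum_equiv (Equiv.inv Γ) _ _ (fun x => rfl), ha]

end Groth.Agent.S16963
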