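import Groth.Statements.S16983
import Mathlib.Algebra.Order.Floor.Ring
import Mathlib.Algebra.Order.BigOperators.Group.Finset
import Mathlib.Algebra.BigOperators.Group.Finset.Piecewise
import Mathlib.RingTheory.Coprime.Lemmas
import Mathlib.Data.Rat.Floor
import Mathlib.Tactic.Linarith
import Mathlib.Tactic.FieldSimp
-- import your own Groth.Agent.* helpers here

set_option autoImplicit false
universe u
open DeformData

namespace Groth.Agent.S16983

/-- Let p be a prime, s ≥ 1, B a finite index set with a subset B₀ of exactly three elements, m_j ≥ 1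
integers coprime to p, and σ_{i,j} (i < s, j ∈ B) rational numbers with m_j σ_{i,j} an integer, such
that Σ_j (σ_{i,j} − 1) = −2 for every i, the fractional part of σ_{i,j} equals that of p^i σ_{0,j},
no σ_{i,j} equals 1, and the minimum over i of ⌊σ_{i,j}⌋ is 0 for j ∈ B₀ and 1 for j ∉ B₀. Then for
every i the fractional parts ⟨σ_{i,j}⟩ sum over j to 1 (purity), and ⌊σ_{i,j}⌋ is 0 on B₀ and 1 off
B₀ for every i. (The hypotheses are exactly the properties of the signature of a special deformation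
datum on the projective line: each entry is an integer divided by a stabilizer order m_j in a group
of order prime to p, the degree identity coming from Riemann–Hurwitz, the Frobenius-twist relation
between fractional parts, and the speciality conditions; the statement is given here for any such
tuple.) -/
theorem result
    {B : Type u} [Fintype B] [DecidableEq B] (B₀ : Finset B) (hB₀ : B₀.card = 3)
    (p : ℕ) (hp : p.Prime) (s : ℕ) (hs : 0 < s)
    (m : B → ℕ) (hm : ∀ j, 0 < m j) (hmp : ∀ j, Nat.Coprime (m j) p)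
    (σ : Fin s → B → ℚ) (hint : ∀ i j, ∃ h : ℤ, σ i j = (h : ℚ) / (m j : ℚ))
    (hsum : ∀ i, ∑ j, (σ i j - 1) = -2)
    (hfract : ∀ i j, Int.fract (σ i j) = Int.fract ((p : ℚ) ^ (i : ℕ) * σ ⟨0, hs⟩ j))
    (hne : ∀ i j, σ i j ≠ 1)
    (hB₀min : ∀ j ∈ B₀, (∃ i, ⌊σ i j⌋ = 0) ∧ ∀ i, 0 ≤ ⌊σ i j⌋)
    (hBmin : ∀ j ∉ B₀, (∃ i, ⌊σ i j⌋ = 1) ∧ ∀ i, 1 ≤ ⌊σ i j⌋) :
    (∀ i, ∑ j, Int.fract (σ i j) = 1) ∧ (∀ i j, ⌊σ i j⌋ = if j ∈ B₀ then 0 else 1) := by
  classical
  -- the lower bounds
  set lo : B → ℤ := fun j => if j ∈ B₀ then 0 else 1 with hlo_def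
  have hlo : ∀ i j, lo j ≤ ⌊σ i j⌋ := by
    intro i j
    by_cases hj : j ∈ B₀
    · simp only [hlo_def, hj, if_true]; exact (hB₀min j hj).2 i
    · simp only [hlo_def, hj, if_false]; exact (hBmin j hj).2 i
  have hlo_sum : ∑ j, lo j + 3 = (Fintype.card B : ℤ) := by
    have h1 : ∀ j, lo j + (if j ∈ B₀ then 1 else 0) = 1 := by
      intro j; by_cases hj : j ∈ B₀ <;> simp [hlo_def, hj]
    have h2 : ∑ j, (lo j + (if j ∈ B₀ then (1 : ℤ) else 0)) = ∑ _j : B, (1 : ℤ) :=
      Finset.sum_congr rfl fun j _ => h1 j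
    rw [Finset.sum_add_distrib, Fintype.sum_ite_mem, Finset.sum_const, Finset.sum_const,
      Finset.card_univ, hB₀] at h2
    simpa using h2
  -- the sum of the σ's
  have hsumσ : ∀ i, ∑ j, σ i j = (Fintype.card B : ℚ) - 2 := by
    intro i
    have := hsum i
    rw [Finset.sum_sub_distrib, Finset.sum_const, Finset.card_univ, nsmul_eq_mul, mul_one] at this
    linarith
  -- decomposition into floor and fractional part
  have hdec : ∀ i, ∑ j, Int.fract (σ i j) = ((Fintype.card B : ℤ) - 2 - ∑ j, ⌊σ i j⌋ : ℤ) := by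
    intro i
    have h1 : ∀ j, Int.fract (σ i j) = σ i j - (⌊σ i j⌋ : ℚ) := fun j => by
      have := Int.floor_add_fract (σ i j); linarith
    rw [Finset.sum_congr rfl fun j _ => h1 j, Finset.sum_sub_distrib, hsumσ i]
    push_cast
    ring
  have hfloor_ge : ∀ i, (Fintype.card B : ℤ) - 3 ≤ ∑ j, ⌊σ i j⌋ := by
    intro i
    have := Finset.sum_le_sum fun j (_ : j ∈ Finset.univ) => hlo i j
    linarith
  -- integrality propagates along the Frobenius relation
  have hprop : ∀ j, (∃ i, Int.fract (σ i j) = 0) → ∀ i', Int.fract (σ i' j) = 0 := by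
    intro j ⟨i, hi⟩ i'
    rw [hfract] at hi
    obtain ⟨z, hz⟩ := Int.fract_eq_zero_iff.mp hi
    obtain ⟨h, hh⟩ := hint ⟨0, hs⟩ j
    have hm0 : (m j : ℚ) ≠ 0 := by exact_mod_cast (hm j).ne'
    rw [hh] at hz
    have hz' : ((p : ℤ) ^ (i : ℕ) * h : ℤ) = (z * (m j : ℤ) : ℤ) := by
      have : (p : ℚ) ^ (i : ℕ) * h = z * (m j : ℚ) := by
        rw [hz]; field_simp
      exact_mod_cast this
    have hdvd : (m j : ℤ) ∣ (p : ℤ) ^ (i : ℕ) * h := ⟨z, by rw [hz']; ring⟩
    have hcop : IsCoprime (m j : ℤ) ((p : ℤ) ^ (i : ℕ)) := by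
      apply IsCoprime.pow_right
      exact Nat.isCoprime_iff_coprime.mpr (hmp j)
    obtain ⟨k, hk⟩ := hcop.dvd_of_dvd_mul_left hdvd
    have hσ0 : σ ⟨0, hs⟩ j = (k : ℚ) := by
      rw [hh, hk]; push_cast; field_simp
    rw [hfract, hσ0]
    have : (p : ℚ) ^ (i' : ℕ) * (k : ℚ) = (((p : ℤ) ^ (i' : ℕ) * k : ℤ) : ℚ) := by push_cast; ring
    rw [this, Int.fract_intCast]
  -- the integer sums are 0 or 1, and never 0
  have hne0 : ∀ i, ∑ j, Int.fract (σ i j) ≠ 0 := by
    intro i0 h0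
    have hfr0 : ∀ j, Int.fract (σ i0 j) = 0 := by
      intro j
      exact (Finset.sum_eq_zero_iff_of_nonneg (fun j _ => Int.fract_nonneg (σ i0 j))).mp h0 j
        (Finset.mem_univ j)
    have hall : ∀ i j, σ i j = (⌊σ i j⌋ : ℚ) := by
      intro i j
      have := hprop j ⟨i0, hfr0 j⟩ i
      have h2 := Int.floor_add_fract (σ i j)
      rw [this] at h2
      linarith
    by_cases hex : ∃ j, j ∉ B₀
    · obtain ⟨j, hj⟩ := hex
      obtain ⟨i, hi⟩ := (hBmin j hj).1
      apply hne i j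
      rw [hall i j, hi]; norm_num
    · push_neg at hex
      have huniv : B₀ = Finset.univ := Finset.eq_univ_of_forall hex
      have hcard : Fintype.card B = 3 := by rw [← Finset.card_univ, ← huniv, hB₀]
      have hs1 : ∑ j, ⌊σ i0 j⌋ = 1 := by
        have h1 := hsumσ i0
        rw [Finset.sum_congr rfl fun j _ => hall i0 j, hcard] at h1
        have : ((∑ j, ⌊σ i0 j⌋ : ℤ) : ℚ) = 1 := by push_cast; rw [h1]; norm_num
        exact_mod_cast this
      have hnn : ∀ j, 0 ≤ ⌊σ i0 j⌋ := fun j => (hB₀min j (hex j)).2 i0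
      by_cases hbig : ∃ j, 2 ≤ ⌊σ i0 j⌋
      · obtain ⟨j, hj⟩ := hbig
        have := Finset.single_le_sum (fun j (_ : j ∈ Finset.univ) => hnn j) (Finset.mem_univ j)
        omega
      · push_neg at hbig
        by_cases hone : ∃ j, ⌊σ i0 j⌋ = 1
        · obtain ⟨j, hj⟩ := hone
          apply hne i0 j
          rw [hall i0 j, hj]; norm_num
        · push_neg at hone
          have hz : ∀ j, ⌊σ i0 j⌋ = 0 := by
            intro j
            have := hnn j; have := hbig j; have := hone j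
            omega
          rw [Finset.sum_congr rfl fun j _ => hz j] at hs1
          simp at hs1
  have hone : ∀ i, ∑ j, Int.fract (σ i j) = 1 := by
    intro i
    have h1 := hdec i
    have h2 := hfloor_ge i
    have h3 : 0 ≤ ∑ j, Int.fract (σ i j) := Finset.sum_nonneg fun j _ => Int.fract_nonneg _
    have h4 := hne0 i
    rw [h1] at h3 h4 ⊢
    have h3' : (0 : ℤ) ≤ (Fintype.card B : ℤ) - 2 - ∑ j, ⌊σ i j⌋ := by exact_mod_cast h3
    have h4' : (Fintype.card B : ℤ) - 2 - ∑ j, ⌊σ i j⌋ ≠ 0 := by exact_mod_cast h4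
    have : (Fintype.card B : ℤ) - 2 - ∑ j, ⌊σ i j⌋ = 1 := by omega
    rw [this]; norm_num
  refine ⟨hone, ?_⟩
  intro i j
  have h1 := hdec i
  rw [hone i] at h1
  have h1' : (1 : ℤ) = (Fintype.card B : ℤ) - 2 - ∑ j, ⌊σ i j⌋ := by exact_mod_cast h1
  have hsum_eq : ∑ j, lo j = ∑ j, ⌊σ i j⌋ := by omega
  have := (Finset.sum_eq_sum_iff_of_le fun j (_ : j ∈ Finset.univ) => hlo i j).mp hsum_eq j
    (Finset.mem_univ j)
  rw [← this]

end Groth.Agent.S16983
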