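import Groth.Statements.S16984
-- import your own Groth.Agent.* helpers here

set_option autoImplicit false
universe u v w
open Hoch

namespace Groth.Agent.S16984

open TensorProduct in
/-- Let k be a commutative ring, A a commutative k-bialgebra that is flat over k (the coordinate ring of
a flat affine group scheme over Spec k; flatness and commutativity are the standing hypotheses of
the appendix and are not needed for the assertion) and P a k-module. Then p ↦ p ⊗ 1 is an injection
of P into the induced comodule P ⊗ A (coaction id ⊗ Δ) whose image is exactly the submodule of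
invariants, i.e. the elements with coaction x ↦ x ⊗ 1. (The published statement writes the
coordinate-ring factor on the left and calls this module coinduced; this row is its degree-zero
part, the identification of P with the invariants of the coinduced module.) -/
theorem result (k : Type u) [CommRing k] (A : Type v) [CommRing A] [Bialgebra k A]
    [Module.Flat k A] (P : Type w) [AddCommGroup P] [Module k P] :
    Function.Injective ((Hoch.Ind.equiv k A P).toLinearMap ∘ₗ (TensorProduct.mk k P A).flip (1 : A)) ∧
    LinearMap.range ((Hoch.Ind.equiv k A P).toLinearMap ∘ₗ (TensorProduct.mk k P A).flip (1 : A)) =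
      HopfRep.fixedPts k A (Hoch.Ind k A P) := by
  have hι_apply : ∀ p, ((Hoch.Ind.equiv k A P).toLinearMap ∘ₗ (TensorProduct.mk k P A).flip (1 : A)) p =
      Hoch.Ind.equiv k A P (p ⊗ₜ 1) := fun p => rfl
  have hleft : ∀ p, Hoch.Ind.counit k A P
      (((Hoch.Ind.equiv k A P).toLinearMap ∘ₗ (TensorProduct.mk k P A).flip (1 : A)) p) = p := by
    intro p
    rw [hι_apply, Hoch.Ind.counit_equiv_tmul, Bialgebra.counit_one, one_smul]
  refine ⟨fun p q h => by rw [← hleft p, ← hleft q, h], ?_⟩
  apply le_antisymm
  · rintro _ ⟨p, rfl⟩
    show HopfRep.Comod.coact (k := k) (A := A) (V := Hoch.Ind k A P) _ = _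
    rw [hι_apply, Hoch.Ind.coact_equiv_tmul, Bialgebra.comul_one]
    rfl
  · intro x hx
    have hx' : Hoch.Ind.coactAux k A P x = x ⊗ₜ (1 : A) := hx
    let F : (P ⊗[k] A) ⊗[k] A →ₗ[k] P ⊗[k] A :=
      ((TensorProduct.rid k P).toLinearMap ∘ₗ (Coalgebra.counit (R := k) (A := A)).lTensor P).rTensor A
    have key : ∀ (p : P) (t : A ⊗[k] A), F ((TensorProduct.assoc k P A A).symm (p ⊗ₜ t)) =
        TensorProduct.mk k P A p (TensorProduct.lid k A ((Coalgebra.counit (R := k) (A := A)).rTensor A t)) := by
      intro p t
      induction t using TensorProduct.induction_on with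
      | zero => simp
      | tmul a1 a2 => simp [F, TensorProduct.smul_tmul]
      | add s t hs ht => rw [TensorProduct.tmul_add, map_add, map_add, hs, ht, map_add, map_add, map_add]
    have hF : ∀ y : P ⊗[k] A, F (Hoch.Ind.coactAux k A P y) = y := by
      intro y
      induction y using TensorProduct.induction_on with
      | zero => simp
      | tmul p a =>
        rw [Hoch.Ind.coactAux_tmul, key, Coalgebra.rTensor_counit_comul]
        simp
      | add s t hs ht => rw [map_add, map_add, hs, ht]
    have h1 : F (x ⊗ₜ (1 : A)) = (Hoch.Ind.counit k A P x) ⊗ₜ (1 : A) := rfl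
    refine ⟨Hoch.Ind.counit k A P x, ?_⟩
    rw [hι_apply]
    show Hoch.Ind.counit k A P x ⊗ₜ (1 : A) = x
    exact h1.symm.trans ((congrArg F hx').symm.trans (hF x))

end Groth.Agent.S16984
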