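import Groth.Statements.S17176
import Mathlib.Tactic.Ring
import Mathlib.Tactic.Linarith
import Mathlib.Tactic.LinearCombination
import Mathlib.Tactic.NormNum
import Mathlib.Data.Int.GCD
-- import your own Groth.Agent.* helpers here

set_option autoImplicit false
open Curves

namespace Groth.Agent.S17176

/-- Fix integers g ≥ 3 and d. For a complete subcurve Y of arithmetic genus g_Y of a nodal curve of
genus g, meeting the rest of the curve in k points, the lower extreme of the Basic Inequality for
line bundles of degree d is m = d(2g_Y - 2 + k)/(2g - 2) - k/2, which is an integer exactly when 2(g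
- 1) divides d(2g_Y - 2 + k) - k(g - 1). Then gcd(d - g + 1, 2g - 2) = 1 if and only if m is not an
integer for all integers g_Y, k with 0 < g_Y < g - 1, k ≥ 1 and k + 2g_Y - 2 < 2g - 2. (The row
makes explicit the bound 2g_Y - 2 + k < 2g - 2, which is automatic for subcurves of stable curves
and is satisfied by every subcurve to which the source applies the lemma; the source leaves the
ambient curve's class implicit.) -/
theorem result (g d : ℤ) (hg : 3 ≤ g) :
    Int.gcd (d - g + 1) (2 * g - 2) = 1 ↔
      ∀ gY k : ℤ, 0 < gY → gY < g - 1 → 1 ≤ k → k + 2 * gY - 2 < 2 * g - 2 →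
        ¬ (2 * (g - 1) ∣ d * (2 * gY - 2 + k) - k * (g - 1)) := by
  constructor
  · intro h gY k hgY1 hgY2 hk hsum hdvd
    have key : d * (2 * gY - 2 + k) - k * (g - 1) =
        (d - g + 1) * (2 * gY - 2 + k) + (2 * g - 2) * (gY - 1) := by ring
    rw [key, show 2 * (g - 1) = 2 * g - 2 by ring] at hdvd
    have h2 : (2 * g - 2) ∣ (d - g + 1) * (2 * gY - 2 + k) :=
      (Int.dvd_add_left (Dvd.intro _ rfl)).mp hdvd
    have h3 : (2 * g - 2) ∣ (2 * gY - 2 + k) :=
      Int.dvd_of_dvd_mul_right_of_gcd_one h2 (by rw [Int.gcd_comm]; exact h)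
    have hpos : 0 < 2 * gY - 2 + k := by omega
    have := Int.le_of_dvd hpos h3
    omega
  · intro h
    by_contra hne
    have hcpos : 0 < Int.gcd (d - g + 1) (2 * g - 2) :=
      Int.gcd_pos_of_ne_zero_right _ (by omega)
    have hc2 : 2 ≤ Int.gcd (d - g + 1) (2 * g - 2) := by omega
    have hcd : ((Int.gcd (d - g + 1) (2 * g - 2) : ℕ) : ℤ) ∣ 2 * g - 2 := Int.gcd_dvd_right _ _
    have hce : ((Int.gcd (d - g + 1) (2 * g - 2) : ℕ) : ℤ) ∣ d - g + 1 := Int.gcd_dvd_left _ _
    set c : ℕ := Int.gcd (d - g + 1) (2 * g - 2) with hc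
    obtain ⟨k, hk⟩ := hcd
    obtain ⟨e', he'⟩ := hce
    have hc2' : (2 : ℤ) ≤ (c : ℤ) := by exact_mod_cast hc2
    have hk1 : 1 ≤ k := by nlinarith
    have hk2 : k + 2 * 1 - 2 < 2 * g - 2 := by nlinarith
    apply h 1 k (by norm_num) (by omega) hk1 hk2
    exact ⟨e', by linear_combination k * he' - e' * hk⟩

end Groth.Agent.S17176
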