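import Groth.Statements.S17259
import Mathlib.RingTheory.Ideal.Maps
import Mathlib.RingTheory.Ideal.Quotient.Operations
import Mathlib.Tactic.Abel
-- import your own Groth.Agent.* helpers here

set_option autoImplicit false
open CAlg

namespace Groth.Agent.S17259

/-- Let A, B, C be rings, f : B → A and g : B → C ring homomorphisms, and φ : A → B a homomorphism of
additive groups such that the sequence A → B → C → 0 (maps φ, g) is exact and f ∘ φ is
multiplication by a central element a of A which is not a zero divisor. Then the projection p : A →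
A/(a) composed with f factors through g as a ring homomorphism q : C → A/(a), the homomorphism (f,
g) : B → A × C is injective, and its image is the fibre product of A and C over A/(a) along p and q;
thus (f, g) is a ring isomorphism from B onto that fibre product. (The two-sidedness of the ideal
generated by a, automatic for a central element, is carried as an instance hypothesis.) -/
theorem result {A B C : Type*} [Ring A] [Ring B] [Ring C]
    (f : B →+* A) (g : B →+* C) (φ : A →+ B) (a : A)
    (hc : ∀ x : A, Commute a x) (ha : a ∈ nonZeroDivisors A)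
    (hex : Function.Exact φ g) (hg : Function.Surjective g)
    (hφ : ∀ x : A, f (φ x) = a * x)
    [(Ideal.span ({a} : Set A)).IsTwoSided] :
    ∃ q : C →+* A ⧸ Ideal.span ({a} : Set A),
      q.comp g = (Ideal.Quotient.mk (Ideal.span ({a} : Set A))).comp f ∧
      Function.Injective (f.prod g) ∧
      (f.prod g).range = (Ideal.Quotient.mk (Ideal.span ({a} : Set A))).pullback q := by
  classical
  have hmemI : ∀ x : A, a * x ∈ Ideal.span ({a} : Set A) := by
    intro x
    rw [(hc x).eq]
    exact Ideal.mul_mem_left _ x (Ideal.subset_span rfl)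
  have hker : RingHom.ker g ≤ RingHom.ker ((Ideal.Quotient.mk (Ideal.span ({a} : Set A))).comp f) := by
    intro b hb
    rw [RingHom.mem_ker] at hb ⊢
    obtain ⟨x, rfl⟩ := (hex b).mp hb
    rw [RingHom.comp_apply, hφ, Ideal.Quotient.eq_zero_iff_mem]
    exact hmemI x
  let q : C →+* A ⧸ Ideal.span ({a} : Set A) :=
    g.liftOfSurjective hg ⟨(Ideal.Quotient.mk (Ideal.span ({a} : Set A))).comp f, hker⟩
  have hq : q.comp g = (Ideal.Quotient.mk (Ideal.span ({a} : Set A))).comp f :=
    g.liftOfSurjective_comp hg _
  refine ⟨q, hq, ?_, ?_⟩
  · rw [injective_iff_map_eq_zero]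
    intro b hb
    have h1 : f b = 0 := congrArg Prod.fst hb
    have h2 : g b = 0 := congrArg Prod.snd hb
    obtain ⟨x, rfl⟩ := (hex b).mp h2
    rw [hφ] at h1
    have : x = 0 := ha.1 x h1
    rw [this, map_zero]
  · ext ⟨y, c⟩
    rw [RingHom.mem_range, RingHom.mem_eqLocus]
    simp only [RingHom.coe_comp, Function.comp_apply, RingHom.coe_fst, RingHom.coe_snd]
    constructor
    · rintro ⟨b, hb⟩
      have h1 : f b = y := congrArg Prod.fst hb
      have h2 : g b = c := congrArg Prod.snd hb
      subst h1 h2
      exact (RingHom.congr_fun hq b).symm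
    · intro h
      obtain ⟨b, rfl⟩ := hg c
      have h' : Ideal.Quotient.mk (Ideal.span ({a} : Set A)) y =
          Ideal.Quotient.mk (Ideal.span ({a} : Set A)) (f b) := by
        rw [h]; exact RingHom.congr_fun hq b
      rw [Ideal.Quotient.eq, Ideal.mem_span_singleton'] at h'
      obtain ⟨r, hr⟩ := h'
      refine ⟨b + φ r, ?_⟩
      refine Prod.ext ?_ ?_
      · show f (b + φ r) = y
        rw [map_add, hφ, (hc r).eq, hr]
        abel
      · show g (b + φ r) = g b
        rw [map_add, (hex (φ r)).mpr ⟨r, rfl⟩, add_zero]

end Groth.Agent.S17259
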