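import Groth.Statements.S1728
import Mathlib.Algebra.Module.Injective
import Mathlib.Order.Zorn
import Mathlib.Order.CompactlyGenerated.Basic
-- import your own Groth.Agent.* helpers here

set_option autoImplicit false
universe u
open InjHull

namespace Groth.Agent.S1728

/-- Let I be an injective R-module and E a submodule of I. Then E is an injective module if and only if
every submodule E' of I containing E, such that every nonzero submodule of E' meets E nontrivially,
is equal to E. -/
theorem result (R : Type u) [CommRing R] (I : Type u) [AddCommGroup I] [Module R I] [Module.Injective R I] (E : Submodule R I) : Module.Injective R E ↔ ∀ E' : Submodule R I, E ≤ E' → (∀ N : Submodule R I, N ≤ E' → N ≠ ⊥ → N ⊓ E ≠ ⊥) → E' = E := by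
  constructor
  · intro hE E' hle hess
    obtain ⟨r, hr⟩ := Module.Injective.extension_property R E E I E.subtype
      Subtype.val_injective LinearMap.id
    have hr' : ∀ e : E, r (e : I) = e := fun e => LinearMap.congr_fun hr e
    refine le_antisymm (fun x hx => ?_) hle
    set y : I := x - ((r x : E) : I) with hy
    have hyE' : y ∈ E' := E'.sub_mem hx (hle (r x).2)
    have hry : r y = 0 := by
      rw [hy, map_sub, hr', sub_self]
    by_contra hxE
    have hy0 : y ≠ 0 := by
      intro h0
      apply hxE
      have : x = ((r x : E) : I) := by rw [← sub_eq_zero]; exact h0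
      rw [this]
      exact (r x).2
    have hN : Submodule.span R {y} ≤ E' := (Submodule.span_singleton_le_iff_mem _ _).mpr hyE'
    have hN0 : Submodule.span R {y} ≠ ⊥ := by
      rwa [Ne, Submodule.span_singleton_eq_bot]
    apply hess _ hN hN0
    rw [eq_bot_iff]
    rintro z ⟨hz1, hz2⟩
    obtain ⟨c, rfl⟩ := Submodule.mem_span_singleton.mp hz1
    have h1 : r (c • y) = ⟨c • y, hz2⟩ := hr' ⟨c • y, hz2⟩
    rw [map_smul, hry, smul_zero] at h1
    have := congrArg Subtype.val h1
    simp only [ZeroMemClass.coe_zero] at this
    rw [Submodule.mem_bot]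
    exact this.symm
  · intro h
    -- Zorn: a submodule `K` maximal among those disjoint from `E`
    obtain ⟨K, -, hKmax⟩ := zorn_le_nonempty₀ {K : Submodule R I | Disjoint K E}
      (fun c hc hchain y hy => ⟨sSup c, by
        show Disjoint (sSup c) E
        rw [hchain.directedOn.disjoint_sSup_left]
        exact fun b hb => hc hb, fun z hz => le_sSup hz⟩) ⊥ disjoint_bot_left
    have hKE : Disjoint K E := hKmax.1
    have hKmax' : ∀ K' : Submodule R I, Disjoint K' E → K ≤ K' → K' = K :=
      fun K' hK' hle => le_antisymm (hKmax.2 hK' hle) hle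
    -- extend the map `k + e ↦ e` from `K ⊕ E` to `I`
    let f : (K × E) →ₗ[R] I := K.subtype.coprod E.subtype
    have hf : Function.Injective f := by
      rw [← LinearMap.ker_eq_bot, eq_bot_iff]
      rintro ⟨k, e⟩ hke
      have hke' : (k : I) + (e : I) = 0 := hke
      have hkE : (k : I) ∈ E := by
        rw [add_eq_zero_iff_eq_neg] at hke'
        rw [hke']
        exact E.neg_mem e.2
      have hk0 : (k : I) = 0 := (Submodule.disjoint_def.mp hKE) _ k.2 hkE
      have he0 : (e : I) = 0 := by rw [hk0, zero_add] at hke'; exact hke'
      rw [Submodule.mem_bot]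
      ext
      · exact hk0
      · exact he0
    obtain ⟨φ, hφ⟩ := Module.Injective.extension_property R I (K × E) I f hf
      (E.subtype ∘ₗ LinearMap.snd R K E)
    have hφK : ∀ k ∈ K, φ k = 0 := by
      intro k hk
      have := LinearMap.congr_fun hφ (⟨k, hk⟩, 0)
      simpa [f] using this
    have hφE : ∀ e ∈ E, φ e = e := by
      intro e he
      have := LinearMap.congr_fun hφ (0, ⟨e, he⟩)
      simpa [f] using this
    have hker : LinearMap.ker φ = K := by
      apply hKmax'
      · rw [Submodule.disjoint_def]
        intro x hx hxE
        rw [LinearMap.mem_ker] at hx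
        rw [← hφE x hxE, hx]
      · intro k hk
        exact hφK k hk
    have hErange : E ≤ LinearMap.range φ := fun e he => ⟨e, hφE e he⟩
    have hrange : LinearMap.range φ = E := by
      apply h _ hErange
      intro N hN hN0 hNE
      have hN' : Disjoint (N.comap φ) E := by
        rw [Submodule.disjoint_def]
        intro x hx hxE
        have h1 : φ x ∈ N := hx
        rw [hφE x hxE] at h1
        exact (Submodule.disjoint_def.mp (disjoint_iff.mpr hNE)) x h1 hxE
      have hKle : K ≤ N.comap φ := fun k hk => by
        show φ k ∈ N
        rw [hφK k hk]; exact N.zero_mem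
      have hcomap : N.comap φ = K := hKmax' _ hN' hKle
      apply hN0
      rw [eq_bot_iff]
      intro n hn
      obtain ⟨y, rfl⟩ := hN hn
      have hy : y ∈ N.comap φ := hn
      rw [hcomap] at hy
      rw [hφK y hy, Submodule.mem_bot]
    -- `φ` is a retraction of `I` onto `E`, so `E` is injective
    let r : I →ₗ[R] E := LinearMap.codRestrict E φ (fun x => hrange ▸ LinearMap.mem_range_self φ x)
    have hr : ∀ e : E, r (e : I) = e := fun e => Subtype.ext (hφE e e.2)
    apply Module.Baer.injective
    intro J g
    obtain ⟨g'', hg''⟩ := Module.Injective.extension_property R I J R J.subtype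
      Subtype.val_injective (E.subtype ∘ₗ g)
    refine ⟨r ∘ₗ g'', fun x mem => ?_⟩
    have := LinearMap.congr_fun hg'' ⟨x, mem⟩
    simp only [LinearMap.coe_comp, Function.comp_apply, Submodule.coe_subtype] at this ⊢
    rw [this, hr]

end Groth.Agent.S1728
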