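import Groth.Statements.S1729
import Mathlib.RingTheory.Nakayama
import Mathlib.RingTheory.LocalRing.MaximalIdeal.Basic
-- import your own Groth.Agent.* helpers here

set_option autoImplicit false
universe u
open Dual2

namespace Groth.Agent.S1729

/-- Over a local ring, every finite module M admits a projective cover: a surjection from a projective
module P onto M such that no proper submodule of P maps onto M. -/
theorem result (R : Type u) [CommRing R] [IsLocalRing R] (M : Type u) [AddCommGroup M] [Module R M] [Module.Finite R M] : ∃ (P : Type u) (_ : AddCommGroup P) (_ : Module R P) (f : P →ₗ[R] M), Dual2.IsProjectiveCover f := by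
  classical
  have hex : ∃ n : ℕ, ∃ s : Finset M, s.card = n ∧ Submodule.span R (s : Set M) = ⊤ := by
    obtain ⟨s, hs⟩ := (Module.Finite.fg_top : (⊤ : Submodule R M).FG)
    exact ⟨s.card, s, rfl, hs⟩
  obtain ⟨s, hscard, hs⟩ := Nat.find_spec hex
  let v : s → M := fun i => (i : M)
  let f : (s → R) →ₗ[R] M := Fintype.linearCombination R v
  -- minimality: relations among the generators have all coefficients in the maximal ideal
  have key : ∀ c : s → R, ∑ i, c i • v i = 0 → ∀ i, c i ∈ IsLocalRing.maximalIdeal R := by
    intro c hc j
    by_contra hj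
    have hu : IsUnit (c j) := by
      rwa [IsLocalRing.mem_maximalIdeal, mem_nonunits_iff, not_not] at hj
    have hmem : (j : M) ∈ Submodule.span R ((s.erase j : Finset M) : Set M) := by
      have h1 : c j • (j : M) = - ∑ i ∈ Finset.univ.erase j, c i • v i := by
        rw [← Finset.add_sum_erase _ _ (Finset.mem_univ j)] at hc
        exact eq_neg_of_add_eq_zero_left hc
      have h2 : ((hu.unit⁻¹ : Rˣ) : R) • (c j • (j : M)) = (j : M) := by
        rw [smul_smul, hu.val_inv_mul, one_smul]
      have hmem' : ((hu.unit⁻¹ : Rˣ) : R) • (c j • (j : M)) ∈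
          Submodule.span R ((s.erase j : Finset M) : Set M) := by
        rw [h1]
        refine Submodule.smul_mem _ _ (Submodule.neg_mem _ (Submodule.sum_mem _ fun i hi =>
          Submodule.smul_mem _ _ (Submodule.subset_span ?_)))
        simp only [Finset.coe_erase, Set.mem_sdiff, Finset.mem_coe, Set.mem_singleton_iff, v]
        exact ⟨i.2, fun h => (Finset.ne_of_mem_erase hi) (Subtype.ext h)⟩
      rwa [h2] at hmem'
    have hspan : Submodule.span R ((s.erase j : Finset M) : Set M) = ⊤ := by
      rw [eq_top_iff, ← hs, Submodule.span_le]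
      intro x hx
      by_cases hxj : x = j
      · rw [hxj]; exact hmem
      · exact Submodule.subset_span (by simp [hxj, Finset.mem_coe.mp hx])
    have hlt : (s.erase j).card < Nat.find hex := by
      rw [Finset.card_erase_of_mem j.2, hscard]
      have : 0 < Nat.find hex := by rw [← hscard]; exact Finset.card_pos.mpr ⟨j, j.2⟩
      omega
    exact Nat.find_min hex hlt ⟨s.erase j, rfl, hspan⟩
  refine ⟨s → R, inferInstance, inferInstance, f, ⟨inferInstance, ?_, ?_⟩⟩
  · rw [← LinearMap.range_eq_top, eq_top_iff, ← hs, Submodule.span_le]
    intro x hx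
    exact ⟨Pi.single ⟨x, hx⟩ 1, by simp [f, v, Fintype.linearCombination_apply_single]⟩
  · intro N hN
    have hw : ∀ i : s, ∃ w ∈ N, f w = v i := by
      intro i
      have : v i ∈ Submodule.map f N := hN ▸ Submodule.mem_top
      obtain ⟨w, hw, hwv⟩ := this
      exact ⟨w, hw, hwv⟩
    choose w hwN hwf using hw
    let φ : (s → R) →ₗ[R] (s → R) := Fintype.linearCombination R w
    have hφN : ∀ x, φ x ∈ N := fun x =>
      Submodule.sum_mem _ fun i _ => Submodule.smul_mem _ _ (hwN i)
    have hfφ : ∀ x, f (φ x) = f x := by
      intro x
      simp only [φ, Fintype.linearCombination_apply, map_sum, map_smul, hwf]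
      rfl
    have hker : ∀ y, f y = 0 →
        y ∈ (IsLocalRing.maximalIdeal R) • (⊤ : Submodule R (s → R)) := by
      intro y hy
      have hy' := key y hy
      have : y = ∑ i, y i • Pi.single i (1 : R) := by
        ext k
        simp [Finset.sum_apply, Pi.single_apply]
      rw [this]
      exact Submodule.sum_mem _ fun i _ => Submodule.smul_mem_smul (hy' i) Submodule.mem_top
    apply top_unique
    apply Submodule.le_of_le_smul_of_le_jacobson_bot (I := IsLocalRing.maximalIdeal R)
      Module.Finite.fg_top
    · rw [IsLocalRing.jacobson_eq_maximalIdeal]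
      exact bot_ne_top
    · intro x _
      have : x = φ x + (x - φ x) := by abel
      rw [this]
      refine Submodule.add_mem_sup (hφN x) (hker _ ?_)
      rw [map_sub, hfφ, sub_self]

end Groth.Agent.S1729
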