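import Groth.Statements.S1730
-- import your own Groth.Agent.* helpers here

set_option autoImplicit false
universe u
open Dual2

namespace Groth.Agent.S1730

/-- If f : P → M and f' : P' → M are two projective covers of an R-module M, then there is an
isomorphism P ≃ P' compatible with the maps to M. -/
theorem result (R : Type u) [CommRing R] (M P P' : Type u) [AddCommGroup M] [Module R M] [AddCommGroup P] [Module R P] [AddCommGroup P'] [Module R P'] (f : P →ₗ[R] M) (f' : P' →ₗ[R] M) (hf : Dual2.IsProjectiveCover f) (hf' : Dual2.IsProjectiveCover f') : ∃ e : P ≃ₗ[R] P', f' ∘ₗ e.toLinearMap = f := by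
  have := hf.projective
  have := hf'.projective
  -- a lift `h : P → P'` of `f` along `f'`
  obtain ⟨h, hh⟩ := Module.projective_lifting_property f' f hf'.surjective
  have hsurj : Function.Surjective h := by
    rw [← LinearMap.range_eq_top]
    apply hf'.essential
    rw [LinearMap.range_eq_map, ← Submodule.map_comp, ← LinearMap.range_eq_map, hh,
      LinearMap.range_eq_top]
    exact hf.surjective
  -- a section `s` of `h`
  obtain ⟨s, hs⟩ := Module.projective_lifting_property h LinearMap.id hsurj
  have hfs : f ∘ₗ s = f' := by
    rw [← hh, LinearMap.comp_assoc, hs, LinearMap.comp_id]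
  have hsinj : Function.Injective s := by
    intro x y hxy
    have := congrArg h hxy
    have e1 : h (s x) = x := by simpa using LinearMap.congr_fun hs x
    have e2 : h (s y) = y := by simpa using LinearMap.congr_fun hs y
    rw [e1, e2] at this
    exact this
  have hssurj : Function.Surjective s := by
    rw [← LinearMap.range_eq_top]
    apply hf.essential
    rw [LinearMap.range_eq_map, ← Submodule.map_comp, ← LinearMap.range_eq_map, hfs,
      LinearMap.range_eq_top]
    exact hf'.surjective
  refine ⟨(LinearEquiv.ofBijective s ⟨hsinj, hssurj⟩).symm, ?_⟩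
  ext x
  obtain ⟨y, rfl⟩ := hssurj x
  have : (LinearEquiv.ofBijective s ⟨hsinj, hssurj⟩).symm (s y) = y :=
    (LinearEquiv.ofBijective s ⟨hsinj, hssurj⟩).symm_apply_apply y
  simp only [LinearMap.coe_comp, LinearEquiv.coe_coe, Function.comp_apply, this]
  exact (LinearMap.congr_fun hfs y).symm

end Groth.Agent.S1730
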