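import Groth.Statements.S1733
import Mathlib.Tactic.LinearCombination
-- import your own Groth.Agent.* helpers here

set_option autoImplicit false
universe u
open LocCoh

namespace Groth.Agent.S1733

/-- Let f_1, …, f_r and g be elements of a ring (r ≥ 1). If the family f_1, …, f_{r-1}, f_r g is
independent (every linear relation has coefficients in the ideal the family generates), then f_1, …,
f_r is independent. -/
theorem result (A : Type u) [CommRing A] (r : ℕ) (f : Fin (r + 1) → A) (g : A) (h : Dual2.Independent (Function.update f (Fin.last r) (f (Fin.last r) * g))) : Dual2.Independent f := by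
  set n := Fin.last r with hn
  set f' := Function.update f n (f n * g) with hf'
  have hf'c : ∀ i : Fin r, f' (Fin.castSucc i) = f (Fin.castSucc i) := fun i =>
    Function.update_of_ne (Fin.castSucc_ne_last i) _ _
  have hf'n : f' n = f n * g := Function.update_self _ _ _
  have hII : Ideal.span (Set.range f') ≤ Ideal.span (Set.range f) := by
    rw [Ideal.span_le]
    rintro _ ⟨i, rfl⟩
    refine Fin.lastCases ?_ (fun j => ?_) i
    · rw [← hn, hf'n]
      exact Ideal.mul_mem_right _ _ (Ideal.subset_span ⟨n, rfl⟩)
    · rw [hf'c]
      exact Ideal.subset_span ⟨_, rfl⟩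
  intro a ha
  rw [Fin.sum_univ_castSucc] at ha
  -- first relation for `f'`: multiply the given relation by `g`
  let b : Fin (r + 1) → A := Fin.snoc (fun i : Fin r => a (Fin.castSucc i) * g) (a n)
  have hb : ∑ i, b i * f' i = 0 := by
    rw [Fin.sum_univ_castSucc]
    simp only [b, Fin.snoc_castSucc, Fin.snoc_last, hf'c]
    rw [← hn, hf'n]
    have : ∑ i : Fin r, a (Fin.castSucc i) * g * f (Fin.castSucc i) =
        g * ∑ i : Fin r, a (Fin.castSucc i) * f (Fin.castSucc i) := by
      rw [Finset.mul_sum]
      exact Finset.sum_congr rfl fun i _ => by ring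
    rw [this]
    linear_combination g * ha
  have han : a n ∈ Ideal.span (Set.range f') := by
    have := h b hb n
    simpa [b, hn] using this
  obtain ⟨c, hc⟩ := (Ideal.mem_span_range_iff_exists_fun).mp han
  rw [Fin.sum_univ_castSucc] at hc
  simp only [hf'c] at hc
  rw [← hn, hf'n] at hc
  -- second relation for `f'`
  let d : Fin (r + 1) → A :=
    Fin.snoc (fun i : Fin r => a (Fin.castSucc i) + f n * c (Fin.castSucc i)) (f n * c n)
  have hd : ∑ i, d i * f' i = 0 := by
    rw [Fin.sum_univ_castSucc]
    simp only [d, Fin.snoc_castSucc, Fin.snoc_last, hf'c]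
    rw [← hn, hf'n]
    have : ∑ i : Fin r, (a (Fin.castSucc i) + f n * c (Fin.castSucc i)) * f (Fin.castSucc i) =
        ∑ i : Fin r, a (Fin.castSucc i) * f (Fin.castSucc i) +
          f n * ∑ i : Fin r, c (Fin.castSucc i) * f (Fin.castSucc i) := by
      rw [Finset.mul_sum, ← Finset.sum_add_distrib]
      exact Finset.sum_congr rfl fun i _ => by ring
    rw [this]
    linear_combination ha + f n * hc
  intro i
  refine Fin.lastCases ?_ (fun j => ?_) i
  · exact hII han
  · have hdj := h d hd (Fin.castSucc j)
    simp only [d, Fin.snoc_castSucc] at hdj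
    have : a (Fin.castSucc j) = (a (Fin.castSucc j) + f n * c (Fin.castSucc j)) -
        f n * c (Fin.castSucc j) := by ring
    rw [this]
    exact Ideal.sub_mem _ (hII hdj)
      (Ideal.mul_mem_right _ _ (Ideal.subset_span ⟨n, rfl⟩))

end Groth.Agent.S1733
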