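import Groth.Statements.S17409
import Mathlib
-- import your own Groth.Agent.* helpers here

set_option autoImplicit false
universe u
open Prym5

namespace Groth.Agent.S17409

/-- Over a perfect field K of characteristic different from 2 and 3, let G₂, G₃, G₄ be polynomials in
two variables x, y and consider G₂ z² + 2 G₃ z + G₄ as a polynomial in the three variables x, y, z.
If it lies in the square of the ideal (x, y, z) — the surface it defines has a double point at the
origin — then the discriminant G₃² − G₂ G₄ lies in the square of the ideal (x, y) of K[x, y], so the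
plane curve G₃² − G₂ G₄ = 0 is singular at the origin. (This is the affine-local form used in the
published proof: the surface is a quartic with a node at the centre of projection placed at infinity
on the z-axis, and the curve is the branch sextic of that projection.) -/
theorem result (K : Type u) [Field K] [PerfectField K]
    (h2 : (2 : K) ≠ 0) (h3 : (3 : K) ≠ 0) (G₂ G₃ G₄ : MvPolynomial (Fin 2) K)
    (h : MvPolynomial.rename (Fin.castSucc : Fin 2 → Fin 3) G₂ * MvPolynomial.X (2 : Fin 3) ^ 2
        + 2 * MvPolynomial.rename (Fin.castSucc : Fin 2 → Fin 3) G₃ * MvPolynomial.X (2 : Fin 3)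
        + MvPolynomial.rename (Fin.castSucc : Fin 2 → Fin 3) G₄
        ∈ (Ideal.span (Set.range (MvPolynomial.X : Fin 3 → MvPolynomial (Fin 3) K))) ^ 2) :
    G₃ ^ 2 - G₂ * G₄ ∈ (Ideal.span (Set.range (MvPolynomial.X : Fin 2 → MvPolynomial (Fin 2) K))) ^ 2 := by
  classical
  set m₂ : Ideal (MvPolynomial (Fin 2) K) :=
    Ideal.span (Set.range (MvPolynomial.X : Fin 2 → MvPolynomial (Fin 2) K)) with hm₂
  set m₃ : Ideal (MvPolynomial (Fin 3) K) :=
    Ideal.span (Set.range (MvPolynomial.X : Fin 3 → MvPolynomial (Fin 3) K)) with hm₃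
  -- Step 1: G₄ ∈ m₂ ^ 2, by substituting z = 0
  let ψ : MvPolynomial (Fin 3) K →ₐ[K] MvPolynomial (Fin 2) K :=
    MvPolynomial.aeval (Fin.snoc (α := fun _ => MvPolynomial (Fin 2) K) MvPolynomial.X 0)
  have hψr : ∀ G : MvPolynomial (Fin 2) K, ψ (MvPolynomial.rename Fin.castSucc G) = G := by
    intro G
    simp only [ψ, MvPolynomial.aeval_rename]
    have : (Fin.snoc (α := fun _ => MvPolynomial (Fin 2) K) MvPolynomial.X 0 ∘ Fin.castSucc) =
        MvPolynomial.X := by
      funext i
      simp
    rw [this, MvPolynomial.aeval_X_left_apply]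
  have hψz : ψ (MvPolynomial.X 2) = 0 := by
    simp only [ψ, MvPolynomial.aeval_X]
    rfl
  have hψm : Ideal.map ψ m₃ ≤ m₂ := by
    rw [hm₃, Ideal.map_span, Ideal.span_le]
    rintro _ ⟨_, ⟨i, rfl⟩, rfl⟩
    induction i using Fin.lastCases with
    | last =>
      have : ψ (MvPolynomial.X (Fin.last 2)) = 0 := hψz
      rw [this]
      exact m₂.zero_mem
    | cast j =>
      have : ψ (MvPolynomial.X (Fin.castSucc j)) = MvPolynomial.X j := by
        simp [ψ]
      rw [this]
      exact Ideal.subset_span ⟨j, rfl⟩
  have hG₄ : G₄ ∈ m₂ ^ 2 := by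
    have h1 := Ideal.mem_map_of_mem ψ h
    rw [Ideal.map_pow] at h1
    have h2 := Ideal.pow_right_mono hψm 2 h1
    simpa [hψr, hψz] using h2
  -- Step 2: the constant coefficient of G₃ vanishes, via dual numbers
  let χ : MvPolynomial (Fin 3) K →ₐ[K] DualNumber K :=
    MvPolynomial.aeval (fun i : Fin 3 => if i = 2 then DualNumber.eps else 0)
  have hχr : ∀ G : MvPolynomial (Fin 2) K, χ (MvPolynomial.rename Fin.castSucc G) =
      algebraMap K (DualNumber K) (MvPolynomial.constantCoeff G) := by
    intro G
    simp only [χ, MvPolynomial.aeval_rename]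
    have : ((fun i : Fin 3 => if i = 2 then (DualNumber.eps : DualNumber K) else 0) ∘
        Fin.castSucc) = fun _ => 0 := by
      funext i
      simp only [Function.comp_apply]
      rw [if_neg]
      exact (Fin.castSucc_lt_last i).ne
    rw [this, MvPolynomial.aeval_zero']
  have hχz : χ (MvPolynomial.X 2) = DualNumber.eps := by simp [χ]
  have hfst : ∀ Q ∈ m₃, TrivSqZeroExt.fst (χ Q) = 0 := by
    intro Q hQ
    induction hQ using Submodule.span_induction with
    | mem x hx =>
      obtain ⟨i, rfl⟩ := hx
      simp only [χ, MvPolynomial.aeval_X]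
      split_ifs <;> simp
    | zero => simp
    | add x y _ _ hx hy => simp [hx, hy]
    | smul a x _ hx => simp [hx]
  have hker : ∀ Q ∈ m₃ ^ 2, χ Q = 0 := by
    intro Q hQ
    rw [pow_two] at hQ
    refine Submodule.mul_induction_on hQ ?_ ?_
    · intro r hr s hs
      rw [map_mul]
      have h1 := hfst r hr
      have h2 := hfst s hs
      ext <;> simp [h1, h2]
    · intro x y hx hy
      rw [map_add, hx, hy, add_zero]
  have hχP := hker _ h
  have hsnd := congrArg TrivSqZeroExt.snd hχP
  simp only [map_add, map_mul, map_pow, map_ofNat, hχr, hχz] at hsnd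
  have hc : MvPolynomial.constantCoeff G₃ = 0 := by
    have h2' : (2 : K) * MvPolynomial.constantCoeff G₃ = 0 := by
      have hf2 : TrivSqZeroExt.fst (2 : DualNumber K) = 2 := by
        have := TrivSqZeroExt.fst_natCast (R := K) (M := K) 2
        simpa using this
      simpa [pow_two, DualNumber.eps_mul_eps, TrivSqZeroExt.snd_mul,
        TrivSqZeroExt.algebraMap_eq_inl, TrivSqZeroExt.fst_inl, TrivSqZeroExt.snd_inl, hf2] using hsnd
    rcases mul_eq_zero.mp h2' with h' | h'
    · exact absurd h' h2
    · exact h'
  -- Step 3: G₃ ∈ m₂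
  have hG₃ : G₃ ∈ m₂ := by
    rw [hm₂, ← Set.image_univ, MvPolynomial.mem_ideal_span_X_image]
    intro mon hmon
    by_contra hne
    push Not at hne
    have : mon = 0 := by
      ext i
      exact hne i (Set.mem_univ i)
    rw [this, MvPolynomial.mem_support_iff] at hmon
    exact hmon hc
  -- Step 4
  refine Ideal.sub_mem _ ?_ (Ideal.mul_mem_left _ _ hG₄)
  exact Ideal.pow_mem_pow hG₃ 2

end Groth.Agent.S17409
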