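import Groth.Statements.S17444
import Mathlib.RingTheory.Nilpotent.Basic
import Mathlib.Algebra.Ring.GeomSum
-- import your own Groth.Agent.* helpers here

set_option autoImplicit false
universe u v
open SSRed

namespace Groth.Agent.S17444

/-- Let K be a field of characteristic zero, V a K-vector space and g a K-linear endomorphism of V such
that g - 1 is nilpotent (a unipotent automorphism). Then for every integer n > 0 the endomorphisms
gⁿ - 1 and g - 1 have the same kernel: a vector fixed by gⁿ is fixed by g. (The published statement
assumes V finite-dimensional; this row allows any V.) -/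
theorem result (K : Type u) (V : Type v) [Field K] [CharZero K]
    [AddCommGroup V] [Module K V] (g : Module.End K V) (hg : IsNilpotent (g - 1)) (n : ℕ) (hn : 0 < n) :
    LinearMap.ker (g ^ n - 1) = LinearMap.ker (g - 1) := by
  set s : Module.End K V := ∑ i ∈ Finset.range n, g ^ i with hs
  set T : Module.End K V := ∑ i ∈ Finset.range n, ∑ j ∈ Finset.range i, g ^ j with hT
  have hgT : Commute g T := by
    rw [hT]
    exact Commute.sum_right _ _ _ (fun i _ => Commute.sum_right _ _ _
      (fun j _ => Commute.pow_right (Commute.refl g) j))
  have hNT : Commute (g - 1) T := hgT.sub_left (Commute.one_left T)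
  have hsT : s - (n : Module.End K V) = (g - 1) * T := by
    rw [hs, hT, Finset.mul_sum]
    have h1 : (n : Module.End K V) = ∑ i ∈ Finset.range n, (1 : Module.End K V) := by simp
    rw [h1, ← Finset.sum_sub_distrib]
    refine Finset.sum_congr rfl (fun i _ => ?_)
    rw [mul_geom_sum]
  have hnil : IsNilpotent (s - (n : Module.End K V)) := by
    rw [hsT]
    exact hNT.isNilpotent_mul_right hg
  have hunit_n : IsUnit (n : Module.End K V) := by
    have h1 : IsUnit (n : K) := (Nat.cast_ne_zero.mpr hn.ne').isUnit
    have h2 := h1.map (algebraMap K (Module.End K V))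
    simpa using h2
  have hsu : IsUnit s := by
    have h3 := hnil.isUnit_add_left_of_commute hunit_n (Nat.cast_commute _ _).symm
    simpa using h3
  have hgn : g ^ n - 1 = s * (g - 1) := by rw [hs, geom_sum_mul]
  rw [hgn, Module.End.mul_eq_comp, LinearMap.ker_comp_of_ker_eq_bot]
  exact LinearMap.ker_eq_bot_of_injective ((Module.End.isUnit_iff s).mp hsu).injective

end Groth.Agent.S17444
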