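import Groth.Statements.S1758
import Mathlib.RingTheory.Flat.EquationalCriterion
-- import your own Groth.Agent.* helpers here

set_option autoImplicit false
universe u
open LocCoh

namespace Groth.Agent.S1758

/-- Let A → B be a flat ring map. If a family f_1, …, f_r of elements of A is independent (every linear
relation has coefficients in the ideal the family generates), then so is the family of their images
in B. -/
theorem result (A B : Type u) [CommRing A] [CommRing B] [Algebra A B] [Module.Flat A B] (r : ℕ) (f : Fin r → A) (hf : Dual2.Independent f) : Dual2.Independent (fun i => algebraMap A B (f i)) := by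
  intro a ha i
  have h0 : ∑ j, f j • a j = 0 := by
    simpa [Algebra.smul_def, mul_comm] using ha
  obtain ⟨k, c, y, hy, hc⟩ := Module.Flat.isTrivialRelation_of_sum_smul_eq_zero h0
  have hcI : ∀ i j, c i j ∈ Ideal.span (Set.range f) := by
    intro i j
    exact hf (fun i => c i j) (by simpa [mul_comm] using hc j) i
  have hmap : Ideal.map (algebraMap A B) (Ideal.span (Set.range f)) =
      Ideal.span (Set.range fun i => algebraMap A B (f i)) := by
    rw [Ideal.map_span, ← Set.range_comp]
    rfl
  rw [hy i, ← hmap]
  refine Ideal.sum_mem _ fun j _ => ?_
  rw [Algebra.smul_def]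
  exact Ideal.mul_mem_right _ _ (Ideal.mem_map_of_mem _ (hcI i j))

end Groth.Agent.S1758
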