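import Groth.Statements.S17678
import Mathlib
-- import your own Groth.Agent.* helpers here

set_option autoImplicit false
universe u v
open DiagMon

namespace Groth.Agent.S17678

/-- Let R be a commutative ring and N an abelian group. Then the ring map R[N] → R[N × N] of monoid
algebras induced by the diagonal n ↦ (n, n), which is the comorphism of the multiplication morphism
of the diagonalizable group scheme Spec R[N] over Spec R, is flat. (The published statement asserts
flatness for every cancellative commutative monoid N, on the ground that N acts freely on N × N
through the diagonal; but for the submonoid N of the natural numbers generated by 2 and 3, the pairs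
(x, x − 1) with x ≥ 3 form one orbit class that is not a free orbit, and the corresponding direct
summand of k[N × N] is the ideal t³k[t] viewed as a module over k[t², t³], which is not flat. The
statement is therefore given for groups, where N × N is a free N-set with basis the pairs (0, b).) -/
theorem result (R : Type u) [CommRing R] (N : Type v)
    [AddCommGroup N] :
    (AddMonoidAlgebra.mapDomainRingHom R ((AddMonoidHom.id N).prod (AddMonoidHom.id N))).Flat := by
  classical
  let τ : (N × N) ≃+ (N × N) :=
    { toFun := fun p => (p.1 + p.2, p.2)
      invFun := fun p => (p.1 - p.2, p.2)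
      left_inv := fun p => by simp
      right_inv := fun p => by simp
      map_add' := fun p q => by
        ext
        · simp only [Prod.fst_add, Prod.snd_add]
          abel
        · simp only [Prod.snd_add] }
  let e1 : AddMonoidAlgebra R (N × N) ≃ₐ[R] AddMonoidAlgebra R (N × N) :=
    AddMonoidAlgebra.domCongr R R τ
  let c : AddMonoidAlgebra R (N × N) ≃ₐ[R] AddMonoidAlgebra (AddMonoidAlgebra R N) N :=
    AddMonoidAlgebra.curryAlgEquiv R
  let ι : AddMonoidAlgebra R N →+* AddMonoidAlgebra (AddMonoidAlgebra R N) N :=
    algebraMap _ _
  have hι : ι.Flat := by
    rw [RingHom.flat_algebraMap_iff]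
    infer_instance
  have heq : AddMonoidAlgebra.mapDomainRingHom R ((AddMonoidHom.id N).prod (AddMonoidHom.id N)) =
      ((e1 : AddMonoidAlgebra R (N × N) →+* AddMonoidAlgebra R (N × N))).comp
        (((c.symm : AddMonoidAlgebra (AddMonoidAlgebra R N) N →+* AddMonoidAlgebra R (N × N))).comp ι) := by
    apply AddMonoidAlgebra.ringHom_ext
    · intro r
      simp [e1, c, ι, τ]
    · intro n
      simp [e1, c, ι, τ]
  rw [heq]
  exact RingHom.Flat.comp (RingHom.Flat.comp hι (RingHom.Flat.of_bijective c.symm.bijective))
    (RingHom.Flat.of_bijective e1.bijective)

end Groth.Agent.S17678
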