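import Groth.Statements.S17679
import Mathlib
-- import your own Groth.Agent.* helpers here

set_option autoImplicit false
open DiagMon

namespace Groth.Agent.S17679

/-- For n ≥ 1 the minimal number of generators of ℤ^n as an additive monoid is n + 1: some n + 1
elements generate ℤ^n as a monoid, and every finite set generating ℤ^n as a monoid has at least n +
1 elements. (For n = 0 the empty set generates the zero monoid, so the count n + 1 is stated for n ≥
1 only.) -/
theorem result (n : ℕ) (hn : 1 ≤ n) :
    (∃ s : Finset (Fin n → ℤ), s.card = n + 1 ∧ AddSubmonoid.closure (s : Set (Fin n → ℤ)) = ⊤) ∧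
    ∀ s : Finset (Fin n → ℤ), AddSubmonoid.closure (s : Set (Fin n → ℤ)) = ⊤ → n + 1 ≤ s.card := by
  classical
  constructor
  · let e : Fin n → (Fin n → ℤ) := fun i => Pi.single i 1
    let w : Fin n → ℤ := fun _ => -1
    have he_inj : Function.Injective e := by
      intro i j hij
      by_contra h
      have := congrFun hij i
      simp [e, h] at this
    have hw : w ∉ Finset.univ.image e := by
      simp only [Finset.mem_image, Finset.mem_univ, true_and, not_exists]
      intro i hi
      have := congrFun hi i
      simp [e, w] at this
    refine ⟨insert w (Finset.univ.image e), ?_, ?_⟩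
    · rw [Finset.card_insert_of_notMem hw, Finset.card_image_of_injective _ he_inj,
        Finset.card_univ, Fintype.card_fin]
    · rw [eq_top_iff]
      intro v _
      set M : ℤ := ∑ i, |v i| with hM
      have hM0 : 0 ≤ M := Finset.sum_nonneg (fun j _ => abs_nonneg (v j))
      have hMi : ∀ i, 0 ≤ v i + M := by
        intro i
        have h1 : |v i| ≤ M :=
          Finset.single_le_sum (f := fun i => |v i|) (fun j _ => abs_nonneg (v j))
            (Finset.mem_univ i)
        have h2 : -v i ≤ |v i| := neg_le_abs (v i)
        linarith
      have hv : v = ∑ i, (v i + M).toNat • e i + M.toNat • w := by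
        funext j
        simp only [Pi.add_apply, Finset.sum_apply, Pi.smul_apply, e, w, Pi.single_apply]
        simp only [smul_ite, smul_zero, Finset.sum_ite_eq, Finset.mem_univ, if_true,
          nsmul_eq_mul, mul_one]
        rw [Int.toNat_of_nonneg (hMi j), Int.toNat_of_nonneg hM0]
        ring
      rw [hv]
      refine AddSubmonoid.add_mem _
        (AddSubmonoid.sum_mem _ (fun i _ => AddSubmonoid.nsmul_mem _ ?_ _))
        (AddSubmonoid.nsmul_mem _ ?_ _)
      · exact AddSubmonoid.subset_closure (by simp)
      · exact AddSubmonoid.subset_closure (by simp)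
  · intro s hs
    let f : (s → ℤ) →ₗ[ℤ] (Fin n → ℤ) :=
      Fintype.linearCombination ℤ (fun x : s => (x : Fin n → ℤ))
    have hsurj : Function.Surjective f := by
      intro v
      have hv : v ∈ AddSubmonoid.closure (s : Set (Fin n → ℤ)) := hs ▸ AddSubmonoid.mem_top v
      obtain ⟨a, ha⟩ := AddSubmonoid.mem_closure_finset'.mp hv
      refine ⟨fun i => (a i : ℤ), ?_⟩
      rw [Fintype.linearCombination_apply, ha]
      simp
    have hrank : n ≤ s.card := by
      have := LinearMap.finrank_le_finrank_of_surjective hsurj
      simpa using this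
    by_contra hlt
    push Not at hlt
    have hcard' : Fintype.card s = n := by simp; omega
    let eqv : s ≃ Fin n := Fintype.equivFinOfCardEq hcard'
    let L : (Fin n → ℤ) ≃ₗ[ℤ] (s → ℤ) := LinearEquiv.funCongrLeft ℤ ℤ eqv
    have hinj : Function.Injective f := by
      have h1 : Function.Injective (L.toLinearMap ∘ₗ f) :=
        OrzechProperty.injective_of_surjective_endomorphism _ (L.surjective.comp hsurj)
      intro x y hxy
      exact h1 (by simp [hxy])
    have hw : (-(∑ i : s, (i : Fin n → ℤ))) ∈ AddSubmonoid.closure (s : Set (Fin n → ℤ)) :=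
      hs ▸ AddSubmonoid.mem_top _
    obtain ⟨a, ha⟩ := AddSubmonoid.mem_closure_finset'.mp hw
    have h0 : f (fun i => (a i : ℤ) + 1) = f 0 := by
      rw [map_zero, Fintype.linearCombination_apply]
      simp only [add_smul, one_smul, Finset.sum_add_distrib]
      rw [show ∑ i : s, ((a i : ℤ) • (i : Fin n → ℤ)) = ∑ i : s, a i • (i : Fin n → ℤ) from by
        simp, ← ha]
      simp
    have := congrFun (hinj h0) (eqv.symm ⟨0, hn⟩)
    simp only [Pi.zero_apply] at this
    omega

end Groth.Agent.S17679
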