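import Groth.Statements.S17682
import Mathlib
-- import your own Groth.Agent.* helpers here

set_option autoImplicit false
universe u v w u'
open DiagMon

namespace Groth.Agent.S17682

/-- Let R be a commutative ring, A a commutative R-algebra graded by a commutative monoid M, N a
submonoid of M and R' a commutative R-algebra. For every R-algebra homomorphism F : A → R' vanishing
on the homogeneous elements of degree outside N there is a unique R-algebra homomorphism f : A →
R'[M] which is graded (a homogeneous element of degree m goes to a multiple of X^m), vanishes on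
homogeneous elements of degree outside N, and composes with the augmentation X^m ↦ 1 to F. In the
dictionary where an M-grading of A is an action of the diagonalizable monoid scheme Spec R[M] on
Spec A and graded maps A → R'[M] supported on N are equivariant maps from the monoid scheme of N
over R', this says that the attractor of Spec A for the magnet N is represented by the closed
subscheme of Spec A defined by the homogeneous elements of degree outside N. -/
theorem result (R : Type u) [CommRing R]
    (A : Type v) [CommRing A] [Algebra R A] (M : Type w) [AddCommMonoid M] [DecidableEq M]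
    (𝒜 : M → Submodule R A) [GradedAlgebra 𝒜] (N : AddSubmonoid M) (R' : Type u') [CommRing R']
    [Algebra R R'] (F : A →ₐ[R] R') (hF : ∀ m, m ∉ N → ∀ a ∈ 𝒜 m, F a = 0) :
    ∃! f : A →ₐ[R] AddMonoidAlgebra R' M,
      (∀ m, ∀ a ∈ 𝒜 m, f a =
          AddMonoidAlgebra.single m (Bialgebra.counitAlgHom R' (AddMonoidAlgebra R' M) (f a))) ∧
      (∀ m, m ∉ N → ∀ a ∈ 𝒜 m, f a = 0) ∧
      ∀ a, Bialgebra.counitAlgHom R' (AddMonoidAlgebra R' M) (f a) = F a := by
  classical
  let φ : ∀ i, 𝒜 i →ₗ[R] AddMonoidAlgebra R' M := fun i =>
    { toFun := fun a => AddMonoidAlgebra.single i (F a)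
      map_add' := fun a b => by
        simp only [Submodule.coe_add, map_add, AddMonoidAlgebra.single_add]
      map_smul' := fun r a => by
        simp only [SetLike.val_smul, map_smul, RingHom.id_apply]
        rw [Algebra.smul_def, Algebra.smul_def, AddMonoidAlgebra.coe_algebraMap,
          Function.comp_apply, AddMonoidAlgebra.single_mul_single, zero_add] }
  have hone : φ 0 (GradedMonoid.GOne.one (A := fun i => 𝒜 i)) = 1 := by
    change AddMonoidAlgebra.single 0 (F 1) = 1
    rw [map_one, AddMonoidAlgebra.one_def]
  have hmul : ∀ {i j} (ai : 𝒜 i) (aj : 𝒜 j),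
      φ _ (GradedMonoid.GMul.mul (A := fun i => 𝒜 i) ai aj) = φ _ ai * φ _ aj := by
    intro i j ai aj
    change AddMonoidAlgebra.single (i + j) (F ((ai : A) * (aj : A))) =
      AddMonoidAlgebra.single i (F ai) * AddMonoidAlgebra.single j (F aj)
    rw [map_mul, AddMonoidAlgebra.single_mul_single]
  let Φ : (DirectSum M fun i => 𝒜 i) →ₐ[R] AddMonoidAlgebra R' M :=
    DirectSum.toAlgebra R (fun i => 𝒜 i) φ hone hmul
  let f : A →ₐ[R] AddMonoidAlgebra R' M := Φ.comp (DirectSum.decomposeAlgEquiv 𝒜).toAlgHom
  have hf : ∀ m, ∀ a ∈ 𝒜 m, f a = AddMonoidAlgebra.single m (F a) := by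
    intro m a ha
    change Φ (DirectSum.decompose 𝒜 a) = _
    rw [DirectSum.decompose_of_mem 𝒜 ha]
    exact DirectSum.toSemiring_of (fun i => (φ i).toAddMonoidHom) hone @hmul m ⟨a, ha⟩
  have hcounit : ∀ (m : M) (c : R'),
      Bialgebra.counitAlgHom R' (AddMonoidAlgebra R' M) (AddMonoidAlgebra.single m c) = c := by
    intro m c
    simp
  refine ⟨f, ⟨?_, ?_, ?_⟩, ?_⟩
  · intro m a ha
    rw [hf m a ha, hcounit]
  · intro m hm a ha
    rw [hf m a ha, hF m hm a ha, AddMonoidAlgebra.single_zero]
  · intro a
    induction a using DirectSum.Decomposition.inductionOn 𝒜 with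
    | zero => simp
    | homogeneous x => rw [hf _ x x.2, hcounit]
    | add x y hx hy => rw [map_add, map_add, hx, hy, map_add]
  · rintro g ⟨hg1, _, hg3⟩
    apply AlgHom.ext
    intro a
    induction a using DirectSum.Decomposition.inductionOn 𝒜 with
    | zero => simp
    | homogeneous x => rw [hf _ x x.2, hg1 _ x x.2, hg3]
    | add x y hx hy => rw [map_add, map_add, hx, hy]

end Groth.Agent.S17682
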