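import Groth.Statements.S17683
import Mathlib
-- import your own Groth.Agent.* helpers here

set_option autoImplicit false
universe u
open DiagMon

namespace Groth.Agent.S17683

/-- Let N be a commutative monoid and F a submonoid of N. The additive projection ℤ[N] → ℤ[F] of monoid
algebras keeping the monomials with exponent in F and killing the others is multiplicative, i.e. F
is a face of N, if and only if for all x, y in N the sum x + y lies in F exactly when both x and y
do. -/
theorem result {N : Type u} [AddCommMonoid N] (F : AddSubmonoid N) :
    (∀ a b : AddMonoidAlgebra ℤ N,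
        AddMonoidAlgebra.comapDomain ((↑) : F → N) Subtype.val_injective (a * b) =
          AddMonoidAlgebra.comapDomain ((↑) : F → N) Subtype.val_injective a *
            AddMonoidAlgebra.comapDomain ((↑) : F → N) Subtype.val_injective b) ↔
      ∀ x y : N, x + y ∈ F ↔ (x ∈ F ∧ y ∈ F) := by
  classical
  have hsingle : ∀ (n : N) (r : ℤ),
      AddMonoidAlgebra.comapDomain ((↑) : F → N) Subtype.val_injective
        (AddMonoidAlgebra.single n r) =
        if h : n ∈ F then AddMonoidAlgebra.single (⟨n, h⟩ : F) r else 0 := by
    intro n r
    by_cases h : n ∈ F
    · rw [dif_pos h]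
      exact AddMonoidAlgebra.comapDomain_single_map _ _ (⟨n, h⟩ : F) r
    · rw [dif_neg h]
      ext m
      simp only [AddMonoidAlgebra.coeff_comapDomain, Finsupp.comapDomain_apply,
        AddMonoidAlgebra.coeff_single, AddMonoidAlgebra.coeff_zero, Finsupp.coe_zero,
        Pi.zero_apply]
      rw [Finsupp.single_apply, if_neg]
      intro hm
      exact h (hm ▸ m.2)
  constructor
  · intro hmul x y
    constructor
    · intro hxy
      by_contra hne
      have := hmul (AddMonoidAlgebra.single x 1) (AddMonoidAlgebra.single y 1)
      rw [AddMonoidAlgebra.single_mul_single, hsingle, hsingle, hsingle, dif_pos hxy] at this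
      by_cases hx : x ∈ F
      · have hy : y ∉ F := fun hy => hne ⟨hx, hy⟩
        rw [dif_neg hy, mul_zero] at this
        exact one_ne_zero (AddMonoidAlgebra.single_eq_zero.mp this)
      · rw [dif_neg hx, zero_mul] at this
        exact one_ne_zero (AddMonoidAlgebra.single_eq_zero.mp this)
    · rintro ⟨hx, hy⟩
      exact F.add_mem hx hy
  · intro hface a b
    induction a using AddMonoidAlgebra.induction_linear with
    | zero => simp [AddMonoidAlgebra.comapDomain_zero]
    | add x y hx hy =>
      rw [add_mul, AddMonoidAlgebra.comapDomain_add, AddMonoidAlgebra.comapDomain_add, hx, hy,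
        add_mul]
    | single m r =>
      induction b using AddMonoidAlgebra.induction_linear with
      | zero => simp [AddMonoidAlgebra.comapDomain_zero]
      | add x y hx hy =>
        rw [mul_add, AddMonoidAlgebra.comapDomain_add, AddMonoidAlgebra.comapDomain_add, hx, hy,
          mul_add]
      | single n s =>
        rw [AddMonoidAlgebra.single_mul_single, hsingle, hsingle, hsingle]
        by_cases hmn : m + n ∈ F
        · obtain ⟨hm, hn⟩ := (hface m n).mp hmn
          rw [dif_pos hmn, dif_pos hm, dif_pos hn, AddMonoidAlgebra.single_mul_single]
          rfl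
        · rw [dif_neg hmn]
          by_cases hm : m ∈ F
          · have hn : n ∉ F := fun hn => hmn ((hface m n).mpr ⟨hm, hn⟩)
            rw [dif_neg hn, mul_zero]
          · rw [dif_neg hm, zero_mul]

end Groth.Agent.S17683
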