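import Groth.Statements.S17684

-- import your own Groth.Agent.* helpers here

set_option autoImplicit false
universe u
open DiagMon

namespace Groth.Agent.S17684

/-- Let N ⊆ L ⊆ L' be submonoids of a commutative monoid M and suppose L is a face of L', that is, for
x, y in L' the sum x + y lies in L exactly when x and y do. Then the set difference of L' by the
difference of L and N is the underlying set of a submonoid N' of M containing N, and N is a face of
N'. (The published statement also identifies the monoid scheme of N' over any base with a push-out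
of schemes; that clause is not stated here.) -/
theorem result (M : Type u) [AddCommMonoid M] (N L L' : AddSubmonoid M)
    (hNL : N ≤ L) (hLL' : L ≤ L') (hface : ∀ x ∈ L', ∀ y ∈ L', x + y ∈ L ↔ (x ∈ L ∧ y ∈ L)) :
    ∃ N' : AddSubmonoid M, (N' : Set M) = (L' : Set M) \ ((L : Set M) \ (N : Set M)) ∧ N ≤ N' ∧
      ∀ x ∈ N', ∀ y ∈ N', x + y ∈ N ↔ (x ∈ N ∧ y ∈ N) := by
  refine ⟨{ carrier := (L' : Set M) \ ((L : Set M) \ (N : Set M))
            add_mem' := ?_
            zero_mem' := ?_ }, rfl, ?_, ?_⟩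
  · rintro x y ⟨hxL', hxn⟩ ⟨hyL', hyn⟩
    refine ⟨L'.add_mem hxL' hyL', ?_⟩
    rintro ⟨hxyL, hxyN⟩
    obtain ⟨hxL, hyL⟩ := (hface x hxL' y hyL').mp hxyL
    have hxN : x ∈ N := by
      by_contra h
      exact hxn ⟨hxL, h⟩
    have hyN : y ∈ N := by
      by_contra h
      exact hyn ⟨hyL, h⟩
    exact hxyN (N.add_mem hxN hyN)
  · exact ⟨L'.zero_mem, fun h => h.2 N.zero_mem⟩
  · intro n hn
    exact ⟨hLL' (hNL hn), fun h => h.2 hn⟩
  · rintro x ⟨hxL', hxn⟩ y ⟨hyL', hyn⟩
    constructor
    · intro hxy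
      obtain ⟨hxL, hyL⟩ := (hface x hxL' y hyL').mp (hNL hxy)
      refine ⟨?_, ?_⟩
      · by_contra h
        exact hxn ⟨hxL, h⟩
      · by_contra h
        exact hyn ⟨hyL, h⟩
    · rintro ⟨hx, hy⟩
      exact N.add_mem hx hy

end Groth.Agent.S17684
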