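import Groth.Statements.S17686

-- import your own Groth.Agent.* helpers here

set_option autoImplicit false
universe u v w
open DiagMon

namespace Groth.Agent.S17686

/-- Let R be a commutative ring, A a commutative R-algebra graded by a commutative monoid M, and J the
map sending a submonoid N of M to the ideal of A generated by the homogeneous elements of degree not
in N (the ideal of the attractor of Spec A for the magnet N). Say N is a pure magnet when J N = J L
implies N ⊆ L. Then for every submonoid N₀ the intersection E of all submonoids N with J N = J N₀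
satisfies J E = J N₀ and is a pure magnet, and E = N₀ when N₀ is itself pure: pure magnets
correspond bijectively to attractors. -/
theorem result (R : Type u) [CommRing R] (A : Type v) [CommRing A]
    [Algebra R A] (M : Type w) [AddCommMonoid M] [DecidableEq M] (𝒜 : M → Submodule R A) [GradedAlgebra 𝒜]
    (J : AddSubmonoid M → Ideal A) (hJ : ∀ N, J N = Ideal.span {a : A | ∃ m : M, m ∉ N ∧ a ∈ 𝒜 m}) (N₀ : AddSubmonoid M) :
    J (sInf {N | J N = J N₀}) = J N₀ ∧
      (∀ L, J (sInf {N | J N = J N₀}) = J L → sInf {N | J N = J N₀} ≤ L) ∧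
      ((∀ L, J N₀ = J L → N₀ ≤ L) → sInf {N | J N = J N₀} = N₀) := by
  set S : Set (AddSubmonoid M) := {N | J N = J N₀} with hS
  have hN₀S : N₀ ∈ S := rfl
  have hE : J (sInf S) = J N₀ := by
    apply le_antisymm
    · rw [hJ (sInf S)]
      refine Ideal.span_le.mpr ?_
      rintro a ⟨m, hm, ha⟩
      rw [AddSubmonoid.mem_sInf] at hm
      push Not at hm
      obtain ⟨N, hNS, hmN⟩ := hm
      have hNS' : J N = J N₀ := hNS
      rw [← hNS', hJ N]
      exact Ideal.subset_span ⟨m, hmN, ha⟩
    · rw [hJ (sInf S), hJ N₀]
      refine Ideal.span_mono ?_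
      rintro a ⟨m, hm, ha⟩
      refine ⟨m, fun h => hm ?_, ha⟩
      exact (sInf_le hN₀S : sInf S ≤ N₀) h
  refine ⟨hE, ?_, ?_⟩
  · intro L hL
    apply sInf_le
    show J L = J N₀
    rw [← hL, hE]
  · intro hpure
    apply le_antisymm (sInf_le hN₀S)
    refine le_sInf ?_
    intro N hN
    exact hpure N hN.symm

end Groth.Agent.S17686
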