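import Groth.Statements.S17687
import Mathlib
-- import your own Groth.Agent.* helpers here

set_option autoImplicit false
universe u v w
open DiagMon

namespace Groth.Agent.S17687

/-- Let R be a commutative ring and A a commutative R-algebra of finite type graded by a commutative
monoid M. Then the set of ideals J_N, N running over all submonoids of M, where J_N is generated by
the homogeneous elements of degree not in N (the ideal of the attractor of Spec A for the magnet N),
is finite: Spec A has finitely many attractors and hence finitely many pure magnets. (The source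
assumes Spec A of finite presentation over the base; its proof uses only a finite set of homogeneous
algebra generators, so finite type is assumed here.) -/
theorem result (R : Type u) [CommRing R] (A : Type v) [CommRing A]
    [Algebra R A] [Algebra.FiniteType R A] (M : Type w) [AddCommMonoid M] [DecidableEq M]
    (𝒜 : M → Submodule R A) [GradedAlgebra 𝒜] :
    (Set.range fun N : AddSubmonoid M => Ideal.span {a : A | ∃ m : M, m ∉ N ∧ a ∈ 𝒜 m}).Finite := by
  classical
  obtain ⟨s, hs⟩ := (Algebra.FiniteType.out : (⊤ : Subalgebra R A).FG)
  let ι := Σ x : s, (DirectSum.decompose 𝒜 (x : A)).support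
  let h : ι → A := fun i => (DirectSum.decompose 𝒜 (i.1 : A) i.2.1 : A)
  let deg : ι → M := fun i => i.2.1
  have hh : ∀ i, h i ∈ 𝒜 (deg i) := fun i => (DirectSum.decompose 𝒜 (i.1 : A) i.2.1).2
  have hgen : Algebra.adjoin R (Set.range h) = ⊤ := by
    rw [eq_top_iff, ← hs, Algebra.adjoin_le_iff]
    intro x hx
    rw [← DirectSum.sum_support_decompose 𝒜 x]
    exact Subalgebra.sum_mem _ (fun i hi => Algebra.subset_adjoin ⟨⟨⟨x, hx⟩, ⟨i, hi⟩⟩, rfl⟩)
  let K : Set ι → Ideal A := fun T => Ideal.span (h '' T)
  have key : ∀ N : AddSubmonoid M,
      Ideal.span {a : A | ∃ m : M, m ∉ N ∧ a ∈ 𝒜 m} = K {i | deg i ∉ N} := by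
    intro N
    apply le_antisymm
    · rw [Ideal.span_le]
      rintro a ⟨m, hm, ha⟩
      have claim : ∀ x ∈ Algebra.adjoin R (Set.range h), ∀ m, m ∉ N →
          (DirectSum.decompose 𝒜 x m : A) ∈ K {i | deg i ∉ N} := by
        intro x hx
        induction hx using Algebra.adjoin_induction with
        | mem x hx =>
          obtain ⟨i, rfl⟩ := hx
          intro m hm
          by_cases hmi : m = deg i
          · subst hmi
            rw [DirectSum.decompose_of_mem_same 𝒜 (hh i)]
            exact Ideal.subset_span ⟨i, hm, rfl⟩
          · rw [DirectSum.decompose_of_mem_ne 𝒜 (hh i) (Ne.symm hmi)]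
            exact Submodule.zero_mem _
        | algebraMap r =>
          intro m hm
          have hm0 : m ≠ 0 := fun h0 => hm (h0 ▸ N.zero_mem)
          rw [DirectSum.decompose_of_mem_ne 𝒜 (SetLike.algebraMap_mem_graded 𝒜 r) (Ne.symm hm0)]
          exact Submodule.zero_mem _
        | add x y _ _ hx hy =>
          intro m hm
          rw [DirectSum.decompose_add, DirectSum.add_apply, Submodule.coe_add]
          exact Submodule.add_mem _ (hx m hm) (hy m hm)
        | mul x y _ _ hx hy =>
          intro m hm
          rw [← DirectSum.sum_support_decompose 𝒜 x, ← DirectSum.sum_support_decompose 𝒜 y,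
            Finset.sum_mul_sum, DirectSum.decompose_sum, DFinsupp.finsetSum_apply,
            Submodule.coe_sum]
          refine Submodule.sum_mem _ (fun i _ => ?_)
          rw [DirectSum.decompose_sum, DFinsupp.finsetSum_apply, Submodule.coe_sum]
          refine Submodule.sum_mem _ (fun j _ => ?_)
          have hij : ((DirectSum.decompose 𝒜 x i : A) * (DirectSum.decompose 𝒜 y j : A)) ∈
              𝒜 (i + j) :=
            SetLike.GradedMul.mul_mem (DirectSum.decompose 𝒜 x i).2 (DirectSum.decompose 𝒜 y j).2
          by_cases hm' : i + j = m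
          · rw [← hm', DirectSum.decompose_of_mem_same 𝒜 hij]
            by_cases hi : i ∈ N
            · have hj : j ∉ N := fun hj => hm (hm' ▸ N.add_mem hi hj)
              exact Ideal.mul_mem_left _ _ (hy j hj)
            · exact Ideal.mul_mem_right _ _ (hx i hi)
          · rw [DirectSum.decompose_of_mem_ne 𝒜 hij hm']
            exact Submodule.zero_mem _
      have := claim a (hgen ▸ Algebra.mem_top) m hm
      rwa [DirectSum.decompose_of_mem_same 𝒜 ha] at this
    · rw [Ideal.span_le]
      rintro _ ⟨i, hi, rfl⟩
      exact Ideal.subset_span ⟨deg i, hi, hh i⟩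
  apply (Set.finite_range K).subset
  rintro _ ⟨N, rfl⟩
  exact ⟨_, (key N).symm⟩

end Groth.Agent.S17687
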