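import Groth.Statements.S17715
import Groth.Agent.Lib_helper26_PS
-- import your own Groth.Agent.* helpers here

set_option autoImplicit false
open MoretBailly

namespace Groth.Agent.S17715

/-- Write B(x) = x/(1 - e^(-x)) for the exponential generating series of the Bernoulli numbers (B'_1 =
1/2). For all natural numbers d and p the coefficient of x^3 in B(-dx)^(-1) B(-dpx) B(x)^4
e^((dp-d-3)x), i.e. the case n = 3, s = 1 of the Todd-class integrand, equals
-d(d+2)(p-1)(dp-d-2)/24 = -(d^3+2d^2) p^2/24 + (d^3+3d^2+2d) p/12 - (d^3+4d^2+4d)/24. (The published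
closed form has the same p^2 and p coefficients but constant term -(d^3+2d^2+2d)/24; direct
expansion gives the value stated here, which vanishes at p = 1.) -/
theorem result (d p : ℕ) :
    PowerSeries.coeff 3 ((PowerSeries.rescale (-(d : ℚ)) (bernoulli'PowerSeries ℚ))⁻¹ * PowerSeries.rescale (-((d : ℚ) * p)) (bernoulli'PowerSeries ℚ) * bernoulli'PowerSeries ℚ ^ (4) * PowerSeries.rescale ((d : ℚ) * p - d - 3) (PowerSeries.exp ℚ)) =
      -((d : ℚ) * (d + 2) * (p - 1) * (d * p - d - 2)) / 24 := by
  have hB := Groth.Agent.helper26.C4.bernoulli'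
  have hF := (hB.rescale (-(d : ℚ))).inv
  have hG := hB.rescale (-((d : ℚ) * p))
  have hB2 := hB.mul hB
  have hB4 := hB2.mul hB2
  have h4 : bernoulli'PowerSeries ℚ * bernoulli'PowerSeries ℚ *
      (bernoulli'PowerSeries ℚ * bernoulli'PowerSeries ℚ) = bernoulli'PowerSeries ℚ ^ 4 := by ring
  rw [h4] at hB4
  have hE := Groth.Agent.helper26.C4.exp.rescale ((d : ℚ) * p - d - 3)
  have hP := ((hF.mul hG).mul hB4).mul hE
  refine hP.2.2.2.trans ?_
  ring

end Groth.Agent.S17715
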