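import Groth.Statements.S17717
import Groth.Agent.Lib_helper26_PS
-- import your own Groth.Agent.* helpers here

set_option autoImplicit false
open MoretBailly

namespace Groth.Agent.S17717

/-- Write B(x) = x/(1 - e^(-x)) for the exponential generating series of the Bernoulli numbers (B'_1 =
1/2). For all natural numbers d, p and every integer s the coefficient of x in B(-dx)^(-1) B(-dpx)
B(x)^2 e^((dp-d-2+s)x), i.e. the case n = 1 of the Todd-class integrand, equals d(p-1)/2 + s - 1. -/
theorem result (d p : ℕ) (s : ℤ) :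
    PowerSeries.coeff 1 ((PowerSeries.rescale (-(d : ℚ)) (bernoulli'PowerSeries ℚ))⁻¹ * PowerSeries.rescale (-((d : ℚ) * p)) (bernoulli'PowerSeries ℚ) * bernoulli'PowerSeries ℚ ^ (2) * PowerSeries.rescale ((d : ℚ) * p - d - 2 + s) (PowerSeries.exp ℚ)) =
      (d : ℚ) * (p - 1) / 2 + s - 1 := by
  have hB := Groth.Agent.helper26.C4.bernoulli'
  have hF := (hB.rescale (-(d : ℚ))).inv
  have hG := hB.rescale (-((d : ℚ) * p))
  have hB2 := hB.mul hB
  rw [← pow_two] at hB2
  have hE := Groth.Agent.helper26.C4.exp.rescale ((d : ℚ) * p - d - 2 + s)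
  have hP := ((hF.mul hG).mul hB2).mul hE
  refine hP.2.1.trans ?_
  ring

end Groth.Agent.S17717
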