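import Groth.Statements.S17779
import Mathlib.Algebra.Group.ForwardDiff
-- import your own Groth.Agent.* helpers here

set_option autoImplicit false
open DRR

namespace Groth.Agent.S17779

/-- The alternating sum `∑_{j ≤ n} (-1)^(n-j) C(n,j) j^k` over the integers. -/
def A (n k : ℕ) : ℤ :=
  ∑ j ∈ Finset.range (n + 1), (-1 : ℤ) ^ (n - j) * (n.choose j : ℤ) * (j : ℤ) ^ k

theorem A_eq_fwdDiff (n k : ℕ) : A n k = (fwdDiff (1 : ℤ))^[n] (fun r : ℤ => r ^ k) 0 := by
  rw [fwdDiff_iter_eq_sum_shift]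
  unfold A
  refine Finset.sum_congr rfl (fun j _ => ?_)
  simp

theorem A_lt (n k : ℕ) (h : k < n) : A n k = 0 := by
  rw [A_eq_fwdDiff, fwdDiff_iter_pow_eq_zero_of_lt h]
  rfl

theorem A_self (n : ℕ) : A n n = n.factorial := by
  rw [A_eq_fwdDiff, fwdDiff_iter_eq_factorial]
  simp

theorem A_rec (n k : ℕ) :
    A (n + 1) (k + 1) = ((n : ℤ) + 1) * ∑ m ∈ Finset.range (k + 1), (k.choose m : ℤ) * A n m := by
  unfold A
  rw [Finset.sum_range_succ']
  simp only [Nat.cast_zero, zero_pow (Nat.succ_ne_zero k), mul_zero, add_zero]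
  have hterm : ∀ i ∈ Finset.range (n + 1),
      (-1 : ℤ) ^ (n + 1 - (i + 1)) * ((n + 1).choose (i + 1) : ℤ) * (((i + 1 : ℕ) : ℤ)) ^ (k + 1)
        = ∑ m ∈ Finset.range (k + 1), ((n : ℤ) + 1) * ((k.choose m : ℤ) *
            ((-1 : ℤ) ^ (n - i) * (n.choose i : ℤ) * (i : ℤ) ^ m)) := by
    intro i _
    have hc : ((n + 1).choose (i + 1) : ℤ) * ((i : ℤ) + 1) = ((n : ℤ) + 1) * (n.choose i : ℤ) := by
      have h0 := Nat.add_one_mul_choose_eq n i
      have h1 : (((n + 1) * n.choose i : ℕ) : ℤ) = (((n + 1).choose (i + 1) * (i + 1) : ℕ) : ℤ) := by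
        rw [h0]
      push_cast at h1
      linarith
    rw [show n + 1 - (i + 1) = n - i by omega]
    push_cast
    calc (-1 : ℤ) ^ (n - i) * ((n + 1).choose (i + 1) : ℤ) * ((i : ℤ) + 1) ^ (k + 1)
        = (-1 : ℤ) ^ (n - i) * (((n + 1).choose (i + 1) : ℤ) * ((i : ℤ) + 1)) *
            ((i : ℤ) + 1) ^ k := by ring
      _ = (-1 : ℤ) ^ (n - i) * (((n : ℤ) + 1) * (n.choose i : ℤ)) * ((i : ℤ) + 1) ^ k := by
            rw [hc]
      _ = (-1 : ℤ) ^ (n - i) * (((n : ℤ) + 1) * (n.choose i : ℤ)) *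
            ∑ m ∈ Finset.range (k + 1), (i : ℤ) ^ m * (k.choose m : ℤ) := by
            rw [add_pow]
            simp
      _ = ∑ m ∈ Finset.range (k + 1), ((n : ℤ) + 1) * ((k.choose m : ℤ) *
            ((-1 : ℤ) ^ (n - i) * (n.choose i : ℤ) * (i : ℤ) ^ m)) := by
            rw [Finset.mul_sum]
            exact Finset.sum_congr rfl (fun m _ => by ring)
  rw [Finset.sum_congr rfl hterm, Finset.sum_comm, Finset.mul_sum]
  refine Finset.sum_congr rfl (fun m _ => ?_)
  rw [← Finset.mul_sum, ← Finset.mul_sum]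

theorem A_succ_self (n : ℕ) : A n (n + 1) = (((n + 1).choose 2 * n.factorial : ℕ) : ℤ) := by
  induction n with
  | zero => simp [A]
  | succ n ih =>
    rw [A_rec, Finset.sum_range_succ, Finset.sum_range_succ]
    rw [Finset.sum_eq_zero (fun m hm => by rw [A_lt n m (Finset.mem_range.mp hm)]; ring)]
    rw [A_self, ih, Nat.choose_succ_self_right, Nat.choose_self,
      Nat.choose_succ_succ (n + 1) 1, Nat.choose_one_right, Nat.factorial_succ]
    push_cast
    ring

/-- For natural numbers n and k with k ≤ n + 1, the alternating sum over j = 0, …, n of (−1)^(n−j) C(n,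
j) j^k (with the convention 0^0 = 1) equals n! · n(n+1)/2 when k = n + 1, equals n! when k = n, and
vanishes when k < n. (The published statement takes n ≥ 1 and divides through by n!; the case n = 0
holds as well and is included.) -/
theorem result (n k : ℕ) (hk : k ≤ n + 1) :
    (∑ j ∈ Finset.range (n + 1), (-1 : ℤ) ^ (n - j) * (n.choose j : ℤ) * (j : ℤ) ^ k) =
      (if k = n + 1 then (((n + 1).choose 2 * n.factorial : ℕ) : ℤ)
        else if k = n then (n.factorial : ℤ) else 0) := by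
  change A n k = _
  split_ifs with h1 h2
  · subst h1
    rw [A_succ_self]
  · subst h2
    rw [A_self]
  · exact A_lt n k (by omega)

end Groth.Agent.S17779
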