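import Groth.Statements.S17780
import Groth.Agent.S17779
-- import your own Groth.Agent.* helpers here

set_option autoImplicit false
universe u
open DRR

namespace Groth.Agent.S17780

/-- For x, y in a commutative ring and a natural number n, (n+1)! · x · y^n equals the sum over j = 0,
…, n of (−1)^(n−j) C(n, j) (x + j y)^(n+1), minus (n · (n+1)!/2) · y^(n+1). (The published identity
is stated in ℚ[x, y] with an overall factor 1/(n+1) and the coefficients C(n, j)(−1)^(n−j)/n!; it is
given here multiplied through by (n+1)!, which makes it an identity with integer coefficients valid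
in every commutative ring; n · (n+1)!/2 is an integer.) -/
theorem result (A : Type u) [CommRing A] (x y : A) (n : ℕ) :
    ((n + 1).factorial : A) * x * y ^ n =
      (∑ j ∈ Finset.range (n + 1), (-1 : A) ^ (n - j) * (n.choose j : A) * (x + (j : A) * y) ^ (n + 1))
        - ((n * (n + 1).factorial / 2 : ℕ) : A) * y ^ (n + 1) := by
  have hcast : ∀ m : ℕ, ((Groth.Agent.S17779.A n m : ℤ) : A) =
      ∑ j ∈ Finset.range (n + 1), (-1 : A) ^ (n - j) * (n.choose j : A) * (j : A) ^ m := by
    intro m
    simp [Groth.Agent.S17779.A]
  have hsum : ∑ j ∈ Finset.range (n + 1),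
        (-1 : A) ^ (n - j) * (n.choose j : A) * (x + (j : A) * y) ^ (n + 1)
      = ∑ m ∈ Finset.range (n + 1 + 1), ((Groth.Agent.S17779.A n m : ℤ) : A) *
          ((n + 1).choose m : A) * y ^ m * x ^ (n + 1 - m) := by
    simp_rw [hcast, Finset.sum_mul]
    rw [Finset.sum_comm]
    refine Finset.sum_congr rfl (fun j _ => ?_)
    rw [add_comm x, add_pow, Finset.mul_sum]
    refine Finset.sum_congr rfl (fun m _ => ?_)
    ring
  have hdiv : n * (n + 1).factorial / 2 = (n + 1).choose 2 * n.factorial := by
    have h2 : (n + 1).choose 2 * 2 = (n + 1) * n := by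
      have h3 := Nat.add_one_mul_choose_eq n 1
      rw [Nat.choose_one_right] at h3
      linarith
    rw [Nat.factorial_succ]
    apply Nat.div_eq_of_eq_mul_left (by norm_num)
    calc n * ((n + 1) * n.factorial) = ((n + 1) * n) * n.factorial := by ring
      _ = ((n + 1).choose 2 * 2) * n.factorial := by rw [h2]
      _ = (n + 1).choose 2 * n.factorial * 2 := by ring
  rw [hsum, Finset.sum_range_succ, Finset.sum_range_succ,
    Finset.sum_eq_zero (fun m hm => by
      rw [Groth.Agent.S17779.A_lt n m (Finset.mem_range.mp hm)]
      simp),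
    Groth.Agent.S17779.A_self, Groth.Agent.S17779.A_succ_self, hdiv,
    Nat.choose_succ_self_right, Nat.choose_self, Nat.sub_self, Nat.add_sub_cancel_left,
    Nat.factorial_succ]
  push_cast
  ring

end Groth.Agent.S17780
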