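import Groth.Statements.S17872
import Mathlib.LinearAlgebra.Dual.Lemmas
import Mathlib.Algebra.Polynomial.Roots
-- import your own Groth.Agent.* helpers here

set_option autoImplicit false
universe u v
open GRRSing

namespace Groth.Agent.S17872

/-- Let H be a vector space over a field K and let b_0, …, b_l be elements of H. If the sum of the t ^ i
• b_i vanishes for infinitely many scalars t of K, then all the b_i are zero. -/
theorem result {K : Type u} {H : Type v} [Field K] [AddCommGroup H] [Module K H]
    (l : ℕ) (b : Fin (l + 1) → H)
    (h : Set.Infinite {t : K | ∑ i : Fin (l + 1), t ^ (i : ℕ) • b i = 0}) :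
    b = 0 := by
  funext j
  rw [Pi.zero_apply]
  rw [← Module.forall_dual_apply_eq_zero_iff K]
  intro φ
  set P : Polynomial K := ∑ i : Fin (l + 1), Polynomial.monomial (i : ℕ) (φ (b i)) with hP
  have hroots : {t : K | ∑ i : Fin (l + 1), t ^ (i : ℕ) • b i = 0} ⊆ {x | P.IsRoot x} := by
    intro t ht
    simp only [Set.mem_setOf_eq] at ht ⊢
    rw [Polynomial.IsRoot, hP, Polynomial.eval_finset_sum]
    have := congrArg φ ht
    rw [map_sum, map_zero] at this
    simp only [Polynomial.eval_monomial, map_smul, smul_eq_mul] at this ⊢
    rw [← this]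
    refine Finset.sum_congr rfl ?_
    intro i _
    ring
  have hP0 : P = 0 := Polynomial.eq_zero_of_infinite_isRoot P (h.mono hroots)
  have hc := congrArg (fun p => Polynomial.coeff p (j : ℕ)) hP0
  simp only [hP, Polynomial.finset_sum_coeff, Polynomial.coeff_monomial, Polynomial.coeff_zero] at hc
  rw [Finset.sum_eq_single j] at hc
  · simpa using hc
  · intro i _ hij
    rw [if_neg]
    intro h'
    exact hij (Fin.ext h')
  · simp

end Groth.Agent.S17872
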