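import Groth.Statements.S17875
import Mathlib
-- import your own Groth.Agent.* helpers here

set_option autoImplicit false
universe u
open Polynomial
open GRRSing

namespace Groth.Agent.S17875

/-- Let R be a commutative ℚ-algebra, r an element of R and δ a natural number with (r - 1) ^ (δ + 1) =
0. Write s(k, j) for the signed Stirling numbers of the first kind, the coefficients of x (x - 1) ⋯
(x - k + 1) = Σ_j s(k, j) x ^ j. Then (i) for every natural number n, r ^ n = Σ_{k ≤ δ} [n (n - 1) ⋯
(n - k + 1) / k!] (r - 1) ^ k; and (ii) in the polynomial ring R[x], Σ_{k ≤ δ} [x (x - 1) ⋯ (x - k +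
1) / k!] (r - 1) ^ k = Σ_{j ≤ δ} [Σ_{k ≤ δ} Σ_{u ≤ k} (-1) ^ (k - u) s(k, j) / (u! (k - u)!) · r ^
u] x ^ j. -/
theorem result {R : Type u} [CommRing R] [Algebra ℚ R]
    (r : R) (δ : ℕ) (hr : (r - 1) ^ (δ + 1) = 0) :
    (∀ n : ℕ, r ^ n = ∑ k ∈ Finset.range (δ + 1), ((descPochhammer ℚ k).eval (n : ℚ) / (k.factorial : ℚ)) • (r - 1) ^ k) ∧
    (∑ k ∈ Finset.range (δ + 1), ((k.factorial : ℚ)⁻¹ • (descPochhammer R k * Polynomial.C ((r - 1) ^ k))) =
      ∑ j ∈ Finset.range (δ + 1), Polynomial.C (∑ k ∈ Finset.range (δ + 1), ∑ u ∈ Finset.range (k + 1),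
        (((-1 : ℚ) ^ (k - u) * (((descPochhammer ℤ k).coeff j : ℤ) : ℚ)) / ((u.factorial * (k - u).factorial : ℕ) : ℚ)) • r ^ u) * Polynomial.X ^ j) := by
  have ht : ∀ k, δ < k → (r - 1) ^ k = 0 := fun k hk => by
    obtain ⟨j, rfl⟩ := Nat.exists_eq_add_of_lt hk
    rw [show δ + j + 1 = (δ + 1) + j by omega, pow_add, hr, zero_mul]
  constructor
  · intro n
    have hcoef : ∀ k, ((descPochhammer ℚ k).eval (n : ℚ) / (k.factorial : ℚ)) =
        (n.choose k : ℚ) := by
      intro k
      rw [descPochhammer_eval_eq_descFactorial, Nat.descFactorial_eq_factorial_mul_choose]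
      have : (k.factorial : ℚ) ≠ 0 := by positivity
      push_cast
      field_simp
    simp_rw [hcoef]
    have hbin : r ^ n = ∑ k ∈ Finset.range (n + 1), (n.choose k : ℚ) • (r - 1) ^ k := by
      conv_lhs => rw [show r = (r - 1) + 1 by ring]
      rw [add_pow]
      refine Finset.sum_congr rfl (fun k _ => ?_)
      rw [one_pow, mul_one, Nat.cast_smul_eq_nsmul ℚ, nsmul_eq_mul, mul_comm]
    rw [hbin]
    have h1 : ∑ k ∈ Finset.range (n + 1), (n.choose k : ℚ) • (r - 1) ^ k =
        ∑ k ∈ Finset.range (max n δ + 1), (n.choose k : ℚ) • (r - 1) ^ k := by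
      apply Finset.sum_subset
      · intro k hk
        simp only [Finset.mem_range] at hk ⊢
        omega
      · intro k hk hk'
        simp only [Finset.mem_range] at hk hk'
        rw [Nat.choose_eq_zero_of_lt (by omega), Nat.cast_zero, zero_smul]
    have h2 : ∑ k ∈ Finset.range (δ + 1), (n.choose k : ℚ) • (r - 1) ^ k =
        ∑ k ∈ Finset.range (max n δ + 1), (n.choose k : ℚ) • (r - 1) ^ k := by
      apply Finset.sum_subset
      · intro k hk
        simp only [Finset.mem_range] at hk ⊢
        omega
      · intro k hk hk'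
        simp only [Finset.mem_range] at hk hk'
        rw [ht k (by omega), smul_zero]
    rw [h1, h2]
  · ext j
    simp only [Polynomial.finsetSum_coeff, Polynomial.coeff_smul, Polynomial.coeff_mul_C,
      Polynomial.coeff_C_mul_X_pow]
    rw [Finset.sum_ite_eq]
    split_ifs with hj
    · refine Finset.sum_congr rfl (fun k hk => ?_)
      have hcoeff : (descPochhammer R k).coeff j = (((descPochhammer ℤ k).coeff j : ℤ) : R) := by
        rw [← descPochhammer_map (Int.castRingHom R), Polynomial.coeff_map]
        rfl
      rw [hcoeff, sub_pow, Finset.mul_sum, Finset.smul_sum]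
      refine Finset.sum_congr rfl (fun u hu => ?_)
      have hu' : u ≤ k := Nat.lt_succ_iff.mp (Finset.mem_range.mp hu)
      rw [one_pow, mul_one]
      have e1 : ((((descPochhammer ℤ k).coeff j : ℤ) : R) *
          ((-1) ^ (u + k) * r ^ u * (k.choose u : R))) =
          ((((descPochhammer ℤ k).coeff j : ℤ) : ℚ) * (-1) ^ (u + k) * (k.choose u : ℚ)) •
            r ^ u := by
        rw [Algebra.smul_def]
        simp only [map_mul, map_pow, map_neg, map_one, map_intCast, map_natCast]
        ring
      rw [e1, smul_smul]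
      congr 1
      rw [Nat.cast_choose ℚ hu']
      have hpow : ((-1 : ℚ) ^ (u + k)) = (-1) ^ (k - u) := by
        have : u + k = (k - u) + 2 * u := by omega
        rw [this, pow_add, pow_mul]
        simp
      rw [hpow]
      have hk0 : (k.factorial : ℚ) ≠ 0 := by positivity
      have hu0 : (u.factorial : ℚ) ≠ 0 := by positivity
      have hku0 : ((k - u).factorial : ℚ) ≠ 0 := by positivity
      push_cast
      field_simp
    · apply Finset.sum_eq_zero
      intro k hk
      have hk' : k < j := by
        simp only [Finset.mem_range] at hk hj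
        omega
      have : (descPochhammer R k).coeff j = 0 := by
        apply Polynomial.coeff_eq_zero_of_natDegree_lt
        calc (descPochhammer R k).natDegree ≤ (descPochhammer ℤ k).natDegree := by
              rw [← descPochhammer_map (Int.castRingHom R)]
              exact Polynomial.natDegree_map_le
          _ = k := descPochhammer_natDegree ℤ k
          _ < j := hk'
      rw [this, zero_mul, smul_zero]

end Groth.Agent.S17875
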