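import Groth.Statements.S18049
import Mathlib.Tactic.Linarith
import Mathlib.Tactic.Ring
-- import your own Groth.Agent.* helpers here

set_option autoImplicit false
open STCI

namespace Groth.Agent.S18049

/-- For natural numbers 0 < k < N such that k does not divide N, ⌊N/k⌋ ≤ (N - k)/gcd(k, N); stated here
in the equivalent cleared form ⌊N/k⌋ · gcd(k, N) ≤ N - k. -/
theorem result (k N : ℕ) (hk : 0 < k) (hkN : k < N) (hndvd : ¬ k ∣ N) :
    N / k * Nat.gcd k N ≤ N - k := by
  have hr : 0 < N % k := Nat.pos_of_ne_zero (fun h => hndvd (Nat.dvd_of_mod_eq_zero h))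
  have hg1 : Nat.gcd k N ∣ N % k := (Nat.dvd_mod_iff (Nat.gcd_dvd_left k N)).2 (Nat.gcd_dvd_right k N)
  have hg2 : Nat.gcd k N ≤ N % k := Nat.le_of_dvd hr hg1
  have hg3 : Nat.gcd k N ≤ k := Nat.le_of_dvd hk (Nat.gcd_dvd_left k N)
  have hq : 1 ≤ N / k := (Nat.one_le_div_iff hk).2 hkN.le
  have hdiv := Nat.div_add_mod N k
  obtain ⟨q, hq'⟩ : ∃ q, N / k = q + 1 := ⟨N / k - 1, by omega⟩
  rw [hq'] at hdiv ⊢
  generalize Nat.gcd k N = g at *
  generalize N % k = r at *
  have h1 : (q + 1) * g ≤ q * k + r := by nlinarith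
  have h2 : k * (q + 1) = q * k + k := by ring
  omega

end Groth.Agent.S18049
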