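import Groth.Statements.S18050
import Mathlib.Tactic.Linarith
import Mathlib.Tactic.Ring
import Mathlib.Algebra.BigOperators.Intervals
-- import your own Groth.Agent.* helpers here

set_option autoImplicit false
open STCI

namespace Groth.Agent.S18050

section H27
open W4c5stcicurvesp3

theorem h27_irem_shift (a b : ℕ) (h : a % b ≠ 0) : ∀ n, irem b (a % b) n = irem a b (n + 1) := by
  intro n
  induction n using Nat.strong_induction_on with
  | _ n ih =>
    match n, ih with
    | 0, _ => simp [irem]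
    | 1, _ => simp [irem, h]
    | (m + 2), ih =>
      rw [irem.eq_3, show m + 2 + 1 = (m + 1) + 2 from rfl, irem.eq_3]
      rw [ih (m+1) (by omega), ih m (by omega)]

theorem h27_idiv_shift (a b : ℕ) (h : a % b ≠ 0) : ∀ n, 0 < n → idiv b (a % b) n = idiv a b (n + 1) := by
  intro n hn
  match n, hn with
  | 1, _ => simp [idiv, irem, h]
  | (m + 2), _ =>
    rw [idiv.eq_3, show m + 2 + 1 = (m + 1) + 2 from rfl, idiv.eq_3]
    rw [h27_irem_shift a b h (m+1), h27_irem_shift a b h m]

theorem h27_sum_Icc_peel (f : ℕ → ℕ) : ∀ t, ∑ i ∈ Finset.Icc 1 (t + 1), f i = f 1 + ∑ i ∈ Finset.Icc 1 t, f (i + 1) := by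
  intro t
  induction t with
  | zero => simp
  | succ t ih =>
    rw [Finset.sum_Icc_succ_top (by omega), ih, Finset.sum_Icc_succ_top (by omega)]
    ring

theorem h27_aux (q b g : ℕ) (hq : 1 ≤ q) (hg : g ≤ b) : q * g + b ≤ q * b + g := by
  obtain ⟨q', rfl⟩ : ∃ q', q = q' + 1 := ⟨q - 1, by omega⟩
  obtain ⟨b', rfl⟩ : ∃ b', b = b' + g := ⟨b - g, by omega⟩
  nlinarith

theorem h27_main (t : ℕ) : ∀ (a b : ℕ), 0 < b → b ≤ a → 0 < t → irem a b t = 0 →
    (∀ i, 0 < i → i < t → irem a b i ≠ 0) →
    (∑ i ∈ Finset.Icc 1 t, idiv a b i) * Nat.gcd b a ≤ a := by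
  induction t with
  | zero => intro a b _ _ ht; omega
  | succ t ih =>
    intro a b hb hba _ hz hmin
    rcases Nat.eq_zero_or_pos t with h0 | htpos
    · subst h0
      have hmod : a % b = 0 := by simpa [irem] using hz
      have hdvd : b ∣ a := Nat.dvd_of_mod_eq_zero hmod
      have hg : Nat.gcd b a = b := Nat.gcd_eq_left hdvd
      simp only [Finset.Icc_self, Finset.sum_singleton, idiv, hg]
      exact Nat.div_mul_le_self a b
    · have h1 : a % b ≠ 0 := by
        have := hmin 1 (by omega) (by omega); simpa [irem] using this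
      have hb' : 0 < a % b := Nat.pos_of_ne_zero h1
      have hlt : a % b < b := Nat.mod_lt a hb
      have IH := ih b (a % b) hb' hlt.le htpos (by rw [h27_irem_shift a b h1]; exact hz) (by
        intro i hi hit; rw [h27_irem_shift a b h1]; exact hmin (i+1) (by omega) (by omega))
      have hsum : ∑ i ∈ Finset.Icc 1 (t + 1), idiv a b i
          = a / b + ∑ i ∈ Finset.Icc 1 t, idiv b (a % b) i := by
        rw [h27_sum_Icc_peel]
        congr 1
        apply Finset.sum_congr rfl
        intro i hi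
        rw [h27_idiv_shift a b h1 i (by simp at hi; omega)]
      have hgcd : Nat.gcd (a % b) b = Nat.gcd b a := (Nat.gcd_rec b a).symm
      rw [hgcd] at IH
      rw [hsum]
      set S := ∑ i ∈ Finset.Icc 1 t, idiv b (a % b) i
      set g := Nat.gcd b a with hg
      have hga : g ∣ a % b := (Nat.dvd_mod_iff (Nat.gcd_dvd_left b a)).2 (Nat.gcd_dvd_right b a)
      have hg1 : g ≤ a % b := Nat.le_of_dvd hb' hga
      have hg2 : g ≤ b := Nat.le_of_dvd hb (Nat.gcd_dvd_left b a)
      have hq : 1 ≤ a / b := Nat.div_pos hba hb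
      have hdm := Nat.div_add_mod a b
      set q := a / b
      have h5 : q * g + b ≤ q * b + g := h27_aux q b g hq hg2
      nlinarith

end H27

open W4c5stcicurvesp3 in
/-- Let k ≤ N be positive integers, let t be the least positive integer with rem_t(N, k) = 0, where
rem_0 = k, rem_1 = N mod k and rem_i is the remainder of rem_{i-2} by rem_{i-1} (iterated Euclidean
remainders), and let d_i be the corresponding iterated quotients (d_1 = ⌊N/k⌋, d_i =
⌊rem_{i-2}/rem_{i-1}⌋). Then d_1 + ⋯ + d_t ≤ N/gcd(k, N); stated in the cleared form (d_1 + ⋯ + d_t)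
· gcd(k, N) ≤ N. -/
theorem result (k N t : ℕ) (hk : 0 < k) (hkN : k ≤ N) (ht : 0 < t)
    (hzero : irem N k t = 0) (hmin : ∀ i, 0 < i → i < t → irem N k i ≠ 0) :
    (∑ i ∈ Finset.Icc 1 t, idiv N k i) * Nat.gcd k N ≤ N := by
  exact h27_main t N k hk hkN ht hzero hmin

end Groth.Agent.S18050
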