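import Groth.Statements.S18051
import Mathlib.Tactic.Linarith
import Mathlib.Tactic.Ring
import Mathlib.Tactic.FieldSimp
import Mathlib.Tactic.Positivity
import Mathlib.Tactic.Push
import Mathlib.Data.Rat.Cast.Order
-- import your own Groth.Agent.* helpers here

set_option autoImplicit false
open STCI

namespace Groth.Agent.S18051

theorem h27_core (a b x y : ℚ) (ha : 2 ≤ a) (hb : 1 ≤ b) (hx : 0 < x) (hy : 0 ≤ y) :
    ((b * x + y) - x) / a + (x - y) / (a + b) + y / (a + b + 1)
      ≤ (b * x + y) ^ 2 / (a * (b * x + y) + x) := by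
  have hapos : 0 < a := by linarith
  have hbpos : 0 < b := by linarith
  have hab : 0 < a + b := by linarith
  have hab1 : 0 < a + b + 1 := by linarith
  have hN : 0 < a * (b * x + y) + x := by positivity
  have T1 : 0 ≤ (a + b + 1) * x * (a - 1) * (b - 1) * (b * x + y) := by
    have : 0 ≤ a - 1 := by linarith
    have : 0 ≤ b - 1 := by linarith
    positivity
  have T2 : 0 ≤ y * (a ^ 2 * (b * x + y) - (b + 1) * x) := by
    apply mul_nonneg hy
    have ha2 : 4 ≤ a ^ 2 := by nlinarith
    have h1 : 0 ≤ (a ^ 2 - 4) * (b * x + y) := mul_nonneg (by linarith) (by positivity)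
    have h2 : 0 ≤ (3 * b - 1) * x := mul_nonneg (by linarith) hx.le
    nlinarith
  have key : (b * x + y) ^ 2 / (a * (b * x + y) + x) -
      (((b * x + y) - x) / a + (x - y) / (a + b) + y / (a + b + 1)) =
      ((a + b + 1) * x * (a - 1) * (b - 1) * (b * x + y) + y * (a ^ 2 * (b * x + y) - (b + 1) * x))
        / (a * (a + b) * (a + b + 1) * (a * (b * x + y) + x)) := by
    field_simp
    ring
  have : 0 ≤ ((a + b + 1) * x * (a - 1) * (b - 1) * (b * x + y) + y * (a ^ 2 * (b * x + y) - (b + 1) * x))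
        / (a * (a + b) * (a + b + 1) * (a * (b * x + y) + x)) := by
    apply div_nonneg (by linarith) (by positivity)
  linarith


open W4c5stcicurvesp3 in
/-- Let k ≤ N/2 be positive integers and let r_i = rem_i(N, k), d_i = div_i(N, k) be the iterated
Euclidean remainders and quotients of (N, k) (r_0 = k, r_1 = N mod k, r_2 = r_0 mod r_1, d_1 =
⌊N/k⌋, d_2 = ⌊r_0/r_1⌋). If the least positive t with r_t = 0 satisfies t ≥ 3, i.e. r_1 ≠ 0 and r_2
≠ 0, then (r_0 - r_1)/d_1 + (r_1 - r_2)/(d_1 + d_2) + r_2/(d_1 + d_2 + 1) ≤ k²/N (in ℚ). -/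
theorem result (k N : ℕ) (hk : 0 < k) (hkN : 2 * k ≤ N)
    (h1 : irem N k 1 ≠ 0) (h2 : irem N k 2 ≠ 0) :
    ((irem N k 0 : ℚ) - irem N k 1) / (idiv N k 1)
      + ((irem N k 1 : ℚ) - irem N k 2) / ((idiv N k 1 : ℚ) + idiv N k 2)
      + (irem N k 2 : ℚ) / ((idiv N k 1 : ℚ) + idiv N k 2 + 1)
      ≤ (k : ℚ) ^ 2 / N := by
  have e0 : irem N k 0 = k := rfl
  have e1 : irem N k 1 = N % k := rfl
  have e2 : irem N k 2 = k % (N % k) := by
    show (if irem N k 1 = 0 then 0 else irem N k 0 % irem N k 1) = _; rw [if_neg h1]; rfl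
  have f1 : idiv N k 1 = N / k := rfl
  have f2 : idiv N k 2 = k / (N % k) := by
    show (if irem N k 1 = 0 then 0 else irem N k 0 / irem N k 1) = _; rw [if_neg h1]; rfl
  rw [e0, e1, e2, f1, f2]
  have hx : 0 < N % k := Nat.pos_of_ne_zero (by rw [← e1]; exact h1)
  have hxk : N % k < k := Nat.mod_lt N hk
  have hN := Nat.div_add_mod N k
  have hk' := Nat.div_add_mod k (N % k)
  have ha : 2 ≤ N / k := (Nat.le_div_iff_mul_le hk).2 (by linarith)
  have hb : 1 ≤ k / (N % k) := Nat.div_pos hxk.le hx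
  set x := N % k
  set y := k % x
  set a := N / k
  set b := k / x
  have hNq : (N : ℚ) = a * (b * x + y) + x := by
    have : (N : ℚ) = k * a + x := by exact_mod_cast hN.symm
    have h2 : (k : ℚ) = x * b + y := by exact_mod_cast hk'.symm
    rw [this, h2]; ring
  have hkq : (k : ℚ) = b * x + y := by
    have h2 : (k : ℚ) = x * b + y := by exact_mod_cast hk'.symm
    rw [h2]; ring
  rw [hNq, hkq]
  exact h27_core a b x y (by exact_mod_cast ha) (by exact_mod_cast hb) (by exact_mod_cast hx)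
    (by positivity)

end Groth.Agent.S18051
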