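import Groth.Statements.S18052
import Mathlib.Tactic.Linarith
import Mathlib.Tactic.Ring
import Mathlib.Tactic.FieldSimp
import Mathlib.Tactic.Positivity
import Mathlib.Tactic.Push
import Mathlib.Data.Rat.Cast.Order
import Mathlib.Algebra.BigOperators.Intervals
import Mathlib.Algebra.Order.BigOperators.Group.Finset
import Mathlib.Algebra.BigOperators.Field
-- import your own Groth.Agent.* helpers here

set_option autoImplicit false
open STCI

namespace Groth.Agent.S18052

section H27
open W4c5stcicurvesp3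

theorem h27_core (a b x y : ℚ) (ha : 2 ≤ a) (hb : 1 ≤ b) (hx : 0 < x) (hy : 0 ≤ y) :
    ((b * x + y) - x) / a + (x - y) / (a + b) + y / (a + b + 1)
      ≤ (b * x + y) ^ 2 / (a * (b * x + y) + x) := by
  have hapos : 0 < a := by linarith
  have hbpos : 0 < b := by linarith
  have hab : 0 < a + b := by linarith
  have hab1 : 0 < a + b + 1 := by linarith
  have hN : 0 < a * (b * x + y) + x := by positivity
  have T1 : 0 ≤ (a + b + 1) * x * (a - 1) * (b - 1) * (b * x + y) := by
    have : 0 ≤ a - 1 := by linarith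
    have : 0 ≤ b - 1 := by linarith
    positivity
  have T2 : 0 ≤ y * (a ^ 2 * (b * x + y) - (b + 1) * x) := by
    apply mul_nonneg hy
    have ha2 : 4 ≤ a ^ 2 := by nlinarith
    have h1 : 0 ≤ (a ^ 2 - 4) * (b * x + y) := mul_nonneg (by linarith) (by positivity)
    have h2 : 0 ≤ (3 * b - 1) * x := mul_nonneg (by linarith) hx.le
    nlinarith
  have key : (b * x + y) ^ 2 / (a * (b * x + y) + x) -
      (((b * x + y) - x) / a + (x - y) / (a + b) + y / (a + b + 1)) =
      ((a + b + 1) * x * (a - 1) * (b - 1) * (b * x + y) + y * (a ^ 2 * (b * x + y) - (b + 1) * x))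
        / (a * (a + b) * (a + b + 1) * (a * (b * x + y) + x)) := by
    field_simp
    ring
  have : 0 ≤ ((a + b + 1) * x * (a - 1) * (b - 1) * (b * x + y) + y * (a ^ 2 * (b * x + y) - (b + 1) * x))
        / (a * (a + b) * (a + b + 1) * (a * (b * x + y) + x)) := by
    apply div_nonneg (by linarith) (by positivity)
  linarith

theorem h27_irem_succ_le (N k n : ℕ) : irem N k (n + 2) ≤ irem N k (n + 1) := by
  show (if irem N k (n + 1) = 0 then 0 else irem N k n % irem N k (n + 1)) ≤ _
  split_ifs with h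
  · exact Nat.zero_le _
  · exact (Nat.mod_lt _ (Nat.pos_of_ne_zero h)).le

end H27

open W4c5stcicurvesp3 in
/-- Let k ≤ N/2 be positive integers, let r_i = rem_i(N, k) and d_i = div_i(N, k) be the iterated
Euclidean remainders and quotients of (N, k) (r_0 = k, r_1 = N mod k, …; d_1 = ⌊N/k⌋, d_i =
⌊r_{i-2}/r_{i-1}⌋), and let t be the least positive integer with r_t = 0. Then the sum over i = 0,
…, t - 1 of (r_i - r_{i+1})/(d_1 + ⋯ + d_{i+1}) is at most k²/N (in ℚ). -/
theorem result (k N t : ℕ) (hk : 0 < k) (hkN : 2 * k ≤ N) (ht : 0 < t)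
    (hzero : irem N k t = 0) (hmin : ∀ i, 0 < i → i < t → irem N k i ≠ 0) :
    ∑ i ∈ Finset.range t, ((irem N k i : ℚ) - irem N k (i + 1)) / (∑ j ∈ Finset.Icc 1 (i + 1), (idiv N k j : ℚ))
      ≤ (k : ℚ) ^ 2 / N := by
  have e0 : irem N k 0 = k := rfl
  have e1 : irem N k 1 = N % k := rfl
  have f1 : idiv N k 1 = N / k := rfl
  have ha : 2 ≤ N / k := (Nat.le_div_iff_mul_le hk).2 (by linarith)
  have hN := Nat.div_add_mod N k
  obtain ⟨m, rfl⟩ | ht1 : (∃ m, t = m + 2) ∨ t = 1 := by
    rcases t with _ | _ | m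
    · omega
    · right; rfl
    · left; exact ⟨m, rfl⟩
  · -- t = m + 2
    have h1 : irem N k 1 ≠ 0 := hmin 1 (by omega) (by omega)
    have e2 : irem N k 2 = k % (N % k) := by show (if irem N k 1 = 0 then 0 else irem N k 0 % irem N k 1) = _; rw [if_neg h1]; rfl
    have f2 : idiv N k 2 = k / (N % k) := by show (if irem N k 1 = 0 then 0 else irem N k 0 / irem N k 1) = _; rw [if_neg h1]; rfl
    have hx : 0 < N % k := Nat.pos_of_ne_zero (by rw [← e1]; exact h1)
    have hxk : N % k < k := Nat.mod_lt N hk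
    have hk' := Nat.div_add_mod k (N % k)
    have hb : 1 ≤ k / (N % k) := Nat.div_pos hxk.le hx
    rw [show m + 2 = 2 + m by ring, Finset.sum_range_add]
    simp only [Finset.sum_range_succ, Finset.sum_range_zero, zero_add]
    have hS1 : ∑ j ∈ Finset.Icc 1 (0 + 1), (idiv N k j : ℚ) = ((N / k : ℕ) : ℚ) := by
      simp [f1]
    have hS2 : ∑ j ∈ Finset.Icc 1 (1 + 1), (idiv N k j : ℚ) = ((N / k : ℕ) : ℚ) + ((k / (N % k) : ℕ) : ℚ) := by
      rw [Finset.sum_Icc_succ_top (by norm_num), Finset.Icc_self, Finset.sum_singleton, f1, f2]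
    have hDpos : (0:ℚ) < ((N / k : ℕ) : ℚ) + ((k / (N % k) : ℕ) : ℚ) + 1 := by positivity
    have htail : ∑ i ∈ Finset.range m, ((irem N k (2 + i) : ℚ) - irem N k (2 + i + 1)) /
        (∑ j ∈ Finset.Icc 1 (2 + i + 1), (idiv N k j : ℚ)) ≤
        (irem N k 2 : ℚ) / (((N / k : ℕ) : ℚ) + ((k / (N % k) : ℕ) : ℚ) + 1) := by
      rcases Nat.eq_zero_or_pos m with hm0 | hmpos
      · subst hm0
        have : irem N k 2 = 0 := hzero
        simp [this]
      · have h2 : irem N k 2 ≠ 0 := hmin 2 (by omega) (by omega)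
        have hy : 0 < k % (N % k) := Nat.pos_of_ne_zero (by rw [← e2]; exact h2)
        have hyx : k % (N % k) < N % k := Nat.mod_lt _ hx
        have f3 : idiv N k 3 = (N % k) / (k % (N % k)) := by
          show (if irem N k 2 = 0 then 0 else irem N k 1 / irem N k 2) = _; rw [if_neg h2, e2]; rfl
        have hd3 : 1 ≤ idiv N k 3 := by rw [f3]; exact Nat.div_pos hyx.le hy
        have hS3 : ∑ j ∈ Finset.Icc 1 3, (idiv N k j : ℚ) =
            ((N / k : ℕ) : ℚ) + ((k / (N % k) : ℕ) : ℚ) + (idiv N k 3 : ℚ) := by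
          rw [Finset.sum_Icc_succ_top (by norm_num), Finset.sum_Icc_succ_top (by norm_num),
            Finset.Icc_self, Finset.sum_singleton, f1, f2]
        calc _ ≤ ∑ i ∈ Finset.range m, ((irem N k (2 + i) : ℚ) - irem N k (2 + i + 1)) /
              (((N / k : ℕ) : ℚ) + ((k / (N % k) : ℕ) : ℚ) + 1) := by
              apply Finset.sum_le_sum
              intro i hi
              apply div_le_div_of_nonneg_left
              · have := h27_irem_succ_le N k (i + 1)
                rw [show i + 1 + 2 = 2 + i + 1 by ring, show i + 1 + 1 = 2 + i by ring] at this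
                rw [sub_nonneg]; exact_mod_cast this
              · exact hDpos
              · have hsub : ∑ j ∈ Finset.Icc 1 3, (idiv N k j : ℚ) ≤
                    ∑ j ∈ Finset.Icc 1 (2 + i + 1), (idiv N k j : ℚ) := by
                  apply Finset.sum_le_sum_of_subset_of_nonneg
                  · intro j hj; simp only [Finset.mem_Icc] at hj ⊢; omega
                  · intro j _ _; positivity
                rw [hS3] at hsub
                have : (1 : ℚ) ≤ (idiv N k 3 : ℚ) := by exact_mod_cast hd3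
                linarith
          _ = (∑ i ∈ Finset.range m, ((irem N k (2 + i) : ℚ) - irem N k (2 + i + 1))) /
              (((N / k : ℕ) : ℚ) + ((k / (N % k) : ℕ) : ℚ) + 1) := by rw [Finset.sum_div]
          _ = ((irem N k 2 : ℚ) - irem N k (2 + m)) /
              (((N / k : ℕ) : ℚ) + ((k / (N % k) : ℕ) : ℚ) + 1) := by
              congr 1
              have := Finset.sum_range_sub' (fun i => (irem N k (2 + i) : ℚ)) m
              simp only [← add_assoc, add_zero] at this
              exact this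
          _ = _ := by
              rw [show 2 + m = m + 2 by ring, hzero]; simp
    rw [hS1, hS2, e0, e1] at *
    rw [e2] at htail ⊢
    have hcore := h27_core ((N / k : ℕ) : ℚ) ((k / (N % k) : ℕ) : ℚ) ((N % k : ℕ) : ℚ)
      ((k % (N % k) : ℕ) : ℚ) (by exact_mod_cast ha) (by exact_mod_cast hb) (by exact_mod_cast hx)
      (by positivity)
    have hNq : (N : ℚ) = ((N / k : ℕ) : ℚ) * (((k / (N % k) : ℕ) : ℚ) * ((N % k : ℕ) : ℚ) + ((k % (N % k) : ℕ) : ℚ)) + ((N % k : ℕ) : ℚ) := by
      have h3 : (N : ℚ) = k * ((N / k : ℕ) : ℚ) + ((N % k : ℕ) : ℚ) := by exact_mod_cast hN.symm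
      have h2 : (k : ℚ) = ((N % k : ℕ) : ℚ) * ((k / (N % k) : ℕ) : ℚ) + ((k % (N % k) : ℕ) : ℚ) := by
        exact_mod_cast hk'.symm
      rw [h3, h2]; ring
    have hkq : (k : ℚ) = ((k / (N % k) : ℕ) : ℚ) * ((N % k : ℕ) : ℚ) + ((k % (N % k) : ℕ) : ℚ) := by
      have h2 : (k : ℚ) = ((N % k : ℕ) : ℚ) * ((k / (N % k) : ℕ) : ℚ) + ((k % (N % k) : ℕ) : ℚ) := by
        exact_mod_cast hk'.symm
      rw [h2]; ring
    rw [hNq, hkq]
    rw [← hkq] at hcore ⊢
    linarith
  · -- t = 1
    subst ht1
    have h1 : irem N k 1 = 0 := hzero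
    simp only [Finset.sum_range_one, zero_add, Finset.Icc_self, Finset.sum_singleton, h1, e0, f1,
      Nat.cast_zero, sub_zero]
    have hmod : N % k = 0 := h1
    have hNq : (N : ℚ) = k * ((N / k : ℕ) : ℚ) := by
      have := hN; rw [hmod, add_zero] at this; exact_mod_cast this.symm
    have hapos : (0 : ℚ) < ((N / k : ℕ) : ℚ) := by
      have : 0 < N / k := by omega
      exact_mod_cast this
    have hkpos : (0 : ℚ) < k := by exact_mod_cast hk
    rw [hNq, div_le_div_iff₀ hapos (by positivity)]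
    nlinarith

end Groth.Agent.S18052
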