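import Groth.Statements.S18053
import Mathlib.Tactic.Linarith
import Mathlib.Tactic.IntervalCases
import Mathlib.Tactic.Ring
import Mathlib.Tactic.Positivity
import Mathlib.Algebra.BigOperators.Field
import Mathlib.Algebra.Order.BigOperators.Group.Finset
import Mathlib.Topology.Algebra.InfiniteSum.Basic
-- import your own Groth.Agent.* helpers here

set_option autoImplicit false
open STCI

namespace Groth.Agent.S18053

theorem h27_split19 {M : Type*} [AddCommMonoid M] (f : ℕ → M) :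
    ∑ k ∈ Finset.range 19, f k = f 0 + f 1 + f 2 + ∑ k ∈ Finset.range 16, f (k + 3) := by
  simp only [Finset.sum_range_succ, Finset.sum_range_zero, zero_add]
  abel

theorem h27_w (x : ℝ) (hx : 0 ≤ x) : 20 ≤ (x + 3 + 1) * (x + 3 + 2) := by nlinarith

theorem h27_arith (n a b c T : ℕ) (c1 : 5 * a + 2 * n ≤ 45) (c2 : a + b + c + T + n ≤ 19)
    (c3 : 360 ≤ 15 * n + 3 * T + 5 * c + 10 * b + 30 * a) (c4 : b ≤ a) (c5 : c ≤ b)
    (hT2 : T ≤ 16 * c) :
    n = 0 ∧ a = 9 ∧ ((b = 8 ∧ c = 2 ∧ T = 0) ∨ (b = 9 ∧ c = 0 ∧ T = 0) ∨ (b = 9 ∧ c = 1 ∧ T = 0)) := by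
  have hn : n ≤ 2 := by linarith
  have ha : a ≤ 9 := by omega
  interval_cases n <;> interval_cases a <;> omega


/-- Let (p_k)_{k ≥ 1} be a sequence of nonnegative integers and n a nonnegative integer such that (i)
p_1 ≤ 9 - (2/5)n, (ii) p_1 ≥ p_2 ≥ p_3 ≥ ⋯, (iii) Σ_k p_k ≤ 19 - n, and (iv) n/4 + Σ_{k ≥ 1}
p_k/(k(k+1)) ≥ 6. Then n = 0 and (p_k) is one of (9, 8, 2), (9, 9), (9, 9, 1) (followed by zeros).
Here the sequence is indexed from 0 (so p 0 is p_1 and the weight of p k is 1/((k+1)(k+2))), (iii)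
is stated for every partial sum, and the series in (iv) is the real sum Σ' over all k. -/
theorem result (p : ℕ → ℕ) (n : ℕ)
    (h1 : (p 0 : ℝ) ≤ 9 - (2 / 5 : ℝ) * n) (h2 : Antitone p)
    (h3 : ∀ m : ℕ, ((∑ k ∈ Finset.range m, p k : ℕ) : ℝ) ≤ 19 - (n : ℝ))
    (h4 : (6 : ℝ) ≤ (n : ℝ) / 4 + ∑' k : ℕ, (p k : ℝ) / (((k : ℝ) + 1) * ((k : ℝ) + 2))) :
    n = 0 ∧ (p = (fun k => if k = 0 then 9 else if k = 1 then 8 else if k = 2 then 2 else 0)
      ∨ p = (fun k => if k = 0 then 9 else if k = 1 then 9 else 0)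
      ∨ p = (fun k => if k = 0 then 9 else if k = 1 then 9 else if k = 2 then 1 else 0)) := by
  have hn0 : (0:ℝ) ≤ n := Nat.cast_nonneg n
  have h19 : p 19 = 0 := by
    by_contra hne
    have hge : ∀ k ∈ Finset.range 20, 1 ≤ p k := by
      intro k hk
      have hk' : k ≤ 19 := by simp at hk; omega
      have := h2 hk'
      omega
    have hs : 20 ≤ ∑ k ∈ Finset.range 20, p k := by
      have := Finset.card_nsmul_le_sum (Finset.range 20) p 1 hge
      simpa using this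
    have h320 := h3 20
    have hs' : (20 : ℝ) ≤ ((∑ k ∈ Finset.range 20, p k : ℕ) : ℝ) := by exact_mod_cast hs
    linarith
  have hz : ∀ k, 19 ≤ k → p k = 0 := fun k hk => by
    have := h2 hk; omega
  have htsum : ∑' k : ℕ, (p k : ℝ) / (((k : ℝ) + 1) * ((k : ℝ) + 2)) =
      ∑ k ∈ Finset.range 19, (p k : ℝ) / (((k : ℝ) + 1) * ((k : ℝ) + 2)) := by
    apply tsum_eq_sum
    intro k hk
    simp only [Finset.mem_range, not_lt] at hk
    rw [hz k hk]; simp
  rw [htsum, h27_split19] at h4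
  have h319 := h3 19
  rw [h27_split19] at h319
  obtain ⟨T, hT⟩ : ∃ T, T = ∑ k ∈ Finset.range 16, p (k + 3) := ⟨_, rfl⟩
  rw [← hT] at h319
  have hT2 : T ≤ 16 * p 2 := by
    have : ∀ k ∈ Finset.range 16, p (k + 3) ≤ p 2 := fun k _ => h2 (by omega)
    have := Finset.sum_le_sum this
    rw [hT]; simpa using this
  have hbound : ∑ k ∈ Finset.range 16, (p (k + 3) : ℝ) / ((((k + 3 : ℕ) : ℝ) + 1) * (((k + 3 : ℕ) : ℝ) + 2))
      ≤ (T : ℝ) / 20 := by
    rw [hT, Nat.cast_sum, Finset.sum_div]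
    apply Finset.sum_le_sum
    intro k _
    apply div_le_div_of_nonneg_left (Nat.cast_nonneg _) (by norm_num)
    push_cast
    exact h27_w (k : ℝ) (Nat.cast_nonneg k)
  push_cast at h4 h319
  have hT' : ((T : ℕ) : ℝ) = ∑ k ∈ Finset.range 16, (p (k + 3) : ℝ) := by rw [hT]; push_cast; rfl
  -- integer constraints
  have c1 : 5 * p 0 + 2 * n ≤ 45 := by
    have : (5 * p 0 + 2 * n : ℝ) ≤ 45 := by linarith
    exact_mod_cast this
  have c2 : p 0 + p 1 + p 2 + T + n ≤ 19 := by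
    have : (p 0 + p 1 + p 2 + T + n : ℝ) ≤ 19 := by rw [hT']; linarith
    exact_mod_cast this
  have c3 : 360 ≤ 15 * n + 3 * T + 5 * p 2 + 10 * p 1 + 30 * p 0 := by
    have hb : ∑ k ∈ Finset.range 16, (p (k + 3) : ℝ) / ((((k + 3 : ℕ) : ℝ) + 1) * (((k + 3 : ℕ) : ℝ) + 2))
      = ∑ k ∈ Finset.range 16, (p (k + 3) : ℝ) / (((k : ℝ) + 3 + 1) * ((k : ℝ) + 3 + 2)) := by
      push_cast; rfl
    rw [hb] at hbound
    have : (360 : ℝ) ≤ 15 * n + 3 * T + 5 * p 2 + 10 * p 1 + 30 * p 0 := by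
      norm_num at h4
      linarith
    exact_mod_cast this
  have c4 : p 1 ≤ p 0 := h2 (by norm_num)
  have c5 : p 2 ≤ p 1 := h2 (by norm_num)
  have key : n = 0 ∧ p 0 = 9 ∧ ((p 1 = 8 ∧ p 2 = 2 ∧ T = 0) ∨ (p 1 = 9 ∧ p 2 = 0 ∧ T = 0) ∨
      (p 1 = 9 ∧ p 2 = 1 ∧ T = 0)) := h27_arith n (p 0) (p 1) (p 2) T c1 c2 c3 c4 c5 hT2
  obtain ⟨hn, hp0, hrest⟩ := key
  have hp3 : p 3 = 0 := by
    have : p (0 + 3) ≤ T := by
      rw [hT]
      exact Finset.single_le_sum (f := fun k => p (k + 3)) (fun _ _ => Nat.zero_le _)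
        (Finset.mem_range.2 (by norm_num))
    have hT0 : T = 0 := by rcases hrest with h | h | h <;> exact h.2.2
    simpa [hT0] using this
  have hge3 : ∀ k, p (k + 3) = 0 := fun k => by
    have := h2 (show 3 ≤ k + 3 by omega); omega
  refine ⟨hn, ?_⟩
  rcases hrest with ⟨h1', h2', _⟩ | ⟨h1', h2', _⟩ | ⟨h1', h2', _⟩
  · left
    funext k
    rcases k with _ | _ | _ | k
    · simp [hp0]
    · simp [h1']
    · simp [h2']
    · simp [hge3 k]
  · right; left
    funext k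
    rcases k with _ | _ | _ | k
    · simp [hp0]
    · simp [h1']
    · simp [h2']
    · simp [hge3 k]
  · right; right
    funext k
    rcases k with _ | _ | _ | k
    · simp [hp0]
    · simp [h1']
    · simp [h2']
    · simp [hge3 k]

end Groth.Agent.S18053
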