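import Groth.Statements.S18054
import Mathlib.Tactic.Linarith
import Mathlib.Tactic.Ring
import Mathlib.Tactic.Positivity
import Mathlib.Tactic.LinearCombination
import Mathlib.Tactic.IntervalCases
-- import your own Groth.Agent.* helpers here

set_option autoImplicit false
open STCI

namespace Groth.Agent.S18054

/-- Let s, t, d, g be integers with t ≥ s ≥ 4, d ≥ 1, g ≥ 0 and d dividing st; put n = st/d and assume n
≥ 2; put r = d[n(s - 4) + t] + (2 - 2g)n and assume r ≤ (s/3)(2s² - 6s + 7) - 1. Then d ≤ g + 3.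
(The bound is written cleared of the denominator 3; s(2s² - 6s + 7) is always divisible by 3, so
this is the same condition.) -/
theorem result (s t d g n : ℤ) (hs : 4 ≤ s) (hst : s ≤ t) (hd : 1 ≤ d) (hg : 0 ≤ g)
    (hn : s * t = d * n) (hn2 : 2 ≤ n)
    (hr : 3 * (d * (n * (s - 4) + t) + (2 - 2 * g) * n) ≤ s * (2 * s ^ 2 - 6 * s + 7) - 3) :
    d ≤ g + 3 := by
  by_contra hcon
  push Not at hcon
  have hdg : 10 - 2 * d ≤ 2 - 2 * g := by linarith
  have hn0 : 0 ≤ n := by linarith
  have hd0 : 0 ≤ d := by linarith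
  have h1 : (10 - 2 * d) * n ≤ (2 - 2 * g) * n := mul_le_mul_of_nonneg_right hdg hn0
  obtain ⟨K, hK⟩ : ∃ K, K = d * s * (s - 6) + d ^ 2 + 10 * s := ⟨_, rfl⟩
  have hR : t * K ≤ d * (d * (n * (s - 4) + t) + (2 - 2 * g) * n) := by
    have h2 : d * (d * (n * (s - 4) + t) + (10 - 2 * d) * n) ≤
        d * (d * (n * (s - 4) + t) + (2 - 2 * g) * n) :=
      mul_le_mul_of_nonneg_left (by linarith) hd0
    have h3 : d * (d * (n * (s - 4) + t) + (10 - 2 * d) * n) =
        t * K + (d * (s - 4) + 10 - 2 * d) * (d * n - s * t) := by rw [hK]; ring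
    rw [h3, show d * n - s * t = 0 by linarith, mul_zero, add_zero] at h2
    exact h2
  have h4 : 3 * (t * K) ≤ d * (s * (2 * s ^ 2 - 6 * s + 7) - 3) := by
    have := mul_le_mul_of_nonneg_left hr hd0
    linarith
  have hKpos : 0 < K := by
    have h6 : 0 ≤ d * (s - 2) * (s - 4) :=
      mul_nonneg (mul_nonneg hd0 (by linarith)) (by linarith)
    rw [hK]
    nlinarith [sq_nonneg (d - 4)]
  have h5 : 3 * (s * K) ≤ 3 * (t * K) := by
    have := mul_le_mul_of_nonneg_right hst hKpos.le
    linarith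
  rcases le_or_gt 5 s with hs5 | hs5
  · rcases le_or_gt 13 s with hs13 | hs13
    · have h7 : 0 ≤ d * s ^ 2 * (s - 13) :=
        mul_nonneg (mul_nonneg hd0 (sq_nonneg s)) (by linarith)
      have h8 : 0 ≤ d * s * (s - 7) := mul_nonneg (mul_nonneg hd0 (by linarith)) (by linarith)
      have h9 : 0 < s * d ^ 2 := by positivity
      have h10 : 3 * (s * K) ≤ d * (s * (2 * s ^ 2 - 6 * s + 7) - 3) := le_trans h5 h4
      rw [hK] at h10
      nlinarith
    · have h10 : 3 * (s * K) ≤ d * (s * (2 * s ^ 2 - 6 * s + 7) - 3) := le_trans h5 h4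
      rw [hK] at h10
      have hq := sq_nonneg (6 * s * d + (s ^ 3 - 12 * s ^ 2 - 7 * s + 3))
      clear h5 h4 hR hK hr hn h1 hdg
      interval_cases s <;> nlinarith [hq]
  · have hs4 : s = 4 := by linarith
    subst hs4
    rcases le_or_gt 5 t with ht5 | ht5
    · have h11 : 5 * K ≤ t * K := mul_le_mul_of_nonneg_right ht5 hKpos.le
      rw [hK] at h11 h4
      nlinarith [sq_nonneg (30 * d - 177)]
    · have ht4 : t = 4 := by linarith
      subst ht4
      have hd8 : d ≤ 8 := by nlinarith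
      have hd4 : 4 ≤ d := by linarith
      rw [hK] at h4
      interval_cases d <;> omega

end Groth.Agent.S18054
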