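import Groth.Statements.S18055
import Mathlib.Tactic.Linarith
import Mathlib.Tactic.Ring
import Mathlib.Tactic.Positivity
import Mathlib.Tactic.LinearCombination
-- import your own Groth.Agent.* helpers here

set_option autoImplicit false
open STCI

namespace Groth.Agent.S18055

/-- Let d ≥ 1, g ≥ 0 and 1 ≤ s ≤ t be integers with d dividing st, put n = st/d and r = d[n(s - 4) + t]
+ (2 - 2g)n, and assume n ≥ 2, r > 0 and (n - 1) divides r. Then s < 2d² and t < 2d⁴. This is the
statement about the degree data (d, g the degree and genus of the curve, s ≤ t the degrees of the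
two surfaces) to which the published proof reduces the degree bound: there the divisibility and
positivity express that r/(n - 1), the common value of the type numbers of the pair, is a positive
integer; the geometric hypotheses themselves are not part of this row. -/
theorem result (d g s t n : ℤ) (hd : 1 ≤ d) (hg : 0 ≤ g) (hs : 1 ≤ s) (hst : s ≤ t)
    (hn : s * t = d * n) (hn2 : 2 ≤ n)
    (hpos : 0 < d * (n * (s - 4) + t) + (2 - 2 * g) * n)
    (hdvd : (n - 1) ∣ d * (n * (s - 4) + t) + (2 - 2 * g) * n) :
    s < 2 * d ^ 2 ∧ t < 2 * d ^ 4 := by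
  obtain ⟨c, hc⟩ : ∃ c, c = d * (s - 4) + 2 - 2 * g := ⟨_, rfl⟩
  have hr : d * (n * (s - 4) + t) + (2 - 2 * g) * n = n * c + d * t := by rw [hc]; ring
  rw [hr] at hpos hdvd
  have hX : (n - 1) ∣ c + d * t := by
    have : c + d * t = (n * c + d * t) - (n - 1) * c := by ring
    rw [this]
    exact dvd_sub hdvd (dvd_mul_right _ _)
  have hdpos : 0 < d := by linarith
  have htpos : 0 < t := by linarith
  have hspos : 0 < s := by linarith
  have hdt : 0 < d * t := mul_pos hdpos htpos
  have hXpos : 0 < c + d * t := by
    rcases le_or_gt 0 c with h | h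
    · linarith
    · have : n * c ≤ 2 * c := mul_le_mul_of_nonpos_right hn2 h.le
      linarith
  obtain ⟨m, hm⟩ := hX
  have hn1 : 0 < n - 1 := by linarith
  have hm1 : 1 ≤ m := by
    by_contra h
    push Not at h
    have : (n - 1) * m ≤ 0 := mul_nonpos_of_nonneg_of_nonpos hn1.le (by linarith)
    linarith
  have hcle : c ≤ d * (s - 4) + 2 := by rw [hc]; linarith
  have hd2 : 0 < d ^ 2 := by positivity
  have h3d : 3 * d < 4 * d ^ 2 := by nlinarith
  -- (*) : s t ≤ d² (s + t - 4) + 3 d
  have hstar : s * t ≤ d ^ 2 * (s + t - 4) + 3 * d := by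
    have h1 : n - 1 ≤ c + d * t := by
      rw [hm]
      have := mul_le_mul_of_nonneg_left hm1 hn1.le
      linarith
    have h2 : d * (n - 1) ≤ d * (c + d * t) := mul_le_mul_of_nonneg_left h1 hdpos.le
    have h4 : d * c ≤ d * (d * (s - 4) + 2) := mul_le_mul_of_nonneg_left hcle hdpos.le
    linarith
  have hs2 : s < 2 * d ^ 2 := by
    by_contra h
    push Not at h
    have h1 : 2 * d ^ 2 * t ≤ s * t := mul_le_mul_of_nonneg_right h htpos.le
    have h2 : d ^ 2 * s ≤ d ^ 2 * t := mul_le_mul_of_nonneg_left hst hd2.le
    linarith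
  refine ⟨hs2, ?_⟩
  have hkey : t * (m * s - d ^ 2) = d * (c + m) := by
    have h1 : d * (c + d * t) = d * ((n - 1) * m) := by rw [hm]
    linear_combination -1 * h1 + m * hn
  by_contra ht
  push Not at ht
  rcases le_or_gt (d ^ 2 + 1) s with hbig | hsmall
  · have h1 : t * (s - d ^ 2) ≤ d ^ 2 * (s - 4) + 3 * d := by linarith [hstar]
    have h2 : t ≤ t * (s - d ^ 2) := le_mul_of_one_le_right htpos.le (by linarith)
    have h3 : s ≤ 2 * d ^ 2 - 1 := by linarith
    have h4 : d ^ 2 * s ≤ d ^ 2 * (2 * d ^ 2 - 1) := mul_le_mul_of_nonneg_left h3 hd2.le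
    linarith
  · have hsd : s ≤ d ^ 2 := by linarith
    rcases lt_trichotomy (m * s - d ^ 2) 0 with hneg | hzero | hpose
    · -- case C
      have hcm : c + m < 0 := by
        have h1 : t * (m * s - d ^ 2) < 0 := mul_neg_of_pos_of_neg htpos hneg
        rw [hkey] at h1
        by_contra h2
        push Not at h2
        have := mul_nonneg hdpos.le h2
        linarith
      have hcb : -c ≤ d ^ 2 - 1 := by
        have h1 : 0 < d * (n * c + d * t) := mul_pos hdpos hpos
        have h5 : 0 < t * (s * c + d ^ 2) := by linear_combination h1 - c * hn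
        have h6 : 0 < s * c + d ^ 2 := pos_of_mul_pos_right h5 htpos.le
        have h7 : s * c ≤ 1 * c := mul_le_mul_of_nonpos_right hs (by linarith)
        linarith
      have h1 : t ≤ t * (d ^ 2 - m * s) := le_mul_of_one_le_right htpos.le (by linarith)
      have h2 : t * (d ^ 2 - m * s) = d * (-c - m) := by linear_combination -hkey
      have h3 : d * (-c - m) ≤ d * (d ^ 2 - 2) := mul_le_mul_of_nonneg_left (by linarith) hdpos.le
      have h4 : d ^ 3 ≤ d ^ 4 := by
        have : d ^ 4 = d ^ 3 * d := by ring
        rw [this]; exact le_mul_of_one_le_right (by positivity) hd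
      linarith
    · -- case A: contradiction
      have hcm : d * (c + m) = 0 := by rw [← hkey, hzero, mul_zero]
      have h1 : d * (n * c + d * t) = 0 := by
        linear_combination n * hcm - t * hzero + m * hn
      have : 0 < d * (n * c + d * t) := mul_pos hdpos hpos
      linarith
    · -- case B
      have hts : 0 < t * s - d := by nlinarith
      have h1 : (m * s - d ^ 2) * (t * s - d) = d * (c * s + d ^ 2) := by
        linear_combination s * hkey
      have h2 : t * s - d ≤ d * (c * s + d ^ 2) := by
        rw [← h1]; exact le_mul_of_one_le_left hts.le (by linarith)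
      have h3 : d * s * c ≤ d * s * (d * (s - 4) + 2) :=
        mul_le_mul_of_nonneg_left hcle (by positivity)
      have h4 : d ^ 2 * s * (s - 4) ≤ d ^ 2 * s * (d ^ 2 - 4) :=
        mul_le_mul_of_nonneg_left (by linarith) (by positivity)
      have h5 : 2 * d ^ 4 * s ≤ t * s := mul_le_mul_of_nonneg_right ht hspos.le
      have h6 : 0 < d ^ 4 - d ^ 3 + 4 * d ^ 2 - 3 * d := by nlinarith
      have h7 : (d ^ 4 + 4 * d ^ 2 - 2 * d) * 1 ≤ (d ^ 4 + 4 * d ^ 2 - 2 * d) * s :=
        mul_le_mul_of_nonneg_left hs (by nlinarith)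
      linarith

end Groth.Agent.S18055
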