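import Groth.Statements.S18188
import Mathlib.Tactic.Linarith
import Mathlib.Tactic.Ring
import Mathlib.Tactic.FieldSimp
import Mathlib.Tactic.LinearCombination
import Mathlib.Algebra.Ring.GeomSum
import Mathlib.Algebra.BigOperators.Field
import Mathlib.Algebra.BigOperators.Intervals
import Mathlib.RingTheory.RootsOfUnity.PrimitiveRoots
-- import your own Groth.Agent.* helpers here

set_option autoImplicit false
universe u
open OrbRR

namespace Groth.Agent.S18188

open Finset

theorem h27_S1 {K : Type*} [CommRing K] (w : K) (n : ℕ) :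
    (w - 1) * ∑ i ∈ range n, (i : K) * w ^ i = n * w ^ n - w * ∑ i ∈ range n, w ^ i := by
  induction n with
  | zero => simp
  | succ n ih =>
    rw [sum_range_succ, sum_range_succ, mul_add, ih]; push_cast; ring

theorem h27_S2 {K : Type*} [CommRing K] (w : K) (n : ℕ) :
    (w - 1) * ∑ i ∈ range n, (i : K) ^ 2 * w ^ i =
      n ^ 2 * w ^ n - w * (2 * ∑ i ∈ range n, (i : K) * w ^ i + ∑ i ∈ range n, w ^ i) := by
  induction n with
  | zero => simp
  | succ n ih =>
    rw [sum_range_succ, sum_range_succ, sum_range_succ, mul_add, ih]; push_cast; ring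

theorem h27_s1 {K : Type*} [CommRing K] (n : ℕ) : 2 * ∑ i ∈ range n, (i : K) = n * (n - 1) := by
  induction n with
  | zero => simp
  | succ n ih => rw [sum_range_succ, mul_add, ih]; push_cast; ring

theorem h27_s2 {K : Type*} [CommRing K] (n : ℕ) :
    6 * ∑ i ∈ range n, (i : K) ^ 2 = n * (n - 1) * (2 * n - 1) := by
  induction n with
  | zero => simp
  | succ n ih => rw [sum_range_succ, mul_add, ih]; push_cast; ring

noncomputable def h27f (K : Type*) [Field K] (N : ℕ) (l : ℕ) : K :=
  (l : K) * ((l : K) - N) / 2 + ((N : K) ^ 2 - 1) / 12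


/-- Let K be a field in which 6 ≠ 0, let j < N be natural numbers (so N ≥ 1), and let ζ ∈ K be a
primitive N-th root of unity. Then the sum over i = 1, …, N − 1 of ζ^{ij} / (2 − ζ^i − ζ^{−i})
equals j(j − N)/2 + (N² − 1)/12. (The published setting is characteristic zero; the identity is
stated here over any field of characteristic different from 2 and 3, where the published proof
applies unchanged: a field containing a primitive N-th root of unity has characteristic prime to N,
and each denominator 2 − ζ^i − ζ^{−i} = −(1 − ζ^i)²/ζ^i with 0 < i < N is nonzero. In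
characteristics 2 and 3 the right-hand side has no meaning.) -/
theorem result (K : Type u) [Field K] (h6 : (6 : K) ≠ 0)
    (N j : ℕ) (hj : j < N) (ζ : K) (hζ : IsPrimitiveRoot ζ N) :
    ∑ i ∈ Finset.Ioo 0 N, ζ ^ (i * j) / (2 - ζ ^ i - (ζ ^ i)⁻¹) =
      (j : K) * ((j : K) - (N : K)) / 2 + ((N : K) ^ 2 - 1) / 12 := by
  have hNpos : 0 < N := by omega
  have : NeZero N := ⟨hNpos.ne'⟩
  have hN0 : (N : K) ≠ 0 := (hζ.neZero').out
  have h2 : (2 : K) ≠ 0 := fun h => h6 (by rw [show (6:K) = 2 * 3 by norm_num, h, zero_mul])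
  have h12 : (12 : K) ≠ 0 := by rw [show (12:K) = 6 * 2 by norm_num]; exact mul_ne_zero h6 h2
  have hf : ∀ l, h27f K N l = (l : K) * ((l : K) - N) / 2 + ((N : K) ^ 2 - 1) / 12 := fun l => rfl
  have hsumf : ∑ l ∈ range N, h27f K N l = 0 := by
    have e1 := h27_s1 (K := K) N
    have e2 := h27_s2 (K := K) N
    have h12f : ∀ l ∈ range N, (12:K) * h27f K N l = 6 * (l:K)^2 - 6 * N * l + (N^2 - 1) := by
      intro l _; rw [hf]; field_simp; ring
    have : (12 : K) * ∑ l ∈ range N, h27f K N l = 0 := by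
      rw [Finset.mul_sum, Finset.sum_congr rfl h12f, Finset.sum_add_distrib, Finset.sum_sub_distrib,
        ← Finset.mul_sum, ← Finset.mul_sum, Finset.sum_const, Finset.card_range, nsmul_eq_mul]
      linear_combination e2 - 3 * (N : K) * e1
    exact (mul_eq_zero.1 this).resolve_left h12
  have hclosed : ∀ i ∈ Finset.Ioo 0 N, (1 : K) / (2 - ζ ^ i - (ζ ^ i)⁻¹) =
      (1 / N) * ∑ l ∈ range N, h27f K N l * (ζ ^ i) ^ l := by
    intro i hi
    simp only [Finset.mem_Ioo] at hi
    obtain ⟨w, hw⟩ : ∃ w, w = ζ ^ i := ⟨_, rfl⟩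
    rw [← hw]
    have hw1 : w ≠ 1 := by rw [hw]; exact hζ.pow_ne_one_of_pos_of_lt hi.1.ne' hi.2
    have hw0 : w ≠ 0 := by rw [hw]; exact pow_ne_zero _ (hζ.ne_zero hNpos.ne')
    have hwN : w ^ N = 1 := by rw [hw, ← pow_mul, mul_comm, pow_mul, hζ.pow_eq_one, one_pow]
    have hw1' : w - 1 ≠ 0 := sub_ne_zero.2 hw1
    have hG : ∑ l ∈ range N, w ^ l = 0 := by
      have := geom_sum_mul w N
      rw [hwN, sub_self] at this
      exact (mul_eq_zero.1 this).resolve_right hw1'
    have hS1 := h27_S1 w N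
    have hS2 := h27_S2 w N
    rw [hG, hwN, mul_zero, sub_zero, mul_one] at hS1
    rw [hG, hwN, add_zero, mul_one] at hS2
    have hsum : ∑ l ∈ range N, h27f K N l * w ^ l =
        ((∑ l ∈ range N, (l:K)^2 * w^l) - N * ∑ l ∈ range N, (l:K) * w^l) / 2 +
          ((N:K)^2 - 1)/12 * ∑ l ∈ range N, w ^ l := by
      simp only [hf, Finset.mul_sum, ← Finset.sum_sub_distrib, Finset.sum_div, ← Finset.sum_add_distrib]
      apply Finset.sum_congr rfl; intro l _; ring
    rw [hsum, hG, mul_zero, add_zero]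
    have A : ((∑ l ∈ range N, (l:K)^2 * w^l) - N * ∑ l ∈ range N, (l:K) * w^l) * (w - 1) ^ 2 =
        -2 * w * N := by
      linear_combination (w - 1) * hS2 - (2 * w + (N : K) * (w - 1)) * hS1
    have hden : 2 - w - w⁻¹ ≠ 0 := by
      have : 2 - w - w⁻¹ = -(w - 1) ^ 2 / w := by field_simp; ring
      rw [this]; exact div_ne_zero (neg_ne_zero.2 (pow_ne_zero _ hw1')) hw0
    have e3 : (1 : K) / (2 - w - w⁻¹) = -w / (w - 1) ^ 2 := by
      rw [div_eq_div_iff hden (pow_ne_zero 2 hw1')]
      field_simp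
      ring
    rw [e3]
    field_simp
    linear_combination (-1 : K) * A
  have hortho : ∀ k, ∑ i ∈ Finset.Ioo 0 N, (ζ ^ k) ^ i = (if N ∣ k then (N : K) else 0) - 1 := by
    intro k
    have hsplit : ∑ i ∈ range N, (ζ ^ k) ^ i = 1 + ∑ i ∈ Finset.Ioo 0 N, (ζ ^ k) ^ i := by
      rw [Finset.range_eq_Ico, ← Finset.Ioo_insert_left hNpos, Finset.sum_insert Finset.left_notMem_Ioo,
        pow_zero]
    have hfull : ∑ i ∈ range N, (ζ ^ k) ^ i = if N ∣ k then (N : K) else 0 := by
      split_ifs with hk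
      · rw [(hζ.pow_eq_one_iff_dvd k).2 hk]; simp
      · have hne : ζ ^ k ≠ 1 := fun h => hk ((hζ.pow_eq_one_iff_dvd k).1 h)
        have hpow : (ζ ^ k) ^ N = 1 := by rw [← pow_mul, mul_comm, pow_mul, hζ.pow_eq_one, one_pow]
        have := geom_sum_mul (ζ ^ k) N
        rw [hpow, sub_self] at this
        exact (mul_eq_zero.1 this).resolve_right (sub_ne_zero.2 hne)
    rw [← hfull, hsplit]; ring
  have hstep : ∑ i ∈ Finset.Ioo 0 N, ζ ^ (i * j) / (2 - ζ ^ i - (ζ ^ i)⁻¹) =
      (1 / N) * ∑ l ∈ range N, h27f K N l * ∑ i ∈ Finset.Ioo 0 N, (ζ ^ (j + l)) ^ i := by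
    rw [Finset.sum_congr rfl (fun i hi => by rw [div_eq_mul_one_div, hclosed i hi])]
    simp only [Finset.mul_sum]
    rw [Finset.sum_comm]
    apply Finset.sum_congr rfl; intro l _
    apply Finset.sum_congr rfl; intro i _
    rw [← pow_mul, ← pow_mul]
    rw [show ζ ^ ((j + l) * i) = ζ ^ (i * j) * ζ ^ (i * l) by rw [← pow_add]; congr 1; ring]
    ring
  rw [hstep]
  simp only [hortho, mul_sub, mul_one, Finset.sum_sub_distrib, hsumf, sub_zero]
  rcases Nat.eq_zero_or_pos j with hj0 | hjpos
  · subst hj0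
    rw [Finset.sum_eq_single 0]
    · simp only [zero_add, dvd_zero, if_true, hf]
      field_simp
    · intro l hl hl0
      simp only [Finset.mem_range] at hl
      have : ¬ N ∣ l := by
        intro h; exact absurd (Nat.le_of_dvd (by omega) h) (by omega)
      simp [zero_add, this]
    · intro h; exact absurd (Finset.mem_range.2 hNpos) h
  · rw [Finset.sum_eq_single (N - j)]
    · have hd : N ∣ j + (N - j) := by rw [show j + (N - j) = N by omega]
      simp only [hd, if_true, hf]
      rw [Nat.cast_sub hj.le]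
      field_simp
      ring
    · intro l hl hl0
      simp only [Finset.mem_range] at hl
      have : ¬ N ∣ j + l := by
        rintro ⟨t, ht⟩
        rcases t with _ | _ | t
        · omega
        · omega
        · nlinarith
      simp [this]
    · intro h; exact absurd (Finset.mem_range.2 (by omega)) h

end Groth.Agent.S18188
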