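import Groth.Statements.S18189
import Mathlib.Tactic.Linarith
import Mathlib.Tactic.Ring
import Mathlib.Tactic.FieldSimp
import Mathlib.Tactic.LinearCombination
import Mathlib.Algebra.Ring.GeomSum
import Mathlib.Algebra.BigOperators.Field
import Mathlib.Analysis.Complex.Basic
-- import your own Groth.Agent.* helpers here

set_option autoImplicit false
open OrbRR
open Finset

namespace Groth.Agent.S18189

section H27
open Finset

theorem h27_S1 (w : ℂ) (n : ℕ) :
    (w - 1) * ∑ i ∈ range n, (i : ℂ) * w ^ i = n * w ^ n - w * ∑ i ∈ range n, w ^ i := by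
  induction n with
  | zero => simp
  | succ n ih =>
    rw [sum_range_succ, sum_range_succ, mul_add, ih]; push_cast; ring

theorem h27_S2 (w : ℂ) (n : ℕ) :
    (w - 1) * ∑ i ∈ range n, (i : ℂ) ^ 2 * w ^ i =
      n ^ 2 * w ^ n - w * (2 * ∑ i ∈ range n, (i : ℂ) * w ^ i + ∑ i ∈ range n, w ^ i) := by
  induction n with
  | zero => simp
  | succ n ih =>
    rw [sum_range_succ, sum_range_succ, sum_range_succ, mul_add, ih]; push_cast; ring

theorem h27_s1 (n : ℕ) : ∑ i ∈ range n, (i : ℂ) = n * (n - 1) / 2 := by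
  induction n with
  | zero => simp
  | succ n ih => rw [sum_range_succ, ih]; push_cast; ring

theorem h27_s2 (n : ℕ) : ∑ i ∈ range n, (i : ℂ) ^ 2 = n * (n - 1) * (2 * n - 1) / 6 := by
  induction n with
  | zero => simp
  | succ n ih => rw [sum_range_succ, ih]; push_cast; ring

end H27

/-- Let N ≥ 1 be a natural number, let ζ ∈ ℂ be a primitive N-th root of unity, and put f(i) = i(i −
N)/2 + (N² − 1)/12 for 0 ≤ i < N. For every natural number m the complex number ε_m = (1/N)
∑_{i=0}^{N−1} f(i) ζ^{mi}, an eigenvalue of the symmetric circulant N × N matrix with (i, j) entry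
f(j − i)/N, is real and nonnegative. -/
theorem result (N : ℕ) (hN : 0 < N) (ζ : ℂ)
    (hζ : IsPrimitiveRoot ζ N) (m : ℕ) :
    (∑ i ∈ Finset.range N,
        ((i : ℂ) * ((i : ℂ) - (N : ℂ)) / 2 + ((N : ℂ) ^ 2 - 1) / 12) / (N : ℂ) * ζ ^ (m * i)).im = 0 ∧
    0 ≤ (∑ i ∈ Finset.range N,
        ((i : ℂ) * ((i : ℂ) - (N : ℂ)) / 2 + ((N : ℂ) ^ 2 - 1) / 12) / (N : ℂ) * ζ ^ (m * i)).re := by
  set w := ζ ^ m with hw
  have hwN : w ^ N = 1 := by rw [hw, ← pow_mul, mul_comm, pow_mul, hζ.pow_eq_one, one_pow]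
  have hNc : (N : ℂ) ≠ 0 := by exact_mod_cast hN.ne'
  have hT : ∑ i ∈ Finset.range N,
        ((i : ℂ) * ((i : ℂ) - (N : ℂ)) / 2 + ((N : ℂ) ^ 2 - 1) / 12) / (N : ℂ) * ζ ^ (m * i) =
      ((∑ i ∈ range N, (i : ℂ) ^ 2 * w ^ i) - N * ∑ i ∈ range N, (i : ℂ) * w ^ i) / (2 * N) +
        ((N : ℂ) ^ 2 - 1) / (12 * N) * ∑ i ∈ range N, w ^ i := by
    simp only [Finset.mul_sum, ← Finset.sum_sub_distrib, Finset.sum_div, ← Finset.sum_add_distrib]
    apply sum_congr rfl
    intro i _
    rw [hw, ← pow_mul]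
    field_simp
  rw [hT]
  by_cases hw1 : w = 1
  · have : ∑ i ∈ range N, (i : ℂ) ^ 2 * w ^ i = ∑ i ∈ range N, (i : ℂ) ^ 2 := by simp [hw1]
    rw [this]
    have : ∑ i ∈ range N, (i : ℂ) * w ^ i = ∑ i ∈ range N, (i : ℂ) := by simp [hw1]
    rw [this]
    have : ∑ i ∈ range N, w ^ i = N := by simp [hw1]
    rw [this, h27_s1, h27_s2]
    have : ((N : ℂ) * (N - 1) * (2 * N - 1) / 6 - N * (N * (N - 1) / 2)) / (2 * N) +
        ((N : ℂ) ^ 2 - 1) / (12 * N) * N = 0 := by
      field_simp; ring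
    rw [this]; simp
  · have hG : ∑ i ∈ range N, w ^ i = 0 := by
      have := geom_sum_mul w N
      rw [hwN, sub_self] at this
      exact (mul_eq_zero.1 this).resolve_right (sub_ne_zero.2 hw1)
    have hS1 := h27_S1 w N
    have hS2 := h27_S2 w N
    rw [hG, hwN, mul_zero, sub_zero, mul_one] at hS1
    rw [hG, hwN, add_zero, mul_one] at hS2
    have hw1' : w - 1 ≠ 0 := sub_ne_zero.2 hw1
    have hval : ((∑ i ∈ range N, (i : ℂ) ^ 2 * w ^ i) - N * ∑ i ∈ range N, (i : ℂ) * w ^ i) / (2 * N) +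
        ((N : ℂ) ^ 2 - 1) / (12 * N) * ∑ i ∈ range N, w ^ i = -w / (w - 1) ^ 2 := by
      rw [hG, mul_zero, add_zero]
      rw [div_eq_div_iff (by simp [hNc]) (pow_ne_zero 2 hw1')]
      linear_combination (w - 1) * hS2 - (2 * w + (N : ℂ) * (w - 1)) * hS1
    rw [hval]
    -- |w| = 1
    have hnorm : ‖w‖ = 1 := Complex.norm_eq_one_of_pow_eq_one hwN hN.ne'
    have hconj : w * (starRingEnd ℂ) w = 1 := by
      rw [Complex.mul_conj, Complex.normSq_eq_norm_sq, hnorm]; simp
    have hre : w.re < 1 := by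
      have hsq : w.re * w.re + w.im * w.im = 1 := by
        have := Complex.normSq_eq_norm_sq w
        rw [hnorm, Complex.normSq_apply] at this
        linarith
      by_contra h
      push Not at h
      have hle : w.re ≤ 1 := by have := Complex.re_le_norm w; linarith
      have hre1 : w.re = 1 := le_antisymm hle h
      have him : w.im = 0 := by
        rw [hre1] at hsq
        have : w.im * w.im = 0 := by linarith
        exact mul_self_eq_zero.1 this
      exact hw1 (Complex.ext (by simp [hre1]) (by simp [him]))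
    have key : -w / (w - 1) ^ 2 = ((2 - 2 * w.re)⁻¹ : ℝ) := by
      have e1 : ((2 - 2 * w.re : ℝ) : ℂ) = 2 - (w + (starRingEnd ℂ) w) := by
        push_cast; rw [Complex.re_eq_add_conj]; ring
      have hne : ((2 - 2 * w.re : ℝ) : ℂ) ≠ 0 := by
        exact_mod_cast (show (2 - 2 * w.re) ≠ 0 by linarith)
      rw [Complex.ofReal_inv, eq_comm, inv_eq_one_div, div_eq_div_iff hne (pow_ne_zero 2 hw1'), e1]
      linear_combination (-1 : ℂ) * hconj
    rw [key]
    constructor
    · exact Complex.ofReal_im _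
    · rw [Complex.ofReal_re]; apply le_of_lt; apply inv_pos.2; linarith

end Groth.Agent.S18189
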