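import Groth.Statements.S18291
-- import your own Groth.Agent.* helpers here

set_option autoImplicit false
universe v₁ u₁
open CategoryTheory MonoidalCategory CartesianMonoidalCategory MonObj Opposite
open Magnet Magnet.MonAct

namespace Groth.Agent.S18291

/-- Let A be a monoid object of a cartesian monoidal category acting on X (in the source A is the
diagonalizable monoid scheme A(M)_S acting on an S-space X). Then X = X^M: the natural
transformation sending a T-point x of X to its orbit map (g, t) ↦ g • x(t), from the functor of
points of X to the functor T ↦ (maps A × T → X equivariant for A acting on the first factor by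
multiplication), and evaluation at the unit of A in the other direction, are inverse to each other. -/
theorem result {C : Type u₁} [Category.{v₁} C] [CartesianMonoidalCategory C]
    (A X : C) [MonObj A] (a : Magnet.MonAct A X) :
    Magnet.MonAct.eqvHom.ofPoint a ≫ Magnet.MonAct.eqvHom.evalAt (Magnet.MonAct.regular A) a η[A] = 𝟙 _ ∧
      Magnet.MonAct.eqvHom.evalAt (Magnet.MonAct.regular A) a η[A] ≫ Magnet.MonAct.eqvHom.ofPoint a = 𝟙 _ := by
  constructor
  · ext T x
    simp only [NatTrans.comp_app, NatTrans.id_app]
    show lift (toUnit (unop T) ≫ η[A]) (𝟙 (unop T)) ≫ ((A ◁ x) ≫ a.act) = x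
    rw [lift_whiskerLeft_assoc, Category.id_comp, ← Hom.one_def, lift_one_act]
  · ext T φ
    apply Subtype.ext
    show (A ◁ (lift (toUnit (unop T) ≫ η[A]) (𝟙 (unop T)) ≫ φ.1)) ≫ a.act = φ.1
    apply hom_ext_lift₂
    intro T' g t
    rw [lift_whiskerLeft_assoc]
    have h := (mem_eqvHom_iff φ.1).1 φ.2 T' g (toUnit T' ≫ η[A]) t
    rw [← Category.assoc, comp_lift, ← Category.assoc, toUnit_unique (t ≫ toUnit (unop T)) (toUnit T'),
      Category.comp_id, ← h, lift_regular_act, ← Hom.one_def, _root_.mul_one]

end Groth.Agent.S18291
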