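import Groth.Statements.S18292
import Mathlib.CategoryTheory.Limits.Types.Pullbacks
import Mathlib.CategoryTheory.Limits.Shapes.Pullback.IsPullback.Basic
-- import your own Groth.Agent.* helpers here

set_option autoImplicit false
universe v₁ u₁
open CategoryTheory MonoidalCategory CartesianMonoidalCategory MonObj Opposite
open Magnet Magnet.MonAct

namespace Groth.Agent.S18292

/-- Let A be a monoid object of a cartesian monoidal category acting on objects B, X₁, X₂, X₃ and P, let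
f₁ : X₁ → X₂ and f₃ : X₃ → X₂ be equivariant, and let p₁ : P → X₁, p₃ : P → X₃ be equivariant
morphisms making P the fibre product X₁ ×_{X₂} X₃ (in the source A = A(M)_S acts on S-spaces, B =
A(N)_S for a magnet N, and the fibre product carries its canonical action). Then attractors commute
with this fibre product: the square of functors T ↦ (equivariant maps B × T → ·) induced by p₁, p₃,
f₁, f₃ is cartesian, (X₁ ×_{X₂} X₃)^N = X₁^N ×_{X₂^N} X₃^N. -/
theorem result {C : Type u₁} [Category.{v₁} C] [CartesianMonoidalCategory C]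
    {A B X₁ X₂ X₃ P : C} [MonObj A] (ρ : Magnet.MonAct A B) (a₁ : Magnet.MonAct A X₁) (a₂ : Magnet.MonAct A X₂)
    (a₃ : Magnet.MonAct A X₃) (aP : Magnet.MonAct A P) (f₁ : X₁ ⟶ X₂) (f₃ : X₃ ⟶ X₂) (p₁ : P ⟶ X₁) (p₃ : P ⟶ X₃)
    (hsq : IsPullback p₁ p₃ f₁ f₃) (hf₁ : Magnet.MonAct.IsEquivariant a₁ a₂ f₁)
    (hf₃ : Magnet.MonAct.IsEquivariant a₃ a₂ f₃) (hp₁ : Magnet.MonAct.IsEquivariant aP a₁ p₁)
    (hp₃ : Magnet.MonAct.IsEquivariant aP a₃ p₃) :
    IsPullback (Magnet.MonAct.eqvHom.postcomp ρ p₁ hp₁) (Magnet.MonAct.eqvHom.postcomp ρ p₃ hp₃)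
      (Magnet.MonAct.eqvHom.postcomp ρ f₁ hf₁) (Magnet.MonAct.eqvHom.postcomp ρ f₃ hf₃) := by
  apply IsPullback.of_forall_isPullback_app
  intro T
  rw [Limits.Types.isPullback_iff]
  refine ⟨?_, ?_, ?_⟩
  · ext φ
    apply Subtype.ext
    show (φ.1 ≫ p₁) ≫ f₁ = (φ.1 ≫ p₃) ≫ f₃
    rw [Category.assoc, Category.assoc, hsq.w]
  · rintro φ ψ ⟨h1, h3⟩
    apply Subtype.ext
    have h1' : φ.1 ≫ p₁ = ψ.1 ≫ p₁ := congrArg Subtype.val h1
    have h3' : φ.1 ≫ p₃ = ψ.1 ≫ p₃ := congrArg Subtype.val h3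
    exact hsq.hom_ext h1' h3'
  · intro x₁ x₃ hx
    have hx' : x₁.1 ≫ f₁ = x₃.1 ≫ f₃ := congrArg Subtype.val hx
    have e₁ := x₁.2
    have e₃ := x₃.2
    unfold IsEquivariant at hp₁ hp₃ e₁ e₃
    refine ⟨⟨hsq.lift x₁.1 x₃.1 hx', ?_⟩, ?_, ?_⟩
    · unfold IsEquivariant
      apply hsq.hom_ext
      · rw [Category.assoc, hsq.lift_fst, Category.assoc, hp₁, ← Category.assoc,
          ← MonoidalCategory.whiskerLeft_comp, hsq.lift_fst]
        exact e₁
      · rw [Category.assoc, hsq.lift_snd, Category.assoc, hp₃, ← Category.assoc,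
          ← MonoidalCategory.whiskerLeft_comp, hsq.lift_snd]
        exact e₃
    · apply Subtype.ext
      exact hsq.lift_fst _ _ _
    · apply Subtype.ext
      exact hsq.lift_snd _ _ _

end Groth.Agent.S18292
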