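import Groth.Statements.S18296
-- import your own Groth.Agent.* helpers here

set_option autoImplicit false
universe v₁ u₁
open CategoryTheory MonoidalCategory CartesianMonoidalCategory MonObj Opposite
open Magnet Magnet.MonAct

namespace Groth.Agent.S18296

/-- Let A be a monoid object of a cartesian monoidal category acting on B, Y and Z, and let A act
componentwise on Y × Z (in the source A = A(M)_S acts on S-spaces and B = A(N)_S for a magnet N).
Then (Y × Z)^N = Y^N × Z^N: for every T, an equivariant map B × T → Y × Z is the same as a pair of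
equivariant maps to Y and to Z, the bijection being given by the two projections. -/
theorem result {C : Type u₁} [Category.{v₁} C] [CartesianMonoidalCategory C]
    {A B Y Z : C} [MonObj A] (ρ : Magnet.MonAct A B) (a : Magnet.MonAct A Y) (b : Magnet.MonAct A Z) (T : Cᵒᵖ) :
    Function.Bijective (fun φ : (Magnet.MonAct.eqvHom ρ (a.prod b)).obj T =>
      ((Magnet.MonAct.eqvHom.postcomp ρ (fst Y Z) (Magnet.MonAct.isEquivariant_prod_fst a b)).app T φ,
        (Magnet.MonAct.eqvHom.postcomp ρ (snd Y Z) (Magnet.MonAct.isEquivariant_prod_snd a b)).app T φ)) := by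
  constructor
  · intro φ φ' h
    simp only [Prod.mk.injEq] at h
    obtain ⟨h1, h2⟩ := h
    apply Subtype.ext
    have h1' := congrArg Subtype.val h1
    have h2' := congrArg Subtype.val h2
    simp only [eqvHom.postcomp_app_coe] at h1' h2'
    exact CartesianMonoidalCategory.hom_ext _ _ h1' h2'
  · rintro ⟨φ₁, φ₂⟩
    refine ⟨⟨lift φ₁.1 φ₂.1, ?_⟩, ?_⟩
    · have e1 := φ₁.2
      have e2 := φ₂.2
      rw [isEquivariant_iff] at e1 e2 ⊢
      intro T' g x
      rw [← Category.assoc, comp_lift (lift g x ≫ _) φ₁.1 φ₂.1, Category.assoc, Category.assoc, e1, e2,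
        comp_lift x φ₁.1 φ₂.1, lift_prod_act]
    · apply Prod.ext
      · apply Subtype.ext
        exact lift_fst _ _
      · apply Subtype.ext
        exact lift_snd _ _

end Groth.Agent.S18296
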