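import Groth.Statements.S18297
-- import your own Groth.Agent.* helpers here

set_option autoImplicit false
universe v₁ u₁
open CategoryTheory MonoidalCategory CartesianMonoidalCategory MonObj Opposite
open Magnet Magnet.MonAct

namespace Groth.Agent.S18297

/-- Let A be a monoid object of a cartesian monoidal category acting on B and on a monoid object X by
monoid endomorphisms, i.e. the multiplication of X is equivariant for the diagonal action on X × X
and the unit of X is equivariant for the trivial action (in the source A = A(M)_S, B = A(N)_S and X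
is a monoid S-space). Then X^N is a monoid functor: for every T the equivariant maps B × T → X are
closed under the pointwise product of maps into X and contain the pointwise unit. -/
theorem result {C : Type u₁} [Category.{v₁} C]
    [CartesianMonoidalCategory C] {A B X : C} [MonObj A] [MonObj X] (ρ : Magnet.MonAct A B) (a : Magnet.MonAct A X)
    (hμ : Magnet.MonAct.IsEquivariant (a.prod a) a μ[X])
    (hη : Magnet.MonAct.IsEquivariant (Magnet.MonAct.trivial A (𝟙_ C)) a η[X]) (T : C) (φ ψ : B ⊗ T ⟶ X)
    (hφ : Magnet.MonAct.IsEquivariant (ρ.prod (Magnet.MonAct.trivial A T)) a φ)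
    (hψ : Magnet.MonAct.IsEquivariant (ρ.prod (Magnet.MonAct.trivial A T)) a ψ) :
    Magnet.MonAct.IsEquivariant (ρ.prod (Magnet.MonAct.trivial A T)) a (φ * ψ) ∧
      Magnet.MonAct.IsEquivariant (ρ.prod (Magnet.MonAct.trivial A T)) a (1 : B ⊗ T ⟶ X) := by
  rw [isEquivariant_iff] at hμ hη hφ hψ
  have hmul : ∀ (T' : C) (g : T' ⟶ A) (x y : T' ⟶ X),
      lift g (x * y) ≫ a.act = (lift g x ≫ a.act) * (lift g y ≫ a.act) := by
    intro T' g x y
    have h := hμ T' g (lift x y)
    rw [lift_prod_act_assoc, ← Hom.mul_def] at h
    rw [Hom.mul_def x y, ← h, Hom.mul_def]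
  have hone : ∀ (T' : C) (g : T' ⟶ A), lift g (1 : T' ⟶ X) ≫ a.act = 1 := by
    intro T' g
    have h := hη T' g (toUnit T')
    rw [lift_trivial_act_assoc, ← Hom.one_def] at h
    exact h.symm
  constructor
  · rw [isEquivariant_iff]
    intro T' g z
    rw [← Category.assoc, MonObj.comp_mul, Category.assoc, Category.assoc, hφ, hψ,
      MonObj.comp_mul z φ ψ, hmul]
  · rw [isEquivariant_iff]
    intro T' g z
    rw [MonObj.comp_one, MonObj.comp_one, MonObj.comp_one, hone]

end Groth.Agent.S18297
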