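import Groth.Statements.S18301
-- import your own Groth.Agent.* helpers here

set_option autoImplicit false
universe v₁ u₁
open CategoryTheory MonoidalCategory CartesianMonoidalCategory MonObj Opposite
open Magnet Magnet.MonAct

namespace Groth.Agent.S18301

/-- Let A be a monoid object of a cartesian monoidal category acting on B and on a group object X by
group endomorphisms, i.e. the multiplication of X is equivariant for the diagonal action on X × X
(in the source A = A(M)_S, B = A(N)_S and X is a group S-space). Then X^N is a group functor: for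
every T the equivariant maps B × T → X are closed under pointwise inversion in the group of maps
into X (closure under products and the unit being the monoid case). -/
theorem result {C : Type u₁} [Category.{v₁} C]
    [CartesianMonoidalCategory C] {A B X : C} [MonObj A] [GrpObj X] (ρ : Magnet.MonAct A B) (a : Magnet.MonAct A X)
    (hμ : Magnet.MonAct.IsEquivariant (a.prod a) a μ[X]) (T : C) (φ : B ⊗ T ⟶ X)
    (hφ : Magnet.MonAct.IsEquivariant (ρ.prod (Magnet.MonAct.trivial A T)) a φ) :
    Magnet.MonAct.IsEquivariant (ρ.prod (Magnet.MonAct.trivial A T)) a φ⁻¹ := by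
  rw [isEquivariant_iff] at hμ hφ ⊢
  -- multiplicativity of the action on points
  have hmul : ∀ (T' : C) (g : T' ⟶ A) (x y : T' ⟶ X),
      lift g (x * y) ≫ a.act = (lift g x ≫ a.act) * (lift g y ≫ a.act) := by
    intro T' g x y
    have h := hμ T' g (lift x y)
    rw [lift_prod_act_assoc, ← Hom.mul_def] at h
    rw [Hom.mul_def x y, ← h, Hom.mul_def]
  have hone : ∀ (T' : C) (g : T' ⟶ A), lift g (1 : T' ⟶ X) ≫ a.act = 1 := by
    intro T' g
    have h := hmul T' g 1 1
    rw [_root_.mul_one] at h
    exact (mul_eq_left.1 h.symm)
  have hinv : ∀ (T' : C) (g : T' ⟶ A) (x : T' ⟶ X),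
      lift g x⁻¹ ≫ a.act = (lift g x ≫ a.act)⁻¹ := by
    intro T' g x
    apply eq_inv_of_mul_eq_one_left
    rw [← hmul, inv_mul_cancel, hone]
  intro T' g z
  rw [← Category.assoc, GrpObj.comp_inv (lift g z ≫ _) φ, Category.assoc, hφ T' g z,
    GrpObj.comp_inv z φ, hinv]

end Groth.Agent.S18301
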