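import Groth.Statements.S18422
import Mathlib.Topology.Algebra.ClopenNhdofOne
import Mathlib.Data.Nat.Prime.Basic
-- import your own Groth.Agent.* helpers here

set_option autoImplicit false
universe u v
open Pi1

namespace Groth.Agent.S18422

/-- Let p and l be distinct primes, G a profinite group (a compact totally disconnected topological
group) which is pro-p, meaning that every open normal subgroup of G has index a power of p, and H a
profinite group which is pro-l in the same sense. Then every continuous group homomorphism from G to
H is trivial. -/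
theorem result {p l : ℕ} (hp : p.Prime) (hl : l.Prime) (hpl : p ≠ l)
    (G : Type u) [Group G] [TopologicalSpace G] [IsTopologicalGroup G] [CompactSpace G]
    [TotallyDisconnectedSpace G]
    (H : Type v) [Group H] [TopologicalSpace H] [IsTopologicalGroup H] [CompactSpace H]
    [TotallyDisconnectedSpace H]
    (hG : ∀ U : OpenNormalSubgroup G, ∃ n : ℕ, U.toSubgroup.index = p ^ n)
    (hH : ∀ V : OpenNormalSubgroup H, ∃ n : ℕ, V.toSubgroup.index = l ^ n)
    (f : G →* H) (hf : Continuous f) (g : G) : f g = 1 := by
  by_contra hne
  obtain ⟨V, hV⟩ := ProfiniteGrp.exist_openNormalSubgroup_sub_open_nhds_of_one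
    (isOpen_compl_singleton (x := f g)) (Set.mem_compl_singleton_iff.mpr (fun h => hne h.symm))
  let W : OpenNormalSubgroup G :=
    { toOpenSubgroup := V.toOpenSubgroup.comap f hf
      isNormal' := by
        show (V.toSubgroup.comap f).Normal
        infer_instance }
  obtain ⟨a, ha⟩ := hG W
  obtain ⟨b, hb⟩ := hH V
  have hdvd : W.toSubgroup.index ∣ V.toSubgroup.index := by
    have e : W.toSubgroup.index = V.toSubgroup.relIndex f.range := Subgroup.index_comap _ f
    rw [e]
    exact Subgroup.relIndex_dvd_index_of_normal _ _
  rw [ha, hb] at hdvd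
  have ha0 : a = 0 := by
    by_contra h0
    have : p ∣ l ^ b := (dvd_pow_self p h0).trans hdvd
    have := (Nat.prime_dvd_prime_iff_eq hp hl).1 (Nat.Prime.dvd_of_dvd_pow hp this)
    exact hpl this
  rw [ha0, pow_zero, Subgroup.index_eq_one] at ha
  have hgW : g ∈ W.toSubgroup := by rw [ha]; trivial
  have : f g ∈ (V : Set H) := hgW
  exact hV this rfl

end Groth.Agent.S18422
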