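import Groth.Statements.S18429
import Mathlib.Tactic.Linarith
import Mathlib.Tactic.Ring
import Mathlib.Tactic.LinearCombination
-- import your own Groth.Agent.* helpers here

set_option autoImplicit false
universe u
open SpinCurv

namespace Groth.Agent.S18429

/-- Let n ≥ 1 and r ≥ 2 be integers and let e_0, …, e_{nr} be integers with e_0 = e_{nr} = 0 (the
coefficients of a chain of nr - 1 exceptional curves joining two non-exceptional components with
coefficient zero) such that at every interior index 1 ≤ j ≤ nr - 1 the second difference e_{j-1} - 2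
e_j + e_{j+1} (the degree of the divisor Σ e_i E_i on the j-th curve of the chain) is divisible by
r. Then there are integers e'_0, …, e'_{nr}, with e'_j ≡ e_j modulo r for every interior j, with
e'_0 = e'_{nr} = 0 and every e'_j ≤ 0, whose second differences at the interior indices are each 0
or r, and are nonzero at no two distinct interior indices. -/
theorem result (n r : ℕ) (hn : 1 ≤ n) (hr : 2 ≤ r)
    (e : ℕ → ℤ) (he0 : e 0 = 0) (henr : e (n * r) = 0)
    (hdiv : ∀ j : ℕ, 1 ≤ j → j < n * r → (r : ℤ) ∣ e (j - 1) - 2 * e j + e (j + 1)) :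
    ∃ e' : ℕ → ℤ, e' 0 = 0 ∧ e' (n * r) = 0 ∧
      (∀ j : ℕ, 1 ≤ j → j < n * r → (r : ℤ) ∣ e' j - e j) ∧
      (∀ j : ℕ, j ≤ n * r → e' j ≤ 0) ∧
      (∀ j : ℕ, 1 ≤ j → j < n * r →
        (e' (j - 1) - 2 * e' j + e' (j + 1) = 0 ∨ e' (j - 1) - 2 * e' j + e' (j + 1) = r)) ∧
      (∀ j j' : ℕ, 1 ≤ j → j < n * r → 1 ≤ j' → j' < n * r →
        e' (j - 1) - 2 * e' j + e' (j + 1) ≠ 0 → e' (j' - 1) - 2 * e' j' + e' (j' + 1) ≠ 0 → j = j') := by
  have hr0 : (0 : ℤ) < r := by exact_mod_cast (show 0 < r by omega)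
  -- congruence of e
  have hcong : ∀ j, j + 1 ≤ n * r → (r : ℤ) ∣ e j - j * e 1 ∧ (r : ℤ) ∣ e (j + 1) - (j + 1 : ℕ) * e 1 := by
    intro j
    induction j with
    | zero => intro _; simp [he0]
    | succ j ih =>
      intro hj
      obtain ⟨_, h2⟩ := ih (by omega)
      refine ⟨h2, ?_⟩
      have h3 := hdiv (j + 1) (by omega) (by omega)
      simp only [Nat.add_sub_cancel] at h3
      obtain ⟨_, h1⟩ := ih (by omega)
      have h0 := (ih (by omega)).1
      have : e (j + 1 + 1) - ((j + 1 + 1 : ℕ) : ℤ) * e 1 =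
          (e j - 2 * e (j + 1) + e (j + 1 + 1)) - (e j - (j : ℤ) * e 1) +
            2 * (e (j + 1) - ((j + 1 : ℕ) : ℤ) * e 1) := by push_cast; ring
      rw [this]
      exact dvd_add (dvd_sub h3 h0) (dvd_mul_of_dvd_right h1 _)
  -- q
  set q : ℕ := (e 1 % r).toNat with hq
  have hqz : (q : ℤ) = e 1 % r := Int.toNat_of_nonneg (Int.emod_nonneg _ (by omega))
  have hqr : q < r := by
    have : e 1 % r < r := Int.emod_lt_of_pos _ hr0
    omega
  have hqe : (r : ℤ) ∣ e 1 - q := by
    rw [hqz]; exact ⟨e 1 / r, by linarith [Int.mul_ediv_add_emod (e 1) (r : ℤ), Int.emod_add_mul_ediv (e 1) (r : ℤ)]⟩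
  let A : ℕ → ℤ := fun j => -((r : ℤ) - q) * j
  let B : ℕ → ℤ := fun j => (q : ℤ) * ((j : ℤ) - n * r)
  let e' : ℕ → ℤ := fun j => if j ≤ n * q then A j else B j
  have hAB : A (n * q) = B (n * q) := by simp only [A, B]; push_cast; ring
  have hA : ∀ j, j ≤ n * q → e' j = A j := fun j hj => by simp only [e', if_pos hj]
  have hB : ∀ j, n * q ≤ j → e' j = B j := fun j hj => by
    by_cases h : j ≤ n * q
    · have : j = n * q := le_antisymm h hj
      subst this; simp only [e', if_pos h]; exact hAB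
    · simp only [e', if_neg h]
  have hnq : n * q < n * r := Nat.mul_lt_mul_of_pos_left hqr (by omega)
  -- second difference
  have hsd : ∀ j, 1 ≤ j → e' (j - 1) - 2 * e' j + e' (j + 1) = if j = n * q then (r : ℤ) else 0 := by
    intro j hj
    have hj1 : ((j - 1 : ℕ) : ℤ) = (j : ℤ) - 1 := by push_cast [Nat.cast_sub hj]; ring
    rcases lt_trichotomy j (n * q) with h | h | h
    · rw [hA _ (by omega), hA _ (by omega), hA _ (by omega), if_neg (by omega)]
      simp only [A]; rw [hj1]; push_cast; ring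
    · rw [hA _ (by omega), hA _ (by omega), hB _ (by omega), if_pos h]
      simp only [A, B]; rw [hj1]; push_cast
      have hjz : (j : ℤ) = n * q := by exact_mod_cast h
      rw [hjz]; ring
    · rw [hB _ (by omega), hB _ (by omega), hB _ (by omega), if_neg (by omega)]
      simp only [B]; rw [hj1]; push_cast; ring
  refine ⟨e', ?_, ?_, ?_, ?_, ?_, ?_⟩
  · rw [hA 0 (Nat.zero_le _)]; simp [A]
  · rw [hB _ hnq.le]; simp [B]
  · intro j hj1 hjN
    have hej := (hcong j (by omega)).1
    have hmod : (r : ℤ) ∣ e' j - q * j := by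
      by_cases h : j ≤ n * q
      · rw [hA j h]; simp only [A]
        exact ⟨-(j : ℤ), by ring⟩
      · rw [hB j (by omega)]; simp only [B]
        exact ⟨-((q : ℤ) * n), by ring⟩
    have : e' j - e j = (e' j - q * j) - (e j - j * e 1) - j * (e 1 - q) := by ring
    rw [this]
    exact dvd_sub (dvd_sub hmod hej) (dvd_mul_of_dvd_right hqe _)
  · intro j hj
    by_cases h : j ≤ n * q
    · rw [hA j h]; simp only [A]
      have hqr' : (q : ℤ) < r := by exact_mod_cast hqr
      have : (0 : ℤ) ≤ (r : ℤ) - q := by linarith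
      have : (0 : ℤ) ≤ j := Nat.cast_nonneg j
      nlinarith
    · rw [hB j (by omega)]; simp only [B]
      have : (j : ℤ) ≤ n * r := by exact_mod_cast hj
      have : (0 : ℤ) ≤ q := Nat.cast_nonneg q
      nlinarith
  · intro j hj1 _
    rw [hsd j hj1]
    split_ifs
    · right; rfl
    · left; rfl
  · intro j j' hj1 _ hj1' _ h h'
    rw [hsd j hj1] at h
    rw [hsd j' hj1'] at h'
    split_ifs at h h' with h1 h2
    · omega
    · exact absurd rfl h'
    · exact absurd rfl h
    · exact absurd rfl h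

end Groth.Agent.S18429
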