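import Groth.Statements.S18430
-- import your own Groth.Agent.* helpers here

set_option autoImplicit false
universe u
open SpinCurv

namespace Groth.Agent.S18430

/-- Let n ≥ 1 and r ≥ 2 be integers and let e_0, …, e_{nr} be integers, thought of as the coefficients
of two non-exceptional components C = E_0 and D = E_{nr} of the special fibre and of the chain of nr
- 1 exceptional curves joining them. If at every interior index 1 ≤ j ≤ nr - 1 the second difference
e_{j-1} - 2 e_j + e_{j+1} is divisible by r (the degree of the divisor on each exceptional curve of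
the chain is a multiple of r), then e_0 ≡ e_{nr} modulo r. (The published statement deduces from
this step, using that the special fibre is connected, that all non-exceptional components are joined
by such chains and that one non-exceptional coefficient may be taken to be 0, that every
non-exceptional coefficient can be assumed divisible by r; only the chain step is stated here.) -/
theorem result (n r : ℕ) (hn : 1 ≤ n) (hr : 2 ≤ r)
    (e : ℕ → ℤ)
    (hdiv : ∀ j : ℕ, 1 ≤ j → j < n * r → (r : ℤ) ∣ e (j - 1) - 2 * e j + e (j + 1)) :
    (r : ℤ) ∣ e (n * r) - e 0 := by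
  have hA : ∀ m : ℕ, m < n * r → (r : ℤ) ∣ (e (m + 1) - e m) - (e 1 - e 0) := by
    intro m
    induction m with
    | zero => intro _; simp
    | succ m ih =>
      intro hm
      have h1 := ih (by omega)
      have h2 := hdiv (m + 1) (by omega) hm
      simp only [Nat.add_sub_cancel] at h2
      have : (e (m + 1 + 1) - e (m + 1)) - (e 1 - e 0)
          = (e m - 2 * e (m + 1) + e (m + 1 + 1)) + ((e (m + 1) - e m) - (e 1 - e 0)) := by ring
      rw [this]
      exact dvd_add h2 h1
  have hB : ∀ m : ℕ, m ≤ n * r → (r : ℤ) ∣ (e m - e 0) - (m : ℤ) * (e 1 - e 0) := by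
    intro m
    induction m with
    | zero => intro _; simp
    | succ m ih =>
      intro hm
      have h1 := ih (by omega)
      have h2 := hA m (by omega)
      have : (e (m + 1) - e 0) - ((m + 1 : ℕ) : ℤ) * (e 1 - e 0)
          = ((e m - e 0) - (m : ℤ) * (e 1 - e 0)) + ((e (m + 1) - e m) - (e 1 - e 0)) := by
        push_cast; ring
      rw [this]
      exact dvd_add h1 h2
  have h := hB (n * r) le_rfl
  have h3 : (r : ℤ) ∣ ((n * r : ℕ) : ℤ) * (e 1 - e 0) := by
    exact ⟨(n : ℤ) * (e 1 - e 0), by push_cast; ring⟩
  have : e (n * r) - e 0 = ((e (n * r) - e 0) - ((n * r : ℕ) : ℤ) * (e 1 - e 0)) + ((n * r : ℕ) : ℤ) * (e 1 - e 0) := by ring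
  rw [this]
  exact dvd_add h h3

end Groth.Agent.S18430
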