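import Groth.Statements.S18431
import Mathlib.Algebra.Ring.GeomSum
import Mathlib.RingTheory.LocalRing.ResidueField.Basic
-- import your own Groth.Agent.* helpers here

set_option autoImplicit false
universe u
open SpinCurv

namespace Groth.Agent.S18431

/-- Let R be a Noetherian local ring in which the natural number r is invertible and let ξ, ζ ∈ R
satisfy ξ^r = 1 and ζ^r = 1. Then either ξ = ζ, or ξ - ζ is a unit of R. (Consequently an element of
R annihilated by ξ - ζ is zero unless ξ = ζ. In the published setting R is moreover complete; the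
step does not use completeness.) -/
theorem result (R : Type u) [CommRing R] [IsNoetherianRing R] [IsLocalRing R]
    (r : ℕ) (hr : IsUnit (r : R)) (ξ ζ : R) (hξ : ξ ^ r = 1) (hζ : ζ ^ r = 1) :
    ξ = ζ ∨ IsUnit (ξ - ζ) := by
  by_cases hu : IsUnit (ξ - ζ)
  · exact Or.inr hu
  left
  have hm : ξ - ζ ∈ IsLocalRing.maximalIdeal R := hu
  have hres : IsLocalRing.residue R ξ = IsLocalRing.residue R ζ := by
    rw [← sub_eq_zero, ← map_sub, IsLocalRing.residue_eq_zero_iff]; exact hm
  have hgeom := geom_sum₂_mul ξ ζ r
  rw [hξ, hζ, sub_self] at hgeom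
  have hr0 : r ≠ 0 := by
    rintro rfl
    simp at hr
  have hζu : IsUnit ζ := IsUnit.of_pow_eq_one hζ hr0
  have hsum : IsUnit (∑ i ∈ Finset.range r, ξ ^ i * ζ ^ (r - 1 - i)) := by
    rw [← IsLocalRing.residue_ne_zero_iff_isUnit, map_sum]
    simp only [map_mul, map_pow, hres]
    rw [Finset.sum_congr rfl (fun i hi => by
      rw [← pow_add, show i + (r - 1 - i) = r - 1 by (have := Finset.mem_range.1 hi; omega)])]
    rw [Finset.sum_const, Finset.card_range, nsmul_eq_mul]
    refine mul_ne_zero ?_ (pow_ne_zero _ ?_)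
    · have := (IsLocalRing.residue_ne_zero_iff_isUnit (r : R)).2 hr
      simpa using this
    · exact (IsLocalRing.residue_ne_zero_iff_isUnit ζ).2 hζu
  have := (hsum.mul_right_eq_zero).1 hgeom
  exact sub_eq_zero.1 this

end Groth.Agent.S18431
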