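import Groth.Statements.S18457
import Mathlib.Algebra.Order.Chebyshev
import Mathlib.Tactic.Linarith
import Mathlib.Tactic.Ring
import Mathlib.Tactic.IntervalCases
-- import your own Groth.Agent.* helpers here

set_option autoImplicit false
open Finset
open Surf

namespace Groth.Agent.S18457

/-- In the Picard lattice of the plane blown up at n ≤ 8 points, with basis h, e_1, …, e_n, form h² = 1,
e_i² = −1, all other products 0, and anticanonical class D = 3h − Σ e_i, let d·h − Σ a_i e_i be a
class with all a_i ≥ 0 (the class of the strict transform of a degree-d plane curve having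
multiplicity a_i at the i-th point) which is a (−2)-class orthogonal to D, that is d² − Σ a_i² = −2
and 3d = Σ a_i. Then one of the following holds: d = 1 and every a_i is 0 or 1 with exactly three
equal to 1; d = 2 and every a_i is 0 or 1 with exactly six equal to 1; d = 3, n = 8, and one a_i
equals 2 while the remaining seven equal 1. The published statement is geometric: under the
general-position hypotheses on the points, no smooth rational curve on the blown-up plane is
orthogonal to D; this row is the lattice enumeration its proof carries out (a line through three of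
the points, a conic through six, a cubic through all eight and singular at one). -/
theorem result (n : ℕ) (hn : n ≤ 8)
    (d : ℤ) (a : Fin n → ℤ) (ha : ∀ i, 0 ≤ a i)
    (hsq : d ^ 2 - ∑ i, (a i) ^ 2 = -2) (hK : 3 * d = ∑ i, a i) :
    (d = 1 ∧ (∀ i, a i = 0 ∨ a i = 1) ∧ (Finset.univ.filter (fun i => a i = 1)).card = 3) ∨
      (d = 2 ∧ (∀ i, a i = 0 ∨ a i = 1) ∧ (Finset.univ.filter (fun i => a i = 1)).card = 6) ∨
      (d = 3 ∧ n = 8 ∧ ∃ j, a j = 2 ∧ ∀ i, i ≠ j → a i = 1) := by
  classical
  have hS2 : ∑ i, a i ^ 2 = d ^ 2 + 2 := by linarith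
  have hCS := sq_sum_le_card_mul_sum_sq (s := Finset.univ) (f := a)
  rw [← hK, hS2, Finset.card_univ, Fintype.card_fin] at hCS
  have hn' : (n : ℤ) ≤ 8 := by exact_mod_cast hn
  have hd0 : 0 ≤ d := by
    have : 0 ≤ ∑ i, a i := Finset.sum_nonneg (fun i _ => ha i)
    linarith
  have hd4 : d ≤ 4 := by nlinarith
  have hodd : ∀ i, 1 ≤ (2 * a i - 3) ^ 2 := by
    intro i
    have h1 : 2 * a i - 3 ≠ 0 := by omega
    rcases lt_or_gt_of_ne h1 with h | h
    · nlinarith
    · nlinarith
  have hsumodd : (n : ℤ) ≤ ∑ i, (2 * a i - 3) ^ 2 := by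
    have := Finset.sum_le_sum (fun i (_ : i ∈ Finset.univ) => hodd i)
    simpa using this
  have hexp : ∑ i, (2 * a i - 3) ^ 2 = 4 * ∑ i, a i ^ 2 - 12 * ∑ i, a i + 9 * n := by
    have : ∀ i, (2 * a i - 3) ^ 2 = 4 * a i ^ 2 - 12 * a i + 9 := fun i => by ring
    simp only [this, Finset.sum_add_distrib, Finset.sum_sub_distrib, ← Finset.mul_sum,
      Finset.sum_const, Finset.card_univ, Fintype.card_fin]
    simp only [nsmul_eq_mul]
    ring
  rw [hS2, ← hK] at hexp
  have hd3 : d ≤ 3 := by
    by_contra h
    have : d = 4 := by omega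
    subst this
    nlinarith
  have hkey : ∑ i, a i * (a i - 1) = (d - 1) * (d - 2) := by
    have : ∑ i, a i * (a i - 1) = ∑ i, a i ^ 2 - ∑ i, a i := by
      rw [← Finset.sum_sub_distrib]
      exact Finset.sum_congr rfl (fun i _ => by ring)
    rw [this, hS2, ← hK]; ring
  have hnn : ∀ i, 0 ≤ a i * (a i - 1) := by
    intro i
    rcases (ha i).eq_or_lt with h | h
    · rw [← h]; simp
    · exact mul_nonneg (ha i) (by omega)
  have h01of : (∑ i, a i * (a i - 1) = 0) → ∀ i, a i = 0 ∨ a i = 1 := by
    intro h0 i
    have := (Finset.sum_eq_zero_iff_of_nonneg (fun i _ => hnn i)).1 h0 i (Finset.mem_univ _)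
    rcases mul_eq_zero.1 this with h | h
    · left; exact h
    · right; linarith
  have hcardof : (∀ i, a i = 0 ∨ a i = 1) →
      ∑ i, a i = ((Finset.univ.filter (fun i => a i = 1)).card : ℤ) := by
    intro h01
    rw [Finset.card_filter]
    push_cast
    refine Finset.sum_congr rfl (fun i _ => ?_)
    rcases h01 i with h | h <;> simp [h]
  interval_cases d
  · exfalso
    have hz : ∀ i, a i = 0 := by
      have := (Finset.sum_eq_zero_iff_of_nonneg (fun i _ => ha i)).1 (by linarith : ∑ i, a i = 0)
      intro i; exact this i (Finset.mem_univ _)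
    simp [hz] at hS2
  · left
    have h01 := h01of (by linarith)
    refine ⟨rfl, h01, ?_⟩
    have := hcardof h01
    omega
  · right; left
    have h01 := h01of (by linarith)
    refine ⟨rfl, h01, ?_⟩
    have := hcardof h01
    omega
  · right; right
    refine ⟨rfl, ?_⟩
    have hex : ∃ j, 2 ≤ a j := by
      by_contra h
      push Not at h
      have h0 : ∀ i, a i * (a i - 1) = 0 := by
        intro i
        have := h i
        rcases (ha i).eq_or_lt with h0 | h0
        · rw [← h0]; simp
        · have : a i = 1 := by omega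
          rw [this]; simp
      simp [h0] at hkey
    obtain ⟨j, hj⟩ := hex
    have hsplit := Finset.add_sum_erase Finset.univ (fun i => a i * (a i - 1)) (Finset.mem_univ j)
    have hrest : 0 ≤ ∑ i ∈ Finset.univ.erase j, a i * (a i - 1) :=
      Finset.sum_nonneg (fun i _ => hnn i)
    have haj : a j = 2 := by nlinarith
    have hrest0 : ∑ i ∈ Finset.univ.erase j, a i * (a i - 1) = 0 := by
      rw [haj] at hsplit; linarith
    have h01 : ∀ i ∈ Finset.univ.erase j, a i = 0 ∨ a i = 1 := by
      intro i hi
      have := (Finset.sum_eq_zero_iff_of_nonneg (fun i _ => hnn i)).1 hrest0 i hi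
      rcases mul_eq_zero.1 this with h | h
      · left; exact h
      · right; linarith
    have hsplit2 := Finset.add_sum_erase Finset.univ a (Finset.mem_univ j)
    have h7 : ∑ i ∈ Finset.univ.erase j, a i = 7 := by rw [haj] at hsplit2; linarith
    have hn1 : 1 ≤ n := by have := j.2; omega
    have hcard : ((Finset.univ.erase j).card : ℤ) = n - 1 := by
      rw [Finset.card_erase_of_mem (Finset.mem_univ j), Finset.card_univ, Fintype.card_fin]
      omega
    have hsum1 : ∑ i ∈ Finset.univ.erase j, (1 - a i) = (n - 1) - 7 := by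
      rw [Finset.sum_sub_distrib, h7]
      simp only [Finset.sum_const, nsmul_eq_mul, mul_one]
      rw [hcard]
    have hnonneg : ∀ i ∈ Finset.univ.erase j, 0 ≤ 1 - a i := by
      intro i hi; rcases h01 i hi with h | h <;> omega
    have hsum_nonneg : 0 ≤ ∑ i ∈ Finset.univ.erase j, (1 - a i) := Finset.sum_nonneg hnonneg
    have hn8 : (n : ℤ) = 8 := by omega
    refine ⟨by exact_mod_cast hn8, j, haj, ?_⟩
    intro i hij
    have hi : i ∈ Finset.univ.erase j := Finset.mem_erase.2 ⟨hij, Finset.mem_univ _⟩
    have := (Finset.sum_eq_zero_iff_of_nonneg hnonneg).1 (by linarith) i hi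
    linarith

end Groth.Agent.S18457
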