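import Groth.Statements.S18465
-- import your own Groth.Agent.* helpers here

set_option autoImplicit false
universe u v w x
open WildLef

namespace Groth.Agent.S18465

/-- Let f : G₁ → G₂ be a homomorphism of groups, ρ : G₂ → Γ a homomorphism with finite image G, and A a
nontrivial commutative ring. Let G₂ act on the group algebra A[G] through ρ followed by the left
regular representation, and G₁ through f. If the elements of A[G] fixed by G₁ coincide with those
fixed by G₂, then ρ ∘ f and ρ have the same image. (The published statement has Γ a general linear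
group GL_r(A); over the zero ring that group is trivial, so requiring A nontrivial and allowing any
target group loses nothing.) -/
theorem result
    {G₁ : Type u} {G₂ : Type v} {Γ : Type w} [Group G₁] [Group G₂] [Group Γ]
    (f : G₁ →* G₂) (ρ : G₂ →* Γ) [Finite ρ.range] (A : Type x) [CommRing A] [Nontrivial A]
    (h : {x : MonoidAlgebra A ρ.range | ∀ g : G₁, MonoidAlgebra.of A ρ.range (ρ.rangeRestrict (f g)) * x = x} =
      {x : MonoidAlgebra A ρ.range | ∀ g : G₂, MonoidAlgebra.of A ρ.range (ρ.rangeRestrict g) * x = x}) :
    (ρ.comp f).range = ρ.range := by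
  classical
  let K : Subgroup ρ.range := (ρ.rangeRestrict.comp f).range
  haveI : Fintype K := Fintype.ofFinite K
  let x : MonoidAlgebra A ρ.range := ∑ k : K, MonoidAlgebra.of A ρ.range (k : ρ.range)
  have hmulx : ∀ h₀ : ρ.range, MonoidAlgebra.of A ρ.range h₀ * x =
      ∑ k : K, MonoidAlgebra.of A ρ.range (h₀ * k) := by
    intro h₀
    simp only [x, Finset.mul_sum, ← map_mul]
  have hx1 : x ∈ {x : MonoidAlgebra A ρ.range |
      ∀ g : G₁, MonoidAlgebra.of A ρ.range (ρ.rangeRestrict (f g)) * x = x} := by
    intro g
    rw [hmulx]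
    have hk : ρ.rangeRestrict (f g) ∈ K := ⟨g, rfl⟩
    exact Equiv.sum_comp (Equiv.mulLeft (⟨_, hk⟩ : K)) (fun k : K => MonoidAlgebra.of A ρ.range (k : ρ.range))
  rw [h] at hx1
  have hmem : ∀ g : G₂, ρ.rangeRestrict g ∈ K := by
    intro g
    by_contra hnot
    have e := hx1 g
    rw [hmulx] at e
    have e2 := congrArg (fun y : MonoidAlgebra A ρ.range => y.coeff (ρ.rangeRestrict g)) e
    simp only [x, MonoidAlgebra.coeff_sum, MonoidAlgebra.of_apply, MonoidAlgebra.coeff_single,
      Finsupp.coe_finsetSum, Finset.sum_apply, Finsupp.single_apply] at e2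
    rw [Finset.sum_eq_single (1 : K)] at e2
    · rw [Finset.sum_eq_zero] at e2
      · simp at e2
      · intro k _
        rw [if_neg]
        intro hk; apply hnot; rw [← hk]; exact k.2
    · intro k _ hk1
      rw [if_neg]
      intro hk; apply hk1; ext; simpa using hk
    · intro h1; exact absurd (Finset.mem_univ _) h1
  apply le_antisymm
  · rintro y ⟨g, rfl⟩
    exact ⟨f g, rfl⟩
  · rintro y ⟨g, rfl⟩
    obtain ⟨g₁, hg₁⟩ := hmem g
    refine ⟨g₁, ?_⟩
    have := congrArg Subtype.val hg₁
    simpa using this

end Groth.Agent.S18465
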