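import Groth.Statements.S18539
-- import your own Groth.Agent.* helpers here

set_option autoImplicit false
universe u v w
open CAlg
open Pointwise

namespace Groth.Agent.S18539

/-- For a commutative ring R, R-modules M and N and elements r₁, r₂ of R such that r₁ is a
non-zero-divisor on N and r₂ is a non-zero-divisor on N/r₁N, the element r₁ is a non-zero-divisor on
the module Hom_R(M, N) and r₂ is a non-zero-divisor on Hom_R(M, N)/r₁Hom_R(M, N). (Weak regularity
on both sides: no condition that the quotient by (r₁, r₂) is nonzero, which would fail for M = 0.) -/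
theorem result
    (R : Type u) [CommRing R] (M : Type v) (N : Type w)
    [AddCommGroup M] [Module R M] [AddCommGroup N] [Module R N]
    (r₁ r₂ : R) (h : RingTheory.Sequence.IsWeaklyRegular N [r₁, r₂]) :
    RingTheory.Sequence.IsWeaklyRegular (M →ₗ[R] N) [r₁, r₂] := by
  rw [RingTheory.Sequence.isWeaklyRegular_cons_iff,
    RingTheory.Sequence.isWeaklyRegular_singleton_iff] at h ⊢
  obtain ⟨h1, h2⟩ := h
  have mem : ∀ (r : R) (x : M →ₗ[R] N),
      x ∈ r • (⊤ : Submodule R (M →ₗ[R] N)) ↔ ∃ y, r • y = x := by
    intro r x
    rw [Submodule.mem_smul_pointwise_iff_exists]; simp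
  have memN : ∀ (r : R) (x : N), x ∈ r • (⊤ : Submodule R N) ↔ ∃ y, r • y = x := by
    intro r x
    rw [Submodule.mem_smul_pointwise_iff_exists]; simp
  constructor
  · intro f g hfg
    ext m
    apply h1
    have := congrArg (fun φ => φ m) hfg
    simpa using this
  · rw [isSMulRegular_iff_right_eq_zero_of_smul] at h2 ⊢
    intro x hx
    induction x using Submodule.Quotient.induction_on with
    | _ f =>
    rw [← Submodule.Quotient.mk_smul, Submodule.Quotient.mk_eq_zero, mem] at hx
    obtain ⟨g, hg⟩ := hx
    have hf : ∀ m, ∃ n, r₁ • n = f m := by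
      intro m
      have h3 : r₂ • (Submodule.Quotient.mk (f m) : QuotSMulTop r₁ N) = 0 := by
        rw [← Submodule.Quotient.mk_smul, Submodule.Quotient.mk_eq_zero, memN]
        exact ⟨g m, by rw [← LinearMap.smul_apply, hg, LinearMap.smul_apply]⟩
      have := h2 _ h3
      rw [Submodule.Quotient.mk_eq_zero, memN] at this
      exact this
    choose φ hφ using hf
    let hh : M →ₗ[R] N :=
      { toFun := φ
        map_add' := fun a b => h1 (show r₁ • φ (a + b) = r₁ • (φ a + φ b) by
          rw [smul_add, hφ, hφ, hφ, map_add])
        map_smul' := fun c a => by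
          simp only [RingHom.id_apply]
          exact h1 (show r₁ • φ (c • a) = r₁ • (c • φ a) by
            rw [hφ, smul_comm, hφ, map_smul]) }
    rw [Submodule.Quotient.mk_eq_zero, mem]
    exact ⟨hh, by ext m; simp [hh, hφ]⟩

end Groth.Agent.S18539
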