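import Groth.Statements.S18614
import Mathlib.LinearAlgebra.Dual.Lemmas
import Mathlib.Topology.Algebra.Group.Basic
-- import your own Groth.Agent.* helpers here

set_option autoImplicit false
universe u v
open LinTop
open Topology Filter

namespace Groth.Agent.S18614

/-- Let k be a field carrying the discrete topology and M a separated topological k-module with a
k-linear topology (the open k-submodules form a basis of neighbourhoods of zero and M is a
topological additive group). For a closed submodule M₁, the perpendicular of the perpendicular of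
M₁, both taken with respect to the pairing of M with its continuous dual (the continuous k-linear
maps M → k), is M₁ itself: an element killed by every continuous functional vanishing on M₁ belongs
to M₁. -/
theorem result (k : Type u) (M : Type v) [Field k]
    [TopologicalSpace k] [DiscreteTopology k] [AddCommGroup M] [Module k M] [TopologicalSpace M]
    [IsTopologicalAddGroup M] [IsLinearTopology k M] [T2Space M]
    (M₁ : Submodule k M) (hM₁ : IsClosed (M₁ : Set M)) (x : M)
    (hx : ∀ φ : M →L[k] k, (∀ m ∈ M₁, φ m = 0) → φ x = 0) : x ∈ M₁ := by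
  by_contra hxM
  have hopen : (M₁ : Set M)ᶜ ∈ 𝓝 x := hM₁.isOpen_compl.mem_nhds hxM
  have h0 : (fun y => x + y) ⁻¹' (M₁ : Set M)ᶜ ∈ 𝓝 (0 : M) := by
    have := (continuous_const_add x).tendsto 0
    rw [add_zero] at this
    exact this hopen
  obtain ⟨U, hUo, hUsub⟩ := (IsLinearTopology.hasBasis_open_submodule k).mem_iff.1 h0
  have hxW : x ∉ M₁ ⊔ U := by
    intro hxW
    obtain ⟨m, hm, w, hw, hmw⟩ := Submodule.mem_sup.1 hxW
    have h1 := hUsub (U.neg_mem hw)
    simp only [Set.mem_preimage, Set.mem_compl_iff, SetLike.mem_coe] at h1
    apply h1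
    rw [← hmw]
    simpa using hm
  obtain ⟨f, hfx, hfW⟩ := Submodule.exists_dual_map_eq_bot_of_notMem hxW inferInstance
  have hfW' : ∀ w ∈ M₁ ⊔ U, f w = 0 := by
    intro w hw
    have : f w ∈ (M₁ ⊔ U).map f := Submodule.mem_map_of_mem hw
    rw [hfW] at this
    simpa using this
  have hcont : Continuous f := by
    apply continuous_of_continuousAt_zero f.toAddMonoidHom
    rw [ContinuousAt, nhds_discrete k, map_zero, tendsto_pure]
    filter_upwards [hUo.mem_nhds U.zero_mem] with y hy
    exact hfW' y (Submodule.mem_sup_right hy)
  exact hfx (hx ⟨f, hcont⟩ (fun m hm => hfW' m (Submodule.mem_sup_left hm)))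

end Groth.Agent.S18614
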