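import Groth.Statements.S18615
import Mathlib.LinearAlgebra.Dual.Lemmas
import Mathlib.LinearAlgebra.LinearPMap
import Mathlib.Topology.Algebra.Group.Basic
-- import your own Groth.Agent.* helpers here

set_option autoImplicit false
universe u v
open LinTop
open Topology Filter

namespace Groth.Agent.S18615

/-- Let k be a field carrying the discrete topology and M a separated topological k-module with a
k-linear topology (open k-submodules form a basis of neighbourhoods of zero, M a topological
additive group). For closed submodules M₁ ⊆ M₂ there is a short exact sequence 0 → M₂^⊥ → M₁^⊥ →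
(M₂/M₁)^* → 0 of plain k-modules, where ⊥ denotes the annihilator in the continuous dual of M and *
the continuous dual. Stated here as its one non-formal part, surjectivity on the right: every
continuous functional on M₂ (subspace topology) that vanishes on M₁ is the restriction of a
continuous functional on M vanishing on M₁ (continuous functionals on M₂/M₁ being the continuous
functionals on M₂ that kill M₁). -/
theorem result (k : Type u) (M : Type v) [Field k]
    [TopologicalSpace k] [DiscreteTopology k] [AddCommGroup M] [Module k M] [TopologicalSpace M]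
    [IsTopologicalAddGroup M] [IsLinearTopology k M] [T2Space M]
    (M₁ M₂ : Submodule k M) (h₁₂ : M₁ ≤ M₂) (hM₁ : IsClosed (M₁ : Set M))
    (hM₂ : IsClosed (M₂ : Set M)) (ψ : M₂ →L[k] k)
    (hψ : ∀ m : M₂, (m : M) ∈ M₁ → ψ m = 0) :
    ∃ φ : M →L[k] k, (∀ m ∈ M₁, φ m = 0) ∧ ∀ m : M₂, φ (m : M) = ψ m := by
  have hker : (ψ : M₂ → k) ⁻¹' {0} ∈ 𝓝 (0 : M₂) := by
    have := ψ.continuous.tendsto 0
    rw [map_zero, nhds_discrete k] at this
    exact this (Filter.mem_pure.2 rfl)
  rw [mem_nhds_subtype] at hker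
  obtain ⟨V, hV, hVsub⟩ := hker
  obtain ⟨U, hUo, hUV⟩ := (IsLinearTopology.hasBasis_open_submodule k).mem_iff.1 hV
  let f : M →ₗ.[k] k := ⟨M₂, ψ.toLinearMap⟩
  let g : M →ₗ.[k] k := ⟨U, 0⟩
  have hfg : ∀ (x : f.domain) (y : g.domain), (x : M) = y → f x = g y := by
    intro x y hxy
    show ψ x = 0
    have hx : (x : M) ∈ V := hUV (hxy ▸ y.2)
    exact hVsub hx
  obtain ⟨φ, hφ⟩ := LinearMap.exists_extend (f.sup g hfg).toFun
  have hφapp : ∀ z : ↥(f.domain ⊔ g.domain), φ z = (f.sup g hfg) z := by
    intro z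
    exact LinearMap.congr_fun hφ z
  have hφM₂ : ∀ m : M₂, φ (m : M) = ψ m := by
    intro m
    have h1 := hφapp ⟨m, Submodule.mem_sup_left m.2⟩
    rw [LinearPMap.sup_apply hfg m (0 : g.domain) ⟨m, Submodule.mem_sup_left m.2⟩ (by simp)] at h1
    rw [h1]
    show ψ m + 0 = ψ m
    rw [add_zero]
  have hφU : ∀ w ∈ U, φ w = 0 := by
    intro w hw
    have h1 := hφapp ⟨w, Submodule.mem_sup_right hw⟩
    rw [LinearPMap.sup_apply hfg (0 : f.domain) ⟨w, hw⟩ ⟨w, Submodule.mem_sup_right hw⟩ (by simp)] at h1
    rw [h1]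
    show ψ 0 + 0 = 0
    simp
  have hcont : Continuous φ := by
    apply continuous_of_continuousAt_zero φ.toAddMonoidHom
    rw [ContinuousAt, nhds_discrete k, map_zero, tendsto_pure]
    filter_upwards [hUo.mem_nhds U.zero_mem] with y hy
    exact hφU y hy
  refine ⟨⟨φ, hcont⟩, fun m hm => ?_, hφM₂⟩
  show φ m = 0
  rw [hφM₂ ⟨m, h₁₂ hm⟩]
  exact hψ ⟨m, h₁₂ hm⟩ hm

end Groth.Agent.S18615
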