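import Groth.Statements.S18617
-- import your own Groth.Agent.* helpers here

set_option autoImplicit false
universe u
open LocRes

namespace Groth.Agent.S18617

/-- The published statement is that, for a complete separated linearly topologized commutative algebra K
over a field of characteristic zero, the separated de Rham complex of K tensored with the exterior
algebra on symbols α_1, ..., α_n maps quasi-isomorphically to the separated de Rham complex of the
iterated Laurent series ring K((t_1, ..., t_n)), α_i going to dlog t_i; this row is the case K = k
and n = 1, unpacked: over a field k of characteristic 0, a formal Laurent series f in k((t)) has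
term-by-term derivative zero if and only if it is the constant series on its coefficient of degree
0, and a Laurent series g is the derivative of some Laurent series if and only if its residue (the
coefficient of t⁻¹) vanishes; so H⁰ of the complex k((t)) → k((t)) dt is k and H¹ is the line
spanned by the class of dt/t, on which the residue is 1. -/
theorem result (k : Type u) [Field k] [CharZero k] :
    (∀ f : LaurentSeries k, LocRes.D k f = 0 ↔ f = HahnSeries.C (f.coeff 0)) ∧
      ∀ g : LaurentSeries k, (∃ f : LaurentSeries k, LocRes.D k f = g) ↔ LocRes.res k g = 0 := by
  have hD : ∀ (f : LaurentSeries k) (n : ℤ), (LocRes.D k f).coeff n = (n + 1) • f.coeff (n + 1) :=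
    fun f n => LocRes.derivative_coeff k f n
  have hC : ∀ (a : k) (n : ℤ), (HahnSeries.C a : LaurentSeries k).coeff n = if n = 0 then a else 0 := by
    intro a n
    rw [HahnSeries.C_apply, HahnSeries.coeff_single]
    split_ifs <;> rfl
  constructor
  · intro f
    constructor
    · intro h
      ext n
      rw [hC]
      split_ifs with hn
      · subst hn; rfl
      · have h1 := hD f (n - 1)
        rw [h, sub_add_cancel, HahnSeries.coeff_zero] at h1
        have h2 : (n : k) * f.coeff n = 0 := by
          rw [← zsmul_eq_mul]; exact h1.symm
        have h3 : (n : k) ≠ 0 := by exact_mod_cast hn
        exact (mul_eq_zero.1 h2).resolve_left h3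
    · intro h
      ext n
      rw [hD, HahnSeries.coeff_zero]
      have h1 : f.coeff (n + 1) = if n + 1 = 0 then f.coeff 0 else 0 := by
        conv_lhs => rw [h]
        rw [hC]
      rw [h1]
      split_ifs with hn
      · rw [hn, zero_smul]
      · rw [smul_zero]
  · intro g
    constructor
    · rintro ⟨f, rfl⟩
      rw [LocRes.res_apply, hD]
      norm_num
    · intro hg
      rw [LocRes.res_apply] at hg
      let c : ℤ → k := fun n => if n = 0 then 0 else g.coeff (n - 1) / (n : k)
      have hsupp : Function.support c ⊆ (fun m : ℤ => m + 1) '' Function.support g.coeff := by
        intro n hn
        simp only [Function.mem_support, c] at hn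
        split_ifs at hn with h0
        · exact absurd rfl hn
        · refine ⟨n - 1, ?_, by simp⟩
          simp only [Function.mem_support]
          intro h
          apply hn
          rw [h, zero_div]
      have hpwo : (Function.support c).IsPWO :=
        (g.isPWO_support'.image_of_monotone (fun a b hab => by simpa using hab)).mono hsupp
      refine ⟨⟨c, hpwo⟩, ?_⟩
      ext n
      rw [hD]
      show (n + 1) • c (n + 1) = g.coeff n
      simp only [c]
      split_ifs with h0
      · have : n = -1 := by omega
        subst this
        rw [smul_zero, hg]
      · rw [zsmul_eq_mul, add_sub_cancel_right]
        have h3 : ((n + 1 : ℤ) : k) ≠ 0 := by exact_mod_cast h0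
        field_simp

end Groth.Agent.S18617
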