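import Groth.Statements.S18792
import Mathlib.RingTheory.Nilpotent.Exp
import Mathlib.Algebra.Algebra.Bilinear
-- import your own Groth.Agent.* helpers here

set_option autoImplicit false
universe u
open DefMod

namespace Groth.Agent.S18792

/-- Let A be an associative unital algebra over ℚ, let a ∈ A be nilpotent and let b ∈ A. Then the
commutator map x ↦ a x − x a is a nilpotent ℚ-linear endomorphism of A, and exp(a) b exp(−a) =
exp(ad a)(b), where exp is the finite exponential series of a nilpotent element and ad a is the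
commutator map. (The published statement takes A an algebra over an arbitrary commutative ring; the
factorials in the exponential series require the rationals to act, so A is taken to be a ℚ-algebra
here. The intermediate double-sum expansion printed between the two sides is not restated.) -/
theorem result {A : Type u} [Ring A] [Algebra ℚ A] (a b : A)
    (ha : IsNilpotent a) :
    IsNilpotent (LinearMap.mulLeft ℚ a - LinearMap.mulRight ℚ a) ∧
      IsNilpotent.exp a * b * IsNilpotent.exp (-a) =
        IsNilpotent.exp (LinearMap.mulLeft ℚ a - LinearMap.mulRight ℚ a) b := by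
  classical
  obtain ⟨k, hk⟩ := ha
  obtain ⟨L, hL⟩ : ∃ L : Module.End ℚ A, L = LinearMap.mulLeft ℚ a := ⟨_, rfl⟩
  obtain ⟨R, hR⟩ : ∃ R : Module.End ℚ A, R = LinearMap.mulRight ℚ a := ⟨_, rfl⟩
  rw [← hL, ← hR]
  have hLk : L ^ k = 0 := by
    rw [hL, LinearMap.pow_mulLeft, hk]; ext x; simp
  have hRk : R ^ k = 0 := by
    rw [hR, LinearMap.pow_mulRight, hk]; ext x; simp
  have hcomm : Commute L R := by rw [hL, hR]; exact LinearMap.commute_mulLeft_right a a
  have hLn : IsNilpotent L := ⟨k, hLk⟩
  have hRn : IsNilpotent R := ⟨k, hRk⟩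
  refine ⟨hcomm.isNilpotent_sub hLn hRn, ?_⟩
  have hsplit : IsNilpotent.exp (L - R) = IsNilpotent.exp L * IsNilpotent.exp (-R) := by
    rw [sub_eq_add_neg]
    exact IsNilpotent.exp_add_of_commute hcomm.neg_right hLn hRn.neg
  have hnegR : ∀ (i : ℕ) (x : A), ((-R) ^ i) x = x * (-a) ^ i := by
    intro i
    induction i with
    | zero => intro x; simp
    | succ i ih =>
      intro x
      rw [pow_succ, Module.End.mul_apply, ih]
      simp [hR, pow_succ', mul_assoc]
  have hnak : (-a) ^ k = 0 := by rw [neg_pow, hk, mul_zero]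
  have hnegRk : (-R) ^ k = 0 := by
    ext x; rw [hnegR, hnak, mul_zero]; rfl
  have hexpL : ∀ x, IsNilpotent.exp L x = IsNilpotent.exp a * x := by
    intro x
    rw [IsNilpotent.exp_eq_sum hLk, IsNilpotent.exp_eq_sum hk, Finset.sum_mul, LinearMap.sum_apply]
    refine Finset.sum_congr rfl (fun i _ => ?_)
    rw [LinearMap.smul_apply, smul_mul_assoc, hL, LinearMap.pow_mulLeft, LinearMap.mulLeft_apply]
  have hexpR : ∀ x, IsNilpotent.exp (-R) x = x * IsNilpotent.exp (-a) := by
    intro x
    rw [IsNilpotent.exp_eq_sum hnegRk, IsNilpotent.exp_eq_sum hnak, Finset.mul_sum,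
      LinearMap.sum_apply]
    refine Finset.sum_congr rfl (fun i _ => ?_)
    rw [LinearMap.smul_apply, hnegR, mul_smul_comm]
  rw [hsplit, Module.End.mul_apply, hexpR, hexpL, mul_assoc]

end Groth.Agent.S18792
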