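import Groth.Statements.S18887
-- import your own Groth.Agent.* helpers here

set_option autoImplicit false
universe u v
open DblCov

namespace Groth.Agent.S18887

/-- Let A be a commutative ring in which 2 is invertible and B a commutative A-algebra which is free of
rank 2 as an A-module and whose trace form tr : B → A has kernel free of rank 1 over A. Then σ(b) =
tr(b) − b defines an A-algebra endomorphism σ of B with σ ≠ id and σ ∘ σ = id, and the elements
fixed by σ are exactly the image of A in B. -/
theorem result {A : Type u} {B : Type v} [CommRing A] [CommRing B]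
    [Algebra A B] (h2 : IsUnit (2 : A)) [Module.Free A B] [Module.Finite A B]
    (hrk : Module.finrank A B = 2)
    [Module.Free A (LinearMap.ker (Algebra.trace A B))]
    (hker : Module.finrank A (LinearMap.ker (Algebra.trace A B)) = 1) :
    ∃ σ : B →ₐ[A] B, (∀ b : B, σ b = algebraMap A B (Algebra.trace A B b) - b) ∧
      σ ≠ AlgHom.id A B ∧ σ.comp σ = AlgHom.id A B ∧
      ∀ b : B, σ b = b ↔ b ∈ Set.range (algebraMap A B) := by
  classical
  have hnt : Nontrivial A := by
    by_contra h
    rw [not_nontrivial_iff_subsingleton] at h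
    rw [Module.finrank_subsingleton] at hrk
    exact absurd hrk (by norm_num)
  obtain ⟨u2, hu2⟩ := h2
  have h2u : (2 : A) * ((u2⁻¹ : Aˣ) : A) = 1 := by rw [← hu2, Units.mul_inv]
  have hKfin : Module.Finite A (LinearMap.ker (Algebra.trace A B)) :=
    Module.finite_of_finrank_pos (by rw [hker]; norm_num)
  let bK := Module.finBasisOfFinrankEq A (LinearMap.ker (Algebra.trace A B)) hker
  set t : B := ((bK 0 : LinearMap.ker (Algebra.trace A B)) : B) with ht_def
  have htt : Algebra.trace A B t = 0 := (bK 0).2
  have hKrep : ∀ k : LinearMap.ker (Algebra.trace A B), (k : B) = (bK.repr k 0) • t := by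
    intro k
    conv_lhs => rw [← bK.sum_repr k]
    simp [ht_def]
  have hKuniq : ∀ c : A, c • t = 0 → c = 0 := by
    intro c hc
    have h1 : c • bK 0 = 0 := Subtype.ext (by simpa [ht_def] using hc)
    have := congrArg (fun k => bK.repr k 0) h1
    simpa using this
  have htr1 : ∀ x : A, Algebra.trace A B (algebraMap A B x) = 2 * x := by
    intro x
    rw [Algebra.trace_algebraMap, hrk, nsmul_eq_mul]
    norm_num
  have htrxy : ∀ x y : A, Algebra.trace A B (algebraMap A B x + y • t) = 2 * x := by
    intro x y
    rw [map_add, map_smul, htt, smul_zero, add_zero, htr1]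
  have hdec : ∀ b : B, ∃ x y : A, b = algebraMap A B x + y • t := by
    intro b
    refine ⟨((u2⁻¹ : Aˣ) : A) * Algebra.trace A B b, ?_⟩
    have hmem : b - algebraMap A B (((u2⁻¹ : Aˣ) : A) * Algebra.trace A B b) ∈
        LinearMap.ker (Algebra.trace A B) := by
      rw [LinearMap.mem_ker, map_sub, htr1]
      linear_combination (-(Algebra.trace A B b)) * h2u
    refine ⟨bK.repr ⟨_, hmem⟩ 0, ?_⟩
    have := hKrep ⟨_, hmem⟩
    simp only at this
    rw [← this]; abel
  have huniq : ∀ x y : A, algebraMap A B x + y • t = 0 → x = 0 ∧ y = 0 := by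
    intro x y h
    have h1 := congrArg (Algebra.trace A B) h
    rw [htrxy, map_zero] at h1
    have hx : x = 0 := by
      have := congrArg (fun z => ((u2⁻¹ : Aˣ) : A) * z) h1
      simp only [mul_zero] at this
      rw [← this]
      linear_combination (-x) * h2u
    subst hx
    rw [map_zero, zero_add] at h
    exact ⟨rfl, hKuniq y h⟩
  -- basis {1, t}
  let v : Fin 2 → B := ![1, t]
  have hli : LinearIndependent A v := by
    rw [Fintype.linearIndependent_iff]
    intro g hg
    rw [Fin.sum_univ_two] at hg
    simp only [v, Matrix.cons_val_zero, Matrix.cons_val_one] at hg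
    rw [← Algebra.algebraMap_eq_smul_one] at hg
    obtain ⟨h0, h1⟩ := huniq _ _ hg
    intro i; fin_cases i
    · exact h0
    · exact h1
  have hsp : ⊤ ≤ Submodule.span A (Set.range v) := by
    intro b _
    obtain ⟨x, y, rfl⟩ := hdec b
    rw [Algebra.algebraMap_eq_smul_one]
    apply Submodule.add_mem
    · exact Submodule.smul_mem _ _ (Submodule.subset_span ⟨0, rfl⟩)
    · exact Submodule.smul_mem _ _ (Submodule.subset_span ⟨1, rfl⟩)
  let bB := Module.Basis.mk hli hsp
  obtain ⟨α, β, hαβ⟩ := hdec (t * t)
  have hβ : β = 0 := by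
    have := Algebra.trace_eq_matrix_trace bB t
    rw [htt, Matrix.trace_fin_two, Algebra.leftMulMatrix_eq_repr_mul,
      Algebra.leftMulMatrix_eq_repr_mul] at this
    have hb0 : bB 0 = 1 := by simp [bB, v]
    have hb1 : bB 1 = t := by simp [bB, v]
    rw [hb0, hb1, mul_one, hαβ, Algebra.algebraMap_eq_smul_one, ← hb0, ← hb1] at this
    simp only [map_add, map_smul, Module.Basis.repr_self] at this
    simp at this
    exact this.symm
  rw [hβ, zero_smul, add_zero] at hαβ
  have hdec' : ∀ b : B, ∃ x y : A, b = algebraMap A B x + algebraMap A B y * t := by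
    intro b
    obtain ⟨x, y, h⟩ := hdec b
    exact ⟨x, y, by rw [h, Algebra.smul_def]⟩
  let σL : B →ₗ[A] B := (Algebra.linearMap A B).comp (Algebra.trace A B) - LinearMap.id
  have hσL : ∀ b, σL b = algebraMap A B (Algebra.trace A B b) - b := fun b => rfl
  have hσf : ∀ x y : A, σL (algebraMap A B x + algebraMap A B y * t) =
      algebraMap A B x - algebraMap A B y * t := by
    intro x y
    rw [hσL, ← Algebra.smul_def, htrxy, map_mul, map_ofNat]
    rw [Algebra.smul_def]
    ring
  have hprod : ∀ x y u v : A, (algebraMap A B x + algebraMap A B y * t) *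
      (algebraMap A B u + algebraMap A B v * t) =
      algebraMap A B (x * u + y * v * α) + algebraMap A B (x * v + y * u) * t := by
    intro x y u v
    simp only [map_add, map_mul]
    linear_combination (algebraMap A B y * algebraMap A B v) * hαβ
  have hαβ' : t * t = algebraMap A B α := by rw [hαβ]
  let σ : B →ₐ[A] B := AlgHom.ofLinearMap σL (by
      have := hσf 1 0
      simpa using this) (by
      intro b c
      obtain ⟨x, y, rfl⟩ := hdec' b
      obtain ⟨u, v, rfl⟩ := hdec' c
      rw [hprod, hσf, hσf, hσf]
      simp only [map_add, map_mul]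
      linear_combination (-(algebraMap A B y * algebraMap A B v)) * hαβ')
  have hσ : ∀ b, σ b = σL b := fun b => rfl
  have h2ne : (2 : A) ≠ 0 := by
    intro h; rw [h, zero_mul] at h2u; exact zero_ne_one h2u
  refine ⟨σ, fun b => rfl, ?_, ?_, ?_⟩
  · intro hid
    have h1 : σ t = t := by rw [hid]; rfl
    rw [hσ] at h1
    have h3 := hσf 0 1
    simp only [map_zero, map_one, one_mul, zero_add, zero_sub] at h3
    rw [h3] at h1
    have h4 : (2 : A) • t = 0 := by
      rw [two_smul]; nth_rw 1 [← h1]; exact neg_add_cancel t
    exact h2ne (hKuniq 2 h4)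
  · apply AlgHom.ext
    intro b
    obtain ⟨x, y, rfl⟩ := hdec' b
    simp only [AlgHom.comp_apply, AlgHom.id_apply, hσ]
    rw [hσf]
    have : algebraMap A B x - algebraMap A B y * t = algebraMap A B x + algebraMap A B (-y) * t := by
      rw [map_neg]; ring
    rw [this, hσf, map_neg]; ring
  · intro b
    constructor
    · intro hb
      obtain ⟨x, y, rfl⟩ := hdec' b
      rw [hσ, hσf] at hb
      have h5 : (2 * y) • t = 0 := by
        rw [Algebra.smul_def, map_mul, map_ofNat]
        linear_combination (-1 : B) * hb
      have hy : y = 0 := by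
        have h6 := hKuniq _ h5
        linear_combination (-y) * h2u + ((u2⁻¹ : Aˣ) : A) * h6
      exact ⟨x, by rw [hy, map_zero, zero_mul, add_zero]⟩
    · rintro ⟨x, rfl⟩
      have := hσf x 0
      simp only [map_zero, zero_mul, add_zero, sub_zero] at this
      rw [hσ, this]

end Groth.Agent.S18887
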