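import Groth.Statements.S18890
import Mathlib.RepresentationTheory.Invariants
-- import your own Groth.Agent.* helpers here

set_option autoImplicit false
universe u v w w'
open CAlg

namespace Groth.Agent.S18890

/-- Let R be a commutative ring, G a finite group whose order is invertible in R, M an R-module with an
R-linear action ρ of G and N an arbitrary R-module. Then the natural map M^G ⊗_R N → M ⊗_R N induced
by the inclusion of the invariants is injective, and its image is the submodule of invariants of M
⊗_R N under the action ρ ⊗ 1 (G acting on the first factor). (The source lets G be a group of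
R-automorphisms of M; a possibly non-faithful linear action changes nothing.) -/
theorem result {R : Type u} [CommRing R]
    {G : Type v} [Group G] [Finite G] (hG : IsUnit ((Nat.card G : ℕ) : R))
    {M : Type w} {N : Type w'} [AddCommGroup M] [Module R M] [AddCommGroup N] [Module R N]
    (ρ : Representation R G M) :
    Function.Injective (LinearMap.rTensor N ρ.invariants.subtype) ∧
      LinearMap.range (LinearMap.rTensor N ρ.invariants.subtype) =
        (ρ.tprod (Representation.trivial R G N)).invariants := by
  classical
  have := Fintype.ofFinite G
  obtain ⟨u, hu⟩ := hG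
  set c : R := ((u⁻¹ : Rˣ) : R) with hcdef
  have hc : c * (Fintype.card G : R) = 1 := by
    rw [← Nat.card_eq_fintype_card, ← hu, hcdef, Units.inv_mul]
  let P : M →ₗ[R] M := c • ∑ g : G, ρ g
  have hPapp : ∀ v, P v = c • ∑ g : G, ρ g v := by
    intro v; simp [P, LinearMap.sum_apply]
  have hPinv : ∀ v, P v ∈ ρ.invariants := by
    intro v h
    rw [hPapp, map_smul, map_sum]
    congr 1
    simp_rw [← Module.End.mul_apply, ← map_mul]
    exact Fintype.sum_bijective (h * ·) (Group.mulLeft_bijective h) _ _ (fun g => rfl)
  have hPid : ∀ v ∈ ρ.invariants, P v = v := by
    intro v hv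
    rw [hPapp]
    have : ∀ g : G, ρ g v = v := (ρ.mem_invariants v).mp hv
    simp_rw [this]
    rw [Finset.sum_const, Finset.card_univ, ← Nat.cast_smul_eq_nsmul R, smul_smul, hc, one_smul]
  let e : M →ₗ[R] ρ.invariants := LinearMap.codRestrict ρ.invariants P hPinv
  have he : e ∘ₗ ρ.invariants.subtype = LinearMap.id := by
    ext ⟨v, hv⟩
    simp [e, hPid v hv]
  have hse : ρ.invariants.subtype ∘ₗ e = P := by
    ext v; rfl
  have htriv : ∀ g : G, (Representation.trivial R G N) g = LinearMap.id := by
    intro g; ext n; simp [Representation.trivial_apply]
  constructor
  · intro x y hxy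
    have := congrArg (LinearMap.rTensor N e) hxy
    rw [← LinearMap.comp_apply, ← LinearMap.comp_apply, ← LinearMap.rTensor_comp, he,
      LinearMap.rTensor_id, LinearMap.id_apply, LinearMap.id_apply] at this
    exact this
  · apply le_antisymm
    · rintro _ ⟨y, rfl⟩ g
      rw [Representation.tprod_apply, htriv]
      induction y using TensorProduct.induction_on with
      | zero => simp
      | tmul v n =>
        simp only [LinearMap.rTensor_tmul, TensorProduct.map_tmul, LinearMap.id_apply,
          Submodule.subtype_apply]
        rw [v.2 g]
      | add a b ha hb => simp only [map_add, ha, hb]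
    · intro z hz
      have hPz : P.rTensor N z = z := by
        have hlin : P.rTensor N = c • ∑ g : G, (ρ g).rTensor N := by
          apply TensorProduct.ext'
          intro m n
          simp [P, LinearMap.sum_apply, TensorProduct.smul_tmul', TensorProduct.sum_tmul]
        rw [hlin, LinearMap.smul_apply, LinearMap.sum_apply]
        have hg : ∀ g : G, (ρ g).rTensor N z = z := by
          intro g
          have := hz g
          rw [Representation.tprod_apply, htriv] at this
          exact this
        simp_rw [hg]
        rw [Finset.sum_const, Finset.card_univ, ← Nat.cast_smul_eq_nsmul R, smul_smul, hc, one_smul]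
      refine ⟨e.rTensor N z, ?_⟩
      rw [← LinearMap.comp_apply, ← LinearMap.rTensor_comp, hse, hPz]

end Groth.Agent.S18890
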