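import Groth.Statements.S18899
import Mathlib.Algebra.Polynomial.GroupRingAction
import Mathlib.Algebra.Polynomial.BigOperators
-- import your own Groth.Agent.* helpers here

set_option autoImplicit false
universe u v w
open CAlg

namespace Groth.Agent.S18899

open Polynomial in
theorem key_exists {R : Type*} [CommRing R] {G : Type*} [Group G] [Fintype G]
    [MulSemiringAction G R] {L : Type*} [CommRing L] [IsDomain L] (φ₁ φ₂ : R →+* L)
    (h : ∀ r : R, (∀ g : G, g • r = r) → φ₁ r = φ₂ r) (x : R) :
    ∃ g : G, φ₂ x = φ₁ (g • x) := by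
  classical
  have hmap : (prodXSubSMul G R x).map φ₁ = (prodXSubSMul G R x).map φ₂ := by
    ext n
    rw [Polynomial.coeff_map, Polynomial.coeff_map]
    exact h _ (fun g => prodXSubSMul.coeff G R x g n)
  have h0 : ((prodXSubSMul G R x).map φ₁).eval (φ₂ x) = 0 := by
    rw [hmap, Polynomial.eval_map, Polynomial.eval₂_at_apply, prodXSubSMul.eval, map_zero]
  unfold prodXSubSMul at h0
  rw [Polynomial.map_prod, Polynomial.eval_prod, Finset.prod_eq_zero_iff] at h0
  obtain ⟨gbar, _, hg⟩ := h0
  induction gbar using QuotientGroup.induction_on with | H g => ?_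
  refine ⟨g, ?_⟩
  rw [Polynomial.map_sub, Polynomial.map_X, Polynomial.map_C, Polynomial.eval_sub,
    Polynomial.eval_X, Polynomial.eval_C, sub_eq_zero] at hg
  rw [hg]
  rfl


/-- Let A be a commutative ring on which a finite group G acts by ring automorphisms, with ring of
invariants A^G, and let K be a field. If two ring homomorphisms f₁, f₂ : A → K have the same
restriction to A^G, then f₂ = f₁ ∘ γ for some γ ∈ G. -/
theorem result {A : Type u} [CommRing A] {G : Type v} [Group G] [Finite G]
    [MulSemiringAction G A] {K : Type w} [Field K] (f₁ f₂ : A →+* K)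
    (h : ∀ a : A, (∀ g : G, g • a = a) → f₁ a = f₂ a) :
    ∃ γ : G, ∀ a : A, f₂ a = f₁ (γ • a) := by
  classical
  have := Fintype.ofFinite G
  by_contra hcon
  push Not at hcon
  choose a ha using hcon
  let e : G ≃ Fin (Fintype.card G) := Fintype.equivFin G
  let r : Polynomial A := ∑ k : G, Polynomial.C (a k) * Polynomial.X ^ (e k : ℕ)
  have hinv : ∀ p : Polynomial A, (∀ γ : G, γ • p = p) →
      Polynomial.mapRingHom f₁ p = Polynomial.mapRingHom f₂ p := by
    intro p hp
    ext n
    simp only [Polynomial.coe_mapRingHom, Polynomial.coeff_map]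
    apply h
    intro γ
    rw [← Polynomial.coeff_smul, hp γ]
  obtain ⟨g, hg⟩ := key_exists (G := G) (Polynomial.mapRingHom f₁) (Polynomial.mapRingHom f₂) hinv r
  have hc := congrArg (fun p => Polynomial.coeff p (e g : ℕ)) hg
  simp only [Polynomial.coe_mapRingHom, Polynomial.coeff_map, Polynomial.coeff_smul] at hc
  have hr : r.coeff (e g : ℕ) = a g := by
    simp only [r, Polynomial.finsetSum_coeff, Polynomial.coeff_C_mul_X_pow]
    rw [Finset.sum_eq_single g]
    · simp
    · intro k _ hk
      rw [if_neg]
      intro heq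
      exact hk (e.injective (Fin.ext heq)).symm
    · simp
  rw [hr] at hc
  exact ha g hc

end Groth.Agent.S18899
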