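import Groth.Statements.S18947
-- import your own Groth.Agent.* helpers here

set_option autoImplicit false
universe u v
open GalTw

namespace Groth.Agent.S18947

/-- Let a group Γ act on a group A by group automorphisms and let z be a 1-cocycle of Γ with values in
A. The underlying set of A with the twisted action σ • a = z(σ) · σ(a) is a transitive Γ-set if and
only if the map z : Γ → A is surjective. (In the source Γ is the absolute Galois group of a field k,
A the geometric points of a finite étale group scheme G, the twisted set is the set of geometric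
points of the G-torsor attached to z, and transitivity is connectedness of that torsor; the
equivalence is stated here for an arbitrary action, with no finiteness or continuity hypothesis.) -/
theorem result {Γ : Type u} {A : Type v} [Group Γ] [Group A]
    [MulDistribMulAction Γ A] (z : GpH1.OneCocycle Γ A) :
    MulAction.IsPretransitive Γ (GalTw.Tw z A) ↔ Function.Surjective z.1 := by
  have key : ∀ σ : Γ, σ • (GalTw.Tw.mk z (1 : A)) = GalTw.Tw.mk z (z σ) := by
    intro σ
    rw [GalTw.Tw.smul_def, smul_one, smul_eq_mul, mul_one]
  constructor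
  · intro hp b
    obtain ⟨σ, hσ⟩ := hp.exists_smul_eq (GalTw.Tw.mk z (1 : A)) (GalTw.Tw.mk z b)
    rw [key] at hσ
    exact ⟨σ, (GalTw.Tw.mk z).injective hσ⟩
  · intro hs
    refine ⟨fun x y => ?_⟩
    obtain ⟨σ₀, h₀⟩ := hs ((GalTw.Tw.mk z).symm x)
    obtain ⟨σ₁, h₁⟩ := hs ((GalTw.Tw.mk z).symm y)
    refine ⟨σ₁ * σ₀⁻¹, ?_⟩
    have hx : x = σ₀ • GalTw.Tw.mk z (1 : A) := by
      rw [key]
      change x = GalTw.Tw.mk z (z.1 σ₀)
      rw [h₀, Equiv.apply_symm_apply]
    have hy : y = σ₁ • GalTw.Tw.mk z (1 : A) := by
      rw [key]
      change y = GalTw.Tw.mk z (z.1 σ₁)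
      rw [h₁, Equiv.apply_symm_apply]
    rw [hx, hy, smul_smul, mul_assoc, inv_mul_cancel, mul_one]

end Groth.Agent.S18947
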