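import Groth.Statements.S18948
-- import your own Groth.Agent.* helpers here

set_option autoImplicit false
universe u v
open CExt

namespace Groth.Agent.S18948

/-- Let f : E → G be a surjective homomorphism of groups whose kernel is central in E, and let x ∈ E.
Then f maps the conjugacy class of x bijectively onto the conjugacy class of f(x) if and only if
every element of G commuting with f(x) is the image of some element of E commuting with x. (In the
source E → G is the central extension, with kernel the roots of unity, attached to a Brauer class of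
the classifying stack of a finite tame étale group scheme, and a conjugacy class of E mapping
bijectively onto a given class of G is a marking; the equivalence is stated here for an arbitrary
central extension of abstract groups.) -/
theorem result {E : Type u} {G : Type v} [Group E] [Group G]
    (f : E →* G) (hf : Function.Surjective f) (hker : f.ker ≤ Subgroup.center E) (x : E) :
    Set.BijOn f (MulAction.orbit (ConjAct E) x) (MulAction.orbit (ConjAct G) (f x)) ↔
      ∀ g : G, g * f x = f x * g → ∃ e : E, f e = g ∧ e * x = x * e := by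
  have hcomm : ∀ k ∈ f.ker, ∀ y : E, k * y = y * k := by
    intro k hk y
    exact ((Subgroup.mem_center_iff.mp (hker hk)) y).symm
  have memE : ∀ y : E, y ∈ MulAction.orbit (ConjAct E) x ↔ ∃ c : E, c * x * c⁻¹ = y := by
    intro y
    rw [ConjAct.mem_orbit_conjAct, isConj_comm, isConj_iff]
  have memG : ∀ y : G, y ∈ MulAction.orbit (ConjAct G) (f x) ↔ ∃ c : G, c * f x * c⁻¹ = y := by
    intro y
    rw [ConjAct.mem_orbit_conjAct, isConj_comm, isConj_iff]
  constructor
  · intro hbij g hg
    obtain ⟨w, rfl⟩ := hf g
    refine ⟨w, rfl, ?_⟩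
    have h1 : w * x * w⁻¹ ∈ MulAction.orbit (ConjAct E) x := (memE _).2 ⟨w, rfl⟩
    have h2 : x ∈ MulAction.orbit (ConjAct E) x := MulAction.mem_orbit_self x
    have h3 : f (w * x * w⁻¹) = f x := by
      rw [map_mul, map_mul, map_inv, hg, mul_assoc, mul_inv_cancel, mul_one]
    have h4 := hbij.injOn h1 h2 h3
    calc w * x = w * x * w⁻¹ * w := by rw [inv_mul_cancel_right]
      _ = x * w := by rw [h4]
  · intro H
    refine ⟨?_, ?_, ?_⟩
    · intro y hy
      obtain ⟨c, rfl⟩ := (memE y).1 hy
      exact (memG _).2 ⟨f c, by rw [map_mul, map_mul, map_inv]⟩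
    · intro y hy z hz hyz
      obtain ⟨c, rfl⟩ := (memE y).1 hy
      obtain ⟨d, rfl⟩ := (memE z).1 hz
      -- w = d⁻¹ * c
      have hfw : f (d⁻¹ * c) * f x = f x * f (d⁻¹ * c) := by
        simp only [map_mul, map_inv] at hyz ⊢
        have := congrArg (fun t => (f d)⁻¹ * t * f c) hyz
        simp only [mul_assoc, inv_mul_cancel_left, inv_mul_cancel, mul_one] at this
        simp only [mul_assoc]
        rw [← this]
      obtain ⟨e, hfe, hex⟩ := H _ hfw
      have hk : e⁻¹ * (d⁻¹ * c) ∈ f.ker := by
        rw [MonoidHom.mem_ker, map_mul, map_inv, hfe, inv_mul_cancel]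
      set k := e⁻¹ * (d⁻¹ * c) with hkdef
      have hc : c = d * e * k := by
        rw [hkdef]; simp only [mul_assoc, mul_inv_cancel_left]
      have hkx : k * x = x * k := hcomm k hk x
      rw [hc]
      simp only [mul_inv_rev, mul_assoc]
      congr 1
      calc e * (k * (x * (k⁻¹ * (e⁻¹ * d⁻¹)))) = e * ((k * x) * k⁻¹) * (e⁻¹ * d⁻¹) := by
            simp only [mul_assoc]
        _ = e * x * e⁻¹ * d⁻¹ := by rw [hkx, mul_inv_cancel_right]; simp only [mul_assoc]
        _ = x * d⁻¹ := by rw [hex, mul_inv_cancel_right]
        _ = x * (d⁻¹) := rfl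
    · intro y hy
      obtain ⟨c, rfl⟩ := (memG y).1 hy
      obtain ⟨w, rfl⟩ := hf c
      exact ⟨w * x * w⁻¹, (memE _).2 ⟨w, rfl⟩, by rw [map_mul, map_mul, map_inv]⟩

end Groth.Agent.S18948
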