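import Groth.Statements.S18949
-- import your own Groth.Agent.* helpers here

set_option autoImplicit false
universe u v
open CExt

namespace Groth.Agent.S18949

/-- Automorphisms over the base: let f : E → G be a surjective homomorphism of groups with central
kernel A. For every homomorphism χ : G → A the map e ↦ χ(f(e)) · e is an endomorphism of E over G
which is the identity on A; and every endomorphism α of E with f ∘ α = f and α equal to the identity
on A is of this form for exactly one χ. (In the source this identifies the automorphisms of a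
central extension fixing its kernel with Hom(G, A), for extensions of profinite étale group schemes
over a field; stated here for abstract groups.) -/
theorem result {E : Type u} {G : Type v} [Group E] [Group G]
    (f : E →* G) (hf : Function.Surjective f) (hker : f.ker ≤ Subgroup.center E) :
    (∀ χ : G →* f.ker, ∃ α : E →* E, f.comp α = f ∧ (∀ a ∈ f.ker, α a = a) ∧
        ∀ e : E, α e = (χ (f e) : E) * e) ∧
      ∀ α : E →* E, f.comp α = f → (∀ a ∈ f.ker, α a = a) →
        ∃! χ : G →* f.ker, ∀ e : E, α e = (χ (f e) : E) * e := by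
  have hcomm : ∀ k ∈ f.ker, ∀ x : E, k * x = x * k := by
    intro k hk x
    exact ((Subgroup.mem_center_iff.mp (hker hk)) x).symm
  refine ⟨?_, ?_⟩
  · intro χ
    refine ⟨MonoidHom.mk' (fun e => (χ (f e) : E) * e) ?_, ?_, ?_, ?_⟩
    · intro a b
      simp only [map_mul, Subgroup.coe_mul]
      have h1 := hcomm (χ (f b) : E) (χ (f b)).2 a
      calc (χ (f a) : E) * (χ (f b) : E) * (a * b)
          = (χ (f a) : E) * ((χ (f b) : E) * a) * b := by simp only [mul_assoc]
        _ = (χ (f a) : E) * (a * (χ (f b) : E)) * b := by rw [h1]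
        _ = (χ (f a) : E) * a * ((χ (f b) : E) * b) := by simp only [mul_assoc]
    · ext e
      simp only [MonoidHom.comp_apply, MonoidHom.mk'_apply, map_mul]
      have : f (χ (f e) : E) = 1 := (χ (f e)).2
      rw [this, one_mul]
    · intro a ha
      simp only [MonoidHom.mk'_apply]
      have : f a = 1 := ha
      rw [this, map_one, Subgroup.coe_one, one_mul]
    · intro e
      rfl
  · intro α hα hαA
    have hfα : ∀ e, f (α e) = f e := fun e => by
      rw [← MonoidHom.comp_apply, hα]
    let φ : E → E := fun e => α e * e⁻¹
    have hφker : ∀ e, φ e ∈ f.ker := by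
      intro e
      simp only [φ, MonoidHom.mem_ker, map_mul, map_inv, hfα, mul_inv_cancel]
    have hφwd : ∀ e e', f e = f e' → φ e = φ e' := by
      intro e e' hee'
      have hk : e⁻¹ * e' ∈ f.ker := by
        rw [MonoidHom.mem_ker, map_mul, map_inv, hee', inv_mul_cancel]
      have hαk := hαA _ hk
      have he' : e' = e * (e⁻¹ * e') := (mul_inv_cancel_left e e').symm
      simp only [φ]
      calc α e * e⁻¹ = α e * (α (e⁻¹ * e') * (e⁻¹ * e')⁻¹) * e⁻¹ := by
            rw [hαk, mul_inv_cancel, mul_one]
        _ = α (e * (e⁻¹ * e')) * (e * (e⁻¹ * e'))⁻¹ := by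
            simp only [map_mul, mul_inv_rev, mul_assoc]
        _ = α e' * e'⁻¹ := by rw [← he']
    have hφmul : ∀ a b, φ (a * b) = φ a * φ b := by
      intro a b
      have h1 := hcomm (φ b) (hφker b) a⁻¹
      simp only [φ] at h1 ⊢
      calc α (a * b) * (a * b)⁻¹ = α a * ((α b * b⁻¹) * a⁻¹) := by
            rw [map_mul, mul_inv_rev]; simp only [mul_assoc]
        _ = α a * (a⁻¹ * (α b * b⁻¹)) := by rw [h1]
        _ = α a * a⁻¹ * (α b * b⁻¹) := by simp only [mul_assoc]
    let s : G → E := Function.surjInv hf
    have hs : ∀ g, f (s g) = g := Function.surjInv_eq hf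
    let χ : G →* f.ker := MonoidHom.mk' (fun g => ⟨φ (s g), hφker (s g)⟩) (by
      intro a b
      apply Subtype.ext
      simp only [Subgroup.coe_mul]
      rw [← hφmul]
      apply hφwd
      rw [map_mul, hs, hs, hs])
    have hχ : ∀ e, (χ (f e) : E) = φ e := by
      intro e
      exact hφwd _ _ (hs (f e))
    refine ⟨χ, ?_, ?_⟩
    · intro e
      rw [hχ]
      simp only [φ, inv_mul_cancel_right]
    · intro χ' hχ'
      ext g
      obtain ⟨e, rfl⟩ := hf g
      have h1 := hχ' e
      rw [hχ]
      simp only [φ]
      rw [h1, mul_inv_cancel_right]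

end Groth.Agent.S18949
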