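import Groth.Statements.S18950
-- import your own Groth.Agent.* helpers here

set_option autoImplicit false
universe u v
open CExt

namespace Groth.Agent.S18950

/-- Let f : E → G be a homomorphism of groups whose kernel is central in E, let α be an endomorphism of
E with f ∘ α = f which is the identity on the kernel, and let S ⊆ E be a subset fixed pointwise by α
such that f(S) generates G. Then α is the identity. (In the source S is the marking of a marked
central extension of finite tame étale group schemes and the hypothesis is that the marked conjugacy
classes generate G; the conclusion there is that a morphism of marked extensions inducing the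
identity on the kernel and on G is unique.) -/
theorem result {E : Type u} {G : Type v} [Group E] [Group G]
    (f : E →* G) (hker : f.ker ≤ Subgroup.center E) (α : E →* E) (hα : f.comp α = f)
    (hαA : ∀ a ∈ f.ker, α a = a) (S : Set E) (hS : Subgroup.closure (f '' S) = ⊤)
    (hαS : ∀ s ∈ S, α s = s) : α = MonoidHom.id E := by
  -- the fixed subgroup of α
  let H : Subgroup E := MonoidHom.eqLocus α (MonoidHom.id E)
  have hSH : Subgroup.closure S ≤ H := by
    rw [Subgroup.closure_le]
    intro s hs
    exact hαS s hs
  have hmap : (Subgroup.closure S).map f = ⊤ := by
    rw [MonoidHom.map_closure]; exact hS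
  ext e
  have he : f e ∈ (Subgroup.closure S).map f := by rw [hmap]; trivial
  obtain ⟨h, hh, hfe⟩ := he
  have hk : h⁻¹ * e ∈ f.ker := by
    rw [MonoidHom.mem_ker, map_mul, map_inv, hfe, inv_mul_cancel]
  have h1 : α h = h := hSH hh
  have h2 : α (h⁻¹ * e) = h⁻¹ * e := hαA _ hk
  have : e = h * (h⁻¹ * e) := (mul_inv_cancel_left h e).symm
  simp only [MonoidHom.id_apply]
  calc α e = α (h * (h⁻¹ * e)) := by rw [← this]
    _ = h * (h⁻¹ * e) := by rw [map_mul, h1, h2]
    _ = e := this.symm

end Groth.Agent.S18950
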