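import Groth.Statements.S18951
-- import your own Groth.Agent.* helpers here

set_option autoImplicit false
universe u
open OrbPic

namespace Groth.Agent.S18951

/-- Let G be a group and C ⊆ G a subset that generates G. Then the projection (χ, w) ↦ w from the group
of geometric partial orbifold line bundles with respect to C to functions G → ℚ is injective, its
image contains every conjugation-invariant integer-valued function vanishing at 1 and outside C, and
the group is torsion-free. (The source works with the geometric points of a tame finite étale group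
scheme, characters with values in roots of unity and weights on conjugacy classes of the Tate twist;
here these are identified with a group, homomorphisms to ℚ/ℤ and class functions as the source does
after choosing roots of unity. The case C = G ∖ {1} is the statement for full orbifold line
bundles.) -/
theorem result (G : Type u) [Group G] (C : Set G)
    (hC : Subgroup.closure C = ⊤) :
    Set.InjOn (fun p : (Additive G →+ W4c6brauerbgmalle.QmodZ) × (G → ℚ) => p.2) (W4c6brauerbgmalle.picOrb G C) ∧
      (∀ w ∈ W4c6brauerbgmalle.intWeights G C, ((0 : Additive G →+ W4c6brauerbgmalle.QmodZ), w) ∈ W4c6brauerbgmalle.picOrb G C) ∧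
      ∀ (n : ℕ) (p : (Additive G →+ W4c6brauerbgmalle.QmodZ) × (G → ℚ)), p ∈ W4c6brauerbgmalle.picOrb G C → n ≠ 0 →
        n • p = 0 → p = 0 := by
  classical
  have hinj : Set.InjOn (fun p : (Additive G →+ W4c6brauerbgmalle.QmodZ) × (G → ℚ) => p.2)
      (W4c6brauerbgmalle.picOrb G C) := by
    rintro ⟨χ, w⟩ ⟨h1, h2, h3, h4⟩ ⟨χ', w'⟩ ⟨h1', h2', h3', h4'⟩ hww
    simp only at hww
    subst hww
    simp only [Prod.mk.injEq, and_true]
    have key : ∀ g : G, χ (Additive.ofMul g) = χ' (Additive.ofMul g) := by
      intro g
      have hg : g ∈ Subgroup.closure C := by rw [hC]; trivial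
      induction hg using Subgroup.closure_induction with
      | mem y hy => exact (h4 y hy).symm.trans (h4' y hy)
      | one => rw [ofMul_one, map_zero, map_zero]
      | mul y z _ _ hy hz => rw [ofMul_mul, map_add, map_add, hy, hz]
      | inv y _ hy => rw [ofMul_inv, map_neg, map_neg, hy]
    exact AddMonoidHom.ext (fun x => key (Additive.toMul x))
  refine ⟨hinj, ?_, ?_⟩
  · rintro w ⟨h1, h2, h3, h4⟩
    refine ⟨h1, h2, h3, ?_⟩
    intro g _
    obtain ⟨n, hn⟩ := h4 g
    simp only [AddMonoidHom.zero_apply]
    show W4c6brauerbgmalle.toQmodZ (w g) = 0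
    rw [hn, W4c6brauerbgmalle.toQmodZ, QuotientAddGroup.mk'_apply, QuotientAddGroup.eq_zero_iff]
    exact ⟨n, by simp⟩
  · intro n p hp hn hnp
    apply hinj hp (W4c6brauerbgmalle.picOrb G C).zero_mem
    funext g
    have := congrArg (fun q => q.2 g) hnp
    simp only [Prod.smul_snd, Pi.smul_apply, Prod.snd_zero, Pi.zero_apply, nsmul_eq_mul] at this
    simp only [Prod.snd_zero, Pi.zero_apply]
    rcases mul_eq_zero.mp this with h | h
    · exact absurd (by exact_mod_cast h) hn
    · exact h

end Groth.Agent.S18951
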