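import Groth.Statements.S18952
import Mathlib.Tactic.Group
import Mathlib.Tactic.Abel
-- import your own Groth.Agent.* helpers here

set_option autoImplicit false
universe u
open OrbPic

namespace Groth.Agent.S18952

/-- Let G be a group and C ⊆ G a subset stable under conjugation. Then (χ, w) ↦ χ maps the group of
geometric partial orbifold line bundles with respect to C onto all characters G → ℚ/ℤ, and a pair in
its kernel (χ trivial) has w a conjugation-invariant integer-valued function vanishing at 1 and
outside C: with the inclusion of such functions this is the exact sequence 0 → Hom(C/conj, ℤ) → Pic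
→ Hom(G, ℚ/ℤ) → 0 over a separably closed field. (As in the source after a choice of roots of unity,
the group G stands for the geometric points of a tame finite étale group scheme, characters are
homomorphisms to ℚ/ℤ and weights are class functions on G.) -/
theorem result (G : Type u) [Group G] (C : Set G)
    (hC : ∀ g h : G, g ∈ C → h * g * h⁻¹ ∈ C) :
    (∀ χ : Additive G →+ W4c6brauerbgmalle.QmodZ, ∃ w : G → ℚ, (χ, w) ∈ W4c6brauerbgmalle.picOrb G C) ∧
      (∀ p : (Additive G →+ W4c6brauerbgmalle.QmodZ) × (G → ℚ), p ∈ W4c6brauerbgmalle.picOrb G C → p.1 = 0 →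
        p.2 ∈ W4c6brauerbgmalle.intWeights G C) := by
  classical
  have hC' : ∀ g h : G, h * g * h⁻¹ ∈ C ↔ g ∈ C := by
    intro g h
    constructor
    · intro hg
      have := hC _ h⁻¹ hg
      simpa [mul_assoc] using this
    · exact hC g h
  have hχconj : ∀ (χ : Additive G →+ W4c6brauerbgmalle.QmodZ) (g h : G),
      χ (Additive.ofMul (h * g * h⁻¹)) = χ (Additive.ofMul g) := by
    intro χ g h
    simp only [ofMul_mul, ofMul_inv, map_add, map_neg]
    abel
  refine ⟨?_, ?_⟩
  · intro χ
    let w : G → ℚ := fun g => if g ∈ C ∧ g ≠ 1 then (χ (Additive.ofMul g)).out else 0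
    refine ⟨w, ?_, ?_, ?_, ?_⟩
    · simp [w]
    · intro g hg
      simp [w, hg]
    · intro g h
      have e1 : (h * g * h⁻¹ ∈ C ∧ h * g * h⁻¹ ≠ 1) ↔ (g ∈ C ∧ g ≠ 1) := by
        rw [hC']
        constructor
        · rintro ⟨h1, h2⟩; refine ⟨h1, fun hg => h2 (by rw [hg]; group)⟩
        · rintro ⟨h1, h2⟩; refine ⟨h1, fun hg => h2 ?_⟩
          have : g = h⁻¹ * (h * g * h⁻¹) * h := by group
          rw [this, hg]; group
      simp only [w]
      by_cases hg : g ∈ C ∧ g ≠ 1
      · rw [if_pos (e1.mpr hg), if_pos hg, hχconj]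
      · rw [if_neg (fun h' => hg (e1.mp h')), if_neg hg]
    · intro g hg
      simp only [w]
      by_cases h1 : g = 1
      · subst h1
        simp
      · rw [if_pos ⟨hg, h1⟩]
        exact Quotient.out_eq _
  · rintro ⟨χ, w⟩ ⟨h1, h2, h3, h4⟩ hχ
    simp only at hχ
    subst hχ
    refine ⟨h1, h2, h3, ?_⟩
    intro g
    by_cases hg : g ∈ C
    · have := h4 g hg
      simp only [AddMonoidHom.zero_apply] at this
      have hmem : w g ∈ AddSubgroup.zmultiples (1 : ℚ) := by
        rwa [W4c6brauerbgmalle.toQmodZ, QuotientAddGroup.mk'_apply,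
          QuotientAddGroup.eq_zero_iff] at this
      obtain ⟨n, hn⟩ := hmem
      refine ⟨n, ?_⟩
      show w g = n
      rw [← hn]; simp
    · refine ⟨0, ?_⟩
      show w g = ((0 : ℤ) : ℚ)
      rw [show w g = 0 from h2 g hg]; simp

end Groth.Agent.S18952
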