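import Groth.Statements.S18953
import Mathlib.Tactic.Group
-- import your own Groth.Agent.* helpers here

set_option autoImplicit false
universe u v
open OrbPic

namespace Groth.Agent.S18953

/-- Let G₁ and G₂ be groups with subsets C₁ ⊆ G₁ and C₂ ⊆ G₂, and let C ⊆ G₁ × G₂ be the union of C₁ ×
{1} and {1} × C₂. Restricting the character and the weight along the two inclusions G₁ → G₁ × G₂ and
G₂ → G₁ × G₂ is a bijection from the geometric partial orbifold line bundles of G₁ × G₂ with respect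
to C onto pairs of geometric partial orbifold line bundles of G₁ with respect to C₁ and of G₂ with
respect to C₂. (As in the source after a choice of roots of unity, each group stands for the
geometric points of a tame finite étale group scheme, characters are homomorphisms to ℚ/ℤ and
weights are class functions; the source states the Galois-equivariant version, which follows by
taking invariants.) -/
theorem result (G₁ : Type u) (G₂ : Type v) [Group G₁] [Group G₂] (C₁ : Set G₁) (C₂ : Set G₂) :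
    Set.BijOn
      (fun p : (Additive (G₁ × G₂) →+ W4c6brauerbgmalle.QmodZ) × (G₁ × G₂ → ℚ) =>
        ((p.1.comp (MonoidHom.toAdditive (MonoidHom.inl G₁ G₂)), fun g => p.2 (g, 1)),
          (p.1.comp (MonoidHom.toAdditive (MonoidHom.inr G₁ G₂)), fun g => p.2 (1, g))))
      (W4c6brauerbgmalle.picOrb (G₁ × G₂) ((fun g => (g, (1 : G₂))) '' C₁ ∪ (fun g => ((1 : G₁), g)) '' C₂))
      ((W4c6brauerbgmalle.picOrb G₁ C₁ : Set _) ×ˢ (W4c6brauerbgmalle.picOrb G₂ C₂ : Set _)) := by
  classical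
  set Cp : Set (G₁ × G₂) := (fun g => (g, (1 : G₂))) '' C₁ ∪ (fun g => ((1 : G₁), g)) '' C₂ with hCp
  have memCp : ∀ (a : G₁) (b : G₂), (a, b) ∈ Cp ↔ (b = 1 ∧ a ∈ C₁) ∨ (a = 1 ∧ b ∈ C₂) := by
    intro a b
    simp only [hCp, Set.mem_union, Set.mem_image, Prod.mk.injEq]
    constructor
    · rintro (⟨x, hx, rfl, rfl⟩ | ⟨x, hx, rfl, rfl⟩)
      · exact Or.inl ⟨rfl, hx⟩
      · exact Or.inr ⟨rfl, hx⟩
    · rintro (⟨rfl, hx⟩ | ⟨rfl, hx⟩)
      · exact Or.inl ⟨a, hx, rfl, rfl⟩
      · exact Or.inr ⟨b, hx, rfl, rfl⟩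
  have conj1 : ∀ (g h : G₁), ((h, (1 : G₂)) * (g, 1) * (h, 1)⁻¹ : G₁ × G₂) = (h * g * h⁻¹, 1) := by
    intro g h; ext <;> simp
  have conj2 : ∀ (g h : G₂), (((1 : G₁), h) * (1, g) * (1, h)⁻¹ : G₁ × G₂) = (1, h * g * h⁻¹) := by
    intro g h; ext <;> simp
  refine ⟨?_, ?_, ?_⟩
  · -- maps to
    rintro ⟨χ, w⟩ ⟨h1, h2, h3, h4⟩
    simp only at h1 h2 h3 h4
    refine ⟨⟨h1, ?_, ?_, ?_⟩, ⟨h1, ?_, ?_, ?_⟩⟩
    · intro g hg
      show w (g, 1) = 0
      by_cases hg1 : g = 1
      · rw [hg1]; exact h1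
      · apply h2
        rw [memCp]; rintro (⟨-, h⟩ | ⟨h, -⟩)
        · exact hg h
        · exact hg1 h
    · intro g h
      show w (h * g * h⁻¹, 1) = w (g, 1)
      rw [← conj1]; exact h3 _ _
    · intro g hg
      show W4c6brauerbgmalle.toQmodZ (w (g, 1)) = χ (Additive.ofMul (g, 1))
      exact h4 _ ((memCp _ _).mpr (Or.inl ⟨rfl, hg⟩))
    · intro g hg
      show w (1, g) = 0
      by_cases hg1 : g = 1
      · rw [hg1]; exact h1
      · apply h2
        rw [memCp]; rintro (⟨h, -⟩ | ⟨-, h⟩)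
        · exact hg1 h
        · exact hg h
    · intro g h
      show w (1, h * g * h⁻¹) = w (1, g)
      rw [← conj2]; exact h3 _ _
    · intro g hg
      show W4c6brauerbgmalle.toQmodZ (w (1, g)) = χ (Additive.ofMul (1, g))
      exact h4 _ ((memCp _ _).mpr (Or.inr ⟨rfl, hg⟩))
  · -- injective
    rintro ⟨χ, w⟩ ⟨h1, h2, h3, h4⟩ ⟨χ', w'⟩ ⟨h1', h2', h3', h4'⟩ heq
    simp only [Prod.mk.injEq] at heq
    obtain ⟨⟨hχ1, hw1⟩, ⟨hχ2, hw2⟩⟩ := heq
    simp only at h2 h2'
    simp only [Prod.mk.injEq]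
    constructor
    · have k1 : ∀ g : G₁, χ (Additive.ofMul (g, 1)) = χ' (Additive.ofMul (g, 1)) :=
        fun g => DFunLike.congr_fun hχ1 (Additive.ofMul g)
      have k2 : ∀ g : G₂, χ (Additive.ofMul (1, g)) = χ' (Additive.ofMul (1, g)) :=
        fun g => DFunLike.congr_fun hχ2 (Additive.ofMul g)
      refine AddMonoidHom.ext (fun x => ?_)
      have hx : x = Additive.ofMul ((Additive.toMul x).1, (1 : G₂)) +
          Additive.ofMul ((1 : G₁), (Additive.toMul x).2) := by
        rw [← ofMul_mul, Prod.mk_mul_mk, mul_one, one_mul]; rfl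
      rw [hx, map_add, map_add, k1, k2]
    · funext ⟨a, b⟩
      by_cases hb : b = 1
      · subst hb; exact congrFun hw1 a
      · by_cases ha : a = 1
        · subst ha; exact congrFun hw2 b
        · have hn : (a, b) ∉ Cp := by
            rw [memCp]; rintro (⟨h, -⟩ | ⟨h, -⟩)
            · exact hb h
            · exact ha h
          rw [h2 _ hn, h2' _ hn]
  · -- surjective
    rintro ⟨⟨χ1, w1⟩, ⟨χ2, w2⟩⟩ ⟨⟨a1, a2, a3, a4⟩, ⟨b1, b2, b3, b4⟩⟩
    simp only at a1 a2 a3 a4 b1 b2 b3 b4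
    let χ : Additive (G₁ × G₂) →+ W4c6brauerbgmalle.QmodZ :=
      χ1.comp (MonoidHom.toAdditive (MonoidHom.fst G₁ G₂)) +
        χ2.comp (MonoidHom.toAdditive (MonoidHom.snd G₁ G₂))
    let w : G₁ × G₂ → ℚ := fun g => if g.2 = 1 then w1 g.1 else if g.1 = 1 then w2 g.2 else 0
    have hχ : ∀ (a : G₁) (b : G₂), χ (Additive.ofMul (a, b)) =
        χ1 (Additive.ofMul a) + χ2 (Additive.ofMul b) := fun a b => rfl
    refine ⟨(χ, w), ⟨?_, ?_, ?_, ?_⟩, ?_⟩
    · show w 1 = 0
      simp [w, a1]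
    · rintro ⟨a, b⟩ hn
      rw [memCp] at hn
      show w (a, b) = 0
      simp only [w]
      by_cases hb : b = 1
      · rw [if_pos hb]; exact a2 a (fun h => hn (Or.inl ⟨hb, h⟩))
      · rw [if_neg hb]
        by_cases ha : a = 1
        · rw [if_pos ha]; exact b2 b (fun h => hn (Or.inr ⟨ha, h⟩))
        · rw [if_neg ha]
    · rintro ⟨a, b⟩ ⟨c, d⟩
      show w ((c, d) * (a, b) * (c, d)⁻¹) = w (a, b)
      have e : ((c, d) * (a, b) * (c, d)⁻¹ : G₁ × G₂) = (c * a * c⁻¹, d * b * d⁻¹) := by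
        ext <;> simp
      rw [e]
      simp only [w]
      have eb : d * b * d⁻¹ = 1 ↔ b = 1 := by
        constructor
        · intro h
          have : b = d⁻¹ * (d * b * d⁻¹) * d := by group
          rw [this, h]; group
        · intro h; rw [h]; group
      have ea : c * a * c⁻¹ = 1 ↔ a = 1 := by
        constructor
        · intro h
          have : a = c⁻¹ * (c * a * c⁻¹) * c := by group
          rw [this, h]; group
        · intro h; rw [h]; group
      by_cases hb : b = 1
      · rw [if_pos (eb.mpr hb), if_pos hb, a3]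
      · rw [if_neg (fun h => hb (eb.mp h)), if_neg hb]
        by_cases ha : a = 1
        · rw [if_pos (ea.mpr ha), if_pos ha, b3]
        · rw [if_neg (fun h => ha (ea.mp h)), if_neg ha]
    · rintro ⟨a, b⟩ hab
      rw [memCp] at hab
      show W4c6brauerbgmalle.toQmodZ (w (a, b)) = χ (Additive.ofMul (a, b))
      rw [hχ]
      simp only [w]
      rcases hab with ⟨hb, ha⟩ | ⟨ha, hb⟩
      · subst hb
        rw [if_pos rfl, a4 a ha, ofMul_one, map_zero, add_zero]
      · subst ha
        by_cases hb1 : b = 1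
        · subst hb1
          simp [a1]
        · rw [if_neg hb1, if_pos rfl, b4 b hb, ofMul_one, map_zero, zero_add]
    · simp only [Prod.mk.injEq]
      refine ⟨⟨?_, ?_⟩, ⟨?_, ?_⟩⟩
      · refine AddMonoidHom.ext (fun x => ?_)
        show χ1 (Additive.ofMul (Additive.toMul x)) + χ2 (Additive.ofMul (1 : G₂)) = χ1 x
        rw [ofMul_one, map_zero, add_zero]; rfl
      · funext g
        simp [w]
      · refine AddMonoidHom.ext (fun x => ?_)
        show χ1 (Additive.ofMul (1 : G₁)) + χ2 (Additive.ofMul (Additive.toMul x)) = χ2 x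
        rw [ofMul_one, map_zero, zero_add]; rfl
      · funext g
        simp only [w]
        by_cases hg : g = 1
        · subst hg; rw [if_pos rfl, a1, b1]
        · rw [if_neg hg]; simp

end Groth.Agent.S18953
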