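import Groth.Statements.S18954
import Mathlib.Tactic.FieldSimp
-- import your own Groth.Agent.* helpers here

set_option autoImplicit false
universe u v w
open Classical
open BGCount

namespace Groth.Agent.S18954

/-- Let a finite group G act on a finite set X, let W be a finite set of orbits and f a function on
orbits with values in a field of characteristic zero. Then Σ_{O ∈ W} f(O)/|Stab(x_O)|, with x_O any
point of O, equals |G|⁻¹ · Σ f(orbit(x)) over the points x of X whose orbit lies in W. (In the
source X is the set of 1-cocycles of the absolute Galois group of a field in a finite étale group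
scheme G, acted on by the geometric points of G, the orbits are the isomorphism classes of G-torsors
and the stabilisers their automorphism groups; stated here for an arbitrary action of a finite group
on a finite set, the representative x_O being chosen by Quotient.out.) -/
theorem result {G : Type u} {X : Type v} (𝕜 : Type w)
    [Group G] [Fintype G] [MulAction G X] [Fintype X] [Field 𝕜] [CharZero 𝕜]
    (W : Finset (MulAction.orbitRel.Quotient G X)) (f : MulAction.orbitRel.Quotient G X → 𝕜) :
    (∑ O ∈ W, f O / (Nat.card (MulAction.stabilizer G O.out) : 𝕜)) =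
      (Fintype.card G : 𝕜)⁻¹ *
        ∑ x ∈ Finset.univ.filter (fun x : X => (Quotient.mk (MulAction.orbitRel G X) x) ∈ W),
          f (Quotient.mk (MulAction.orbitRel G X) x) := by
  classical
  rw [← Finset.sum_fiberwise_of_maps_to (t := W)
    (g := fun x => Quotient.mk (MulAction.orbitRel G X) x)
    (fun x hx => (Finset.mem_filter.mp hx).2)]
  rw [Finset.mul_sum]
  apply Finset.sum_congr rfl
  intro O hO
  have hmem : ∀ x : X, x ∈ MulAction.orbit G O.out ↔ Quotient.mk (MulAction.orbitRel G X) x = O := by
    intro x
    rw [← MulAction.orbitRel.Quotient.orbit_eq_orbit_out O Quotient.out_eq',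
      MulAction.orbitRel.Quotient.mem_orbit, Quotient.mk''_eq_mk]
  have hcard : ((Finset.univ.filter (fun x : X => Quotient.mk (MulAction.orbitRel G X) x ∈ W)).filter
      (fun x => Quotient.mk (MulAction.orbitRel G X) x = O)).card =
      Fintype.card (MulAction.orbit G O.out) := by
    rw [← Set.toFinset_card]
    congr 1
    ext x
    simp only [Finset.mem_filter, Finset.mem_univ, true_and, Set.mem_toFinset, hmem]
    constructor
    · rintro ⟨_, hx⟩; exact hx
    · intro hx; exact ⟨hx ▸ hO, hx⟩
  rw [Finset.sum_congr rfl (fun x hx => by rw [(Finset.mem_filter.mp hx).2])]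
  rw [Finset.sum_const, hcard, nsmul_eq_mul]
  have horb := MulAction.card_orbit_mul_card_stabilizer_eq_card_group G O.out
  rw [Nat.card_eq_fintype_card, ← horb]
  have h1 : (Fintype.card (MulAction.stabilizer G O.out) : 𝕜) ≠ 0 :=
    Nat.cast_ne_zero.mpr Fintype.card_ne_zero
  have h2 : (Fintype.card (MulAction.orbit G O.out) : 𝕜) ≠ 0 := by
    have : Nonempty (MulAction.orbit G O.out) := ⟨⟨O.out, MulAction.mem_orbit_self _⟩⟩
    exact Nat.cast_ne_zero.mpr Fintype.card_ne_zero
  push_cast
  field_simp

end Groth.Agent.S18954
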