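import Groth.Statements.S19005
import Mathlib.Algebra.Ring.Int.Parity
import Mathlib.Tactic.LinearCombination
import Mathlib.Tactic.Abel
-- import your own Groth.Agent.* helpers here

set_option autoImplicit false
open scoped TensorProduct
open K2Cent

namespace Groth.Agent.S19005

/-- For abelian groups X and M and ε in M with 2ε = 0 (in the source X is the character group of a split
torus and ε is the class of −1 among the units), the map x ↦ (x ⊗ x, −(x ⊗ ε)) into (X ⊗ X) × (X ⊗
M) is quadratic over ℤ, i.e. it underlies an integer quadratic map with exactly these values. -/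
theorem result (X M : Type*) [AddCommGroup X]
    [AddCommGroup M] (ε : M) (hε : 2 • ε = 0) :
    ∃ R : QuadraticMap ℤ X (TensorProduct ℤ X X × TensorProduct ℤ X M),
      ∀ x : X, R x = (x ⊗ₜ[ℤ] x, -(x ⊗ₜ[ℤ] ε)) := by
  have h2 : ∀ x : X, (2 : ℤ) • (x ⊗ₜ[ℤ] ε) = 0 := by
    intro x
    rw [← TensorProduct.tmul_smul]
    have : (2 : ℤ) • ε = 0 := by rw [two_zsmul, ← two_nsmul]; exact hε
    rw [this, TensorProduct.tmul_zero]
  have hsq : ∀ (a : ℤ) (x : X), (a * a) • (x ⊗ₜ[ℤ] ε) = a • (x ⊗ₜ[ℤ] ε) := by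
    intro a x
    obtain ⟨k, hk⟩ := Int.even_mul_pred_self a
    have : a * a = a + k * 2 := by linear_combination hk
    rw [this, add_smul, mul_smul, h2, smul_zero, add_zero]
  refine ⟨{ toFun := fun x => (x ⊗ₜ[ℤ] x, -(x ⊗ₜ[ℤ] ε))
            toFun_smul := ?_
            exists_companion' := ?_ }, fun x => rfl⟩
  · intro a x
    ext
    · simp only [Prod.smul_fst]
      simp only [TensorProduct.tmul_smul, TensorProduct.smul_tmul', mul_smul]
    · simp only [Prod.smul_snd]
      rw [smul_neg, hsq, TensorProduct.smul_tmul']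
  · refine ⟨(TensorProduct.mk ℤ X X + (TensorProduct.mk ℤ X X).flip).compr₂
        (LinearMap.inl ℤ (TensorProduct ℤ X X) (TensorProduct ℤ X M)), ?_⟩
    intro x y
    have hB : ((TensorProduct.mk ℤ X X + (TensorProduct.mk ℤ X X).flip).compr₂
        (LinearMap.inl ℤ (TensorProduct ℤ X X) (TensorProduct ℤ X M))) x y =
        (x ⊗ₜ[ℤ] y + y ⊗ₜ[ℤ] x, 0) := rfl
    rw [hB]
    ext
    · simp only [Prod.fst_add]
      rw [TensorProduct.add_tmul, TensorProduct.tmul_add, TensorProduct.tmul_add]
      abel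
    · simp only [Prod.snd_add, add_zero]
      rw [TensorProduct.add_tmul, neg_add]

end Groth.Agent.S19005
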