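import Groth.Statements.S19006
import Mathlib.Tactic.LinearCombination
import Mathlib.Tactic.Ring
-- import your own Groth.Agent.* helpers here

set_option autoImplicit false
universe u v w x
open RootD

namespace Groth.Agent.S19006

/-- For a root pairing over an integral domain of characteristic zero, a quadratic form Q on the
coweight module N with polar form B, and a root α with coroot α^∨, the form Q is invariant under the
reflection attached to α acting on N if and only if B(y, α^∨) = ⟨α, y⟩ Q(α^∨) for all y in N. (The
source states this for integer-valued forms on the cocharacter lattice of a split reductive group;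
here the form takes values in the base ring of the pairing.) -/
theorem result {ι : Type u} {R : Type v} {M : Type w} {N : Type x} [CommRing R] [IsDomain R] [CharZero R]
    [AddCommGroup M] [Module R M] [AddCommGroup N] [Module R N] (P : RootPairing ι R M N)
    (Q : QuadraticMap R N R) (j : ι) :
    (∀ y : N, Q (P.coreflection j y) = Q y) ↔
      ∀ y : N, QuadraticMap.polar Q y (P.coroot j) = P.root' j y * Q (P.coroot j) := by
  set α := P.coroot j with hα
  have hc2 : P.root' j α = 2 := P.root_coroot_two j
  have key : ∀ y : N, Q (P.coreflection j y) =
      Q y - P.root' j y * QuadraticMap.polar Q y α + P.root' j y * P.root' j y * Q α := by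
    intro y
    rw [P.coreflection_apply]
    have h1 : QuadraticMap.polar Q y (-(P.root' j y • α)) =
        Q (y - P.root' j y • α) - Q y - Q (-(P.root' j y • α)) := by
      rw [QuadraticMap.polar, ← sub_eq_add_neg]
    rw [QuadraticMap.polar_neg_right, QuadraticMap.polar_smul_right, QuadraticMap.map_neg,
      QuadraticMap.map_smul, smul_eq_mul, smul_eq_mul] at h1
    linear_combination -h1
  constructor
  · intro h y
    have hy : ∀ z : N, P.root' j z ≠ 0 →
        QuadraticMap.polar Q z α = P.root' j z * Q α := by
      intro z hz
      have := key z
      rw [h z] at this
      have h' : P.root' j z * (P.root' j z * Q α - QuadraticMap.polar Q z α) = 0 := by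
        linear_combination -this
      rcases mul_eq_zero.mp h' with h0 | h0
      · exact absurd h0 hz
      · linear_combination -h0
    by_cases hyc : P.root' j y = 0
    · have h2 : P.root' j (y + α) = 2 := by rw [map_add, hyc, hc2, zero_add]
      have h3 := hy (y + α) (by rw [h2]; exact two_ne_zero)
      rw [QuadraticMap.polar_add_left, QuadraticMap.polar_self, h2] at h3
      simp only [two_nsmul, two_smul] at h3
      rw [hyc, zero_mul]
      linear_combination h3
    · exact hy y hyc
  · intro h y
    rw [key, h y]
    ring

end Groth.Agent.S19006
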