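import Groth.Statements.S19023
import Mathlib.Tactic.Abel
-- import your own Groth.Agent.* helpers here

set_option autoImplicit false
universe u v
open Filt

namespace Groth.Agent.S19023

/-- Let F be a module with two decreasing filtrations M and N by submodules, indexed by the natural
numbers. Suppose that for some j and l the submodule N (j+1) ⊓ M l maps onto the quotient M l / M
(l+1), that is M l ≤ M (l+1) ⊔ (N (j+1) ⊓ M l). Then for every i ≤ j the map between the graded
pieces (N i ⊓ M (l+1)) / (N (i+1) ⊓ M (l+1)) → (N i ⊓ M l) / (N (i+1) ⊓ M l) induced by the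
inclusion M (l+1) ≤ M l is bijective. (The source states this for two finite decreasing filtrations
of a coherent sheaf on an algebraic variety; the statement concerns only the lattice of subobjects
and is given here for submodules of a module.) -/
theorem result
    (R : Type u) (F : Type v) [Ring R] [AddCommGroup F] [Module R F]
    (M N : ℕ → Submodule R F) (hM : Antitone M) (hN : Antitone N) (j l : ℕ)
    (h : M l ≤ M (l + 1) ⊔ (N (j + 1) ⊓ M l)) (i : ℕ) (hi : i ≤ j) :
    Function.Bijective
      (Submodule.mapQ ((N (i + 1)).comap (N i ⊓ M (l + 1)).subtype) ((N (i + 1)).comap (N i ⊓ M l).subtype)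
        (Submodule.inclusion (inf_le_inf_left (N i) (hM (Nat.le_succ l))))
        (fun x hx => hx)) := by
  have hNi : N (j + 1) ≤ N (i + 1) := hN (by omega)
  have hNi' : N (i + 1) ≤ N i := hN (Nat.le_succ i)
  constructor
  · intro a b hab
    induction a using Submodule.Quotient.induction_on with | _ a => ?_
    induction b using Submodule.Quotient.induction_on with | _ b => ?_
    have hab' := (Submodule.Quotient.eq _).mp hab
    apply (Submodule.Quotient.eq _).mpr
    exact hab'
  · intro y
    induction y using Submodule.Quotient.induction_on with | _ y => ?_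
    obtain ⟨y, hyNM⟩ := y
    obtain ⟨hyN, hyM⟩ := Submodule.mem_inf.mp hyNM
    have hy := h hyM
    obtain ⟨a, ha, b, hb, hab⟩ := Submodule.mem_sup.mp hy
    have hb' := Submodule.mem_inf.mp hb
    have hbN : b ∈ N i := hNi' (hNi hb'.1)
    have haN : a ∈ N i := by
      have : a = y - b := by rw [← hab]; abel
      rw [this]; exact Submodule.sub_mem _ hyN hbN
    refine ⟨Submodule.Quotient.mk ⟨a, Submodule.mem_inf.mpr ⟨haN, ha⟩⟩, ?_⟩
    apply (Submodule.Quotient.eq _).mpr
    show a - y ∈ N (i + 1)
    have : a - y = -b := by rw [← hab]; abel
    rw [this]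
    exact Submodule.neg_mem _ (hNi hb'.1)

end Groth.Agent.S19023
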