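import Groth.Statements.S19136
import Mathlib.Tactic.Linarith
import Mathlib.Tactic.FieldSimp
import Mathlib.Analysis.Normed.Group.Basic
-- import your own Groth.Agent.* helpers here

set_option autoImplicit false
universe u
open Instab

namespace Groth.Agent.S19136

/-- Let p be a seminorm and ℓ a linear form on a real vector space, let y₀ and y₁ be vectors at which p
is positive and ℓ is non-negative, and let y = t y₀ + (1 - t) y₁ with 0 < t < 1 be a point of the
open segment at which p is positive. Then ℓ(y)/p(y) is at least the smaller of ℓ(y₀)/p(y₀) and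
ℓ(y₁)/p(y₁), and if it equals that smaller value then ℓ(y₀)/p(y₀) = ℓ(y₁)/p(y₁). (The published
lemma concerns the numerical invariant attached to a degree-two cohomology class and a semi-norm on
graded points of a stack; restricted to one rational simplex that invariant is the quotient of a
linear form by a semi-norm on the non-negative orthant of a real coordinate space, and local
quasi-concavity there amounts to this inequality with its equality clause, the set where the linear
form is non-negative being automatically convex; the lemma's further assertion, that the invariant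
is positive at no pair of antipodal points, is not stated here. The vector space is arbitrary here.) -/
theorem result {E : Type u} [AddCommGroup E] [Module ℝ E]
    (p : Seminorm ℝ E) (ℓ : E →ₗ[ℝ] ℝ) (y₀ y₁ : E) (h₀ : 0 < p y₀) (h₁ : 0 < p y₁)
    (hℓ₀ : 0 ≤ ℓ y₀) (hℓ₁ : 0 ≤ ℓ y₁) (t : ℝ) (ht₀ : 0 < t) (ht₁ : t < 1)
    (hy : 0 < p (t • y₀ + (1 - t) • y₁)) :
    min (ℓ y₀ / p y₀) (ℓ y₁ / p y₁) ≤ ℓ (t • y₀ + (1 - t) • y₁) / p (t • y₀ + (1 - t) • y₁) ∧
      (ℓ (t • y₀ + (1 - t) • y₁) / p (t • y₀ + (1 - t) • y₁) = min (ℓ y₀ / p y₀) (ℓ y₁ / p y₁) →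
        ℓ y₀ / p y₀ = ℓ y₁ / p y₁) := by
  set y := t • y₀ + (1 - t) • y₁ with hydef
  have ht1 : 0 < 1 - t := by linarith
  have hℓy : ℓ y = t * ℓ y₀ + (1 - t) * ℓ y₁ := by
    rw [hydef, map_add, map_smul, map_smul, smul_eq_mul, smul_eq_mul]
  have hpy : p y ≤ t * p y₀ + (1 - t) * p y₁ := by
    calc p y ≤ p (t • y₀) + p ((1 - t) • y₁) := map_add_le_add p _ _
      _ = t * p y₀ + (1 - t) * p y₁ := by
        rw [map_smul_eq_mul, map_smul_eq_mul, Real.norm_of_nonneg ht₀.le,
          Real.norm_of_nonneg ht1.le]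
  set m := min (ℓ y₀ / p y₀) (ℓ y₁ / p y₁) with hm
  have hm0 : 0 ≤ m := le_min (div_nonneg hℓ₀ h₀.le) (div_nonneg hℓ₁ h₁.le)
  have hm1 : m * p y₀ ≤ ℓ y₀ := (le_div_iff₀ h₀).mp (min_le_left _ _)
  have hm2 : m * p y₁ ≤ ℓ y₁ := (le_div_iff₀ h₁).mp (min_le_right _ _)
  have hmp := mul_le_mul_of_nonneg_left hpy hm0
  have hmain : m * p y ≤ ℓ y := by
    rw [hℓy]; nlinarith [mul_le_mul_of_nonneg_left hm1 ht₀.le, mul_le_mul_of_nonneg_left hm2 ht1.le]
  refine ⟨(le_div_iff₀ hy).mpr hmain, ?_⟩
  intro heq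
  have heq' : ℓ y = m * p y := by
    rw [← heq]; field_simp
  rw [hℓy] at heq'
  have e0 : ℓ y₀ = m * p y₀ := by
    refine le_antisymm ?_ hm1
    by_contra hc
    rw [not_le] at hc
    nlinarith [mul_lt_mul_of_pos_left hc ht₀, mul_le_mul_of_nonneg_left hm2 ht1.le]
  have e1 : ℓ y₁ = m * p y₁ := by
    refine le_antisymm ?_ hm2
    by_contra hc
    rw [not_le] at hc
    nlinarith [mul_lt_mul_of_pos_left hc ht1, mul_le_mul_of_nonneg_left hm1 ht₀.le]
  rw [e0, e1, mul_div_assoc, div_self h₀.ne', mul_div_assoc, div_self h₁.ne']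

end Groth.Agent.S19136
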