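import Groth.Statements.S19137
import Mathlib.Tactic.Linarith
import Mathlib.Tactic.FieldSimp
import Mathlib.Tactic.Positivity
import Mathlib.Analysis.Normed.Group.Basic
-- import your own Groth.Agent.* helpers here

set_option autoImplicit false
universe u
open Instab

namespace Groth.Agent.S19137

/-- Let p be a seminorm on a real vector space whose unit ball is strictly convex in the sense that p(a
+ b) < p(a) + p(b) whenever p(a) and p(b) are non-zero and b is not a positive multiple of a; let ℓ
be a linear form, y₀ and y₁ vectors with p and ℓ positive at both and y₁ not a positive multiple of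
y₀, and y = t y₀ + (1 - t) y₁ with 0 < t < 1 a point at which p is positive. Then ℓ(y)/p(y) is
strictly greater than the smaller of ℓ(y₀)/p(y₀) and ℓ(y₁)/p(y₁). (The published lemma says that
when the norm on graded points is locally a norm with strictly convex unit balls, the numerical
invariant attached to a degree-two class and that norm is strictly quasi-concave on each cone and is
positive at no pair of antipodal points; on one rational simplex the first property is this strict
form of the quasi-concavity inequality for the quotient of a linear form by the norm, at points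
where the linear form is positive, and the second property is not stated here. The vector space is
arbitrary here.) -/
theorem result {E : Type u} [AddCommGroup E] [Module ℝ E]
    (p : Seminorm ℝ E)
    (hp : ∀ a b : E, p a ≠ 0 → p b ≠ 0 → (¬ ∃ c : ℝ, 0 < c ∧ b = c • a) → p (a + b) < p a + p b)
    (ℓ : E →ₗ[ℝ] ℝ) (y₀ y₁ : E) (h₀ : 0 < p y₀) (h₁ : 0 < p y₁)
    (hℓ₀ : 0 < ℓ y₀) (hℓ₁ : 0 < ℓ y₁) (hne : ¬ ∃ c : ℝ, 0 < c ∧ y₁ = c • y₀)
    (t : ℝ) (ht₀ : 0 < t) (ht₁ : t < 1) (hy : 0 < p (t • y₀ + (1 - t) • y₁)) :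
    min (ℓ y₀ / p y₀) (ℓ y₁ / p y₁) < ℓ (t • y₀ + (1 - t) • y₁) / p (t • y₀ + (1 - t) • y₁) := by
  set y := t • y₀ + (1 - t) • y₁ with hydef
  have ht1 : 0 < 1 - t := by linarith
  have hℓy : ℓ y = t * ℓ y₀ + (1 - t) * ℓ y₁ := by
    rw [hydef, map_add, map_smul, map_smul, smul_eq_mul, smul_eq_mul]
  have hpa : p (t • y₀) = t * p y₀ := by
    rw [map_smul_eq_mul, Real.norm_of_nonneg ht₀.le]
  have hpb : p ((1 - t) • y₁) = (1 - t) * p y₁ := by
    rw [map_smul_eq_mul, Real.norm_of_nonneg ht1.le]
  have hpy : p y < t * p y₀ + (1 - t) * p y₁ := by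
    have h := hp (t • y₀) ((1 - t) • y₁)
      (by rw [hpa]; exact (mul_pos ht₀ h₀).ne')
      (by rw [hpb]; exact (mul_pos ht1 h₁).ne')
      (by
        rintro ⟨c, hc, hcb⟩
        apply hne
        refine ⟨(1 - t)⁻¹ * (c * t), by positivity, ?_⟩
        have : y₁ = (1 - t)⁻¹ • ((1 - t) • y₁) := by
          rw [smul_smul, inv_mul_cancel₀ ht1.ne', one_smul]
        rw [this, hcb, smul_smul, smul_smul, mul_assoc])
    rw [hpa, hpb] at h
    exact h
  set m := min (ℓ y₀ / p y₀) (ℓ y₁ / p y₁) with hm
  have hm0 : 0 < m := lt_min (div_pos hℓ₀ h₀) (div_pos hℓ₁ h₁)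
  have hm1 : m * p y₀ ≤ ℓ y₀ := (le_div_iff₀ h₀).mp (min_le_left _ _)
  have hm2 : m * p y₁ ≤ ℓ y₁ := (le_div_iff₀ h₁).mp (min_le_right _ _)
  have hmp := mul_lt_mul_of_pos_left hpy hm0
  have hmain : m * p y < ℓ y := by
    rw [hℓy]; nlinarith [mul_le_mul_of_nonneg_left hm1 ht₀.le, mul_le_mul_of_nonneg_left hm2 ht1.le]
  exact (lt_div_iff₀ hy).mpr hmain

end Groth.Agent.S19137
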