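import Groth.Statements.S19167
import Mathlib.Algebra.Module.CharacterModule
import Mathlib.Topology.Algebra.OpenSubgroup
-- import your own Groth.Agent.* helpers here

set_option autoImplicit false
universe u v
open ProCompl

namespace Groth.Agent.S19167

open Topology in
/-- Let i : A → B be an injective continuous homomorphism of topological abelian groups inducing the
topology of A from that of B (a strict injection), with open image. Then every character χ : A → ℚ/ℤ
with open kernel extends along i to a character ψ : B → ℚ/ℤ with open kernel. Here ℚ/ℤ is regarded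
as a discrete group, so that continuity of a character means that its kernel is open. -/
theorem result
    {A : Type u} {B : Type v} [AddCommGroup A] [TopologicalSpace A] [IsTopologicalAddGroup A]
    [AddCommGroup B] [TopologicalSpace B] [IsTopologicalAddGroup B]
    (i : A →+ B) (hi : Continuous i) (hinj : Function.Injective i) (hind : IsInducing i)
    (hopen : IsOpen (Set.range i))
    (χ : A →+ ℚ ⧸ AddSubgroup.zmultiples (1 : ℚ)) (hχ : IsOpen (χ.ker : Set A)) :
    ∃ ψ : B →+ ℚ ⧸ AddSubgroup.zmultiples (1 : ℚ), IsOpen (ψ.ker : Set B) ∧ ψ.comp i = χ := by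
  obtain ⟨ψ, hψ⟩ := CharacterModule.dual_surjective_of_injective (R := ℤ) i.toIntLinearMap hinj
    (show CharacterModule A from χ)
  have hψ' : ∀ a, ψ (i a) = χ a := fun a => DFunLike.congr_fun hψ a
  have hemb : Topology.IsOpenEmbedding i := { toIsEmbedding := ⟨hind, hinj⟩, isOpen_range := hopen }
  let ψ' : B →+ ℚ ⧸ AddSubgroup.zmultiples (1 : ℚ) := ψ
  refine ⟨ψ', ?_, ?_⟩
  · have hle : χ.ker.map i ≤ ψ'.ker := by
      rintro _ ⟨a, ha, rfl⟩
      show ψ (i a) = 0
      rw [hψ']; exact ha
    apply AddSubgroup.isOpen_mono hle
    show IsOpen (i '' (χ.ker : Set A))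
    exact hemb.isOpenMap _ hχ
  · ext a
    exact hψ' a

end Groth.Agent.S19167
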