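import Groth.Statements.S19168
-- import your own Groth.Agent.* helpers here

set_option autoImplicit false
universe u v
open ProCompl

namespace Groth.Agent.S19168

/-- Let p : B → C be a continuous open surjective homomorphism of topological abelian groups (so that C
carries the quotient topology of B modulo the kernel of p). Then a character χ : B → ℚ/ℤ with open
kernel vanishing on the kernel of p factors uniquely through p, and the induced character of C again
has open kernel. In other words, for a topological exact sequence 0 → A → B → C → 0 with p open, the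
sequence 0 → C^D → B^D → A^D of groups of characters with open kernel (continuous characters for
discrete ℚ/ℤ) is exact; injectivity of C^D → B^D being immediate from surjectivity of p, this row
records exactness at B^D. -/
theorem result
    {B : Type u} {C : Type v} [AddCommGroup B] [TopologicalSpace B] [IsTopologicalAddGroup B]
    [AddCommGroup C] [TopologicalSpace C] [IsTopologicalAddGroup C]
    (p : B →+ C) (hp : Continuous p) (hpo : IsOpenMap p) (hps : Function.Surjective p)
    (χ : B →+ ℚ ⧸ AddSubgroup.zmultiples (1 : ℚ)) (hχ : IsOpen (χ.ker : Set B)) (hχp : p.ker ≤ χ.ker) :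
    ∃ φ : C →+ ℚ ⧸ AddSubgroup.zmultiples (1 : ℚ), IsOpen (φ.ker : Set C) ∧ φ.comp p = χ := by
  classical
  let s : C → B := Function.surjInv hps
  have hs : ∀ c, p (s c) = c := Function.surjInv_eq hps
  have hwd : ∀ b b' : B, p b = p b' → χ b = χ b' := by
    intro b b' h
    have : b - b' ∈ p.ker := by rw [AddMonoidHom.mem_ker, map_sub, h, sub_self]
    have h2 := hχp this
    rw [AddMonoidHom.mem_ker, map_sub, sub_eq_zero] at h2
    exact h2
  let φ : C →+ ℚ ⧸ AddSubgroup.zmultiples (1 : ℚ) :=
    AddMonoidHom.mk' (fun c => χ (s c)) (by
      intro a b
      rw [← map_add]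
      apply hwd
      rw [map_add, hs, hs, hs])
  have hφ : ∀ b, φ (p b) = χ b := fun b => hwd _ _ (hs (p b))
  refine ⟨φ, ?_, ?_⟩
  · have : (φ.ker : Set C) = p '' (χ.ker : Set B) := by
      ext c
      constructor
      · intro hc
        refine ⟨s c, ?_, hs c⟩
        show χ (s c) = 0
        exact hc
      · rintro ⟨b, hb, rfl⟩
        show φ (p b) = 0
        rw [hφ]; exact hb
    rw [this]
    exact hpo _ hχ
  · ext b
    exact hφ b

end Groth.Agent.S19168
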