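import Groth.Statements.S19170
import Mathlib.GroupTheory.FiniteAbelian.Basic
import Mathlib.Algebra.Ring.Rat
import Mathlib.Topology.Algebra.Group.Basic
-- import your own Groth.Agent.* helpers here

set_option autoImplicit false
universe u
open ProCompl

namespace Groth.Agent.S19170

/-- Let B be a topological abelian group generated as a group by a compact subset. Then every character
χ : B → ℚ/ℤ with open kernel (a continuous character for discrete ℚ/ℤ) has kernel of finite index;
consequently each such character factors through B^∧, the completion of B taken along its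
finite-index open subgroups, i.e. (B^∧)^D = B^D. (The published statement assumes moreover that B is
Hausdorff, locally compact and totally disconnected; only compact generation is needed for this
assertion, so those assumptions are dropped here.) -/
theorem result
    {B : Type u} [AddCommGroup B] [TopologicalSpace B] [IsTopologicalAddGroup B]
    (hcg : ∃ K : Set B, IsCompact K ∧ AddSubgroup.closure K = ⊤)
    (χ : B →+ ℚ ⧸ AddSubgroup.zmultiples (1 : ℚ)) (hχ : IsOpen (χ.ker : Set B)) : χ.ker.FiniteIndex := by
  classical
  obtain ⟨K, hK, hKgen⟩ := hcg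
  set H := χ.ker with hH
  -- finitely many cosets of H cover K
  have hcov : K ⊆ ⋃ x : B, (fun y => y - x) ⁻¹' (H : Set B) := by
    intro y _
    refine Set.mem_iUnion.mpr ⟨y, ?_⟩
    show y - y ∈ H
    rw [sub_self]; exact H.zero_mem
  obtain ⟨t, ht⟩ := hK.elim_finite_subcover (fun x : B => (fun y => y - x) ⁻¹' (H : Set B))
    (fun x => hχ.preimage (continuous_id.sub continuous_const)) hcov
  have himg : χ '' K ⊆ (t.image χ : Set _) := by
    rintro _ ⟨y, hy, rfl⟩
    obtain ⟨x, hx, hyx⟩ := Set.mem_iUnion₂.mp (ht hy)
    have : y - x ∈ H := hyx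
    rw [hH, AddMonoidHom.mem_ker, map_sub, sub_eq_zero] at this
    rw [Finset.coe_image]
    exact ⟨x, hx, this.symm⟩
  have hfin : (χ '' K).Finite := (t.image χ).finite_toSet.subset himg
  have hrange : χ.range = AddSubgroup.closure (χ '' K) := by
    rw [← AddMonoidHom.map_closure, hKgen, AddMonoidHom.range_eq_map]
  have hFG : AddGroup.FG χ.range := by
    rw [AddGroup.fg_iff_addSubgroup_fg, hrange]
    exact ⟨hfin.toFinset, by rw [Set.Finite.coe_toFinset]⟩
  have htors : IsAddTorsion χ.range := by
    rintro ⟨x, hx⟩
    rw [isOfFinAddOrder_iff_nsmul_eq_zero]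
    induction x using QuotientAddGroup.induction_on with | _ q => ?_
    refine ⟨q.den, q.den_pos, ?_⟩
    apply Subtype.ext
    rw [AddSubmonoidClass.coe_nsmul, ZeroMemClass.coe_zero]
    show q.den • (QuotientAddGroup.mk q : ℚ ⧸ AddSubgroup.zmultiples (1 : ℚ)) = 0
    rw [← QuotientAddGroup.mk_nsmul, QuotientAddGroup.eq_zero_iff]
    refine ⟨q.num, ?_⟩
    simp only [zsmul_eq_mul, mul_one, nsmul_eq_mul]
    rw [mul_comm]
    exact_mod_cast (Rat.mul_den_eq_num q).symm
  have : Finite χ.range := AddCommGroup.finite_of_fg_isAddTorsion _ htors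
  exact AddSubgroup.finiteIndex_ker χ

end Groth.Agent.S19170
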