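import Groth.Statements.S19183
import Mathlib.Tactic.Ring
import Mathlib.LinearAlgebra.Dimension.Constructions
import Mathlib.LinearAlgebra.Dimension.StrongRankCondition
import Mathlib.LinearAlgebra.FreeModule.StrongRankCondition
-- import your own Groth.Agent.* helpers here

set_option autoImplicit false
universe u
open CAlg

namespace Groth.Agent.S19183

/-- Let A be a non-zero commutative ring and f ∈ A a non-zero-divisor. The fibre product A ×_{A/(f)} A
of two copies of A over A/(f) — the A-submodule of A × A of pairs (x, y) with x − y ∈ (f), which is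
the coordinate ring of two copies of Spec A glued along the Cartier divisor f = 0 — is a free
A-module of rank 2. (This is what makes the gluing of two copies of a curve along an effective
Cartier divisor finite locally free of degree 2 over the curve.) -/
theorem result (A : Type u) [CommRing A] [Nontrivial A]
    (f : A) (hf : f ∈ nonZeroDivisors A) :
    Module.Free A (Submodule.comap (LinearMap.fst A A A - LinearMap.snd A A A) (Ideal.span ({f} : Set A))) ∧
      Module.finrank A (Submodule.comap (LinearMap.fst A A A - LinearMap.snd A A A) (Ideal.span ({f} : Set A))) = 2 := by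
  set P := Submodule.comap (LinearMap.fst A A A - LinearMap.snd A A A) (Ideal.span ({f} : Set A)) with hP
  let φ : (Fin 2 → A) →ₗ[A] A × A :=
    { toFun := fun c => (c 0 + c 1 * f, c 0)
      map_add' := by
        intro c d
        simp only [Pi.add_apply, Prod.mk_add_mk, Prod.mk.injEq, and_true]
        ring
      map_smul' := by
        intro r c
        simp only [Pi.smul_apply, smul_eq_mul, RingHom.id_apply, Prod.smul_mk, Prod.mk.injEq,
          and_true]
        ring }
  have hφP : ∀ c, φ c ∈ P := by
    intro c
    rw [hP, Submodule.mem_comap]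
    show (c 0 + c 1 * f) - c 0 ∈ Ideal.span ({f} : Set A)
    rw [add_sub_cancel_left]
    exact Ideal.mul_mem_left _ _ (Ideal.subset_span rfl)
  let ψ : (Fin 2 → A) →ₗ[A] P := φ.codRestrict P hφP
  have hinj : Function.Injective ψ := by
    intro c d hcd
    have h := congrArg (fun z : P => (z : A × A)) hcd
    simp only [ψ, LinearMap.codRestrict_apply, φ, LinearMap.coe_mk, AddHom.coe_mk,
      Prod.mk.injEq] at h
    obtain ⟨h1, h2⟩ := h
    rw [h2, add_right_inj] at h1
    have h3 : (c 1 - d 1) * f = 0 := by rw [sub_mul, h1, sub_self]
    have h4 : c 1 - d 1 = 0 := (mul_right_mem_nonZeroDivisors_eq_zero_iff hf).mp h3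
    funext i
    fin_cases i
    · exact h2
    · exact sub_eq_zero.mp h4
  have hsurj : Function.Surjective ψ := by
    rintro ⟨⟨x, y⟩, hxy⟩
    rw [hP, Submodule.mem_comap] at hxy
    change x - y ∈ Ideal.span ({f} : Set A) at hxy
    obtain ⟨a, ha⟩ := Ideal.mem_span_singleton'.mp hxy
    refine ⟨![y, a], ?_⟩
    apply Subtype.ext
    simp only [ψ, LinearMap.codRestrict_apply, φ, LinearMap.coe_mk, AddHom.coe_mk,
      Matrix.cons_val_zero, Matrix.cons_val_one, Prod.mk.injEq, and_true]
    rw [ha]; ring
  let e : (Fin 2 → A) ≃ₗ[A] P := LinearEquiv.ofBijective ψ ⟨hinj, hsurj⟩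
  refine ⟨Module.Free.of_equiv e, ?_⟩
  rw [← e.finrank_eq, Module.finrank_fin_fun]

end Groth.Agent.S19183
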