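import Groth.Statements.S19186
import Mathlib.RingTheory.Coprime.Lemmas
import Mathlib.Tactic.Ring
import Mathlib.Tactic.Module
-- import your own Groth.Agent.* helpers here

set_option autoImplicit false
universe u
open OneMot

namespace Groth.Agent.S19186

/-- Let p and ℓ be distinct prime numbers, r and n natural numbers, and f : A → B a homomorphism of
abelian groups whose kernel and cokernel are annihilated by p^r (f a = 0 implies p^r • a = 0, and
every p^r • b lies in the image of f). Then f induces a bijection between the ℓ^n-torsion subgroups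
of A and B and a bijection A/ℓ^n A → B/ℓ^n B. Spelled out without quotients: every ℓ^n-torsion
element of B has exactly one ℓ^n-torsion preimage; an element of A whose image is an ℓ^n-multiple is
itself an ℓ^n-multiple; and every element of B is the sum of an image and an ℓ^n-multiple. -/
theorem result {A B : Type u} [AddCommGroup A] [AddCommGroup B] (f : A →+ B) (p ℓ r n : ℕ) (hp : p.Prime) (hl : ℓ.Prime) (hne : ℓ ≠ p) (hker : ∀ a : A, f a = 0 → p ^ r • a = 0) (hcoker : ∀ b : B, ∃ a : A, f a = p ^ r • b) : (∀ b : B, ℓ ^ n • b = 0 → ∃! a : A, ℓ ^ n • a = 0 ∧ f a = b) ∧ (∀ a : A, (∃ b' : B, f a = ℓ ^ n • b') → ∃ a' : A, a = ℓ ^ n • a') ∧ (∀ b : B, ∃ (a : A) (b' : B), b = f a + ℓ ^ n • b') := by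
  have hcop : Nat.Coprime (p ^ r) (ℓ ^ n) :=
    Nat.Coprime.pow r n ((Nat.coprime_primes hp hl).mpr (Ne.symm hne))
  have hcop2 : Nat.Coprime (p ^ r * p ^ r) (ℓ ^ n) := Nat.coprime_mul_iff_left.mpr ⟨hcop, hcop⟩
  obtain ⟨u, v, huv⟩ := Nat.isCoprime_iff_coprime.mpr hcop
  obtain ⟨u2, v2, huv2⟩ := Nat.isCoprime_iff_coprime.mpr hcop2
  set Q : ℤ := ((p ^ r : ℕ) : ℤ) with hQ
  set L : ℤ := ((ℓ ^ n : ℕ) : ℤ) with hL
  have bez : ∀ {M : Type u} [AddCommGroup M] (z : M), z = (u * Q) • z + (v * L) • z := by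
    intro M _ z
    rw [← add_smul, huv, one_smul]
  have bez2 : ∀ {M : Type u} [AddCommGroup M] (z : M), z = (u2 * (Q * Q)) • z + (v2 * L) • z := by
    intro M _ z
    rw [← add_smul, hQ, ← Nat.cast_mul, huv2, one_smul]
  have hker' : ∀ a : A, f a = 0 → Q • a = 0 := by
    intro a ha; rw [hQ, natCast_zsmul]; exact hker a ha
  have hcoker' : ∀ b : B, ∃ a : A, f a = Q • b := by
    intro b; obtain ⟨a, ha⟩ := hcoker b; exact ⟨a, by rw [hQ, natCast_zsmul]; exact ha⟩
  have hLn : ∀ {M : Type u} [AddCommGroup M] (z : M), ℓ ^ n • z = L • z := by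
    intro M _ z; rw [hL, natCast_zsmul]
  refine ⟨?_, ?_, ?_⟩
  · intro b hb
    rw [hLn] at hb
    obtain ⟨a0, ha0⟩ := hcoker' b
    have hb' : b = (u * Q) • b := by
      have := bez b
      rwa [mul_smul v, hb, smul_zero, add_zero] at this
    set a1 := u • a0 with ha1
    have hfa1 : f a1 = b := by
      rw [ha1, map_zsmul, ha0, smul_smul]; exact hb'.symm
    have hker1 : Q • (L • a1) = 0 := by
      apply hker'
      rw [map_zsmul, hfa1, hb]
    refine ⟨(u * Q) • a1, ⟨?_, ?_⟩, ?_⟩
    · rw [hLn]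
      calc L • (u * Q) • a1 = u • (Q • (L • a1)) := by module
        _ = 0 := by rw [hker1, smul_zero]
    · rw [map_zsmul, hfa1]; exact hb'.symm
    · rintro a' ⟨h1, h2⟩
      rw [hLn] at h1
      set d := a' - (u * Q) • a1 with hd
      have hd0 : f d = 0 := by
        rw [hd, map_sub, map_zsmul, hfa1, h2, ← hb', sub_self]
      have hQd := hker' _ hd0
      have hLd : L • d = 0 := by
        calc L • d = L • a' - u • (Q • (L • a1)) := by rw [hd]; module
          _ = 0 := by rw [h1, hker1, smul_zero, sub_zero]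
      have h3 : d = 0 := by
        calc d = (u * Q) • d + (v * L) • d := bez d
          _ = u • (Q • d) + v • (L • d) := by module
          _ = 0 := by rw [hQd, hLd, smul_zero, smul_zero, add_zero]
      exact sub_eq_zero.mp h3
  · rintro a ⟨b', hb'⟩
    rw [hLn] at hb'
    obtain ⟨a0, ha0⟩ := hcoker' b'
    have hk : f (Q • a - L • a0) = 0 := by
      rw [map_sub, map_zsmul, map_zsmul, hb', ha0, smul_smul, smul_smul, mul_comm, sub_self]
    have hk' := hker' _ hk
    refine ⟨(u2 * Q) • a0 + v2 • a, ?_⟩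
    rw [hLn]
    have e1 := bez2 a
    calc a = (u2 * (Q * Q)) • a + (v2 * L) • a := e1
      _ = u2 • (Q • (Q • a - L • a0)) + L • ((u2 * Q) • a0 + v2 • a) := by module
      _ = L • ((u2 * Q) • a0 + v2 • a) := by rw [hk', smul_zero, zero_add]
  · intro b
    obtain ⟨a0, ha0⟩ := hcoker' b
    refine ⟨u • a0, v • b, ?_⟩
    rw [map_zsmul, ha0, hLn]
    calc b = (u * Q) • b + (v * L) • b := bez b
      _ = u • Q • b + L • v • b := by module

end Groth.Agent.S19186
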