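import Groth.Statements.S19271
-- import your own Groth.Agent.* helpers here

set_option autoImplicit false
universe u
open WittFil

namespace Groth.Agent.S19271

/-- Let A → B be commutative rings with B of characteristic p, c an element of B and m ≥ 0. For e in B
and k ≥ 0 write fil_k(e) for the set of truncated p-typical Witt vectors of length k over B whose
j-th coordinate y_j satisfies: y_j ^ (p ^ (k−1−j)) · e lies in the image of A, for all j < k. Then
the Frobenius and the Verschiebung respect these pieces: for a Witt vector x over B whose
length-(m+1) truncation lies in fil_{m+1}(c), the length-m truncation of F(x) lies in fil_m(c); and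
for x whose length-m truncation lies in fil_m(c), the length-(m+1) truncation of V(x) lies in
fil_{m+1}(c). (This is the degree-zero part of the published statement, which concerns the filtered
de Rham–Witt pieces in all degrees; in degree zero the published case is B = A[1/π] and c a monomial
in the primes dividing π, and the computation is the same for any c.) -/
theorem result (p : ℕ) [Fact p.Prime] {A B : Type u}
    [CommRing A] [CommRing B] [Algebra A B] [CharP B p] (c : B) (m : ℕ) :
    (∀ x : WittVector p B,
        WittVector.truncate (m + 1) x ∈ WittFil.fil p (m + 1) (A := A) c →
          WittVector.truncate m (WittVector.frobenius x) ∈ WittFil.fil p m (A := A) c) ∧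
      (∀ x : WittVector p B,
        WittVector.truncate m x ∈ WittFil.fil p m (A := A) c →
          WittVector.truncate (m + 1) (WittVector.verschiebung x) ∈
            WittFil.fil p (m + 1) (A := A) c) := by
  constructor
  · intro x hx j
    have h := hx ⟨j.1, by omega⟩
    simp only [WittVector.coeff_truncate] at h ⊢
    rw [WittVector.coeff_frobenius_charP, ← pow_mul]
    have he : p * p ^ (m - 1 - (j : ℕ)) = p ^ (m + 1 - 1 - (j : ℕ)) := by
      rw [← pow_succ']
      congr 1
      have := j.2
      omega
    rw [he]
    exact h
  · intro x hx j
    simp only [WittVector.coeff_truncate]
    obtain ⟨k, hk⟩ := j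
    cases k with
    | zero =>
      simp only [WittVector.verschiebung_coeff_zero]
      rw [zero_pow (pow_ne_zero _ (Fact.out : p.Prime).ne_zero), zero_mul]
      exact ⟨0, map_zero _⟩
    | succ k =>
      simp only [WittVector.verschiebung_coeff_succ]
      have h := hx ⟨k, by omega⟩
      simp only [WittVector.coeff_truncate] at h
      have he : m + 1 - 1 - (k + 1) = m - 1 - k := by omega
      rw [he]
      exact h

end Groth.Agent.S19271
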