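import Groth.Statements.S19380
import Mathlib.LinearAlgebra.Matrix.Charpoly.Basic

set_option autoImplicit false
universe u
open CAlg

namespace Groth.Agent.S19380

open Polynomial in
theorem charpolyRev_map_ringHom {L : Type u} [CommRing L] (f : L →+* L) {r : ℕ}
    (M : Matrix (Fin r) (Fin r) L) :
    (Matrix.charpolyRev M).map f = Matrix.charpolyRev (M.map f) := by
  unfold Matrix.charpolyRev
  rw [← Polynomial.coe_mapRingHom, RingHom.map_det]
  congr 1
  ext i j
  by_cases h : i = j
  · subst h; simp
  · simp [Matrix.one_apply_ne h]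

theorem charpolyRev_mul_comm {L : Type u} [CommRing L] {r : ℕ}
    (A B : Matrix (Fin r) (Fin r) L) :
    Matrix.charpolyRev (A * B) = Matrix.charpolyRev (B * A) := by
  rw [← Matrix.reverse_charpoly, ← Matrix.reverse_charpoly, Matrix.charpoly_mul_comm]

theorem result
    (L : Type u) [CommRing L] (σ : L ≃+* L) (d : ℕ) (hσ : σ ^ d = 1)
    (r : ℕ) (C : Matrix (Fin r) (Fin r) L) :
    (Matrix.charpolyRev (((List.range d).map fun i => C.map ⇑(σ ^ i)).prod)).map (σ : L →+* L) =
      Matrix.charpolyRev (((List.range d).map fun i => C.map ⇑(σ ^ i)).prod) := by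
  rw [charpolyRev_map_ringHom]
  have hmap : ∀ M : Matrix (Fin r) (Fin r) L, M.map (σ : L →+* L) = (σ : L →+* L).mapMatrix M :=
    fun _ => rfl
  rw [hmap, map_list_prod, List.map_map]
  have hf : ((σ : L →+* L).mapMatrix ∘ fun i => C.map ⇑(σ ^ i)) = fun i => C.map ⇑(σ ^ (i + 1)) := by
    funext i
    simp only [Function.comp_apply, RingHom.mapMatrix_apply, Matrix.map_map]
    congr 1
    funext x
    simp [pow_succ']
  rw [hf]
  cases d with
  | zero => simp
  | succ e =>
    rw [List.prod_range_succ, List.prod_range_succ', hσ]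
    have h1 : C.map ⇑(1 : L ≃+* L) = C := by
      ext i j; simp
    have h0 : C.map ⇑(σ ^ 0) = C := by
      ext i j; simp
    rw [h1, h0, charpolyRev_mul_comm]

end Groth.Agent.S19380
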