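import Groth.Statements.S19390
import Mathlib.Data.Fin.Tuple.Sort
import Mathlib.Order.Interval.Finset.Fin
import Mathlib.Data.Fintype.Card

set_option autoImplicit false
universe u
open GIT

namespace Groth.Agent.S19390

theorem count_one {N : ℕ} (f : Fin N → Fin N) (hf : Function.Injective f) (m : Fin N) :
    (Finset.univ.filter fun k => f k = m).card = 1 := by
  obtain ⟨k0, hk0⟩ := (Finite.injective_iff_surjective.mp hf) m
  rw [Finset.card_eq_one]
  refine ⟨k0, ?_⟩
  ext k
  simp only [Finset.mem_filter, Finset.mem_univ, true_and, Finset.mem_singleton]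
  constructor
  · intro h; exact hf (h.trans hk0.symm)
  · rintro rfl; exact hk0

/-- Let e ≥ 1, n = 2e + 1, and let x_1, …, x_n be points such that no point occurs more than e times
among them (the stability condition for n ordered points on a line, n odd). Then there are index
sequences i_1, …, i_n and j_1, …, j_n in which every index between 1 and n occurs exactly twice in
total, such that x_{i_k} ≠ x_{j_k} for every k and (i_1, i_2, i_3) = (j_3, j_1, j_2). Indices are
written 0, …, n − 1 here. -/
theorem result {α : Type u} [DecidableEq α] (e : ℕ) (he : 1 ≤ e)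
    (x : Fin (2 * e + 1) → α)
    (hx : ∀ a : α, (Finset.univ.filter fun k => x k = a).card ≤ e) :
    ∃ i j : Fin (2 * e + 1) → Fin (2 * e + 1),
      (∀ m : Fin (2 * e + 1),
        (Finset.univ.filter fun k => i k = m).card + (Finset.univ.filter fun k => j k = m).card = 2) ∧
      (∀ k, x (i k) ≠ x (j k)) ∧
      i 0 = j 2 ∧ i 1 = j 0 ∧ i 2 = j 1 := by
  classical
  have hex : ∀ k : Fin (2 * e + 1), ∃ l : ℕ, ∃ hl : l < 2 * e + 1, x ⟨l, hl⟩ = x k :=
    fun k => ⟨k.val, k.isLt, rfl⟩
  let g : Fin (2 * e + 1) → ℕ := fun k => Nat.find (hex k)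
  have hg : ∀ k k', g k = g k' ↔ x k = x k' := by
    intro k k'
    constructor
    · intro h
      obtain ⟨hl, hxl⟩ := Nat.find_spec (hex k)
      obtain ⟨hl', hxl'⟩ := Nat.find_spec (hex k')
      have : (⟨Nat.find (hex k), hl⟩ : Fin (2 * e + 1)) = ⟨Nat.find (hex k'), hl'⟩ := Fin.ext h
      rw [← hxl, ← hxl', this]
    · intro h
      apply le_antisymm
      · apply Nat.find_min'
        obtain ⟨hl', hxl'⟩ := Nat.find_spec (hex k')
        exact ⟨hl', hxl'.trans h.symm⟩
      · apply Nat.find_min'
        obtain ⟨hl, hxl⟩ := Nat.find_spec (hex k)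
        exact ⟨hl, hxl.trans h⟩
  let σ := Tuple.sort g
  have hmono : Monotone (g ∘ σ) := Tuple.monotone_sort g
  have hfar : ∀ p q : Fin (2 * e + 1), p.val + e ≤ q.val → x (σ p) ≠ x (σ q) := by
    intro p q hpq hEq
    have hsub : (Finset.Icc p q).map σ.toEmbedding ⊆
        Finset.univ.filter (fun k => x k = x (σ p)) := by
      intro k hk
      rw [Finset.mem_map] at hk
      obtain ⟨r, hr, rfl⟩ := hk
      rw [Finset.mem_Icc] at hr
      simp only [Finset.mem_filter, Finset.mem_univ, true_and, Equiv.toEmbedding_apply]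
      have h1 : g (σ p) ≤ g (σ r) := hmono hr.1
      have h2 : g (σ r) ≤ g (σ q) := hmono hr.2
      have h3 : g (σ p) = g (σ q) := (hg _ _).mpr hEq
      exact ((hg _ _).mp (by omega)).symm
    have hc := Finset.card_le_card hsub
    rw [Finset.card_map, Fin.card_Icc] at hc
    have := hx (x (σ p))
    omega
  let aN : ℕ → ℕ := fun k => if k = 0 then 0 else if k = 1 then e else if k = 2 then 2 * e
    else if k % 2 = 1 then (k - 1) / 2 else (k - 2) / 2 + e
  let bN : ℕ → ℕ := fun k => if k = 0 then e else if k = 1 then 2 * e else if k = 2 then 0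
    else if k % 2 = 1 then (k - 1) / 2 + e else (k - 2) / 2
  have haN : ∀ k, k < 2 * e + 1 → aN k < 2 * e + 1 := by
    intro k hk; simp only [aN]; split_ifs <;> omega
  have hbN : ∀ k, k < 2 * e + 1 → bN k < 2 * e + 1 := by
    intro k hk; simp only [bN]; split_ifs <;> omega
  let a : Fin (2 * e + 1) → Fin (2 * e + 1) := fun k => ⟨aN k, haN k k.isLt⟩
  let b : Fin (2 * e + 1) → Fin (2 * e + 1) := fun k => ⟨bN k, hbN k k.isLt⟩
  have ha_inj : Function.Injective a := by
    intro k1 k2 h
    have h' : aN k1 = aN k2 := congrArg Fin.val h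
    have hk1 := k1.isLt
    have hk2 := k2.isLt
    apply Fin.ext
    simp only [aN] at h'
    split_ifs at h' <;> omega
  have hb_inj : Function.Injective b := by
    intro k1 k2 h
    have h' : bN k1 = bN k2 := congrArg Fin.val h
    have hk1 := k1.isLt
    have hk2 := k2.isLt
    apply Fin.ext
    simp only [bN] at h'
    split_ifs at h' <;> omega
  have hdist : ∀ k : Fin (2 * e + 1), (a k).val + e ≤ (b k).val ∨ (b k).val + e ≤ (a k).val := by
    intro k
    have hk := k.isLt
    show aN k + e ≤ bN k ∨ bN k + e ≤ aN k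
    simp only [aN, bN]
    split_ifs <;> omega
  have h0 : ((0 : Fin (2 * e + 1)) : ℕ) = 0 := rfl
  have h1 : ((1 : Fin (2 * e + 1)) : ℕ) = 1 := by
    show 1 % (2 * e + 1) = 1
    exact Nat.mod_eq_of_lt (by omega)
  have h2 : ((2 : Fin (2 * e + 1)) : ℕ) = 2 := by
    show 2 % (2 * e + 1) = 2
    exact Nat.mod_eq_of_lt (by omega)
  refine ⟨fun k => σ (a k), fun k => σ (b k), ?_, ?_, ?_, ?_, ?_⟩
  · intro m
    have e1 := count_one (fun k => σ (a k)) (σ.injective.comp ha_inj) m
    have e2 := count_one (fun k => σ (b k)) (σ.injective.comp hb_inj) m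
    simp only at e1 e2 ⊢
    rw [e1, e2]
  · intro k
    rcases hdist k with h | h
    · exact hfar _ _ h
    · exact fun h' => hfar _ _ h h'.symm
  · show σ (a 0) = σ (b 2)
    congr 1
    apply Fin.ext
    show aN (0 : Fin (2 * e + 1)).val = bN (2 : Fin (2 * e + 1)).val
    rw [h0, h2]
    simp [aN, bN]
  · show σ (a 1) = σ (b 0)
    congr 1
    apply Fin.ext
    show aN (1 : Fin (2 * e + 1)).val = bN (0 : Fin (2 * e + 1)).val
    rw [h0, h1]
    simp [aN, bN]
  · show σ (a 2) = σ (b 1)
    congr 1
    apply Fin.ext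
    show aN (2 : Fin (2 * e + 1)).val = bN (1 : Fin (2 * e + 1)).val
    rw [h1, h2]
    simp [aN, bN]

end Groth.Agent.S19390
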