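import Groth.Statements.S19391

set_option autoImplicit false
universe u
open InvQ

namespace Groth.Agent.S19391

open Polynomial in
theorem rootPoly_eq {R : Type u} [CommRing R] (la mu : Fin 4 → R) :
    W4c6intromoduli.rootPoly la mu =
      C (mu 0 * mu 1 * mu 2 * mu 3)
      + C (-(la 0 * mu 1 * mu 2 * mu 3 + mu 0 * la 1 * mu 2 * mu 3 + mu 0 * mu 1 * la 2 * mu 3
          + mu 0 * mu 1 * mu 2 * la 3)) * X
      + C (la 0 * la 1 * mu 2 * mu 3 + la 0 * mu 1 * la 2 * mu 3 + la 0 * mu 1 * mu 2 * la 3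
          + mu 0 * la 1 * la 2 * mu 3 + mu 0 * la 1 * mu 2 * la 3 + mu 0 * mu 1 * la 2 * la 3) * X ^ 2
      + C (-(la 0 * la 1 * la 2 * mu 3 + la 0 * la 1 * mu 2 * la 3 + la 0 * mu 1 * la 2 * la 3
          + mu 0 * la 1 * la 2 * la 3)) * X ^ 3
      + C (la 0 * la 1 * la 2 * la 3) * X ^ 4 := by
  simp only [W4c6intromoduli.rootPoly, Fin.prod_univ_four, map_add, map_mul, map_neg]
  ring

theorem disc_eq {R : Type u} [CommRing R] (la mu : Fin 4 → R) :
    W4c6intromoduli.disc la mu =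
      (la 1 * mu 0 - la 0 * mu 1) ^ 2 * (la 2 * mu 0 - la 0 * mu 2) ^ 2 * (la 3 * mu 0 - la 0 * mu 3) ^ 2
        * (la 2 * mu 1 - la 1 * mu 2) ^ 2 * (la 3 * mu 1 - la 1 * mu 3) ^ 2
        * (la 3 * mu 2 - la 2 * mu 3) ^ 2 := by
  simp only [W4c6intromoduli.disc]
  rw [Finset.prod_filter, Fintype.prod_prod_type]
  simp [Fin.prod_univ_four]
  ring

set_option maxHeartbeats 4000000 in
theorem result (R : Type u) [CommRing R] (la mu : Fin 4 → R) :
    27 * W4c6intromoduli.disc la mu =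
      4 * W4c6intromoduli.invI (W4c6intromoduli.coef la mu) ^ 3
        - W4c6intromoduli.invJ (W4c6intromoduli.coef la mu) ^ 2 := by
  have hc : ∀ i, W4c6intromoduli.coef la mu i = (W4c6intromoduli.rootPoly la mu).coeff i := fun _ => rfl
  simp only [W4c6intromoduli.invI, W4c6intromoduli.invJ, hc, rootPoly_eq, disc_eq]
  simp only [Polynomial.coeff_add, Polynomial.coeff_C_mul, Polynomial.coeff_X_pow, Polynomial.coeff_C,
    Polynomial.coeff_X]
  norm_num
  ring

end Groth.Agent.S19391
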