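import Groth.Statements.S19399
import Mathlib.Tactic.LinearCombination
import Mathlib.Tactic.FieldSimp
import Mathlib.Tactic.Ring

set_option autoImplicit false
universe u
open Curves

namespace Groth.Agent.S19399

theorem result (k : Type u) [Field k] (h2 : (2 : k) ≠ 0) (h3 : (3 : k) ≠ 0)
    (s t : k) (hs0 : s ≠ 0) (hs1 : s ≠ 1) (ht0 : t ≠ 0) (ht1 : t ≠ 1) :
    256 * (s ^ 2 - s + 1) ^ 3 / (s ^ 2 * (s - 1) ^ 2) = 256 * (t ^ 2 - t + 1) ^ 3 / (t ^ 2 * (t - 1) ^ 2) ↔
      (t = s ∨ t = 1 - s ∨ t = 1 / s ∨ t = (s - 1) / s ∨ t = s / (s - 1) ∨ t = 1 / (1 - s)) := by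
  have hs1' : s - 1 ≠ 0 := sub_ne_zero.mpr hs1
  have ht1' : t - 1 ≠ 0 := sub_ne_zero.mpr ht1
  have hs1'' : 1 - s ≠ 0 := sub_ne_zero.mpr (Ne.symm hs1)
  have h256 : (256 : k) ≠ 0 := by
    have : (256 : k) = 2 ^ 8 := by norm_num
    rw [this]; exact pow_ne_zero _ h2
  have hBs : s ^ 2 * (s - 1) ^ 2 ≠ 0 := mul_ne_zero (pow_ne_zero _ hs0) (pow_ne_zero _ hs1')
  have hBt : t ^ 2 * (t - 1) ^ 2 ≠ 0 := mul_ne_zero (pow_ne_zero _ ht0) (pow_ne_zero _ ht1')
  have key : (s ^ 2 - s + 1) ^ 3 * (t ^ 2 * (t - 1) ^ 2) - (t ^ 2 - t + 1) ^ 3 * (s ^ 2 * (s - 1) ^ 2)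
      = (t - s) * (t - (1 - s)) * (s * t - 1) * (s * t - (s - 1)) * ((s - 1) * t - s)
        * ((1 - s) * t - 1) := by ring
  rw [div_eq_div_iff hBs hBt]
  constructor
  · intro h
    have h' : (s ^ 2 - s + 1) ^ 3 * (t ^ 2 * (t - 1) ^ 2) - (t ^ 2 - t + 1) ^ 3 * (s ^ 2 * (s - 1) ^ 2)
        = 0 := by
      apply mul_left_cancel₀ h256
      linear_combination h
    rw [key] at h'
    rcases mul_eq_zero.mp h' with h' | h6
    · rcases mul_eq_zero.mp h' with h' | h5
      · rcases mul_eq_zero.mp h' with h' | h4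
        · rcases mul_eq_zero.mp h' with h' | h3'
          · rcases mul_eq_zero.mp h' with h1 | h2'
            · left; exact sub_eq_zero.mp h1
            · right; left; exact sub_eq_zero.mp h2'
          · right; right; left
            field_simp
            linear_combination h3'
        · right; right; right; left
          field_simp
          linear_combination h4
      · right; right; right; right; left
        field_simp
        linear_combination h5
    · right; right; right; right; right
      field_simp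
      linear_combination h6
  · intro h
    have hprod : (t - s) * (t - (1 - s)) * (s * t - 1) * (s * t - (s - 1)) * ((s - 1) * t - s)
        * ((1 - s) * t - 1) = 0 := by
      rcases h with h | h | h | h | h | h
      · rw [h]; ring
      · rw [h]; ring
      · have : s * t - 1 = 0 := by rw [h]; field_simp; ring
        rw [this]; ring
      · have : s * t - (s - 1) = 0 := by rw [h]; field_simp; ring
        rw [this]; ring
      · have : (s - 1) * t - s = 0 := by rw [h]; field_simp; ring
        rw [this]; ring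
      · have : (1 - s) * t - 1 = 0 := by rw [h]; field_simp; ring
        rw [this]; ring
    rw [← key] at hprod
    linear_combination 256 * hprod

end Groth.Agent.S19399
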