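import Groth.Statements.S19427

set_option autoImplicit false
universe u
open MilnorK

namespace Groth.Agent.S19427

theorem sym_mul_left {F : Type u} [Field F] (a a' b : Fˣ) :
    (MilK.symbol ![a * a', b] : MilK.K F 2) = MilK.symbol ![a, b] + MilK.symbol ![a', b] := by
  unfold MilK.symbol
  rw [← map_add]
  congr 1
  have h1 : (fun i => Additive.ofMul (![a * a', b] i)) = Function.update
      (fun i => Additive.ofMul (![a, b] i)) 0 (Additive.ofMul a + Additive.ofMul a') := by
    funext i; fin_cases i <;> rfl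
  have h2 : (fun i => Additive.ofMul (![a, b] i)) = Function.update
      (fun i => Additive.ofMul (![a, b] i)) 0 (Additive.ofMul a) := by
    funext i; fin_cases i <;> rfl
  have h3 : (fun i => Additive.ofMul (![a', b] i)) = Function.update
      (fun i => Additive.ofMul (![a, b] i)) 0 (Additive.ofMul a') := by
    funext i; fin_cases i <;> rfl
  rw [h1, MultilinearMap.map_update_add, ← h2, ← h3]

theorem sym_mul_right {F : Type u} [Field F] (a b b' : Fˣ) :
    (MilK.symbol ![a, b * b'] : MilK.K F 2) = MilK.symbol ![a, b] + MilK.symbol ![a, b'] := by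
  unfold MilK.symbol
  rw [← map_add]
  congr 1
  have h1 : (fun i => Additive.ofMul (![a, b * b'] i)) = Function.update
      (fun i => Additive.ofMul (![a, b] i)) 1 (Additive.ofMul b + Additive.ofMul b') := by
    funext i; fin_cases i <;> rfl
  have h2 : (fun i => Additive.ofMul (![a, b] i)) = Function.update
      (fun i => Additive.ofMul (![a, b] i)) 1 (Additive.ofMul b) := by
    funext i; fin_cases i <;> rfl
  have h3 : (fun i => Additive.ofMul (![a, b'] i)) = Function.update
      (fun i => Additive.ofMul (![a, b] i)) 1 (Additive.ofMul b') := by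
    funext i; fin_cases i <;> rfl
  rw [h1, MultilinearMap.map_update_add, ← h2, ← h3]

theorem sym_one_left {F : Type u} [Field F] (b : Fˣ) :
    (MilK.symbol ![1, b] : MilK.K F 2) = 0 := by
  have h := sym_mul_left (1 : Fˣ) 1 b
  rw [mul_one] at h
  have : (MilK.symbol ![1, b] : MilK.K F 2) + MilK.symbol ![1, b] - MilK.symbol ![1, b] = 0 := by
    rw [← h]; abel
  simpa using this

theorem sym_one_right {F : Type u} [Field F] (a : Fˣ) :
    (MilK.symbol ![a, 1] : MilK.K F 2) = 0 := by
  have h := sym_mul_right a (1 : Fˣ) 1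
  rw [mul_one] at h
  have : (MilK.symbol ![a, 1] : MilK.K F 2) + MilK.symbol ![a, 1] - MilK.symbol ![a, 1] = 0 := by
    rw [← h]; abel
  simpa using this

theorem sym_inv_left {F : Type u} [Field F] (a b : Fˣ) :
    (MilK.symbol ![a⁻¹, b] : MilK.K F 2) = - MilK.symbol ![a, b] := by
  have h := sym_mul_left a a⁻¹ b
  rw [mul_inv_cancel, sym_one_left] at h
  exact eq_neg_of_add_eq_zero_right h.symm

theorem sym_inv_right {F : Type u} [Field F] (a b : Fˣ) :
    (MilK.symbol ![a, b⁻¹] : MilK.K F 2) = - MilK.symbol ![a, b] := by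
  have h := sym_mul_right a b b⁻¹
  rw [mul_inv_cancel, sym_one_right] at h
  exact eq_neg_of_add_eq_zero_right h.symm

theorem sym_steinberg {F : Type u} [Field F] (a b : Fˣ) (h : (a : F) + (b : F) = 1) :
    (MilK.symbol ![a, b] : MilK.K F 2) = 0 := by
  apply MilK.symbol_eq_zero_of_isSteinberg
  exact ⟨0, 1, by decide, by simpa using h⟩

theorem sym_neg_self {F : Type u} [Field F] (x : Fˣ) :
    (MilK.symbol ![x, -x] : MilK.K F 2) = 0 := by
  by_cases hx : x = 1
  · subst hx; exact sym_one_left _
  · have hx' : (x : F) ≠ 1 := fun h => hx (Units.ext h)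
    have h1 : (1 : F) - x ≠ 0 := sub_ne_zero.mpr (Ne.symm hx')
    have h2 : (1 : F) - (x⁻¹ : Fˣ) ≠ 0 := by
      rw [sub_ne_zero]
      intro h
      apply hx'
      have : ((x⁻¹ : Fˣ) : F) * x = 1 := by simp
      rw [← h, one_mul] at this
      exact this
    let u : Fˣ := Units.mk0 (1 - x) h1
    let v : Fˣ := Units.mk0 (1 - (x⁻¹ : Fˣ)) h2
    have hneg : -x = u * v⁻¹ := by
      apply Units.ext
      simp only [Units.val_neg, Units.val_mul, u, v, Units.val_inv_eq_inv_val, Units.val_mk0]
      have hx0 : (x : F) ≠ 0 := x.ne_zero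
      field_simp
      ring
    rw [hneg, sym_mul_right, sym_inv_right]
    have e1 : (MilK.symbol ![x, u] : MilK.K F 2) = 0 :=
      sym_steinberg x u (by simp [u])
    have e2 : (MilK.symbol ![x⁻¹, v] : MilK.K F 2) = 0 :=
      sym_steinberg x⁻¹ v (by simp [v])
    rw [sym_inv_left] at e2
    rw [e1, neg_eq_zero.mp e2]
    simp

theorem sym_antisymm {F : Type u} [Field F] (x y : Fˣ) :
    (MilK.symbol ![x, y] : MilK.K F 2) + MilK.symbol ![y, x] = 0 := by
  have h := sym_neg_self (x * y)
  have e1 : -(x * y) = (-x) * y := by rw [neg_mul]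
  have e2 : -(x * y) = x * (-y) := by rw [mul_neg]
  rw [sym_mul_left] at h
  conv at h => lhs; arg 1; rw [e1, sym_mul_right, sym_neg_self]
  conv at h => lhs; arg 2; rw [e2, sym_mul_right, sym_neg_self]
  simpa [add_comm] using h

theorem result (F : Type u) [Field F] (b c : Fˣ)
    (h : (b : F) + (c : F) ≠ 0) :
    (MilK.symbol ![b, c] : MilK.K F 2) + MilK.symbol ![Units.mk0 ((b : F) + (c : F)) h, -(b / c)] = 0 := by
  set s : Fˣ := Units.mk0 ((b : F) + (c : F)) h with hs
  -- Steinberg relation for b/s + c/s = 1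
  have hst : (MilK.symbol ![b * s⁻¹, c * s⁻¹] : MilK.K F 2) = 0 := by
    apply sym_steinberg
    simp only [Units.val_mul, Units.val_inv_eq_inv_val, hs, Units.val_mk0]
    field_simp
  rw [sym_mul_left, sym_mul_right, sym_mul_right, sym_inv_left, sym_inv_right, sym_inv_right] at hst
  -- -(b / c) = (-1) * b * c⁻¹
  have e : -(b / c) = (-1 : Fˣ) * b * c⁻¹ := by
    rw [div_eq_mul_inv]; simp
  rw [e, sym_mul_right, sym_mul_right, sym_inv_right]
  -- {s, s} = {s, -1}
  have hss : (MilK.symbol ![s, s] : MilK.K F 2) = MilK.symbol ![s, -1] := by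
    have := sym_neg_self s
    have e' : -s = (-1 : Fˣ) * s := by simp
    rw [e', sym_mul_right] at this
    have := eq_neg_of_add_eq_zero_right this
    rw [this, ← sym_inv_right]
    simp
  have hbs := sym_antisymm b s
  rw [sym_inv_left] at hst
  have key : (MilK.symbol ![b, c] : MilK.K F 2) =
      MilK.symbol ![b, s] + MilK.symbol ![s, c] - MilK.symbol ![s, -1] := by
    rw [← hss]
    calc (MilK.symbol ![b, c] : MilK.K F 2)
        = (MilK.symbol ![b, c] + -MilK.symbol ![b, s] + (-MilK.symbol ![s, c] + - -MilK.symbol ![s, s]))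
          + MilK.symbol ![b, s] + MilK.symbol ![s, c] - MilK.symbol ![s, s] := by abel
      _ = _ := by rw [hst]; abel
  rw [key]
  calc (MilK.symbol ![b, s] + MilK.symbol ![s, c] - MilK.symbol ![s, -1] +
        (MilK.symbol ![s, -1] + MilK.symbol ![s, b] + -MilK.symbol ![s, c]) : MilK.K F 2)
      = MilK.symbol ![b, s] + MilK.symbol ![s, b] := by abel
    _ = 0 := hbs

end Groth.Agent.S19427
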