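import Groth.Statements.S19436
import Mathlib.RingTheory.Nakayama
import Mathlib.LinearAlgebra.FiniteDimensional.Lemmas
import Mathlib.RingTheory.Jacobson.Ideal

set_option autoImplicit false
universe u
open CAlg

namespace Groth.Agent.S19436

theorem result (k : Type u) [Field k] (R : Type u) [CommRing R]
    [Algebra k R] [IsNoetherianRing R] [IsLocalRing R] (I : Ideal R) [Module.Finite k (R ⧸ I)] (n : ℕ)
    (hn : Module.finrank k (R ⧸ I) = n) : IsLocalRing.maximalIdeal R ^ n ≤ I := by
  set m := IsLocalRing.maximalIdeal R with hm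
  let S : ℕ → Submodule k (R ⧸ I) := fun j =>
    ((m ^ j).map (Ideal.Quotient.mk I)).restrictScalars k
  have hmono : ∀ j, S (j + 1) ≤ S j := by
    intro j x hx
    exact Ideal.map_mono (Ideal.pow_le_pow_right (Nat.le_succ j)) hx
  have hjac : m ≤ Ideal.jacobson ⊥ := by
    rw [IsLocalRing.jacobson_eq_maximalIdeal ⊥ bot_ne_top]
  have hstrict : ∀ j, ¬ m ^ (j + 1) ≤ I → S (j + 1) < S j := by
    intro j hj
    refine lt_of_le_of_ne (hmono j) ?_
    intro heq
    apply hj
    have heq' : (m ^ (j + 1)).map (Ideal.Quotient.mk I) = (m ^ j).map (Ideal.Quotient.mk I) :=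
      Submodule.restrictScalars_injective k _ _ heq
    have hc : m ^ j ⊔ I = m ^ (j + 1) ⊔ I := by
      have h1 := Ideal.comap_map_of_surjective (Ideal.Quotient.mk I) Ideal.Quotient.mk_surjective (m ^ j)
      have h2 := Ideal.comap_map_of_surjective (Ideal.Quotient.mk I) Ideal.Quotient.mk_surjective
        (m ^ (j + 1))
      rw [← RingHom.ker_eq_comap_bot, Ideal.mk_ker] at h1 h2
      rw [← h1, ← h2, heq']
    have hle : m ^ j ≤ I := by
      apply Submodule.le_of_le_smul_of_le_jacobson_bot (IsNoetherian.noetherian _) hjac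
      calc m ^ j ≤ m ^ j ⊔ I := le_sup_left
        _ = m ^ (j + 1) ⊔ I := hc
        _ = I ⊔ m • m ^ j := by rw [sup_comm, pow_succ', smul_eq_mul]
    exact (Ideal.pow_le_pow_right (Nat.le_succ j)).trans hle
  have key : ∀ j, m ^ j ≤ I ∨ Module.finrank k (S j) + j ≤ n := by
    intro j
    induction j with
    | zero =>
      right
      rw [← hn, add_zero]
      exact Submodule.finrank_le _
    | succ j ih =>
      rcases ih with h | h
      · left; exact (Ideal.pow_le_pow_right (Nat.le_succ j)).trans h
      · by_cases hj : m ^ (j + 1) ≤ I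
        · left; exact hj
        · right
          have := Submodule.finrank_lt_finrank_of_lt (hstrict j hj)
          omega
  rcases key n with h | h
  · exact h
  · have h0 : Module.finrank k (S n) = 0 := by omega
    have hbot : S n = ⊥ := Submodule.finrank_eq_zero.mp h0
    have hbot' : (m ^ n).map (Ideal.Quotient.mk I) = ⊥ := by
      apply Submodule.restrictScalars_injective k
      simpa [S] using hbot
    rw [Ideal.map_eq_bot_iff_le_ker, Ideal.mk_ker] at hbot'
    exact hbot'

end Groth.Agent.S19436
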