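import Groth.Statements.S19438
import Mathlib.RingTheory.Adjoin.Polynomial.Basic
import Mathlib.Algebra.Polynomial.Inductions
import Mathlib.LinearAlgebra.Dimension.Constructions
import Mathlib.LinearAlgebra.FiniteDimensional.Lemmas

set_option autoImplicit false
universe u
open CAlg

namespace Groth.Agent.S19438

open Polynomial in
theorem result (k : Type u) [Field k]
    (A : Type u) [CommRing A] [Algebra k A] [IsNoetherianRing A] [IsLocalRing A]
    (hres : Function.Surjective (algebraMap k (IsLocalRing.ResidueField A)))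
    (hemb : 2 ≤ Module.finrank (IsLocalRing.ResidueField A) (IsLocalRing.CotangentSpace A))
    (I : Ideal A) (hI : I ≠ ⊤) [Module.Finite k (A ⧸ I)]
    (f : A ⧸ I) (hf : Algebra.adjoin k {f} = ⊤) :
    ∃ g ∈ I, g ∉ IsLocalRing.maximalIdeal A ^ 2 := by
  by_contra hcon
  push Not at hcon
  set m := IsLocalRing.maximalIdeal A with hm
  have hIm : I ≤ m ^ 2 := fun g hg => hcon g hg
  obtain ⟨a, rfl⟩ := Ideal.Quotient.mk_surjective f
  obtain ⟨c, hc⟩ := hres (IsLocalRing.residue A a)
  set b := a - algebraMap k A c with hbdef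
  have hb : b ∈ m := by
    rw [hbdef, ← IsLocalRing.residue_eq_zero_iff, map_sub]
    rw [← hc, IsScalarTower.algebraMap_apply k A (IsLocalRing.ResidueField A)]
    simp
  -- every element of m is b * r modulo m^2
  have hmain : ∀ y ∈ m, ∃ r : A, y - b * r ∈ m ^ 2 := by
    intro y hy
    have hy' : Ideal.Quotient.mk I y ∈ Algebra.adjoin k {Ideal.Quotient.mk I a} := by
      rw [hf]; exact Algebra.mem_top
    rw [Algebra.adjoin_singleton_eq_range_aeval] at hy'
    obtain ⟨P, hP⟩ := hy'
    set P' : k[X] := P.comp (X + C c) with hP'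
    set Q : k[X] := P'.divX with hQ
    set c0 : k := P'.coeff 0 with hc0
    have hsplit : P' = X * Q + C c0 := (X_mul_divX_add P').symm
    have hab : Ideal.Quotient.mk I a = Ideal.Quotient.mk I b + algebraMap k (A ⧸ I) c := by
      rw [hbdef, map_sub]
      simp [Ideal.Quotient.mk_algebraMap]
    have hPy : (aeval (Ideal.Quotient.mk I a)) P = aeval (Ideal.Quotient.mk I b) P' := by
      rw [hP', aeval_comp, hab]
      simp
    have hmem : y - (algebraMap k A c0 + b * aeval b Q) ∈ I := by
      rw [← Ideal.Quotient.eq_zero_iff_mem, map_sub]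
      have e1 : Ideal.Quotient.mk I (algebraMap k A c0 + b * aeval b Q) =
          aeval (Ideal.Quotient.mk I b) P' := by
        rw [hsplit]
        simp only [map_add, map_mul, aeval_X, aeval_C]
        rw [show (Ideal.Quotient.mk I) (aeval b Q) = aeval (Ideal.Quotient.mkₐ k I b) Q from
          (aeval_algHom_apply (Ideal.Quotient.mkₐ k I) b Q).symm]
        rw [Ideal.Quotient.mk_algebraMap]
        simp [add_comm]
      rw [e1, ← hPy]
      rw [show (aeval (Ideal.Quotient.mk I a)) P = Ideal.Quotient.mk I y from hP]
      simp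
    have hc0m : algebraMap k A c0 ∈ m := by
      have h1 : y - (algebraMap k A c0 + b * aeval b Q) ∈ m :=
        (hIm.trans (Ideal.pow_le_self two_ne_zero)) hmem
      have h2 : b * aeval b Q ∈ m := Ideal.mul_mem_right _ _ hb
      have : algebraMap k A c0 = y - b * aeval b Q - (y - (algebraMap k A c0 + b * aeval b Q)) := by
        ring
      rw [this]
      exact Ideal.sub_mem _ (Ideal.sub_mem _ hy h2) h1
    have hc00 : c0 = 0 := by
      by_contra hne
      have hu : IsUnit (algebraMap k A c0) := (isUnit_iff_ne_zero.mpr hne).map (algebraMap k A)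
      exact (IsLocalRing.mem_maximalIdeal _).mp hc0m hu
    refine ⟨aeval b Q, ?_⟩
    have := hIm hmem
    rwa [hc00, map_zero, zero_add] at this
  -- the cotangent space is spanned by the class of b
  set v : IsLocalRing.CotangentSpace A := m.toCotangent ⟨b, hb⟩ with hv
  have htop : (⊤ : Submodule (IsLocalRing.ResidueField A) (IsLocalRing.CotangentSpace A)) ≤
      Submodule.span (IsLocalRing.ResidueField A) {v} := by
    intro w _
    obtain ⟨⟨y, hy⟩, rfl⟩ := m.toCotangent_surjective w
    obtain ⟨r, hr⟩ := hmain y hy
    have hy2 : (⟨y, hy⟩ : m) = r • (⟨b, hb⟩ : m) + ⟨y - b * r, (Ideal.pow_le_self two_ne_zero) hr⟩ := by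
      apply Subtype.ext
      simp only [Submodule.coe_add, Submodule.coe_smul, smul_eq_mul]
      ring
    rw [hy2, map_add, map_smul]
    have hz : m.toCotangent ⟨y - b * r, (Ideal.pow_le_self two_ne_zero) hr⟩ = 0 :=
      (m.toCotangent_eq_zero _).mpr hr
    rw [hz, add_zero, ← hv, ← algebraMap_smul (IsLocalRing.ResidueField A) r v]
    exact Submodule.smul_mem _ _ (Submodule.mem_span_singleton_self v)
  have hle : Module.finrank (IsLocalRing.ResidueField A) (IsLocalRing.CotangentSpace A) ≤ 1 := by
    have h1 := finrank_span_le_card (R := IsLocalRing.ResidueField A) ({v} : Set _)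
    have h2 : Module.finrank (IsLocalRing.ResidueField A) (IsLocalRing.CotangentSpace A) ≤
        Module.finrank (IsLocalRing.ResidueField A)
          (Submodule.span (IsLocalRing.ResidueField A) ({v} : Set (IsLocalRing.CotangentSpace A))) := by
      rw [← finrank_top (IsLocalRing.ResidueField A) (IsLocalRing.CotangentSpace A)]
      exact Submodule.finrank_mono htop
    simp at h1
    omega
  omega

end Groth.Agent.S19438
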