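import Groth.Statements.S19440

set_option autoImplicit false
universe u
open LinAlg

namespace Groth.Agent.S19440

theorem result (k : Type u) [Field k] (n : ℕ)
    (U V : Matrix (Fin n) (Fin n) k) (hUV : U * V = V * U) (e : Fin n → k)
    (he : Submodule.span k (Set.range fun p : ℕ × ℕ => (U ^ p.1 * V ^ p.2).mulVec e) = ⊤)
    (T : Matrix.GeneralLinearGroup (Fin n) k)
    (hTU : (T : Matrix (Fin n) (Fin n) k) * U = U * T) (hTV : (T : Matrix (Fin n) (Fin n) k) * V = V * T)
    (hTe : (T : Matrix (Fin n) (Fin n) k).mulVec e = e) : T = 1 := by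
  have hcomm : ∀ p q : ℕ, (T : Matrix (Fin n) (Fin n) k) * (U ^ p * V ^ q) = (U ^ p * V ^ q) * T := by
    intro p q
    have h1 : Commute (T : Matrix (Fin n) (Fin n) k) U := hTU
    have h2 : Commute (T : Matrix (Fin n) (Fin n) k) V := hTV
    exact ((h1.pow_right p).mul_right (h2.pow_right q)).eq
  let W : Submodule k (Fin n → k) :=
    LinearMap.ker (Matrix.toLin' (T : Matrix (Fin n) (Fin n) k) - LinearMap.id)
  have hle : Submodule.span k (Set.range fun p : ℕ × ℕ => (U ^ p.1 * V ^ p.2).mulVec e) ≤ W := by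
    rw [Submodule.span_le]
    rintro _ ⟨⟨p, q⟩, rfl⟩
    simp only [SetLike.mem_coe, W, LinearMap.mem_ker, LinearMap.sub_apply, Matrix.toLin'_apply,
      LinearMap.id_apply, sub_eq_zero]
    rw [Matrix.mulVec_mulVec, hcomm p q, ← Matrix.mulVec_mulVec, hTe]
  rw [he] at hle
  have hT : Matrix.toLin' (T : Matrix (Fin n) (Fin n) k) = LinearMap.id := by
    apply LinearMap.ext
    intro v
    have hv := hle (Submodule.mem_top : v ∈ (⊤ : Submodule k (Fin n → k)))
    simpa [W, sub_eq_zero] using hv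
  apply Units.ext
  rw [Units.val_one]
  apply Matrix.toLin'.injective
  rw [hT, Matrix.toLin'_one]

end Groth.Agent.S19440
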