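import Groth.Statements.S19443

set_option autoImplicit false
universe u
open LinAlg

namespace Groth.Agent.S19443

theorem result (k : Type u) [Field k]
    (G : Type u) [Group G] [Finite G] (hG : (Nat.card G : k) ≠ 0)
    (V : Type u) [AddCommGroup V] [Module k V] (ρ : Representation k G V)
    (ω : LinearMap.BilinForm k V) (hω : ω.Nondegenerate)
    (hinv : ∀ (g : G) (v w : V), ω (ρ g v) (ρ g w) = ω v w) :
    (ω.restrict ρ.invariants).Nondegenerate := by
  classical
  have := Fintype.ofFinite G
  let P : V → V := fun u => ∑ g : G, ρ g u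
  have hPinv : ∀ u, P u ∈ ρ.invariants := by
    intro u h
    simp only [P, map_sum]
    have e1 : ∀ g : G, ρ h (ρ g u) = ρ (h * g) u := by
      intro g; rw [map_mul]; rfl
    simp only [e1]
    exact Fintype.sum_bijective (h * ·) (Group.mulLeft_bijective h) _ _ (fun _ => rfl)
  have hcard : ((Fintype.card G : ℕ) : k) ≠ 0 := by rwa [Nat.card_eq_fintype_card] at hG
  have key1 : ∀ v ∈ ρ.invariants, ∀ u, ω v (P u) = (Fintype.card G : k) * ω v u := by
    intro v hv u
    simp only [P, map_sum]
    have : ∀ g, ω v (ρ g u) = ω v u := by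
      intro g
      conv_lhs => rw [← hv g]
      exact hinv g v u
    simp [this, Finset.sum_const, nsmul_eq_mul]
  have key2 : ∀ v ∈ ρ.invariants, ∀ u, ω (P u) v = (Fintype.card G : k) * ω u v := by
    intro v hv u
    simp only [P, map_sum, LinearMap.sum_apply]
    have : ∀ g, ω (ρ g u) v = ω u v := by
      intro g
      conv_lhs => rw [← hv g]
      exact hinv g u v
    simp [this, Finset.sum_const, nsmul_eq_mul]
  constructor
  · intro x hx
    apply Subtype.ext
    apply hω.1 x.1
    intro u
    have h1 := hx ⟨P u, hPinv u⟩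
    change ω x.1 (P u) = 0 at h1
    rw [key1 x.1 x.2 u] at h1
    exact (mul_eq_zero.mp h1).resolve_left hcard
  · intro x hx
    apply Subtype.ext
    apply hω.2 x.1
    intro u
    have h1 := hx ⟨P u, hPinv u⟩
    change ω (P u) x.1 = 0 at h1
    rw [key2 x.1 x.2 u] at h1
    exact (mul_eq_zero.mp h1).resolve_left hcard

end Groth.Agent.S19443
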