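import Groth.Statements.S19448
import Mathlib.RingTheory.Filtration
import Mathlib.Algebra.Polynomial.AlgebraMap
import Mathlib.Algebra.Module.LinearMap.End
import Mathlib.GroupTheory.OrderOfElement
import Mathlib.RingTheory.LocalRing.ResidueField.Basic
import Mathlib.Tactic.Ring

set_option autoImplicit false
universe u
open CAlg

namespace Groth.Agent.S19448

open Polynomial

theorem one_add_pow_aux {R : Type*} [CommRing R] (y : R) (k : ℕ) :
    ∃ s : R, (1 + y) ^ k = 1 + (k : R) * y + y ^ 2 * s := by
  induction k with
  | zero => exact ⟨0, by simp⟩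
  | succ k ih =>
    obtain ⟨s, hs⟩ := ih
    refine ⟨(k : R) + s + s * y, ?_⟩
    rw [pow_succ, hs]; push_cast; ring

/-- Let k be a field, A a Noetherian local k-algebra with maximal ideal M and residue field k, and G a
finite group with |G| ≠ 0 in k acting on A by k-algebra automorphisms. An element of G which acts
trivially on M/M^2 acts trivially on A; in other words the stabilizer acts faithfully on the
cotangent space whenever it acts faithfully on the local ring. -/
theorem result (k : Type u) [Field k] (A : Type u) [CommRing A]
    [Algebra k A] [IsLocalRing A] [IsNoetherianRing A]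
    (hres : Function.Surjective (algebraMap k (IsLocalRing.ResidueField A)))
    (G : Type u) [Group G] [Finite G] [MulSemiringAction G A] [SMulCommClass G k A]
    (hG : (Nat.card G : k) ≠ 0) (g : G)
    (hg : ∀ a ∈ IsLocalRing.maximalIdeal A, g • a - a ∈ IsLocalRing.maximalIdeal A ^ 2) (a : A) :
    g • a = a := by
  classical
  set M := IsLocalRing.maximalIdeal A with hM
  have hgM : ∀ y ∈ M, g • y ∈ M := by
    intro y hy
    have h2 : g • y - y ∈ M := Ideal.pow_le_self two_ne_zero (hg y hy)
    have e : g • y = (g • y - y) + y := by ring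
    rw [e]; exact M.add_mem h2 hy
  have hpow : ∀ s : ℕ, ∀ x ∈ M ^ (s + 1), g • x - x ∈ M ^ (s + 2) := by
    intro s
    induction s with
    | zero => intro x hx; simpa using hg x (by simpa using hx)
    | succ s ih =>
      intro x hx
      rw [pow_succ] at hx
      refine Submodule.mul_induction_on (C := fun x => g • x - x ∈ M ^ (s + 1 + 2)) hx ?_ ?_
      · intro u hu v hv
        show g • (u * v) - u * v ∈ M ^ (s + 1 + 2)
        rw [smul_mul']
        have e : g • u * g • v - u * v = (g • u - u) * (g • v) + u * (g • v - v) := by ring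
        rw [e]
        refine Ideal.add_mem _ ?_ ?_
        · have h3 : M ^ (s + 1 + 2) = M ^ (s + 2) * M := by
            rw [show s + 1 + 2 = s + 2 + 1 by omega, pow_succ]
          rw [h3]
          exact Ideal.mul_mem_mul (ih u hu) (hgM v hv)
        · have h3 : M ^ (s + 1 + 2) = M ^ (s + 1) * M ^ 2 := by rw [← pow_add]
          rw [h3]
          exact Ideal.mul_mem_mul hu (hg v hv)
      · intro u v hu hv
        show g • (u + v) - (u + v) ∈ M ^ (s + 1 + 2)
        rw [smul_add]
        have e : g • u + g • v - (u + v) = (g • u - u) + (g • v - v) := by ring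
        rw [e]; exact Ideal.add_mem _ hu hv
  have hbase : ∀ a : A, g • a - a ∈ M := by
    intro a
    obtain ⟨c, hc⟩ := hres (IsLocalRing.residue A a)
    have hmem : a - algebraMap k A c ∈ M := by
      rw [hM, ← IsLocalRing.residue_eq_zero_iff, map_sub, ← hc]
      rw [IsScalarTower.algebraMap_apply k A (IsLocalRing.ResidueField A),
        IsLocalRing.ResidueField.algebraMap_eq, sub_self]
    have hcfix : g • algebraMap k A c = algebraMap k A c := by
      rw [Algebra.algebraMap_eq_smul_one, smul_comm, smul_one]
    have e : g • a - a = (g • (a - algebraMap k A c) - (a - algebraMap k A c))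
        + (g • algebraMap k A c - algebraMap k A c) := by rw [smul_sub]; ring
    rw [e, hcfix, sub_self, add_zero]
    exact Ideal.pow_le_self two_ne_zero (hg _ hmem)
  have hm0 : ((orderOf g : ℕ) : k) ≠ 0 := by
    intro h0
    apply hG
    obtain ⟨r, hr⟩ := orderOf_dvd_natCard g
    rw [hr, Nat.cast_mul, h0, zero_mul]
  let T : Module.End k A := DistribMulAction.toModuleEnd k A g
  let D : Module.End k A := T - 1
  have hT : T ^ (orderOf g) = 1 := by
    simp only [T]
    rw [← map_pow, pow_orderOf_eq_one, map_one]
  have hDapp : ∀ x, D x = g • x - x := fun x => rfl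
  obtain ⟨s, hs⟩ := one_add_pow_aux (X : k[X]) (orderOf g)
  have hpoly : ((1 : k[X]) + X) ^ (orderOf g) - 1 = X * (((orderOf g : ℕ) : k[X]) + X * s) := by
    rw [hs]; ring
  have hD := congrArg (aeval D) hpoly
  simp only [map_sub, map_pow, map_add, map_one, map_mul, aeval_X, map_natCast] at hD
  have hTD : 1 + D = T := by simp [D]
  rw [hTD, hT, sub_self] at hD
  have key : ∀ a : A, (orderOf g) • D a + D (D (aeval D s a)) = 0 := by
    intro a
    have := congrArg (fun F : Module.End k A => F a) hD
    simp only [Module.End.mul_apply, LinearMap.add_apply, LinearMap.zero_apply, map_add,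
      Module.End.natCast_apply, map_nsmul] at this
    exact this.symm
  have hu : IsUnit ((orderOf g : ℕ) : A) := by
    rw [← map_natCast (algebraMap k A)]
    exact (IsUnit.mk0 _ hm0).map _
  have hall : ∀ t : ℕ, ∀ a : A, D a ∈ M ^ (t + 1) := by
    intro t
    induction t with
    | zero => intro a; rw [zero_add, pow_one]; exact hbase a
    | succ t ih =>
      intro a
      have h1 : D (D (aeval D s a)) ∈ M ^ (t + 2) := hpow t _ (ih _)
      have h2 : (orderOf g) • D a ∈ M ^ (t + 2) := by
        have := key a
        rw [add_eq_zero_iff_eq_neg] at this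
        rw [this]; exact neg_mem h1
      rw [nsmul_eq_mul] at h2
      exact (Ideal.unit_mul_mem_iff_mem _ hu).mp h2
  have hzero : D a = 0 := by
    have hmem : D a ∈ ⨅ i : ℕ, M ^ i := by
      rw [Submodule.mem_iInf]
      intro i
      exact Ideal.pow_le_pow_right (Nat.le_succ i) (hall i a)
    rw [Ideal.iInf_pow_eq_bot_of_isLocalRing M (IsLocalRing.maximalIdeal.isMaximal A).ne_top] at hmem
    exact (Submodule.mem_bot _).mp hmem
  rw [hDapp, sub_eq_zero] at hzero
  exact hzero

end Groth.Agent.S19448
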