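import Groth.Statements.S19502
import Mathlib.Topology.Algebra.InfiniteSum.Real
import Mathlib.Topology.Algebra.InfiniteSum.Group
import Mathlib.Tactic.FieldSimp

set_option autoImplicit false
universe u
open W4c3ghconstell

namespace Groth.Agent.S19502

theorem tail {ι : Type u} [DecidableEq ι] (f : ι → ℝ) (hf : Summable f) (E : Finset ι) :
    (∑' i, if i ∈ E then (0 : ℝ) else f i) = (∑' i, f i) - ∑ i ∈ E, f i := by
  rw [← hf.sum_add_tsum_compl (s := E), tsum_subtype]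
  have : ((↑E : Set ι)ᶜ).indicator f = fun i => if i ∈ E then 0 else f i := by
    ext i
    by_cases hi : i ∈ E <;> simp [hi]
  rw [this]; ring

theorem result {ι : Type u} [DecidableEq ι]
    (θ : ι → ℚ) (h h' : ι → ℕ) (hle : ∀ i, h' i ≤ h i) (hfin : {i | θ i < 0}.Finite)
    (hsum : Summable (fun i => (θ i : ℝ) * (h i : ℝ))) (D D' : Finset ι)
    (hDm : hfin.toFinset ⊆ D) (hDD' : D ⊆ D') (hsupp : ∀ i ∈ D', θ i ≠ 0) :
    (((∑ i ∈ D', (θ i : ℝ) * (h' i : ℝ)) + ((∑' i, if i ∈ D' then (0 : ℝ) else (θ i : ℝ) * (h i : ℝ)) / ((D' \ hfin.toFinset).card : ℝ)) * (∑ σ ∈ D' \ hfin.toFinset, ((h' σ : ℝ) / (h σ : ℝ)))) - ((∑ i ∈ D, (θ i : ℝ) * (h' i : ℝ)) + ((∑' i, if i ∈ D then (0 : ℝ) else (θ i : ℝ) * (h i : ℝ)) / ((D \ hfin.toFinset).card : ℝ)) * (∑ σ ∈ D \ hfin.toFinset, ((h' σ : ℝ) / (h σ : ℝ)))) =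
      ∑ τ ∈ D' \ D, ((θ τ : ℝ) * (h τ : ℝ) + (∑' i, if i ∈ D' then (0 : ℝ) else (θ i : ℝ) * (h i : ℝ)) / ((D' \ hfin.toFinset).card : ℝ)) *
        (((h' τ : ℝ) / (h τ : ℝ)) - (1 / ((D \ hfin.toFinset).card : ℝ)) * (∑ σ ∈ D \ hfin.toFinset, ((h' σ : ℝ) / (h σ : ℝ))))) ∧
    ((∑' i, (θ i : ℝ) * (h' i : ℝ)) - ((∑ i ∈ D, (θ i : ℝ) * (h' i : ℝ)) + ((∑' i, if i ∈ D then (0 : ℝ) else (θ i : ℝ) * (h i : ℝ)) / ((D \ hfin.toFinset).card : ℝ)) * (∑ σ ∈ D \ hfin.toFinset, ((h' σ : ℝ) / (h σ : ℝ)))) =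
      ∑' τ, if τ ∈ D then (0 : ℝ) else (θ τ : ℝ) * (h τ : ℝ) *
        (((h' τ : ℝ) / (h τ : ℝ)) - (1 / ((D \ hfin.toFinset).card : ℝ)) * (∑ σ ∈ D \ hfin.toFinset, ((h' σ : ℝ) / (h σ : ℝ))))) := by
  classical
  have key : ∀ i, (θ i : ℝ) * (h i : ℝ) * ((h' i : ℝ) / (h i : ℝ)) = (θ i : ℝ) * (h' i : ℝ) := by
    intro i
    by_cases h0 : h i = 0
    · have h0' : h' i = 0 := by have := hle i; omega
      simp [h0, h0']
    · have : (h i : ℝ) ≠ 0 := by exact_mod_cast h0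
      field_simp
  have hsum' : Summable (fun i => (θ i : ℝ) * (h' i : ℝ)) := by
    apply summable_abs_iff.mp
    refine Summable.of_nonneg_of_le (fun i => abs_nonneg _) (fun i => ?_) (summable_abs_iff.mpr hsum)
    rw [abs_mul, abs_mul]
    apply mul_le_mul_of_nonneg_left _ (abs_nonneg _)
    rw [abs_of_nonneg (by positivity), abs_of_nonneg (by positivity)]
    exact_mod_cast hle i
  set N := hfin.toFinset with hN
  set T := ∑' i, (θ i : ℝ) * (h i : ℝ) with hT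
  set A := ∑ σ ∈ D \ N, ((h' σ : ℝ) / (h σ : ℝ)) with hA
  set n : ℝ := ((D \ N).card : ℝ) with hn
  constructor
  · rw [tail _ hsum D', tail _ hsum D]
    have hsub : (D' \ N) \ (D \ N) = D' \ D := by
      ext x
      simp only [Finset.mem_sdiff]
      constructor
      · rintro ⟨⟨h1, _⟩, h3⟩
        exact ⟨h1, fun hx => h3 ⟨hx, by assumption⟩⟩
      · rintro ⟨h1, h2⟩
        exact ⟨⟨h1, fun hx => h2 (hDm hx)⟩, fun hx => h2 hx.1⟩
    have hDN : D \ N ⊆ D' \ N := Finset.sdiff_subset_sdiff hDD' le_rfl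
    have hsplitf : ∑ i ∈ D', (θ i : ℝ) * (h i : ℝ) =
        ∑ i ∈ D, (θ i : ℝ) * (h i : ℝ) + ∑ i ∈ D' \ D, (θ i : ℝ) * (h i : ℝ) := by
      rw [add_comm, Finset.sum_sdiff hDD']
    have hsplitS : ∑ i ∈ D', (θ i : ℝ) * (h' i : ℝ) =
        ∑ i ∈ D, (θ i : ℝ) * (h' i : ℝ) + ∑ i ∈ D' \ D, (θ i : ℝ) * (h' i : ℝ) := by
      rw [add_comm, Finset.sum_sdiff hDD']
    have hsplitA : ∑ σ ∈ D' \ N, ((h' σ : ℝ) / (h σ : ℝ)) =
        A + ∑ σ ∈ D' \ D, ((h' σ : ℝ) / (h σ : ℝ)) := by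
      rw [← hsub, add_comm, Finset.sum_sdiff hDN]
    have hcard : ((D' \ N).card : ℝ) = n + ((D' \ D).card : ℝ) := by
      rw [← hsub, hn]
      have := Finset.card_sdiff_add_card_eq_card hDN
      rw [← this]
      push_cast
      ring
    have hrhs : ∀ τ ∈ D' \ D, ((θ τ : ℝ) * (h τ : ℝ) + (T - ∑ i ∈ D', (θ i : ℝ) * (h i : ℝ)) /
        ((D' \ N).card : ℝ)) * (((h' τ : ℝ) / (h τ : ℝ)) - (1 / n) * A) =
        (θ τ : ℝ) * (h' τ : ℝ) - (1 / n) * A * ((θ τ : ℝ) * (h τ : ℝ)) +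
          (T - ∑ i ∈ D', (θ i : ℝ) * (h i : ℝ)) / ((D' \ N).card : ℝ) * ((h' τ : ℝ) / (h τ : ℝ)) -
          (T - ∑ i ∈ D', (θ i : ℝ) * (h i : ℝ)) / ((D' \ N).card : ℝ) * ((1 / n) * A) := by
      intro τ _
      rw [← key τ]
      ring
    rw [Finset.sum_congr rfl hrhs, Finset.sum_sub_distrib, Finset.sum_add_distrib,
      Finset.sum_sub_distrib, ← Finset.mul_sum, ← Finset.mul_sum, Finset.sum_const,
      nsmul_eq_mul, hsplitA, hcard, hsplitS, hsplitf]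
    set X := ∑ i ∈ D' \ D, (θ i : ℝ) * (h' i : ℝ)
    set Y := ∑ i ∈ D' \ D, (θ i : ℝ) * (h i : ℝ)
    set Z := ∑ σ ∈ D' \ D, ((h' σ : ℝ) / (h σ : ℝ))
    set m : ℝ := ((D' \ D).card : ℝ)
    set S := ∑ i ∈ D, (θ i : ℝ) * (h' i : ℝ)
    set F := ∑ i ∈ D, (θ i : ℝ) * (h i : ℝ)
    by_cases hn0 : n = 0
    · have hA0 : A = 0 := by
        rw [hA]
        have h' : ((D \ N).card : ℝ) = 0 := by rw [← hn]; exact hn0
        have : (D \ N).card = 0 := by exact_mod_cast h'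
        rw [Finset.card_eq_zero.mp this, Finset.sum_empty]
      rw [hA0, hn0]
      simp only [zero_add, mul_zero, add_zero, div_zero, zero_mul, sub_zero]
      ring
    · by_cases hnm : n + m = 0
      · have hm0 : 0 ≤ m := by positivity
        have hn0' : 0 ≤ n := by positivity
        exfalso; apply hn0; linarith
      · field_simp
        ring
  · rw [tail _ hsum D]
    have hpt : ∀ τ, (if τ ∈ D then (0 : ℝ) else (θ τ : ℝ) * (h τ : ℝ) *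
        (((h' τ : ℝ) / (h τ : ℝ)) - (1 / n) * A)) =
        (if τ ∈ D then (0 : ℝ) else (θ τ : ℝ) * (h' τ : ℝ)) -
          (1 / n) * A * (if τ ∈ D then (0 : ℝ) else (θ τ : ℝ) * (h τ : ℝ)) := by
      intro τ
      by_cases hτ : τ ∈ D
      · simp [hτ]
      · simp only [hτ, if_false]
        rw [mul_sub, key τ]
        ring
    rw [tsum_congr hpt]
    have hs1 : Summable (fun τ => if τ ∈ D then (0 : ℝ) else (θ τ : ℝ) * (h' τ : ℝ)) := by
      apply (hsum'.indicator ((↑D : Set ι)ᶜ)).congr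
      intro τ
      by_cases hτ : τ ∈ D <;> simp [hτ]
    have hs2 : Summable (fun τ => if τ ∈ D then (0 : ℝ) else (θ τ : ℝ) * (h τ : ℝ)) := by
      apply (hsum.indicator ((↑D : Set ι)ᶜ)).congr
      intro τ
      by_cases hτ : τ ∈ D <;> simp [hτ]
    rw [hs1.tsum_sub (hs2.mul_left _), tsum_mul_left, tail _ hsum' D, tail _ hsum D]
    ring

end Groth.Agent.S19502
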