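import Groth.Statements.S19557

set_option autoImplicit false
universe u
open AlgebraicGeometry CategoryTheory MonoidalCategory CartesianMonoidalCategory MonObj

namespace Groth.Agent.S19557

theorem result {k : Type u} [Field k] [CharZero k] {S : Scheme.{u}} (σ : S ⟶ Spec (CommRingCat.of k)) [IsLocallyNoetherian S] (S₀ : S.Opens) (hS₀ : CInt.IsSchematicallyDense S₀)
    (G H : Over S) [GrpObj G] [GrpObj H] [Smooth G.hom] [Smooth H.hom]
    (hG : ∀ Z : Over S, Smooth Z.hom → Function.Bijective (fun g : Z ⟶ G => (Over.pullback S₀.ι).map g))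
    (f : H ⟶ G)
    (hf : (Over.pullback S₀.ι).map (μ[H] ≫ f) = (Over.pullback S₀.ι).map ((f ⊗ₘ f) ≫ μ[G])) :
    IsMonHom f := by
  have hsm : Smooth (H ⊗ H).hom := by
    change Smooth (Limits.pullback.fst H.hom H.hom ≫ H.hom)
    infer_instance
  have hmul : μ[H] ≫ f = (f ⊗ₘ f) ≫ μ[G] := (hG (H ⊗ H) hsm).1 hf
  have key : ∀ (a b : 𝟙_ (Over S) ⟶ H), (a * b) ≫ f = (a ≫ f) * (b ≫ f) := by
    intro a b
    rw [Hom.mul_def, Hom.mul_def, Category.assoc, hmul, ← Category.assoc, lift_map]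
  have h1 := key 1 1
  rw [_root_.mul_one] at h1
  have h2 : (1 : 𝟙_ (Over S) ⟶ H) ≫ f = 1 := by
    have h3 : (1 : 𝟙_ (Over S) ⟶ H) ≫ f * 1 = (1 ≫ f) * (1 ≫ f) := by rw [_root_.mul_one]; exact h1
    exact (mul_left_cancel h3).symm
  have hone : η[H] ≫ f = η[G] := by
    have e1 : (1 : 𝟙_ (Over S) ⟶ H) = η[H] := by rw [Hom.one_def, toUnit_unit, Category.id_comp]
    have e2 : (1 : 𝟙_ (Over S) ⟶ G) = η[G] := by rw [Hom.one_def, toUnit_unit, Category.id_comp]
    rw [← e1, ← e2, h2]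
  exact ⟨hone, hmul⟩

end Groth.Agent.S19557
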