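import Groth.Statements.S1959
import Mathlib.RingTheory.IntegralClosure.Algebra.Ideal
-- import your own Groth.Agent.* helpers here

set_option autoImplicit false
universe u
open Polynomial
open EtAlg

namespace Groth.Agent.S1959

/-- Let I be an ideal of a ring A, A -> B an integral ring map and b an element of B whose image in B/IB
is idempotent. Then there are d ≥ 1 and a monic polynomial f over A with f(b) = 0 whose reduction
modulo I is x^d (x - 1)^d. -/
theorem result (A B : Type u) [CommRing A] [CommRing B] [Algebra A B]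
    [Algebra.IsIntegral A B] (I : Ideal A) (b : B)
    (hb : IsIdempotentElem (Ideal.Quotient.mk (I.map (algebraMap A B)) b)) :
    ∃ (f : A[X]) (d : ℕ), f.Monic ∧ 1 ≤ d ∧ aeval b f = 0 ∧
      f.map (Ideal.Quotient.mk I) = X ^ d * (X - 1) ^ d := by
  classical
  rcases subsingleton_or_nontrivial A with hA | hA
  · have hB : Subsingleton B := by
      refine subsingleton_of_zero_eq_one ?_
      rw [← map_zero (algebraMap A B), ← map_one (algebraMap A B), Subsingleton.elim (0 : A) 1]
    have hAI : Subsingleton (A ⧸ I) := by
      refine subsingleton_of_zero_eq_one ?_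
      rw [← map_zero (Ideal.Quotient.mk I), ← map_one (Ideal.Quotient.mk I),
        Subsingleton.elim (0 : A) 1]
    exact ⟨X, 1, monic_X, le_rfl, Subsingleton.elim _ _, Subsingleton.elim _ _⟩
  have hx : b * (b - 1) ∈ I.map (algebraMap A B) := by
    rw [← Ideal.Quotient.eq_zero_iff_mem, mul_sub, mul_one, map_sub, map_mul]
    rw [hb.eq, sub_self]
  obtain ⟨p, hp, hpx, hpI⟩ := Polynomial.exists_monic_aeval_eq_zero_forall_mem_of_mem_map hx
  set q : A[X] := X * (X - 1) with hq_def
  have hqm : q.Monic := monic_X.mul (monic_X_sub_C 1)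
  have hqd : q.natDegree = 2 := by
    rw [hq_def]; compute_degree!
  have hpm : p.map (Ideal.Quotient.mk I) = X ^ p.natDegree := by
    ext i
    rw [coeff_map, coeff_X_pow]
    split_ifs with h
    · subst h
      rw [hp.coeff_natDegree, map_one]
    · exact Ideal.Quotient.eq_zero_iff_mem.mpr (hpI i h)
  refine ⟨q * p.comp q, p.natDegree + 1, hqm.mul (hp.comp hqm (by rw [hqd]; norm_num)),
    by omega, ?_, ?_⟩
  · rw [map_mul, aeval_comp]
    have : aeval b q = b * (b - 1) := by simp [hq_def]
    rw [this, hpx, mul_zero]
  · rw [Polynomial.map_mul, Polynomial.map_comp, hpm, X_pow_comp]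
    have : q.map (Ideal.Quotient.mk I) = X * (X - 1) := by simp [hq_def]
    rw [this, ← pow_succ', mul_pow]

end Groth.Agent.S1959
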