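import Groth.Statements.S19590
import Mathlib.Algebra.Polynomial.AlgebraMap
import Mathlib.Data.ZMod.Basic
import Mathlib.Algebra.Field.ZMod
import Mathlib.GroupTheory.OrderOfElement
import Mathlib.Tactic.Ring
import Mathlib.Tactic.LinearCombination
import Mathlib.LinearAlgebra.Matrix.GeneralLinearGroup.Defs
import Mathlib.Algebra.GroupWithZero.Units.Fintype
import Mathlib.Data.Matrix.Basic
import Mathlib.Data.Fintype.Pi
import Mathlib.Data.ZMod.Defs

set_option autoImplicit false
open BddFin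

namespace Groth.Agent.S19590

open Matrix Polynomial

theorem one_add_pow_aux {R : Type*} [CommRing R] (y : R) (k : ℕ) :
    ∃ s : R, (1 + y) ^ k = 1 + (k : R) * y + y ^ 2 * s := by
  induction k with
  | zero => exact ⟨0, by simp⟩
  | succ k ih =>
    obtain ⟨s, hs⟩ := ih
    refine ⟨(k : R) + s + s * y, ?_⟩
    rw [pow_succ, hs]; push_cast; ring

theorem intCast_mul_apply' {n : ℕ} (c : ℤ) (N : Matrix (Fin n) (Fin n) ℤ) (i j : Fin n) :
    ((c : Matrix (Fin n) (Fin n) ℤ) * N) i j = c * N i j := by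
  rw [← diagonal_intCast, diagonal_mul, Int.cast_id]

theorem cancel_intCast' {n : ℕ} {c : ℤ} (hc : c ≠ 0) {N : Matrix (Fin n) (Fin n) ℤ}
    (h : (c : Matrix (Fin n) (Fin n) ℤ) * N = 0) : N = 0 := by
  ext i j
  have := congrFun (congrFun h i) j
  rw [intCast_mul_apply'] at this
  simpa [hc] using this

theorem map3_intCast_eq_zero {n : ℕ} (c : ℤ) (hc : (3 : ℤ) ∣ c) :
    ((c : ℤ) : Matrix (Fin n) (Fin n) (ZMod 3)) = 0 := by
  rw [← diagonal_intCast]
  have : ((c : ℤ) : ZMod 3) = 0 := (ZMod.intCast_zmod_eq_zero_iff_dvd c 3).mpr (by exact_mod_cast hc)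
  rw [this]
  exact diagonal_zero

/-- reduction mod 3 of integer matrices, as a ring hom -/
noncomputable abbrev red3 (n : ℕ) : Matrix (Fin n) (Fin n) ℤ →+* Matrix (Fin n) (Fin n) (ZMod 3) :=
  (Int.castRingHom (ZMod 3)).mapMatrix

theorem dvd_of_red3_eq_zero {n : ℕ} (B : Matrix (Fin n) (Fin n) ℤ) (h : red3 n B = 0) :
    ∀ i j, (3 : ℤ) ∣ B i j := by
  intro i j
  have := congrFun (congrFun h i) j
  simp only [RingHom.mapMatrix_apply, map_apply, Int.coe_castRingHom, Matrix.zero_apply] at this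
  exact_mod_cast (ZMod.intCast_zmod_eq_zero_iff_dvd _ 3).mp this

theorem step3 {n : ℕ} (A B : Matrix (Fin n) (Fin n) ℤ) (hA : A ^ 3 = 1) (c d e : ℤ)
    (hB : A = 1 + (c : Matrix (Fin n) (Fin n) ℤ) * B) (he : e = 3 * c) (hd : c ^ 2 = 3 * d)
    (he0 : e ≠ 0) (h3c : (3 : ℤ) ∣ c) (h3d : (3 : ℤ) ∣ d) : ∀ i j, (3 : ℤ) ∣ B i j := by
  have hpoly : ((1 : ℤ[X]) + C c * X) ^ 3 - 1 = C e * (X * (1 + C c * X + C d * X ^ 2)) := by
    have hd' : (C c : ℤ[X]) ^ 2 = 3 * C d := by rw [← map_pow, hd, map_mul, map_ofNat]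
    have he' : (C e : ℤ[X]) = 3 * C c := by rw [he, map_mul, map_ofNat]
    rw [he']
    linear_combination (C c * X ^ 3) * hd'
  have h1 := congrArg (aeval B) hpoly
  simp only [map_sub, map_pow, map_add, map_one, map_mul, aeval_C, aeval_X,
    algebraMap_int_eq, eq_intCast, map_intCast] at h1
  rw [← hB, hA, sub_self] at h1
  have h2 := cancel_intCast' he0 h1.symm
  have h3 := congrArg (red3 n) h2
  have hA3 : red3 n A = 1 := by
    rw [hB, map_add, map_one, map_mul, map_intCast, map3_intCast_eq_zero _ h3c, zero_mul, add_zero]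
  rw [map_mul, map_add, hA3, map_mul, map_intCast, map3_intCast_eq_zero _ h3d, zero_mul,
    add_zero, mul_one] at h3
  exact dvd_of_red3_eq_zero B h3

theorem stepP {n : ℕ} (p : ℕ) (hp : p.Prime) (hp3 : p ≠ 3) (A B : Matrix (Fin n) (Fin n) ℤ)
    (hA : A ^ p = 1) (c : ℤ) (hB : A = 1 + (c : Matrix (Fin n) (Fin n) ℤ) * B) (hc0 : c ≠ 0)
    (h3c : (3 : ℤ) ∣ c) : ∀ i j, (3 : ℤ) ∣ B i j := by
  obtain ⟨s, hs⟩ := one_add_pow_aux (C c * X : ℤ[X]) p
  have hpoly : ((1 : ℤ[X]) + C c * X) ^ p - 1 = C c * (X * ((p : ℤ[X]) + C c * X * s)) := by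
    rw [hs]; ring
  have h1 := congrArg (aeval B) hpoly
  simp only [map_sub, map_pow, map_add, map_one, map_mul, aeval_C, aeval_X, map_natCast,
    algebraMap_int_eq, eq_intCast, map_intCast] at h1
  rw [← hB, hA, sub_self] at h1
  have h2 := cancel_intCast' hc0 h1.symm
  have h3 := congrArg (red3 n) h2
  rw [map_mul, map_add, map_natCast, map_mul, map_mul, map_intCast, map_zero,
    map3_intCast_eq_zero _ h3c, zero_mul, zero_mul, add_zero] at h3
  have hpne : ((p : ℕ) : ZMod 3) ≠ 0 := by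
    intro h
    rw [ZMod.natCast_eq_zero_iff] at h
    exact hp3 ((Nat.prime_dvd_prime_iff_eq Nat.prime_three hp).mp h).symm
  apply dvd_of_red3_eq_zero
  ext i j
  have hx := congrFun (congrFun h3 i) j
  rw [← diagonal_natCast, mul_diagonal, Matrix.zero_apply] at hx
  rw [Matrix.zero_apply]
  have hfact : Fact (Nat.Prime 3) := ⟨Nat.prime_three⟩
  exact (mul_eq_zero.mp hx).resolve_right hpne

theorem eq_one_of_pow_prime {n : ℕ} (p : ℕ) (hp : p.Prime) (A : Matrix (Fin n) (Fin n) ℤ)
    (hA : A ^ p = 1) (h3 : red3 n A = 1) : A = 1 := by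
  have key : ∀ t : ℕ, ∃ B : Matrix (Fin n) (Fin n) ℤ,
      A = 1 + (((3 : ℤ) ^ (t + 1) : ℤ) : Matrix (Fin n) (Fin n) ℤ) * B := by
    intro t
    induction t with
    | zero =>
      have hd : ∀ i j, (3 : ℤ) ∣ (A - 1) i j :=
        dvd_of_red3_eq_zero (A - 1) (by rw [map_sub, h3, map_one, sub_self])
      refine ⟨Matrix.of (fun i j => (A - 1) i j / 3), ?_⟩
      ext i j
      rw [Matrix.add_apply, intCast_mul_apply']
      simp only [zero_add, pow_one, Matrix.of_apply]
      rw [Int.mul_ediv_cancel' (hd i j), Matrix.sub_apply]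
      ring
    | succ t ih =>
      obtain ⟨B, hB⟩ := ih
      have hdiv : ∀ i j, (3 : ℤ) ∣ B i j := by
        by_cases hp3 : p = 3
        · subst hp3
          exact step3 A B hA ((3 : ℤ) ^ (t + 1)) ((3 : ℤ) ^ (2 * t + 1)) ((3 : ℤ) ^ (t + 2)) hB
            (by ring) (by ring) (by positivity) (dvd_pow_self 3 (by omega))
            (dvd_pow_self 3 (by omega))
        · exact stepP p hp hp3 A B hA ((3 : ℤ) ^ (t + 1)) hB (by positivity)
            (dvd_pow_self 3 (by omega))
      refine ⟨Matrix.of (fun i j => B i j / 3), ?_⟩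
      rw [hB]
      ext i j
      rw [Matrix.add_apply, Matrix.add_apply, intCast_mul_apply', intCast_mul_apply']
      rw [Matrix.of_apply]
      rw [pow_succ 3 (t + 1), mul_assoc, Int.mul_ediv_cancel' (hdiv i j)]
  ext i j
  have hent : ∀ t : ℕ, ((3 : ℤ) ^ (t + 1)) ∣ (A - 1) i j := by
    intro t
    obtain ⟨B, hB⟩ := key t
    refine ⟨B i j, ?_⟩
    rw [Matrix.sub_apply, hB, Matrix.add_apply, intCast_mul_apply']
    ring
  have h0 : (A - 1) i j = 0 := by
    apply Int.eq_zero_of_dvd_of_natAbs_lt_natAbs (hent ((A - 1) i j).natAbs)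
    rw [Int.natAbs_pow]
    have h33 : (3 : ℤ).natAbs = 3 := rfl
    rw [h33]
    exact lt_trans (Nat.lt_pow_self (by norm_num)) (Nat.pow_lt_pow_right (by norm_num) (Nat.lt_succ_self _))
  rw [Matrix.sub_apply, sub_eq_zero] at h0
  exact h0

/-- For every n, the orders of the finite subgroups of GL_n(ℤ) are bounded: there is B such that every
finite subgroup of GL_n(ℤ) has at most B elements. -/
theorem result (n : ℕ) :
    ∃ B : ℕ, ∀ H : Subgroup (Matrix.GeneralLinearGroup (Fin n) ℤ), Finite H → Nat.card H ≤ B := by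
  refine ⟨Nat.card (Matrix.GeneralLinearGroup (Fin n) (ZMod 3)), fun H hH => ?_⟩
  let ρ : H →* Matrix.GeneralLinearGroup (Fin n) (ZMod 3) :=
    (Matrix.GeneralLinearGroup.map (Int.castRingHom (ZMod 3))).comp H.subtype
  have hker : ∀ x : H, ρ x = 1 → x = 1 := by
    intro x hx
    have hfin : IsOfFinOrder x := isOfFinOrder_of_finite x
    have hm0 : orderOf x ≠ 0 := (orderOf_pos_iff.mpr hfin).ne'
    by_contra hne
    have hm1 : orderOf x ≠ 1 := fun h => hne (orderOf_eq_one_iff.mp h)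
    have hp : (orderOf x).minFac.Prime := Nat.minFac_prime hm1
    have hpd : (orderOf x).minFac ∣ orderOf x := Nat.minFac_dvd _
    have hyo : orderOf (x ^ (orderOf x / (orderOf x).minFac)) = (orderOf x).minFac :=
      orderOf_pow_orderOf_div hm0 hpd
    have hρy : ρ (x ^ (orderOf x / (orderOf x).minFac)) = 1 := by rw [map_pow, hx, one_pow]
    have hyp := pow_orderOf_eq_one (x ^ (orderOf x / (orderOf x).minFac))
    rw [hyo] at hyp
    generalize x ^ (orderOf x / (orderOf x).minFac) = y at hyo hρy hyp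
    generalize (orderOf x).minFac = p at hp hyo hρy hyp
    have hmat : (((y : Matrix.GeneralLinearGroup (Fin n) ℤ)) : Matrix (Fin n) (Fin n) ℤ) = 1 := by
      apply eq_one_of_pow_prime p hp
      · have := congrArg
          (fun z : H => (((z : Matrix.GeneralLinearGroup (Fin n) ℤ)) : Matrix (Fin n) (Fin n) ℤ)) hyp
        simpa using this
      · have := congrArg
          (fun z : Matrix.GeneralLinearGroup (Fin n) (ZMod 3) => (z : Matrix (Fin n) (Fin n) (ZMod 3))) hρy
        ext i j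
        have h2 := congrFun (congrFun this i) j
        simpa [ρ] using h2
    have hy1 : y = 1 := by
      apply Subtype.ext
      apply Units.ext
      simpa using hmat
    rw [hy1, orderOf_one] at hyo
    exact hp.one_lt.ne hyo
  have hinj : Function.Injective ρ := by
    rw [injective_iff_map_eq_one]
    exact hker
  exact Nat.card_le_card_of_injective ρ hinj

end Groth.Agent.S19590
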