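import Groth.Statements.S19591
import Mathlib.Algebra.CharP.Two
import Mathlib.FieldTheory.Perfect

set_option autoImplicit false
universe u v
open BddFin

namespace Groth.Agent.S19591

theorem result
    (K : Type u) [Field K] [CharP K 2] [PerfectField K]
    (V : Type v) [AddCommGroup V] [Module K V] [FiniteDimensional K V]
    (hV : 2 < Module.finrank K V) (q : QuadraticForm K V)
    (hq : (QuadraticMap.polarBilin q).Nondegenerate) :
    ∃ v : V, v ≠ 0 ∧ q v = 0 := by
  classical
  have hpos : 0 < Module.finrank K V := by omega
  obtain ⟨u, hu⟩ : ∃ u : V, u ≠ 0 := Module.finrank_pos_iff_exists_ne_zero.mp hpos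
  set f : V →ₗ[K] K := QuadraticMap.polarBilin q u with hf
  have hker : 2 ≤ Module.finrank K (LinearMap.ker f) := by
    have h1 := LinearMap.finrank_range_add_finrank_ker f
    have h2 : Module.finrank K (LinearMap.range f) ≤ 1 := by
      have := Submodule.finrank_le (LinearMap.range f)
      simpa using this
    omega
  have hnle : ¬ (LinearMap.ker f ≤ K ∙ u) := by
    intro hle
    have := Submodule.finrank_mono hle
    rw [finrank_span_singleton hu] at this
    omega
  obtain ⟨w, hwker, hwu⟩ := SetLike.not_le_iff_exists.mp hnle
  have hpol : QuadraticMap.polar q u w = 0 := by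
    have := LinearMap.mem_ker.mp hwker
    simpa [hf] using this
  have hsurj := surjective_frobenius K 2
  obtain ⟨a, ha⟩ := hsurj (q u)
  obtain ⟨c, hc⟩ := hsurj (q w)
  simp only [frobenius_def] at ha hc
  by_cases h0 : a = 0 ∧ c = 0
  · refine ⟨u, hu, ?_⟩
    rw [← ha, h0.1]; ring
  · refine ⟨c • u + a • w, ?_, ?_⟩
    · intro hzero
      apply h0
      by_cases ha0 : a = 0
      · refine ⟨ha0, ?_⟩
        rw [ha0, zero_smul, add_zero] at hzero
        exact (smul_eq_zero.mp hzero).resolve_right hu
      · exfalso
        apply hwu
        have h' : a • w = -(c • u) := eq_neg_of_add_eq_zero_right hzero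
        have : w = (-(c / a)) • u := by
          calc w = a⁻¹ • (a • w) := by rw [smul_smul, inv_mul_cancel₀ ha0, one_smul]
            _ = (-(c/a)) • u := by
              rw [h', smul_neg, smul_smul, neg_smul, div_eq_inv_mul]
        rw [this]
        exact Submodule.smul_mem _ _ (Submodule.mem_span_singleton_self u)
    · have e1 : q (c • u + a • w) = q (c • u) + q (a • w) + QuadraticMap.polar q (c • u) (a • w) := by
        rw [QuadraticMap.polar]; ring
      rw [e1, QuadraticMap.polar_smul_left, QuadraticMap.polar_smul_right, hpol,
        QuadraticMap.map_smul, QuadraticMap.map_smul, ← ha, ← hc]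
      simp only [smul_eq_mul, mul_zero, add_zero]
      have h2 : (2 : K) = 0 := CharTwo.two_eq_zero
      linear_combination (a ^ 2 * c ^ 2) * h2

end Groth.Agent.S19591
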