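import Groth.Statements.S19609

set_option autoImplicit false
universe u
open CartMod

namespace Groth.Agent.S19609

theorem mem_pow_smul_top_iff' {R : Type u} [CommRing R] (x y : R) (n : ℕ) :
    y ∈ ((Ideal.span {x}) ^ n • ⊤ : Submodule R R) ↔ x ^ n ∣ y := by
  rw [Ideal.smul_eq_mul, Ideal.mul_top, Ideal.span_singleton_pow, Ideal.mem_span_singleton]

theorem result (p : ℕ) [Fact p.Prime]
    {A B : Type u} [CommRing A] [CommRing B]
    [IsAdicComplete (Ideal.span {(p : A)}) A] [IsAdicComplete (Ideal.span {(p : B)}) B]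
    (hA : IsSMulRegular A (p : A)) (hB : IsSMulRegular B (p : B)) (u : A →+* B)
    (hinj : ∀ a : A, u a ∈ Ideal.span {(p : B)} → a ∈ Ideal.span {(p : A)})
    (hsurj : ∀ b : B, ∃ a : A, b - u a ∈ Ideal.span {(p : B)}) :
    Function.Bijective u := by
  have hup : u (p : A) = (p : B) := map_natCast u p
  constructor
  · rw [injective_iff_map_eq_zero]
    intro a ha
    have key : ∀ n : ℕ, ∀ a : A, u a = 0 → (p : A) ^ n ∣ a := by
      intro n
      induction n with
      | zero => intro a _; simp
      | succ n ih =>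
        intro a ha
        have h1 : a ∈ Ideal.span {(p : A)} := hinj a (by rw [ha]; exact Ideal.zero_mem _)
        obtain ⟨a1, rfl⟩ := Ideal.mem_span_singleton.mp h1
        have h2 : u a1 = 0 := by
          rw [map_mul, hup] at ha
          apply hB
          simp only [smul_eq_mul, mul_zero]
          exact ha
        obtain ⟨c, hc⟩ := ih a1 h2
        exact ⟨c, by rw [hc, pow_succ]; ring⟩
    apply IsHausdorff.haus (I := Ideal.span {(p : A)}) (IsAdicComplete.toIsHausdorff) a
    intro n
    rw [SModEq.sub_mem, sub_zero, mem_pow_smul_top_iff']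
    exact key n a ha
  · intro b
    have step : ∀ (n : ℕ) (a : A), (p : B) ^ n ∣ b - u a →
        ∃ a' : A, (p : A) ^ n ∣ a' - a ∧ (p : B) ^ (n + 1) ∣ b - u a' := by
      intro n a ⟨c, hc⟩
      obtain ⟨d, hd⟩ := hsurj c
      obtain ⟨e, he⟩ := Ideal.mem_span_singleton.mp hd
      refine ⟨a + (p : A) ^ n * d, ⟨d, by ring⟩, ⟨e, ?_⟩⟩
      rw [map_add, map_mul, map_pow, hup]
      have : b - (u a + (p : B) ^ n * u d) = (p : B) ^ n * (c - u d) := by rw [mul_sub, ← hc]; ring
      rw [this, he]; ring
    choose g hg1 hg2 using step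
    let s : (n : ℕ) → {a : A // (p : B) ^ n ∣ b - u a} := fun n =>
      Nat.rec (motive := fun n => {a : A // (p : B) ^ n ∣ b - u a}) ⟨0, by simp⟩
        (fun n x => ⟨g n x.1 x.2, hg2 n x.1 x.2⟩) n
    have hs : ∀ n, (s (n + 1)).1 = g n (s n).1 (s n).2 := fun n => rfl
    have hdiff : ∀ m k : ℕ, (p : A) ^ m ∣ (s (m + k)).1 - (s m).1 := by
      intro m k
      induction k with
      | zero => simp
      | succ k ih =>
        have h1 : (p : A) ^ (m + k) ∣ (s (m + k + 1)).1 - (s (m + k)).1 := by
          rw [hs]; exact hg1 _ _ _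
        have h2 : (p : A) ^ m ∣ (s (m + k + 1)).1 - (s (m + k)).1 :=
          (pow_dvd_pow _ (Nat.le_add_right m k)).trans h1
        have : (s (m + (k + 1))).1 - (s m).1 =
            ((s (m + k + 1)).1 - (s (m + k)).1) + ((s (m + k)).1 - (s m).1) := by
          rw [← add_assoc]; ring
        rw [this]
        exact dvd_add h2 ih
    obtain ⟨L, hL⟩ := IsPrecomplete.prec (I := Ideal.span {(p : A)})
      (IsAdicComplete.toIsPrecomplete) (f := fun n => (s n).1) (by
        intro m n hmn
        rw [SModEq.sub_mem, mem_pow_smul_top_iff']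
        obtain ⟨k, rfl⟩ := Nat.exists_eq_add_of_le hmn
        have := hdiff m k
        rw [← dvd_neg, neg_sub]
        exact this)
    refine ⟨L, ?_⟩
    have hz : b - u L = 0 := by
      apply IsHausdorff.haus (I := Ideal.span {(p : B)}) (IsAdicComplete.toIsHausdorff) (b - u L)
      intro n
      rw [SModEq.sub_mem, sub_zero, mem_pow_smul_top_iff']
      have h1 : (p : B) ^ n ∣ b - u (s n).1 := (s n).2
      have h2 : (p : A) ^ n ∣ (s n).1 - L := by
        have := hL n
        rw [SModEq.sub_mem, mem_pow_smul_top_iff'] at this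
        exact this
      have h3 : (p : B) ^ n ∣ u ((s n).1 - L) := by
        have := map_dvd u h2
        rwa [map_pow, hup] at this
      have : b - u L = (b - u (s n).1) + u ((s n).1 - L) := by rw [map_sub]; ring
      rw [this]
      exact dvd_add h1 h3
    exact (sub_eq_zero.mp hz).symm

end Groth.Agent.S19609
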