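import Groth.Statements.S19651

set_option autoImplicit false
universe u v
open AbVar Polynomial

namespace Groth.Agent.S19651

theorem reverse_pow_eq {k : Type u} [Field k] (Q : k[X]) (n : ℕ) :
    (Q ^ n).reverse = Q.reverse ^ n := by
  induction n with
  | zero => simpa using reverse_C (1 : k)
  | succ n ih => rw [pow_succ, reverse_mul_of_domain, ih, pow_succ]

theorem result
    {k : Type u} [Field k] {V : Type v} [AddCommGroup V] [Module k V]
    (B : LinearMap.BilinForm k V) (M : V ≃ₗ[k] V)
    (hM : ∀ x y : V, B (M x) (M y) = B x y)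
    (Q₁ Q₂ : k[X]) (h : IsCoprime Q₁.reverse Q₂)
    (x y : V)
    (hx : ∃ n : ℕ, (Polynomial.aeval (M : V →ₗ[k] V) Q₁ ^ n) x = 0)
    (hy : ∃ n : ℕ, (Polynomial.aeval (M : V →ₗ[k] V) Q₂ ^ n) y = 0) :
    B x y = 0 := by
  obtain ⟨n, hn⟩ := hx
  obtain ⟨j, hj⟩ := hy
  set m : Module.End k V := (M : V →ₗ[k] V) with hm
  have hMpow : ∀ (i : ℕ) (u w : V), B ((m ^ i) u) ((m ^ i) w) = B u w := by
    intro i
    induction i with
    | zero => intro u w; simp
    | succ i ih =>
      intro u w
      rw [pow_succ', Module.End.mul_apply, Module.End.mul_apply]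
      rw [hm, LinearEquiv.coe_coe, hM, ← hm, ih]
  have adj : ∀ (N : ℕ) (P : k[X]), P.natDegree ≤ N → ∀ u z : V,
      B (Polynomial.aeval m P u) ((m ^ N) z) = B u (Polynomial.aeval m (Polynomial.reflect N P) z) := by
    intro N P hP
    refine Polynomial.induction_with_natDegree_le
      (fun P => ∀ u z : V, B (Polynomial.aeval m P u) ((m ^ N) z) =
        B u (Polynomial.aeval m (Polynomial.reflect N P) z)) N ?_ ?_ ?_ P hP
    · intro u z; simp
    · intro i r _ hiN u z
      rw [reflect_C_mul_X_pow, revAt_le hiN]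
      simp only [map_mul, aeval_C, aeval_X_pow, Module.End.mul_apply, Module.algebraMap_end_apply,
        map_smul, LinearMap.smul_apply]
      have hsplit : (m ^ N) z = (m ^ i) ((m ^ (N - i)) z) := by
        rw [← Module.End.mul_apply, ← pow_add, Nat.add_sub_cancel' hiN]
      rw [hsplit, hMpow]
    · intro f g _ _ hf hg u z
      rw [map_add, LinearMap.add_apply, map_add, LinearMap.add_apply, hf, hg, reflect_add, map_add,
        LinearMap.add_apply, map_add]
  have hcop : IsCoprime (Q₁ ^ n).reverse (Q₂ ^ j) := by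
    rw [reverse_pow_eq]
    exact h.pow
  obtain ⟨a, b, hab⟩ := hcop
  set P : k[X] := Q₁ ^ n with hP
  have hab' : P.reverse * a + b * Q₂ ^ j = 1 := by rw [mul_comm P.reverse a]; exact hab
  have hy' : y = Polynomial.aeval m (Polynomial.reflect P.natDegree P) (Polynomial.aeval m a y) := by
    have e : Polynomial.aeval m (P.reverse * a + b * Q₂ ^ j) y = y := by rw [hab']; simp
    rw [map_add, map_mul, map_mul, LinearMap.add_apply, Module.End.mul_apply, Module.End.mul_apply,
      map_pow, hj, map_zero, add_zero] at e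
    exact e.symm
  rw [hy', ← adj P.natDegree P le_rfl x]
  have hPx : Polynomial.aeval m P x = 0 := by rw [hP, map_pow]; exact hn
  rw [hPx]
  simp

end Groth.Agent.S19651
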