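import Groth.Statements.S19652
import Mathlib.RingTheory.Artinian.Module

set_option autoImplicit false
universe u v
open AbVar Polynomial

namespace Groth.Agent.S19652

theorem reverse_pow_eq' {k : Type u} [Field k] (Q : k[X]) (n : ℕ) :
    (Q ^ n).reverse = Q.reverse ^ n := by
  induction n with
  | zero => simpa using reverse_C (1 : k)
  | succ n ih => rw [pow_succ, reverse_mul_of_domain, ih, pow_succ]

theorem result
    {k : Type u} [Field k] {V : Type v} [AddCommGroup V] [Module k V] [FiniteDimensional k V]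
    (B : LinearMap.BilinForm k V) (hB : B.Nondegenerate) (M : V ≃ₗ[k] V)
    (hM : ∀ x y : V, B (M x) (M y) = B x y)
    (Q : k[X]) (hQ : Associated Q Q.reverse) :
    (B.restrict (⨆ n : ℕ, LinearMap.ker (Polynomial.aeval (M : V →ₗ[k] V) Q ^ n))).Nondegenerate := by
  set m : Module.End k V := (M : V →ₗ[k] V) with hm
  have hMpow : ∀ (i : ℕ) (u w : V), B ((m ^ i) u) ((m ^ i) w) = B u w := by
    intro i
    induction i with
    | zero => intro u w; simp
    | succ i ih =>
      intro u w
      rw [pow_succ', Module.End.mul_apply, Module.End.mul_apply]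
      rw [hm, LinearEquiv.coe_coe, hM, ← hm, ih]
  have adjL : ∀ (N : ℕ) (P : k[X]), P.natDegree ≤ N → ∀ u z : V,
      B (Polynomial.aeval m P u) ((m ^ N) z) = B u (Polynomial.aeval m (Polynomial.reflect N P) z) := by
    intro N P hP
    refine Polynomial.induction_with_natDegree_le
      (fun P => ∀ u z : V, B (Polynomial.aeval m P u) ((m ^ N) z) =
        B u (Polynomial.aeval m (Polynomial.reflect N P) z)) N ?_ ?_ ?_ P hP
    · intro u z; simp
    · intro i r _ hiN u z
      rw [reflect_C_mul_X_pow, revAt_le hiN]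
      simp only [map_mul, aeval_C, aeval_X_pow, Module.End.mul_apply, Module.algebraMap_end_apply,
        map_smul, LinearMap.smul_apply]
      have hsplit : (m ^ N) z = (m ^ i) ((m ^ (N - i)) z) := by
        rw [← Module.End.mul_apply, ← pow_add, Nat.add_sub_cancel' hiN]
      rw [hsplit, hMpow]
    · intro f g _ _ hf hg u z
      rw [map_add, LinearMap.add_apply, map_add, LinearMap.add_apply, hf, hg, reflect_add, map_add,
        LinearMap.add_apply, map_add]
  have adjR : ∀ (N : ℕ) (P : k[X]), P.natDegree ≤ N → ∀ u z : V,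
      B ((m ^ N) z) (Polynomial.aeval m P u) = B (Polynomial.aeval m (Polynomial.reflect N P) z) u := by
    intro N P hP
    refine Polynomial.induction_with_natDegree_le
      (fun P => ∀ u z : V, B ((m ^ N) z) (Polynomial.aeval m P u) =
        B (Polynomial.aeval m (Polynomial.reflect N P) z) u) N ?_ ?_ ?_ P hP
    · intro u z; simp
    · intro i r _ hiN u z
      rw [reflect_C_mul_X_pow, revAt_le hiN]
      simp only [map_mul, aeval_C, aeval_X_pow, Module.End.mul_apply, Module.algebraMap_end_apply,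
        map_smul, LinearMap.smul_apply]
      have hsplit : (m ^ N) z = (m ^ i) ((m ^ (N - i)) z) := by
        rw [← Module.End.mul_apply, ← pow_add, Nat.add_sub_cancel' hiN]
      rw [hsplit, hMpow]
    · intro f g _ _ hf hg u z
      rw [map_add, LinearMap.add_apply, map_add, hf, hg, reflect_add, map_add, LinearMap.add_apply,
        map_add, LinearMap.add_apply]
  set f : Module.End k V := Polynomial.aeval m Q with hf
  obtain ⟨N, hN⟩ := Filter.eventually_atTop.mp
    (f.eventually_isCompl_ker_pow_range_pow.and f.eventually_iSup_ker_pow_eq)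
  obtain ⟨hc, hW⟩ := hN N le_rfl
  obtain ⟨uQ, huQ⟩ := hQ
  set P : k[X] := Q ^ N with hP
  have hPrev : P.reverse = P * ↑(uQ ^ N) := by
    rw [hP, reverse_pow_eq', ← huQ, mul_pow, Units.val_pow_eq_pow_val]
  have hfN : ∀ w : V, (f ^ N) w =
      Polynomial.aeval m (Polynomial.reflect P.natDegree P) (Polynomial.aeval m (↑((uQ ^ N)⁻¹) : k[X]) w) := by
    intro w
    rw [← Module.End.mul_apply, ← map_mul]
    change _ = Polynomial.aeval m (P.reverse * _) w
    rw [hPrev, mul_assoc, Units.mul_inv, mul_one, hP, map_pow]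
  have hfP : ∀ x : V, (f ^ N) x = Polynomial.aeval m P x := by
    intro x; rw [hP, map_pow]
  have orthL : ∀ x : V, (f ^ N) x = 0 → ∀ w : V, B x ((f ^ N) w) = 0 := by
    intro x hx w
    rw [hfN, ← adjL P.natDegree P le_rfl, ← hfP, hx]
    simp
  have orthR : ∀ x : V, (f ^ N) x = 0 → ∀ w : V, B ((f ^ N) w) x = 0 := by
    intro x hx w
    rw [hfN, ← adjR P.natDegree P le_rfl, ← hfP, hx]
    simp
  have hWker : ∀ x : V, x ∈ (⨆ n : ℕ, LinearMap.ker (f ^ n)) ↔ (f ^ N) x = 0 := by
    intro x; rw [hW, LinearMap.mem_ker]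
  have decomp : ∀ z : V, ∃ z1 w : V, (f ^ N) z1 = 0 ∧ z = z1 + (f ^ N) w := by
    intro z
    have hz : z ∈ LinearMap.ker (f ^ N) ⊔ LinearMap.range (f ^ N) := by
      rw [hc.sup_eq_top]; exact Submodule.mem_top
    obtain ⟨z1, hz1, z2, hz2, rfl⟩ := Submodule.mem_sup.mp hz
    obtain ⟨w, rfl⟩ := LinearMap.mem_range.mp hz2
    exact ⟨z1, w, LinearMap.mem_ker.mp hz1, rfl⟩
  constructor
  · intro x hx
    apply Subtype.ext
    apply hB.1 x.1
    intro z
    obtain ⟨z1, w, hz1, rfl⟩ := decomp z
    have hz1W : z1 ∈ (⨆ n : ℕ, LinearMap.ker (f ^ n)) := (hWker z1).mpr hz1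
    have h1 := hx ⟨z1, hz1W⟩
    change B x.1 z1 = 0 at h1
    rw [map_add, h1, orthL x.1 ((hWker x.1).mp x.2) w, add_zero]
  · intro x hx
    apply Subtype.ext
    apply hB.2 x.1
    intro z
    obtain ⟨z1, w, hz1, rfl⟩ := decomp z
    have hz1W : z1 ∈ (⨆ n : ℕ, LinearMap.ker (f ^ n)) := (hWker z1).mpr hz1
    have h1 := hx ⟨z1, hz1W⟩
    change B z1 x.1 = 0 at h1
    rw [map_add, LinearMap.add_apply, h1, orthR x.1 ((hWker x.1).mp x.2) w, add_zero]

end Groth.Agent.S19652
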