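import Groth.Statements.S1966
import Groth.Agent.S0527
-- import your own Groth.Agent.* helpers here

set_option autoImplicit false
universe u
open EtAlg

namespace Groth.Agent.S1966

/-- Towers indexed by the natural numbers: let (A_k) be rings with surjective transition maps A_{k+1} ->
A_k whose kernels consist of nilpotent elements, and let A be a ring with compatible projections p_k
: A -> A_k identifying A with the set of compatible sequences (p is jointly injective and every
compatible sequence comes from an element of A). Then for every k the pair (A, ker p_k) is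
henselian. -/
theorem result (A : Type u) [CommRing A] (As : ℕ → Type u) [∀ k, CommRing (As k)]
    (t : ∀ k, As (k + 1) →+* As k) (ht : ∀ k, Function.Surjective (t k))
    (hnil : ∀ k (x : As (k + 1)), t k x = 0 → IsNilpotent x)
    (p : ∀ k, A →+* As k) (hp : ∀ k, (t k).comp (p (k + 1)) = p k)
    (hinj : ∀ a b : A, (∀ k, p k a = p k b) → a = b)
    (hsurj : ∀ x : ∀ k, As k, (∀ k, t k (x (k + 1)) = x k) → ∃ a : A, ∀ k, p k a = x k) (k : ℕ) :
    HenselianRing A (RingHom.ker (p k)) := by
  classical
  have hpt : ∀ m (x : A), t m (p (m + 1) x) = p m x := fun m x => by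
    rw [← hp m]; rfl
  have hdown : ∀ n m (x : A), p (m + n) x = 0 → p m x = 0 := by
    intro n
    induction n with
    | zero => intro m x h; simpa using h
    | succ n ih =>
      intro m x h
      apply ih m x
      rw [← hpt (m + n) x]
      have : p (m + n + 1) x = 0 := h
      rw [this, map_zero]
  have hdownU : ∀ n m (x : A), IsUnit (p (m + n) x) → IsUnit (p m x) := by
    intro n
    induction n with
    | zero => intro m x h; simpa using h
    | succ n ih =>
      intro m x h
      apply ih m x
      rw [← hpt (m + n) x]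
      exact h.map (t (m + n))
  have hle0 : ∀ m (x : A), m ≤ k → p k x = 0 → p m x = 0 := by
    intro m x hm hx
    obtain ⟨n, hn⟩ := Nat.exists_eq_add_of_le hm
    rw [hn] at hx
    exact hdown n m x hx
  have hleU : ∀ m (x : A), m ≤ k → IsUnit (p k x) → IsUnit (p m x) := by
    intro m x hm hx
    obtain ⟨n, hn⟩ := Nat.exists_eq_add_of_le hm
    rw [hn] at hx
    exact hdownU n m x hx
  -- kernels of the transition maps are locally nilpotent, hence henselian
  have hHt : ∀ m, HenselianRing (As (m + 1)) (RingHom.ker (t m)) := fun m =>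
    Groth.Agent.S0527.result (As (m + 1)) (RingHom.ker (t m)) (fun x hx => hnil m x hx)
  -- an element whose image under `t m` is a unit is a unit
  have hliftU : ∀ m (x : As (m + 1)), IsUnit (t m x) → IsUnit x := by
    intro m x hx
    obtain ⟨w, hw⟩ := hx.exists_right_inv
    obtain ⟨w', rfl⟩ := ht m w
    have hn : IsNilpotent (x * w' - 1) := by
      apply hnil m
      rw [map_sub, map_mul, hw, map_one, sub_self]
    have : IsUnit (x * w' - 1 + 1) := hn.isUnit_add_one
    rw [sub_add_cancel] at this
    exact isUnit_of_mul_isUnit_left this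
  -- nilpotence of elements of ker p_k at every stage
  have hnilk : ∀ x : A, p k x = 0 → ∀ m, IsNilpotent (p m x) := by
    intro x hx m
    induction m with
    | zero => rw [hle0 0 x (Nat.zero_le k) hx]; exact IsNilpotent.zero
    | succ m ih =>
      obtain ⟨N, hN⟩ := ih
      have : IsNilpotent ((p (m + 1) x) ^ N) := by
        apply hnil m
        rw [map_pow, hpt, hN]
      obtain ⟨M, hM⟩ := this
      exact ⟨N * M, by rw [pow_mul, hM]⟩
  refine ⟨?_, ?_⟩
  · -- the ideal is contained in the Jacobson radical
    intro x hx
    have hx' : p k x = 0 := hx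
    rw [Ideal.mem_jacobson_bot]
    intro y
    have hu : ∀ m, IsUnit (p m (x * y + 1)) := by
      intro m
      rw [map_add, map_mul, map_one]
      exact (Commute.isNilpotent_mul_right (Commute.all _ _) (hnilk x hx' m)).isUnit_add_one
    let v : ∀ m, As m := fun m => ((hu m).unit⁻¹ : (As m)ˣ)
    have hv : ∀ m, p m (x * y + 1) * v m = 1 := fun m => (hu m).mul_val_inv
    have hvc : ∀ m, t m (v (m + 1)) = v m := by
      intro m
      have h1 : p m (x * y + 1) * t m (v (m + 1)) = 1 := by
        rw [← hpt, ← map_mul, hv, map_one]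
      have h2 := hv m
      calc t m (v (m + 1)) = v m * (p m (x * y + 1) * t m (v (m + 1))) := by
              rw [← mul_assoc, mul_comm (v m), h2, one_mul]
        _ = v m := by rw [h1, mul_one]
    obtain ⟨a, ha⟩ := hsurj v hvc
    have : (x * y + 1) * a = 1 := by
      apply hinj
      intro m
      rw [map_mul, ha, hv, map_one]
    exact IsUnit.of_mul_eq_one _ this
  · intro f hf a₀ h₁ h₂
    have h₁' : p k (f.eval a₀) = 0 := h₁
    obtain ⟨u, hu⟩ := h₂.exists_right_inv
    obtain ⟨v, rfl⟩ := Ideal.Quotient.mk_surjective u
    rw [← map_mul, ← map_one (Ideal.Quotient.mk _), Ideal.Quotient.eq] at hu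
    have hu' : p k (f.derivative.eval a₀ * v) = 1 := by
      have : p k (f.derivative.eval a₀ * v - 1) = 0 := hu
      rw [map_sub, map_one, sub_eq_zero] at this
      exact this
    have hdk : IsUnit (p k (f.derivative.eval a₀)) := by
      rw [map_mul] at hu'
      exact IsUnit.of_mul_eq_one _ hu'
    have hev : ∀ m (b : A), p m (f.eval b) = (f.map (p m)).eval (p m b) := by
      intro m b; rw [Polynomial.eval_map, Polynomial.eval₂_at_apply]
    have hevd : ∀ m (b : A), p m (f.derivative.eval b) =
        (f.map (p m)).derivative.eval (p m b) := by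
      intro m b; rw [Polynomial.derivative_map, Polynomial.eval_map, Polynomial.eval₂_at_apply]
    have hFm : ∀ m, (f.map (p (m + 1))).map (t m) = f.map (p m) := by
      intro m; rw [Polynomial.map_map, hp]
    have hFd : ∀ m, ((f.map (p (m + 1))).derivative).map (t m) = (f.map (p m)).derivative := by
      intro m; rw [← Polynomial.derivative_map, hFm]
    have hte : ∀ m (g : Polynomial (As (m + 1))) (b : As (m + 1)),
        t m (g.eval b) = (g.map (t m)).eval (t m b) := by
      intro m g b; rw [Polynomial.eval_map, Polynomial.eval₂_at_apply]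
    let Inv : ∀ m, As m → Prop := fun m r => (f.map (p m)).IsRoot r ∧
      IsUnit ((f.map (p m)).derivative.eval r) ∧ (m ≤ k → r = p m a₀)
    have hbase : ∀ m, m ≤ k → Inv m (p m a₀) := by
      intro m hm
      refine ⟨?_, ?_, fun _ => rfl⟩
      · rw [Polynomial.IsRoot, ← hev]; exact hle0 m _ hm h₁'
      · rw [← hevd]; exact hleU m _ hm hdk
    have hstep : ∀ m (r : As m), Inv m r → ∃ r' : As (m + 1), Inv (m + 1) r' ∧ t m r' = r := by
      intro m r hr
      by_cases hmk : m + 1 ≤ k
      · refine ⟨p (m + 1) a₀, hbase (m + 1) hmk, ?_⟩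
        rw [hpt, hr.2.2 (Nat.le_of_succ_le hmk)]
      · obtain ⟨s, rfl⟩ := ht m r
        have hs1 : (f.map (p (m + 1))).eval s ∈ RingHom.ker (t m) := by
          rw [RingHom.mem_ker, hte, hFm]; exact hr.1
        have hs2 : IsUnit (t m ((f.map (p (m + 1))).derivative.eval s)) := by
          rw [hte, hFd]
          exact hr.2.1
        have hs2' : IsUnit (Ideal.Quotient.mk (RingHom.ker (t m))
            ((f.map (p (m + 1))).derivative.eval s)) :=
          (hliftU m _ hs2).map _
        obtain ⟨r', hr'1, hr'2⟩ := (hHt m).is_henselian (f.map (p (m + 1)))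
          (hf.map _) s hs1 hs2'
        have htr : t m r' = t m s := by
          rw [RingHom.mem_ker, map_sub, sub_eq_zero] at hr'2; exact hr'2
        refine ⟨r', ⟨hr'1, ?_, fun h => absurd h hmk⟩, htr⟩
        apply hliftU m
        rw [hte, hFd, htr]
        exact hr.2.1
    let step : ∀ m, {r : As m // Inv m r} → {r' : As (m + 1) // Inv (m + 1) r'} := fun m r =>
      ⟨Classical.choose (hstep m r.1 r.2), (Classical.choose_spec (hstep m r.1 r.2)).1⟩
    have hstepc : ∀ m (r : {r : As m // Inv m r}), t m (step m r).1 = r.1 := fun m r =>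
      (Classical.choose_spec (hstep m r.1 r.2)).2
    let seq : ∀ m, {r : As m // Inv m r} := fun m =>
      Nat.rec (motive := fun m => {r : As m // Inv m r}) ⟨p 0 a₀, hbase 0 (Nat.zero_le k)⟩
        (fun m r => step m r) m
    have hseq : ∀ m, t m (seq (m + 1)).1 = (seq m).1 := fun m => hstepc m (seq m)
    obtain ⟨a, ha⟩ := hsurj (fun m => (seq m).1) hseq
    refine ⟨a, ?_, ?_⟩
    · apply hinj
      intro m
      rw [hev, ha, map_zero]
      exact (seq m).2.1
    · show p k (a - a₀) = 0
      rw [map_sub, ha, (seq k).2.2.2 le_rfl, sub_self]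

end Groth.Agent.S1966
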