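import Groth.Statements.S19660
import Mathlib.RingTheory.Artinian.Module
import Mathlib.Tactic.LinearCombination

set_option autoImplicit false
universe u v
open AbVar

namespace Groth.Agent.S19660

theorem result
    {k : Type u} [Field k] {V : Type v} [AddCommGroup V] [Module k V] [FiniteDimensional k V]
    (B : LinearMap.BilinForm k V) (hB : B.Nondegenerate) (q : k) (hq : q ≠ 0)
    (M : V ≃ₗ[k] V) (hM : ∀ x y : V, B (M x) (M y) = q * B x y) :
    (∀ x ∈ Module.End.maxGenEigenspace (M : Module.End k V) 1,
        (∀ y ∈ Module.End.maxGenEigenspace (M : Module.End k V) q, B x y = 0) → x = 0) ∧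
      (∀ y ∈ Module.End.maxGenEigenspace (M : Module.End k V) q,
        (∀ x ∈ Module.End.maxGenEigenspace (M : Module.End k V) 1, B x y = 0) → y = 0) ∧
      (q ≠ 1 → ∀ x ∈ Module.End.maxGenEigenspace (M : Module.End k V) 1,
        ∀ x' ∈ Module.End.maxGenEigenspace (M : Module.End k V) 1, B x x' = 0) ∧
      (q ≠ 1 → ∀ y ∈ Module.End.maxGenEigenspace (M : Module.End k V) q,
        ∀ y' ∈ Module.End.maxGenEigenspace (M : Module.End k V) q, B y y' = 0) := by
  set m : Module.End k V := (M : V →ₗ[k] V) with hm
  have hM' : ∀ x y : V, B (m x) (m y) = q * B x y := fun x y => hM x y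
  have hfapp : ∀ (c : k) (z : V), (m - c • (1 : Module.End k V)) z = m z - c • z := by
    intro c z; simp
  -- orthogonality of generalized eigenspaces
  have L : ∀ l μ : k, l * μ ≠ q → ∀ (a b : ℕ) (x y : V),
      ((m - l • (1 : Module.End k V)) ^ a) x = 0 → ((m - μ • (1 : Module.End k V)) ^ b) y = 0 →
        B x y = 0 := by
    intro l μ hlμ a
    induction a with
    | zero =>
      intro b x y hx _
      simp only [pow_zero, Module.End.one_apply] at hx
      simp [hx]
    | succ a iha =>
      intro b
      induction b with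
      | zero =>
        intro x y _ hy
        simp only [pow_zero, Module.End.one_apply] at hy
        simp [hy]
      | succ b ihb =>
        intro x y hx hy
        set x' := (m - l • (1 : Module.End k V)) x with hx'
        set y' := (m - μ • (1 : Module.End k V)) y with hy'
        have hx'a : ((m - l • (1 : Module.End k V)) ^ a) x' = 0 := by
          rw [hx', ← Module.End.mul_apply, ← pow_succ]; exact hx
        have hy'b : ((m - μ • (1 : Module.End k V)) ^ b) y' = 0 := by
          rw [hy', ← Module.End.mul_apply, ← pow_succ]; exact hy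
        have e1 : B x' y' = 0 := iha b x' y' hx'a hy'b
        have e2 : B x' y = 0 := iha (b + 1) x' y hx'a hy
        have e3 : B x y' = 0 := ihb x y' hx hy'b
        have hmx : m x = x' + l • x := by rw [hx', hfapp]; abel
        have hmy : m y = y' + μ • y := by rw [hy', hfapp]; abel
        have key := hM' x y
        rw [hmx, hmy] at key
        simp only [map_add, map_smul, LinearMap.add_apply, LinearMap.smul_apply, smul_eq_mul,
          e1, e2, e3] at key
        have : (q - l * μ) * B x y = 0 := by linear_combination -key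
        exact (mul_eq_zero.mp this).resolve_left (sub_ne_zero.mpr (Ne.symm hlμ))
  -- commutation
  have hcomm : ∀ (c : k) (N : ℕ) (z : V),
      m (((m - c • (1 : Module.End k V)) ^ N) z) = ((m - c • (1 : Module.End k V)) ^ N) (m z) := by
    intro c N z
    have : Commute m ((m - c • (1 : Module.End k V)) ^ N) := by
      apply Commute.pow_right
      exact (Commute.refl m).sub_right ((Commute.one_right m).smul_right c)
    rw [← Module.End.mul_apply, this.eq, Module.End.mul_apply]
  -- identity for part (a)
  have A : ∀ (N : ℕ) (x w : V), B x (((m - q • (1 : Module.End k V)) ^ N) w) =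
      (-1) ^ N * B (((m - (1 : k) • (1 : Module.End k V)) ^ N) x) ((m ^ N) w) := by
    intro N
    induction N with
    | zero => intro x w; simp
    | succ N ih =>
      intro x w
      have step : ∀ z : V, B x ((m - q • (1 : Module.End k V)) z) =
          -B ((m - (1 : k) • (1 : Module.End k V)) x) (m z) := by
        intro z
        rw [hfapp, hfapp]
        simp only [map_sub, map_smul, LinearMap.sub_apply, smul_eq_mul, one_smul, hM']
        ring
      rw [pow_succ', Module.End.mul_apply, step, hcomm, ih, ← Module.End.mul_apply, ← pow_succ,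
        ← Module.End.mul_apply (m ^ N), ← pow_succ]
      ring
  -- identity for part (b)
  have Bid : ∀ (N : ℕ) (w y : V), B (((m - (1 : k) • (1 : Module.End k V)) ^ N) w) y =
      (-q⁻¹) ^ N * B ((m ^ N) w) (((m - q • (1 : Module.End k V)) ^ N) y) := by
    intro N
    induction N with
    | zero => intro w y; simp
    | succ N ih =>
      intro w y
      have step : ∀ z : V, B ((m - (1 : k) • (1 : Module.End k V)) z) y =
          -q⁻¹ * B (m z) ((m - q • (1 : Module.End k V)) y) := by
        intro z
        rw [hfapp, hfapp]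
        simp only [map_sub, map_smul, LinearMap.sub_apply, smul_eq_mul, one_smul]
        rw [hM']
        field_simp
        ring
      rw [pow_succ', Module.End.mul_apply, step, hcomm, ih, ← Module.End.mul_apply, ← pow_succ,
        ← Module.End.mul_apply ((m - q • (1 : Module.End k V)) ^ N), ← pow_succ]
      ring
  refine ⟨?_, ?_, ?_, ?_⟩
  · intro x hx hxq
    obtain ⟨a, ha⟩ := (Module.End.mem_maxGenEigenspace _ _ _).mp hx
    obtain ⟨N, hN⟩ := Filter.eventually_atTop.mp
      ((m - q • (1 : Module.End k V)).eventually_isCompl_ker_pow_range_pow.and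
        (Filter.eventually_ge_atTop a))
    obtain ⟨hc, haN⟩ := hN N le_rfl
    apply hB.1 x
    intro z
    have hz : z ∈ LinearMap.ker ((m - q • (1 : Module.End k V)) ^ N) ⊔
        LinearMap.range ((m - q • (1 : Module.End k V)) ^ N) := by
      rw [hc.sup_eq_top]; exact Submodule.mem_top
    obtain ⟨z1, hz1, z2, hz2, rfl⟩ := Submodule.mem_sup.mp hz
    obtain ⟨w, rfl⟩ := LinearMap.mem_range.mp hz2
    rw [map_add]
    have h1 : B x z1 = 0 := by
      apply hxq
      exact (Module.End.mem_maxGenEigenspace _ _ _).mpr ⟨N, LinearMap.mem_ker.mp hz1⟩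
    have h2 : ((m - (1 : k) • (1 : Module.End k V)) ^ N) x = 0 := by
      rw [← Nat.sub_add_cancel haN, pow_add, Module.End.mul_apply, ha, map_zero]
    rw [h1, A, h2]
    simp
  · intro y hy hy1
    obtain ⟨b, hb⟩ := (Module.End.mem_maxGenEigenspace _ _ _).mp hy
    obtain ⟨N, hN⟩ := Filter.eventually_atTop.mp
      ((m - (1 : k) • (1 : Module.End k V)).eventually_isCompl_ker_pow_range_pow.and
        (Filter.eventually_ge_atTop b))
    obtain ⟨hc, hbN⟩ := hN N le_rfl
    apply hB.2 y
    intro z
    have hz : z ∈ LinearMap.ker ((m - (1 : k) • (1 : Module.End k V)) ^ N) ⊔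
        LinearMap.range ((m - (1 : k) • (1 : Module.End k V)) ^ N) := by
      rw [hc.sup_eq_top]; exact Submodule.mem_top
    obtain ⟨z1, hz1, z2, hz2, rfl⟩ := Submodule.mem_sup.mp hz
    obtain ⟨w, rfl⟩ := LinearMap.mem_range.mp hz2
    rw [map_add, LinearMap.add_apply]
    have h1 : B z1 y = 0 := by
      apply hy1
      exact (Module.End.mem_maxGenEigenspace _ _ _).mpr ⟨N, LinearMap.mem_ker.mp hz1⟩
    have h2 : ((m - q • (1 : Module.End k V)) ^ N) y = 0 := by
      rw [← Nat.sub_add_cancel hbN, pow_add, Module.End.mul_apply, hb, map_zero]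
    rw [h1, Bid, h2]
    simp
  · intro hq1 x hx x' hx'
    obtain ⟨a, ha⟩ := (Module.End.mem_maxGenEigenspace _ _ _).mp hx
    obtain ⟨b, hb⟩ := (Module.End.mem_maxGenEigenspace _ _ _).mp hx'
    exact L 1 1 (by rw [one_mul]; exact Ne.symm hq1) a b x x' ha hb
  · intro hq1 y hy y' hy'
    obtain ⟨a, ha⟩ := (Module.End.mem_maxGenEigenspace _ _ _).mp hy
    obtain ⟨b, hb⟩ := (Module.End.mem_maxGenEigenspace _ _ _).mp hy'
    refine L q q ?_ a b y y' ha hb
    intro h
    apply hq1
    have : q * (q - 1) = 0 := by linear_combination h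
    exact sub_eq_zero.mp ((mul_eq_zero.mp this).resolve_left hq)

end Groth.Agent.S19660
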