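import Groth.Statements.S1968
import Mathlib
-- import your own Groth.Agent.* helpers here

set_option autoImplicit false
universe u
open EtAlg

namespace Groth.Agent.S1968

/-- Let (A_j) be a family of valuation rings with fraction fields K_j. Then every ideal of the product
ring Π A_j is a flat Π A_j-module (that is, Π A_j has weak dimension at most 1), and Π K_j is the
localization of Π A_j at its non-zero-divisors. -/
theorem result {J : Type u} (A : J → Type u) [∀ j, CommRing (A j)] [∀ j, IsDomain (A j)]
    [∀ j, ValuationRing (A j)] (K : J → Type u) [∀ j, Field (K j)] [∀ j, Algebra (A j) (K j)]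
    [∀ j, IsFractionRing (A j) (K j)] :
    (∀ I : Ideal (∀ j, A j), Module.Flat (∀ j, A j) I) ∧
      IsLocalization (nonZeroDivisors (∀ j, A j)) (∀ j, K j) := by
  classical
  refine ⟨fun I => ?_, ?_⟩
  · rw [Module.Flat.iff_forall_isTrivialRelation]
    intro l f x hfx
    by_cases hl : l = 0
    · subst hl
      exact ⟨0, fun i => i.elim0, fun i => i.elim0, fun i => i.elim0, fun j => j.elim0⟩
    have hi0 : ∀ j, ∃ i0 : Fin l, ∀ i, ((x i0 : ∀ j, A j) j) ∣ ((x i : ∀ j, A j) j) := by
      intro j
      haveI : Nonempty (Fin l) := ⟨⟨0, Nat.pos_of_ne_zero hl⟩⟩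
      obtain ⟨i0, -, hi0⟩ := Finset.exists_max_image Finset.univ
        (fun i => Ideal.span {((x i : ∀ j, A j) j)}) Finset.univ_nonempty
      exact ⟨i0, fun i => Ideal.span_singleton_le_span_singleton.mp (hi0 i (Finset.mem_univ _))⟩
    choose i0 hi0 using hi0
    have hq : ∀ j i, ∃ c : A j, (x i : ∀ j, A j) j = c * (x (i0 j) : ∀ j, A j) j ∧
        ((x (i0 j) : ∀ j, A j) j = 0 → c = 0) := by
      intro j i
      obtain ⟨c, hc⟩ := hi0 j i
      by_cases h0 : (x (i0 j) : ∀ j, A j) j = 0
      · refine ⟨0, ?_, fun _ => rfl⟩
        rw [hc, h0, zero_mul, zero_mul]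
      · exact ⟨c, by rw [hc, mul_comm], fun h => absurd h h0⟩
    choose c hc using hq
    let e : Fin l → (∀ j, A j) := fun k j => if i0 j = k then 1 else 0
    let y : Fin l → I := fun k => ⟨e k * x k, I.mul_mem_left _ (x k).2⟩
    let a : Fin l → Fin l → (∀ j, A j) := fun i k j => if i0 j = k then c j i else 0
    refine ⟨l, a, y, ?_, ?_⟩
    · intro i
      apply Subtype.ext
      funext j
      simp only [Submodule.coe_sum, Submodule.coe_smul, smul_eq_mul, Finset.sum_apply,
        Pi.mul_apply, y, a, e]
      rw [Finset.sum_eq_single (i0 j)]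
      · simp [(hc j i).1]
      · intro k _ hk; simp [Ne.symm hk]
      · intro h; exact absurd (Finset.mem_univ _) h
    · intro k
      funext j
      simp only [Finset.sum_apply, Pi.mul_apply, a, Pi.zero_apply]
      by_cases hk : i0 j = k
      · subst hk
        simp only [if_true]
        by_cases h0 : (x (i0 j) : ∀ j, A j) j = 0
        · simp [(hc j _).2 h0]
        · have := congrArg (fun z : I => (z : ∀ j, A j) j) hfx
          simp only [Submodule.coe_sum, Submodule.coe_smul, smul_eq_mul, Finset.sum_apply,
            Pi.mul_apply, Submodule.coe_zero, Pi.zero_apply] at this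
          have h2 : (∑ i, f i j * c j i) * (x (i0 j) : ∀ j, A j) j = 0 := by
            rw [Finset.sum_mul, ← this]
            apply Finset.sum_congr rfl; intro i _; rw [(hc j i).1]; ring
          exact (mul_eq_zero.mp h2).resolve_right h0
      · simp [hk]
  · -- the product of the fraction fields is the total ring of fractions
    have hcomp : ∀ (b : ∀ j, A j), b ∈ nonZeroDivisors (∀ j, A j) ↔
        ∀ j, b j ∈ nonZeroDivisors (A j) := by
      intro b
      constructor
      · intro hb j
        rw [mem_nonZeroDivisors_iff_ne_zero]
        intro h0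
        have := (mem_nonZeroDivisors_iff.mp hb).1 (Pi.single j 1) (by
          funext j'
          by_cases hj : j' = j
          · subst hj; simp [h0]
          · simp [Pi.single_apply, hj])
        have h1 := congrFun this j
        simp at h1
      · intro hb
        rw [mem_nonZeroDivisors_iff]
        refine ⟨fun r hr => ?_, fun r hr => ?_⟩
        · funext j
          have := congrFun hr j
          simp only [Pi.mul_apply, Pi.zero_apply] at this
          exact (mem_nonZeroDivisors_iff.mp (hb j)).1 _ this
        · funext j
          have := congrFun hr j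
          simp only [Pi.mul_apply, Pi.zero_apply] at this
          exact (mem_nonZeroDivisors_iff.mp (hb j)).2 _ this
    rw [isLocalization_iff]
    refine ⟨?_, ?_, ?_⟩
    · intro b
      rw [Pi.isUnit_iff]
      intro j
      exact IsLocalization.map_units (K j) (⟨(b : ∀ j, A j) j, (hcomp b).mp b.2 j⟩ :
        nonZeroDivisors (A j))
    · intro z
      have := fun j => IsLocalization.surj (nonZeroDivisors (A j)) (z j)
      choose p hp using this
      refine ⟨(fun j => (p j).1, ⟨fun j => ((p j).2 : A j), (hcomp _).mpr fun j => (p j).2.2⟩), ?_⟩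
      funext j
      exact hp j
    · intro u v huv
      refine ⟨1, ?_⟩
      have : u = v := by
        funext j
        have := congrFun huv j
        exact IsFractionRing.injective (A j) (K j) this
      rw [this]

end Groth.Agent.S1968
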