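import Groth.Statements.S1971
import Groth.Agent.S0527
-- import your own Groth.Agent.* helpers here

set_option autoImplicit false
universe u
open EtAlg

namespace Groth.Agent.S1971

/-- `(C, K)` henselian implies `(C, √K)` henselian. -/
theorem henselian_radical {C : Type u} [CommRing C] (K : Ideal C) (hK : HenselianRing C K) :
    HenselianRing C K.radical := by
  classical
  refine ⟨?_, ?_⟩
  · calc K.radical ≤ K.jacobson := Ideal.radical_le_jacobson
      _ ≤ (⊥ : Ideal C).jacobson.jacobson := Ideal.jacobson_mono hK.jac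
      _ = (⊥ : Ideal C).jacobson := Ideal.jacobson_idem
  intro f hf a₀ h₁ h₂
  obtain ⟨u, hu⟩ := h₂.exists_right_inv
  obtain ⟨v, rfl⟩ := Ideal.Quotient.mk_surjective u
  rw [← map_mul, ← map_one (Ideal.Quotient.mk _), Ideal.Quotient.eq] at hu
  -- the locally nilpotent ideal √K / K
  let N : Ideal (C ⧸ K) := K.radical.map (Ideal.Quotient.mk K)
  have hKle : K ≤ K.radical := Ideal.le_radical
  have hN : ∀ y ∈ N, IsNilpotent y := by
    intro y hy
    obtain ⟨x, rfl⟩ := Ideal.Quotient.mk_surjective y
    have hx : x ∈ K.radical := (Ideal.mem_quotient_iff_mem hKle).mp hy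
    obtain ⟨n, hn⟩ := hx
    exact ⟨n, by rw [← map_pow, Ideal.Quotient.eq_zero_iff_mem]; exact hn⟩
  have hHN : HenselianRing (C ⧸ K) N := Groth.Agent.S0527.result (C ⧸ K) N hN
  have e1 : (f.map (Ideal.Quotient.mk K)).eval (Ideal.Quotient.mk K a₀) ∈ N := by
    rw [Polynomial.eval_map, Polynomial.eval₂_at_apply]
    exact Ideal.mem_map_of_mem _ h₁
  have e2 : IsUnit (Ideal.Quotient.mk N
      ((f.map (Ideal.Quotient.mk K)).derivative.eval (Ideal.Quotient.mk K a₀))) := by
    refine IsUnit.of_mul_eq_one (Ideal.Quotient.mk N (Ideal.Quotient.mk K v)) ?_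
    rw [Polynomial.derivative_map, Polynomial.eval_map, Polynomial.eval₂_at_apply, ← map_mul,
      ← map_mul, ← map_one (Ideal.Quotient.mk N), ← map_one (Ideal.Quotient.mk K),
      Ideal.Quotient.eq, ← map_sub]
    exact Ideal.mem_map_of_mem _ hu
  obtain ⟨b', hb'1, hb'2⟩ := hHN.is_henselian _ (hf.map _) _ e1 e2
  obtain ⟨b, rfl⟩ := Ideal.Quotient.mk_surjective b'
  have hb1 : f.eval b ∈ K := by
    rw [← Ideal.Quotient.eq_zero_iff_mem]
    have := hb'1.eq_zero
    rwa [Polynomial.eval_map, Polynomial.eval₂_at_apply] at this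
  have hb2 : b - a₀ ∈ K.radical := by
    rw [← map_sub] at hb'2
    exact (Ideal.mem_quotient_iff_mem hKle).mp hb'2
  have hb3 : IsUnit (Ideal.Quotient.mk K (f.derivative.eval b)) := by
    have hmem : f.derivative.eval b * v - 1 ∈ K.radical := by
      obtain ⟨c, hc⟩ := Polynomial.sub_dvd_eval_sub b a₀ f.derivative
      have : f.derivative.eval b * v - 1 =
          (f.derivative.eval a₀ * v - 1) + (b - a₀) * c * v := by
        rw [← hc]; ring
      rw [this]
      exact add_mem hu (Ideal.mul_mem_right _ _ (Ideal.mul_mem_right _ _ hb2))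
    obtain ⟨n, hn⟩ := hmem
    have hnil : IsNilpotent (Ideal.Quotient.mk K (f.derivative.eval b * v - 1)) :=
      ⟨n, by rw [← map_pow, Ideal.Quotient.eq_zero_iff_mem]; exact hn⟩
    have := hnil.isUnit_add_one
    rw [← map_one (Ideal.Quotient.mk K), ← map_add, sub_add_cancel, map_mul] at this
    exact isUnit_of_mul_isUnit_left this
  obtain ⟨a, ha1, ha2⟩ := hK.is_henselian f hf b hb1 hb3
  refine ⟨a, ha1, ?_⟩
  have : a - a₀ = (a - b) + (b - a₀) := by ring
  rw [this]
  exact add_mem (hKle ha2) hb2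

/-- `(C, √K)` henselian implies `(C, K)` henselian. -/
theorem henselian_of_radical {C : Type u} [CommRing C] (K : Ideal C)
    (hK : HenselianRing C K.radical) : HenselianRing C K := by
  classical
  have hKle : K ≤ K.radical := Ideal.le_radical
  refine ⟨le_trans hKle hK.jac, ?_⟩
  intro f hf a₀ h₁ h₂
  have h₂' : IsUnit (Ideal.Quotient.mk K.radical (f.derivative.eval a₀)) := by
    have := h₂.map (Ideal.Quotient.factor hKle)
    simpa using this
  obtain ⟨a, ha1, ha2⟩ := hK.is_henselian f hf a₀ (hKle h₁) h₂'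
  refine ⟨a, ha1, ?_⟩
  obtain ⟨k, hk⟩ := Polynomial.binomExpansion f a₀ (a - a₀)
  rw [add_sub_cancel, ha1.eq_zero] at hk
  -- `d * (f'(a₀) + k d) ∈ K`
  have hmem : (a - a₀) * (f.derivative.eval a₀ + k * (a - a₀)) ∈ K := by
    have : (a - a₀) * (f.derivative.eval a₀ + k * (a - a₀)) = -(f.eval a₀) := by
      linear_combination (-1 : C) * hk
    rw [this]; exact neg_mem h₁
  obtain ⟨n, hn⟩ := ha2
  have hnil : IsNilpotent (Ideal.Quotient.mk K (k * (a - a₀))) :=
    ⟨n, by rw [← map_pow, Ideal.Quotient.eq_zero_iff_mem, mul_pow]; exact Ideal.mul_mem_left _ _ hn⟩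
  have hunit : IsUnit (Ideal.Quotient.mk K (f.derivative.eval a₀ + k * (a - a₀))) := by
    rw [map_add]
    exact hnil.isUnit_add_left_of_commute h₂ (Commute.all _ _)
  rw [← Ideal.Quotient.eq_zero_iff_mem, map_mul] at hmem
  rw [← Ideal.Quotient.eq_zero_iff_mem]
  exact (hunit.mul_left_eq_zero).mp hmem

theorem henselian_of_le_radical {C : Type u} [CommRing C] (K K' : Ideal C)
    (h1 : K ≤ K'.radical) (h2 : K' ≤ K.radical) (hK : HenselianRing C K) : HenselianRing C K' := by
  have e : K.radical = K'.radical := le_antisymm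
    ((Ideal.radical_le_radical_iff).mpr h1) ((Ideal.radical_le_radical_iff).mpr h2)
  apply henselian_of_radical
  rw [← e]
  exact henselian_radical K hK

theorem map_le_radical_map {A C : Type u} [CommRing A] [CommRing C] (I J : Ideal A)
    (h : I ≤ J.radical) (φ : A →+* C) : I.map φ ≤ (J.map φ).radical := by
  rw [Ideal.map_le_iff_le_comap]
  intro x hx
  obtain ⟨n, hn⟩ := h hx
  exact ⟨n, by rw [← map_pow]; exact Ideal.mem_map_of_mem _ hn⟩

theorem one_dir (A : Type u) [CommRing A] (I J : Ideal A) (hIJ : I ≤ J.radical) (hJI : J ≤ I.radical)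
    (B : Type u) [CommRing B] [Algebra A B] :
    Hens2.IsPairHenselization A I B → Hens2.IsPairHenselization A J B := by
  rintro ⟨hB, hU⟩
  refine ⟨henselian_of_le_radical _ _ (map_le_radical_map I J hIJ _)
    (map_le_radical_map J I hJI _) hB, ?_⟩
  intro C _ K f hK hJK
  have hK' : HenselianRing C K.radical := henselian_radical K hK
  refine hU C K.radical f hK' ?_
  calc I.map f ≤ (J.map f).radical := map_le_radical_map I J hIJ f
    _ ≤ K.radical := Ideal.radical_mono hJK

/-- Let A be a ring with ideals I and J having the same zero locus in Spec A. Then an A-algebra is a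
henselization of the pair (A, I) if and only if it is a henselization of the pair (A, J). -/
theorem result (A : Type u) [CommRing A] (I J : Ideal A)
    (h : PrimeSpectrum.zeroLocus (I : Set A) = PrimeSpectrum.zeroLocus (J : Set A)) (B : Type u) [CommRing B] [Algebra A B] :
    Hens2.IsPairHenselization A I B ↔ Hens2.IsPairHenselization A J B := by
  have hr : I.radical = J.radical := by
    rw [← PrimeSpectrum.vanishingIdeal_zeroLocus_eq_radical,
      ← PrimeSpectrum.vanishingIdeal_zeroLocus_eq_radical, h]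
  have hIJ : I ≤ J.radical := hr ▸ Ideal.le_radical
  have hJI : J ≤ I.radical := hr.symm ▸ Ideal.le_radical
  exact ⟨one_dir A I J hIJ hJI B, one_dir A J I hJI hIJ B⟩

end Groth.Agent.S1971
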