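import Groth.Statements.S19856
import Mathlib.RingTheory.Filtration
import Mathlib.Algebra.Polynomial.AlgebraMap
import Mathlib.Algebra.Module.LinearMap.End
import Mathlib.GroupTheory.OrderOfElement
import Mathlib.RingTheory.LocalRing.ResidueField.Basic
import Mathlib.RingTheory.DiscreteValuationRing.Basic
import Mathlib.RingTheory.IntegralDomain
import Mathlib.Tactic.Ring

set_option autoImplicit false
universe u v
open CAlg

namespace Groth.Agent.S19856

open Polynomial

theorem one_add_pow_aux {R : Type*} [CommRing R] (y : R) (k : ℕ) :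
    ∃ s : R, (1 + y) ^ k = 1 + (k : R) * y + y ^ 2 * s := by
  induction k with
  | zero => exact ⟨0, by simp⟩
  | succ k ih =>
    obtain ⟨s, hs⟩ := ih
    refine ⟨(k : R) + s + s * y, ?_⟩
    rw [pow_succ, hs]; push_cast; ring

/-- An automorphism of finite order `n` (with `n` a unit) of a Noetherian local ring which is
trivial on the residue field and on the cotangent space is trivial. -/
theorem core (A : Type*) [CommRing A] [IsLocalRing A] [IsNoetherianRing A]
    (G : Type*) [Group G] [MulSemiringAction G A] (g : G) (n : ℕ) (hn : g ^ n = 1)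
    (hu : IsUnit (n : A))
    (hbase : ∀ a : A, g • a - a ∈ IsLocalRing.maximalIdeal A)
    (hg : ∀ a ∈ IsLocalRing.maximalIdeal A, g • a - a ∈ IsLocalRing.maximalIdeal A ^ 2)
    (a : A) : g • a = a := by
  classical
  set M := IsLocalRing.maximalIdeal A with hM
  have hgM : ∀ y ∈ M, g • y ∈ M := by
    intro y hy
    have h2 : g • y - y ∈ M := Ideal.pow_le_self two_ne_zero (hg y hy)
    have e : g • y = (g • y - y) + y := by ring
    rw [e]; exact M.add_mem h2 hy
  have hpow : ∀ s : ℕ, ∀ x ∈ M ^ (s + 1), g • x - x ∈ M ^ (s + 2) := by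
    intro s
    induction s with
    | zero => intro x hx; simpa using hg x (by simpa using hx)
    | succ s ih =>
      intro x hx
      rw [pow_succ] at hx
      refine Submodule.mul_induction_on (C := fun x => g • x - x ∈ M ^ (s + 1 + 2)) hx ?_ ?_
      · intro u hu v hv
        show g • (u * v) - u * v ∈ M ^ (s + 1 + 2)
        rw [smul_mul']
        have e : g • u * g • v - u * v = (g • u - u) * (g • v) + u * (g • v - v) := by ring
        rw [e]
        refine Ideal.add_mem _ ?_ ?_
        · have h3 : M ^ (s + 1 + 2) = M ^ (s + 2) * M := by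
            rw [show s + 1 + 2 = s + 2 + 1 by omega, pow_succ]
          rw [h3]
          exact Ideal.mul_mem_mul (ih u hu) (hgM v hv)
        · have h3 : M ^ (s + 1 + 2) = M ^ (s + 1) * M ^ 2 := by rw [← pow_add]
          rw [h3]
          exact Ideal.mul_mem_mul hu (hg v hv)
      · intro u v hu hv
        show g • (u + v) - (u + v) ∈ M ^ (s + 1 + 2)
        rw [smul_add]
        have e : g • u + g • v - (u + v) = (g • u - u) + (g • v - v) := by ring
        rw [e]; exact Ideal.add_mem _ hu hv
  let T : Module.End ℤ A := DistribMulAction.toModuleEnd ℤ A g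
  let D : Module.End ℤ A := T - 1
  have hT : T ^ n = 1 := by
    simp only [T]
    rw [← map_pow, hn, map_one]
  have hDapp : ∀ x, D x = g • x - x := fun x => rfl
  obtain ⟨s, hs⟩ := one_add_pow_aux (X : ℤ[X]) n
  have hpoly : ((1 : ℤ[X]) + X) ^ n - 1 = X * (((n : ℕ) : ℤ[X]) + X * s) := by
    rw [hs]; ring
  have hD := congrArg (aeval D) hpoly
  simp only [map_sub, map_pow, map_add, map_one, map_mul, aeval_X, map_natCast] at hD
  have hTD : 1 + D = T := by simp [D]
  rw [hTD, hT, sub_self] at hD
  have key : ∀ a : A, n • D a + D (D (aeval D s a)) = 0 := by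
    intro a
    have := congrArg (fun F : Module.End ℤ A => F a) hD
    simp only [Module.End.mul_apply, LinearMap.add_apply, LinearMap.zero_apply, map_add,
      Module.End.natCast_apply, map_nsmul] at this
    exact this.symm
  have hall : ∀ t : ℕ, ∀ a : A, D a ∈ M ^ (t + 1) := by
    intro t
    induction t with
    | zero => intro a; rw [zero_add, pow_one]; exact hbase a
    | succ t ih =>
      intro a
      have h1 : D (D (aeval D s a)) ∈ M ^ (t + 2) := hpow t _ (ih _)
      have h2 : n • D a ∈ M ^ (t + 2) := by
        have := key a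
        rw [add_eq_zero_iff_eq_neg] at this
        rw [this]; exact neg_mem h1
      rw [nsmul_eq_mul] at h2
      exact (Ideal.unit_mul_mem_iff_mem _ hu).mp h2
  have hzero : D a = 0 := by
    have hmem : D a ∈ ⨅ i : ℕ, M ^ i := by
      rw [Submodule.mem_iInf]
      intro i
      exact Ideal.pow_le_pow_right (Nat.le_succ i) (hall i a)
    rw [Ideal.iInf_pow_eq_bot_of_isLocalRing M (IsLocalRing.maximalIdeal.isMaximal A).ne_top] at hmem
    exact (Submodule.mem_bot _).mp hmem
  rw [hDapp, sub_eq_zero] at hzero
  exact hzero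

theorem result
    (O : Type u) [CommRing O] [IsDomain O] [IsDiscreteValuationRing O]
    (G : Type v) [Group G] [Finite G] [MulSemiringAction G O] [FaithfulSMul G O]
    (htriv : ∀ (g : G) (a : O), g • a - a ∈ IsLocalRing.maximalIdeal O)
    (hcard : ((Nat.card G : ℕ) : IsLocalRing.ResidueField O) ≠ 0) :
    IsCyclic G := by
  classical
  obtain ⟨ϖ, hϖ⟩ := IsDiscreteValuationRing.exists_irreducible O
  have hM : IsLocalRing.maximalIdeal O = Ideal.span {ϖ} :=
    (IsDiscreteValuationRing.irreducible_iff_uniformizer ϖ).mp hϖ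
  have hϖ0 : ϖ ≠ 0 := hϖ.ne_zero
  have hϖM : ϖ ∈ IsLocalRing.maximalIdeal O := by rw [hM]; exact Ideal.mem_span_singleton_self ϖ
  have hgϖ : ∀ g : G, g • ϖ ∈ Ideal.span {ϖ} := by
    intro g
    rw [← hM]
    have h1 := htriv g ϖ
    have e : g • ϖ = (g • ϖ - ϖ) + ϖ := by ring
    rw [e]
    exact Ideal.add_mem _ h1 hϖM
  choose u hu using fun g : G => Ideal.mem_span_singleton'.mp (hgϖ g)
  -- hu g : u g * ϖ = g • ϖ
  have hres : ∀ (g : G) (a : O), IsLocalRing.residue O (g • a) = IsLocalRing.residue O a := by
    intro g a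
    rw [← sub_eq_zero, ← map_sub, IsLocalRing.residue_eq_zero_iff]
    exact htriv g a
  have hu1 : u 1 = 1 := by
    have h := hu 1
    rw [one_smul] at h
    have : (u 1 - 1) * ϖ = 0 := by rw [sub_mul, h, one_mul, sub_self]
    rcases mul_eq_zero.mp this with h' | h'
    · exact sub_eq_zero.mp h'
    · exact absurd h' hϖ0
  have hmul : ∀ g h : G, u (g * h) = (g • u h) * u g := by
    intro g h
    have h1 := hu (g * h)
    rw [mul_smul, ← hu h, smul_mul', ← hu g] at h1
    have : (u (g * h) - (g • u h) * u g) * ϖ = 0 := by rw [sub_mul, h1]; ring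
    rcases mul_eq_zero.mp this with h' | h'
    · exact sub_eq_zero.mp h'
    · exact absurd h' hϖ0
  let χ : G →* IsLocalRing.ResidueField O :=
    { toFun := fun g => IsLocalRing.residue O (u g)
      map_one' := by simp only [hu1, map_one]
      map_mul' := by
        intro g h
        show IsLocalRing.residue O (u (g * h)) =
          IsLocalRing.residue O (u g) * IsLocalRing.residue O (u h)
        rw [hmul, map_mul, hres, mul_comm] }
  have hχinj : Function.Injective χ := by
    rw [injective_iff_map_eq_one]
    intro g hg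
    have hg' : u g - 1 ∈ IsLocalRing.maximalIdeal O := by
      rw [← IsLocalRing.residue_eq_zero_iff, map_sub, map_one]
      have : IsLocalRing.residue O (u g) = 1 := hg
      rw [this, sub_self]
    have hcot : ∀ a ∈ IsLocalRing.maximalIdeal O,
        g • a - a ∈ IsLocalRing.maximalIdeal O ^ 2 := by
      intro a ha
      rw [hM] at ha
      obtain ⟨b, rfl⟩ := Ideal.mem_span_singleton'.mp ha
      have e : g • (b * ϖ) - b * ϖ = ((g • b - b) * u g + b * (u g - 1)) * ϖ := by
        rw [smul_mul', ← hu g]; ring
      rw [e, pow_two]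
      apply Ideal.mul_mem_mul _ hϖM
      exact Ideal.add_mem _ (Ideal.mul_mem_right _ _ (htriv g b)) (Ideal.mul_mem_left _ _ hg')
    have hunit : IsUnit ((Nat.card G : ℕ) : O) := by
      rw [← IsLocalRing.residue_ne_zero_iff_isUnit, map_natCast]
      exact hcard
    have hfix : ∀ a : O, g • a = a :=
      core O G g (Nat.card G) pow_card_eq_one' hunit (htriv g) hcot
    exact FaithfulSMul.eq_of_smul_eq_smul (fun a => by rw [hfix, one_smul])
  exact isCyclic_of_injective_ringHom χ hχinj

end Groth.Agent.S19856
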