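import Groth.Statements.S19904
import Mathlib.CategoryTheory.Limits.Shapes.Pullback.IsPullback.Basic
import Mathlib.CategoryTheory.Limits.Types.Pullbacks
import Mathlib.CategoryTheory.Limits.FunctorCategory.Shapes.Pullbacks

set_option autoImplicit false
universe u v
open CategoryTheory
open ArtFun

namespace Groth.Agent.S19904

theorem result {Λ : Type u} {k : Type u} [CommRing Λ] [Field k] [Algebra Λ k]
    [IsNoetherianRing Λ] [Module.Finite Λ k]
    {F G G' : ArtFun.Art Λ k ⥤ Type v} (φ : F ⟶ G) (ψ : G' ⟶ G) (hφ : ArtFun.IsSmooth φ) :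
    ArtFun.IsSmooth (Limits.pullback.snd φ ψ) := by
  have hPB := IsPullback.of_hasPullback φ ψ
  intro B A μ hμ ⟨⟨z, y'⟩, hz⟩
  have hA := hPB.app A
  have hB := hPB.app B
  have hz' : (Limits.pullback.snd φ ψ).app A z = G'.map μ y' := hz
  have hcond : φ.app A ((Limits.pullback.fst φ ψ).app A z) =
      ψ.app A ((Limits.pullback.snd φ ψ).app A z) := by
    have := ConcreteCategory.congr_hom hA.w z
    simpa using this
  have hxy : φ.app A ((Limits.pullback.fst φ ψ).app A z) = G.map μ (ψ.app B y') := by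
    rw [hcond, hz', NatTrans.naturality_apply ψ μ y']
  obtain ⟨x', hx'⟩ := hφ μ hμ ⟨((Limits.pullback.fst φ ψ).app A z, ψ.app B y'), hxy⟩
  have hx'1 : F.map μ x' = (Limits.pullback.fst φ ψ).app A z :=
    congrArg (fun q => q.1.1) hx'
  have hx'2 : φ.app B x' = ψ.app B y' := congrArg (fun q => q.1.2) hx'
  obtain ⟨w, hw1, hw2⟩ := Limits.Types.exists_of_isPullback hB x' y' hx'2
  refine ⟨w, ?_⟩
  apply Subtype.ext
  apply Prod.ext
  · show (Limits.pullback φ ψ).map μ w = z
    apply Limits.Types.ext_of_isPullback hA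
    · rw [NatTrans.naturality_apply (Limits.pullback.fst φ ψ) μ w, hw1, hx'1]
    · rw [NatTrans.naturality_apply (Limits.pullback.snd φ ψ) μ w, hw2, hz']
  · show (Limits.pullback.snd φ ψ).app B w = y'
    exact hw2

end Groth.Agent.S19904
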