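import Groth.Statements.S1992
-- import your own Groth.Agent.* helpers here

set_option autoImplicit false
universe u
open Polynomial
open EtAlg

namespace Groth.Agent.S1992

/-- Let A be an absolutely integrally closed ring, i.e. every monic polynomial over A is a product of
linear factors X - a. Then for every prime p of A the localization A_p is a strictly henselian local
ring (henselian with separably closed residue field). -/
theorem result (A : Type u) [CommRing A]
    (hA : ∀ f : A[X], f.Monic → ∃ s : Multiset A, f = (s.map fun a => X - C a).prod)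
    (p : Ideal A) [p.IsPrime] :
    EtCoh.IsStrictlyHenselianLocalRing (Localization.AtPrime p) := by
  classical
  have hsplitA : ∀ g : A[X], g.Monic → g.Splits := by
    intro g hg
    obtain ⟨s, hs⟩ := hA g hg
    rw [splits_iff_exists_multiset]
    exact ⟨s, by rw [hg.leadingCoeff, C_1, one_mul]; exact hs⟩
  have hsplit : ∀ f : (Localization.AtPrime p)[X], f.Monic →
      ∃ m : Multiset (Localization.AtPrime p), f = (m.map fun a => X - C a).prod := by
    intro f hf
    have hl := IsLocalization.scaleRoots_commonDenom_mem_lifts p.primeCompl f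
      (by rw [hf.leadingCoeff]; exact ⟨1, map_one _⟩)
    obtain ⟨G, hGmap, -, hGm⟩ := lifts_and_natDegree_eq_and_monic hl
      (by rw [monic_scaleRoots_iff]; exact hf)
    have hGs := (hsplitA G hGm).map (algebraMap A (Localization.AtPrime p))
    rw [hGmap] at hGs
    have hu : IsUnit (algebraMap A (Localization.AtPrime p)
        (IsLocalization.commonDenom p.primeCompl f.support f.coeff)) :=
      IsLocalization.map_units (Localization.AtPrime p) _
    have hf' : f = (f.scaleRoots (algebraMap A (Localization.AtPrime p)
        (IsLocalization.commonDenom p.primeCompl f.support f.coeff))).scaleRoots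
          ((hu.unit⁻¹ : (Localization.AtPrime p)ˣ) : Localization.AtPrime p) := by
      rw [← scaleRoots_mul, IsUnit.mul_val_inv, scaleRoots_one]
    have hfs : f.Splits := by rw [hf']; exact hGs.scaleRoots _
    obtain ⟨m, hm⟩ := splits_iff_exists_multiset.mp hfs
    exact ⟨m, by rw [hf.leadingCoeff, C_1, one_mul] at hm; exact hm⟩
  have hH : HenselianLocalRing (Localization.AtPrime p) := by
    refine { is_henselian := ?_ }
    intro f hf a₀ h₁ _
    obtain ⟨m, hm⟩ := hsplit f hf
    have h₂ : (m.map fun a => a₀ - a).prod ∈ IsLocalRing.maximalIdeal (Localization.AtPrime p) := by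
      have : f.eval a₀ = (m.map fun a => a₀ - a).prod := by
        rw [hm, eval_multiset_prod, Multiset.map_map]
        congr 1
        apply Multiset.map_congr rfl
        intro a _
        simp
      rw [← this]; exact h₁
    obtain ⟨y, hy, hym⟩ := (Ideal.IsPrime.multiset_prod_mem_iff_exists_mem
      (IsLocalRing.maximalIdeal.isMaximal _).isPrime _).mp h₂
    obtain ⟨r, hr, rfl⟩ := Multiset.mem_map.mp hy
    refine ⟨r, ?_, ?_⟩
    · rw [IsRoot, hm, eval_multiset_prod]
      apply Multiset.prod_eq_zero
      rw [Multiset.map_map]
      exact Multiset.mem_map.mpr ⟨r, hr, by simp⟩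
    · rw [← neg_sub]; exact neg_mem hym
  refine ⟨hH, ?_⟩
  apply IsSepClosed.of_exists_root
  intro q hq hirr _
  have hlift : q ∈ lifts (algebraMap (Localization.AtPrime p)
      (IsLocalRing.ResidueField (Localization.AtPrime p))) := by
    rw [lifts_iff_coeff_lifts]
    intro n
    exact IsLocalRing.residue_surjective _
  obtain ⟨Q, hQmap, hQdeg, hQm⟩ := lifts_and_natDegree_eq_and_monic hlift hq
  obtain ⟨m, hm⟩ := hsplit Q hQm
  have hdeg : 0 < q.natDegree := hirr.natDegree_pos
  have hmne : m ≠ 0 := by
    intro h0
    rw [h0, Multiset.map_zero, Multiset.prod_zero] at hm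
    rw [hm, natDegree_one] at hQdeg
    omega
  obtain ⟨r, hr⟩ := Multiset.exists_mem_of_ne_zero hmne
  refine ⟨algebraMap _ _ r, ?_⟩
  rw [← hQmap, eval_map, ← aeval_def, aeval_def, eval₂_at_apply, hm]
  have : eval r (m.map fun a => X - C a).prod = 0 := by
    rw [eval_multiset_prod]
    apply Multiset.prod_eq_zero
    rw [Multiset.map_map]
    exact Multiset.mem_map.mpr ⟨r, hr, by simp⟩
  rw [this, map_zero]

end Groth.Agent.S1992
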