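import Groth.Statements.S1998
import Mathlib.Algebra.Polynomial.Lifts
-- import your own Groth.Agent.* helpers here

set_option autoImplicit false
universe u
open EtAlg

namespace Groth.Agent.S1998

/-- Let (A_j, I_j) be a directed system of henselian pairs (ring maps A_j -> A_k for j ≤ k carrying I_j
into I_k). Then the direct limit A of the A_j together with the ideal generated by the images of the
I_j is a henselian pair. -/
theorem result {ι : Type u} [Preorder ι] [IsDirected ι (· ≤ ·)] [Nonempty ι]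
    (G : ι → Type u) [∀ i, CommRing (G i)] (f : ∀ i j, i ≤ j → G i →+* G j)
    [DirectedSystem G fun i j h => f i j h] (I : ∀ i, Ideal (G i))
    (hI : ∀ i j (h : i ≤ j), (I i).map (f i j h) ≤ I j) (hh : ∀ i, HenselianRing (G i) (I i)) :
    HenselianRing (Ring.DirectLimit G fun i j h => f i j h)
      (⨆ i, (I i).map (Ring.DirectLimit.of G (fun i j h => f i j h) i)) := by
  classical
  have hff : ∀ i j k (hij : i ≤ j) (hjk : j ≤ k) (x : G i),
      f j k hjk (f i j hij x) = f i k (hij.trans hjk) x := fun i j k hij hjk x =>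
    DirectedSystem.map_map (f := fun i j h => f i j h) hij hjk x
  have hof : ∀ i j (hij : i ≤ j),
      (Ring.DirectLimit.of G (fun i j h => f i j h) j).comp (f i j hij) =
        Ring.DirectLimit.of G (fun i j h => f i j h) i := by
    intro i j hij; ext x; simp
  have hIm : ∀ i j (hij : i ≤ j) (y : G i), y ∈ I i → f i j hij y ∈ I j :=
    fun i j hij y hy => hI i j hij (Ideal.mem_map_of_mem _ hy)
  -- description of the ideal
  let S : Ideal (Ring.DirectLimit G fun i j h => f i j h) :=
    { carrier := {x | ∃ i, ∃ y ∈ I i, Ring.DirectLimit.of G (fun i j h => f i j h) i y = x}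
      add_mem' := by
        rintro _ _ ⟨i, y, hy, rfl⟩ ⟨j, z, hz, rfl⟩
        obtain ⟨k, hik, hjk⟩ := exists_ge_ge i j
        refine ⟨k, f i k hik y + f j k hjk z, add_mem (hIm i k hik y hy) (hIm j k hjk z hz), ?_⟩
        rw [map_add, Ring.DirectLimit.of_f, Ring.DirectLimit.of_f]
      zero_mem' := by
        obtain ⟨i⟩ := ‹Nonempty ι›
        exact ⟨i, 0, zero_mem _, map_zero _⟩
      smul_mem' := by
        rintro c _ ⟨i, y, hy, rfl⟩
        obtain ⟨j, w, rfl⟩ := Ring.DirectLimit.exists_of c
        obtain ⟨k, hik, hjk⟩ := exists_ge_ge i j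
        refine ⟨k, f j k hjk w * f i k hik y, Ideal.mul_mem_left _ _ (hIm i k hik y hy), ?_⟩
        rw [map_mul, Ring.DirectLimit.of_f, Ring.DirectLimit.of_f, smul_eq_mul] }
  have hJS : ∀ x, x ∈ (⨆ i, (I i).map (Ring.DirectLimit.of G (fun i j h => f i j h) i)) →
      ∃ i, ∃ y ∈ I i, Ring.DirectLimit.of G (fun i j h => f i j h) i y = x := by
    intro x hx
    have hle : (⨆ i, (I i).map (Ring.DirectLimit.of G (fun i j h => f i j h) i)) ≤ S :=
      iSup_le fun i => Ideal.map_le_iff_le_comap.mpr fun y hy => ⟨i, y, hy, rfl⟩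
    exact hle hx
  have hSJ : ∀ i (y : G i), y ∈ I i → Ring.DirectLimit.of G (fun i j h => f i j h) i y ∈
      (⨆ i, (I i).map (Ring.DirectLimit.of G (fun i j h => f i j h) i)) := fun i y hy =>
    Ideal.mem_iSup_of_mem i (Ideal.mem_map_of_mem _ hy)
  -- an element vanishing in the limit vanishes at a later stage
  have hzero : ∀ i (x : G i), Ring.DirectLimit.of G (fun i j h => f i j h) i x = 0 →
      ∃ j, ∃ hij : i ≤ j, f i j hij x = 0 := fun i x hx => Ring.DirectLimit.of.zero_exact hx
  refine ⟨?_, ?_⟩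
  · intro x hx
    obtain ⟨k, y0, hy0, rfl⟩ := hJS x hx
    rw [Ideal.mem_jacobson_bot]
    intro y
    obtain ⟨l, w, rfl⟩ := Ring.DirectLimit.exists_of y
    obtain ⟨M, hkM, hlM⟩ := exists_ge_ge k l
    have h1 : f k M hkM y0 ∈ (⊥ : Ideal (G M)).jacobson := (hh M).jac (hIm k M hkM y0 hy0)
    rw [Ideal.mem_jacobson_bot] at h1
    have := (h1 (f l M hlM w)).map (Ring.DirectLimit.of G (fun i j h => f i j h) M)
    simpa [Ring.DirectLimit.of_f] using this
  · intro F hF a₀ h1 h2
    obtain ⟨i, q0, hq0⟩ := Ring.DirectLimit.Polynomial.exists_of F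
    obtain ⟨q, hqmap, -, hqm⟩ := Polynomial.lifts_and_natDegree_eq_and_monic (f := Ring.DirectLimit.of G (fun i j h => f i j h) i)
      ⟨q0, hq0⟩ hF
    obtain ⟨j, a, rfl⟩ := Ring.DirectLimit.exists_of a₀
    obtain ⟨k, y, hy, hyF⟩ := hJS _ h1
    obtain ⟨u, hu⟩ := h2.exists_right_inv
    obtain ⟨v, rfl⟩ := Ideal.Quotient.mk_surjective u
    rw [← map_mul, ← map_one (Ideal.Quotient.mk _), Ideal.Quotient.eq] at hu
    obtain ⟨l, z, hz, hzF⟩ := hJS _ hu
    obtain ⟨l', w, rfl⟩ := Ring.DirectLimit.exists_of v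
    obtain ⟨M1, hiM1, hjM1⟩ := exists_ge_ge i j
    obtain ⟨M2, hkM2, hlM2⟩ := exists_ge_ge k l
    obtain ⟨M3, hM13, hl'M3⟩ := exists_ge_ge M1 l'
    obtain ⟨M, hM3M, hM2M⟩ := exists_ge_ge M3 M2
    have hiM : i ≤ M := hiM1.trans (hM13.trans hM3M)
    have hjM : j ≤ M := hjM1.trans (hM13.trans hM3M)
    have hkM : k ≤ M := hkM2.trans hM2M
    have hlM : l ≤ M := hlM2.trans hM2M
    have hl'M : l' ≤ M := hl'M3.trans hM3M
    set P : Polynomial (G M) := q.map (f i M hiM) with hP
    set α : G M := f j M hjM a with hα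
    have hPmap : P.map (Ring.DirectLimit.of G (fun i j h => f i j h) M) = F := by
      rw [hP, Polynomial.map_map, hof, hqmap]
    have hofα : Ring.DirectLimit.of G (fun i j h => f i j h) M α =
        Ring.DirectLimit.of G (fun i j h => f i j h) j a := by rw [hα, Ring.DirectLimit.of_f]
    have hev : ∀ (R : Polynomial (G M)), Ring.DirectLimit.of G (fun i j h => f i j h) M (R.eval α) =
        (R.map (Ring.DirectLimit.of G (fun i j h => f i j h) M)).eval
          (Ring.DirectLimit.of G (fun i j h => f i j h) j a) := by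
      intro R
      rw [← hofα, Polynomial.eval_map, Polynomial.eval₂_at_apply]
    clear_value P α
    have e1 : Ring.DirectLimit.of G (fun i j h => f i j h) M (P.eval α - f k M hkM y) = 0 := by
      rw [map_sub, hev, hPmap, Ring.DirectLimit.of_f, hyF, sub_self]
    have e2 : Ring.DirectLimit.of G (fun i j h => f i j h) M
        ((Polynomial.derivative P).eval α * f l' M hl'M w - 1 - f l M hlM z) = 0 := by
      have hd : (Polynomial.derivative P).map (Ring.DirectLimit.of G (fun i j h => f i j h) M) =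
          Polynomial.derivative F := by
        rw [← hPmap, Polynomial.derivative_map]
      rw [map_sub, map_sub, map_mul, hev, hd, Ring.DirectLimit.of_f,
        Ring.DirectLimit.of_f, hzF, map_one]
      ring
    obtain ⟨N1, hMN1, hN1⟩ := hzero M _ e1
    obtain ⟨N2, hMN2, hN2⟩ := hzero M _ e2
    obtain ⟨N, hN1N, hN2N⟩ := exists_ge_ge N1 N2
    have hMN : M ≤ N := hMN1.trans hN1N
    have z1 : f M N hMN (P.eval α - f k M hkM y) = 0 := by
      rw [← hff M N1 N hMN1 hN1N, hN1, map_zero]
    have z2 : f M N hMN ((Polynomial.derivative P).eval α * f l' M hl'M w - 1 - f l M hlM z) = 0 := by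
      rw [← hff M N2 N hMN2 hN2N, hN2, map_zero]
    set Q : Polynomial (G N) := P.map (f M N hMN) with hQ
    set β : G N := f M N hMN α with hβ
    have hQe : ∀ (R : Polynomial (G M)), (R.map (f M N hMN)).eval β = f M N hMN (R.eval α) := by
      intro R; rw [hβ, Polynomial.eval_map, Polynomial.eval₂_at_apply]
    clear_value Q β
    have hQm : Q.Monic := by rw [hQ, hP]; exact (hqm.map _).map _
    have hQ1 : Q.eval β ∈ I N := by
      rw [hQ, hQe, ← sub_add_cancel (P.eval α) (f k M hkM y), map_add, z1, zero_add]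
      exact hIm M N hMN _ (hIm k M hkM y hy)
    have hQ2 : IsUnit (Ideal.Quotient.mk (I N) ((Polynomial.derivative Q).eval β)) := by
      refine IsUnit.of_mul_eq_one (Ideal.Quotient.mk (I N) (f M N hMN (f l' M hl'M w))) ?_
      rw [← map_mul, ← map_one (Ideal.Quotient.mk (I N)), Ideal.Quotient.eq, hQ,
        Polynomial.derivative_map, hQe, ← map_mul, ← map_one (f M N hMN), ← map_sub]
      have : (Polynomial.derivative P).eval α * f l' M hl'M w - 1 =
          ((Polynomial.derivative P).eval α * f l' M hl'M w - 1 - f l M hlM z) + f l M hlM z := by ring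
      rw [this, map_add, z2, zero_add]
      exact hIm M N hMN _ (hIm l M hlM z hz)
    obtain ⟨r, hr, hrβ⟩ := (hh N).is_henselian Q hQm β hQ1 hQ2
    refine ⟨Ring.DirectLimit.of G (fun i j h => f i j h) N r, ?_, ?_⟩
    · have hQmap : Q.map (Ring.DirectLimit.of G (fun i j h => f i j h) N) = F := by
        rw [hQ, Polynomial.map_map, hof, hPmap]
      rw [Polynomial.IsRoot, ← hQmap, Polynomial.eval_map, Polynomial.eval₂_at_apply, hr.eq_zero, map_zero]
    · have : Ring.DirectLimit.of G (fun i j h => f i j h) j a =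
          Ring.DirectLimit.of G (fun i j h => f i j h) N β := by
        rw [hβ, Ring.DirectLimit.of_f, hofα]
      rw [this, ← map_sub]
      exact hSJ N _ hrβ

end Groth.Agent.S1998
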