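import Groth.Statements.S20024
import Mathlib.RingTheory.WittVector.Identities
import Mathlib.RingTheory.WittVector.Teichmuller
import Mathlib.RingTheory.WittVector.Truncated
import Mathlib.Algebra.CharP.Basic

set_option autoImplicit false
universe u
open WittFil

namespace Groth.Agent.S20024

theorem frob_teich (p : ℕ) [Fact p.Prime] {B : Type*} [CommRing B] [CharP B p] (a : B) :
    WittVector.frobenius (WittVector.teichmuller p a) = WittVector.teichmuller p (a ^ p) := by
  ext n
  rw [WittVector.coeff_frobenius_charP]
  rcases Nat.eq_zero_or_pos n with h | h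
  · subst h
    rw [WittVector.teichmuller_coeff_zero, WittVector.teichmuller_coeff_zero]
  · rw [WittVector.teichmuller_coeff_pos _ _ n h, WittVector.teichmuller_coeff_pos _ _ n h,
      zero_pow (Fact.out : p.Prime).ne_zero]

theorem iter_frob_teich (p : ℕ) [Fact p.Prime] {B : Type*} [CommRing B] [CharP B p] (a : B)
    (s : ℕ) :
    (WittVector.frobenius (p := p) (R := B))^[s] (WittVector.teichmuller p a) =
      WittVector.teichmuller p (a ^ (p ^ s)) := by
  induction s with
  | zero => simp
  | succ s ih =>
    rw [Function.iterate_succ_apply', ih, frob_teich, ← pow_mul, ← pow_succ]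

theorem result (p : ℕ) [Fact p.Prime] {S B : Type u}
    [CommRing S] [CharP S p] [CommRing B] [Algebra S B] (m s : ℕ) (u : Bˣ) (i l : ℤ)
    (c : WittVector p S) :
    WittVector.truncate m (WittVector.teichmuller p ((u ^ l : Bˣ) : B)) *
        WittFil.vShiftTeich p m s ((u ^ i : Bˣ) : B) c =
      WittFil.vShiftTeich p m s ((u ^ (i + (p : ℤ) ^ s * l) : Bˣ) : B) c := by
  rcases subsingleton_or_nontrivial B with hB | hB
  · exact TruncatedWittVector.ext (fun _ => Subsingleton.elim _ _)
  have hp0 : ((p : ℕ) : B) = 0 := by
    rw [← map_natCast (algebraMap S B), CharP.cast_eq_zero, map_zero]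
  have : CharP B p := by
    have h := CharP.ringChar_of_prime_eq_zero (Fact.out : p.Prime) hp0
    rw [← h]
    exact ringChar.charP B
  unfold WittFil.vShiftTeich
  rw [← map_mul]
  congr 1
  rw [mul_comm, WittVector.iterate_verschiebung_mul_left, iter_frob_teich, mul_assoc, ← map_mul]
  congr 3
  rw [← Units.val_pow_eq_pow_val, ← Units.val_mul, ← zpow_natCast, ← zpow_mul, ← zpow_add]
  congr 2
  push_cast
  ring

end Groth.Agent.S20024
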