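import Groth.Statements.S2004
import Mathlib
-- import your own Groth.Agent.* helpers here

set_option autoImplicit false
universe u
open TensorProduct
open EtAlg

namespace Groth.Agent.S2004

/-- Let R -> R' induce bijections R/f^n R -> R'/f^n R' for all n > 0. Then (R -> R', f) is a glueing
pair if and only if R -> R' maps the f-power torsion of R bijectively onto the f-power torsion of R'
(stated as: injective on f-power torsion elements, and every f-power torsion element of R' is the
image of one of R). -/
theorem result (R R' : Type u) [CommRing R] [CommRing R'] [Algebra R R'] (f : R)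
    (hq : EtGlue.QuotPowBijective R R' f) :
    EtGlue.IsGlueingPair R R' f ↔
      ((∀ x : R, (∃ n : ℕ, f ^ n * x = 0) → algebraMap R R' x = 0 → x = 0) ∧
       (∀ x' : R', (∃ n : ℕ, algebraMap R R' f ^ n * x' = 0) →
          ∃ x : R, (∃ n : ℕ, f ^ n * x = 0) ∧ algebraMap R R' x = x')) := by
  classical
  -- basic facts
  have hloc0 : ∀ r : R, algebraMap R (Localization.Away f) r = 0 ↔ ∃ n : ℕ, f ^ n * r = 0 := by
    intro r
    rw [IsLocalization.map_eq_zero_iff (Submonoid.powers f)]
    constructor
    · rintro ⟨⟨_, n, rfl⟩, h⟩; exact ⟨n, h⟩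
    · rintro ⟨n, h⟩; exact ⟨⟨f ^ n, n, rfl⟩, h⟩
  have hloc0' : ∀ r : R', algebraMap R' (Localization.Away (algebraMap R R' f)) r = 0 ↔
      ∃ n : ℕ, algebraMap R R' f ^ n * r = 0 := by
    intro r
    rw [IsLocalization.map_eq_zero_iff (Submonoid.powers (algebraMap R R' f))]
    constructor
    · rintro ⟨⟨_, n, rfl⟩, h⟩; exact ⟨n, h⟩
    · rintro ⟨n, h⟩; exact ⟨⟨_, n, rfl⟩, h⟩
  have hmapspan : ∀ N : ℕ, Ideal.map (algebraMap R R') (Ideal.span {f ^ N}) =
      Ideal.span {algebraMap R R' f ^ N} := by
    intro N; rw [Ideal.map_span, Set.image_singleton, map_pow]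
  have hawl : ∀ a : R, Localization.awayMap (algebraMap R R') f (algebraMap R (Localization.Away f) a)
      = algebraMap R' (Localization.Away (algebraMap R R' f)) (algebraMap R R' a) := by
    intro a; exact IsLocalization.map_eq _ _
  constructor
  · rintro ⟨-, hinj, h3, -⟩
    refine ⟨fun x hx hφ => ?_, fun x' hx' => ?_⟩
    · apply hinj
      simp only [Prod.mk.injEq, map_zero]
      exact ⟨hφ, (hloc0 x).mpr hx⟩
    · obtain ⟨r, hr1, hr2⟩ := h3 x' 0 (by rw [map_zero]; exact (hloc0' x').mpr hx')
      exact ⟨r, (hloc0 r).mp hr2, hr1⟩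
  · rintro ⟨ha, hb⟩
    refine ⟨hq, ?_, ?_, ?_⟩
    · intro r1 r2 h
      simp only [Prod.mk.injEq] at h
      have h1 : algebraMap R R' (r1 - r2) = 0 := by rw [map_sub, h.1, sub_self]
      have h2 : algebraMap R (Localization.Away f) (r1 - r2) = 0 := by rw [map_sub, h.2, sub_self]
      exact sub_eq_zero.mp (ha _ ((hloc0 _).mp h2) h1)
    · intro x y hxy
      obtain ⟨⟨a, _, n, rfl⟩, hy⟩ := IsLocalization.surj (Submonoid.powers f) y
      simp only at hy
      set N := n + 1 with hN
      have hy' : y * algebraMap R (Localization.Away f) (f ^ N) =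
          algebraMap R (Localization.Away f) (a * f) := by
        rw [pow_succ, map_mul, map_mul, ← mul_assoc, hy]
      set a₁ := a * f
      -- transport to R'_f
      have h1 : algebraMap R' (Localization.Away (algebraMap R R' f))
          (x * algebraMap R R' f ^ N - algebraMap R R' a₁) = 0 := by
        have := congrArg (Localization.awayMap (algebraMap R R') f) hy'
        rw [map_mul, hawl, hawl, ← hxy] at this
        rw [map_sub, map_mul, ← map_pow, this, sub_self]
      obtain ⟨t, ht, htφ⟩ := hb _ ((hloc0' _).mp h1)
      have hmem : a₁ + t ∈ Ideal.span {f ^ N} := by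
        have hq1 := (hq N (Nat.succ_pos n)).1
        have : Ideal.quotientMap (Ideal.map (algebraMap R R') (Ideal.span {f ^ N}))
            (algebraMap R R') Ideal.le_comap_map (Ideal.Quotient.mk _ (a₁ + t)) =
            Ideal.quotientMap (Ideal.map (algebraMap R R') (Ideal.span {f ^ N}))
            (algebraMap R R') Ideal.le_comap_map 0 := by
          rw [Ideal.quotientMap_mk, map_zero, Ideal.Quotient.eq_zero_iff_mem, map_add, htφ,
            hmapspan]
          have : algebraMap R R' a₁ + (x * algebraMap R R' f ^ N - algebraMap R R' a₁) =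
              x * algebraMap R R' f ^ N := by ring
          rw [this]
          exact Ideal.mul_mem_left _ _ (Ideal.mem_span_singleton_self _)
        exact Ideal.Quotient.eq_zero_iff_mem.mp (hq1 this)
      obtain ⟨r, hr⟩ := Ideal.mem_span_singleton'.mp hmem
      -- x - φ r is torsion
      have h2 : algebraMap R R' f ^ N * (x - algebraMap R R' r) = 0 := by
        have e1 : algebraMap R R' (r * f ^ N) = algebraMap R R' (a₁ + t) := by rw [hr]
        rw [map_mul, map_add, htφ, map_pow] at e1
        linear_combination (-1 : R') * e1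
      obtain ⟨t', ht', ht'φ⟩ := hb _ ⟨N, h2⟩
      refine ⟨r + t', by rw [map_add, ht'φ]; ring, ?_⟩
      have hlt' : algebraMap R (Localization.Away f) t' = 0 := (hloc0 t').mpr ht'
      have hlt : algebraMap R (Localization.Away f) t = 0 := (hloc0 t).mpr ht
      rw [map_add, hlt', add_zero]
      have hu : IsUnit (algebraMap R (Localization.Away f) (f ^ N)) :=
        IsLocalization.map_units (Localization.Away f) (⟨f ^ N, N, rfl⟩ : Submonoid.powers f)
      apply hu.mul_left_injective
      simp only
      rw [hy', ← map_mul, hr, map_add, hlt, add_zero]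
    · intro z
      obtain ⟨⟨x', _, n, rfl⟩, hz⟩ := IsLocalization.surj (Submonoid.powers (algebraMap R R' f)) z
      simp only at hz
      set N := n + 1 with hN
      have hz' : z * algebraMap R' (Localization.Away (algebraMap R R' f)) (algebraMap R R' f ^ N) =
          algebraMap R' (Localization.Away (algebraMap R R' f)) (x' * algebraMap R R' f) := by
        rw [pow_succ, map_mul, map_mul, ← mul_assoc, hz]
      obtain ⟨a', ha'⟩ := (hq N (Nat.succ_pos n)).2 (Ideal.Quotient.mk _ (x' * algebraMap R R' f))
      obtain ⟨a, rfl⟩ := Ideal.Quotient.mk_surjective a'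
      rw [Ideal.quotientMap_mk, Ideal.Quotient.eq, hmapspan] at ha'
      obtain ⟨b, hb'⟩ := Ideal.mem_span_singleton'.mp ha'
      -- hb' : b * φ f ^ N = φ a - x' * φ f
      refine ⟨-b, -IsLocalization.mk' (Localization.Away f) a (⟨f ^ N, N, rfl⟩ : Submonoid.powers f), ?_⟩
      have hu : IsUnit (algebraMap R' (Localization.Away (algebraMap R R' f)) (algebraMap R R' f ^ N)) :=
        IsLocalization.map_units (Localization.Away (algebraMap R R' f))
          (⟨algebraMap R R' f ^ N, N, rfl⟩ : Submonoid.powers (algebraMap R R' f))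
      apply hu.mul_left_injective
      simp only
      have hmk : Localization.awayMap (algebraMap R R') f
          (IsLocalization.mk' (Localization.Away f) a (⟨f ^ N, N, rfl⟩ : Submonoid.powers f)) *
          algebraMap R' (Localization.Away (algebraMap R R' f)) (algebraMap R R' f ^ N) =
          algebraMap R' (Localization.Away (algebraMap R R' f)) (algebraMap R R' a) := by
        rw [← map_pow, ← hawl (f ^ N), ← map_mul, IsLocalization.mk'_spec, hawl]
      rw [map_neg (Localization.awayMap (algebraMap R R') f), sub_neg_eq_add, add_mul, hmk, hz', ← map_mul, ← map_add]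
      congr 1
      linear_combination (-1 : R') * hb'

end Groth.Agent.S2004
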