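import Groth.Statements.S2012
import Mathlib.RingTheory.Ideal.Pure
import Mathlib.RingTheory.Nakayama
import Mathlib.RingTheory.IntegralClosure.IsIntegralClosure.Basic
-- import your own Groth.Agent.* helpers here

set_option autoImplicit false
universe u
open EtAlg

namespace Groth.Agent.S2012

/-- Let A be a ring and I an ideal contained in its Jacobson radical. Let B be an A-algebra which is
flat, integral and of finite presentation over A and such that A/I -> B/IB is bijective. Then A -> B
is bijective. -/
theorem result (A B : Type u) [CommRing A] [CommRing B] [Algebra A B]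
    (I : Ideal A) (hI : I ≤ (⊥ : Ideal A).jacobson) [Module.Flat A B] [Algebra.IsIntegral A B] [Algebra.FinitePresentation A B]
    (hq : Function.Bijective (Ideal.quotientMap (I.map (algebraMap A B)) (algebraMap A B) Ideal.le_comap_map)) :
    Function.Bijective (algebraMap A B) := by
  classical
  have : Module.Finite A B := Algebra.IsIntegral.finite
  have hIB : (I • (⊤ : Submodule A B)) = (I.map (algebraMap A B)).restrictScalars A :=
    Ideal.smul_top_eq_map I
  -- surjectivity by Nakayama
  have hsurj : Function.Surjective (algebraMap A B) := by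
    let N : Submodule A B := LinearMap.range (Algebra.linearMap A B)
    have hle : (⊤ : Submodule A B) ≤ N ⊔ I • ⊤ := by
      intro b _
      obtain ⟨a, ha⟩ := hq.2 (Ideal.Quotient.mk _ b)
      obtain ⟨a, rfl⟩ := Ideal.Quotient.mk_surjective a
      rw [Ideal.quotientMap_mk, Ideal.Quotient.eq] at ha
      have h1 : algebraMap A B a ∈ N := ⟨a, rfl⟩
      have h2 : b - algebraMap A B a ∈ I • (⊤ : Submodule A B) := by
        rw [hIB]
        have := neg_mem ha
        simpa using this
      have : b = algebraMap A B a + (b - algebraMap A B a) := by ring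
      rw [this]
      exact Submodule.add_mem_sup h1 h2
    have := Submodule.le_of_le_smul_of_le_jacobson_bot (Module.Finite.fg_top) hI hle
    intro b
    obtain ⟨a, ha⟩ := this (Submodule.mem_top : b ∈ ⊤)
    exact ⟨a, ha⟩
  -- injectivity
  refine ⟨?_, hsurj⟩
  let J : Ideal A := RingHom.ker (Algebra.ofId A B).toRingHom
  have hJfg : J.FG := Algebra.FinitePresentation.ker_fG_of_surjective (Algebra.ofId A B) hsurj
  let e : (A ⧸ RingHom.ker (Algebra.ofId A B)) ≃ₐ[A] B :=
    Ideal.quotientKerAlgEquivOfSurjective (f := Algebra.ofId A B) hsurj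
  have : Module.Flat A (A ⧸ J) := Module.Flat.of_linearEquiv e.toLinearEquiv
  have hJI : J ≤ I := by
    intro x hx
    have hx' : algebraMap A B x = 0 := hx
    have : Ideal.quotientMap (I.map (algebraMap A B)) (algebraMap A B) Ideal.le_comap_map
        (Ideal.Quotient.mk I x) = Ideal.quotientMap (I.map (algebraMap A B)) (algebraMap A B)
        Ideal.le_comap_map 0 := by
      rw [Ideal.quotientMap_mk, hx', map_zero, map_zero]
    have := hq.1 this
    exact Ideal.Quotient.eq_zero_iff_mem.mp this
  have hmul : J ⊓ I = J * I := Ideal.inf_eq_mul_of_pure J I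
  have hJ : J = ⊥ := by
    refine Submodule.eq_bot_of_le_smul_of_le_jacobson_bot I J hJfg ?_ hI
    intro x hx
    have : x ∈ J ⊓ I := ⟨hx, hJI hx⟩
    rw [hmul, mul_comm] at this
    rw [Ideal.smul_eq_mul]
    exact this
  rw [injective_iff_map_eq_zero]
  intro a ha
  have : a ∈ J := ha
  rw [hJ] at this
  exact (Submodule.mem_bot A).mp this

end Groth.Agent.S2012
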