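import Groth.Statements.S2018
import Mathlib.Algebra.Polynomial.Lifts
-- import your own Groth.Agent.* helpers here

set_option autoImplicit false
universe u
open EtAlg

namespace Groth.Agent.S2018

/-- Let g : A' -> A be a surjective ring map and f : B -> A an integral ring map. Then the projection
from the fibre product B ×_A A' (the equalizer of f ∘ pr₁ and g ∘ pr₂ in B × A') to A' is integral. -/
theorem result (A A' B : Type u) [CommRing A] [CommRing A'] [CommRing B] (g : A' →+* A)
    (hg : Function.Surjective g) (f : B →+* A) (hf : f.IsIntegral) :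
    ((RingHom.snd B A').comp ((f.comp (RingHom.fst B A')).eqLocus (g.comp (RingHom.snd B A'))).subtype).IsIntegral := by
  set P := (f.comp (RingHom.fst B A')).eqLocus (g.comp (RingHom.snd B A')) with hP
  set φ := (RingHom.snd B A').comp P.subtype with hφ
  intro a'
  rcases subsingleton_or_nontrivial A with hA | hA
  · -- if `A = 0` the projection is surjective
    have hmem : ((0 : B), a') ∈ P := Subsingleton.elim _ _
    have : φ ⟨((0 : B), a'), hmem⟩ = a' := rfl
    rw [← this]
    exact φ.isIntegralElem_map
  have hA' : Nontrivial A' := hg.nontrivial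
  obtain ⟨p, hpm, hp⟩ := hf (g a')
  -- make the degree positive
  set p₁ := p * Polynomial.X with hp₁
  have hp₁m : p₁.Monic := hpm.mul Polynomial.monic_X
  have hp₁e : p₁.eval₂ f (g a') = 0 := by simp [p₁, Polynomial.eval₂_mul, hp]
  have hp₁d : 0 < p₁.natDegree := by
    have hB : Nontrivial B := f.domain_nontrivial
    rw [hpm.natDegree_mul Polynomial.monic_X, Polynomial.natDegree_X]; omega
  -- lift `p₁.map f` along the surjection `g` to a monic polynomial of the same degree
  have hlift : p₁.map f ∈ Polynomial.lifts g := by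
    rw [Polynomial.lifts_iff_coeff_lifts]; intro n; exact hg _
  obtain ⟨P', hP'map, hP'deg, hP'm⟩ := Polynomial.lifts_and_degree_eq_and_monic hlift (hp₁m.map f)
  set k := P'.eval a' with hk
  have hgk : g k = 0 := by
    rw [hk, ← Polynomial.eval₂_at_apply, ← Polynomial.eval_map, hP'map, Polynomial.eval_map, hp₁e]
  have hdegP' : 0 < P'.degree := by
    rw [hP'deg, Polynomial.degree_eq_natDegree (hp₁m.map f).ne_zero, hp₁m.natDegree_map]
    exact_mod_cast hp₁d
  set Q := P' - Polynomial.C k with hQ
  have hQm : Q.Monic := hP'm.sub_of_left (Polynomial.degree_C_le.trans_lt hdegP')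
  have hQe : Q.eval a' = 0 := by simp [Q, hk]
  have hQlift : Q ∈ Polynomial.lifts φ := by
    rw [Polynomial.lifts_iff_coeff_lifts]
    intro n
    have hmem : (p₁.coeff n, Q.coeff n) ∈ P := by
      show f (p₁.coeff n) = g (Q.coeff n)
      have h1 : g (P'.coeff n) = f (p₁.coeff n) := by
        rw [← Polynomial.coeff_map, hP'map, Polynomial.coeff_map]
      simp only [Q, Polynomial.coeff_sub, Polynomial.coeff_C, map_sub, h1]
      split_ifs <;> simp [hgk]
    exact ⟨⟨_, hmem⟩, rfl⟩
  obtain ⟨q, hqmap, -, hqm⟩ := Polynomial.lifts_and_degree_eq_and_monic hQlift hQm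
  exact ⟨q, hqm, by rw [← Polynomial.eval_map, hqmap, hQe]⟩

end Groth.Agent.S2018
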