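import Groth.Statements.S2059
import Mathlib
-- import your own Groth.Agent.* helpers here

set_option autoImplicit false
universe u
open CAlg

namespace Groth.Agent.S2059

theorem part1 {k K : Type u} [Field k] [Field K] [Algebra k K]
    (s : Set K) (hs : Algebra.adjoin k s = ⊤) (hcard : Cardinal.mk s < Cardinal.mk k) :
    Algebra.IsAlgebraic k K := by
  classical
  by_cases hfin : s.Finite
  · have : Algebra.FiniteType k K := ⟨⟨hfin.toFinset, by simpa using hs⟩⟩
    have : Module.Finite k K := finite_of_finite_type_of_isJacobsonRing k K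
    exact Algebra.IsAlgebraic.of_finite k K
  · refine ⟨fun x => ?_⟩
    by_contra hx
    have hli := Transcendental.linearIndependent_sub_inv (F := k) (E := K) hx
    have h1 : Cardinal.mk k ≤ Module.rank k K := hli.cardinal_le_rank
    have hsurj : Function.Surjective (MvPolynomial.aeval (R := k) (fun x : s => (x : K))) := by
      rw [← AlgHom.range_eq_top, ← Algebra.adjoin_range_eq_range_aeval, Subtype.range_coe_subtype]
      simpa using hs
    have h2 : Module.rank k K ≤ Module.rank k (MvPolynomial s k) :=
      (MvPolynomial.aeval (R := k) (fun x : s => (x : K))).toLinearMap.rank_le_of_surjective hsurj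
    have hinf : Infinite s := Set.infinite_coe_iff.mpr hfin
    have h3 : Module.rank k (MvPolynomial s k) = Cardinal.mk s := by
      rw [← (MvPolynomial.basisMonomials s k).mk_eq_rank'', Cardinal.mk_finsupp_nat]
      exact max_eq_left (Cardinal.aleph0_le_mk s)
    have := h1.trans (h2.trans h3.le)
    exact absurd hcard (not_lt.mpr this)

/-- Let `k` be a field and `S` a `k`-algebra generated by a set of cardinality smaller than that of `k`.
Then for every maximal ideal `𝔪` of `S` the residue field `S/𝔪` is algebraic over `k`, and `S` is a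
Jacobson ring. -/
theorem result {k S : Type u} [Field k] [CommRing S] [Algebra k S]
    (s : Set S) (hs : Algebra.adjoin k s = ⊤) (hcard : Cardinal.mk s < Cardinal.mk k) :
    (∀ (m : Ideal S) [m.IsMaximal], Algebra.IsAlgebraic k (S ⧸ m)) ∧ IsJacobsonRing S := by
  classical
  have P1 : ∀ (m : Ideal S) [m.IsMaximal], Algebra.IsAlgebraic k (S ⧸ m) := by
    intro m _
    let := Ideal.Quotient.field m
    refine part1 ((Ideal.Quotient.mkₐ k m) '' s) ?_ ((Cardinal.mk_image_le).trans_lt hcard)
    rw [Algebra.adjoin_image, hs, Algebra.map_top, AlgHom.range_eq_top]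
    exact Ideal.Quotient.mkₐ_surjective k m
  refine ⟨P1, ?_⟩
  by_cases hfin : s.Finite
  · have : Algebra.FiniteType k S := ⟨⟨hfin.toFinset, by simpa using hs⟩⟩
    exact isJacobsonRing_of_finiteType (A := k)
  · have hinf : Infinite s := Set.infinite_coe_iff.mpr hfin
    rw [isJacobsonRing_iff_prime_eq]
    intro P hP
    refine le_antisymm ?_ Ideal.le_jacobson
    intro x hx
    by_contra hxP
    set y : S ⧸ P := Ideal.Quotient.mk P x with hy
    have hy0 : y ≠ 0 := by rw [hy, Ne, Ideal.Quotient.eq_zero_iff_mem]; exact hxP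
    have hinjT : Function.Injective (algebraMap (S ⧸ P) (Localization.Away y)) :=
      IsLocalization.injective (Localization.Away y) (powers_le_nonZeroDivisors_of_noZeroDivisors hy0)
    have : Nontrivial (Localization.Away y) := ⟨⟨0, 1, fun h => by
      have := @hinjT 0 1 (by rw [map_zero, map_one]; exact h); exact zero_ne_one this⟩⟩
    obtain ⟨n, hn⟩ := Ideal.exists_maximal (Localization.Away y)
    let := Ideal.Quotient.field n
    let φ : S →ₐ[k] Localization.Away y :=
      (IsScalarTower.toAlgHom k (S ⧸ P) (Localization.Away y)).comp (Ideal.Quotient.mkₐ k P)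
    let inv : Localization.Away y := IsLocalization.Away.invSelf y
    let s₂ : Set (Localization.Away y) := φ '' s ∪ {inv}
    have hs₂ : Algebra.adjoin k s₂ = ⊤ := by
      rw [eq_top_iff]
      intro z _
      obtain ⟨⟨a, ⟨_, N, rfl⟩⟩, rfl⟩ := IsLocalization.mk'_surjective (Submonoid.powers y) z
      obtain ⟨b, rfl⟩ := Ideal.Quotient.mk_surjective a
      have hb : φ b ∈ Algebra.adjoin k s₂ := by
        have : φ b ∈ Algebra.adjoin k (φ '' s) := by
          rw [Algebra.adjoin_image, hs]; exact ⟨b, trivial, rfl⟩
        exact Algebra.adjoin_mono Set.subset_union_left this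
      have hinv : inv ∈ Algebra.adjoin k s₂ := Algebra.subset_adjoin (Set.mem_union_right _ rfl)
      have : IsLocalization.mk' (Localization.Away y) (Ideal.Quotient.mk P b)
          (⟨y ^ N, N, rfl⟩ : Submonoid.powers y) = φ b * inv ^ N := by
        rw [IsLocalization.mk'_eq_mul_mk'_one]
        congr 1
        simp only [inv, IsLocalization.Away.invSelf]
        rw [← IsLocalization.mk'_pow]
        simp
      have key := mul_mem hb (pow_mem hinv N)
      rw [← this] at key
      exact key
    have hcard₂ : Cardinal.mk ((Ideal.Quotient.mkₐ k n) '' s₂) < Cardinal.mk k := by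
      refine (Cardinal.mk_image_le).trans_lt ?_
      refine (Cardinal.mk_union_le _ _).trans_lt ?_
      rw [Cardinal.mk_singleton]
      have h1 : Cardinal.mk (φ '' s) ≤ Cardinal.mk s := Cardinal.mk_image_le
      have h2 : Cardinal.mk (φ '' s) + 1 ≤ Cardinal.mk s := by
        calc Cardinal.mk (φ '' s) + 1 ≤ Cardinal.mk s + 1 := add_le_add h1 le_rfl
          _ = Cardinal.mk s := Cardinal.add_one_of_aleph0_le (Cardinal.aleph0_le_mk s)
      exact h2.trans_lt hcard
    have hadj₂ : Algebra.adjoin k ((Ideal.Quotient.mkₐ k n) '' s₂) = ⊤ := by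
      rw [Algebra.adjoin_image, hs₂, Algebra.map_top, AlgHom.range_eq_top]
      exact Ideal.Quotient.mkₐ_surjective k n
    have halg : Algebra.IsAlgebraic k (Localization.Away y ⧸ n) := part1 _ hadj₂ hcard₂
    let ψ : S →ₐ[k] Localization.Away y ⧸ n := (Ideal.Quotient.mkₐ k n).comp φ
    let m : Ideal S := RingHom.ker ψ
    have hPm : P ≤ m := by
      intro p hp
      show ψ p = 0
      have : Ideal.Quotient.mk P p = 0 := Ideal.Quotient.eq_zero_iff_mem.mpr hp
      simp [ψ, φ, this]
    have hxm : x ∉ m := by
      intro hxm'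
      have hu : IsUnit (φ x) := IsLocalization.Away.algebraMap_isUnit y
      have hu' := hu.map (Ideal.Quotient.mkₐ k n)
      exact hu'.ne_zero hxm'
    have hinvm : ∀ z : S, z ∉ m → ∃ w : S, z * w - 1 ∈ m := by
      intro z hz
      have hz0 : ψ z ≠ 0 := hz
      have hmem := Subalgebra.inv_mem_of_algebraic (A := ψ.range) (x := ⟨ψ z, z, rfl⟩)
        (Algebra.IsAlgebraic.isAlgebraic _)
      obtain ⟨w, hw⟩ := hmem
      refine ⟨w, ?_⟩
      show ψ (z * w - 1) = 0
      rw [map_sub, map_mul, map_one]
      have hw' : ψ w = (ψ z)⁻¹ := hw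
      rw [hw', mul_inv_cancel₀ hz0, sub_self]
    have hmax : m.IsMaximal := by
      rw [Ideal.isMaximal_iff]
      refine ⟨fun h1 => ?_, fun J z hmJ hz hzJ => ?_⟩
      · have : ψ 1 = 0 := h1
        rw [map_one] at this
        exact one_ne_zero this
      · obtain ⟨w, hw⟩ := hinvm z hz
        have : (1 : S) = z * w - (z * w - 1) := by ring
        rw [this]
        exact sub_mem (J.mul_mem_right w hzJ) (hmJ hw)
    have := (Ideal.mem_sInf.mp hx) ⟨hPm, hmax⟩
    exact hxm this

end Groth.Agent.S2059
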