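import Groth.Statements.S2120
import Mathlib.AlgebraicGeometry.Morphisms.Separated
import Mathlib.AlgebraicGeometry.Morphisms.Immersion
import Mathlib.AlgebraicGeometry.Morphisms.UniversallyClosed
import Mathlib.AlgebraicGeometry.Morphisms.IsIso
-- import your own Groth.Agent.* helpers here

set_option autoImplicit false
universe u
open CategoryTheory AlgebraicGeometry
open Mor
open CategoryTheory.Limits

namespace Groth.Agent.S2120

/-- Let `f : X → Y` be surjective and universally closed. If `X` is quasi-separated then so is `Y`; if
`X` is separated then so is `Y`. -/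
theorem result {X Y : Scheme.{u}} (f : X ⟶ Y) [Surjective f] [UniversallyClosed f] :
    (QuasiSeparatedSpace X → QuasiSeparatedSpace Y) ∧ (X.IsSeparated → Y.IsSeparated) := by
  refine ⟨fun hX => ?_, fun hX => ?_⟩
  · rw [quasiSeparatedSpace_iff]
    intro U V hUo hUc hVo hVc
    have hU' : IsCompact (f ⁻¹' U) := QuasiCompact.isCompact_preimage (f := f) U hUo hUc
    have hV' : IsCompact (f ⁻¹' V) := QuasiCompact.isCompact_preimage (f := f) V hVo hVc
    have hI : IsCompact (f ⁻¹' U ∩ f ⁻¹' V) :=
      QuasiSeparatedSpace.inter_isCompact _ _ (hUo.preimage f.continuous) hU'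
        (hVo.preimage f.continuous) hV'
    have := hI.image f.continuous
    rwa [← Set.preimage_inter, Set.image_preimage_eq _ f.surjective] at this
  · let tX := terminal.from X
    let tY := terminal.from Y
    have e : tX = f ≫ tY := (terminal.comp_from f).symm
    let F := pullback.map tX tX tY tY f f (𝟙 _) ((Category.comp_id _).trans e)
      ((Category.comp_id _).trans e)
    have hF : UniversallyClosed F :=
      MorphismProperty.pullbackMap (P := @UniversallyClosed) ‹_› ‹_› e e
    have hcomm : pullback.diagonal tX ≫ F = f ≫ pullback.diagonal tY := by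
      have hFfst : F ≫ pullback.fst tY tY = pullback.fst tX tX ≫ f := pullback.lift_fst _ _ _
      have hFsnd : F ≫ pullback.snd tY tY = pullback.snd tX tX ≫ f := pullback.lift_snd _ _ _
      apply pullback.hom_ext
      · rw [Category.assoc, hFfst, ← Category.assoc, pullback.diagonal_fst, Category.id_comp,
          Category.assoc, pullback.diagonal_fst, Category.comp_id]
      · rw [Category.assoc, hFsnd, ← Category.assoc, pullback.diagonal_snd, Category.id_comp,
          Category.assoc, pullback.diagonal_snd, Category.comp_id]
    have hrange : Set.range (pullback.diagonal tY) = F '' Set.range (pullback.diagonal tX) := by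
      ext z
      constructor
      · rintro ⟨y, rfl⟩
        obtain ⟨x, rfl⟩ := f.surjective y
        refine ⟨pullback.diagonal tX x, ⟨x, rfl⟩, ?_⟩
        rw [← Scheme.Hom.comp_apply, hcomm, Scheme.Hom.comp_apply]
      · rintro ⟨_, ⟨x, rfl⟩, rfl⟩
        refine ⟨f x, ?_⟩
        rw [← Scheme.Hom.comp_apply, ← hcomm, Scheme.Hom.comp_apply]
    have hXc : IsClosed (Set.range (pullback.diagonal tX)) :=
      (pullback.diagonal tX).isClosedEmbedding.isClosed_range
    have hYc : IsClosed (Set.range (pullback.diagonal tY)) := by
      rw [hrange]; exact F.isClosedMap _ hXc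
    have hiso : IsIso (pullback.diagonal tY).coborderRange.ι := by
      rw [isIso_iff_isOpenImmersion_and_surjective]
      refine ⟨inferInstance, ⟨?_⟩⟩
      intro z
      have hz : z ∈ ((pullback.diagonal tY).coborderRange : Set _) := by
        show z ∈ coborder (Set.range (pullback.diagonal tY))
        rw [hYc.coborder_eq]; trivial
      exact ⟨⟨z, hz⟩, rfl⟩
    have hci : IsClosedImmersion (pullback.diagonal tY) := by
      rw [← Scheme.Hom.liftCoborder_ι (pullback.diagonal tY)]
      infer_instance
    exact ⟨⟨hci⟩⟩

end Groth.Agent.S2120
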