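import Groth.Statements.S2159
-- import your own Groth.Agent.* helpers here

set_option autoImplicit false
universe u
open CAlg

namespace Groth.Agent.S2159

/-- A surjection with a linear section splits: `Q ≃ ker π × P`. -/
noncomputable def splitEquivOfSection {R Q P : Type u} [CommRing R] [AddCommGroup Q] [Module R Q]
    [AddCommGroup P] [Module R P] (π : Q →ₗ[R] P) (s : P →ₗ[R] Q) (hs : π ∘ₗ s = LinearMap.id) :
    Q ≃ₗ[R] (LinearMap.ker π × P) where
  toFun x := (⟨x - s (π x), by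
      have := LinearMap.congr_fun hs (π x)
      simp only [LinearMap.comp_apply, LinearMap.id_apply] at this
      simp [LinearMap.mem_ker, this]⟩, π x)
  invFun y := (y.1 : Q) + s y.2
  map_add' x y := by
    ext <;> simp <;> abel
  map_smul' c x := by
    ext <;> simp [smul_sub]
  left_inv x := by simp
  right_inv y := by
    have h1 := LinearMap.congr_fun hs y.2
    simp only [LinearMap.comp_apply, LinearMap.id_apply] at h1
    have h2 : π (y.1 : Q) = 0 := y.1.2
    ext
    · simp [h1, h2]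
    · simp [h1, h2]

/-- Given surjections `p₁ : P₁ → M` and `p₂ : P₂ → M` from projective modules, with kernels `K` and `L`,
there is an isomorphism `K ⊕ P₂ ≅ L ⊕ P₁`. -/
theorem result {R M P₁ P₂ : Type u} [CommRing R] [AddCommGroup M] [Module R M] [AddCommGroup P₁] [Module R P₁]
    [Module.Projective R P₁] [AddCommGroup P₂] [Module R P₂] [Module.Projective R P₂] (p₁ : P₁ →ₗ[R] M) (p₂ : P₂ →ₗ[R] M)
    (h₁ : Function.Surjective p₁) (h₂ : Function.Surjective p₂) :
    Nonempty ((LinearMap.ker p₁ × P₂) ≃ₗ[R] (LinearMap.ker p₂ × P₁)) := by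
  let Q : Submodule R (P₁ × P₂) :=
    LinearMap.ker (p₁ ∘ₗ LinearMap.fst R P₁ P₂ - p₂ ∘ₗ LinearMap.snd R P₁ P₂)
  have hQ : ∀ x : P₁ × P₂, x ∈ Q ↔ p₁ x.1 = p₂ x.2 := by
    intro x
    simp [Q, sub_eq_zero]
  let π₁ : Q →ₗ[R] P₁ := LinearMap.fst R P₁ P₂ ∘ₗ Q.subtype
  let π₂ : Q →ₗ[R] P₂ := LinearMap.snd R P₁ P₂ ∘ₗ Q.subtype
  have hπ₁ : Function.Surjective π₁ := by
    intro x
    obtain ⟨y, hy⟩ := h₂ (p₁ x)
    exact ⟨⟨(x, y), (hQ _).mpr hy.symm⟩, rfl⟩
  have hπ₂ : Function.Surjective π₂ := by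
    intro y
    obtain ⟨x, hx⟩ := h₁ (p₂ y)
    exact ⟨⟨(x, y), (hQ _).mpr hx⟩, rfl⟩
  obtain ⟨s₁, hs₁⟩ := Module.projective_lifting_property π₁ LinearMap.id hπ₁
  obtain ⟨s₂, hs₂⟩ := Module.projective_lifting_property π₂ LinearMap.id hπ₂
  -- ker π₂ ≃ ker p₁
  let e₂ : LinearMap.ker π₂ ≃ₗ[R] LinearMap.ker p₁ :=
    { toFun := fun z => ⟨(z.1 : P₁ × P₂).1, by
        have hz : (z.1 : P₁ × P₂).2 = 0 := z.2
        have hq := (hQ _).mp z.1.2
        rw [hz, map_zero] at hq
        exact hq⟩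
      invFun := fun x => ⟨⟨((x : P₁), 0), (hQ _).mpr (by simpa using x.2)⟩, rfl⟩
      map_add' := by intro a b; rfl
      map_smul' := by intro c a; rfl
      left_inv := by
        intro z
        have hz : (z.1 : P₁ × P₂).2 = 0 := z.2
        ext
        · rfl
        · exact hz.symm
      right_inv := by intro x; rfl }
  let e₁ : LinearMap.ker π₁ ≃ₗ[R] LinearMap.ker p₂ :=
    { toFun := fun z => ⟨(z.1 : P₁ × P₂).2, by
        have hz : (z.1 : P₁ × P₂).1 = 0 := z.2
        have hq := (hQ _).mp z.1.2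
        rw [hz, map_zero] at hq
        exact hq.symm⟩
      invFun := fun x => ⟨⟨(0, (x : P₂)), (hQ _).mpr (by simpa using x.2.symm)⟩, rfl⟩
      map_add' := by intro a b; rfl
      map_smul' := by intro c a; rfl
      left_inv := by
        intro z
        have hz : (z.1 : P₁ × P₂).1 = 0 := z.2
        ext
        · exact hz.symm
        · rfl
      right_inv := by intro x; rfl }
  refine ⟨?_⟩
  exact ((LinearEquiv.prodCongr e₂.symm (LinearEquiv.refl R P₂)).trans
    (splitEquivOfSection π₂ s₂ hs₂).symm).trans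
    ((splitEquivOfSection π₁ s₁ hs₁).trans (LinearEquiv.prodCongr e₁ (LinearEquiv.refl R P₁)))

end Groth.Agent.S2159
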