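import Groth.Statements.S2160
import Mathlib.RingTheory.Ideal.KrullsHeightTheorem
import Mathlib.RingTheory.Ideal.MinimalPrime.Noetherian
-- import your own Groth.Agent.* helpers here

set_option autoImplicit false
universe u
open CAlg

namespace Groth.Agent.S2160

/-- Let `R` be a Noetherian local domain of Krull dimension at least `2`. Then every nonempty open
subset of `Spec R` is infinite. -/
theorem result {R : Type u} [CommRing R] [IsDomain R] [IsLocalRing R] [IsNoetherianRing R]
    (hdim : 2 ≤ ringKrullDim R) (U : Set (PrimeSpectrum R)) (hU : IsOpen U) (hne : U.Nonempty) : U.Infinite := by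
  classical
  have hm2 : (2 : ℕ∞) ≤ (IsLocalRing.maximalIdeal R).height := by
    have := IsLocalRing.maximalIdeal_height_eq_ringKrullDim (R := R)
    rw [← this] at hdim
    have h2 : ((2 : ℕ∞) : WithBot ℕ∞) ≤ ((IsLocalRing.maximalIdeal R).height : WithBot ℕ∞) := hdim
    exact WithBot.coe_le_coe.1 h2
  let H : Set (Ideal R) := {p | p.IsPrime ∧ p.height = 1}
  have hone : ∀ P : Ideal R, P.IsPrime → P ≠ ⊥ → 1 ≤ P.height := by
    intro P hP hPne
    by_contra hlt
    have : P.height = 0 := Order.lt_one_iff.1 (lt_of_not_ge hlt)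
    exact hPne (Ideal.height_eq_zero_iff_eq_bot.1 this)
  have hmin : ∀ x : R, x ≠ 0 → ∀ p ∈ H, x ∈ p → p ∈ (Ideal.span {x}).minimalPrimes := by
    intro x hx p hpH hxp
    obtain ⟨hp, hp1⟩ := hpH
    obtain ⟨P, hP, hPp⟩ := Ideal.exists_minimalPrimes_le (J := p)
      ((Ideal.span_singleton_le_iff_mem _).2 hxp)
    have hPprime : P.IsPrime := hP.1.1
    have hPne : P ≠ ⊥ := fun h0 => hx (by
      have : x ∈ P := hP.1.2 (Ideal.mem_span_singleton_self x)
      rw [h0, Ideal.mem_bot] at this; exact this)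
    have : P = p := Ideal.eq_of_le_of_height_le _ hPp (hp1 ▸ hone P hPprime hPne)
    rw [← this]; exact hP
  have hHinf : H.Infinite := by
    intro hfin
    let S : Finset (Ideal R) := insert ⊥ hfin.toFinset
    have hnot : ¬ ((IsLocalRing.maximalIdeal R : Set R) ⊆ ⋃ p ∈ (↑S : Set (Ideal R)), (p : Set R)) := by
      intro hsub
      obtain ⟨p, hpS, hmp⟩ := (Ideal.subset_union_prime (f := fun p : Ideal R => p) ⊥ ⊥
        (fun p hp _ _ => by
          rcases Finset.mem_insert.1 hp with h | h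
          · rw [h]; exact Ideal.isPrime_bot
          · exact ((Set.Finite.mem_toFinset hfin).1 h).1)).1 hsub
      rcases Finset.mem_insert.1 hpS with h | h
      · rw [h] at hmp
        have : IsLocalRing.maximalIdeal R = ⊥ := le_bot_iff.1 hmp
        rw [this, Ideal.height_bot] at hm2
        exact absurd hm2 (by decide)
      · obtain ⟨hp, hp1⟩ := (Set.Finite.mem_toFinset hfin).1 h
        have : p = IsLocalRing.maximalIdeal R :=
          le_antisymm (IsLocalRing.le_maximalIdeal hp.ne_top) hmp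
        rw [← this, hp1] at hm2
        exact absurd hm2 (by decide)
    obtain ⟨x, hxm, hxS⟩ := Set.not_subset.1 hnot
    simp only [Set.mem_iUnion, not_exists] at hxS
    have hx0 : x ≠ 0 := fun h0 => hxS ⊥ (by simp [S]) (by rw [h0]; exact Ideal.zero_mem _)
    obtain ⟨P, hP, -⟩ := Ideal.exists_minimalPrimes_le (J := IsLocalRing.maximalIdeal R)
      ((Ideal.span_singleton_le_iff_mem _).2 hxm)
    have hPprime : P.IsPrime := hP.1.1
    have hxP : x ∈ P := hP.1.2 (Ideal.mem_span_singleton_self x)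
    have hPne : P ≠ ⊥ := fun h0 => hx0 (by rw [h0, Ideal.mem_bot] at hxP; exact hxP)
    have hPle : P.height ≤ 1 := Ideal.height_le_one_of_isPrincipal_of_mem_minimalPrimes _ P hP
    have hPH : P ∈ H := ⟨hPprime, le_antisymm hPle (hone P hPprime hPne)⟩
    exact hxS P (by simp [S]; exact Or.inr hPH) hxP
  obtain ⟨s, hs⟩ := (PrimeSpectrum.isOpen_iff U).1 hU
  obtain ⟨q, hq⟩ := hne
  have hx : ∃ x ∈ s, x ≠ 0 := by
    by_contra hcon
    have hall : ∀ x ∈ s, x = 0 := fun x hx => by
      by_contra h; exact hcon ⟨x, hx, h⟩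
    have : q ∈ Uᶜ := by
      rw [hs, PrimeSpectrum.mem_zeroLocus]
      intro x hx
      rw [hall x hx]
      exact Ideal.zero_mem _
    exact this hq
  obtain ⟨x, hxs, hx0⟩ := hx
  have hF := Ideal.finite_minimalPrimes_of_isNoetherianRing R (Ideal.span {x})
  apply Set.Infinite.of_image PrimeSpectrum.asIdeal
  apply ((hHinf.sdiff hF)).mono
  rintro p ⟨hpH, hpF⟩
  refine ⟨⟨p, hpH.1⟩, ?_, rfl⟩
  by_contra hpU
  have : (⟨p, hpH.1⟩ : PrimeSpectrum R) ∈ Uᶜ := hpU
  rw [hs, PrimeSpectrum.mem_zeroLocus] at this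
  exact hpF (hmin x hx0 p hpH (this hxs))


end Groth.Agent.S2160
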