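import Groth.Statements.S2173
-- import your own Groth.Agent.* helpers here

set_option autoImplicit false
open Finset
open Models Models.NumericalType

namespace Groth.Agent.S2173

/-- For a numerical type the sum over i of m i * a i i is even; equivalently the rational number 1 + sum
m_i (w_i (g_i - 1) - a_ii / 2) defining the genus is an integer. -/
theorem result {n : ℕ} (T : Models.NumericalType n) : (2 : ℤ) ∣ ∑ i, T.m i * T.a i i := by
  classical
  have hrow : ∀ i, ∑ j, T.a i j * T.m j = 0 := by
    intro i
    have := congrFun T.mulVec_m i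
    simpa [Matrix.mulVec, dotProduct] using this
  have hsymm : ∀ i j, T.a j i = T.a i j := fun i j => T.symm.apply i j
  have h2 : ∀ x : ZMod 2, x + x = 0 := by decide
  have hsq : ∀ x : ZMod 2, x * x = x := by decide
  let g : Fin n × Fin n → ZMod 2 := fun p => ((T.m p.1 * T.a p.1 p.2 * T.m p.2 : ℤ) : ZMod 2)
  have htot : ∑ p ∈ (Finset.univ : Finset (Fin n)) ×ˢ Finset.univ, g p = 0 := by
    rw [Finset.sum_product]
    have : ∀ i, ∑ j, g (i, j) = ((T.m i * ∑ j, T.a i j * T.m j : ℤ) : ZMod 2) := by
      intro i
      rw [Finset.mul_sum]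
      push_cast
      refine Finset.sum_congr rfl fun j _ => ?_
      simp only [g]
      push_cast
      ring
    simp [this, hrow]
  have hoff : ∑ p ∈ (Finset.univ : Finset (Fin n)).offDiag, g p = 0 := by
    refine Finset.sum_involution (fun p _ => p.swap) ?_ ?_ ?_ ?_
    · intro p _
      have : g p.swap = g p := by
        simp only [g, Prod.fst_swap, Prod.snd_swap]
        rw [hsymm]
        push_cast
        ring
      rw [this]
      exact h2 _
    · intro p hp _ h
      have hne := (Finset.mem_offDiag.mp hp).2.2
      apply hne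
      have := congrArg Prod.fst h
      simpa using this.symm
    · intro p hp
      have hne := (Finset.mem_offDiag.mp hp).2.2
      simpa [Finset.mem_offDiag, eq_comm] using hne
    · intro p _
      simp
  have hdiag : ∑ p ∈ (Finset.univ : Finset (Fin n)).diag, g p =
      ∑ i, ((T.m i * T.a i i : ℤ) : ZMod 2) := by
    rw [Finset.diag, Finset.sum_map]
    refine Finset.sum_congr rfl fun i _ => ?_
    simp only [g, Function.Embedding.coeFn_mk, Function.diag]
    push_cast
    calc ((T.m i : ZMod 2) * (T.a i i : ZMod 2) * (T.m i : ZMod 2))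
        = ((T.m i : ZMod 2) * (T.m i : ZMod 2)) * (T.a i i : ZMod 2) := by ring
      _ = (T.m i : ZMod 2) * (T.a i i : ZMod 2) := by rw [hsq]
  have hsplit := Finset.sum_union (Finset.disjoint_diag_offDiag (s := (Finset.univ : Finset (Fin n))))
    (f := g)
  rw [Finset.diag_union_offDiag, htot, hoff, add_zero, hdiag] at hsplit
  have : ((∑ i, T.m i * T.a i i : ℤ) : ZMod 2) = 0 := by
    rw [Int.cast_sum]
    exact hsplit.symm
  exact_mod_cast (ZMod.intCast_zmod_eq_zero_iff_dvd _ 2).mp this

end Groth.Agent.S2173
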