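import Groth.Statements.S2174
-- import your own Groth.Agent.* helpers here

set_option autoImplicit false
open Finset
open Models Models.NumericalType

namespace Groth.Agent.S2174

/-- If a numerical type has n > 1 indices then every diagonal entry a i i of its matrix is negative. -/
theorem result {n : ℕ} (T : Models.NumericalType n) (hn : 1 < n) (i : Fin n) : T.a i i < 0 := by
  classical
  have hrow : ∑ j, T.a i j * T.m j = 0 := by
    have := congrFun T.mulVec_m i
    simpa [Matrix.mulVec, dotProduct] using this
  rw [← Finset.add_sum_erase _ _ (Finset.mem_univ i)] at hrow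
  have hne : ({i} : Finset (Fin n)) ≠ Finset.univ := by
    intro h
    have := congrArg Finset.card h
    simp at this
    omega
  obtain ⟨i', hi', j, hj, hij⟩ := T.connected {i} (Finset.singleton_nonempty i) hne
  rw [Finset.mem_singleton] at hi'
  subst hi'
  rw [Finset.mem_singleton] at hj
  have hpos : 0 < T.a i' j := lt_of_le_of_ne (T.offDiag_nonneg i' j (Ne.symm hj)) (Ne.symm hij)
  have hsum : 0 < ∑ k ∈ Finset.univ.erase i', T.a i' k * T.m k := by
    have hterm : 0 < T.a i' j * T.m j := mul_pos hpos (T.m_pos j)
    refine lt_of_lt_of_le hterm ?_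
    refine Finset.single_le_sum (f := fun k => T.a i' k * T.m k) (fun k hk => ?_)
      (Finset.mem_erase.mpr ⟨hj, Finset.mem_univ j⟩)
    exact mul_nonneg (T.offDiag_nonneg i' k (Finset.ne_of_mem_erase hk).symm) (T.m_pos k).le
  have hmi := T.m_pos i'
  nlinarith

end Groth.Agent.S2174
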