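import Groth.Statements.S2176

set_option autoImplicit false
open Finset
open Models Models.NumericalType

namespace Groth.Agent.S2176

theorem diag_neg {n : ℕ} (T : Models.NumericalType n) (hn : 1 < n) (i : Fin n) : T.a i i < 0 := by
  classical
  have hne : ({i} : Finset (Fin n)).Nonempty := ⟨i, Finset.mem_singleton_self i⟩
  have hnu : ({i} : Finset (Fin n)) ≠ Finset.univ := by
    intro h
    have hc := congrArg Finset.card h
    rw [Finset.card_singleton, Finset.card_univ, Fintype.card_fin] at hc
    omega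
  obtain ⟨i', hi', j, hj, hij⟩ := T.connected {i} hne hnu
  rw [Finset.mem_singleton] at hi'
  subst hi'
  rw [Finset.mem_singleton] at hj
  have hpos : 0 < T.a i' j := lt_of_le_of_ne (T.offDiag_nonneg i' j (Ne.symm hj)) (Ne.symm hij)
  have hm := congrFun T.mulVec_m i'
  simp only [Matrix.mulVec, dotProduct, Pi.zero_apply] at hm
  rw [← Finset.add_sum_erase _ _ (Finset.mem_univ i')] at hm
  have hrest : T.a i' j * T.m j ≤ ∑ x ∈ Finset.univ.erase i', T.a i' x * T.m x := by
    apply Finset.single_le_sum (f := fun x => T.a i' x * T.m x)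
    · intro x hx
      rw [Finset.mem_erase] at hx
      exact mul_nonneg (T.offDiag_nonneg i' x (Ne.symm hx.1)) (le_of_lt (T.m_pos x))
    · rw [Finset.mem_erase]
      exact ⟨fun h => hj (h.symm ▸ rfl), Finset.mem_univ j⟩
  have hmj := T.m_pos j
  have hmi := T.m_pos i'
  have h1 : 0 < T.a i' j * T.m j := mul_pos hpos hmj
  by_contra hcon
  push Not at hcon
  have : 0 ≤ T.a i' i' * T.m i' := mul_nonneg hcon (le_of_lt hmi)
  linarith

theorem term_nonneg {n : ℕ} (T : Models.NumericalType n) (hmin : T.IsMinimal) (hn : 1 < n)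
    (i : Fin n) : 0 ≤ 2 * (T.w i * (T.g i - 1)) - T.a i i := by
  have hneg := diag_neg T hn i
  obtain ⟨k, hk⟩ := T.w_dvd i i
  have hw := T.w_pos i
  have hg := T.g_nonneg i
  have hk1 : k < 0 := by
    by_contra h
    push Not at h
    have : 0 ≤ T.w i * k := mul_nonneg (le_of_lt hw) h
    rw [← hk] at this
    linarith
  have hnot := hmin i
  unfold Models.NumericalType.IsMinusOne at hnot
  rcases eq_or_lt_of_le hg with h0 | hpos
  · -- g i = 0
    have hk2 : k ≠ -1 := by
      intro hkm
      apply hnot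
      refine ⟨h0.symm, ?_⟩
      rw [hk, hkm]
      ring
    have hk3 : k ≤ -2 := by omega
    rw [← h0, hk]
    nlinarith
  · have : 0 ≤ T.w i * (T.g i - 1) := mul_nonneg (le_of_lt hw) (by linarith)
    linarith

/-- A minimal numerical type (no (-1)-index) with n > 1 indices has genus at least 1. -/
theorem result {n : ℕ} (T : Models.NumericalType n) (hmin : T.IsMinimal) (hn : 1 < n) : 1 ≤ T.genus := by
  unfold Models.NumericalType.genus
  have hsum : 0 ≤ ∑ i, T.m i * (2 * (T.w i * (T.g i - 1)) - T.a i i) :=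
    Finset.sum_nonneg fun i _ => mul_nonneg (le_of_lt (T.m_pos i)) (term_nonneg T hmin hn i)
  have e : ∑ i, T.m i * (2 * (T.w i * (T.g i - 1)) - T.a i i) =
      2 * (∑ i, T.m i * T.w i * (T.g i - 1)) - ∑ i, T.m i * T.a i i := by
    rw [Finset.mul_sum, ← Finset.sum_sub_distrib]
    apply Finset.sum_congr rfl
    intro i _
    ring
  rw [e] at hsum
  omega

end Groth.Agent.S2176
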