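import Groth.Statements.S2179
-- import your own Groth.Agent.* helpers here

set_option autoImplicit false
open Finset
open Models Models.NumericalType

namespace Groth.Agent.S2179

/-- For a numerical type T, the map Z^n -> Z^n multiplying the i-th coordinate by w i induces a
well-defined injective homomorphism from Pic(T), the cokernel of (a i j / w i), to the cokernel of
the matrix a. -/
theorem result {n : ℕ} (T : Models.NumericalType n) :
    ∃ f : T.Pic →+ T.CokerA, Function.Injective f ∧
      ∀ x : Fin n → ℤ, f (Submodule.Quotient.mk x) = Submodule.Quotient.mk (fun i => T.w i * x i) := by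
  classical
  let φ : (Fin n → ℤ) →ₗ[ℤ] (Fin n → ℤ) :=
    { toFun := fun x i => T.w i * x i
      map_add' := by intro x y; ext i; simp [mul_add]
      map_smul' := by intro c x; ext i; simp; ring }
  have hφ : ∀ x i, φ x i = T.w i * x i := fun x i => rfl
  have hkey : ∀ y : Fin n → ℤ, φ (T.picMatrix.mulVec y) = T.a.mulVec y := by
    intro y; ext i
    rw [hφ]
    simp only [Matrix.mulVec, dotProduct, Models.NumericalType.picMatrix]
    rw [Finset.mul_sum]
    refine Finset.sum_congr rfl fun j _ => ?_
    rw [← mul_assoc, Int.mul_ediv_cancel' (T.w_dvd i j)]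
  have hle : LinearMap.range (Matrix.mulVecLin T.picMatrix) ≤
      (LinearMap.range (Matrix.mulVecLin T.a)).comap φ := by
    rintro _ ⟨y, rfl⟩
    exact ⟨y, by simp [Matrix.mulVecLin_apply, hkey]⟩
  let F := Submodule.mapQ _ _ φ hle
  have hinj : Function.Injective F := by
    rw [← LinearMap.ker_eq_bot, LinearMap.ker_eq_bot']
    intro z hz
    obtain ⟨x, rfl⟩ := Submodule.Quotient.mk_surjective _ z
    rw [Submodule.mapQ_apply, Submodule.Quotient.mk_eq_zero] at hz
    obtain ⟨y, hy⟩ := hz
    rw [Submodule.Quotient.mk_eq_zero]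
    refine ⟨y, ?_⟩
    ext i
    have h1 := congrFun hy i
    rw [Matrix.mulVecLin_apply, ← hkey, hφ, hφ] at h1
    rw [Matrix.mulVecLin_apply]
    exact mul_left_cancel₀ (T.w_pos i).ne' h1
  refine ⟨F.toAddMonoidHom, hinj, ?_⟩
  intro x
  rfl

end Groth.Agent.S2179
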