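import Groth.Statements.S2182
-- import your own Groth.Agent.* helpers here

set_option autoImplicit false
open Finset
open Models Models.NumericalType

namespace Groth.Agent.S2182

/-- In a numerical type, whenever a i j > 0 one has m i * a i j at most m j * |a j j| and m i * w i at
most m j * |a j j|. -/
theorem result {n : ℕ} (T : Models.NumericalType n) (i j : Fin n) (hij : 0 < T.a i j) :
    T.m i * T.a i j ≤ T.m j * |T.a j j| ∧ T.m i * T.w i ≤ T.m j * |T.a j j| := by
  classical
  have hrow : ∀ k, T.a k k * T.m k + ∑ l ∈ Finset.univ.erase k, T.a k l * T.m l = 0 := by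
    intro k
    have := congrFun T.mulVec_m k
    have h2 : ∑ l, T.a k l * T.m l = 0 := by simpa [Matrix.mulVec, dotProduct] using this
    rwa [← Finset.add_sum_erase _ _ (Finset.mem_univ k)] at h2
  have hnn : ∀ k, 0 ≤ ∑ l ∈ Finset.univ.erase k, T.a k l * T.m l := by
    intro k
    exact Finset.sum_nonneg fun l hl =>
      mul_nonneg (T.offDiag_nonneg k l (Finset.ne_of_mem_erase hl).symm) (T.m_pos l).le
  have hne : i ≠ j := by
    rintro rfl
    have := hrow i
    have := hnn i
    have := T.m_pos i
    nlinarith
  have hji : T.a j i = T.a i j := T.symm.apply i j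
  have hle : T.a j i * T.m i ≤ ∑ l ∈ Finset.univ.erase j, T.a j l * T.m l := by
    refine Finset.single_le_sum (f := fun l => T.a j l * T.m l) (fun l hl => ?_)
      (Finset.mem_erase.mpr ⟨hne, Finset.mem_univ i⟩)
    exact mul_nonneg (T.offDiag_nonneg j l (Finset.ne_of_mem_erase hl).symm) (T.m_pos l).le
  have hjj : T.a j j ≤ 0 := by
    have := hrow j
    have := hnn j
    have := T.m_pos j
    nlinarith
  have habs : |T.a j j| = -T.a j j := abs_of_nonpos hjj
  have h1 : T.m i * T.a i j ≤ T.m j * |T.a j j| := by
    rw [habs]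
    have := hrow j
    rw [hji] at hle
    nlinarith
  refine ⟨h1, ?_⟩
  have hw : T.w i ≤ T.a i j := Int.le_of_dvd hij (T.w_dvd i j)
  have := T.m_pos i
  nlinarith

end Groth.Agent.S2182
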