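import Groth.Statements.S2190
-- import your own Groth.Agent.* helpers here

set_option autoImplicit false
open Finset
open Models Models.NumericalType

namespace Groth.Agent.S2190

theorem diag_neg {n : ℕ} (T : Models.NumericalType n) (hn : 1 < n) (i : Fin n) : T.a i i < 0 := by
  classical
  have hne : ({i} : Finset (Fin n)).Nonempty := ⟨i, Finset.mem_singleton_self i⟩
  have hnu : ({i} : Finset (Fin n)) ≠ Finset.univ := by
    intro h
    have hc := congrArg Finset.card h
    rw [Finset.card_singleton, Finset.card_univ, Fintype.card_fin] at hc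
    omega
  obtain ⟨i', hi', j, hj, hij⟩ := T.connected {i} hne hnu
  rw [Finset.mem_singleton] at hi'
  subst hi'
  rw [Finset.mem_singleton] at hj
  have hpos : 0 < T.a i' j := lt_of_le_of_ne (T.offDiag_nonneg i' j (Ne.symm hj)) (Ne.symm hij)
  have hm := congrFun T.mulVec_m i'
  simp only [Matrix.mulVec, dotProduct, Pi.zero_apply] at hm
  rw [← Finset.add_sum_erase _ _ (Finset.mem_univ i')] at hm
  have hrest : T.a i' j * T.m j ≤ ∑ x ∈ Finset.univ.erase i', T.a i' x * T.m x := by
    apply Finset.single_le_sum (f := fun x => T.a i' x * T.m x)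
    · intro x hx
      rw [Finset.mem_erase] at hx
      exact mul_nonneg (T.offDiag_nonneg i' x (Ne.symm hx.1)) (le_of_lt (T.m_pos x))
    · rw [Finset.mem_erase]
      exact ⟨fun h => hj (h.symm ▸ rfl), Finset.mem_univ j⟩
  have hmj := T.m_pos j
  have hmi := T.m_pos i'
  have h1 : 0 < T.a i' j * T.m j := mul_pos hpos hmj
  by_contra hcon
  push Not at hcon
  have : 0 ≤ T.a i' i' * T.m i' := mul_nonneg hcon (le_of_lt hmi)
  linarith

theorem term_nonneg {n : ℕ} (T : Models.NumericalType n) (hmin : T.IsMinimal) (hn : 1 < n)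
    (i : Fin n) : 0 ≤ 2 * (T.w i * (T.g i - 1)) - T.a i i := by
  have hneg := diag_neg T hn i
  obtain ⟨k, hk⟩ := T.w_dvd i i
  have hw := T.w_pos i
  have hg := T.g_nonneg i
  have hk1 : k < 0 := by
    by_contra h
    push Not at h
    have : 0 ≤ T.w i * k := mul_nonneg (le_of_lt hw) h
    rw [← hk] at this
    linarith
  have hnot := hmin i
  unfold Models.NumericalType.IsMinusOne at hnot
  rcases eq_or_lt_of_le hg with h0 | hpos
  · -- g i = 0
    have hk2 : k ≠ -1 := by
      intro hkm
      apply hnot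
      refine ⟨h0.symm, ?_⟩
      rw [hk, hkm]
      ring
    have hk3 : k ≤ -2 := by omega
    rw [← h0, hk]
    nlinarith
  · have : 0 ≤ T.w i * (T.g i - 1) := mul_nonneg (le_of_lt hw) (by linarith)
    linarith

theorem one_le_genus {n : ℕ} (T : Models.NumericalType n) (hmin : T.IsMinimal) (hn : 1 < n) : 1 ≤ T.genus := by
  unfold Models.NumericalType.genus
  have hsum : 0 ≤ ∑ i, T.m i * (2 * (T.w i * (T.g i - 1)) - T.a i i) :=
    Finset.sum_nonneg fun i _ => mul_nonneg (le_of_lt (T.m_pos i)) (term_nonneg T hmin hn i)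
  have e : ∑ i, T.m i * (2 * (T.w i * (T.g i - 1)) - T.a i i) =
      2 * (∑ i, T.m i * T.w i * (T.g i - 1)) - ∑ i, T.m i * T.a i i := by
    rw [Finset.mul_sum, ← Finset.sum_sub_distrib]
    apply Finset.sum_congr rfl
    intro i _
    ring
  rw [e] at hsum
  omega


/-- A minimal numerical type of genus zero has a single index, with m = 1, a = 0, w = 1 and g = 0. -/
theorem result {n : ℕ} (T : Models.NumericalType n) (hmin : T.IsMinimal) (hg : T.genus = 0) :
    n = 1 ∧ ∀ i, T.m i = 1 ∧ T.a i i = 0 ∧ T.w i = 1 ∧ T.g i = 0 := by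
  have hn1 : n = 1 := by
    by_contra h
    have hn : 1 < n := by
      have := T.pos
      omega
    have := one_le_genus T hmin hn
    omega
  subst hn1
  refine ⟨rfl, fun i => ?_⟩
  have hi : i = 0 := Subsingleton.elim _ _
  subst hi
  have hm := congrFun T.mulVec_m 0
  simp only [Matrix.mulVec, dotProduct, Fin.sum_univ_one, Pi.zero_apply] at hm
  have hm0 := T.m_pos 0
  have hw0 := T.w_pos 0
  have hg0 := T.g_nonneg 0
  have ha : T.a 0 0 = 0 := by
    rcases mul_eq_zero.1 hm with h | h
    · exact h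
    · exact absurd h (ne_of_gt hm0)
  unfold Models.NumericalType.genus at hg
  simp only [Fin.sum_univ_one, ha, mul_zero, Int.zero_ediv, sub_zero] at hg
  have hP : 1 ≤ T.m 0 * T.w 0 := by nlinarith
  have hg00 : T.g 0 = 0 := by
    by_contra hne
    have : 1 ≤ T.g 0 := by omega
    have : 0 ≤ T.m 0 * T.w 0 * (T.g 0 - 1) := mul_nonneg (by linarith) (by linarith)
    linarith
  rw [hg00] at hg
  have hP1 : T.m 0 * T.w 0 = 1 := by linarith
  have hm1 : T.m 0 = 1 := Int.eq_one_of_mul_eq_one_right (le_of_lt hm0) hP1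
  have hw1 : T.w 0 = 1 := Int.eq_one_of_mul_eq_one_left (le_of_lt hw0) hP1
  exact ⟨hm1, ha, hw1, hg00⟩

end Groth.Agent.S2190
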