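import Groth.Statements.S2797

set_option autoImplicit false
universe u v
open scoped BigOperators
open Diff16

namespace Groth.Agent.S2797

section
variable {A B : Type u} [CommRing A] [CommRing B] [Algebra A B]

theorem comm_apply {M N : Type v} [AddCommGroup M] [Module A M] [Module B M] [IsScalarTower A B M]
    [AddCommGroup N] [Module A N] [Module B N] [IsScalarTower A B N] (D : M →ₗ[A] N) (b : B) (m : M) :
    Diff16.commutator A B M N D b m = D (b • m) - b • D m := by
  simp [Diff16.commutator]

theorem zero_le {M N : Type v} [AddCommGroup M] [Module A M] [Module B M] [IsScalarTower A B M]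
    [AddCommGroup N] [Module A N] [Module B N] [IsScalarTower A B N] :
    ∀ n : ℕ, IsDiffOpLE A B M N n 0
  | 0 => by
    intro b m
    simp
  | n + 1 => by
    intro b
    have h : Diff16.commutator A B M N 0 b = 0 := by
      ext m
      simp [comm_apply]
    rw [h]
    exact zero_le n

theorem add_le {M N : Type v} [AddCommGroup M] [Module A M] [Module B M] [IsScalarTower A B M]
    [AddCommGroup N] [Module A N] [Module B N] [IsScalarTower A B N] :
    ∀ (n : ℕ) (D₁ D₂ : M →ₗ[A] N), IsDiffOpLE A B M N n D₁ → IsDiffOpLE A B M N n D₂ →
      IsDiffOpLE A B M N n (D₁ + D₂)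
  | 0 => by
    intro D₁ D₂ h₁ h₂ b m
    simp only [LinearMap.add_apply]
    rw [h₁ b m, h₂ b m, smul_add]
  | n + 1 => by
    intro D₁ D₂ h₁ h₂ b
    have h : Diff16.commutator A B M N (D₁ + D₂) b = Diff16.commutator A B M N D₁ b + Diff16.commutator A B M N D₂ b := by
      ext m
      simp only [comm_apply, LinearMap.add_apply, smul_add]
      abel
    rw [h]
    exact add_le n _ _ (h₁ b) (h₂ b)

theorem comm_of_zero {M N : Type v} [AddCommGroup M] [Module A M] [Module B M] [IsScalarTower A B M]
    [AddCommGroup N] [Module A N] [Module B N] [IsScalarTower A B N] (D : M →ₗ[A] N)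
    (h : IsDiffOpLE A B M N 0 D) (b : B) : Diff16.commutator A B M N D b = 0 := by
  ext m
  have := h b m
  simp [comm_apply, this]

theorem comp_comm {M N P : Type v} [AddCommGroup M] [Module A M] [Module B M] [IsScalarTower A B M]
    [AddCommGroup N] [Module A N] [Module B N] [IsScalarTower A B N]
    [AddCommGroup P] [Module A P] [Module B P] [IsScalarTower A B P]
    (D : M →ₗ[A] N) (D' : N →ₗ[A] P) (b : B) :
    Diff16.commutator A B M P (D' ∘ₗ D) b = D' ∘ₗ Diff16.commutator A B M N D b + Diff16.commutator A B N P D' b ∘ₗ D := by
  ext m
  simp only [comm_apply, LinearMap.comp_apply, LinearMap.add_apply, map_sub]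
  abel

theorem comp_le {M N P : Type v} [AddCommGroup M] [Module A M] [Module B M] [IsScalarTower A B M]
    [AddCommGroup N] [Module A N] [Module B N] [IsScalarTower A B N]
    [AddCommGroup P] [Module A P] [Module B P] [IsScalarTower A B P] :
    ∀ (s n n' : ℕ), n + n' = s → ∀ (D : M →ₗ[A] N) (D' : N →ₗ[A] P),
      IsDiffOpLE A B M N n D → IsDiffOpLE A B N P n' D' → IsDiffOpLE A B M P (n + n') (D' ∘ₗ D)
  | 0, n, n', hs, D, D', hD, hD' => by
    have hn : n = 0 := by omega
    have hn' : n' = 0 := by omega
    subst hn
    subst hn'
    intro b m
    simp only [LinearMap.comp_apply]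
    rw [hD b m, hD' b (D m)]
  | s + 1, n, n', hs, D, D', hD, hD' => by
    rw [hs]
    show ∀ b : B, IsDiffOpLE A B M P s (Diff16.commutator A B M P (D' ∘ₗ D) b)
    intro b
    rw [comp_comm]
    apply add_le
    · rcases n with _ | n
      · rw [comm_of_zero D hD b, LinearMap.comp_zero]
        exact zero_le _
      · have := comp_le s n n' (by omega) (Diff16.commutator A B M N D b) D' (hD b) hD'
        have e : n + n' = s := by omega
        rw [e] at this
        exact this
    · rcases n' with _ | n'
      · rw [comm_of_zero D' hD' b, LinearMap.zero_comp]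
        exact zero_le _
      · have := comp_le s n n' (by omega) D (Diff16.commutator A B N P D' b) hD (hD' b)
        have e : n + n' = s := by omega
        rw [e] at this
        exact this


theorem smul_le {M : Type v} [AddCommGroup M] [Module A M] [Module B M] [IsScalarTower A B M] (c : B) :
    IsDiffOpLE A B M M 0 ((LinearMap.lsmul B M c).restrictScalars A) := by
  intro b m
  simp only [LinearMap.restrictScalars_apply, LinearMap.lsmul_apply]
  exact smul_comm c b m

end

/-- Let B be an A-algebra generated by a subset s, let M, N be B-modules and D : M → N an A-linear map.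
If for every g in s the commutator m ↦ D(g·m) - g·D(m) is a differential operator of order at most n
relative to A, then D is a differential operator of order at most n + 1. -/
theorem result (A B : Type u) [CommRing A] [CommRing B] [Algebra A B]
    (M N : Type v) [AddCommGroup M] [Module A M] [Module B M] [IsScalarTower A B M]
    [AddCommGroup N] [Module A N] [Module B N] [IsScalarTower A B N]
    (s : Set B) (hs : Algebra.adjoin A s = ⊤) (n : ℕ) (D : M →ₗ[A] N)
    (hD : ∀ g ∈ s, Diff16.IsDiffOpLE A B M N n (Diff16.commutator A B M N D g)) :
    Diff16.IsDiffOpLE A B M N (n + 1) D := by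
  intro b
  have hb : b ∈ Algebra.adjoin A s := by rw [hs]; trivial
  induction hb using Algebra.adjoin_induction with
  | mem x hx => exact hD x hx
  | algebraMap r =>
    have h : Diff16.commutator A B M N D (algebraMap A B r) = 0 := by
      ext m
      simp [comm_apply, algebraMap_smul]
    rw [h]
    exact zero_le n
  | add x y _ _ hx hy =>
    have h : Diff16.commutator A B M N D (x + y) =
        Diff16.commutator A B M N D x + Diff16.commutator A B M N D y := by
      ext m
      simp only [comm_apply, LinearMap.add_apply, add_smul, map_add]
      abel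
    rw [h]
    exact add_le n _ _ hx hy
  | mul x y _ _ hx hy =>
    have h : Diff16.commutator A B M N D (x * y) =
        Diff16.commutator A B M N D x ∘ₗ ((LinearMap.lsmul B M y).restrictScalars A) +
        ((LinearMap.lsmul B N x).restrictScalars A) ∘ₗ Diff16.commutator A B M N D y := by
      ext m
      simp only [comm_apply, LinearMap.add_apply, LinearMap.comp_apply,
        LinearMap.restrictScalars_apply, LinearMap.lsmul_apply, mul_smul, smul_sub]
      abel
    rw [h]
    apply add_le
    · have := comp_le n 0 n (by omega) _ _ (smul_le (A := A) y) hx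
      rwa [Nat.zero_add] at this
    · exact comp_le n n 0 (by omega) _ _ hy (smul_le (A := A) x)

end Groth.Agent.S2797
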