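import Groth.Statements.S2913

set_option autoImplicit false
open CategoryTheory CategoryTheory.Limits AlgebraicGeometry Opposite
universe u
open SGA1

namespace Groth.Agent.S2913

/-- Let g : S' ⟶ S be a surjective morphism of schemes such that for every open U of S the map O_S(U) →
O_{S'}(g⁻¹U) is injective. Then g is an epimorphism in the category of schemes. -/
theorem result {S' S : Scheme.{u}} (g : S' ⟶ S) [Surjective g]
    (hinj : ∀ U : S.Opens, Function.Injective (g.app U).hom) : Epi g := by
  constructor
  intro T h1 h2 he
  have hbase : h1.base = h2.base := by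
    ext x
    obtain ⟨y, rfl⟩ := g.surjective x
    have := congrArg (fun f : S' ⟶ T => f.base y) he
    simpa using this
  refine Scheme.Hom.ext hbase (fun U => ?_)
  have hmono : ∀ {R : CommRingCat} (a b : R ⟶ S.presheaf.obj (op (h2 ⁻¹ᵁ U))),
      a ≫ g.app _ = b ≫ g.app _ → a = b := by
    intro R a b hab
    ext r
    apply hinj
    have := congrArg (fun φ => φ.hom r) hab
    simpa using this
  apply hmono
  rw [Category.assoc, Scheme.Hom.naturality, ← Category.assoc]
  change (g ≫ h1).app U ≫ _ = (g ≫ h2).app U
  rw [Scheme.Hom.congr_app he U]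
  erw [Category.assoc, ← Functor.map_comp]
  erw [Subsingleton.elim (_ ≫ _ : op _ ⟶ op _) (𝟙 _)]
  erw [CategoryTheory.Functor.map_id, Category.comp_id]

end Groth.Agent.S2913
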