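import Groth.Statements.S3349

set_option autoImplicit false
open Finset
open Models Models.NumericalType

namespace Groth.Agent.S3349

theorem result (T : Models.NumericalType 1) :
    T.a 0 0 = 0 ∧ T.genus = 1 + T.m 0 * T.w 0 * (T.g 0 - 1) ∧
      (T.genus < 0 → T.g 0 = 0) ∧ (T.genus = 0 → T.m 0 = 1 ∧ T.w 0 = 1 ∧ T.g 0 = 0) ∧
      (T.genus = 1 → T.g 0 = 1) ∧ (1 < T.genus → 1 < T.g 0) := by
  have hm := T.m_pos 0
  have hw := T.w_pos 0
  have hg := T.g_nonneg 0
  have hmv : (T.a.mulVec T.m) 0 = 0 := by rw [T.mulVec_m]; rfl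
  have ha : T.a 0 0 = 0 := by
    have h1 : (T.a.mulVec T.m) 0 = T.a 0 0 * T.m 0 := by
      simp [Matrix.mulVec, dotProduct]
    rw [h1] at hmv
    rcases mul_eq_zero.mp hmv with h | h
    · exact h
    · omega
  have hgen : T.genus = 1 + T.m 0 * T.w 0 * (T.g 0 - 1) := by
    unfold Models.NumericalType.genus
    simp [ha]
  refine ⟨ha, hgen, ?_, ?_, ?_, ?_⟩
  · intro h
    rw [hgen] at h
    by_contra hne
    have : 1 ≤ T.g 0 := by omega
    have : 0 ≤ T.m 0 * T.w 0 * (T.g 0 - 1) := by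
      apply mul_nonneg
      · positivity
      · omega
    omega
  · intro h
    rw [hgen] at h
    have hmw : 0 < T.m 0 * T.w 0 := mul_pos hm hw
    have hg0 : T.g 0 = 0 := by
      by_contra hne
      have : 1 ≤ T.g 0 := by omega
      have : 0 ≤ T.m 0 * T.w 0 * (T.g 0 - 1) := by
        apply mul_nonneg
        · positivity
        · omega
      omega
    rw [hg0] at h
    have hmw1 : T.m 0 * T.w 0 = 1 := by linarith
    have h1 : T.m 0 = 1 := by
      have h2 : T.m 0 ≤ 1 := by nlinarith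
      omega
    refine ⟨h1, ?_, hg0⟩
    rw [h1] at hmw1; linarith
  · intro h
    rw [hgen] at h
    have hmw : 0 < T.m 0 * T.w 0 := mul_pos hm hw
    have : T.m 0 * T.w 0 * (T.g 0 - 1) = 0 := by linarith
    rcases mul_eq_zero.mp this with h2 | h2
    · omega
    · omega
  · intro h
    rw [hgen] at h
    have hmw : 0 < T.m 0 * T.w 0 := mul_pos hm hw
    by_contra hne
    have : T.g 0 - 1 ≤ 0 := by omega
    have : T.m 0 * T.w 0 * (T.g 0 - 1) ≤ 0 := mul_nonpos_of_nonneg_of_nonpos hmw.le this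
    omega

end Groth.Agent.S3349
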