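import Groth.Statements.S3350

set_option autoImplicit false
open Finset
open Models Models.NumericalType

namespace Groth.Agent.S3350

theorem row_split {n : ℕ} (T : Models.NumericalType n) (i j : Fin n) (hij : i ≠ j) :
    T.a i i * T.m i + T.a i j * T.m j +
      ∑ l ∈ (univ.erase i).erase j, T.a i l * T.m l = 0 := by
  have h0 : (T.a.mulVec T.m) i = 0 := by rw [T.mulVec_m]; rfl
  have h1 : (T.a.mulVec T.m) i = ∑ l, T.a i l * T.m l := rfl
  rw [h1, ← Finset.add_sum_erase univ _ (mem_univ i),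
    ← Finset.add_sum_erase (univ.erase i) _ (mem_erase.mpr ⟨hij.symm, mem_univ j⟩)] at h0
  linarith

theorem rest_nonneg {n : ℕ} (T : Models.NumericalType n) (i j : Fin n) :
    0 ≤ ∑ l ∈ (univ.erase i).erase j, T.a i l * T.m l := by
  apply Finset.sum_nonneg
  intro l hl
  have hli : l ≠ i := (mem_erase.mp (mem_erase.mp hl).2).1
  exact mul_nonneg (T.offDiag_nonneg i l hli.symm) (T.m_pos l).le

theorem result {n : ℕ} (T : Models.NumericalType n) (hn : 2 < n) (i j : Fin n)
    (hij : i ≠ j) (hi : T.IsMinusTwo i) (hj : T.IsMinusTwo j) (hpos : 0 < T.a i j) :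
    ∃ i' j' : Fin n, ((i' = i ∧ j' = j) ∨ (i' = j ∧ j' = i)) ∧
      ((T.w j' = T.w i' ∧ T.a i' j' = T.w i' ∧ T.m j' ≤ 2 * T.m i' ∧ T.m i' ≤ 2 * T.m j') ∨
        (T.w j' = 2 * T.w i' ∧ T.a i' j' = 2 * T.w i' ∧ T.m j' ≤ T.m i' ∧ T.m i' ≤ 2 * T.m j') ∨
        (T.w j' = 3 * T.w i' ∧ T.a i' j' = 3 * T.w i' ∧ 3 * T.m j' ≤ 2 * T.m i' ∧ T.m i' ≤ 2 * T.m j')) := by
  have hsym : T.a j i = T.a i j := by
    have := T.symm
    have h := congrFun (congrFun this i) j
    simpa [Matrix.transpose_apply] using h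
  set ri := ∑ l ∈ (univ.erase i).erase j, T.a i l * T.m l with hri
  set rj := ∑ l ∈ (univ.erase j).erase i, T.a j l * T.m l with hrj
  have hrowi := row_split T i j hij
  have hrowj := row_split T j i hij.symm
  rw [← hri] at hrowi
  rw [← hrj, hsym] at hrowj
  have hri0 : 0 ≤ ri := rest_nonneg T i j
  have hrj0 : 0 ≤ rj := rest_nonneg T j i
  obtain ⟨hgi, haii⟩ := hi
  obtain ⟨hgj, hajj⟩ := hj
  have hmi := T.m_pos i
  have hmj := T.m_pos j
  have hwi := T.w_pos i
  have hwj := T.w_pos j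
  -- connectivity
  have hr : 0 < ri ∨ 0 < rj := by
    have hne : ({i, j} : Finset (Fin n)).Nonempty := insert_nonempty _ _
    have hneu : ({i, j} : Finset (Fin n)) ≠ univ := by
      intro h
      have h1 : ({i, j} : Finset (Fin n)).card = n := by rw [h, card_univ, Fintype.card_fin]
      have h2 : ({i, j} : Finset (Fin n)).card ≤ 2 := card_le_two
      omega
    obtain ⟨k, hk, l, hl, hkl⟩ := T.connected {i, j} hne hneu
    have hli : l ≠ i := fun h => hl (by rw [h]; exact mem_insert_self _ _)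
    have hlj : l ≠ j := fun h => hl (by rw [h]; exact mem_insert_of_mem (mem_singleton_self _))
    rcases mem_insert.mp hk with rfl | hk'
    · left
      have hpos' : 0 < T.a k l := lt_of_le_of_ne (T.offDiag_nonneg k l hli.symm) (Ne.symm hkl)
      have hmem : l ∈ (univ.erase k).erase j := mem_erase.mpr ⟨hlj, mem_erase.mpr ⟨hli, mem_univ l⟩⟩
      have := Finset.single_le_sum (f := fun l => T.a k l * T.m l)
        (fun l' hl' => mul_nonneg (T.offDiag_nonneg k l'
          (mem_erase.mp (mem_erase.mp hl').2).1.symm) (T.m_pos l').le) hmem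
      have hp : 0 < T.a k l * T.m l := mul_pos hpos' (T.m_pos l)
      linarith
    · rw [mem_singleton] at hk'
      subst hk'
      right
      have hpos' : 0 < T.a k l := lt_of_le_of_ne (T.offDiag_nonneg k l hlj.symm) (Ne.symm hkl)
      have hmem : l ∈ (univ.erase k).erase i := mem_erase.mpr ⟨hli, mem_erase.mpr ⟨hlj, mem_univ l⟩⟩
      have := Finset.single_le_sum (f := fun l => T.a k l * T.m l)
        (fun l' hl' => mul_nonneg (T.offDiag_nonneg k l'
          (mem_erase.mp (mem_erase.mp hl').2).1.symm) (T.m_pos l').le) hmem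
      have hp : 0 < T.a k l * T.m l := mul_pos hpos' (T.m_pos l)
      linarith
  -- key inequality
  set B := T.a i j with hB
  have hkey : B ^ 2 < 4 * T.w i * T.w j := by
    set xi := 2 * T.w j with hxi
    set xj := B with hxj
    have hid : T.m i * T.m j * (T.a i i * xi ^ 2 + 2 * B * xi * xj + T.a j j * xj ^ 2) +
        B * (T.m j * xi - T.m i * xj) ^ 2 + ri * T.m j * xi ^ 2 + rj * T.m i * xj ^ 2 = 0 := by
      linear_combination (xi ^ 2 * T.m j) * hrowi + (xj ^ 2 * T.m i) * hrowj
    have hxi0 : 0 < xi := by positivity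
    have hpos2 : 0 < ri * T.m j * xi ^ 2 + rj * T.m i * xj ^ 2 := by
      rcases hr with h | h
      · have : 0 < ri * T.m j * xi ^ 2 := by positivity
        have : 0 ≤ rj * T.m i * xj ^ 2 := by positivity
        linarith
      · have : 0 ≤ ri * T.m j * xi ^ 2 := by positivity
        have : 0 < rj * T.m i * xj ^ 2 := by positivity
        linarith
    have hsq : 0 ≤ B * (T.m j * xi - T.m i * xj) ^ 2 := by positivity
    have hQneg : T.m i * T.m j * (T.a i i * xi ^ 2 + 2 * B * xi * xj + T.a j j * xj ^ 2) < 0 := by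
      linarith
    have hmm : 0 < T.m i * T.m j := mul_pos hmi hmj
    have hQ : T.a i i * xi ^ 2 + 2 * B * xi * xj + T.a j j * xj ^ 2 < 0 := by
      by_contra hc
      push Not at hc
      have := mul_nonneg hmm.le hc
      linarith
    rw [haii, hajj, hxi, hxj] at hQ
    nlinarith
  -- divisibility
  obtain ⟨k, hk⟩ := T.w_dvd i j
  obtain ⟨l, hl⟩ := T.w_dvd j i
  rw [hsym] at hl
  rw [← hB] at hk
  have hk0 : 0 < k := by
    by_contra hc; push Not at hc
    have : T.w i * k ≤ 0 := mul_nonpos_of_nonneg_of_nonpos hwi.le hc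
    linarith
  have hl0 : 0 < l := by
    by_contra hc; push Not at hc
    have : T.w j * l ≤ 0 := mul_nonpos_of_nonneg_of_nonpos hwj.le hc
    linarith
  have hkl : k * l < 4 := by
    have h1 : B ^ 2 = (T.w i * T.w j) * (k * l) := by
      calc B ^ 2 = B * B := by ring
        _ = (T.w i * k) * (T.w j * l) := by rw [← hk, ← hl]
        _ = (T.w i * T.w j) * (k * l) := by ring
    have hww : 0 < T.w i * T.w j := mul_pos hwi hwj
    have h2 : (T.w i * T.w j) * (k * l) < (T.w i * T.w j) * 4 := by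
      rw [← h1]; linarith
    exact lt_of_mul_lt_mul_left h2 hww.le
  have hk3 : k ≤ 3 := by
    have : k ≤ k * l := le_mul_of_one_le_right hk0.le (by omega)
    linarith
  have hl3 : l ≤ 3 := by
    have : l ≤ k * l := le_mul_of_one_le_left hl0.le (by omega)
    linarith
  -- m inequalities
  have hmi_ineq : B * T.m j ≤ 2 * T.w i * T.m i := by rw [haii] at hrowi; linarith
  have hmj_ineq : B * T.m i ≤ 2 * T.w j * T.m j := by rw [hajj] at hrowj; linarith
  have hBji : T.a j i = B := hsym
  have cancel : ∀ {w x y : ℤ}, 0 < w → w * x ≤ w * y → x ≤ y := fun hw h => le_of_mul_le_mul_left h hw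
  have ei := hmi_ineq
  have ej := hmj_ineq
  interval_cases k <;> interval_cases l <;> (try norm_num at hkl)
  · -- (1,1)
    rw [hk] at ei; rw [hl] at ej
    refine ⟨i, j, Or.inl ⟨rfl, rfl⟩, Or.inl ⟨by linarith, by linarith, ?_, ?_⟩⟩
    · exact cancel hwi (by linarith)
    · exact cancel hwj (by linarith)
  · -- (1,2): B = w i = 2 w j
    rw [hk] at ei; rw [hl] at ej
    refine ⟨j, i, Or.inr ⟨rfl, rfl⟩, Or.inr (Or.inl ⟨by linarith, by rw [hBji]; linarith, ?_, ?_⟩)⟩
    · exact cancel hwj (by linarith)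
    · exact cancel hwi (by linarith)
  · -- (1,3): B = w i = 3 w j
    rw [hk] at ei; rw [hl] at ej
    refine ⟨j, i, Or.inr ⟨rfl, rfl⟩, Or.inr (Or.inr ⟨by linarith, by rw [hBji]; linarith, ?_, ?_⟩)⟩
    · exact cancel hwj (by linarith)
    · exact cancel hwi (by linarith)
  · -- (2,1): B = 2 w i = w j
    rw [hk] at ei; rw [hl] at ej
    refine ⟨i, j, Or.inl ⟨rfl, rfl⟩, Or.inr (Or.inl ⟨by linarith, by linarith, ?_, ?_⟩)⟩
    · exact cancel hwi (by linarith)
    · exact cancel hwj (by linarith)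
  · -- (3,1): B = 3 w i = w j
    rw [hk] at ei; rw [hl] at ej
    refine ⟨i, j, Or.inl ⟨rfl, rfl⟩, Or.inr (Or.inr ⟨by linarith, by linarith, ?_, ?_⟩)⟩
    · exact cancel hwi (by linarith)
    · exact cancel hwj (by linarith)

end Groth.Agent.S3350
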