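import Groth.Statements.S3351
import Mathlib.LinearAlgebra.FreeModule.PID
import Mathlib.Algebra.Module.Projective
import Mathlib.LinearAlgebra.Dual.Basis
import Mathlib.LinearAlgebra.Dimension.Finite
import Mathlib.LinearAlgebra.Dimension.Free
import Mathlib.LinearAlgebra.FreeModule.Finite.Basic

set_option autoImplicit false
open Models

namespace Groth.Agent.S3351

theorem extend_of_saturated {L : Type} [AddCommGroup L] [Module.Finite ℤ L] [Module.Free ℤ L]
    (P : Submodule ℤ L) (hP : ∀ (c : ℤ) (x : L), c ≠ 0 → c • x ∈ P → x ∈ P)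
    (ψ : Module.Dual ℤ P) : ∃ φ : Module.Dual ℤ L, φ ∘ₗ P.subtype = ψ := by
  have : Module.IsTorsionFree ℤ (L ⧸ P) := by
    refine Module.IsTorsionFree.of_smul_eq_zero ?_
    intro r m h
    induction m using Submodule.Quotient.induction_on with
    | H x =>
      by_cases hr : r = 0
      · left
        exact hr
      · right
        rw [← Submodule.Quotient.mk_smul, Submodule.Quotient.mk_eq_zero] at h
        rw [Submodule.Quotient.mk_eq_zero]
        exact hP r x hr h
  have : Module.Free ℤ (L ⧸ P) := Module.free_of_finite_type_torsion_free'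
  obtain ⟨σ, hσ⟩ := Module.projective_lifting_property P.mkQ LinearMap.id
    (Submodule.mkQ_surjective P)
  have hσx : ∀ q, P.mkQ (σ q) = q := fun q => LinearMap.congr_fun hσ q
  let pr : L →ₗ[ℤ] P := LinearMap.codRestrict P (LinearMap.id - σ ∘ₗ P.mkQ) (by
    intro x
    have : P.mkQ (x - σ (P.mkQ x)) = 0 := by
      rw [map_sub, hσx, sub_self]
    rw [Submodule.mkQ_apply, Submodule.Quotient.mk_eq_zero] at this
    simpa using this)
  refine ⟨ψ ∘ₗ pr, ?_⟩
  ext ⟨x, hx⟩
  simp only [LinearMap.comp_apply, Submodule.subtype_apply]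
  congr 1
  apply Subtype.ext
  have h0 : P.mkQ x = 0 := by
    rw [Submodule.mkQ_apply, Submodule.Quotient.mk_eq_zero]
    exact hx
  simp [pr, h0]

theorem key {L : Type} [AddCommGroup L] [Module.Finite ℤ L] [Module.Free ℤ L]
    (B : LinearMap.BilinForm ℤ L) (hpos : ∀ x, x ≠ 0 → 0 < B x x)
    (A : Submodule ℤ L) (y : L) :
    ∃ g : ℤ, g ≠ 0 ∧ ∃ a ∈ A, ∀ a' ∈ A, B a a' = g * B y a' := by
  classical
  have : Module.Finite ℤ A := inferInstance
  have : Module.Free ℤ A := inferInstance
  let e := Module.finBasis ℤ A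
  let f : A →ₗ[ℤ] Module.Dual ℤ A := B.compl₁₂ A.subtype A.subtype
  let ψ : Module.Dual ℤ A := (B y) ∘ₗ A.subtype
  let v : Option (Fin (Module.finrank ℤ A)) → Module.Dual ℤ A := fun o => o.elim ψ (fun i => f (e i))
  have hnot : ¬ LinearIndependent ℤ v := by
    intro hli
    have h1 := hli.fintype_card_le_finrank
    have h2 : Module.finrank ℤ (Module.Dual ℤ A) = Module.finrank ℤ A := by
      rw [Module.finrank_eq_card_basis e.dualBasis, Fintype.card_fin]
    rw [h2, Fintype.card_option, Fintype.card_fin] at h1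
    omega
  rw [Fintype.not_linearIndependent_iff] at hnot
  obtain ⟨c, hc, i0, hi0⟩ := hnot
  rw [Fintype.sum_option] at hc
  have hf_inj : ∀ a : A, f a = 0 → a = 0 := by
    intro a ha
    by_contra hne
    have hne' : (a : L) ≠ 0 := by
      intro h
      exact hne (Subtype.ext h)
    have hp := hpos a hne'
    have h0 : B a a = 0 := by
      have := LinearMap.congr_fun ha a
      simpa [f] using this
    omega
  have hcn : c none ≠ 0 := by
    intro h0
    rw [h0, zero_smul, zero_add] at hc
    have h3 : f (∑ i, c (some i) • e i) = 0 := by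
      rw [map_sum]
      simpa [v, map_smul] using hc
    have h4 := hf_inj _ h3
    have h5 := (Fintype.linearIndependent_iff.1 e.linearIndependent) (fun i => c (some i)) h4
    cases i0 with
    | none => exact hi0 h0
    | some i => exact hi0 (h5 i)
  refine ⟨c none, hcn, -(∑ i, c (some i) • ((e i : A) : L)), ?_, ?_⟩
  · exact A.neg_mem (A.sum_mem fun i _ => A.smul_mem _ (e i).2)
  · intro a' ha'
    have := LinearMap.congr_fun hc ⟨a', ha'⟩
    simp only [v, Option.elim, LinearMap.add_apply, LinearMap.smul_apply, LinearMap.sum_apply,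
      LinearMap.zero_apply, smul_eq_mul] at this
    simp only [f, ψ, LinearMap.compl₁₂_apply, LinearMap.comp_apply, Submodule.subtype_apply] at this
    simp only [map_neg, map_sum, map_smul, LinearMap.neg_apply, LinearMap.sum_apply,
      LinearMap.smul_apply, smul_eq_mul]
    linarith

/-- Let L be a finite free Z-module with a positive definite symmetric integral bilinear form, A ⊆ L a
submodule with L/A torsion free and B the orthogonal complement of A. Write M^# for the dual lattice
of a sublattice M, identified here with the Z-dual Hom(M, Z) through the form. Then the natural maps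
L/(A ⊕ B) → B^#/B and L/(A ⊕ B) → A^#/A are injective: an element x of L whose functional ⟨x, -⟩ on
B (resp. on A) is represented by an element of B (resp. of A) lies in A ⊕ B. Moreover the
restriction maps L^# → B^# and L^# → A^# are surjective, so that the cokernels of the two injections
are quotients of L^#/L. -/
theorem result {L : Type} [AddCommGroup L] [Module.Finite ℤ L] [Module.Free ℤ L]
    (B : LinearMap.BilinForm ℤ L) (hsymm : B.IsSymm) (hpos : ∀ x, x ≠ 0 → 0 < B x x)
    (A : Submodule ℤ L) (htf : ∀ (c : ℤ) (x : L), c ≠ 0 → c • x ∈ A → x ∈ A) :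
    (∀ x : L, (∃ b ∈ B.orthogonal A, ∀ b' ∈ B.orthogonal A, B x b' = B b b') → x ∈ A ⊔ B.orthogonal A) ∧
      (∀ x : L, (∃ a ∈ A, ∀ a' ∈ A, B x a' = B a a') → x ∈ A ⊔ B.orthogonal A) ∧
      (∀ ψ : Module.Dual ℤ ↥(B.orthogonal A), ∃ φ : Module.Dual ℤ L, φ ∘ₗ (B.orthogonal A).subtype = ψ) ∧
      (∀ ψ : Module.Dual ℤ ↥A, ∃ φ : Module.Dual ℤ L, φ ∘ₗ A.subtype = ψ) := by
  refine ⟨?_, ?_, ?_, ?_⟩
  · rintro x ⟨b, hb, hxb⟩
    have hy : ∀ b' ∈ B.orthogonal A, B (x - b) b' = 0 := by
      intro b' hb'
      rw [map_sub, LinearMap.sub_apply, hxb b' hb', sub_self]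
    obtain ⟨g, hg, a, ha, hga⟩ := key B hpos A (x - b)
    have hz : g • (x - b) - a ∈ B.orthogonal A := by
      rw [LinearMap.BilinForm.mem_orthogonal_iff]
      intro n hn
      rw [map_sub, map_smul, hsymm.eq n (x - b), hsymm.eq n a, hga n hn, smul_eq_mul, sub_self]
    have hzz : B (g • (x - b) - a) (g • (x - b) - a) = 0 := by
      have h1 : B (x - b) (g • (x - b) - a) = 0 := hy _ hz
      have h2 : B a (g • (x - b) - a) = 0 := (LinearMap.BilinForm.mem_orthogonal_iff.1 hz) a ha
      rw [LinearMap.map_sub₂, LinearMap.map_smul₂, h1, h2, smul_zero, sub_zero]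
    have hz0 : g • (x - b) - a = 0 := by
      by_contra hne
      have := hpos _ hne
      omega
    have hyA : x - b ∈ A := htf g (x - b) hg (by rw [sub_eq_zero.1 hz0]; exact ha)
    have hx : x = (x - b) + b := by abel
    rw [hx]
    exact Submodule.add_mem_sup hyA hb
  · rintro x ⟨a, ha, hxa⟩
    have h1 : x - a ∈ B.orthogonal A := by
      rw [LinearMap.BilinForm.mem_orthogonal_iff]
      intro n hn
      rw [map_sub, hsymm.eq n x, hsymm.eq n a, hxa n hn, sub_self]
    have hx : x = a + (x - a) := by abel
    rw [hx]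
    exact Submodule.add_mem_sup ha h1
  · intro ψ
    apply extend_of_saturated
    intro c x hc hcx
    rw [LinearMap.BilinForm.mem_orthogonal_iff] at hcx ⊢
    intro n hn
    have := hcx n hn
    rw [map_smul, smul_eq_mul] at this
    rcases mul_eq_zero.1 this with h | h
    · exact absurd h hc
    · exact h
  · intro ψ
    exact extend_of_saturated A htf ψ

end Groth.Agent.S3351
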