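import Groth.Statements.S3352
import Mathlib.LinearAlgebra.FreeModule.PID
import Mathlib.LinearAlgebra.Dual.Basis
import Mathlib.LinearAlgebra.Dimension.Finite
import Mathlib.LinearAlgebra.Dimension.Free
import Mathlib.LinearAlgebra.FreeModule.Finite.Basic
import Mathlib.LinearAlgebra.Isomorphisms

set_option autoImplicit false
open Models

namespace Groth.Agent.S3352

theorem key {L : Type} [AddCommGroup L] [Module.Finite ℤ L] [Module.Free ℤ L]
    (B : LinearMap.BilinForm ℤ L) (hpos : ∀ x, x ≠ 0 → 0 < B x x)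
    (A : Submodule ℤ L) (ψ : Module.Dual ℤ A) :
    ∃ g : ℤ, g ≠ 0 ∧ ∃ a ∈ A, ∀ (a' : L) (ha' : a' ∈ A), B a a' = g * ψ ⟨a', ha'⟩ := by
  classical
  have : Module.Finite ℤ A := inferInstance
  have : Module.Free ℤ A := inferInstance
  let e := Module.finBasis ℤ A
  let f : A →ₗ[ℤ] Module.Dual ℤ A := B.compl₁₂ A.subtype A.subtype
  let v : Option (Fin (Module.finrank ℤ A)) → Module.Dual ℤ A := fun o => o.elim ψ (fun i => f (e i))
  have hnot : ¬ LinearIndependent ℤ v := by
    intro hli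
    have h1 := hli.fintype_card_le_finrank
    have h2 : Module.finrank ℤ (Module.Dual ℤ A) = Module.finrank ℤ A := by
      rw [Module.finrank_eq_card_basis e.dualBasis, Fintype.card_fin]
    rw [h2, Fintype.card_option, Fintype.card_fin] at h1
    omega
  rw [Fintype.not_linearIndependent_iff] at hnot
  obtain ⟨c, hc, i0, hi0⟩ := hnot
  rw [Fintype.sum_option] at hc
  have hf_inj : ∀ a : A, f a = 0 → a = 0 := by
    intro a ha
    by_contra hne
    have hne' : (a : L) ≠ 0 := by
      intro h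
      exact hne (Subtype.ext h)
    have hp := hpos a hne'
    have h0 : B a a = 0 := by
      have := LinearMap.congr_fun ha a
      simpa [f] using this
    omega
  have hcn : c none ≠ 0 := by
    intro h0
    rw [h0, zero_smul, zero_add] at hc
    have h3 : f (∑ i, c (some i) • e i) = 0 := by
      rw [map_sum]
      simpa [v, map_smul] using hc
    have h4 := hf_inj _ h3
    have h5 := (Fintype.linearIndependent_iff.1 e.linearIndependent) (fun i => c (some i)) h4
    cases i0 with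
    | none => exact hi0 h0
    | some i => exact hi0 (h5 i)
  refine ⟨c none, hcn, -(∑ i, c (some i) • ((e i : A) : L)), ?_, ?_⟩
  · exact A.neg_mem (A.sum_mem fun i _ => A.smul_mem _ (e i).2)
  · intro a' ha'
    have := LinearMap.congr_fun hc ⟨a', ha'⟩
    simp only [v, Option.elim, LinearMap.add_apply, LinearMap.smul_apply, LinearMap.sum_apply,
      LinearMap.zero_apply, smul_eq_mul] at this
    simp only [f, LinearMap.compl₁₂_apply, LinearMap.comp_apply, Submodule.subtype_apply] at this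
    simp only [map_neg, map_sum, map_smul, LinearMap.neg_apply, LinearMap.sum_apply,
      LinearMap.smul_apply, smul_eq_mul]
    linarith

/-- Let L₀, L₁ be finite free ℤ-modules with positive definite symmetric integral bilinear forms, the
form on L₀ unimodular (x ↦ ⟨x, −⟩ is a bijection L₀ → Hom(L₀, ℤ)), and let d : L₀ → L₁ and d* : L₁ →
L₀ be adjoint. Identify Im(d)^# (the dual lattice of Im(d)) with Hom(Im(d), ℤ) through the form on
L₁. Then there is an isomorphism Φ from the torsion subgroup of Coker(d* d) onto Im(d)^#/Im(d),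
determined by: for x ∈ L₀ whose class is torsion, Φ[x] is the class of the functional d(y') ↦ ⟨x,
y'⟩ (equivalently the class of (1/a)·d(y) when a·x = d* d(y)). -/
theorem result {L₀ L₁ : Type} [AddCommGroup L₀] [AddCommGroup L₁]
    [Module.Finite ℤ L₀] [Module.Free ℤ L₀] [Module.Finite ℤ L₁] [Module.Free ℤ L₁]
    (B₀ : LinearMap.BilinForm ℤ L₀) (B₁ : LinearMap.BilinForm ℤ L₁) (h₀s : B₀.IsSymm) (h₁s : B₁.IsSymm)
    (h₀p : ∀ x, x ≠ 0 → 0 < B₀ x x) (h₁p : ∀ x, x ≠ 0 → 0 < B₁ x x) (huni : Function.Bijective B₀)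
    (d : L₀ →ₗ[ℤ] L₁) (ds : L₁ →ₗ[ℤ] L₀) (hadj : ∀ x y, B₁ (d x) y = B₀ x (ds y)) :
    ∃ Φ : ↥(Submodule.torsion ℤ (L₀ ⧸ LinearMap.range (ds ∘ₗ d))) ≃ₗ[ℤ]
        (Module.Dual ℤ ↥(LinearMap.range d) ⧸
          LinearMap.range ((B₁.compl₂ (LinearMap.range d).subtype) ∘ₗ (LinearMap.range d).subtype)),
      ∀ (x : L₀) (hx : Submodule.Quotient.mk x ∈ Submodule.torsion ℤ (L₀ ⧸ LinearMap.range (ds ∘ₗ d)))
        (ψ : Module.Dual ℤ ↥(LinearMap.range d)),
        (∀ y' : L₀, ψ ⟨d y', LinearMap.mem_range_self d y'⟩ = B₀ x y') →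
          Φ ⟨Submodule.Quotient.mk x, hx⟩ = Submodule.Quotient.mk ψ := by
  classical
  set D := LinearMap.range d with hD
  set N := LinearMap.range (ds ∘ₗ d) with hN
  set G := (B₁.compl₂ D.subtype) ∘ₗ D.subtype with hG
  let e₀ := LinearEquiv.ofBijective B₀ huni
  let d' : L₀ →ₗ[ℤ] D := d.rangeRestrict
  let Λ : Module.Dual ℤ D →ₗ[ℤ] L₀ := e₀.symm.toLinearMap ∘ₗ d'.dualMap
  have hΛ : ∀ ψ y', B₀ (Λ ψ) y' = ψ (d' y') := by
    intro ψ y'
    have : B₀ (Λ ψ) = d'.dualMap ψ := by
      show e₀ (e₀.symm (d'.dualMap ψ)) = d'.dualMap ψ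
      exact e₀.apply_symm_apply _
    rw [this, LinearMap.dualMap_apply]
  have hΛx : ∀ ψ x, (∀ y', ψ (d' y') = B₀ x y') → Λ ψ = x := by
    intro ψ x h
    apply huni.1
    ext y'
    rw [hΛ, h]
  have hdd : ∀ y y', B₁ (d y) (d y') = B₀ (ds (d y)) y' := by
    intro y y'
    rw [h₁s.eq, hadj, h₀s.eq]
  have hΛG : ∀ w : D, Λ (G w) ∈ N := by
    rintro ⟨w, y, rfl⟩
    have : Λ (G ⟨d y, LinearMap.mem_range_self d y⟩) = ds (d y) := by
      apply hΛx
      intro y'
      exact hdd y y'
    rw [this]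
    exact ⟨y, rfl⟩
  let Ψ₀ : (Module.Dual ℤ D ⧸ LinearMap.range G) →ₗ[ℤ] (L₀ ⧸ N) :=
    Submodule.mapQ (LinearMap.range G) N Λ (by
      rintro _ ⟨w, rfl⟩
      exact hΛG w)
  have hΨ₀ : ∀ ψ, Ψ₀ (Submodule.Quotient.mk ψ) = Submodule.Quotient.mk (Λ ψ) := fun ψ => rfl
  have htors : ∀ r, Ψ₀ r ∈ Submodule.torsion ℤ (L₀ ⧸ N) := by
    intro r
    induction r using Submodule.Quotient.induction_on with
    | H ψ =>
      obtain ⟨g, hg, a, ha, hga⟩ := key B₁ h₁p D ψ
      have hgψ : g • ψ = G ⟨a, ha⟩ := by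
        ext ⟨a', ha'⟩
        simp only [hG, LinearMap.smul_apply, LinearMap.comp_apply, LinearMap.compl₂_apply,
          Submodule.subtype_apply, smul_eq_mul]
        rw [hga a' ha']
      rw [Submodule.mem_torsion_iff]
      refine ⟨⟨g, mem_nonZeroDivisors_of_ne_zero hg⟩, ?_⟩
      show g • Ψ₀ (Submodule.Quotient.mk ψ) = 0
      rw [← map_smul, ← Submodule.Quotient.mk_smul, hgψ, hΨ₀, Submodule.Quotient.mk_eq_zero]
      exact hΛG _
  let Ψ : (Module.Dual ℤ D ⧸ LinearMap.range G) →ₗ[ℤ] Submodule.torsion ℤ (L₀ ⧸ N) :=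
    LinearMap.codRestrict _ Ψ₀ htors
  have hinj : Function.Injective Ψ := by
    rw [← LinearMap.ker_eq_bot, LinearMap.ker_eq_bot']
    intro r hr
    induction r using Submodule.Quotient.induction_on with
    | H ψ =>
      have h1 : Λ ψ ∈ N := by
        have : Ψ₀ (Submodule.Quotient.mk ψ) = 0 := by
          have := congrArg Subtype.val hr
          simpa [Ψ] using this
        rw [hΨ₀, Submodule.Quotient.mk_eq_zero] at this
        exact this
      obtain ⟨y, hy⟩ := h1
      rw [Submodule.Quotient.mk_eq_zero]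
      refine ⟨⟨d y, LinearMap.mem_range_self d y⟩, ?_⟩
      ext ⟨w', y', rfl⟩
      simp only [hG, LinearMap.comp_apply, LinearMap.compl₂_apply, Submodule.subtype_apply]
      have h2 := hΛ ψ y'
      rw [← hy] at h2
      simp only [LinearMap.comp_apply] at h2
      rw [hdd, h2]
      rfl
  have hsurj : Function.Surjective Ψ := by
    rintro ⟨q, hq⟩
    induction q using Submodule.Quotient.induction_on with
    | H x =>
      obtain ⟨⟨a, ha⟩, hax⟩ := (Submodule.mem_torsion_iff _).1 hq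
      have ha0 : a ≠ 0 := nonZeroDivisors.ne_zero ha
      have hxN : a • x ∈ N := by
        rw [← Submodule.Quotient.mk_eq_zero, Submodule.Quotient.mk_smul]
        exact hax
      obtain ⟨y, hy⟩ := hxN
      have hker : LinearMap.ker d ≤ LinearMap.ker (B₀ x) := by
        intro y' hy'
        rw [LinearMap.mem_ker] at hy' ⊢
        have h3 : a * B₀ x y' = 0 := by
          have : B₀ (a • x) y' = a * B₀ x y' := by
            rw [LinearMap.map_smul₂, smul_eq_mul]
          rw [← this, ← hy, LinearMap.comp_apply, ← hdd, hy', map_zero]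
        rcases mul_eq_zero.1 h3 with h | h
        · exact absurd h ha0
        · exact h
      let ψ : Module.Dual ℤ D :=
        ((LinearMap.ker d).liftQ (B₀ x) hker) ∘ₗ d.quotKerEquivRange.symm.toLinearMap
      have hψ : ∀ y', ψ (d' y') = B₀ x y' := by
        intro y'
        simp only [ψ, LinearMap.comp_apply, LinearEquiv.coe_coe, d']
        rw [show d.rangeRestrict y' = ⟨d y', LinearMap.mem_range_self d y'⟩ from rfl,
          LinearMap.quotKerEquivRange_symm_apply_image]
        rfl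
      refine ⟨Submodule.Quotient.mk ψ, ?_⟩
      apply Subtype.ext
      show Ψ₀ (Submodule.Quotient.mk ψ) = Submodule.Quotient.mk x
      rw [hΨ₀, hΛx ψ x hψ]
  refine ⟨(LinearEquiv.ofBijective Ψ ⟨hinj, hsurj⟩).symm, ?_⟩
  intro x hx ψ hψ
  rw [LinearEquiv.symm_apply_eq]
  apply Subtype.ext
  show Submodule.Quotient.mk x = Ψ₀ (Submodule.Quotient.mk ψ)
  rw [hΨ₀, hΛx ψ x (fun y' => hψ y')]

end Groth.Agent.S3352
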