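import Groth.Statements.S3532
-- import your own Groth.Agent.* helpers here

set_option autoImplicit false
universe u
open HomAlg3

namespace Groth.Agent.S3532

open CategoryTheory in
/-- Category of abelian groups, system indexed by the natural numbers: Let (A_k)_{k ≥ 0} be an inverse
system of abelian groups. For p ≤ k write Im_k(A_p) for the image of A_k → A_p, and K_p for the
kernel of A_p → A_{p-1} (K_0 = A_0). Then (A_k) satisfies the Mittag-Leffler condition (for each p
the subgroups Im_k(A_p) are eventually constant in k) if and only if for each p the subgroups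
Im_k(A_p) ∩ K_p are eventually constant in k. -/
theorem result (F : ℕᵒᵖ ⥤ AddCommGrpCat.{u}) :
    (F ⋙ forget AddCommGrpCat).IsMittagLeffler ↔
      ((∃ k₀ : ℕ, ∀ (k : ℕ) (hk : k₀ ≤ k),
          (F.map (homOfLE (Nat.zero_le k)).op).hom.range = (F.map (homOfLE (Nat.zero_le k₀)).op).hom.range) ∧
        ∀ p : ℕ, ∃ k₀ : ℕ, ∃ h₀ : p + 1 ≤ k₀, ∀ (k : ℕ) (hk : k₀ ≤ k),
          (F.map (homOfLE (h₀.trans hk)).op).hom.range ⊓ (F.map (homOfLE (Nat.le_succ p)).op).hom.ker =
            (F.map (homOfLE h₀).op).hom.range ⊓ (F.map (homOfLE (Nat.le_succ p)).op).hom.ker) := by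
  classical
  let π : ∀ (a b : ℕ), a ≤ b → (F.obj (Opposite.op b) →+ F.obj (Opposite.op a)) :=
    fun a b h => (F.map (homOfLE h).op).hom
  have hcomp : ∀ (a b c : ℕ) (hab : a ≤ b) (hbc : b ≤ c) (x : F.obj (Opposite.op c)),
      π a b hab (π b c hbc x) = π a c (hab.trans hbc) x := by
    intro a b c hab hbc x
    simp only [π]
    rw [← ConcreteCategory.comp_apply, ← F.map_comp]
    rfl
  have hmono : ∀ (a b c : ℕ) (hab : a ≤ b) (hbc : b ≤ c),
      (π a c (hab.trans hbc)).range ≤ (π a b hab).range := by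
    rintro a b c hab hbc _ ⟨y, rfl⟩
    exact ⟨π b c hbc y, hcomp a b c hab hbc y⟩
  have hfeq : ∀ (a b : ℕ) (f : Opposite.op b ⟶ Opposite.op a) (hab : a ≤ b),
      f = (homOfLE hab).op := fun a b f hab => Subsingleton.elim _ _
  have hrange : ∀ (a b : ℕ) (f : Opposite.op b ⟶ Opposite.op a) (hab : a ≤ b)
      (x : F.obj (Opposite.op a)),
      x ∈ Set.range ((F ⋙ forget AddCommGrpCat).map f) ↔ x ∈ (π a b hab).range := by
    intro a b f hab x
    rw [hfeq a b f hab]
    rfl
  have hML : (F ⋙ forget AddCommGrpCat).IsMittagLeffler ↔ ∀ p : ℕ, ∃ k₀ : ℕ, ∃ h₀ : p ≤ k₀,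
      ∀ (k : ℕ) (hk : k₀ ≤ k), (π p k (h₀.trans hk)).range = (π p k₀ h₀).range := by
    constructor
    · intro H p
      obtain ⟨i, f, hf⟩ := H (Opposite.op p)
      have hi : p ≤ i.unop := leOfHom f.unop
      refine ⟨i.unop, hi, fun k hk => le_antisymm (hmono _ _ _ hi hk) ?_⟩
      have h1 := hf (homOfLE (hi.trans hk)).op
      intro x hx
      exact (hrange p k _ (hi.trans hk) x).mp (h1 ((hrange p i.unop f hi x).mpr hx))
    · intro H j
      obtain ⟨k₀, h₀, hk⟩ := H j.unop
      refine ⟨Opposite.op k₀, (homOfLE h₀).op, fun k g => ?_⟩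
      have hjk : j.unop ≤ k.unop := leOfHom g.unop
      intro x hx
      rw [hrange j.unop k₀ _ h₀ x] at hx
      rw [hrange j.unop k.unop g hjk x]
      rcases le_total k₀ k.unop with hkk | hkk
      · rw [hk k.unop hkk]; exact hx
      · exact hmono j.unop k.unop k₀ hjk hkk hx
  rw [hML]
  constructor
  · intro H
    obtain ⟨k₀, h₀, hk⟩ := H 0
    refine ⟨⟨k₀, fun k hkk => hk k hkk⟩, fun p => ?_⟩
    obtain ⟨k₁, h₁, hk₁⟩ := H (p + 1)
    refine ⟨k₁, h₁, fun k hkk => ?_⟩
    show (π (p + 1) k (h₁.trans hkk)).range ⊓ _ = (π (p + 1) k₁ h₁).range ⊓ _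
    rw [hk₁ k hkk]
  · rintro ⟨⟨k₀, hk₀⟩, H⟩ p
    induction p with
    | zero => exact ⟨k₀, Nat.zero_le _, fun k hk => hk₀ k hk⟩
    | succ p ih =>
      obtain ⟨kp, hp, hkp⟩ := ih
      obtain ⟨k', h', hk'⟩ := H p
      have hK1 : p + 1 ≤ max kp k' := le_trans h' (le_max_right _ _)
      refine ⟨max kp k', hK1, fun k hk => le_antisymm (hmono _ _ _ hK1 hk) ?_⟩
      intro x hx
      obtain ⟨y, rfl⟩ := hx
      -- image in A_p
      have hpk : p ≤ k := le_trans hp (le_trans (le_max_left _ _) hk)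
      have hpK : p ≤ max kp k' := le_trans hp (le_max_left _ _)
      have hz : π p (p + 1) (Nat.le_succ p) (π (p + 1) (max kp k') hK1 y) ∈ (π p k hpk).range := by
        rw [hcomp]
        have e1 := hkp (max kp k') (le_max_left _ _)
        have e2 := hkp k (le_trans (le_max_left _ _) hk)
        rw [e2, ← e1]
        exact ⟨y, rfl⟩
      obtain ⟨y', hy'⟩ := hz
      set x' := π (p + 1) k (hK1.trans hk) y' with hx'
      have hdiff : π (p + 1) (max kp k') hK1 y - x' ∈
          (π (p + 1) (max kp k') hK1).range ⊓ (π p (p + 1) (Nat.le_succ p)).ker := by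
        refine AddSubgroup.mem_inf.mpr ⟨?_, ?_⟩
        · exact sub_mem ⟨y, rfl⟩ (hmono _ _ _ hK1 hk ⟨y', rfl⟩)
        · rw [hcomp] at hy'
          rw [AddMonoidHom.mem_ker, map_sub, hx', hcomp, hcomp, hy', sub_self]
      have e3 := hk' (max kp k') (le_max_right _ _)
      have e4 := hk' k (le_trans (le_max_right _ _) hk)
      have hdiff' : π (p + 1) (max kp k') hK1 y - x' ∈
          (π (p + 1) k (hK1.trans hk)).range ⊓ (π p (p + 1) (Nat.le_succ p)).ker := by
        have : (π (p + 1) (max kp k') hK1).range ⊓ (π p (p + 1) (Nat.le_succ p)).ker =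
            (π (p + 1) k (hK1.trans hk)).range ⊓ (π p (p + 1) (Nat.le_succ p)).ker := by
          exact e3.trans e4.symm
        rw [← this]
        exact hdiff
      have hx'mem : x' ∈ (π (p + 1) k (hK1.trans hk)).range := ⟨y', rfl⟩
      have := add_mem (AddSubgroup.mem_inf.mp hdiff').1 hx'mem
      rwa [sub_add_cancel] at this

end Groth.Agent.S3532
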