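import Groth.Statements.S3587
-- import your own Groth.Agent.* helpers here

set_option autoImplicit false
universe u
open CategoryTheory AlgebraicGeometry Opposite TopologicalSpace
open EGA2

namespace Groth.Agent.S3587

lemma helper6_decompose_smul {R A : Type u} [CommRing R] [CommRing A] [Algebra R A]
    (𝒜 : ℕ → Submodule R A) [GradedAlgebra 𝒜]
    {M : Type u} [AddCommGroup M] [Module R M] [Module A M] [IsScalarTower R A M]
    (ℳ : ℕ → Submodule R M) [DirectSum.Decomposition ℳ] [SetLike.GradedSMul 𝒜 ℳ]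
    (i j : ℕ) (m : M) (hm : m ∈ ℳ i) (a : A) :
    (DirectSum.decompose ℳ (a • m) (j + i) : M) = (DirectSum.decompose 𝒜 a j : A) • m := by
  classical
  conv_lhs => rw [← DirectSum.sum_support_decompose 𝒜 a]
  rw [Finset.sum_smul, DirectSum.decompose_sum, DFinsupp.finsetSum_apply,
    AddSubmonoidClass.coe_finsetSum]
  have hmem : ∀ l, ((DirectSum.decompose 𝒜 a l : A) • m) ∈ ℳ (l + i) := fun l =>
    SetLike.GradedSMul.smul_mem (DirectSum.decompose 𝒜 a l).2 hm
  rw [Finset.sum_eq_single j]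
  · exact DirectSum.decompose_of_mem_same ℳ (hmem j)
  · intro l _ hl
    exact DirectSum.decompose_of_mem_ne ℳ (hmem l) (by omega)
  · intro hj
    rw [DFinsupp.notMem_support_iff] at hj
    rw [hj, ZeroMemClass.coe_zero, zero_smul, DirectSum.decompose_zero]
    rfl

/-- Let S be a graded ring, M a graded S-module, f a homogeneous element of degree d > 0 and m a
homogeneous element of M. If the fraction m/f^k vanishes in the localized module M_x for every point
x of D_+(f), then f^N m = 0 for some N (so m/f^k = 0 in M_(f)); this is the injectivity half of the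
identification of the sections of M~ over D_+(f) with M_(f). -/
theorem result {R A : Type u} [CommRing R] [CommRing A] [Algebra R A] (𝒜 : ℕ → Submodule R A) [GradedAlgebra 𝒜]
    {M : Type u} [AddCommGroup M] [Module R M] [Module A M] [IsScalarTower R A M] (ℳ : ℕ → Submodule R M) [DirectSum.Decomposition ℳ] [SetLike.GradedSMul 𝒜 ℳ] {d : ℕ} (hd : 0 < d) {f : A} (hf : f ∈ 𝒜 d) (k i : ℕ) (m : ℳ i)
    (h : ∀ x : ProjectiveSpectrum.basicOpen 𝒜 f,
      (LocalizedModule.mk m.1 ⟨f ^ k, fun h => (ProjectiveSpectrum.mem_basicOpen 𝒜 f x.1).mp x.2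
        (x.1.isPrime.mem_of_pow_mem k h)⟩ : GrTilde.LocMod 𝒜 (M := M) x.1) = 0) :
    ∃ N : ℕ, f ^ N • m.1 = 0 := by
  classical
  let I : Ideal A := LinearMap.ker (LinearMap.toSpanSingleton A M m.1)
  have hI : ∀ a : A, a ∈ I ↔ a • m.1 = 0 := fun a => by
    simp [I, LinearMap.toSpanSingleton_apply]
  have hIh : I.IsHomogeneous 𝒜 := by
    intro j a ha
    rw [hI] at ha ⊢
    rw [← helper6_decompose_smul 𝒜 ℳ i j m.1 m.2 a, ha, DirectSum.decompose_zero]
    rfl
  by_contra hN
  push_neg at hN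
  have hf' : f ∉ I.radical := fun ⟨N, hN'⟩ => hN N ((hI _).mp hN')
  rw [hIh.radical_eq, Submodule.mem_sInf] at hf'
  push_neg at hf'
  obtain ⟨J, ⟨hJh, hIJ, hJp⟩, hfJ⟩ := hf'
  let x : ProjectiveSpectrum 𝒜 := ⟨⟨J, hJh⟩, hJp, fun hle =>
    hfJ (hle (HomogeneousIdeal.mem_irrelevant_of_mem 𝒜 hd hf))⟩
  have hx : x ∈ ProjectiveSpectrum.basicOpen 𝒜 f := hfJ
  have h2 := h ⟨x, hx⟩
  rw [← LocalizedModule.zero_mk 1, LocalizedModule.mk_eq] at h2
  obtain ⟨u, hu⟩ := h2
  have hu' : (u : A) ∈ I := by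
    rw [hI]
    simp only [one_smul, smul_zero] at hu
    exact hu
  exact u.2 (hIJ hu')

end Groth.Agent.S3587
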