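import Groth.Statements.S3547
import Groth.Agent.S3587

set_option autoImplicit false
universe u
open CategoryTheory CategoryTheory.Limits AlgebraicGeometry
open EGA2

namespace Groth.Agent.S3547

lemma helper6_rep {R A : Type u} [CommRing R] [CommRing A] [Algebra R A] (𝒜 : ℕ → Submodule R A)
    [GradedAlgebra 𝒜] {M : Type u} [AddCommGroup M] [Module R M] [Module A M] [IsScalarTower R A M]
    (ℳ : ℕ → Submodule R M) [DirectSum.Decomposition ℳ] [SetLike.GradedSMul 𝒜 ℳ] (n : ℤ)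
    (p : ProjectiveSpectrum 𝒜) (q : GrTilde.LocMod 𝒜 (M := M) p)
    (hq : q ∈ GrTilde.tildeAt 𝒜 ℳ n p) :
    ∃ (i j : ℕ) (m : ℳ i) (s : 𝒜 j) (hs : s.1 ∉ p.asHomogeneousIdeal),
      ((i : ℤ) = j + n ∨ m.1 = 0) ∧ q = LocalizedModule.mk m.1 ⟨s.1, hs⟩ := by
  have h1p : (1 : A) ∉ p.asHomogeneousIdeal := fun h =>
    p.isPrime.ne_top ((Ideal.eq_top_iff_one _).mpr h)
  induction hq using Submodule.span_induction with
  | mem q hq =>
    obtain ⟨i, j, m, s, hs, h, rfl⟩ := hq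
    exact ⟨i, j, m, s, hs, Or.inl h, rfl⟩
  | zero =>
    exact ⟨0, 0, 0, ⟨1, SetLike.GradedOne.one_mem⟩, h1p, Or.inr rfl,
      (LocalizedModule.zero_mk _).symm⟩
  | add x y _ _ hx hy =>
    obtain ⟨i1, j1, m1, s1, hs1, c1, rfl⟩ := hx
    obtain ⟨i2, j2, m2, s2, hs2, c2, rfl⟩ := hy
    rcases c1 with c1 | c1
    · rcases c2 with c2 | c2
      · have hnin : s1.1 * s2.1 ∉ p.asHomogeneousIdeal := fun h =>
          (p.isPrime.mem_or_mem h).elim hs1 hs2
        have e : j1 + i2 = j2 + i1 := by omega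
        refine ⟨j2 + i1, j1 + j2, ⟨s2.1 • m1.1 + s1.1 • m2.1, add_mem
          (SetLike.GradedSMul.smul_mem s2.2 m1.2) (e ▸ SetLike.GradedSMul.smul_mem s1.2 m2.2)⟩,
          ⟨s1.1 * s2.1, SetLike.mul_mem_graded s1.2 s2.2⟩, hnin, Or.inl (by push_cast; omega), ?_⟩
        rw [LocalizedModule.mk_add_mk]
        rfl
      · refine ⟨i1, j1, m1, s1, hs1, Or.inl c1, ?_⟩
        rw [c2, LocalizedModule.zero_mk, add_zero]
    · refine ⟨i2, j2, m2, s2, hs2, c2, ?_⟩
      rw [c1, LocalizedModule.zero_mk, zero_add]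
  | smul c x _ hx =>
    obtain ⟨i, j, m, s, hs, c0, rfl⟩ := hx
    have hnin : c.den * s.1 ∉ p.asHomogeneousIdeal := fun h =>
      (p.isPrime.mem_or_mem h).elim c.den_mem hs
    refine ⟨c.deg + i, c.deg + j, ⟨c.num • m.1, SetLike.GradedSMul.smul_mem c.num_mem_deg m.2⟩,
      ⟨c.den * s.1, SetLike.mul_mem_graded c.den_mem_deg s.2⟩, hnin, ?_, ?_⟩
    · rcases c0 with c0 | c0
      · exact Or.inl (by push_cast; omega)
      · exact Or.inr (show c.num • m.1 = 0 by rw [c0, smul_zero])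
    · rw [GrTilde.a0_smul_def, HomogeneousLocalization.eq_num_div_den, LocalizedModule.mk_smul_mk]
      rfl

/-- Let S be a graded ring, M a graded S-module, X = Proj S and p a point of X. The stalk of M(n)~ at p
is the module of fractions m/f in M_p with m, f homogeneous, f not in p and deg m = deg f + n:
precisely, evaluation at p is a bijection from the stalk at p of the sheaf of local sections of
M(n)~ onto that module of fractions. -/
theorem result {R A : Type u} [CommRing R] [CommRing A] [Algebra R A] (𝒜 : ℕ → Submodule R A) [GradedAlgebra 𝒜]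
    {M : Type u} [AddCommGroup M] [Module R M] [Module A M] [IsScalarTower R A M] (ℳ : ℕ → Submodule R M) [DirectSum.Decomposition ℳ] [SetLike.GradedSMul 𝒜 ℳ] (n : ℤ)
    (p : ProjectiveSpectrum 𝒜) :
    Function.Bijective (TopCat.stalkToFiber (GrTilde.isLocFrac 𝒜 ℳ n) p) := by
  classical
  constructor
  · apply TopCat.stalkToFiber_injective
    intro U V fU hU fV hV hUV
    obtain ⟨V1, hpV1, ι1, iU, jU, mU, sU, ninU, cU, wU⟩ := hU ⟨p, U.2⟩
    obtain ⟨V2, hpV2, ι2, iV, jV, mV, sV, ninV, cV, wV⟩ := hV ⟨p, V.2⟩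
    have eU := wU ⟨p, hpV1⟩
    have eV := wV ⟨p, hpV2⟩
    have hpp : (LocalizedModule.mk mU.1 ⟨sU.1, ninU ⟨p, hpV1⟩⟩ : GrTilde.LocMod 𝒜 (M := M) p) =
        LocalizedModule.mk mV.1 ⟨sV.1, ninV ⟨p, hpV2⟩⟩ := by
      rw [← eU, ← eV]
      exact congrArg Subtype.val hUV
    rw [LocalizedModule.mk_eq] at hpp
    obtain ⟨u, hu⟩ := hpp
    -- the homogeneous element e
    have hE : ∃ D : ℕ, (sV.1 • mU.1 - sU.1 • mV.1) ∈ ℳ D := by
      rcases cU with cU | cU
      · rcases cV with cV | cV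
        · have e : jU + iV = jV + iU := by omega
          exact ⟨jV + iU, sub_mem (SetLike.GradedSMul.smul_mem sV.2 mU.2)
            (e ▸ SetLike.GradedSMul.smul_mem sU.2 mV.2)⟩
        · refine ⟨jV + iU, ?_⟩
          rw [cV, smul_zero, sub_zero]
          exact SetLike.GradedSMul.smul_mem sV.2 mU.2
      · refine ⟨jU + iV, ?_⟩
        rw [cU, smul_zero, zero_sub]
        exact neg_mem (SetLike.GradedSMul.smul_mem sU.2 mV.2)
    obtain ⟨D, hD⟩ := hE
    have hue : (u : A) • (sV.1 • mU.1 - sU.1 • mV.1) = 0 := by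
      rw [smul_sub, sub_eq_zero]
      exact hu
    have hcomp : ∃ k, (DirectSum.decompose 𝒜 (u : A) k : A) ∉ p.asHomogeneousIdeal.toIdeal := by
      by_contra hcon
      push_neg at hcon
      exact u.2 ((Submodule.IsHomogeneous.mem_iff 𝒜 p.asHomogeneousIdeal.isHomogeneous).mpr hcon)
    obtain ⟨k, hk⟩ := hcomp
    set g := (DirectSum.decompose 𝒜 (u : A) k : A) with hg
    have hge : g • (sV.1 • mU.1 - sU.1 • mV.1) = 0 := by
      rw [hg, ← Groth.Agent.S3587.helper6_decompose_smul 𝒜 ℳ D k _ hD (u : A), hue,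
        DirectSum.decompose_zero]
      rfl
    let W : TopologicalSpace.OpenNhds (X := ProjectiveSpectrum.top 𝒜) p :=
      ⟨V1 ⊓ V2 ⊓ ProjectiveSpectrum.basicOpen 𝒜 g, ⟨⟨hpV1, hpV2⟩, hk⟩⟩
    have hWU : W.1 ≤ U.1 := le_trans inf_le_left (le_trans inf_le_left ι1.le)
    have hWV : W.1 ≤ V.1 := le_trans inf_le_left (le_trans inf_le_right ι2.le)
    refine ⟨W, ⟨⟨hWU⟩⟩, ⟨⟨hWV⟩⟩, fun w => ?_⟩
    apply Subtype.ext
    have e1 := wU ⟨w.1, w.2.1.1⟩
    have e2 := wV ⟨w.1, w.2.1.2⟩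
    refine e1.trans (Eq.trans ?_ e2.symm)
    rw [LocalizedModule.mk_eq]
    refine ⟨⟨g, w.2.2⟩, ?_⟩
    have := hge
    rw [smul_sub, sub_eq_zero] at this
    exact this
  · apply TopCat.stalkToFiber_surjective
    intro t
    obtain ⟨i, j, m, s, hs, hc, ht⟩ := helper6_rep 𝒜 ℳ n p t.1 t.2
    have hmem : ∀ (y : ProjectiveSpectrum 𝒜) (hy : s.1 ∉ y.asHomogeneousIdeal),
        (LocalizedModule.mk m.1 ⟨s.1, hy⟩ : GrTilde.LocMod 𝒜 (M := M) y) ∈
          GrTilde.tildeAt 𝒜 ℳ n y := by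
      intro y hy
      rcases hc with hc | hc
      · exact Submodule.subset_span ⟨i, j, m, s, hy, hc, rfl⟩
      · have : (LocalizedModule.mk m.1 ⟨s.1, hy⟩ : GrTilde.LocMod 𝒜 (M := M) y) = 0 := by
          rw [hc, LocalizedModule.zero_mk]
        rw [this]
        exact zero_mem _
    refine ⟨⟨ProjectiveSpectrum.basicOpen 𝒜 s.1, hs⟩,
      fun y => ⟨LocalizedModule.mk m.1 ⟨s.1, y.2⟩, hmem y.1 y.2⟩, fun y =>
        ⟨ProjectiveSpectrum.basicOpen 𝒜 s.1, y.2, 𝟙 _, i, j, m, s, fun y' => y'.2, hc,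
          fun y' => rfl⟩, ?_⟩
    apply Subtype.ext
    exact ht.symm

end Groth.Agent.S3547
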