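import Groth.Statements.S3548
-- import your own Groth.Agent.* helpers here

set_option autoImplicit false
universe u
open CategoryTheory CategoryTheory.Limits AlgebraicGeometry
open EGA2

namespace Groth.Agent.S3548

/-- Let S be a graded ring, M a graded S-module and X = Proj S. If for every z in M and every
homogeneous f of positive degree some power of f annihilates z, then the O_X-module M~ is zero. -/
theorem result {R A : Type u} [CommRing R] [CommRing A] [Algebra R A] (𝒜 : ℕ → Submodule R A) [GradedAlgebra 𝒜]
    {M : Type u} [AddCommGroup M] [Module R M] [Module A M] [IsScalarTower R A M] (ℳ : ℕ → Submodule R M) [DirectSum.Decomposition ℳ] [SetLike.GradedSMul 𝒜 ℳ]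
    (h : ∀ (z : M) (d : ℕ) (f : A), 0 < d → f ∈ 𝒜 d → ∃ k : ℕ, f ^ k • z = 0) :
    IsZero (GrTilde.tilde 𝒜 ℳ 0) := by
  classical
  have hloc : ∀ x : ProjectiveSpectrum 𝒜, ∀ r : GrTilde.LocMod 𝒜 (M := M) x, r = 0 := by
    intro x
    obtain ⟨a, ha, hax⟩ := SetLike.not_le_iff_exists.mp x.not_irrelevant_le
    have : ∃ i, (DirectSum.decompose 𝒜 a i : A) ∉ x.asHomogeneousIdeal.toIdeal := by
      by_contra hcon
      push_neg at hcon
      exact hax ((Submodule.IsHomogeneous.mem_iff 𝒜 x.asHomogeneousIdeal.isHomogeneous).mpr hcon)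
    obtain ⟨i, hi⟩ := this
    have hi0 : 0 < i := by
      rcases Nat.eq_zero_or_pos i with h0 | h0
      · exfalso
        subst h0
        have := (HomogeneousIdeal.mem_irrelevant_iff 𝒜 a).mp ha
        rw [GradedRing.proj_apply] at this
        rw [this] at hi
        exact hi (zero_mem _)
      · exact h0
    intro r
    induction r using LocalizedModule.induction_on with
    | h m s =>
      obtain ⟨k, hk⟩ := h m i _ hi0 (DirectSum.decompose 𝒜 a i).2
      rw [← LocalizedModule.zero_mk s, LocalizedModule.mk_eq]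
      refine ⟨⟨_, fun hmem => hi (x.isPrime.mem_of_pow_mem k hmem)⟩, ?_⟩
      rw [smul_zero, smul_zero, smul_comm]
      change (s : A) • ((DirectSum.decompose 𝒜 a i : A) ^ k • m) = 0
      rw [hk, smul_zero]
  have hsect : ∀ U, ∀ f : GrTilde.sect 𝒜 ℳ 0 U, f = 0 := by
    intro U f
    apply Subtype.ext
    funext x
    apply Subtype.ext
    exact hloc _ _
  rw [IsZero.iff_id_eq_zero]
  apply SheafOfModules.hom_ext
  apply PresheafOfModules.hom_ext
  intro U
  ext f
  exact (hsect _ _).trans (hsect _ _).symm

end Groth.Agent.S3548
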