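import Groth.Statements.S3549
import Groth.Agent.S3587

set_option autoImplicit false
universe u
open CategoryTheory CategoryTheory.Limits AlgebraicGeometry
open EGA2

namespace Groth.Agent.S3549

/-- Let S be a graded ring whose irrelevant ideal S_+ is generated by the degree-one elements, M a
graded S-module and X = Proj S. If the O_X-module M~ is zero, then for every z in M and every
homogeneous f of positive degree some power of f annihilates z. -/
theorem result {R A : Type u} [CommRing R] [CommRing A] [Algebra R A] (𝒜 : ℕ → Submodule R A) [GradedAlgebra 𝒜]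
    (hgen : (HomogeneousIdeal.irrelevant 𝒜).toIdeal = Ideal.span (𝒜 1 : Set A))
    {M : Type u} [AddCommGroup M] [Module R M] [Module A M] [IsScalarTower R A M] (ℳ : ℕ → Submodule R M) [DirectSum.Decomposition ℳ] [SetLike.GradedSMul 𝒜 ℳ]
    (h : IsZero (GrTilde.tilde 𝒜 ℳ 0)) (z : M) (d : ℕ) (f : A) (hd : 0 < d) (hf : f ∈ 𝒜 d) :
    ∃ k : ℕ, f ^ k • z = 0 := by
  classical
  let U : TopologicalSpace.Opens (ProjectiveSpectrum.top 𝒜) := ProjectiveSpectrum.basicOpen 𝒜 f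
  have hnin : ∀ (x : U) (k : ℕ), f ^ k ∉ x.1.asHomogeneousIdeal := fun x k hk =>
    ((ProjectiveSpectrum.mem_basicOpen 𝒜 f x.1).mp x.2) (x.1.isPrime.mem_of_pow_mem k hk)
  have hzero : ∀ s : GrTilde.sect 𝒜 ℳ 0 (Opposite.op U), s = 0 := by
    intro s
    have hz : (𝟙 (GrTilde.tilde 𝒜 ℳ 0) : GrTilde.tilde 𝒜 ℳ 0 ⟶ _) = 0 := h.eq_of_src _ _
    have key2 : ∀ φ ψ : GrTilde.tilde 𝒜 ℳ 0 ⟶ GrTilde.tilde 𝒜 ℳ 0, φ = ψ →
        (φ.val.app (Opposite.op U)).hom s = (ψ.val.app (Opposite.op U)).hom s := by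
      rintro φ ψ rfl; rfl
    exact key2 _ _ hz
  -- key: homogeneous elements of degree a multiple of d are killed by a power of f
  have key : ∀ (i : ℕ) (w : M), w ∈ ℳ (i * d) → ∃ N : ℕ, f ^ N • w = 0 := by
    intro i w hw
    have hfi : f ^ i ∈ 𝒜 (i * d) := by
      have := SetLike.pow_mem_graded i hf
      rwa [smul_eq_mul] at this
    have hmemT : ∀ (x : ProjectiveSpectrum 𝒜) (hx : f ^ i ∉ x.asHomogeneousIdeal),
        (LocalizedModule.mk w ⟨f ^ i, hx⟩ : GrTilde.LocMod 𝒜 (M := M) x) ∈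
          GrTilde.tildeAt 𝒜 ℳ 0 x := fun x hx =>
      Submodule.subset_span ⟨i * d, i * d, ⟨w, hw⟩, ⟨f ^ i, hfi⟩, hx, by simp, rfl⟩
    let sfun : ∀ x : U, GrTilde.tildeAt 𝒜 ℳ 0 x.1 := fun x =>
      ⟨LocalizedModule.mk w ⟨f ^ i, hnin x i⟩, hmemT x.1 (hnin x i)⟩
    have hpred : (GrTilde.isLocFrac 𝒜 ℳ 0).pred sfun := fun x =>
      ⟨U, x.2, 𝟙 U, i * d, i * d, ⟨w, hw⟩, ⟨f ^ i, hfi⟩, fun y => hnin y i, Or.inl (by simp),
        fun y => rfl⟩
    have hs0 := hzero ⟨sfun, hpred⟩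
    refine Groth.Agent.S3587.result 𝒜 ℳ hd hf i (i * d) ⟨w, hw⟩ (fun x => ?_)
    have := congrArg (fun s : GrTilde.sect 𝒜 ℳ 0 (Opposite.op U) => (s.1 x).1) hs0
    exact this
  have hf1 : f ∈ Ideal.span (𝒜 1 : Set A) := by
    rw [← hgen]
    exact HomogeneousIdeal.mem_irrelevant_of_mem 𝒜 hd hf
  have hpow : ∀ n : ℕ, f ^ n ∈ Ideal.span (𝒜 n : Set A) := by
    intro n
    induction n with
    | zero =>
      rw [pow_zero]
      exact Ideal.subset_span SetLike.GradedOne.one_mem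
    | succ n ih =>
      rw [pow_succ]
      have hmul := Ideal.mul_mem_mul ih hf1
      rw [Ideal.span_mul_span'] at hmul
      refine Ideal.span_mono ?_ hmul
      rintro _ ⟨a, ha, b, hb, rfl⟩
      exact SetLike.mul_mem_graded ha hb
  have hom : ∀ (i : ℕ) (m : M), m ∈ ℳ i → ∃ N : ℕ, f ^ N • m = 0 := by
    intro i m hm
    let j := i * d - i
    have hj : j + i = i * d := by
      have : i ≤ i * d := Nat.le_mul_of_pos_right i hd
      omega
    have hu : ∀ u ∈ 𝒜 j, ∃ N : ℕ, f ^ N • u • m = 0 := fun u hu' =>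
      key i (u • m) (hj ▸ SetLike.GradedSMul.smul_mem hu' hm)
    have hfj : f ^ j ∈ Ideal.span (𝒜 j : Set A) := hpow j
    have hP : ∀ a ∈ Ideal.span (𝒜 j : Set A), ∃ N : ℕ, f ^ N • a • m = 0 := by
      intro a ha
      induction ha using Submodule.span_induction with
      | mem a ha => exact hu a ha
      | zero => exact ⟨0, by simp⟩
      | add a b _ _ ha hb =>
        obtain ⟨N1, h1⟩ := ha
        obtain ⟨N2, h2⟩ := hb
        refine ⟨N1 + N2, ?_⟩
        rw [add_smul, smul_add, pow_add, mul_smul, mul_smul, h2, smul_zero, add_zero,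
          smul_comm (f ^ N1) (f ^ N2), h1, smul_zero]
      | smul c a _ ha =>
        obtain ⟨N, hN⟩ := ha
        refine ⟨N, ?_⟩
        rw [smul_eq_mul, mul_smul, smul_comm, hN, smul_zero]
    obtain ⟨N, hN⟩ := hP _ hfj
    refine ⟨N + j, ?_⟩
    rw [pow_add, mul_smul, hN]
  induction z using DirectSum.Decomposition.inductionOn ℳ with
  | zero => exact ⟨0, smul_zero _⟩
  | homogeneous m => exact hom _ m.1 m.2
  | add a b ha hb =>
    obtain ⟨N1, h1⟩ := ha
    obtain ⟨N2, h2⟩ := hb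
    refine ⟨N1 + N2, ?_⟩
    rw [smul_add, pow_add, mul_smul, mul_smul, h2, smul_zero, add_zero,
      smul_comm (f ^ N1) (f ^ N2) a, h1, smul_zero]

end Groth.Agent.S3549
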