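import Groth.Statements.S3552

set_option autoImplicit false
universe u
open CategoryTheory CategoryTheory.Limits AlgebraicGeometry
open EGA2

namespace Groth.Agent.S3552

/-- In the case where the induced morphism is defined on all of Proj S: let φ : S' → S be a homomorphism
of graded rings such that S_+ is contained in the ideal generated by φ(S'_+). Then the induced
morphism from Proj S to Proj S' is affine. -/
theorem result {R A : Type u} [CommRing R] [CommRing A] [Algebra R A] (𝒜 : ℕ → Submodule R A) [GradedAlgebra 𝒜]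
    {B : Type u} [CommRing B] [Algebra R B] (ℬ : ℕ → Submodule R B) [GradedAlgebra ℬ]
    (φ : 𝒜 →+*ᵍ ℬ) (hφ : HomogeneousIdeal.irrelevant ℬ ≤ (HomogeneousIdeal.irrelevant 𝒜).map φ) :
    IsAffineHom (Proj.map φ hφ) := by
  apply isAffineHom_of_forall_exists_isAffineOpen
  intro y
  let i := (Proj.affineOpenCover 𝒜).idx y
  have hy := (Proj.affineOpenCover 𝒜).covers y
  refine ⟨Proj.basicOpen 𝒜 (i.2 : A), ?_, Proj.isAffineOpen_basicOpen 𝒜 _ i.2.2 i.1.2, ?_⟩
  · have h2 := Proj.opensRange_awayι 𝒜 (i.2 : A) i.2.2 i.1.2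
    rw [← h2]
    exact hy
  · rw [Proj.map_preimage_basicOpen]
    exact Proj.isAffineOpen_basicOpen ℬ _ (φ.2 i.2.2) i.1.2

end Groth.Agent.S3552
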