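import Groth.Statements.S3553

set_option autoImplicit false
universe u
open CategoryTheory CategoryTheory.Limits AlgebraicGeometry
open EGA2

namespace Groth.Agent.S3553

/-- An element of the irrelevant ideal lying in every relevant homogeneous prime is nilpotent. -/
lemma helper6_nil_of_forall {R A : Type u} [CommRing R] [CommRing A] [Algebra R A]
    (𝒜 : ℕ → Submodule R A) [GradedAlgebra 𝒜] (c : A)
    (hc : c ∈ (HomogeneousIdeal.irrelevant 𝒜).toIdeal)
    (h : ∀ x : ProjectiveSpectrum 𝒜, c ∈ x.asHomogeneousIdeal) : IsNilpotent c := by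
  have hrad : c ∈ (⊥ : Ideal A).radical := by
    rw [(Ideal.IsHomogeneous.bot 𝒜).radical_eq, Ideal.mem_sInf]
    rintro J ⟨hJh, -, hJp⟩
    by_contra hcJ
    exact hcJ (h ⟨{ toSubmodule := J, is_homogeneous' := hJh }, hJp, fun h' => hcJ (h' hc)⟩)
  obtain ⟨n, hn⟩ := hrad
  exact ⟨n, Ideal.mem_bot.mp hn⟩

/-- In the case where the induced morphism is defined on all of Proj S: let φ : S' → S be a graded
homomorphism such that S_+ is contained in the ideal generated by φ(S'_+), and suppose every element of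
the kernel of φ is nilpotent. Then the induced morphism Proj S → Proj S' is dominant. -/
theorem result {R A : Type u} [CommRing R] [CommRing A] [Algebra R A] (𝒜 : ℕ → Submodule R A) [GradedAlgebra 𝒜]
    {B : Type u} [CommRing B] [Algebra R B] (ℬ : ℕ → Submodule R B) [GradedAlgebra ℬ]
    (φ : 𝒜 →+*ᵍ ℬ) (hφ : HomogeneousIdeal.irrelevant ℬ ≤ (HomogeneousIdeal.irrelevant 𝒜).map φ)
    (hker : ∀ a : A, φ a = 0 → IsNilpotent a) :
    DenseRange (Proj.map φ hφ).base := by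
  rw [DenseRange, dense_iff_inter_open]
  rintro U hU ⟨x, hxU⟩
  have hB : ∀ {W : TopologicalSpace.Opens (Proj 𝒜)} {w : Proj 𝒜}, w ∈ W →
      ∃ W' ∈ Set.range (Proj.basicOpen 𝒜), w ∈ W' ∧ W' ≤ W :=
    TopologicalSpace.Opens.isBasis_iff_nbhd.mp (Proj.isBasis_basicOpen 𝒜)
  obtain ⟨_, ⟨a, rfl⟩, hxa, haU⟩ :=
    hB (W := ⟨U, hU⟩) (show x ∈ (⟨U, hU⟩ : TopologicalSpace.Opens (Proj 𝒜)) from hxU)
  let i := (Proj.affineOpenCover 𝒜).idx x
  have hy := (Proj.affineOpenCover 𝒜).covers x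
  have h2 := Proj.opensRange_awayι 𝒜 (i.2 : A) i.2.2 i.1.2
  have hxh : x ∈ Proj.basicOpen 𝒜 (i.2 : A) := by rw [← h2]; exact hy
  have hxa' : a ∉ x.asHomogeneousIdeal := hxa
  have hxh' : (i.2 : A) ∉ x.asHomogeneousIdeal := hxh
  have hcx : a * (i.2 : A) ∉ x.asHomogeneousIdeal := fun hm =>
    (x.isPrime.mem_or_mem hm).elim hxa' hxh'
  have hcnil : ¬ IsNilpotent (a * (i.2 : A)) := by
    rintro ⟨n, hn⟩
    exact hcx (x.isPrime.mem_of_pow_mem n (by rw [hn]; exact Ideal.zero_mem _))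
  have hφcnil : ¬ IsNilpotent (φ (a * (i.2 : A))) := by
    rintro ⟨n, hn⟩
    obtain ⟨m, hm⟩ := hker ((a * (i.2 : A)) ^ n) (by rw [map_pow]; exact hn)
    exact hcnil ⟨n * m, by rw [pow_mul, hm]⟩
  have hφcirr : φ (a * (i.2 : A)) ∈ (HomogeneousIdeal.irrelevant ℬ).toIdeal := by
    rw [map_mul]
    exact Ideal.mul_mem_left _ _ (HomogeneousIdeal.mem_irrelevant_of_mem ℬ i.1.2 (φ.2 i.2.2))
  obtain ⟨y, hyc⟩ : ∃ y : ProjectiveSpectrum ℬ, φ (a * (i.2 : A)) ∉ y.asHomogeneousIdeal := by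
    by_contra hall
    push_neg at hall
    exact hφcnil (helper6_nil_of_forall ℬ _ hφcirr hall)
  let y' : Proj ℬ := y
  have hy' : y' ∈ (Proj.map φ hφ) ⁻¹ᵁ Proj.basicOpen 𝒜 (a * (i.2 : A)) := by
    rw [Proj.map_preimage_basicOpen]; exact hyc
  have hmem : (Proj.map φ hφ).base y' ∈ Proj.basicOpen 𝒜 (a * (i.2 : A)) := hy'
  refine ⟨(Proj.map φ hφ).base y', ?_, ⟨y', rfl⟩⟩
  exact haU ((Proj.basicOpen_mono 𝒜 a (a * (i.2 : A)) (dvd_mul_right a _)) hmem)

end Groth.Agent.S3553
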