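import Groth.Statements.S3555
-- import your own Groth.Agent.* helpers here

set_option autoImplicit false
universe u
open CategoryTheory CategoryTheory.Limits AlgebraicGeometry
open EGA2

namespace Groth.Agent.S3555

lemma helper6_span {R A : Type u} [CommRing R] [CommRing A] [Algebra R A] (𝒜 : ℕ → Submodule R A)
    [GradedAlgebra 𝒜] {d : ℕ} (f : 𝒜 d) (p : ProjectiveSpectrum 𝒜)
    (hp : (f : A) ∉ p.asHomogeneousIdeal) (q : Twist.Loc 𝒜 p)
    (hq : q ∈ Twist.twistAt 𝒜 (d : ℤ) p) :
    ∃ c : Twist.A0 𝒜 p, c • (Localization.mk (f : A)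
      (1 : p.asHomogeneousIdeal.toIdeal.primeCompl) : Twist.Loc 𝒜 p) = q := by
  have hsmul : ∀ (c : Twist.A0 𝒜 p) (q : Twist.Loc 𝒜 p), c • q = c.val * q := fun c q => by
    rw [Algebra.smul_def, HomogeneousLocalization.algebraMap_apply]
  induction hq using Submodule.span_induction with
  | mem q hq =>
    obtain ⟨i, j, a, s, hs, hij, rfl⟩ := hq
    have hmem : s.1 * f.1 ∈ 𝒜 i := by
      have := SetLike.mul_mem_graded s.2 f.2
      have e : j + d = i := by omega
      rw [e] at this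
      exact this
    have hden : s.1 * f.1 ∈ p.asHomogeneousIdeal.toIdeal.primeCompl := fun h =>
      (p.isPrime.mem_or_mem h).elim hs hp
    refine ⟨HomogeneousLocalization.mk ⟨i, ⟨a.1, a.2⟩, ⟨s.1 * f.1, hmem⟩, hden⟩, ?_⟩
    rw [hsmul, HomogeneousLocalization.val_mk, Localization.mk_mul,
      Localization.mk_eq_mk_iff, Localization.r_iff_exists]
    refine ⟨1, ?_⟩
    simp only [Submonoid.coe_mul, OneMemClass.coe_one, one_mul, mul_one]
    ring
  | zero => exact ⟨0, by rw [hsmul, HomogeneousLocalization.val_zero, zero_mul]⟩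
  | add x y _ _ hx hy =>
    obtain ⟨c1, h1⟩ := hx
    obtain ⟨c2, h2⟩ := hy
    exact ⟨c1 + c2, by rw [add_smul, h1, h2]⟩
  | smul r x _ hx =>
    obtain ⟨c, h⟩ := hx
    exact ⟨r * c, by rw [← h, hsmul, hsmul, hsmul, HomogeneousLocalization.val_mul, mul_assoc]⟩

/-- Let S be a graded ring whose irrelevant ideal S_+ is generated by the degree-one elements, X = Proj
S, and f homogeneous of degree d > 0. Then D_+(f) is the set of points p of X at which the global
section f/1 of O_X(d) does not vanish, i.e. at which its value generates the module of degree-d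
fractions at p. -/
theorem result {R A : Type u} [CommRing R] [CommRing A] [Algebra R A] (𝒜 : ℕ → Submodule R A) [GradedAlgebra 𝒜]
    (hgen : (HomogeneousIdeal.irrelevant 𝒜).toIdeal = Ideal.span (𝒜 1 : Set A))
    {d : ℕ} (hd : 0 < d) (f : 𝒜 d) (p : ProjectiveSpectrum 𝒜) :
    p ∈ ProjectiveSpectrum.basicOpen 𝒜 (f : A) ↔
      Submodule.span (Twist.A0 𝒜 p) {(Twist.globalOf 𝒜 f).1 ⟨p, trivial⟩} = ⊤ := by
  classical
  have hg : (((Twist.globalOf 𝒜 f).1 ⟨p, trivial⟩ : Twist.twistAt 𝒜 (d : ℤ) p) : Twist.Loc 𝒜 p) =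
      Localization.mk (f : A) (1 : p.asHomogeneousIdeal.toIdeal.primeCompl) := rfl
  have hsmul : ∀ (c : Twist.A0 𝒜 p) (q : Twist.Loc 𝒜 p), c • q = c.val * q := fun c q => by
    rw [Algebra.smul_def, HomogeneousLocalization.algebraMap_apply]
  rw [ProjectiveSpectrum.mem_basicOpen]
  constructor
  · intro hp
    rw [eq_top_iff]
    rintro ⟨q, hq⟩ -
    rw [Submodule.mem_span_singleton]
    obtain ⟨c, hc⟩ := helper6_span 𝒜 f p hp q hq
    refine ⟨c, Subtype.ext ?_⟩
    rw [Submodule.coe_smul]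
    rw [hg]
    exact hc
  · intro htop hfp
    have ht : ∃ t ∈ 𝒜 1, t ∉ p.asHomogeneousIdeal.toIdeal := by
      by_contra hcon
      push_neg at hcon
      apply p.not_irrelevant_le
      intro a ha
      have ha' : a ∈ (HomogeneousIdeal.irrelevant 𝒜).toIdeal := ha
      rw [hgen] at ha'
      exact (Ideal.span_le.mpr (fun t ht => hcon t ht)) ha'
    obtain ⟨t, ht1, htp⟩ := ht
    have htd : t ^ d ∈ 𝒜 d := by
      have := SetLike.pow_mem_graded d ht1
      rw [smul_eq_mul, mul_one] at this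
      exact this
    have h1p : (1 : A) ∉ p.asHomogeneousIdeal.toIdeal := fun h =>
      p.isPrime.ne_top ((Ideal.eq_top_iff_one _).mpr h)
    have hq : Localization.mk (t ^ d) (⟨1, h1p⟩ : p.asHomogeneousIdeal.toIdeal.primeCompl) ∈
        Twist.twistAt 𝒜 (d : ℤ) p :=
      Submodule.subset_span ⟨d, 0, ⟨t ^ d, htd⟩, ⟨1, SetLike.GradedOne.one_mem⟩, h1p, by simp, rfl⟩
    have hmem : (⟨_, hq⟩ : Twist.twistAt 𝒜 (d : ℤ) p) ∈
        Submodule.span (Twist.A0 𝒜 p) {(Twist.globalOf 𝒜 f).1 ⟨p, trivial⟩} := by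
      rw [htop]; trivial
    rw [Submodule.mem_span_singleton] at hmem
    obtain ⟨c, hc⟩ := hmem
    have hc' := congrArg Subtype.val hc
    rw [Submodule.coe_smul] at hc'
    erw [hg] at hc'
    rw [hsmul, HomogeneousLocalization.eq_num_div_den, Localization.mk_mul,
      Localization.mk_eq_mk_iff, Localization.r_iff_exists] at hc'
    obtain ⟨u, hu⟩ := hc'
    simp only [Submonoid.coe_mul, one_mul, mul_one] at hu
    have h2 : (u : A) * (c.den * t ^ d) ∈ p.asHomogeneousIdeal.toIdeal := by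
      rw [← hu]
      exact Ideal.mul_mem_left _ _ (Ideal.mul_mem_left _ _ hfp)
    rcases p.isPrime.mem_or_mem h2 with h3 | h3
    · exact u.2 h3
    rcases p.isPrime.mem_or_mem h3 with h4 | h4
    · exact c.den_mem h4
    · exact htp (p.isPrime.mem_of_pow_mem d h4)

end Groth.Agent.S3555
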