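import Groth.Statements.S3556

set_option autoImplicit false
universe u
open CategoryTheory CategoryTheory.Limits AlgebraicGeometry
open EGA2

namespace Groth.Agent.S3556

/-- If the irrelevant ideal has no nonzero nilpotents, the localization at a homogeneous element of
positive degree is reduced. -/
lemma helper6_loc_reduced {R A : Type u} [CommRing R] [CommRing A] [Algebra R A]
    (𝒜 : ℕ → Submodule R A) [GradedAlgebra 𝒜]
    (hred : ∀ f ∈ (HomogeneousIdeal.irrelevant 𝒜).toIdeal, IsNilpotent f → f = 0)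
    (f : A) (hf : f ∈ (HomogeneousIdeal.irrelevant 𝒜).toIdeal) :
    _root_.IsReduced (Localization.Away f) := by
  constructor
  intro z ⟨m, hm⟩
  obtain ⟨⟨a, ⟨_, k, rfl⟩⟩, rfl⟩ := IsLocalization.mk'_surjective (Submonoid.powers f) z
  rw [← IsLocalization.mk'_pow, IsLocalization.mk'_eq_zero_iff] at hm
  obtain ⟨⟨_, N, rfl⟩, hN⟩ := hm
  have hN' : f ^ N * a ^ m = 0 := hN
  have hnil : IsNilpotent (f * a) := by
    refine ⟨N + m, ?_⟩
    calc (f * a) ^ (N + m) = (f ^ m * a ^ N) * (f ^ N * a ^ m) := by ring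
      _ = 0 := by rw [hN', mul_zero]
  have hfa : f * a = 0 := hred _ (Ideal.mul_mem_right _ _ hf) hnil
  rw [IsLocalization.mk'_eq_zero_iff]
  exact ⟨⟨f, 1, pow_one f⟩, hfa⟩

/-- If the irrelevant ideal S_+ of a graded ring S has no nonzero nilpotent elements, then Proj S is
reduced. -/
theorem result {R A : Type u} [CommRing R] [CommRing A] [Algebra R A] (𝒜 : ℕ → Submodule R A) [GradedAlgebra 𝒜]
    (hred : ∀ f ∈ (HomogeneousIdeal.irrelevant 𝒜).toIdeal, IsNilpotent f → f = 0) :
    AlgebraicGeometry.IsReduced (Proj 𝒜) := by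
  haveI : ∀ i, IsReduced ((Proj.affineOpenCover 𝒜).openCover.X i) := by
    intro i
    have hf : (i.2 : A) ∈ (HomogeneousIdeal.irrelevant 𝒜).toIdeal :=
      HomogeneousIdeal.mem_irrelevant_of_mem 𝒜 i.1.2 i.2.2
    haveI := helper6_loc_reduced 𝒜 hred _ hf
    haveI : _root_.IsReduced (HomogeneousLocalization.Away 𝒜 (i.2 : A)) :=
      isReduced_of_injective (algebraMap (HomogeneousLocalization.Away 𝒜 (i.2 : A))
        (Localization.Away (i.2 : A))) (HomogeneousLocalization.val_injective _)
    show IsReduced (Spec (CommRingCat.of (HomogeneousLocalization.Away 𝒜 (i.2 : A))))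
    infer_instance
  exact IsReduced.of_openCover _ (Proj.affineOpenCover 𝒜).openCover

end Groth.Agent.S3556
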