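import Groth.Statements.S3558

set_option autoImplicit false
universe u
open CategoryTheory CategoryTheory.Limits AlgebraicGeometry
open EGA2

namespace Groth.Agent.S3558

/-- Proj S is empty if and only if every element of the irrelevant ideal S_+ is nilpotent. -/
theorem result {R A : Type u} [CommRing R] [CommRing A] [Algebra R A] (𝒜 : ℕ → Submodule R A) [GradedAlgebra 𝒜] :
    IsEmpty (Proj 𝒜) ↔ ∀ f ∈ (HomogeneousIdeal.irrelevant 𝒜).toIdeal, IsNilpotent f := by
  constructor
  · intro hempty g hg
    have hrad : g ∈ (⊥ : Ideal A).radical := by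
      rw [(Ideal.IsHomogeneous.bot 𝒜).radical_eq, Ideal.mem_sInf]
      rintro J ⟨hJh, -, hJp⟩
      by_contra hgJ
      let y : ProjectiveSpectrum 𝒜 :=
        ⟨{ toSubmodule := J, is_homogeneous' := hJh }, hJp, fun h => hgJ (h hg)⟩
      let x : Proj 𝒜 := y
      exact hempty.false x
    obtain ⟨n, hn⟩ := hrad
    exact ⟨n, Ideal.mem_bot.mp hn⟩
  · intro h
    constructor
    intro x
    apply x.not_irrelevant_le
    intro g hg
    obtain ⟨n, hn⟩ := h g hg
    exact x.isPrime.mem_of_pow_mem n (by rw [hn]; exact Ideal.zero_mem _)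

end Groth.Agent.S3558
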