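import Groth.Statements.S3557
import Groth.Agent.S3556
import Groth.Agent.S3558

set_option autoImplicit false
universe u
open CategoryTheory CategoryTheory.Limits AlgebraicGeometry
open EGA2

namespace Groth.Agent.S3557

/-- An element of the irrelevant ideal lying in every relevant homogeneous prime is nilpotent. -/
lemma helper6_nil_of_forall {R A : Type u} [CommRing R] [CommRing A] [Algebra R A]
    (𝒜 : ℕ → Submodule R A) [GradedAlgebra 𝒜] (c : A)
    (hc : c ∈ (HomogeneousIdeal.irrelevant 𝒜).toIdeal)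
    (h : ∀ x : ProjectiveSpectrum 𝒜, c ∈ x.asHomogeneousIdeal) : IsNilpotent c := by
  have hrad : c ∈ (⊥ : Ideal A).radical := by
    rw [(Ideal.IsHomogeneous.bot 𝒜).radical_eq, Ideal.mem_sInf]
    rintro J ⟨hJh, -, hJp⟩
    by_contra hcJ
    exact hcJ (h ⟨{ toSubmodule := J, is_homogeneous' := hJh }, hJp, fun h' => hcJ (h' hc)⟩)
  obtain ⟨n, hn⟩ := hrad
  exact ⟨n, Ideal.mem_bot.mp hn⟩

/-- Every relevant prime misses some homogeneous element of positive degree. -/
lemma helper6_exists_pos {R A : Type u} [CommRing R] [CommRing A] [Algebra R A]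
    (𝒜 : ℕ → Submodule R A) [GradedAlgebra 𝒜] (x : Proj 𝒜) :
    ∃ h ∈ (HomogeneousIdeal.irrelevant 𝒜).toIdeal, h ∉ x.asHomogeneousIdeal := by
  let i := (Proj.affineOpenCover 𝒜).idx x
  have hy := (Proj.affineOpenCover 𝒜).covers x
  have h2 := Proj.opensRange_awayι 𝒜 (i.2 : A) i.2.2 i.1.2
  have hx : x ∈ Proj.basicOpen 𝒜 (i.2 : A) := by rw [← h2]; exact hy
  exact ⟨i.2, HomogeneousIdeal.mem_irrelevant_of_mem 𝒜 i.1.2 i.2.2, hx⟩

/-- Let S be a graded ring which is essentially reduced (S_+ contains no nonzero nilpotent). Then Proj S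
is an integral scheme if and only if S is essentially integral, i.e. S_+ is nonzero and the product
of two nonzero elements of S_+ is nonzero. -/
theorem result {R A : Type u} [CommRing R] [CommRing A] [Algebra R A] (𝒜 : ℕ → Submodule R A) [GradedAlgebra 𝒜]
    (hred : ∀ f ∈ (HomogeneousIdeal.irrelevant 𝒜).toIdeal, IsNilpotent f → f = 0) :
    AlgebraicGeometry.IsIntegral (Proj 𝒜) ↔
      ((∃ f ∈ (HomogeneousIdeal.irrelevant 𝒜).toIdeal, f ≠ 0) ∧
        ∀ f ∈ (HomogeneousIdeal.irrelevant 𝒜).toIdeal, ∀ g ∈ (HomogeneousIdeal.irrelevant 𝒜).toIdeal,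
          f * g = 0 → f = 0 ∨ g = 0) := by
  constructor
  · intro hint
    refine ⟨?_, ?_⟩
    · have hne : ¬ IsEmpty (Proj 𝒜) := by
        intro he
        obtain ⟨x⟩ := hint.nonempty
        exact he.false x
      rw [Groth.Agent.S3558.result] at hne
      push_neg at hne
      obtain ⟨f, hf, hfn⟩ := hne
      exact ⟨f, hf, fun h0 => hfn (h0 ▸ IsNilpotent.zero)⟩
    · intro f hf g hg hfg
      haveI : IrreducibleSpace (Proj 𝒜) := inferInstance
      have hcl1 : IsClosed (ProjectiveSpectrum.zeroLocus 𝒜 {f}) :=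
        ProjectiveSpectrum.isClosed_zeroLocus 𝒜 {f}
      have hcl2 : IsClosed (ProjectiveSpectrum.zeroLocus 𝒜 {g}) :=
        ProjectiveSpectrum.isClosed_zeroLocus 𝒜 {g}
      have hcov : (Set.univ : Set (Proj 𝒜)) ⊆
          ProjectiveSpectrum.zeroLocus 𝒜 {f} ∪ ProjectiveSpectrum.zeroLocus 𝒜 {g} := by
        intro x _
        have : f * g ∈ x.asHomogeneousIdeal := by rw [hfg]; exact Ideal.zero_mem _
        rcases x.isPrime.mem_or_mem this with h | h
        · left; exact (ProjectiveSpectrum.mem_zeroLocus _ _ _).mpr (Set.singleton_subset_iff.mpr h)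
        · right; exact (ProjectiveSpectrum.mem_zeroLocus _ _ _).mpr (Set.singleton_subset_iff.mpr h)
      rcases isPreirreducible_iff_isClosed_union_isClosed.mp
        (IrreducibleSpace.isIrreducible_univ (Proj 𝒜)).isPreirreducible _ _ hcl1 hcl2 hcov with h | h
      · left
        apply hred f hf
        apply helper6_nil_of_forall 𝒜 f hf
        intro x
        have := h (Set.mem_univ (x : Proj 𝒜))
        exact Set.singleton_subset_iff.mp ((ProjectiveSpectrum.mem_zeroLocus _ _ _).mp this)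
      · right
        apply hred g hg
        apply helper6_nil_of_forall 𝒜 g hg
        intro x
        have := h (Set.mem_univ (x : Proj 𝒜))
        exact Set.singleton_subset_iff.mp ((ProjectiveSpectrum.mem_zeroLocus _ _ _).mp this)
  · rintro ⟨⟨f₀, hf₀, hf₀ne⟩, hdom⟩
    haveI : IsReduced (Proj 𝒜) := Groth.Agent.S3556.result 𝒜 hred
    -- a point of D₊(c) exists as soon as `c ∈ S₊` is nonzero
    have hpt : ∀ c ∈ (HomogeneousIdeal.irrelevant 𝒜).toIdeal, c ≠ 0 →
        ∃ x : Proj 𝒜, c ∉ x.asHomogeneousIdeal := by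
      intro c hc hc0
      by_contra hall
      push_neg at hall
      exact hc0 (hred c hc (helper6_nil_of_forall 𝒜 c hc hall))
    obtain ⟨x₀, -⟩ := hpt f₀ hf₀ hf₀ne
    haveI : Nonempty (Proj 𝒜) := ⟨x₀⟩
    haveI : PreirreducibleSpace (Proj 𝒜) := by
      constructor
      rintro U V hU hV ⟨x, -, hxU⟩ ⟨y, -, hyV⟩
      have hB : ∀ {W : TopologicalSpace.Opens (Proj 𝒜)} {w : Proj 𝒜}, w ∈ W →
          ∃ W' ∈ Set.range (Proj.basicOpen 𝒜), w ∈ W' ∧ W' ≤ W :=
        TopologicalSpace.Opens.isBasis_iff_nbhd.mp (Proj.isBasis_basicOpen 𝒜)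
      obtain ⟨_, ⟨a, rfl⟩, hxa, haU⟩ :=
        hB (W := ⟨U, hU⟩) (show x ∈ (⟨U, hU⟩ : TopologicalSpace.Opens (Proj 𝒜)) from hxU)
      obtain ⟨_, ⟨b, rfl⟩, hyb, hbV⟩ :=
        hB (W := ⟨V, hV⟩) (show y ∈ (⟨V, hV⟩ : TopologicalSpace.Opens (Proj 𝒜)) from hyV)
      obtain ⟨h₁, hh₁, hxh₁⟩ := helper6_exists_pos 𝒜 x
      obtain ⟨h₂, hh₂, hyh₂⟩ := helper6_exists_pos 𝒜 y
      have hxa' : a ∉ x.asHomogeneousIdeal := hxa
      have hyb' : b ∉ y.asHomogeneousIdeal := hyb
      have hc₁ : a * h₁ ∉ x.asHomogeneousIdeal := fun hm =>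
        (x.isPrime.mem_or_mem hm).elim hxa' hxh₁
      have hc₂ : b * h₂ ∉ y.asHomogeneousIdeal := fun hm =>
        (y.isPrime.mem_or_mem hm).elim hyb' hyh₂
      have hi₁ : a * h₁ ∈ (HomogeneousIdeal.irrelevant 𝒜).toIdeal := Ideal.mul_mem_left _ _ hh₁
      have hi₂ : b * h₂ ∈ (HomogeneousIdeal.irrelevant 𝒜).toIdeal := Ideal.mul_mem_left _ _ hh₂
      have hne₁ : a * h₁ ≠ 0 := fun h0 => hc₁ (by rw [h0]; exact Ideal.zero_mem _)
      have hne₂ : b * h₂ ≠ 0 := fun h0 => hc₂ (by rw [h0]; exact Ideal.zero_mem _)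
      have hprod : (a * h₁) * (b * h₂) ≠ 0 := by
        intro h0
        rcases hdom _ hi₁ _ hi₂ h0 with h | h
        · exact hne₁ h
        · exact hne₂ h
      obtain ⟨z, hz⟩ := hpt _ (Ideal.mul_mem_right _ _ hi₁) hprod
      refine ⟨z, Set.mem_univ _, ?_, ?_⟩
      · apply haU
        show a ∉ z.asHomogeneousIdeal
        intro ha
        exact hz (Ideal.mul_mem_right _ _ (Ideal.mul_mem_right _ _ ha))
      · apply hbV
        show b ∉ z.asHomogeneousIdeal
        intro hb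
        exact hz (Ideal.mul_mem_left _ _ (Ideal.mul_mem_right _ _ hb))
    haveI : IrreducibleSpace (Proj 𝒜) := { toNonempty := ⟨x₀⟩ }
    exact isIntegral_of_irreducibleSpace_of_isReduced (Proj 𝒜)

end Groth.Agent.S3557
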