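import Groth.Statements.S3559

set_option autoImplicit false
universe u
open CategoryTheory CategoryTheory.Limits AlgebraicGeometry
open EGA2

namespace Groth.Agent.S3559

/-- Let S be a graded ring and (f_i) a family of homogeneous elements of positive degree. The opens
D_+(f_i) cover Proj S if and only if every element of S_+ has a power in the ideal generated by the
f_i. -/
theorem result {R A : Type u} [CommRing R] [CommRing A] [Algebra R A] (𝒜 : ℕ → Submodule R A) [GradedAlgebra 𝒜]
    {ι : Type u} (f : ι → A) (hf : ∀ i, ∃ d : ℕ, 0 < d ∧ f i ∈ 𝒜 d) :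
    (⨆ i, Proj.basicOpen 𝒜 (f i)) = ⊤ ↔
      (HomogeneousIdeal.irrelevant 𝒜).toIdeal ≤ (Ideal.span (Set.range f)).radical := by
  have hhom : (Ideal.span (Set.range f)).IsHomogeneous 𝒜 := by
    apply Ideal.homogeneous_span
    rintro _ ⟨i, rfl⟩
    obtain ⟨d, -, hd⟩ := hf i
    exact ⟨d, hd⟩
  constructor
  · intro hcov g hg
    rw [hhom.radical_eq, Ideal.mem_sInf]
    rintro J ⟨hJh, hJle, hJp⟩
    by_contra hgJ
    let y : ProjectiveSpectrum 𝒜 :=
      ⟨{ toSubmodule := J, is_homogeneous' := hJh }, hJp, fun h => hgJ (h hg)⟩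
    let x : Proj 𝒜 := y
    have hx : x ∈ (⨆ i, Proj.basicOpen 𝒜 (f i)) := by rw [hcov]; trivial
    rw [TopologicalSpace.Opens.mem_iSup] at hx
    obtain ⟨i, hi⟩ := hx
    rw [Proj.mem_basicOpen] at hi
    exact hi (hJle (Ideal.subset_span ⟨i, rfl⟩))
  · intro hle
    refine top_le_iff.mp fun x _ => ?_
    rw [TopologicalSpace.Opens.mem_iSup]
    by_contra! H
    simp only [Proj.mem_basicOpen, not_not] at H
    apply x.not_irrelevant_le
    intro g hg
    have h1 := hle hg
    have hspan : Ideal.span (Set.range f) ≤ x.asHomogeneousIdeal.toIdeal := by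
      rw [Ideal.span_le, Set.range_subset_iff]; exact H
    exact (Ideal.IsPrime.radical_le_iff x.isPrime).mpr hspan h1

end Groth.Agent.S3559
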