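import Groth.Statements.S3560
-- import your own Groth.Agent.* helpers here

set_option autoImplicit false
universe u
open CategoryTheory CategoryTheory.Limits AlgebraicGeometry
open EGA2

namespace Groth.Agent.S3560

/-- Let S be a graded ring whose irrelevant ideal S_+ is finitely generated. Then Proj S is empty if and
only if there is n such that S_k = 0 for all k ≥ n. -/
theorem result {R A : Type u} [CommRing R] [CommRing A] [Algebra R A] (𝒜 : ℕ → Submodule R A) [GradedAlgebra 𝒜]
    (hfg : (HomogeneousIdeal.irrelevant 𝒜).toIdeal.FG) :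
    IsEmpty (Proj 𝒜) ↔ ∃ n : ℕ, ∀ k : ℕ, n ≤ k → 𝒜 k = ⊥ := by
  classical
  constructor
  · intro hE
    have hrad : (HomogeneousIdeal.irrelevant 𝒜).toIdeal ≤ (⊥ : Ideal A).radical := by
      rw [Ideal.IsHomogeneous.radical_eq (𝒜 := 𝒜) (Ideal.IsHomogeneous.bot 𝒜)]
      intro a ha
      rw [Submodule.mem_sInf]
      rintro J ⟨hJh, -, hJp⟩
      by_contra haJ
      let x : ProjectiveSpectrum 𝒜 := ⟨⟨J, hJh⟩, hJp, fun hle => haJ (hle ha)⟩
      exact hE.false x
    obtain ⟨N, hN⟩ := Ideal.exists_pow_le_of_le_radical_of_fg hrad hfg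
    obtain ⟨s, hs⟩ := hfg
    let D : ℕ := s.sup (fun g => (DirectSum.decompose 𝒜 g).support.sup id)
    let T : Set A := {h | ∃ l, 0 < l ∧ l ≤ D ∧ h ∈ 𝒜 l}
    have hT : (HomogeneousIdeal.irrelevant 𝒜).toIdeal ≤ Ideal.span T := by
      rw [← hs, Ideal.span_le]
      intro g hg
      have hg' : g ∈ (HomogeneousIdeal.irrelevant 𝒜).toIdeal := hs ▸ Ideal.subset_span hg
      rw [← DirectSum.sum_support_decompose 𝒜 g]
      refine Ideal.sum_mem _ (fun i hi => Ideal.subset_span ?_)
      refine ⟨i, ?_, ?_, (DirectSum.decompose 𝒜 g i).2⟩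
      · rcases Nat.eq_zero_or_pos i with h0 | h0
        · exfalso
          subst h0
          rw [DFinsupp.mem_support_iff] at hi
          apply hi
          have := (HomogeneousIdeal.mem_irrelevant_iff 𝒜 g).mp hg'
          rw [GradedRing.proj_apply] at this
          exact Subtype.ext this
        · exact h0
      · exact le_trans (Finset.le_sup (f := id) hi)
          (Finset.le_sup (f := fun g => (DirectSum.decompose 𝒜 g).support.sup id) hg)
    have hTirr : ∀ h ∈ T, h ∈ (HomogeneousIdeal.irrelevant 𝒜).toIdeal := by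
      rintro h ⟨l, hl0, -, hl⟩
      exact HomogeneousIdeal.mem_irrelevant_of_mem 𝒜 hl0 hl
    have key : ∀ m k, m * (D + 1) ≤ k → ∀ a ∈ 𝒜 k,
        a ∈ (HomogeneousIdeal.irrelevant 𝒜).toIdeal ^ m := by
      intro m
      induction m with
      | zero => intro k _ a _; simp
      | succ m ih =>
        intro k hk a ha
        have hk0 : 0 < k := by nlinarith
        have ha' : a ∈ Ideal.span T := hT (HomogeneousIdeal.mem_irrelevant_of_mem 𝒜 hk0 ha)
        obtain ⟨n, f, g, hfg⟩ := Submodule.mem_span_set'.mp ha'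
        have : a = (DirectSum.decompose 𝒜 a k : A) := (DirectSum.decompose_of_mem_same 𝒜 ha).symm
        rw [this, ← hfg, DirectSum.decompose_sum, DFinsupp.finsetSum_apply,
          AddSubmonoidClass.coe_finsetSum]
        refine Ideal.sum_mem _ (fun i _ => ?_)
        obtain ⟨l, hl0, hlD, hl⟩ := (g i).2
        rw [smul_eq_mul, DirectSum.coe_decompose_mul_of_right_mem 𝒜 k hl, if_pos (by nlinarith)]
        rw [pow_succ]
        exact Ideal.mul_mem_mul (ih (k - l) (by
          have : m * (D + 1) + (D + 1) ≤ k := by nlinarith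
          omega) _ (DirectSum.decompose 𝒜 (f i) (k - l)).2) (hTirr _ (g i).2)
    refine ⟨N * (D + 1), fun k hk => ?_⟩
    rw [eq_bot_iff]
    intro a ha
    have := hN (key N k hk a ha)
    rw [Ideal.mem_bot] at this
    rw [this]
    exact zero_mem _
  · rintro ⟨n, hn⟩
    constructor
    intro x'
    let x : ProjectiveSpectrum 𝒜 := x'
    apply x.not_irrelevant_le
    intro a ha
    show a ∈ x.asHomogeneousIdeal.toIdeal
    rw [Submodule.IsHomogeneous.mem_iff 𝒜 x.asHomogeneousIdeal.isHomogeneous]
    intro i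
    rcases Nat.eq_zero_or_pos i with h0 | h0
    · subst h0
      have := (HomogeneousIdeal.mem_irrelevant_iff 𝒜 a).mp ha
      rw [GradedRing.proj_apply] at this
      rw [this]
      exact zero_mem _
    · have hp : (DirectSum.decompose 𝒜 a i : A) ^ n ∈ 𝒜 (n • i) :=
        SetLike.pow_mem_graded n (DirectSum.decompose 𝒜 a i).2
      rw [hn (n • i) (by rw [smul_eq_mul]; exact Nat.le_mul_of_pos_right n h0)] at hp
      have h0' : (DirectSum.decompose 𝒜 a i : A) ^ n = 0 := by
        simpa using hp
      exact x.isPrime.mem_of_pow_mem n (h0' ▸ zero_mem _)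

end Groth.Agent.S3560
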