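import Groth.Statements.S3563

set_option autoImplicit false
universe u
open CategoryTheory CategoryTheory.Limits AlgebraicGeometry
open EGA2

namespace Groth.Agent.S3563

lemma helper6_awayMap_surjective {R A : Type u} [CommRing R] [CommRing A] [Algebra R A]
    (𝒜 : ℕ → Submodule R A) [GradedAlgebra 𝒜]
    {B : Type u} [CommRing B] [Algebra R B] (ℬ : ℕ → Submodule R B) [GradedAlgebra ℬ]
    (φ : 𝒜 →+*ᵍ ℬ) (hsurj : Function.Surjective φ) {d : ℕ} (s : A) (hs : s ∈ 𝒜 d) :
    Function.Surjective (HomogeneousLocalization.Away.map φ s) := by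
  intro y
  obtain ⟨n, b, hb, rfl⟩ := HomogeneousLocalization.Away.mk_surjective ℬ (Graded.map_mem φ hs) y
  obtain ⟨a, rfl⟩ := hsurj b
  refine ⟨HomogeneousLocalization.Away.mk 𝒜 hs n (DirectSum.decompose 𝒜 a (n • d))
    (SetLike.coe_mem _), ?_⟩
  rw [HomogeneousLocalization.Away.map_mk]
  have : φ ((DirectSum.decompose 𝒜 a (n • d) : A)) = φ a := by
    rw [GradedRingHom.map_directSumDecompose, DirectSum.decompose_of_mem_same ℬ hb]
  congr 1

lemma helper6_key {R A : Type u} [CommRing R] [CommRing A] [Algebra R A]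
    (𝒜 : ℕ → Submodule R A) [GradedAlgebra 𝒜]
    {B : Type u} [CommRing B] [Algebra R B] (ℬ : ℕ → Submodule R B) [GradedAlgebra ℬ]
    (φ : 𝒜 →+*ᵍ ℬ) (hsurj : Function.Surjective φ)
    (hφ : HomogeneousIdeal.irrelevant ℬ ≤ (HomogeneousIdeal.irrelevant 𝒜).map φ)
    (s : A) {d : ℕ} (hs : s ∈ 𝒜 d) (hd : 0 < d) :
    IsClosedImmersion (pullback.snd (Proj.map φ hφ) (Proj.awayι 𝒜 s hs hd)) := by
  have hpb : IsPullback (Spec.map (CommRingCat.ofHom (HomogeneousLocalization.Away.map φ s)))
      (Proj.awayι ℬ (φ s) (Graded.map_mem φ hs) hd) (Proj.awayι 𝒜 s hs hd)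
      (Proj.map φ hφ) := by
    apply IsOpenImmersion.isPullback
    · exact Proj.awayι_comp_map φ hφ hd s hs
    · rw [Proj.opensRange_awayι, Proj.opensRange_awayι, Proj.map_preimage_basicOpen]
  haveI : IsClosedImmersion
      (Spec.map (CommRingCat.ofHom (HomogeneousLocalization.Away.map φ s))) :=
    IsClosedImmersion.spec_of_surjective _ (helper6_awayMap_surjective 𝒜 ℬ φ hsurj _ hs)
  have e := hpb.flip.isoPullback_hom_snd
  rw [(Iso.eq_inv_comp _).mpr e]
  infer_instance

/-- Let φ : S → S' be a surjective homomorphism of graded rings (graded algebras over a base ring R).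
Then the induced morphism Proj S' → Proj S is defined everywhere and is a closed immersion. The
hypothesis that the irrelevant ideal of S' is contained in the extension of the irrelevant ideal of
S, needed to define the morphism on all of Proj S', is carried explicitly; it follows from
surjectivity. This is the case of a surjective φ; the published statement is more general. -/
theorem result {R A : Type u} [CommRing R] [CommRing A] [Algebra R A] (𝒜 : ℕ → Submodule R A) [GradedAlgebra 𝒜]
    {B : Type u} [CommRing B] [Algebra R B] (ℬ : ℕ → Submodule R B) [GradedAlgebra ℬ]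
    (φ : 𝒜 →+*ᵍ ℬ) (hsurj : Function.Surjective φ)
    (hφ : HomogeneousIdeal.irrelevant ℬ ≤ (HomogeneousIdeal.irrelevant 𝒜).map φ) :
    IsClosedImmersion (Proj.map φ hφ) := by
  apply IsZariskiLocalAtTarget.of_openCover (Proj.affineOpenCover 𝒜).openCover
  intro i
  exact helper6_key 𝒜 ℬ φ hsurj hφ (i.2 : A) i.2.2 i.1.2

end Groth.Agent.S3563
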