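import Groth.Statements.S3570
-- import your own Groth.Agent.* helpers here

set_option autoImplicit false
universe u
open CategoryTheory CategoryTheory.Limits AlgebraicGeometry
open EGA2

namespace Groth.Agent.S3570

set_option backward.isDefEq.respectTransparency false in
/-- Let f : X → S and g : Y → S be affine morphisms and h : Y → X an S-morphism. Then h is an
isomorphism if and only if A(h) : f_*O_X → g_*O_Y is an isomorphism (of presheaves of rings on S). -/
theorem result {X Y S : Scheme.{u}} (f : X ⟶ S) [IsAffineHom f] (g : Y ⟶ S)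
    [IsAffineHom g] (h : Y ⟶ X) (w : h ≫ f = g) :
    IsIso h ↔ IsIso (AffAlg.algHom f g h w) := by
  subst w
  have happ : ∀ U : S.Opens, (AffAlg.algHom f (h ≫ f) h rfl).app (Opposite.op U) = h.app (f ⁻¹ᵁ U) :=
    fun U => rfl
  constructor
  · intro hiso
    have : ∀ U : S.Opens, IsIso ((AffAlg.algHom f (h ≫ f) h rfl).app (Opposite.op U)) := fun U => by
      rw [happ]; infer_instance
    have : ∀ U : (S.Opens)ᵒᵖ, IsIso ((AffAlg.algHom f (h ≫ f) h rfl).app U) := fun U => this U.unop
    exact NatIso.isIso_of_isIso_app _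
  · intro hA
    have hU : ∀ U : S.Opens, IsIso (h.app (f ⁻¹ᵁ U)) := fun U => by
      rw [← happ]; infer_instance
    have hgen : ∀ {W W' : X.Opens} (e : W = W'), IsIso (h.app W) → IsIso (h.app W') := by
      rintro W W' rfl hs
      exact hs
    show (MorphismProperty.isomorphisms Scheme) h
    have hcov : ⨆ V : S.affineOpens, f ⁻¹ᵁ V.1 = ⊤ := by
      rw [← Scheme.Hom.preimage_iSup, AlgebraicGeometry.iSup_affineOpens_eq_top S,
        Scheme.Hom.preimage_top]
    rw [IsZariskiLocalAtTarget.iff_of_iSup_eq_top (P := MorphismProperty.isomorphisms Scheme) _ hcov]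
    intro V
    have : IsAffine (f ⁻¹ᵁ V.1).toScheme := V.2.preimage f
    have : IsAffine (h ⁻¹ᵁ f ⁻¹ᵁ V.1).toScheme := V.2.preimage (h ≫ f)
    have h1 : IsIso (h.app ((f ⁻¹ᵁ V.1).ι ''ᵁ ⊤)) :=
      hgen (Scheme.Opens.ι_image_top (f ⁻¹ᵁ V.1)).symm (hU V.1)
    have hc : IsIso (h.app ((f ⁻¹ᵁ V.1).ι ''ᵁ ⊤) ≫ Y.presheaf.map
        (eqToHom (image_morphismRestrict_preimage h (f ⁻¹ᵁ V.1) ⊤)).op) := inferInstance
    have hiso : IsIso (h ∣_ f ⁻¹ᵁ V.1).appTop := by
      rw [morphismRestrict_appTop]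
      exact hc
    exact (MorphismProperty.arrow_mk_iso_iff (MorphismProperty.isomorphisms _)
      (arrowIsoSpecΓOfIsAffine _)).mpr (inferInstanceAs (IsIso (Spec.map _)))

end Groth.Agent.S3570
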