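import Groth.Statements.S3578

set_option autoImplicit false
universe u
open EGA2

namespace Groth.Agent.S3578

/-- Every relevant prime misses some element of the irrelevant ideal. -/
lemma helper6_exists_pos' {R A : Type u} [CommRing R] [CommRing A] [Algebra R A]
    (𝒜 : ℕ → Submodule R A) [GradedAlgebra 𝒜] (x : ProjectiveSpectrum 𝒜) :
    ∃ h ∈ (HomogeneousIdeal.irrelevant 𝒜).toIdeal, h ∉ x.asHomogeneousIdeal := by
  have := x.not_irrelevant_le
  by_contra hall
  push_neg at hall
  exact this hall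

/-- Let S be a graded ring. A closed subset Z of Proj S is irreducible if and only if its ideal I(Z) is
"relevant prime" relative to S_+: it does not contain S_+, and for f, g ∈ S_+ with f g ∈ I(Z) one
has f ∈ I(Z) or g ∈ I(Z). -/
theorem result {R A : Type u} [CommRing R] [CommRing A] [Algebra R A] (𝒜 : ℕ → Submodule R A) [GradedAlgebra 𝒜]
    (Z : Set (ProjectiveSpectrum 𝒜)) (hZ : IsClosed Z) :
    IsIrreducible Z ↔
      (¬ (HomogeneousIdeal.irrelevant 𝒜).toIdeal ≤ (ProjectiveSpectrum.vanishingIdeal Z).toIdeal ∧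
        ∀ f ∈ (HomogeneousIdeal.irrelevant 𝒜).toIdeal, ∀ g ∈ (HomogeneousIdeal.irrelevant 𝒜).toIdeal,
          f * g ∈ (ProjectiveSpectrum.vanishingIdeal Z).toIdeal →
            f ∈ (ProjectiveSpectrum.vanishingIdeal Z).toIdeal ∨ g ∈ (ProjectiveSpectrum.vanishingIdeal Z).toIdeal) := by
  constructor
  · intro hirr
    refine ⟨?_, ?_⟩
    · intro hle
      obtain ⟨x, hx⟩ := hirr.nonempty
      apply x.not_irrelevant_le
      intro g hg
      exact (ProjectiveSpectrum.mem_vanishingIdeal Z g).mp (hle hg) x hx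
    · intro f _ g _ hfg
      have hcl1 : IsClosed (ProjectiveSpectrum.zeroLocus 𝒜 {f}) :=
        ProjectiveSpectrum.isClosed_zeroLocus 𝒜 {f}
      have hcl2 : IsClosed (ProjectiveSpectrum.zeroLocus 𝒜 {g}) :=
        ProjectiveSpectrum.isClosed_zeroLocus 𝒜 {g}
      have hcov : Z ⊆ ProjectiveSpectrum.zeroLocus 𝒜 {f} ∪ ProjectiveSpectrum.zeroLocus 𝒜 {g} := by
        intro x hx
        have : f * g ∈ x.asHomogeneousIdeal :=
          (ProjectiveSpectrum.mem_vanishingIdeal Z _).mp hfg x hx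
        rcases x.isPrime.mem_or_mem this with h | h
        · left; exact (ProjectiveSpectrum.mem_zeroLocus _ _ _).mpr (Set.singleton_subset_iff.mpr h)
        · right; exact (ProjectiveSpectrum.mem_zeroLocus _ _ _).mpr (Set.singleton_subset_iff.mpr h)
      rcases isPreirreducible_iff_isClosed_union_isClosed.mp hirr.isPreirreducible _ _ hcl1 hcl2
        hcov with h | h
      · left
        refine (ProjectiveSpectrum.mem_vanishingIdeal Z f).mpr fun x hx => ?_
        exact Set.singleton_subset_iff.mp ((ProjectiveSpectrum.mem_zeroLocus _ _ _).mp (h hx))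
      · right
        refine (ProjectiveSpectrum.mem_vanishingIdeal Z g).mpr fun x hx => ?_
        exact Set.singleton_subset_iff.mp ((ProjectiveSpectrum.mem_zeroLocus _ _ _).mp (h hx))
  · rintro ⟨hrel, hprime⟩
    refine ⟨?_, ?_⟩
    · by_contra hne
      rw [Set.not_nonempty_iff_eq_empty] at hne
      apply hrel
      intro g _
      refine (ProjectiveSpectrum.mem_vanishingIdeal Z g).mpr ?_
      intro x hx
      rw [hne] at hx
      exact absurd hx (Set.notMem_empty x)
    · rintro U V hU hV ⟨x, hxZ, hxU⟩ ⟨y, hyZ, hyV⟩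
      have hB := ProjectiveSpectrum.isTopologicalBasis_basic_opens 𝒜
      obtain ⟨_, ⟨a, rfl⟩, hxa, haU⟩ := hB.exists_subset_of_mem_open hxU hU
      obtain ⟨_, ⟨b, rfl⟩, hyb, hbV⟩ := hB.exists_subset_of_mem_open hyV hV
      obtain ⟨h₁, hh₁, hxh₁⟩ := helper6_exists_pos' 𝒜 x
      obtain ⟨h₂, hh₂, hyh₂⟩ := helper6_exists_pos' 𝒜 y
      have hxa' : a ∉ x.asHomogeneousIdeal := hxa
      have hyb' : b ∉ y.asHomogeneousIdeal := hyb
      have hc₁ : a * h₁ ∉ x.asHomogeneousIdeal := fun hm =>
        (x.isPrime.mem_or_mem hm).elim hxa' hxh₁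
      have hc₂ : b * h₂ ∉ y.asHomogeneousIdeal := fun hm =>
        (y.isPrime.mem_or_mem hm).elim hyb' hyh₂
      have hi₁ : a * h₁ ∈ (HomogeneousIdeal.irrelevant 𝒜).toIdeal := Ideal.mul_mem_left _ _ hh₁
      have hi₂ : b * h₂ ∈ (HomogeneousIdeal.irrelevant 𝒜).toIdeal := Ideal.mul_mem_left _ _ hh₂
      have hn₁ : a * h₁ ∉ (ProjectiveSpectrum.vanishingIdeal Z).toIdeal := fun hm =>
        hc₁ ((ProjectiveSpectrum.mem_vanishingIdeal Z _).mp hm x hxZ)
      have hn₂ : b * h₂ ∉ (ProjectiveSpectrum.vanishingIdeal Z).toIdeal := fun hm =>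
        hc₂ ((ProjectiveSpectrum.mem_vanishingIdeal Z _).mp hm y hyZ)
      have hprod : (a * h₁) * (b * h₂) ∉ (ProjectiveSpectrum.vanishingIdeal Z).toIdeal := by
        intro hm
        rcases hprime _ hi₁ _ hi₂ hm with h | h
        · exact hn₁ h
        · exact hn₂ h
      have : ¬ ∀ z ∈ Z, (a * h₁) * (b * h₂) ∈ z.asHomogeneousIdeal := fun hall =>
        hprod ((ProjectiveSpectrum.mem_vanishingIdeal Z _).mpr hall)
      push_neg at this
      obtain ⟨z, hzZ, hz⟩ := this
      refine ⟨z, hzZ, ?_, ?_⟩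
      · apply haU
        show a ∉ z.asHomogeneousIdeal
        intro ha
        exact hz (Ideal.mul_mem_right _ _ (Ideal.mul_mem_right _ _ ha))
      · apply hbV
        show b ∉ z.asHomogeneousIdeal
        intro hb
        exact hz (Ideal.mul_mem_left _ _ (Ideal.mul_mem_right _ _ hb))

end Groth.Agent.S3578
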