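import Groth.Statements.S3582

set_option autoImplicit false
universe u
open CategoryTheory CategoryTheory.Limits AlgebraicGeometry
open EGA2

namespace Groth.Agent.S3582

section

variable (n : ℕ) (R : Type u) [CommRing R]

/-- The evaluation at `(1, 0, …, 0)`. -/
noncomputable def helper6ev : MvPolynomial (Fin (n + 1)) R →+* R :=
  MvPolynomial.eval (fun i => if i = 0 then 1 else 0)

lemma helper6ev_X0 : helper6ev n R (MvPolynomial.X 0) = 1 := by
  simp [helper6ev]

lemma helper6X0_mem : (MvPolynomial.X 0 : MvPolynomial (Fin (n + 1)) R) ∈ CohB1.polyGrading n R 1 :=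
  MvPolynomial.isHomogeneous_X R 0

/-- The ring map `(R[T]_{T₀})₀ → R` evaluating at `(1, 0, …, 0)`. -/
noncomputable def helper6psi :
    HomogeneousLocalization.Away (CohB1.polyGrading n R) (MvPolynomial.X 0) →+* R :=
  (IsLocalization.Away.lift (MvPolynomial.X 0) (g := helper6ev n R)
    (by rw [helper6ev_X0]; exact isUnit_one)).comp
    (algebraMap (HomogeneousLocalization.Away (CohB1.polyGrading n R) (MvPolynomial.X 0))
      (Localization.Away (MvPolynomial.X 0 : MvPolynomial (Fin (n + 1)) R)))

lemma helper6_comp :
    (helper6psi n R).comp ((HomogeneousLocalization.fromZeroRingHom (CohB1.polyGrading n R) _).comp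
      (algebraMap R (CohB1.polyGrading n R 0))) = RingHom.id R := by
  ext r
  simp only [helper6psi, RingHom.comp_apply, RingHom.id_apply]
  have h1 : (algebraMap (HomogeneousLocalization.Away (CohB1.polyGrading n R) (MvPolynomial.X 0))
      (Localization.Away (MvPolynomial.X 0 : MvPolynomial (Fin (n + 1)) R)))
      (HomogeneousLocalization.fromZeroRingHom (CohB1.polyGrading n R)
      (Submonoid.powers (MvPolynomial.X 0)) (algebraMap R (CohB1.polyGrading n R 0) r)) =
      algebraMap (MvPolynomial (Fin (n + 1)) R)
        (Localization.Away (MvPolynomial.X 0 : MvPolynomial (Fin (n + 1)) R)) (MvPolynomial.C r) := by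
    rw [← Localization.mk_one_eq_algebraMap]
    rfl
  rw [h1, IsLocalization.Away.lift_eq]
  simp [helper6ev]

lemma helper6_section :
    (Spec.map (CommRingCat.ofHom (helper6psi n R)) ≫
      Proj.awayι (CohB1.polyGrading n R) (MvPolynomial.X 0) (helper6X0_mem n R) Nat.one_pos) ≫
      (Proj.toSpecZero (CohB1.polyGrading n R) ≫
        Spec.map (CommRingCat.ofHom (algebraMap R (CohB1.polyGrading n R 0)))) = 𝟙 _ := by
  rw [Category.assoc, Proj.awayι_toSpecZero_assoc, ← Spec.map_comp, ← Spec.map_comp,
    ← CommRingCat.ofHom_comp, ← CommRingCat.ofHom_comp, helper6_comp, CommRingCat.ofHom_id,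
    Spec.map_id]

lemma helper6_toSpec_surj : Surjective (CohB1.ProjSpace.toSpec n R) := by
  constructor
  intro x
  refine ⟨(Spec.map (CommRingCat.ofHom (helper6psi n R)) ≫
      Proj.awayι (CohB1.polyGrading n R) (MvPolynomial.X 0) (helper6X0_mem n R) Nat.one_pos).base x,
    ?_⟩
  have h := helper6_section n R
  have h2 : (CohB1.ProjSpace.toSpec n R).base ((Spec.map (CommRingCat.ofHom (helper6psi n R)) ≫
      Proj.awayι (CohB1.polyGrading n R) (MvPolynomial.X 0) (helper6X0_mem n R) Nat.one_pos).base x) =
      ((Spec.map (CommRingCat.ofHom (helper6psi n R)) ≫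
      Proj.awayι (CohB1.polyGrading n R) (MvPolynomial.X 0) (helper6X0_mem n R) Nat.one_pos) ≫
      (Proj.toSpecZero (CohB1.polyGrading n R) ≫
        Spec.map (CommRingCat.ofHom (algebraMap R (CohB1.polyGrading n R 0))))).base x := rfl
  rw [h2, h]
  rfl

end

set_option backward.isDefEq.respectTransparency.types false in
/-- For every scheme Y and every r ≥ 0 the structure morphism from projective r-space over Y to Y is
surjective. -/
theorem result (r : ℕ) (Y : Scheme.{u}) :
    Surjective (CohB1.ProjSpaceOver.toBase r Y) := by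
  have := helper6_toSpec_surj r (ULift.{u} ℤ)
  unfold CohB1.ProjSpaceOver.toBase
  exact MorphismProperty.pullback_snd _ _ this

end Groth.Agent.S3582
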