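import Groth.Statements.S3581
import Groth.Agent.S3582
import Mathlib.RingTheory.MvPolynomial.Ideal

set_option autoImplicit false
universe u
open CategoryTheory CategoryTheory.Limits AlgebraicGeometry
open EGA2

namespace Groth.Agent.S3581

section

variable (A : Type u) [CommRing A]

lemma helper6_hom_eq (k : ℕ) (p : MvPolynomial (Fin 1) A)
    (hp : p ∈ CohB1.polyGrading 0 A k) :
    p = MvPolynomial.C (MvPolynomial.coeff (Finsupp.single 0 k) p) * MvPolynomial.X 0 ^ k := by
  rw [MvPolynomial.C_mul_X_pow_eq_monomial]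
  ext m
  rw [MvPolynomial.coeff_monomial]
  split_ifs with h
  · rw [h]
  · have hm : m.degree ≠ k := by
      intro hdeg
      apply h
      rw [Finsupp.unique_single m]
      congr 1
      rw [← hdeg, Finsupp.degree_eq_sum, Fin.sum_univ_one]
      rfl
    exact MvPolynomial.IsHomogeneous.coeff_eq_zero hp hm

lemma helper6_basicOpen :
    Proj.basicOpen (CohB1.polyGrading 0 A) (MvPolynomial.X 0) = ⊤ := by
  have := Proj.iSup_basicOpen_eq_top (CohB1.polyGrading 0 A) (ι := Unit)
    (fun _ => MvPolynomial.X 0) ?_
  · simpa using this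
  intro p hp
  have hrange : Set.range (fun _ : Unit => (MvPolynomial.X 0 : MvPolynomial (Fin 1) A)) =
      MvPolynomial.X '' Set.univ := by
    ext q
    simp [Fin.exists_fin_one, eq_comm]
  rw [hrange, MvPolynomial.mem_ideal_span_X_image]
  intro m hm
  refine ⟨0, Set.mem_univ _, ?_⟩
  have h0 : MvPolynomial.coeff 0 p = 0 := by
    replace hp : GradedRing.proj (CohB1.polyGrading 0 A) 0 p = 0 := hp
    have h1 : (GradedRing.proj (CohB1.polyGrading 0 A) 0 p) =
        MvPolynomial.homogeneousComponent 0 p := by
      rw [GradedRing.proj_apply]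
      exact MvPolynomial.decomposition.decompose'_apply p 0
    rw [h1, MvPolynomial.homogeneousComponent_zero] at hp
    exact MvPolynomial.C_eq_zero.mp hp
  intro hm0
  have : m = 0 := by
    refine Finsupp.ext (fun i => ?_)
    rw [Subsingleton.elim i 0]
    simpa using hm0
  rw [MvPolynomial.mem_support_iff, this] at hm
  exact hm h0

lemma helper6_phi_surj :
    Function.Surjective ((HomogeneousLocalization.fromZeroRingHom (CohB1.polyGrading 0 A)
      (Submonoid.powers (MvPolynomial.X 0))).comp (algebraMap A (CohB1.polyGrading 0 A 0))) := by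
  intro x
  obtain ⟨k, a, ha, rfl⟩ := HomogeneousLocalization.Away.mk_surjective (CohB1.polyGrading 0 A)
    (Groth.Agent.S3582.helper6X0_mem 0 A) x
  refine ⟨MvPolynomial.coeff (Finsupp.single 0 (k • 1)) a, ?_⟩
  apply HomogeneousLocalization.val_injective
  rw [HomogeneousLocalization.Away.val_mk]
  have h1 : ((HomogeneousLocalization.fromZeroRingHom (CohB1.polyGrading 0 A)
      (Submonoid.powers (MvPolynomial.X 0))).comp (algebraMap A (CohB1.polyGrading 0 A 0))
      (MvPolynomial.coeff (Finsupp.single 0 (k • 1)) a)).val =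
      Localization.mk (MvPolynomial.C (MvPolynomial.coeff (Finsupp.single 0 (k • 1)) a)) 1 := rfl
  rw [h1]
  conv_rhs => rw [helper6_hom_eq A (k • 1) a ha]
  rw [Localization.mk_eq_mk_iff, Localization.r_iff_exists]
  refine ⟨1, ?_⟩
  simp only [OneMemClass.coe_one, one_mul, smul_eq_mul, mul_one]
  ring

lemma helper6_psi_bij : Function.Bijective (Groth.Agent.S3582.helper6psi 0 A) := by
  have hc := Groth.Agent.S3582.helper6_comp 0 A
  have hs := helper6_phi_surj A
  constructor
  · intro y1 y2 hy
    obtain ⟨a1, rfl⟩ := hs y1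
    obtain ⟨a2, rfl⟩ := hs y2
    have e1 := congrArg (fun f => f a1) hc
    have e2 := congrArg (fun f => f a2) hc
    simp only [RingHom.comp_apply, RingHom.id_apply] at e1 e2 hy
    rw [e1, e2] at hy
    rw [hy]
  · intro a
    refine ⟨_, congrArg (fun f => f a) hc⟩

lemma helper6_isIso_psi : IsIso (CommRingCat.ofHom (Groth.Agent.S3582.helper6psi 0 A)) := by
  rw [ConcreteCategory.isIso_iff_bijective]
  exact helper6_psi_bij A

lemma helper6_isIso_awayι : IsIso (Proj.awayι (CohB1.polyGrading 0 A) (MvPolynomial.X 0)
    (Groth.Agent.S3582.helper6X0_mem 0 A) Nat.one_pos) := by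
  apply isIso_of_isOpenImmersion_of_opensRange_eq_top
  rw [Proj.opensRange_awayι]
  exact helper6_basicOpen A

end

/-- Over an affine base Spec A, Proj of the graded polynomial algebra A[T] (T of degree one) is
identified with Spec A by its structure morphism: the structure morphism from projective 0-space
over A to Spec A is an isomorphism. -/
theorem result (A : Type u) [CommRing A] :
    IsIso (CohB1.ProjSpace.toSpec 0 A) := by
  have h := Groth.Agent.S3582.helper6_section 0 A
  have := helper6_isIso_psi A
  have := helper6_isIso_awayι A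
  have : IsIso ((Spec.map (CommRingCat.ofHom (Groth.Agent.S3582.helper6psi 0 A)) ≫
      Proj.awayι (CohB1.polyGrading 0 A) (MvPolynomial.X 0)
        (Groth.Agent.S3582.helper6X0_mem 0 A) Nat.one_pos) ≫
      (Proj.toSpecZero (CohB1.polyGrading 0 A) ≫
        Spec.map (CommRingCat.ofHom (algebraMap A (CohB1.polyGrading 0 A 0))))) := by
    rw [h]; infer_instance
  have := IsIso.of_isIso_comp_left (Spec.map (CommRingCat.ofHom (Groth.Agent.S3582.helper6psi 0 A)) ≫
      Proj.awayι (CohB1.polyGrading 0 A) (MvPolynomial.X 0)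
        (Groth.Agent.S3582.helper6X0_mem 0 A) Nat.one_pos) (Proj.toSpecZero (CohB1.polyGrading 0 A) ≫
        Spec.map (CommRingCat.ofHom (algebraMap A (CohB1.polyGrading 0 A 0))))
  exact this

end Groth.Agent.S3581
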