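import Groth.Statements.S3583
-- import your own Groth.Agent.* helpers here

set_option autoImplicit false
universe u
open CategoryTheory AlgebraicGeometry Opposite
open EGA2

namespace Groth.Agent.S3583

/-- In the form stated after its proof: let f : X → S and f' : X' → S be affine morphisms and h : X' → X
an S-morphism such that the O_S-algebra homomorphism A(h) : f_*O_X → f'_*O_{X'} is surjective (as a
map of quasi-coherent O_S-modules, i.e. on sections over every affine open of S). Then h is a closed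
immersion. -/
theorem result {X X' S : Scheme.{u}} (f : X ⟶ S) [IsAffineHom f]
    (f' : X' ⟶ S) [IsAffineHom f'] (h : X' ⟶ X) (w : h ≫ f = f')
    (hsurj : ∀ U : S.affineOpens, Function.Surjective ((AffAlg.algHom f f' h w).app (op U.1)).hom) :
    IsClosedImmersion h := by
  subst w
  have hcov : ⨆ V : S.affineOpens, f ⁻¹ᵁ V.1 = ⊤ := by
    rw [← Scheme.Hom.preimage_iSup, AlgebraicGeometry.iSup_affineOpens_eq_top S, Scheme.Hom.preimage_top]
  rw [IsZariskiLocalAtTarget.iff_of_iSup_eq_top (P := @IsClosedImmersion) _ hcov]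
  intro V
  have hA : IsAffineOpen (f ⁻¹ᵁ V.1) := V.2.preimage f
  have : IsAffine (f ⁻¹ᵁ V.1).toScheme := hA
  have h2 : IsAffineOpen (h ⁻¹ᵁ f ⁻¹ᵁ V.1) := V.2.preimage (h ≫ f)
  have : IsAffine (h ⁻¹ᵁ f ⁻¹ᵁ V.1).toScheme := h2
  apply IsClosedImmersion.of_surjective_of_isAffine
  have hs : Function.Surjective (h.app (f ⁻¹ᵁ V.1)).hom := hsurj V
  have hgen : ∀ {W W' : X.Opens} (e : W = W'), Function.Surjective (h.app W).hom →
      Function.Surjective (h.app W').hom := by
    rintro W W' rfl hs
    exact hs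
  have hs' := hgen (Scheme.Opens.ι_image_top (f ⁻¹ᵁ V.1)).symm hs
  rw [morphismRestrict_appTop]
  intro y
  obtain ⟨x, hx⟩ := (ConcreteCategory.bijective_of_isIso (X'.presheaf.map
    (eqToHom (image_morphismRestrict_preimage h (f ⁻¹ᵁ V.1) ⊤)).op)).2 y
  obtain ⟨z, hz⟩ := hs' x
  refine ⟨z, ?_⟩
  subst hx
  subst hz
  rfl

end Groth.Agent.S3583
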