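import Groth.Statements.S3588
import Groth.Agent.S3563
import Groth.Agent.S3553
import Groth.Agent.S3556

set_option autoImplicit false
universe u
open CategoryTheory CategoryTheory.Limits AlgebraicGeometry
open EGA2

namespace Groth.Agent.S3588

/-- Let φ : S → S' be a surjective graded homomorphism whose kernel consists of the nilpotent elements of
the irrelevant ideal S_+. Then Proj(φ) : Proj S' → Proj S is a closed immersion which is a homeomorphism
and Proj S' is reduced (Proj S' is the reduced scheme of Proj S). -/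
theorem result {R A : Type u} [CommRing R] [CommRing A] [Algebra R A] (𝒜 : ℕ → Submodule R A) [GradedAlgebra 𝒜]
    {B : Type u} [CommRing B] [Algebra R B] (ℬ : ℕ → Submodule R B) [GradedAlgebra ℬ]
    (φ : 𝒜 →+*ᵍ ℬ) (hsurj : Function.Surjective φ)
    (hker : ∀ a : A, φ a = 0 ↔ a ∈ (HomogeneousIdeal.irrelevant 𝒜).toIdeal ∧ IsNilpotent a)
    (hφ : HomogeneousIdeal.irrelevant ℬ ≤ (HomogeneousIdeal.irrelevant 𝒜).map φ) :
    IsClosedImmersion (Proj.map φ hφ) ∧ IsHomeomorph (Proj.map φ hφ).base ∧
      AlgebraicGeometry.IsReduced (Proj ℬ) := by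
  have h1 : IsClosedImmersion (Proj.map φ hφ) := Groth.Agent.S3563.result 𝒜 ℬ φ hsurj hφ
  refine ⟨h1, ?_, ?_⟩
  · have hce := (Proj.map φ hφ).isClosedEmbedding
    have hdense := Groth.Agent.S3553.result 𝒜 ℬ φ hφ (fun a ha => ((hker a).mp ha).2)
    have hrange : Set.range (Proj.map φ hφ).base = Set.univ := by
      have hcl : IsClosed (Set.range (Proj.map φ hφ).base) := hce.isClosed_range
      rw [← hcl.closure_eq]
      exact hdense.closure_range
    rw [isHomeomorph_iff_isEmbedding_surjective]
    exact ⟨hce.isEmbedding, Set.range_eq_univ.mp hrange⟩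
  · apply Groth.Agent.S3556.result ℬ
    intro b hb hbn
    obtain ⟨a, rfl⟩ := hsurj b
    set a' : A := a - (DirectSum.decompose 𝒜 a 0 : A) with ha'
    have ha'irr : a' ∈ (HomogeneousIdeal.irrelevant 𝒜).toIdeal := by
      refine (HomogeneousIdeal.mem_irrelevant_iff 𝒜 a').mpr ?_
      rw [GradedRing.proj_apply, ha', DirectSum.decompose_sub]
      simp
    have hφa' : φ a' = φ a := by
      have h0 : (DirectSum.decompose ℬ (φ a) 0 : B) = 0 := by
        have := (HomogeneousIdeal.mem_irrelevant_iff ℬ (φ a)).mp hb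
        rwa [GradedRing.proj_apply] at this
      rw [ha', map_sub, GradedRingHom.map_directSumDecompose, h0, sub_zero]
    have ha'nil : IsNilpotent a' := by
      obtain ⟨n, hn⟩ := hbn
      have : φ (a' ^ n) = 0 := by rw [map_pow, hφa', hn]
      obtain ⟨m, hm⟩ := ((hker _).mp this).2
      exact ⟨n * m, by rw [pow_mul, hm]⟩
    rw [← hφa']
    exact (hker a').mpr ⟨ha'irr, ha'nil⟩

end Groth.Agent.S3588
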