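import Groth.Statements.S3593
-- import your own Groth.Agent.* helpers here

set_option autoImplicit false
universe u
open CategoryTheory CategoryTheory.Limits AlgebraicGeometry
open EGA2

namespace Groth.Agent.S3593

/-- Let S be a graded R-algebra, Ŝ a graded R-algebra with a graded homomorphism φ : S → Ŝ making Ŝ an
S-algebra, and z an element of Ŝ of degree one such that the S-algebra map S[X] → Ŝ, X ↦ z, is
bijective (so Ŝ = S[z] with z in degree one, the graded ring of the projective cone of S). Then
there is a ring isomorphism S ≅ Ŝ_(z) onto the degree-zero localization at z, sending a homogeneous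
a of degree n to φ(a)/z^n. (This is the isomorphism that identifies the affine cone Spec S with the
open D_+(z) of the projective cone Proj Ŝ; that identification itself is not asserted here.) -/
theorem result {R A : Type u} [CommRing R] [CommRing A] [Algebra R A] (𝒜 : ℕ → Submodule R A) [GradedAlgebra 𝒜]
    {B : Type u} [CommRing B] [Algebra R B] (ℬ : ℕ → Submodule R B) [GradedAlgebra ℬ]
    [Algebra A B] [IsScalarTower R A B] (φ : 𝒜 →+*ᵍ ℬ) (hφ : ∀ a : A, φ a = algebraMap A B a)
    (z : B) (hz : z ∈ ℬ 1) (hhat : Function.Bijective (Polynomial.aeval (R := A) z)) :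
    ∃ θ : A ≃+* HomogeneousLocalization.Away ℬ z,
      ∀ (n : ℕ) (a : A), a ∈ 𝒜 n → (θ a).val = Localization.mk (φ a) ⟨z ^ n, pow_mem (Submonoid.mem_powers z) n⟩ := by
  classical
  let E : Polynomial A ≃ₐ[A] B := AlgEquiv.ofBijective (Polynomial.aeval z) hhat
  have hE : ∀ P, E P = Polynomial.aeval z P := fun P => rfl
  let ev1 : B →+* A := (Polynomial.evalRingHom (1 : A)).comp E.symm.toRingEquiv.toRingHom
  have hev : ∀ b, ev1 b = (E.symm b).eval 1 := fun b => rfl
  have hz1 : ev1 z = 1 := by
    have : E.symm z = Polynomial.X := by
      rw [AlgEquiv.symm_apply_eq, hE, Polynomial.aeval_X]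
    rw [hev, this, Polynomial.eval_X]
  have hφ1 : ∀ a : A, ev1 (φ a) = a := by
    intro a
    have : E.symm (φ a) = Polynomial.C a := by
      rw [AlgEquiv.symm_apply_eq, hE, Polynomial.aeval_C, hφ]
    rw [hev, this, Polynomial.eval_C]
  have hunit : IsUnit (ev1 z) := by rw [hz1]; exact isUnit_one
  let psi : HomogeneousLocalization.Away ℬ z →+* A :=
    (IsLocalization.Away.lift z hunit).comp
      (algebraMap (HomogeneousLocalization.Away ℬ z) (Localization.Away z))
  have hpsi : ∀ (k : ℕ) (b : B) (hb : b ∈ ℬ (k • 1)),
      psi (HomogeneousLocalization.Away.mk ℬ hz k b hb) = ev1 b := by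
    intro k b hb
    have h1 : algebraMap (HomogeneousLocalization.Away ℬ z) (Localization.Away z)
        (HomogeneousLocalization.Away.mk ℬ hz k b hb) =
        Localization.mk b (⟨z ^ k, ⟨k, rfl⟩⟩ : Submonoid.powers z) := rfl
    simp only [psi, RingHom.comp_apply, h1]
    have h2 := IsLocalization.mk'_spec (Localization.Away z) b
      (⟨z ^ k, ⟨k, rfl⟩⟩ : Submonoid.powers z)
    rw [← Localization.mk_eq_mk'] at h2
    have h3 := congrArg (IsLocalization.Away.lift z hunit) h2
    rw [map_mul, IsLocalization.Away.lift_eq, IsLocalization.Away.lift_eq] at h3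
    simp only [map_pow, hz1, one_pow, mul_one] at h3
    exact h3
  have hmem : ∀ (n : ℕ) (a : A), a ∈ 𝒜 n → φ a ∈ ℬ (n • 1) := by
    intro n a ha
    rw [smul_eq_mul, mul_one]
    exact Graded.map_mem φ ha
  have hsurj : Function.Surjective psi := by
    intro a
    refine ⟨∑ n ∈ (DirectSum.decompose 𝒜 a).support, HomogeneousLocalization.Away.mk ℬ hz n
      (φ (DirectSum.decompose 𝒜 a n)) (hmem n _ (DirectSum.decompose 𝒜 a n).2), ?_⟩
    rw [map_sum]
    simp only [hpsi, hφ1]
    exact DirectSum.sum_support_decompose 𝒜 a
  have hinj : Function.Injective psi := by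
    rw [injective_iff_map_eq_zero]
    intro x hx
    obtain ⟨k, b, hb, rfl⟩ := HomogeneousLocalization.Away.mk_surjective ℬ hz x
    rw [hpsi] at hx
    have hb0 : b = 0 := by
      set P := E.symm b with hP
      have hbP : b = ∑ j ∈ Finset.range (P.natDegree + 1), φ (P.coeff j) * z ^ j := by
        have : b = E P := by rw [hP, AlgEquiv.apply_symm_apply]
        rw [this, hE, Polynomial.aeval_eq_sum_range]
        refine Finset.sum_congr rfl (fun j _ => ?_)
        rw [Algebra.smul_def, hφ]
      set T := Finset.range (P.natDegree + 1)
      let d : ℕ → A := fun j =>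
        if j ≤ k • 1 then (DirectSum.decompose 𝒜 (P.coeff j) (k • 1 - j) : A) else 0
      have hd : ∀ j, d j ∈ 𝒜 (k • 1 - j) := by
        intro j
        simp only [d]
        split_ifs
        · exact (DirectSum.decompose 𝒜 (P.coeff j) (k • 1 - j)).2
        · exact zero_mem _
      have hbd : b = ∑ j ∈ T, φ (d j) * z ^ j := by
        have hproj : b = (DirectSum.decompose ℬ b (k • 1) : B) :=
          (DirectSum.decompose_of_mem_same ℬ hb).symm
        rw [hproj]
        conv_lhs => rw [hbP]
        rw [DirectSum.decompose_sum, DFinsupp.finsetSum_apply, AddSubmonoidClass.coe_finsetSum]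
        refine Finset.sum_congr rfl (fun j _ => ?_)
        have hzj : z ^ j ∈ ℬ j := by
          have := SetLike.pow_mem_graded j hz
          rwa [smul_eq_mul, mul_one] at this
        rw [DirectSum.coe_decompose_mul_of_right_mem ℬ (k • 1) hzj]
        simp only [d]
        split_ifs with hj
        · rw [GradedRingHom.map_directSumDecompose]
        · rw [map_zero, zero_mul]
      have hsum : ∑ j ∈ T, d j = 0 := by
        have := hx
        rw [hbd, map_sum] at this
        simpa [hφ1, hz1] using this
      have hdz : ∀ j ∈ T, d j = 0 := by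
        intro j0 hj0
        by_cases hj0k : j0 ≤ k • 1
        · have := congrArg (fun x => (DirectSum.decompose 𝒜 x (k • 1 - j0) : A)) hsum
          simp only at this
          rw [DirectSum.decompose_zero, DirectSum.decompose_sum, DFinsupp.finsetSum_apply,
            AddSubmonoidClass.coe_finsetSum, Finset.sum_eq_single j0] at this
          · rw [DirectSum.decompose_of_mem_same 𝒜 (hd j0)] at this
            rw [this]
            rfl
          · intro j _ hj
            by_cases hjk : j ≤ k • 1
            · exact DirectSum.decompose_of_mem_ne 𝒜 (hd j) (by omega)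
            · have hdj : d j = 0 := by
                simp only [d]
                rw [if_neg hjk]
              rw [hdj, DirectSum.decompose_zero]
              rfl
          · intro h
            exact absurd hj0 h
        · simp only [d]
          rw [if_neg hj0k]
      rw [hbd]
      refine Finset.sum_eq_zero (fun j hj => ?_)
      rw [hdz j hj, map_zero, zero_mul]
    subst hb0
    apply HomogeneousLocalization.val_injective
    rw [HomogeneousLocalization.Away.val_mk, Localization.mk_zero, HomogeneousLocalization.val_zero]
  let e := RingEquiv.ofBijective psi ⟨hinj, hsurj⟩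
  refine ⟨e.symm, fun n a ha => ?_⟩
  have : e.symm a = HomogeneousLocalization.Away.mk ℬ hz n (φ a) (hmem n a ha) := by
    rw [RingEquiv.symm_apply_eq]
    show a = psi _
    rw [hpsi, hφ1]
  rw [this, HomogeneousLocalization.Away.val_mk]

end Groth.Agent.S3593
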