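import Groth.Statements.S3594
-- import your own Groth.Agent.* helpers here

set_option autoImplicit false
universe u
open CategoryTheory CategoryTheory.Limits AlgebraicGeometry
open EGA2

namespace Groth.Agent.S3594

/-- The closed immersion at infinity of a projective cone: let S be a graded R-algebra and Ŝ a graded
R-algebra over S such that the structure map φ : S → Ŝ is a graded homomorphism and Ŝ = S[z] is the
polynomial algebra on an element z of degree one (evaluation at z is a bijection S[T] → Ŝ); let ψ :
Ŝ → S be a graded homomorphism retracting φ and killing z, with S₊ contained in the ideal generated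
by ψ(Ŝ₊) so that j = Proj(ψ) : X = Proj S → Ĉ = Proj Ŝ is defined (it is the canonical closed
immersion). Then the image of j is exactly the complement of the open subset D₊(z) of Proj Ŝ (which
is the affine cone C = Spec S). -/
theorem result {R A : Type u} [CommRing R] [CommRing A] [Algebra R A] (𝒜 : ℕ → Submodule R A) [GradedAlgebra 𝒜]
    {B : Type u} [CommRing B] [Algebra R B] (ℬ : ℕ → Submodule R B) [GradedAlgebra ℬ]
    [Algebra A B] [IsScalarTower R A B] (φ : 𝒜 →+*ᵍ ℬ) (hφ : ∀ a : A, φ a = algebraMap A B a)
    (z : B) (hz : z ∈ ℬ 1) (hhat : Function.Bijective (Polynomial.aeval (R := A) z))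
    (ψ : ℬ →+*ᵍ 𝒜) (hψφ : ∀ a : A, ψ (φ a) = a) (hψz : ψ z = 0)
    (hψ : HomogeneousIdeal.irrelevant 𝒜 ≤ (HomogeneousIdeal.irrelevant ℬ).map ψ) :
    Set.range (Proj.map ψ hψ).base = ((Proj.basicOpen ℬ z : Set (Proj ℬ)))ᶜ := by
  classical
  let E : Polynomial A ≃ₐ[A] B := AlgEquiv.ofBijective (Polynomial.aeval z) hhat
  have hE : ∀ P, E P = Polynomial.aeval z P := fun P => rfl
  -- every b differs from φ (ψ b) by a multiple of z
  have hkey : ∀ b : B, b - φ (ψ b) ∈ Ideal.span {z} := by
    intro b
    set P := E.symm b with hP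
    have hb : b = Polynomial.aeval z (Polynomial.divX P) * z +
        algebraMap A B (P.coeff 0) := by
      have h1 : b = E P := by rw [hP, AlgEquiv.apply_symm_apply]
      conv_lhs => rw [h1, hE, ← Polynomial.divX_mul_X_add P]
      rw [map_add, map_mul, Polynomial.aeval_X, Polynomial.aeval_C]
    have hψb : ψ b = P.coeff 0 := by
      conv_lhs => rw [hb]
      rw [GradedRingHom.map_add, GradedRingHom.map_mul, hψz, mul_zero, zero_add, ← hφ, hψφ]
    rw [hψb, hφ]
    have e : b - algebraMap A B (P.coeff 0) = Polynomial.aeval z (Polynomial.divX P) * z := by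
      rw [sub_eq_iff_eq_add]
      exact hb
    rw [e]
    exact Ideal.mul_mem_left _ _ (Ideal.subset_span rfl)
  ext y
  constructor
  · rintro ⟨x, rfl⟩
    show ¬ (z ∉ _)
    intro hz'
    apply hz'
    show ψ z ∈ x.asHomogeneousIdeal.toIdeal
    rw [hψz]
    exact zero_mem _
  · intro hy
    have hzy : z ∈ y.asHomogeneousIdeal.toIdeal := by
      by_contra hcon
      exact hy hcon
    have hmemy : ∀ b : B, φ (ψ b) ∈ y.asHomogeneousIdeal.toIdeal → b ∈ y.asHomogeneousIdeal.toIdeal := by
      intro b hb
      have h1 : b - φ (ψ b) ∈ y.asHomogeneousIdeal.toIdeal :=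
        (Ideal.span_le.mpr (by simpa using hzy)) (hkey b)
      have := add_mem h1 hb
      rwa [sub_add_cancel] at this
    have hyp : y.asHomogeneousIdeal.toIdeal.IsPrime := y.isPrime
    let x : ProjectiveSpectrum 𝒜 := ⟨y.asHomogeneousIdeal.comap φ, by
      show (y.asHomogeneousIdeal.toIdeal.comap φ).IsPrime
      exact Ideal.comap_isPrime _ _, fun hle => by
      apply y.not_irrelevant_le
      intro b hb
      apply hmemy
      have hψb : ψ b ∈ HomogeneousIdeal.irrelevant 𝒜 := by
        rw [HomogeneousIdeal.mem_irrelevant_iff, GradedRing.proj_apply,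
          ← GradedRingHom.map_directSumDecompose]
        have h0 := (HomogeneousIdeal.mem_irrelevant_iff ℬ b).mp hb
        rw [GradedRing.proj_apply] at h0
        rw [h0, GradedRingHom.map_zero]
      exact hle hψb⟩
    refine ⟨x, ?_⟩
    apply ProjectiveSpectrum.ext
    apply HomogeneousIdeal.ext
    ext b
    show φ (ψ b) ∈ y.asHomogeneousIdeal.toIdeal ↔ b ∈ y.asHomogeneousIdeal.toIdeal
    constructor
    · exact hmemy b
    · intro hb
      have h1 : b - φ (ψ b) ∈ y.asHomogeneousIdeal.toIdeal :=
        (Ideal.span_le.mpr (by simpa using hzy)) (hkey b)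
      have := sub_mem hb h1
      rwa [sub_sub_cancel] at this

end Groth.Agent.S3594
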