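import Groth.Statements.S3596
-- import your own Groth.Agent.* helpers here

set_option autoImplicit false
universe u
open CategoryTheory CategoryTheory.Limits AlgebraicGeometry
open EGA2

namespace Groth.Agent.S3596

set_option backward.isDefEq.respectTransparency false in
/-- For a homomorphism of graded rings φ : S' → S, the induced morphism p : G(φ) → Proj S'
(characterised on the charts as in the previous result) is affine. -/
theorem result {R A : Type u} [CommRing R] [CommRing A] [Algebra R A] (𝒜 : ℕ → Submodule R A) [GradedAlgebra 𝒜]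
    {B : Type u} [CommRing B] [Algebra R B] (ℬ : ℕ → Submodule R B) [GradedAlgebra ℬ] (φ : 𝒜 →+*ᵍ ℬ)
    (p : (PCone.dom φ : Scheme.{u}) ⟶ Proj 𝒜) (hp : ∀ (d : ℕ) (f : A) (hd : 0 < d) (hf : f ∈ 𝒜 d),
        PCone.chart φ hf hd ≫ p =
          Spec.map (CommRingCat.ofHom (HomogeneousLocalization.Away.map φ f)) ≫ Proj.awayι 𝒜 f hf hd) :
    IsAffineHom p := by
  classical
  have hcov : ⨆ s : (Σ i : PNat, 𝒜 i), Proj.basicOpen 𝒜 (s.2 : A) = ⊤ := by
    apply Proj.iSup_basicOpen_eq_top
    intro a ha
    rw [← DirectSum.sum_support_decompose 𝒜 a]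
    refine Ideal.sum_mem _ fun c _ ↦ ?_
    rcases Nat.eq_zero_or_pos c with hc0 | hc0
    · subst hc0
      have := (HomogeneousIdeal.mem_irrelevant_iff 𝒜 a).mp ha
      rw [GradedRing.proj_apply] at this
      rw [this]
      exact zero_mem _
    · exact Ideal.subset_span ⟨⟨⟨c, hc0⟩, DirectSum.decompose 𝒜 a c⟩, rfl⟩
  rw [IsZariskiLocalAtTarget.iff_of_iSup_eq_top (P := @IsAffineHom) _ hcov]
  intro s
  have hi : 0 < (s.1 : ℕ) := s.1.2
  have hf : (s.2 : A) ∈ 𝒜 (s.1 : ℕ) := s.2.2
  have hA : IsAffineOpen (Proj.basicOpen 𝒜 (s.2 : A)) := Proj.isAffineOpen_basicOpen 𝒜 _ hf hi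
  have : IsAffine (Proj.basicOpen 𝒜 (s.2 : A)).toScheme := hA
  have hinj : Function.Injective (PCone.dom φ).ι.base := (PCone.dom φ).ι.isOpenEmbedding.injective
  have hcomp : ∀ {X Y Z : Scheme.{u}} (f : X ⟶ Y) (g : Y ⟶ Z) (x : X),
      (f ≫ g).base x = g.base (f.base x) := fun _ _ _ => rfl
  have hlift : ∀ {e : ℕ} {g : A} (hg : g ∈ 𝒜 e) (he : 0 < e),
      PCone.chart φ hg he ≫ (PCone.dom φ).ι = Proj.awayι ℬ (φ g) (Graded.map_mem φ hg) he :=
    fun hg he => IsOpenImmersion.lift_fac _ _ _
  have hoi : IsOpenImmersion (PCone.chart φ hf hi) := by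
    have : IsOpenImmersion (PCone.chart φ hf hi ≫ (PCone.dom φ).ι) := by
      rw [hlift]; infer_instance
    exact IsOpenImmersion.of_comp _ (PCone.dom φ).ι
  have key : p ⁻¹ᵁ Proj.basicOpen 𝒜 (s.2 : A) = (PCone.chart φ hf hi).opensRange := by
    ext y
    constructor
    · intro hy
      have hyd : (PCone.dom φ).ι.base y ∈ PCone.dom φ := y.2
      obtain ⟨⟨g, e, he, hg⟩, hyg⟩ := TopologicalSpace.Opens.mem_iSup.mp hyd
      have hrg : (PCone.dom φ).ι.base y ∈
          Set.range (Proj.awayι ℬ (φ g) (Graded.map_mem φ hg) he).base := by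
        rw [← Scheme.Hom.coe_opensRange, Proj.opensRange_awayι]; exact hyg
      obtain ⟨y', hy'⟩ := hrg
      have hcg : (PCone.chart φ hg he).base y' = y := by
        apply hinj
        rw [← hcomp, hlift]
        exact hy'
      have hpy : p.base y = (Proj.awayι 𝒜 g hg he).base
          ((Spec.map (CommRingCat.ofHom (HomogeneousLocalization.Away.map φ g))).base y') := by
        rw [← hcg, ← hcomp, hp e g he hg, hcomp]
      have h3 : (Spec.map (CommRingCat.ofHom (HomogeneousLocalization.Away.map φ g))).base y' ∈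
          Proj.awayι 𝒜 g hg he ⁻¹ᵁ Proj.basicOpen 𝒜 (s.2 : A) := by
        change (Proj.awayι 𝒜 g hg he).base _ ∈ Proj.basicOpen 𝒜 (s.2 : A)
        rw [← hpy]
        exact hy
      rw [Proj.awayι_preimage_basicOpen 𝒜 hg he hf hi] at h3
      have h4 : y' ∈ Proj.awayι ℬ (φ g) (Graded.map_mem φ hg) he ⁻¹ᵁ
          Proj.basicOpen ℬ (φ (s.2 : A)) := by
        rw [Proj.awayι_preimage_basicOpen ℬ (Graded.map_mem φ hg) he (Graded.map_mem φ hf) hi]
        have : HomogeneousLocalization.Away.map φ g
            (HomogeneousLocalization.Away.isLocalizationElem hg hf) =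
            HomogeneousLocalization.Away.isLocalizationElem (Graded.map_mem φ hg)
              (Graded.map_mem φ hf) := by
          rw [HomogeneousLocalization.Away.map_mk]
          apply HomogeneousLocalization.val_injective
          simp only [HomogeneousLocalization.Away.val_mk, map_pow]
        rw [← this]
        exact h3
      have h5 : (PCone.dom φ).ι.base y ∈ Proj.basicOpen ℬ (φ (s.2 : A)) := by
        rw [← hy']
        exact h4
      have h6 : (PCone.dom φ).ι.base y ∈
          Set.range (Proj.awayι ℬ (φ s.2) (Graded.map_mem φ hf) hi).base := by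
        rw [← Scheme.Hom.coe_opensRange, Proj.opensRange_awayι]; exact h5
      obtain ⟨w, hw⟩ := h6
      refine ⟨w, ?_⟩
      apply hinj
      rw [← hcomp, hlift]
      exact hw
    · rintro ⟨w, rfl⟩
      change p.base ((PCone.chart φ hf hi).base w) ∈ Proj.basicOpen 𝒜 (s.2 : A)
      rw [← hcomp, hp _ _ hi hf, hcomp]
      rw [← Proj.opensRange_awayι 𝒜 (s.2 : A) hf hi]
      exact Set.mem_range_self _
  have : IsAffine (p ⁻¹ᵁ Proj.basicOpen 𝒜 (s.2 : A)).toScheme := by
    have h2 : IsAffineOpen (PCone.chart φ hf hi).opensRange := isAffineOpen_opensRange _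
    rw [← key] at h2
    exact h2
  infer_instance

end Groth.Agent.S3596
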