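import Groth.Statements.S3597
-- import your own Groth.Agent.* helpers here

set_option autoImplicit false
universe u
open CategoryTheory CategoryTheory.Limits AlgebraicGeometry
open EGA2

namespace Groth.Agent.S3597

/-- Let S be a graded algebra over a ring and Ŝ = S[z] the graded S-algebra obtained by adjoining a
variable z in degree 1 (an S-algebra with an element z of degree 1 such that S[T] → Ŝ, T ↦ z, is
bijective), with φ : S → Ŝ the graded structure map and ψ : Ŝ → S the graded retraction with ψ ∘ φ =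
id and ψ(z) = 0 (the irrelevant-ideal containment needed to define Proj(ψ) on all of X = Proj S
carried as a hypothesis). Let Ê ⊆ Ĉ = Proj Ŝ be the pointed projective cone, the open union of the
D_+(φ f) for f ∈ S homogeneous of positive degree, and p : Ê → X a morphism which on each chart
D_+(φ f) = Spec Ŝ_{(φ f)} is induced by S_{(f)} → Ŝ_{(φ f)} (the canonical retraction). Then p is
surjective, and the closed immersion j = Proj(ψ) : X → Ĉ factors through Ê with p ∘ j = id_X. -/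
theorem result {R A : Type u} [CommRing R] [CommRing A] [Algebra R A] (𝒜 : ℕ → Submodule R A) [GradedAlgebra 𝒜]
    {B : Type u} [CommRing B] [Algebra R B] (ℬ : ℕ → Submodule R B) [GradedAlgebra ℬ]
    [Algebra A B] [IsScalarTower R A B] (φ : 𝒜 →+*ᵍ ℬ) (hφ : ∀ a : A, φ a = algebraMap A B a)
    (z : B) (hz : z ∈ ℬ 1) (hhat : Function.Bijective (Polynomial.aeval (R := A) z))
    (ψ : ℬ →+*ᵍ 𝒜) (hψφ : ∀ a : A, ψ (φ a) = a) (hψz : ψ z = 0)
    (hψ : HomogeneousIdeal.irrelevant 𝒜 ≤ (HomogeneousIdeal.irrelevant ℬ).map ψ)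
    (p : (PCone.dom φ : Scheme.{u}) ⟶ Proj 𝒜) (hp : ∀ (d : ℕ) (f : A) (hd : 0 < d) (hf : f ∈ 𝒜 d),
        PCone.chart φ hf hd ≫ p =
          Spec.map (CommRingCat.ofHom (HomogeneousLocalization.Away.map φ f)) ≫ Proj.awayι 𝒜 f hf hd) :
    Surjective p ∧ ∃ j : Proj 𝒜 ⟶ (PCone.dom φ : Scheme.{u}), j ≫ (PCone.dom φ).ι = Proj.map ψ hψ ∧ j ≫ p = 𝟙 (Proj 𝒜) := by
  classical
  -- the range condition
  have hrange : Set.range (Proj.map ψ hψ).base ⊆ Set.range (PCone.dom φ).ι.base := by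
    rw [Scheme.Opens.range_ι]
    rintro _ ⟨x, rfl⟩
    let x' : ProjectiveSpectrum 𝒜 := x
    obtain ⟨a, ha, hax⟩ := SetLike.not_le_iff_exists.mp x'.not_irrelevant_le
    have : ∃ i, (DirectSum.decompose 𝒜 a i : A) ∉ x'.asHomogeneousIdeal.toIdeal := by
      by_contra hcon
      push_neg at hcon
      exact hax ((Submodule.IsHomogeneous.mem_iff 𝒜 x'.asHomogeneousIdeal.isHomogeneous).mpr hcon)
    obtain ⟨i, hi⟩ := this
    have hi0 : 0 < i := by
      rcases Nat.eq_zero_or_pos i with h0 | h0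
      · exfalso
        subst h0
        have := (HomogeneousIdeal.mem_irrelevant_iff 𝒜 a).mp ha
        rw [GradedRing.proj_apply] at this
        rw [this] at hi
        exact hi (zero_mem _)
      · exact h0
    refine TopologicalSpace.Opens.mem_iSup.mpr
      ⟨⟨(DirectSum.decompose 𝒜 a i : A), i, hi0, (DirectSum.decompose 𝒜 a i).2⟩, ?_⟩
    show φ (DirectSum.decompose 𝒜 a i : A) ∉ ((Proj.map ψ hψ).base x).asHomogeneousIdeal
    show ψ (φ (DirectSum.decompose 𝒜 a i : A)) ∉ x'.asHomogeneousIdeal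
    rw [hψφ]
    exact hi
  let j : Proj 𝒜 ⟶ (PCone.dom φ : Scheme.{u}) := IsOpenImmersion.lift (PCone.dom φ).ι _ hrange
  have hj : j ≫ (PCone.dom φ).ι = Proj.map ψ hψ := IsOpenImmersion.lift_fac _ _ _
  -- a cover of Proj 𝒜 by the charts D_+(ψ (φ f))
  let 𝒰 := Proj.affineOpenCoverOfIrrelevantLESpan 𝒜
    (ι := Σ i : PNat, 𝒜 i) (m := fun i ↦ i.1) (fun s => ψ (φ s.2.1))
    (fun s => by rw [hψφ]; exact s.2.2) (fun s ↦ s.1.2) (by
      have : Set.range (fun s : (Σ i : PNat, 𝒜 i) => ψ (φ s.2.1)) =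
          Set.range (fun s : (Σ i : PNat, 𝒜 i) => (s.2.1 : A)) := by
        congr 1
        funext s
        exact hψφ _
      rw [this]
      intro a ha
      rw [← DirectSum.sum_support_decompose 𝒜 a]
      refine Ideal.sum_mem _ fun c _ ↦ ?_
      rcases Nat.eq_zero_or_pos c with hc0 | hc0
      · subst hc0
        have := (HomogeneousIdeal.mem_irrelevant_iff 𝒜 a).mp ha
        rw [GradedRing.proj_apply] at this
        rw [this]
        exact zero_mem _
      · exact Ideal.subset_span ⟨⟨⟨c, hc0⟩, DirectSum.decompose 𝒜 a c⟩, rfl⟩)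
  have hjp : j ≫ p = 𝟙 (Proj 𝒜) := by
    refine 𝒰.openCover.hom_ext _ _ (fun s => ?_)
    have hi : 0 < (s.1 : ℕ) := s.1.2
    have hf : (s.2.1 : A) ∈ 𝒜 (s.1 : ℕ) := s.2.2
    change Proj.awayι 𝒜 (ψ (φ s.2.1)) _ hi ≫ j ≫ p = Proj.awayι 𝒜 (ψ (φ s.2.1)) _ hi ≫ 𝟙 _
    have h1 : Proj.awayι 𝒜 (ψ (φ s.2.1)) (Graded.map_mem ψ (Graded.map_mem φ hf)) hi ≫ j =
        Spec.map (CommRingCat.ofHom (HomogeneousLocalization.Away.map ψ (φ s.2.1))) ≫
          PCone.chart φ hf hi := by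
      rw [← cancel_mono (PCone.dom φ).ι, Category.assoc, hj, Category.assoc]
      have e2 := Proj.awayι_comp_map ψ hψ hi (φ s.2.1) (Graded.map_mem φ hf)
      refine e2.trans ?_
      congr 1
      exact (IsOpenImmersion.lift_fac _ _ _).symm
    rw [← Category.assoc, h1, Category.assoc, hp _ _ hi hf, ← Category.assoc, ← Spec.map_comp,
      ← CommRingCat.ofHom_comp, ← HomogeneousLocalization.Away.map_comp, Category.comp_id]
    show Spec.map (CommRingCat.ofHom (HomogeneousLocalization.Away.map (ψ.comp φ) s.2.1)) ≫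
      Proj.awayι 𝒜 s.2.1 hf hi = Proj.awayι 𝒜 ((ψ.comp φ) s.2.1) _ hi
    have gen : ∀ (θ : 𝒜 →+*ᵍ 𝒜) (_ : θ = GradedRingHom.id 𝒜) (h' : θ s.2.1 ∈ 𝒜 (s.1 : ℕ)),
        Spec.map (CommRingCat.ofHom (HomogeneousLocalization.Away.map θ s.2.1)) ≫
          Proj.awayι 𝒜 s.2.1 hf hi = Proj.awayι 𝒜 (θ s.2.1) h' hi := by
      rintro θ rfl h'
      rw [HomogeneousLocalization.Away.map_id]
      show Spec.map (𝟙 _) ≫ _ = _
      rw [Spec.map_id, Category.id_comp]
      rfl
    exact gen (ψ.comp φ) (by ext a; exact hψφ a) _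
  refine ⟨⟨fun x => ⟨j.base x, ?_⟩⟩, j, hj, hjp⟩
  have := congrArg (fun g : Proj 𝒜 ⟶ Proj 𝒜 => g.base x) hjp
  simpa using this

end Groth.Agent.S3597
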