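import Groth.Statements.S3707

set_option autoImplicit false
universe u
open SGA1

namespace Groth.Agent.S3707

open AlgebraicGeometry CategoryTheory CategoryTheory.Limits in
/-- Let g : S' -> S be a surjective morphism of schemes, X and Y schemes over S with Y unramified over S
(formally unramified and locally of finite type), and X', Y' their base changes to S'. Then the map
sending an S-morphism X -> Y to the induced S'-morphism X' -> Y' is injective. -/
theorem result {S S' X Y : Scheme.{u}} (g : S' ⟶ S) [Surjective g]
    (p : X ⟶ S) (q : Y ⟶ S) [FormallyUnramified q] [LocallyOfFiniteType q]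
    (u v : X ⟶ Y) (hu : p ≫ 𝟙 S = u ≫ q) (hv : p ≫ 𝟙 S = v ≫ q)
    (h : pullback.map p g q g u (𝟙 S') (𝟙 S) hu ((Category.comp_id _).trans (Category.id_comp _).symm) =
      pullback.map p g q g v (𝟙 S') (𝟙 S) hv ((Category.comp_id _).trans (Category.id_comp _).symm)) :
    u = v := by
  have huv : u ≫ q = v ≫ q := by rw [← hu, ← hv]
  let w : X ⟶ pullback q q := pullback.lift u v huv
  have key : pullback.fst p g ≫ w =
      (pullback.map p g q g u (𝟙 S') (𝟙 S) hu ((Category.comp_id _).trans (Category.id_comp _).symm) ≫
        pullback.fst q g) ≫ pullback.diagonal q := by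
    apply pullback.hom_ext
    · rw [Category.assoc, Category.assoc, pullback.lift_fst, pullback.diagonal_fst, Category.comp_id,
        pullback.lift_fst]
    · rw [Category.assoc, Category.assoc, pullback.lift_snd, pullback.diagonal_snd, Category.comp_id,
        h, pullback.lift_fst]
  have hsurj : Surjective (pullback.fst p g) := inferInstance
  have hrange : Set.range w.base ⊆ Set.range (pullback.diagonal q).base := by
    rintro _ ⟨x, rfl⟩
    obtain ⟨x', rfl⟩ := (pullback.fst p g).surjective x
    refine ⟨(pullback.map p g q g u (𝟙 S') (𝟙 S) hu
      ((Category.comp_id _).trans (Category.id_comp _).symm) ≫ pullback.fst q g).base x', ?_⟩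
    rw [← Scheme.Hom.comp_apply, ← key, Scheme.Hom.comp_apply]
  let t := IsOpenImmersion.lift (pullback.diagonal q) w hrange
  have ht : t ≫ pullback.diagonal q = w := IsOpenImmersion.lift_fac _ _ _
  have e1 : u = t := by
    have := congrArg (· ≫ pullback.fst q q) ht
    simp only [Category.assoc, pullback.diagonal_fst, Category.comp_id] at this
    rw [this]
    exact (pullback.lift_fst _ _ _).symm
  have e2 : v = t := by
    have := congrArg (· ≫ pullback.snd q q) ht
    simp only [Category.assoc, pullback.diagonal_snd, Category.comp_id] at this
    rw [this]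
    exact (pullback.lift_snd _ _ _).symm
  rw [e1, e2]

end Groth.Agent.S3707
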