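import Groth.Statements.S3805

set_option autoImplicit false
universe u
open scoped TensorProduct
open PP16

namespace Groth.Agent.S3805

/-- For an A-algebra B, the image of the principal-part map d^n : B → P^n_{B/A} generates P^n_{B/A} as a
B-module (for the B-module structure through the first factor). -/
theorem result (n : ℕ) (A B : Type u) [CommRing A] [CommRing B] [Algebra A B] :
    Submodule.span B (Set.range (PP16.dn n A B)) = ⊤ := by
  rw [eq_top_iff]
  rintro x -
  obtain ⟨t, rfl⟩ := Ideal.Quotient.mk_surjective x
  induction t using TensorProduct.induction_on with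
  | zero => simp
  | tmul b₁ b₂ =>
    have : (Ideal.Quotient.mk _ (b₁ ⊗ₜ[A] b₂) : P n A B) = b₁ • PP16.dn n A B b₂ := by
      rw [Algebra.smul_def]
      simp only [PP16.dn, AlgHom.coe_comp, Function.comp_apply, Ideal.Quotient.mkₐ_eq_mk,
        Algebra.TensorProduct.includeRight_apply]
      rw [IsScalarTower.algebraMap_apply B (B ⊗[A] B) (P n A B), Ideal.Quotient.algebraMap_eq,
        ← map_mul]
      congr 1
      simp [Algebra.TensorProduct.algebraMap_apply, Algebra.TensorProduct.tmul_mul_tmul]
    rw [this]
    exact Submodule.smul_mem _ _ (Submodule.subset_span ⟨b₂, rfl⟩)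
  | add x y hx hy => rw [map_add]; exact add_mem hx hy

end Groth.Agent.S3805
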