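import Groth.Statements.S3833
-- import your own Groth.Agent.* helpers here

set_option autoImplicit false
universe u
open CategoryTheory CategoryTheory.Limits AlgebraicGeometry TopologicalSpace
open Rat20

namespace Groth.Agent.S3833

/-- Stated for a global section, the case of a section over an open subset U being the same statement
for the open subscheme U: let X be a scheme and s a global section of O_X which is regular in the
sense that its germ at every point x is a non-zero-divisor of the local ring O_{X,x} (on an affine
scheme this is the same as being a non-zero-divisor of Γ(X, O_X), but not in general). Then the open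
subset X_s where s is invertible is schematically dense in X. -/
theorem result (X : Scheme.{u}) (s : Γ(X, ⊤))
    (hs : ∀ x : ↥X, (X.presheaf.germ ⊤ x trivial s) ∈ nonZeroDivisors ↑(X.presheaf.stalk x)) :
    CInt.IsSchematicallyDense (X.basicOpen s) := by
  intro V
  rw [injective_iff_map_eq_zero]
  intro t ht
  apply TopCat.Presheaf.section_ext X.sheaf V t 0
  intro x hxV
  obtain ⟨_, ⟨W, hW, rfl⟩, hxW, hWV⟩ := X.isBasis_affineOpens.exists_subset_of_mem_open hxV V.2
  have hWV' : W ≤ V := hWV
  let tW := X.presheaf.map (homOfLE hWV').op t
  let sW := X.presheaf.map (homOfLE (le_top : W ≤ ⊤)).op s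
  have hle : X.basicOpen sW ≤ V ⊓ X.basicOpen s := by
    rw [Scheme.basicOpen_res]
    exact inf_le_inf_right _ hWV
  have e : X.presheaf.map (homOfLE (X.basicOpen_le sW)).op tW =
      X.presheaf.map (homOfLE hle).op
        (X.presheaf.map (homOfLE (inf_le_left : V ⊓ X.basicOpen s ≤ V)).op t) := by
    simp only [tW]
    rw [← ConcreteCategory.comp_apply, ← ConcreteCategory.comp_apply, ← Functor.map_comp,
      ← Functor.map_comp]
    rfl
  have hres : X.presheaf.map (homOfLE (X.basicOpen_le sW)).op tW = 0 := by
    rw [e, ht, map_zero]
  obtain ⟨n, hn⟩ := exists_pow_mul_eq_zero_of_res_basicOpen_eq_zero_of_isAffineOpen X hW tW sW hres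
  have h1 := congrArg (X.presheaf.germ W x hxW) hn
  rw [map_mul, map_pow, map_zero] at h1
  have hgs : X.presheaf.germ W x hxW sW = X.presheaf.germ ⊤ x trivial s :=
    X.presheaf.germ_res_apply _ x hxW s
  have hgt : X.presheaf.germ W x hxW tW = X.presheaf.germ V x hxV t :=
    X.presheaf.germ_res_apply _ x hxW t
  rw [hgs, hgt] at h1
  have hnz := pow_mem (hs x) n
  rw [map_zero]
  exact (mem_nonZeroDivisors_iff.mp hnz).1 _ h1

end Groth.Agent.S3833
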