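import Groth.Statements.S3852
-- import your own Groth.Agent.* helpers here

set_option autoImplicit false
universe u
open FCompl

namespace Groth.Agent.S3852

open AlgebraicGeometry in
/-- Second assertion; stated for quasi-coherent ideal sheaves, with the condition on supports as an
inclusion, which is what the proof uses: Let X be a Noetherian scheme and I, J ideal sheaves such
that the zero locus of J is contained in the zero locus of I. Then I^n ≤ J for some n ≥ 1. -/
theorem result
    (X : Scheme.{u}) [IsNoetherian X] (I J : X.IdealSheafData)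
    (h : (J.support : Set X) ⊆ I.support) :
    ∃ n : ℕ, I ^ (n + 1) ≤ J := by
  have hrad : I ≤ J.radical := by
    have h1 : J.support ≤ I.support := h
    have h2 : Scheme.IdealSheafData.vanishingIdeal I.support ≤
        Scheme.IdealSheafData.vanishingIdeal J.support :=
      Scheme.IdealSheafData.vanishingIdeal_antimono h1
    rw [Scheme.IdealSheafData.vanishingIdeal_support,
      Scheme.IdealSheafData.vanishingIdeal_support] at h2
    exact (Scheme.IdealSheafData.le_radical I).trans h2
  have hU : ∀ U : X.affineOpens, ∃ n : ℕ, I.ideal U ^ n ≤ J.ideal U := by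
    intro U
    have : IsNoetherianRing Γ(X, U) := IsLocallyNoetherian.component_noetherian U
    have hle : I.ideal U ≤ (J.ideal U).radical := hrad U
    exact Ideal.exists_pow_le_of_le_radical_of_fg hle (IsNoetherian.noetherian _)
  choose n hn using hU
  obtain ⟨t, ht⟩ := isCompact_univ.elim_finite_subcover
    (fun U : X.affineOpens => ((U : X.Opens) : Set X)) (fun U => U.1.isOpen)
    (by
      intro x _
      obtain ⟨U', hU', hxU', -⟩ := (TopologicalSpace.Opens.isBasis_iff_nbhd.mp X.isBasis_affineOpens)
        (show x ∈ (⊤ : X.Opens) from trivial)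
      simp only [Set.mem_iUnion]
      exact ⟨⟨U', hU'⟩, hxU'⟩)
  refine ⟨t.sup n, ?_⟩
  refine Scheme.IdealSheafData.le_of_iSup_eq_top (fun i : t => (i : X.affineOpens)) ?_ ?_
  · apply top_unique
    intro x _
    have hx := ht (Set.mem_univ x)
    simp only [Set.mem_iUnion] at hx
    obtain ⟨U, hUt, hxU⟩ := hx
    exact TopologicalSpace.Opens.mem_iSup.mpr ⟨⟨U, hUt⟩, hxU⟩
  · intro i
    rw [Scheme.IdealSheafData.ideal_pow]
    refine le_trans ?_ (hn i)
    exact Ideal.pow_le_pow_right ((Finset.le_sup i.2).trans (Nat.le_succ _))

end Groth.Agent.S3852
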