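import Groth.Statements.S3866
import Mathlib.RingTheory.AdicCompletion.AsTensorProduct
import Mathlib.RingTheory.AdicCompletion.Noetherian

set_option autoImplicit false
universe u
open AdicRing

namespace Groth.Agent.S3866

/-- Let A be a Noetherian ring that is complete and separated for the J-adic topology, where J is an
ideal of A. Then every finite A-module M is itself complete and separated for the J-adic topology.
(This is the algebraic fact behind the statement that the global sections of the sheaf M^Δ on the
formal spectrum of A recover M.) -/
theorem result (A : Type u) [CommRing A] [IsNoetherianRing A]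
    (J : Ideal A) [IsAdicComplete J A] (M : Type u) [AddCommGroup M] [Module A M] [Module.Finite A M] :
    IsAdicComplete J M := by
  have hH : IsHausdorff J M := IsHausdorff.of_le_jacobson J M (IsAdicComplete.le_jacobson_bot J)
  have hsurjA : Function.Surjective (AdicCompletion.of J A) :=
    AdicCompletion.of_surjective J A
  have hsurj : Function.Surjective (AdicCompletion.of J M) := by
    intro y
    obtain ⟨t, rfl⟩ := AdicCompletion.ofTensorProduct_surjective_of_finite J M y
    induction t using TensorProduct.induction_on with
    | zero => exact ⟨0, by simp⟩
    | tmul r x =>
      obtain ⟨a, rfl⟩ := hsurjA r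
      refine ⟨a • x, ?_⟩
      rw [AdicCompletion.ofTensorProduct_tmul, map_smul]
      have : AdicCompletion.of J A a = algebraMap A (AdicCompletion J A) a := by
        rw [AdicCompletion.algebraMap_apply]; rfl
      rw [this, algebraMap_smul]
    | add x y hx hy =>
      obtain ⟨a, ha⟩ := hx
      obtain ⟨b, hb⟩ := hy
      exact ⟨a + b, by rw [map_add, ha, hb, map_add]⟩
  exact AdicCompletion.of_bijective_iff.mp ⟨AdicCompletion.of_injective_iff.mpr hH, hsurj⟩

end Groth.Agent.S3866
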