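import Groth.Statements.S3894
-- import your own Groth.Agent.* helpers here

set_option autoImplicit false
universe u
open CategoryTheory CategoryTheory.Limits Opposite
open Tors

namespace Groth.Agent.S3894

/-- A torsor P under an abelian sheaf G is trivial, i.e. equivariantly isomorphic to G acting on itself
by translations, if and only if P has a global section (a morphism from the final sheaf of sets). -/
theorem result {C : Type u} [SmallCategory C] {J : GrothendieckTopology C}
    {G : Sheaf J AddCommGrpCat.{u}} (T : Tors.Torsor G) : T.IsTrivial ↔ T.HasSection := by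
  classical
  let T0 : Sheaf J (Type u) := Sheaf.terminal J Types.isTerminalPUnit
  have hT0 : IsTerminal T0 := Sheaf.isTerminalTerminal J Types.isTerminalPUnit
  let iso : ⊤_ (Sheaf J (Type u)) ≅ T0 := terminalIsoIsTerminal hT0
  constructor
  · rintro ⟨e, -⟩
    let z : T0 ⟶ (sheafCompose J (forget AddCommGrpCat.{u})).obj G :=
      ⟨{ app := fun U => TypeCat.ofHom (fun _ => (0 : G.obj.obj U))
         naturality := fun U V f => by
           ext x
           show (0 : G.obj.obj V) = (G.obj.map f).hom 0
           rw [map_zero] }⟩
    exact ⟨iso.hom ≫ z ≫ e.hom⟩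
  · rintro ⟨s⟩
    let s' : T0 ⟶ T.P := iso.inv ≫ s
    let pt : ∀ U : Cᵒᵖ, T.P.obj.obj U := fun U => s'.hom.app U PUnit.unit
    have hpt : ∀ {U V : Cᵒᵖ} (f : U ⟶ V), T.P.obj.map f (pt U) = pt V := by
      intro U V f
      have := ConcreteCategory.congr_hom (s'.hom.naturality f) PUnit.unit
      have h2 : T.P.obj.map f (pt U) = (s'.hom.app V) ((T0.obj.map f) PUnit.unit) := this.symm
      rw [h2]
      rfl
    let α : (sheafCompose J (forget AddCommGrpCat.{u})).obj G ⟶ T.P :=
      ⟨{ app := fun U => TypeCat.ofHom (fun g => T.vadd g (pt U))
         naturality := fun U V f => by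
           ext g
           show T.vadd ((G.obj.map f).hom g) (pt V) = T.P.obj.map f (T.vadd g (pt U))
           have h3 := T.map_vadd f g (pt U)
           rw [hpt] at h3
           exact h3.symm }⟩
    have hα : ∀ U, Function.Bijective (α.hom.app U) := by
      intro U
      constructor
      · intro g h hgh
        change T.vadd g (pt U) = T.vadd h (pt U) at hgh
        have hu := T.free_transitive (pt U) (T.vadd g (pt U))
        exact hu.unique rfl hgh.symm
      · intro q
        obtain ⟨g, hg, -⟩ := T.free_transitive (pt U) q
        exact ⟨g, hg⟩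
    have : IsIso α.hom := by
      have : ∀ U, IsIso (α.hom.app U) := fun U => (isIso_iff_bijective _).mpr (hα U)
      exact NatIso.isIso_of_isIso_app _
    have : IsIso α := by
      have : IsIso ((sheafToPresheaf J (Type u)).map α) := this
      exact isIso_of_reflects_iso α (sheafToPresheaf J (Type u))
    refine ⟨asIso α, fun U g h => ?_⟩
    show T.vadd (g + h) (pt U) = T.vadd g (T.vadd h (pt U))
    exact T.add_vadd g h (pt U)

end Groth.Agent.S3894
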