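import Groth.Statements.S4349
import Mathlib.AlgebraicGeometry.Properties
import Mathlib.Algebra.Category.Ring.FilteredColimits

set_option autoImplicit false
universe u
open RatFun

namespace Groth.Agent.S4349

open AlgebraicGeometry in
/-- Second assertion (in the form: sections over a dense open inject into the ring of rational
functions). Let X be a reduced scheme and V a dense open subset of X. The canonical map from the
sections of O_X over V to the ring R(X) of rational functions on X is injective. (The published
statement also assumes X locally integral or locally Noetherian; that hypothesis serves the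
quasi-coherence of the sheaf of rational functions and is not needed here.) -/
theorem result (X : Scheme.{u}) [IsReduced X]
    (V : X.Opens) (hV : Dense (V : Set X)) :
    Function.Injective (RatFun.toRing X V hV) := by
  classical
  have hfilt : CategoryTheory.IsFiltered ((IsDenseOpen X).FullSubcategory)ᵒᵖ := by
    refine { cocone_objs := ?_, cocone_maps := ?_, nonempty := ?_ }
    · intro A B
      refine ⟨Opposite.op ⟨A.unop.obj ⊓ B.unop.obj, ?_⟩,
        (CategoryTheory.ObjectProperty.homMk (CategoryTheory.homOfLE inf_le_left)).op,
        (CategoryTheory.ObjectProperty.homMk (CategoryTheory.homOfLE inf_le_right)).op, trivial⟩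
      show Dense ((A.unop.obj : Set X) ∩ B.unop.obj)
      exact (A.unop.property).inter_of_isOpen_left B.unop.property A.unop.obj.isOpen
    · intro A B f g
      refine ⟨B, CategoryTheory.CategoryStruct.id B, ?_⟩
      apply Quiver.Hom.unop_inj
      apply CategoryTheory.ObjectProperty.hom_ext
      apply Subsingleton.elim
    · exact ⟨Opposite.op ⟨⊤, by simp [IsDenseOpen]⟩⟩
  intro a b hab
  rw [← sub_eq_zero]
  have h0 : RatFun.toRing X V hV (a - b) = RatFun.toRing X V hV 0 := by
    rw [map_sub, hab, sub_self, map_zero]
  unfold RatFun.toRing at h0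
  obtain ⟨k, f, g, hfg⟩ := CategoryTheory.Limits.Concrete.colimit_exists_of_rep_eq
    (sectionsOnDense X) (i := Opposite.op ⟨V, hV⟩) (j := Opposite.op ⟨V, hV⟩) (a - b) 0 h0
  rw [map_zero] at hfg
  have hW : Dense (k.unop.obj : Set X) := k.unop.property
  have hres : X.presheaf.map (f.unop.hom).op (a - b) = 0 := hfg
  have hb : X.basicOpen (a - b) = ⊥ := by
    have h1 := X.basicOpen_res (a - b) (f.unop.hom).op
    rw [hres, Scheme.basicOpen_zero] at h1
    by_contra hne
    obtain ⟨x, hx⟩ := (TopologicalSpace.Opens.ne_bot_iff_nonempty _).mp hne
    obtain ⟨y, hy1, hy2⟩ := hW.inter_open_nonempty _ (X.basicOpen (a - b)).isOpen ⟨x, hx⟩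
    have : y ∈ ((⊥ : X.Opens) : Set X) := by
      rw [h1]
      exact ⟨hy2, hy1⟩
    exact this
  exact eq_zero_of_basicOpen_eq_bot _ hb

end Groth.Agent.S4349
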