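import Groth.Statements.S4361
import Groth.Agent.Lib_helper7_LocNoeth

set_option autoImplicit false
universe u
open FinCond

namespace Groth.Agent.S4361

open AlgebraicGeometry in
open CategoryTheory in
/-- Let f : X -> Y and g : Y -> Z be morphisms whose composite is quasi-compact, and suppose the
underlying space of X is locally Noetherian (every point has an open neighbourhood which is a
Noetherian topological space). Then f is quasi-compact. (The published statement also covers the
case g separated, which is the standard cancellation property; this row states only the case of a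
locally Noetherian source.) -/
theorem result
    {X Y Z : Scheme.{u}} (f : X ⟶ Y) (g : Y ⟶ Z) [QuasiCompact (f ≫ g)]
    (hX : ∀ x : X, ∃ U : X.Opens, x ∈ U ∧ TopologicalSpace.NoetherianSpace U) :
    QuasiCompact f := by
  constructor
  intro U hU hUc
  have hgU : IsCompact (g '' U) := hUc.image g.continuous
  obtain ⟨W, hWo, hWc, hsub⟩ : ∃ W : Set Z, IsOpen W ∧ IsCompact W ∧ g '' U ⊆ W := by
    have : ∀ z : Z, ∃ V : Z.Opens, z ∈ V ∧ IsCompact (V : Set Z) := by
      intro z
      obtain ⟨V, hV, hzV, -⟩ := (TopologicalSpace.Opens.isBasis_iff_nbhd.mp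
        Z.isBasis_affineOpens) (show z ∈ (⊤ : Z.Opens) from trivial)
      exact ⟨V, hzV, hV.isCompact⟩
    choose V hzV hVc using this
    obtain ⟨t, ht⟩ := hgU.elim_finite_subcover (fun z => (V z : Set Z)) (fun z => (V z).isOpen)
      (fun z _ => Set.mem_iUnion.mpr ⟨z, hzV z⟩)
    exact ⟨⋃ z ∈ t, (V z : Set Z), isOpen_biUnion (fun z _ => (V z).isOpen),
      t.isCompact_biUnion (fun z _ => hVc z), ht⟩
  have hK : IsCompact ((f ≫ g) ⁻¹' W) := QuasiCompact.isCompact_preimage _ hWo hWc
  refine Groth.Agent.helper7LocNoeth.isCompact_of_subset_isCompact hX hK ?_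
  intro x hx
  show (f ≫ g) x ∈ W
  rw [Scheme.Hom.comp_apply]
  exact hsub ⟨f x, hx, rfl⟩

end Groth.Agent.S4361
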