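import Groth.Statements.S4360
import Groth.Agent.Lib_helper7_LocNoeth

set_option autoImplicit false
universe u
open FinCond

namespace Groth.Agent.S4360

open AlgebraicGeometry in
open CategoryTheory in
/-- Let f : X -> Y be an immersion and suppose that the underlying space of Y is locally Noetherian,
i.e. every point of Y has an open neighbourhood which is a Noetherian topological space. Then f is
quasi-compact (and hence of finite type, an immersion being locally of finite type). -/
theorem result
    {X Y : Scheme.{u}} (f : X ⟶ Y) [IsImmersion f]
    (hY : ∀ y : Y, ∃ U : Y.Opens, y ∈ U ∧ TopologicalSpace.NoetherianSpace U) :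
    QuasiCompact f := by
  constructor
  intro U hU hUc
  rw [f.isEmbedding.isCompact_iff, Set.image_preimage_eq_inter_range]
  exact Groth.Agent.helper7LocNoeth.isCompact_of_subset_isCompact hY hUc Set.inter_subset_left

end Groth.Agent.S4360
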