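import Groth.Statements.S4362
import Mathlib.RingTheory.Noetherian.Basic
import Mathlib.Order.OrderIsoNat
-- import your own Groth.Agent.* helpers here

set_option autoImplicit false
universe u
open FinCond

namespace Groth.Agent.S4362

open AlgebraicGeometry in
open CategoryTheory in
/-- If X is a Noetherian scheme, every increasing sequence of quasi-coherent sheaves of ideals of the
structure sheaf is eventually constant; equivalently the ordered set of quasi-coherent ideal sheaves
of X is well-founded for the reverse order. (On a locally Noetherian scheme quasi-coherent and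
coherent ideal sheaves coincide.) -/
theorem result
    (X : Scheme.{u}) [IsNoetherian X] : WellFoundedGT X.IdealSheafData := by
  rw [wellFoundedGT_iff_monotone_chain_condition]
  intro a
  obtain ⟨t, ht⟩ := isCompact_univ.elim_finite_subcover (fun U : X.affineOpens => ((U : X.Opens) : Set X))
    (fun U => (U : X.Opens).isOpen) (by
      intro x _
      obtain ⟨U, hU, hxU, -⟩ := (TopologicalSpace.Opens.isBasis_iff_nbhd.mp X.isBasis_affineOpens)
        (show x ∈ (⊤ : X.Opens) from trivial)
      exact Set.mem_iUnion.mpr ⟨⟨U, hU⟩, hxU⟩)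
  have hcov : ⨆ i : t, ((i : X.affineOpens) : X.Opens) = ⊤ := by
    rw [eq_top_iff]
    intro x _
    have := ht (Set.mem_univ x)
    simp only [Set.mem_iUnion] at this
    obtain ⟨i, hi, hx⟩ := this
    exact TopologicalSpace.Opens.mem_iSup.mpr ⟨⟨i, hi⟩, hx⟩
  have hst : ∀ U : X.affineOpens, ∃ n, ∀ m, n ≤ m → (a n).ideal U = (a m).ideal U := by
    intro U
    have : IsNoetherianRing Γ(X, U) := IsLocallyNoetherian.component_noetherian U
    have hw : WellFoundedGT (Ideal Γ(X, U)) := inferInstance
    let b : ℕ →o Ideal Γ(X, U) := ⟨fun k => (a k).ideal U, fun k l hkl => a.monotone hkl U⟩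
    exact (wellFoundedGT_iff_monotone_chain_condition.mp hw) b
  choose n hn using hst
  refine ⟨t.sup n, fun m hm => ?_⟩
  apply Scheme.IdealSheafData.ext_of_iSup_eq_top (U := fun i : t => i.1) hcov
  intro i
  have h1 := hn i.1 (t.sup n) (Finset.le_sup i.2)
  have h2 := hn i.1 m ((Finset.le_sup i.2).trans hm)
  rw [← h1, ← h2]

end Groth.Agent.S4362
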