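import Groth.Statements.S4367
import Mathlib.AlgebraicGeometry.IdealSheaf.Functorial
-- import your own Groth.Agent.* helpers here

set_option autoImplicit false
universe u
open RedSep

namespace Groth.Agent.S4367

open AlgebraicGeometry in
open CategoryTheory in
/-- Let X be a reduced scheme, f : X -> Y a morphism and j : Z -> Y a closed immersion (a closed
subscheme of Y) such that the image of f is contained, as a set, in the image of j. Then f factors
as a morphism X -> Z followed by j. -/
theorem result
    {X Y Z : Scheme.{u}} [IsReduced X] (f : X ⟶ Y) (j : Z ⟶ Y) [IsClosedImmersion j]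
    (h : Set.range f ⊆ Set.range j) :
    ∃ g : X ⟶ Z, g ≫ j = f := by
  have hf : f.ker = AlgebraicGeometry.Scheme.IdealSheafData.vanishingIdeal
      (TopologicalSpace.Closeds.closure (f '' (⊤ : TopologicalSpace.Closeds X))) := by
    rw [← AlgebraicGeometry.Scheme.IdealSheafData.map_bot,
      ← AlgebraicGeometry.Scheme.nilradical_eq_bot (X := X),
      ← AlgebraicGeometry.Scheme.IdealSheafData.vanishingIdeal_top,
      AlgebraicGeometry.Scheme.IdealSheafData.map_vanishingIdeal]
  have hker : j.ker ≤ f.ker := by
    rw [hf, ← AlgebraicGeometry.Scheme.IdealSheafData.le_support_iff_le_vanishingIdeal]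
    intro y hy
    have hcl : IsClosed (Set.range j) := j.isClosedEmbedding.isClosed_range
    rw [← SetLike.mem_coe, AlgebraicGeometry.Scheme.Hom.support_ker, hcl.closure_eq]
    have hsub : closure (f '' (⊤ : TopologicalSpace.Closeds X)) ⊆ Set.range j := by
      apply hcl.closure_subset_iff.mpr
      rintro _ ⟨x, -, rfl⟩
      exact h ⟨x, rfl⟩
    exact hsub (by simpa using hy)
  exact ⟨IsClosedImmersion.lift j f hker, IsClosedImmersion.lift_fac j f hker⟩

end Groth.Agent.S4367
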