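import Groth.Statements.S4368
import Mathlib.AlgebraicGeometry.IdealSheaf.Functorial
import Mathlib.RingTheory.Ideal.Quotient.Nilpotent
-- import your own Groth.Agent.* helpers here

set_option autoImplicit false
universe u
open RedSep

namespace Groth.Agent.S4368

open AlgebraicGeometry in
open CategoryTheory in
/-- Let X be a scheme and I a quasi-coherent sheaf of ideals of O_X whose support is all of X, so that
the closed subscheme it defines has underlying space X. Then that closed subscheme is reduced if and
only if I is the nilradical of O_X. In particular the closed subscheme defined by the nilradical is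
the unique reduced closed subscheme of X with underlying space X (and, the support condition being
equivalent to I being contained in the nilradical, the smallest one). -/
theorem result
    (X : Scheme.{u}) (I : X.IdealSheafData) (hI : I.support = ⊤) :
    IsReduced I.subscheme ↔ I = X.nilradical := by
  constructor
  · intro hred
    apply le_antisymm
    · rw [← AlgebraicGeometry.Scheme.IdealSheafData.vanishingIdeal_top,
        ← AlgebraicGeometry.Scheme.IdealSheafData.le_support_iff_le_vanishingIdeal, hI]
    · have hf : I.subschemeι.ker = AlgebraicGeometry.Scheme.IdealSheafData.vanishingIdeal
          (TopologicalSpace.Closeds.closure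
            (I.subschemeι '' (⊤ : TopologicalSpace.Closeds I.subscheme))) := by
        rw [← AlgebraicGeometry.Scheme.IdealSheafData.map_bot,
          ← AlgebraicGeometry.Scheme.nilradical_eq_bot (X := I.subscheme),
          ← AlgebraicGeometry.Scheme.IdealSheafData.vanishingIdeal_top,
          AlgebraicGeometry.Scheme.IdealSheafData.map_vanishingIdeal]
      rw [← AlgebraicGeometry.Scheme.IdealSheafData.ker_subschemeι I, hf,
        ← AlgebraicGeometry.Scheme.IdealSheafData.vanishingIdeal_top]
      exact AlgebraicGeometry.Scheme.IdealSheafData.vanishingIdeal_antimono le_top
  · rintro rfl
    have : ∀ U : X.affineOpens, _root_.IsReduced (Γ(X, U) ⧸ X.nilradical.ideal U) := fun U => by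
      rw [← Ideal.isRadical_iff_quotient_reduced]
      simp only [AlgebraicGeometry.Scheme.nilradical,
        AlgebraicGeometry.Scheme.IdealSheafData.radical_ideal]
      exact Ideal.radical_isRadical _
    have hi : ∀ i : X.nilradical.subschemeCover.openCover.I₀,
        IsReduced (X.nilradical.subschemeCover.openCover.X i) := fun i => by
      have hR := this (i : X.affineOpens)
      exact (inferInstance : IsReduced (Spec (CommRingCat.of
        (Γ(X, (i : X.affineOpens).1) ⧸ X.nilradical.ideal (i : X.affineOpens)))))
    exact IsReduced.of_openCover (𝒰 := X.nilradical.subschemeCover.openCover)

end Groth.Agent.S4368
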