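import Groth.Statements.S4369
-- import your own Groth.Agent.* helpers here

set_option autoImplicit false
universe u
open AffSch

namespace Groth.Agent.S4369

/-- Let φ : A' -> A be a ring homomorphism such that every f in A can be written f = h φ(f') with h
invertible in A (this holds in particular when φ is surjective). Then the associated continuous map
Spec A -> Spec A' is a homeomorphism onto its image. -/
theorem result
    {A' A : Type u} [CommRing A'] [CommRing A] (φ : A' →+* A)
    (h : ∀ f : A, ∃ (u : Aˣ) (f' : A'), f = (u : A) * φ f') :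
    Topology.IsEmbedding (PrimeSpectrum.comap φ) := by
  have hind : Topology.IsInducing (PrimeSpectrum.comap φ) := by
    refine ⟨TopologicalSpace.ext_isClosed fun Z ↦ ?_⟩
    simp_rw [isClosed_induced_iff, PrimeSpectrum.isClosed_iff_zeroLocus,
      @eq_comm _ _ (PrimeSpectrum.zeroLocus _), exists_exists_eq_and,
      PrimeSpectrum.preimage_comap_zeroLocus]
    constructor
    · rintro ⟨s, rfl⟩
      refine ⟨{f' | ∃ u : Aˣ, (u : A) * φ f' ∈ s}, ?_⟩
      ext p
      simp only [PrimeSpectrum.mem_zeroLocus, Set.subset_def, Set.mem_image, SetLike.mem_coe,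
        Set.mem_ofPred_eq]
      constructor
      · intro hp x hx
        obtain ⟨u, f', rfl⟩ := h x
        exact p.asIdeal.mul_mem_left _ (hp _ ⟨f', ⟨u, hx⟩, rfl⟩)
      · rintro hp _ ⟨f', ⟨u, hu⟩, rfl⟩
        have h1 := hp _ hu
        have h2 : φ f' = (↑u⁻¹ : A) * (↑u * φ f') := by rw [← mul_assoc, Units.inv_mul, one_mul]
        rw [h2]
        exact p.asIdeal.mul_mem_left _ h1
    · rintro ⟨s, rfl⟩
      exact ⟨_, rfl⟩
  exact hind.isEmbedding

end Groth.Agent.S4369
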