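import Groth.Statements.S4404
import Mathlib.RingTheory.GradedAlgebra.Radical
import Mathlib.RingTheory.Nilpotent.Lemmas
-- import your own Groth.Agent.* helpers here

set_option autoImplicit false
universe u
open EGA2

namespace Groth.Agent.S4404

/-- (a) ⇔ (b): let S be a ring graded in nonnegative degrees and E a subset of the irrelevant ideal S_+.
Then V_+(E) is the whole of Proj S if and only if every element of E is nilpotent. -/
theorem result {R A : Type u} [CommRing R] [CommRing A] [Algebra R A] (𝒜 : ℕ → Submodule R A) [GradedAlgebra 𝒜]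
    (E : Set A) (hE : E ⊆ (HomogeneousIdeal.irrelevant 𝒜).toIdeal) :
    ProjectiveSpectrum.zeroLocus 𝒜 E = Set.univ ↔ ∀ e ∈ E, IsNilpotent e := by
  constructor
  · intro h e he
    by_contra hnil
    rw [nilpotent_iff_mem_prime] at hnil
    push Not at hnil
    obtain ⟨J, hJ, heJ⟩ := hnil
    have hrel : ¬ HomogeneousIdeal.irrelevant 𝒜 ≤ J.homogeneousCore 𝒜 := by
      intro hle
      exact heJ (Ideal.toIdeal_homogeneousCore_le 𝒜 J (hle (hE he)))
    let x : ProjectiveSpectrum 𝒜 := ⟨J.homogeneousCore 𝒜, hJ.homogeneousCore, hrel⟩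
    have hx : x ∈ ProjectiveSpectrum.zeroLocus 𝒜 E := by rw [h]; trivial
    rw [ProjectiveSpectrum.mem_zeroLocus] at hx
    exact heJ (Ideal.toIdeal_homogeneousCore_le 𝒜 J (hx he))
  · intro h
    apply Set.eq_univ_of_forall
    intro x
    rw [ProjectiveSpectrum.mem_zeroLocus]
    intro e he
    exact (nilpotent_iff_mem_prime.mp (h e he)) _ x.isPrime

end Groth.Agent.S4404
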