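import Groth.Statements.S4405
import Mathlib.RingTheory.GradedAlgebra.Radical
-- import your own Groth.Agent.* helpers here

set_option autoImplicit false
universe u
open EGA2

namespace Groth.Agent.S4405

/-- Let S be a ring graded in nonnegative degrees and E any subset of the irrelevant ideal S_+. Then the
intersection of S_+ with the vanishing ideal of the closed subset V_+(E) of Proj S equals the
intersection of S_+ with the radical of the graded ideal generated by E (the smallest homogeneous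
ideal containing E). -/
theorem result {R A : Type u} [CommRing R] [CommRing A] [Algebra R A] (𝒜 : ℕ → Submodule R A) [GradedAlgebra 𝒜]
    (E : Set A) (hE : E ⊆ (HomogeneousIdeal.irrelevant 𝒜).toIdeal) :
    (HomogeneousIdeal.irrelevant 𝒜).toIdeal ⊓
        (ProjectiveSpectrum.vanishingIdeal (ProjectiveSpectrum.zeroLocus 𝒜 E)).toIdeal =
      (HomogeneousIdeal.irrelevant 𝒜).toIdeal ⊓ (Ideal.homogeneousHull 𝒜 (Ideal.span E)).toIdeal.radical := by
  ext f
  rw [Ideal.mem_inf, Ideal.mem_inf]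
  constructor
  · rintro ⟨hf1, hf2⟩
    refine ⟨hf1, ?_⟩
    have hf2' := (ProjectiveSpectrum.mem_vanishingIdeal _ f).mp hf2
    rw [Ideal.radical_eq_sInf, Ideal.mem_sInf]
    rintro p ⟨hIp, hp⟩
    have hIq : Ideal.homogeneousHull 𝒜 (Ideal.span E) ≤ p.homogeneousCore 𝒜 :=
      (Ideal.homogeneousCore.gc 𝒜 _ _).mp hIp
    by_cases hrel : HomogeneousIdeal.irrelevant 𝒜 ≤ p.homogeneousCore 𝒜
    · exact Ideal.toIdeal_homogeneousCore_le 𝒜 p (hrel hf1)
    · let x : ProjectiveSpectrum 𝒜 := ⟨p.homogeneousCore 𝒜, hp.homogeneousCore, hrel⟩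
      have hx : x ∈ ProjectiveSpectrum.zeroLocus 𝒜 E := by
        rw [ProjectiveSpectrum.mem_zeroLocus]
        intro e he
        exact hIq (Ideal.le_toIdeal_homogeneousHull 𝒜 _ (Ideal.subset_span he))
      exact Ideal.toIdeal_homogeneousCore_le 𝒜 p (hf2' x hx)
  · rintro ⟨hf1, hf2⟩
    refine ⟨hf1, ?_⟩
    rw [HomogeneousIdeal.mem_iff, ProjectiveSpectrum.mem_vanishingIdeal]
    intro x hx
    rw [ProjectiveSpectrum.mem_zeroLocus] at hx
    have h1 : Ideal.span E ≤ x.asHomogeneousIdeal.toIdeal := Ideal.span_le.mpr hx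
    have h2 : Ideal.homogeneousHull 𝒜 (Ideal.span E) ≤ x.asHomogeneousIdeal :=
      (Ideal.homogeneousHull.gc 𝒜 _ _).mpr h1
    have h3 : (Ideal.homogeneousHull 𝒜 (Ideal.span E)).toIdeal.radical ≤ x.asHomogeneousIdeal.toIdeal :=
      (Ideal.IsPrime.radical_le_iff x.isPrime).mpr h2
    exact h3 hf2

end Groth.Agent.S4405
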