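import Groth.Statements.S4495
import Mathlib.Geometry.RingedSpace.Basic
import Mathlib.Topology.Sheaves.CommRingCat
import Mathlib.Topology.Connected.Clopen
-- import your own Groth.Agent.* helpers here

set_option autoImplicit false
universe u
open FlatCx

namespace Groth.Agent.S4495

open CategoryTheory AlgebraicGeometry Opposite in
/-- A locally ringed space Z is connected, in the sense that it is not the disjoint union of two
nonempty open subsets (the empty space being allowed), if and only if every idempotent of the ring
of global sections Γ(Z, O_Z) is 0 or 1 (equivalently, Γ(Z, O_Z) is not isomorphic to a product of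
two nonzero rings). -/
theorem result (Z : LocallyRingedSpace.{u}) :
    PreconnectedSpace Z ↔
      ∀ e : Z.presheaf.obj (op ⊤), IsIdempotentElem e → e = 0 ∨ e = 1 := by
  have hidem : ∀ (R : Type u) [CommRing R] [IsLocalRing R] (a : R), IsIdempotentElem a →
      a = 0 ∨ a = 1 := by
    intro R _ _ a ha
    rcases IsLocalRing.isUnit_or_isUnit_one_sub_self a with h | h
    · right
      exact h.mul_left_cancel (by rw [ha.eq, mul_one])
    · left
      exact h.mul_right_cancel (by rw [zero_mul, mul_sub, mul_one, ha.eq, sub_self])
  have hnontriv : ∀ (U : TopologicalSpace.Opens Z) (x : Z), x ∈ U →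
      (1 : Z.presheaf.obj (op U)) ≠ 0 := by
    intro U x hx h
    have := congrArg (Z.presheaf.germ U x hx) h
    rw [map_one, map_zero] at this
    exact one_ne_zero this
  have hres : ∀ (W W' : TopologicalSpace.Opens Z) (i j : op W ⟶ op W'),
      Z.presheaf.map i = Z.presheaf.map j := fun _ _ i j => by rw [Subsingleton.elim i j]
  constructor
  · intro hpc e he
    have hge : ∀ x : Z, IsIdempotentElem (Z.presheaf.Γgerm x e) := fun x => by
      unfold IsIdempotentElem; rw [← map_mul, he.eq]
    have hmem1 : ∀ x, x ∈ Z.toRingedSpace.basicOpen e ↔ Z.presheaf.Γgerm x e = 1 := by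
      intro x
      rw [RingedSpace.mem_top_basicOpen]
      constructor
      · intro hu
        rcases hidem _ _ (hge x) with h | h
        · rw [h] at hu; exact absurd hu not_isUnit_zero
        · exact h
      · intro h; rw [h]; exact isUnit_one
    have hmem0 : ∀ x, x ∈ Z.toRingedSpace.basicOpen (1 - e) ↔ Z.presheaf.Γgerm x e = 0 := by
      intro x
      rw [RingedSpace.mem_top_basicOpen, map_sub, map_one]
      constructor
      · intro hu
        rcases hidem _ _ (hge x) with h | h
        · exact h
        · rw [h, sub_self] at hu; exact absurd hu not_isUnit_zero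
      · intro h; rw [h, sub_zero]; exact isUnit_one
    let S1 : Set Z := {x | Z.presheaf.Γgerm x e = 1}
    let S0 : Set Z := {x | Z.presheaf.Γgerm x e = 0}
    have hS1 : IsOpen S1 := by
      rw [isOpen_iff_forall_mem_open]
      intro x hx
      exact ⟨(Z.toRingedSpace.basicOpen e).1, fun y hy => (hmem1 y).mp hy,
        (Z.toRingedSpace.basicOpen e).2, (hmem1 x).mpr hx⟩
    have hS0 : IsOpen S0 := by
      rw [isOpen_iff_forall_mem_open]
      intro x hx
      exact ⟨(Z.toRingedSpace.basicOpen (1 - e)).1, fun y hy => (hmem0 y).mp hy,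
        (Z.toRingedSpace.basicOpen (1 - e)).2, (hmem0 x).mpr hx⟩
    have hcompl : S1ᶜ = S0 := by
      ext x
      show ¬ (Z.presheaf.Γgerm x e = 1) ↔ Z.presheaf.Γgerm x e = 0
      rcases hidem _ _ (hge x) with h | h
      · simp [h]
      · simp [h]
    have hclopen : IsClopen S1 := by
      refine ⟨?_, hS1⟩
      rw [← isOpen_compl_iff, hcompl]; exact hS0
    rcases isClopen_iff.mp hclopen with h | h
    · left
      apply TopCat.Presheaf.section_ext Z.toSheafedSpace.sheaf ⊤
      intro x hx
      have hx1 : x ∉ S1 := by rw [h]; exact Set.notMem_empty x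
      have hx0 : x ∈ S0 := by rw [← hcompl]; exact hx1
      exact hx0.trans (map_zero _).symm
    · right
      apply TopCat.Presheaf.section_ext Z.toSheafedSpace.sheaf ⊤
      intro x hx
      have hx1 : x ∈ S1 := by rw [h]; exact Set.mem_univ x
      exact hx1.trans (map_one _).symm
  · intro H
    rw [preconnectedSpace_iff_clopen]
    intro s hs
    let U : TopologicalSpace.Opens Z := ⟨s, hs.2⟩
    let V : TopologicalSpace.Opens Z := ⟨sᶜ, hs.1.isOpen_compl⟩
    let F := Z.toSheafedSpace.sheaf
    have hUV0 : ∀ a b : F.1.obj (op (U ⊓ V)), a = b := by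
      intro a b
      apply TopCat.Presheaf.section_ext F (U ⊓ V)
      intro x hx
      exact absurd hx.2 (not_not.mpr hx.1)
    let iso := F.objSupIsoProdEqLocus U V
    let p : RingHom.eqLocus
      (RingHom.comp (F.obj.map (homOfLE inf_le_left : U ⊓ V ⟶ U).op).hom
        (RingHom.fst (F.obj.obj <| op U) (F.obj.obj <| op V)))
      (RingHom.comp (F.obj.map (homOfLE inf_le_right : U ⊓ V ⟶ V).op).hom
        (RingHom.snd (F.obj.obj <| op U) (F.obj.obj <| op V))) := ⟨(1, 0), hUV0 _ _⟩
    have hp : p * p = p := by
      apply Subtype.ext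
      show ((1 : F.obj.obj (op U)) * 1, (0 : F.obj.obj (op V)) * 0) = (1, 0)
      rw [mul_one, mul_zero]
    have htop : (⊤ : TopologicalSpace.Opens Z) ≤ U ⊔ V := by
      intro x _
      by_cases hx : x ∈ s
      · exact Or.inl hx
      · exact Or.inr hx
    let e' : F.1.obj (op (U ⊔ V)) := iso.inv p
    have hresF : ∀ (W W' : TopologicalSpace.Opens Z) (i j : op W ⟶ op W'),
        F.1.map i = F.1.map j := fun _ _ i j => by rw [Subsingleton.elim i j]
    let e : F.1.obj (op ⊤) := F.1.map (homOfLE htop).op e'
    have he : IsIdempotentElem e := by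
      show F.1.map (homOfLE htop).op e' * F.1.map (homOfLE htop).op e' =
        F.1.map (homOfLE htop).op e'
      rw [← map_mul]
      congr 1
      show iso.inv p * iso.inv p = iso.inv p
      rw [← map_mul, hp]
    have hU : F.1.map (homOfLE le_top : U ⟶ ⊤).op e = 1 := by
      show F.1.map (homOfLE le_top : U ⟶ ⊤).op (F.1.map (homOfLE htop).op e') = 1
      rw [← ConcreteCategory.comp_apply, ← Functor.map_comp,
        hresF _ _ _ (homOfLE (le_sup_left : U ≤ U ⊔ V)).op]
      exact TopCat.Sheaf.objSupIsoProdEqLocus_inv_fst F U V p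
    have hV : F.1.map (homOfLE le_top : V ⟶ ⊤).op e = 0 := by
      show F.1.map (homOfLE le_top : V ⟶ ⊤).op (F.1.map (homOfLE htop).op e') = 0
      rw [← ConcreteCategory.comp_apply, ← Functor.map_comp,
        hresF _ _ _ (homOfLE (le_sup_right : V ≤ U ⊔ V)).op]
      exact TopCat.Sheaf.objSupIsoProdEqLocus_inv_snd F U V p
    rcases H e he with h | h
    · left
      rw [h] at hU
      have h0 : (1 : ↑(F.1.obj (op U))) = 0 := hU.symm.trans (map_zero _)
      ext x
      simp only [Set.mem_empty_iff_false, iff_false]
      intro hx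
      exact hnontriv U x hx h0
    · right
      rw [h] at hV
      have h0 : (1 : ↑(F.1.obj (op V))) = 0 := (map_one _).symm.trans hV
      ext x
      simp only [Set.mem_univ, iff_true]
      by_contra hx
      exact hnontriv V x hx h0

end Groth.Agent.S4495
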