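import Groth.Statements.S4624
import Mathlib.AlgebraicGeometry.PullbackCarrier

set_option autoImplicit false
open CategoryTheory AlgebraicGeometry
universe u
open FBase

namespace Groth.Agent.S4624

/-- Let h : X → Y be a surjective morphism of schemes over a field k. If X is geometrically connected
over k, then Y is geometrically connected over k. -/
theorem result {k : Type u} [Field k] {X Y : Scheme.{u}}
    (f : X ⟶ Spec (CommRingCat.of k)) (g : Y ⟶ Spec (CommRingCat.of k)) (h : X ⟶ Y) (w : h ≫ g = f)
    [Surjective h] [GeometricallyConnected f] : GeometricallyConnected g := by
  constructor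
  have H := (GeometricallyConnected.geometrically_connectedSpace (f := f))
  intro K _ y Z fst snd hZ
  have hpb := (IsPullback.of_hasPullback h fst).paste_vert hZ
  rw [w] at hpb
  have hW : ConnectedSpace ↥(Limits.pullback h fst) := H y _ _ hpb
  have hsurj : Function.Surjective (Limits.pullback.snd h fst) :=
    (Limits.pullback.snd h fst).surjective
  exact hsurj.connectedSpace (Limits.pullback.snd h fst).continuous

end Groth.Agent.S4624
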