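import Groth.Statements.S4625
import Groth.Agent.Lib_helper7_GeomDescent

set_option autoImplicit false
open CategoryTheory AlgebraicGeometry
universe u
open FBase

namespace Groth.Agent.S4625

/-- Let X be a scheme over a field k and K an extension field of k. Then X is geometrically connected
over k if and only if X ⊗_k K, with its structure of K-scheme, is geometrically connected over K. -/
theorem result {k K : Type u} [Field k] [Field K] [Algebra k K]
    {X : Scheme.{u}} (f : X ⟶ Spec (CommRingCat.of k)) :
    GeometricallyConnected f ↔ GeometricallyConnected (FBase.bcStr f K) := by
  have hs : Surjective (Spec.map (CommRingCat.ofHom (algebraMap k K))) :=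
    ⟨fun x => ⟨Nonempty.some inferInstance, Subsingleton.elim _ _⟩⟩
  constructor
  · intro hf
    unfold FBase.bcStr
    exact ⟨MorphismProperty.pullback_snd _ _ hf.geometrically_connectedSpace⟩
  · intro hf
    unfold FBase.bcStr at hf
    constructor
    exact Groth.Agent.helper7GeomDescent.geometrically_of_pullback_snd
      (fun φ hφ hW => by haveI := hW; exact hφ.connectedSpace φ.continuous) f _
      hf.geometrically_connectedSpace

end Groth.Agent.S4625
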