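import Groth.Statements.S4650
import Mathlib.AlgebraicGeometry.Properties

set_option autoImplicit false
open CategoryTheory AlgebraicGeometry
universe u
open FDesc

namespace Groth.Agent.S4650

/-- Let f : X → Y be a morphism of schemes along which generizations lift (this holds for flat,
quasi-flat or open morphisms). Then every irreducible component of X dominates an irreducible
component of Y: the closure of its image is an irreducible component of Y. -/
theorem result {X Y : Scheme.{u}} (f : X ⟶ Y)
    (hf : GeneralizingMap ⇑f) (T : Set ↥X) (hT : T ∈ irreducibleComponents ↥X) :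
    closure (⇑f '' T) ∈ irreducibleComponents ↥Y := by
  have hTirr : IsIrreducible T := hT.1
  have hTcl : IsClosed T := isClosed_of_mem_irreducibleComponents T hT
  have hirr : IsIrreducible (closure (⇑f '' T)) :=
    (hTirr.image _ f.continuous.continuousOn).closure
  refine ⟨hirr, fun S hS hle => ?_⟩
  have hη : IsGenericPoint hS.genericPoint (closure S) := hS.isGenericPoint_genericPoint_closure
  have hξ : IsGenericPoint hTirr.genericPoint (closure T) :=
    hTirr.isGenericPoint_genericPoint_closure
  rw [hTcl.closure_eq] at hξ
  have hfξ : f hTirr.genericPoint ∈ closure S :=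
    subset_closure (hle (subset_closure ⟨_, hξ.mem, rfl⟩))
  have hsp : hS.genericPoint ⤳ f hTirr.genericPoint := hη.specializes hfξ
  obtain ⟨ξ', hξ'ξ, hfξ'⟩ := hf hsp
  have hT' : closure {ξ'} ⊆ T := by
    have h1 : T ⊆ closure {ξ'} := by
      rw [← hξ.def]
      exact specializes_iff_closure_subset.mp hξ'ξ
    exact hT.2 isIrreducible_singleton.closure h1
  have hξ'T : ξ' ∈ T := hT' (subset_closure rfl)
  have hηT : hS.genericPoint ∈ closure (⇑f '' T) := subset_closure ⟨ξ', hξ'T, hfξ'⟩
  calc S ⊆ closure S := subset_closure
    _ = closure {hS.genericPoint} := hη.def.symm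
    _ ⊆ closure (⇑f '' T) := closure_minimal (Set.singleton_subset_iff.mpr hηT) isClosed_closure

end Groth.Agent.S4650
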