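import Groth.Statements.S4656
import Groth.Agent.Lib_helper7_FlatDescent

set_option autoImplicit false
open CategoryTheory AlgebraicGeometry
universe u
open FDesc

namespace Groth.Agent.S4656

/-- Let f : X → Y and g : Y → Z be morphisms of schemes and x a point of X at which f is flat (the local
ring of X at x is flat over that of Y at f(x)). Then the composite g ∘ f is flat at x if and only if
g is flat at f(x). -/
theorem result {X Y Z : Scheme.{u}} (f : X ⟶ Y) (g : Y ⟶ Z) (x : X)
    (hf : (f.stalkMap x).hom.Flat) :
    ((f ≫ g).stalkMap x).hom.Flat ↔ (g.stalkMap (f x)).hom.Flat := by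
  have e : ((f ≫ g).stalkMap x).hom = (f.stalkMap x).hom.comp (g.stalkMap (f x)).hom := by
    have := congrArg CommRingCat.Hom.hom (Scheme.Hom.stalkMap_comp f g x)
    exact this
  rw [e]
  constructor
  · intro h
    exact Groth.Agent.helper7FlatDescent.ringHom_flat_of_comp _ _ hf h
  · intro h
    exact RingHom.Flat.comp h hf

end Groth.Agent.S4656
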