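import Groth.Statements.S4664
import Groth.Agent.Lib_helper7_GeomDescent

set_option autoImplicit false
open CategoryTheory AlgebraicGeometry
universe u
open FBase

namespace Groth.Agent.S4664

open CategoryTheory.Limits in
/-- Let f : X → Y and g : Y' → Y be morphisms of schemes with g surjective, and let f' : X ×_Y Y' → Y'
be the base change of f. If every fibre of f' is geometrically irreducible, then every fibre of f is
geometrically irreducible. -/
theorem result {X Y Y' : Scheme.{u}} (f : X ⟶ Y)
    (g : Y' ⟶ Y) [Surjective g] [GeometricallyIrreducible (pullback.snd f g)] : GeometricallyIrreducible f := by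
  constructor
  refine Groth.Agent.helper7GeomDescent.geometrically_of_pullback_snd ?_ f g
    GeometricallyIrreducible.geometrically_irreducibleSpace
  intro W Z φ hφ hW
  rw [irreducibleSpace_def] at hW ⊢
  have := hW.image _ φ.continuous.continuousOn
  rw [Set.top_eq_univ, Set.image_univ, hφ.range_eq] at this
  rwa [Set.top_eq_univ]

end Groth.Agent.S4664
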