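import Groth.Statements.S4674
-- import your own Groth.Agent.* helpers here

set_option autoImplicit false
open scoped TensorProduct
universe u v w
open FDesc

namespace Groth.Agent.S4674

/-- Let B be a flat A-algebra and M a finitely presented A-module. Then the annihilator of the B-module
B ⊗_A M is the ideal of B generated by the image of the annihilator of M. -/
theorem result {A : Type u} {B : Type v} [CommRing A] [CommRing B] [Algebra A B]
    [Module.Flat A B] (M : Type w) [AddCommGroup M] [Module A M] [Module.FinitePresentation A M] :
    Module.annihilator B (B ⊗[A] M) = (Module.annihilator A M).map (algebraMap A B) := by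
  classical
  apply le_antisymm
  · intro b hb
    obtain ⟨n, s, hs⟩ := Module.Finite.exists_fin (R := A) (M := M)
    let φ : A →ₗ[A] (Fin n → M) := LinearMap.pi (fun i => LinearMap.toSpanSingleton A M (s i))
    have hφ : ∀ a, φ a = fun i => a • s i := fun a => rfl
    have hker : ∀ a, φ a = 0 ↔ a ∈ Module.annihilator A M := by
      intro a
      constructor
      · intro h
        rw [Module.mem_annihilator]
        intro m
        have hm : m ∈ Submodule.span A (Set.range s) := hs ▸ Submodule.mem_top
        induction hm using Submodule.span_induction with
        | mem x hx =>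
          obtain ⟨i, rfl⟩ := hx
          have := congrFun h i
          rw [hφ] at this
          exact this
        | zero => simp
        | add x y _ _ hx hy => rw [smul_add, hx, hy, add_zero]
        | smul c x _ hx => rw [smul_comm, hx, smul_zero]
      · intro h
        rw [hφ]
        funext i
        exact Module.mem_annihilator.mp h (s i)
    let K : Submodule A A := Module.annihilator A M
    let f : K →ₗ[A] A := K.subtype
    have hex : Function.Exact f φ := by
      intro a
      constructor
      · intro h
        exact ⟨⟨a, (hker a).mp h⟩, rfl⟩
      · rintro ⟨⟨a', ha'⟩, rfl⟩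
        exact (hker a').mpr ha'
    have hex' := Module.Flat.lTensor_exact B hex
    have h1 : φ.lTensor B (b ⊗ₜ[A] (1 : A)) = 0 := by
      rw [LinearMap.lTensor_tmul]
      apply (TensorProduct.piRight A A B (fun _ : Fin n => M)).injective
      rw [map_zero, TensorProduct.piRight_apply, TensorProduct.piRightHom_tmul]
      funext i
      rw [hφ]
      simp only [one_smul, Pi.zero_apply]
      have : b ⊗ₜ[A] s i = b • ((1 : B) ⊗ₜ[A] s i) := by
        rw [TensorProduct.smul_tmul', smul_eq_mul, mul_one]
      rw [this, Module.mem_annihilator.mp hb]
    obtain ⟨y, hy⟩ := (hex' (b ⊗ₜ[A] (1 : A))).mp h1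
    have hb' : b = TensorProduct.rid A B (f.lTensor B y) := by
      rw [hy, TensorProduct.rid_tmul, one_smul]
    rw [hb']
    clear hy hb'
    induction y using TensorProduct.induction_on with
    | zero => simp
    | tmul c a =>
      rw [LinearMap.lTensor_tmul, TensorProduct.rid_tmul, Algebra.smul_def]
      exact Ideal.mul_mem_right _ _ (Ideal.mem_map_of_mem _ a.2)
    | add x y hx hy =>
      rw [map_add, map_add]
      exact Ideal.add_mem _ hx hy
  · rw [Ideal.map_le_iff_le_comap]
    intro a ha
    rw [Ideal.mem_comap, Module.mem_annihilator]
    intro x
    induction x using TensorProduct.induction_on with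
    | zero => simp
    | tmul b m =>
      rw [TensorProduct.smul_tmul', smul_eq_mul, ← Algebra.smul_def, TensorProduct.smul_tmul,
        Module.mem_annihilator.mp ha m, TensorProduct.tmul_zero]
    | add x y hx hy => rw [smul_add, hx, hy, add_zero]

end Groth.Agent.S4674
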