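import Groth.Statements.S4675
import Mathlib.Algebra.Module.Submodule.Equiv
-- import your own Groth.Agent.* helpers here

set_option autoImplicit false
universe u v
open FDesc

namespace Groth.Agent.S4675

/-- Let B be a ring, not necessarily commutative, and V, W two left B-modules which are isomorphic. For
a B-linear map u : V → W the following are equivalent: every B-linear map V → W can be written
uniquely as u ∘ c with c a B-linear endomorphism of V (that is, u is a basis of Hom_B(V, W) for its
right module structure over End_B(V)); u is bijective. -/
theorem result {B : Type u} [Ring B] {V W : Type v} [AddCommGroup V] [AddCommGroup W]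
    [Module B V] [Module B W] (e : V ≃ₗ[B] W) (u : V →ₗ[B] W) :
    (∀ v : V →ₗ[B] W, ∃! c : V →ₗ[B] V, v = u ∘ₗ c) ↔ Function.Bijective u := by
  constructor
  · intro h
    obtain ⟨c0, hc0, -⟩ := h e.toLinearMap
    have hs : ∀ w, u (c0 (e.symm w)) = w := by
      intro w
      have := congrArg (fun f => f (e.symm w)) hc0
      simp only [LinearEquiv.coe_coe, LinearEquiv.apply_symm_apply, LinearMap.comp_apply] at this
      exact this.symm
    obtain ⟨c1, -, huniq⟩ := h u
    have hid : LinearMap.id = c1 := huniq LinearMap.id (LinearMap.comp_id u).symm
    have hsu : (c0 ∘ₗ e.symm.toLinearMap ∘ₗ u) = c1 := by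
      apply huniq
      ext x
      simp only [LinearMap.comp_apply, LinearEquiv.coe_coe, hs]
    have key : ∀ x, c0 (e.symm (u x)) = x := by
      intro x
      have := congrArg (fun f => f x) (hsu.trans hid.symm)
      simpa using this
    refine ⟨fun x y hxy => ?_, fun w => ⟨c0 (e.symm w), hs w⟩⟩
    rw [← key x, ← key y, hxy]
  · intro hb v
    refine ⟨(LinearEquiv.ofBijective u hb).symm.toLinearMap ∘ₗ v, ?_, ?_⟩
    · ext x
      simp only [LinearMap.comp_apply, LinearEquiv.coe_coe]
      exact ((LinearEquiv.ofBijective u hb).apply_symm_apply (v x)).symm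
    · intro c hc
      ext x
      simp only [LinearMap.comp_apply, LinearEquiv.coe_coe, hc]
      exact ((LinearEquiv.ofBijective u hb).symm_apply_apply (c x)).symm

end Groth.Agent.S4675
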