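import Groth.Statements.S4676
import Mathlib.Algebra.Module.Submodule.Equiv
import Mathlib.RingTheory.Noetherian.Orzech
-- import your own Groth.Agent.* helpers here

set_option autoImplicit false
universe u v
open FDesc

namespace Groth.Agent.S4676

/-- Let B be a ring, not necessarily commutative, and V, W two Noetherian left B-modules which are
isomorphic. For a B-linear map u : V → W the following are equivalent: every B-linear map V → W can
be written as u ∘ c for some B-linear endomorphism c of V (that is, u generates Hom_B(V, W) as a
right module over End_B(V)); u is bijective. -/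
theorem result {B : Type u} [Ring B] {V W : Type v} [AddCommGroup V]
    [AddCommGroup W] [Module B V] [Module B W] [IsNoetherian B V] [IsNoetherian B W] (e : V ≃ₗ[B] W) (u : V →ₗ[B] W) :
    (∀ v : V →ₗ[B] W, ∃ c : V →ₗ[B] V, v = u ∘ₗ c) ↔ Function.Bijective u := by
  constructor
  · intro h
    obtain ⟨c0, hc0⟩ := h e.toLinearMap
    have hs : ∀ w, u (c0 (e.symm w)) = w := by
      intro w
      have := congrArg (fun f => f (e.symm w)) hc0
      simp only [LinearEquiv.coe_coe, LinearEquiv.apply_symm_apply, LinearMap.comp_apply] at this
      exact this.symm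
    have hsurj : Function.Surjective u := fun w => ⟨c0 (e.symm w), hs w⟩
    have hf : Function.Surjective (e.symm.toLinearMap ∘ₗ u) := by
      intro x
      obtain ⟨y, hy⟩ := hsurj (e x)
      exact ⟨y, by simp [hy]⟩
    have hinj := IsNoetherian.injective_of_surjective_endomorphism _ hf
    refine ⟨fun x y hxy => hinj ?_, hsurj⟩
    simp [hxy]
  · intro hb v
    refine ⟨(LinearEquiv.ofBijective u hb).symm.toLinearMap ∘ₗ v, ?_⟩
    ext x
    simp only [LinearMap.comp_apply, LinearEquiv.coe_coe]
    exact ((LinearEquiv.ofBijective u hb).apply_symm_apply (v x)).symm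

end Groth.Agent.S4676
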