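import Groth.Statements.S4711
import Mathlib.AlgebraicGeometry.Properties

set_option autoImplicit false
universe u
open EGA4
open Topology AlgebraicGeometry
open Set.Notation TopologicalSpace

namespace Groth.Agent.S4711

theorem result (X : Scheme.{u}) (E : Set X)
    (hE : Topology.IsLocallyConstructible E) (hne : E.Nonempty) :
    ∃ x ∈ E, IsLocallyClosed ({x} : Set X) := by
  obtain ⟨x, hx⟩ := hne
  obtain ⟨U, hUx, hUo, hUE⟩ := hE x
  have hxU : x ∈ U := mem_of_mem_nhds hUx
  obtain ⟨_, ⟨V, hV, rfl⟩, hxV, hVU⟩ := X.isBasis_affineOpens.exists_subset_of_mem_open hxU hUo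
  have : IsAffine (V : Scheme.{u}) := hV
  have hind : IsInducing (fun a : (V : Scheme.{u}) => (a.1 : X)) := IsInducing.subtypeVal
  let f : (↥(V : Scheme.{u})) → ↥U := fun a => ⟨a.1, hVU a.2⟩
  have hfc : Continuous f := hind.continuous.subtype_mk _
  have hfind : IsInducing f :=
    IsInducing.of_comp hfc continuous_subtype_val hind
  have hrange : IsOpen (Set.range f) := by
    have : Set.range f = Subtype.val ⁻¹' (V : Set X) := by
      ext y
      constructor
      · rintro ⟨a, rfl⟩; exact a.2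
      · intro hy; exact ⟨⟨y.1, hy⟩, rfl⟩
    rw [this]
    exact V.isOpen.preimage continuous_subtype_val
  have hfo : IsOpenMap f := hfind.isOpenMap hrange
  have hcons : Topology.IsConstructible (f ⁻¹' (U ↓∩ E)) := by
    refine hUE.preimage hfc ?_
    intro s hso hsr K hKc hKo
    have h1 : IsCompact (s ∩ f '' K) := hsr (hKc.image hfc) (hfo K hKo)
    rw [hfind.isCompact_iff]
    convert h1 using 1
    ext y
    constructor
    · rintro ⟨a, ⟨has, haK⟩, rfl⟩; exact ⟨has, a, haK, rfl⟩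
    · rintro ⟨hys, a, haK, rfl⟩; exact ⟨a, ⟨hys, haK⟩, rfl⟩
  let ι := {s : Set (V : Scheme.{u}) // IsOpen s ∧ IsCompact s}
  have hι : Nonempty ι := ⟨⟨∅, isOpen_empty, isCompact_empty⟩⟩
  have hbasis : IsTopologicalBasis (Set.range fun i : ι => i.1) := by
    have h := PrespectralSpace.isTopologicalBasis (X := (V : Scheme.{u}))
    convert h using 1
    ext s
    constructor
    · rintro ⟨i, rfl⟩; exact i.2
    · intro hs; exact ⟨⟨s, hs⟩, rfl⟩
  have key := Topology.IsConstructible.induction_of_isTopologicalBasis (X := (V : Scheme.{u}))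
    (P := fun s _ => s.Nonempty → ∃ y ∈ s, IsLocallyClosed ({y} : Set (V : Scheme.{u})))
    (fun i : ι => i.1) hbasis (fun i => i.2.2)
    (by
      intro i t ht hne
      let C : Set (V : Scheme.{u}) := (i : ι).1 \ ⋃ j ∈ t, (j : ι).1
      have hCc : IsCompact C := i.2.2.diff (isOpen_biUnion fun j _ => j.2.1)
      have : CompactSpace C := isCompact_iff_compactSpace.mp hCc
      obtain ⟨c, -, hc⟩ := IsClosed.exists_closed_singleton (X := C) (S := Set.univ) isClosed_univ
        ⟨⟨hne.some, hne.some_mem⟩, trivial⟩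
      obtain ⟨F, hF, hFc⟩ := isClosed_induced_iff.mp hc
      refine ⟨c, c.2, ⟨i.1, (⋃ j ∈ t, (j : ι).1)ᶜ ∩ F, i.2.1,
        (isOpen_biUnion fun j _ => j.2.1).isClosed_compl.inter hF, ?_⟩⟩
      ext y
      constructor
      · rintro rfl
        have hcF : c ∈ Subtype.val ⁻¹' F := by rw [hFc]; rfl
        exact ⟨c.2.1, c.2.2, hcF⟩
      · rintro ⟨hyi, hyn, hyF⟩
        have h2 : (⟨y, hyi, hyn⟩ : C) ∈ Subtype.val ⁻¹' F := hyF
        rw [hFc] at h2
        exact congrArg Subtype.val h2)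
    (by
      intro s hs t ht ihs iht hne
      obtain ⟨y, hy | hy⟩ := hne
      · obtain ⟨z, hz, hzl⟩ := ihs ⟨y, hy⟩; exact ⟨z, Or.inl hz, hzl⟩
      · obtain ⟨z, hz, hzl⟩ := iht ⟨y, hy⟩; exact ⟨z, Or.inr hz, hzl⟩)
    _ hcons
  obtain ⟨y, hy, hyl⟩ := key ⟨⟨x, hxV⟩, hx⟩
  refine ⟨y.1, hy, ?_⟩
  have h3 := hyl.image hind (by
    have : Set.range (fun a : (V : Scheme.{u}) => (a.1 : X)) = (V : Set X) := by
      ext z
      constructor
      · rintro ⟨a, rfl⟩; exact a.2
      · intro hz; exact ⟨⟨z, hz⟩, rfl⟩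
    rw [this]
    exact V.isOpen.isLocallyClosed)
  rwa [Set.image_singleton] at h3

end Groth.Agent.S4711
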