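import Groth.Statements.S4724
-- import your own Groth.Agent.* helpers here

set_option autoImplicit false
universe u
open EGA4

namespace Groth.Agent.S4724

/-- Let (A_i) be a directed system of commutative rings with direct limit A. Then the nilradical of A is
the supremum of the extensions to A of the nilradicals of the A_i; in particular, if every A_i is
reduced then A is reduced. -/
theorem result (ι : Type u) [Preorder ι] [Nonempty ι] [IsDirectedOrder ι] (G : ι → Type u)
    [∀ i, CommRing (G i)] (f : ∀ i j, i ≤ j → G i →+* G j) [DirectedSystem G (fun i j h ↦ f i j h)] :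
    nilradical (Ring.DirectLimit G (fun i j h ↦ f i j h)) =
        ⨆ i, (nilradical (G i)).map (Ring.DirectLimit.of G (fun i j h ↦ f i j h) i) ∧
      ((∀ i, IsReduced (G i)) → IsReduced (Ring.DirectLimit G (fun i j h ↦ f i j h))) := by
  classical
  constructor
  · apply le_antisymm
    · intro x hx
      obtain ⟨n, hn⟩ := (mem_nilradical).mp hx
      obtain ⟨i, a, rfl⟩ := Ring.DirectLimit.exists_of x
      rw [← map_pow] at hn
      obtain ⟨j, hij, hj⟩ := Ring.DirectLimit.of.zero_exact hn
      rw [map_pow] at hj
      have hmem : f i j hij a ∈ nilradical (G j) := (mem_nilradical).mpr ⟨n, hj⟩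
      apply Ideal.mem_iSup_of_mem j
      rw [← Ring.DirectLimit.of_f hij a]
      exact Ideal.mem_map_of_mem _ hmem
    · apply iSup_le
      intro i
      rw [Ideal.map_le_iff_le_comap]
      intro a ha
      obtain ⟨n, hn⟩ := (mem_nilradical).mp ha
      rw [Ideal.mem_comap, mem_nilradical]
      exact ⟨n, by rw [← map_pow, hn, map_zero]⟩
  · intro hred
    refine ⟨fun x hx => ?_⟩
    obtain ⟨n, hn⟩ := hx
    obtain ⟨i, a, rfl⟩ := Ring.DirectLimit.exists_of x
    rw [← map_pow] at hn
    obtain ⟨j, hij, hj⟩ := Ring.DirectLimit.of.zero_exact hn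
    rw [map_pow] at hj
    have h0 : f i j hij a = 0 := IsReduced.eq_zero _ ⟨n, hj⟩
    rw [← Ring.DirectLimit.of_f hij a, h0, map_zero]

end Groth.Agent.S4724
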