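import Groth.Statements.S4727
-- import your own Groth.Agent.* helpers here

set_option autoImplicit false
universe u
open EGA4

namespace Groth.Agent.S4727

/-- Let A be a commutative ring, B an A-algebra and N an ideal of B all of whose elements are nilpotent.
Then the integral closure of A in B is the inverse image, under the canonical map B → B/N, of the
integral closure of A in B/N: an element of B whose image in B/N is integral over A is itself
integral over A. -/
theorem result (A B : Type u) [CommRing A] [CommRing B] [Algebra A B]
    (N : Ideal B) (hN : ∀ x ∈ N, IsNilpotent x) :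
    (integralClosure A B).toSubring =
      (integralClosure A (B ⧸ N)).toSubring.comap (Ideal.Quotient.mk N) := by
  ext x
  simp only [Subring.mem_comap, Subalgebra.mem_toSubring, mem_integralClosure_iff]
  constructor
  · intro hx
    exact hx.map (Ideal.Quotient.mkₐ A N)
  · rintro ⟨p, hp, hpx⟩
    have h1 : Polynomial.aeval (Ideal.Quotient.mkₐ A N x) p = 0 := hpx
    rw [Polynomial.aeval_algHom_apply, Ideal.Quotient.mkₐ_eq_mk, Ideal.Quotient.eq_zero_iff_mem] at h1
    obtain ⟨m, hm⟩ := hN _ h1
    refine ⟨p ^ m, hp.pow m, ?_⟩
    have : Polynomial.aeval x (p ^ m) = 0 := by rw [map_pow, hm]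
    exact this

end Groth.Agent.S4727
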