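import Groth.Statements.S4821
-- import your own Groth.Agent.* helpers here

set_option autoImplicit false
universe u
open Cons9

namespace Groth.Agent.S4821

/-- Let A be an integral domain with fraction field K, and (P_i) a finite family of polynomials in
A[T_1, …, T_m], generating an ideal 𝔞; for a point s of Spec A write 𝔞_s for the ideal of κ(s)[T_1,
…, T_m] generated by the images of the P_i. If the zero locus of 𝔞_η in affine m-space over K = κ(η)
is empty, that is if 𝔞_η is the unit ideal, then there is an open neighbourhood D(f) (f ≠ 0) of the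
generic point such that 𝔞_s is the unit ideal (its zero locus is empty) for every s in D(f). -/
theorem result {A : Type u} [CommRing A] [IsDomain A] {m : ℕ}
    (P : Finset (MvPolynomial (Fin m) A))
    (hη : Ideal.span ((MvPolynomial.map (algebraMap A (FractionRing A))) '' (P : Set (MvPolynomial (Fin m) A))) = ⊤) :
    ∃ f : A, f ≠ 0 ∧ ∀ p : PrimeSpectrum A, f ∉ p.asIdeal →
      Ideal.span ((MvPolynomial.map (algebraMap A p.asIdeal.ResidueField)) '' (P : Set (MvPolynomial (Fin m) A))) = ⊤ := by
  classical
  have h1 : (1 : MvPolynomial (Fin m) (FractionRing A)) ∈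
      Ideal.span ((MvPolynomial.map (algebraMap A (FractionRing A))) '' (P : Set _)) := by
    rw [hη]; trivial
  obtain ⟨c, hc⟩ := (Submodule.mem_span_image_finset_iff_exists_fun'
    (R := MvPolynomial (Fin m) (FractionRing A))).mp h1
  let S : Finset (FractionRing A) := P.biUnion (fun i => (c i).coeffs)
  obtain ⟨⟨b, hb⟩, hbS⟩ := IsLocalization.exist_integer_multiples_of_finset (nonZeroDivisors A) S
  have hlift : ∀ i ∈ P, ∃ d : MvPolynomial (Fin m) A,
      MvPolynomial.map (algebraMap A (FractionRing A)) d =
        MvPolynomial.C (algebraMap A (FractionRing A) b) * c i := by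
    intro i hi
    have : MvPolynomial.C (algebraMap A (FractionRing A) b) * c i ∈
        Set.range (MvPolynomial.map (algebraMap A (FractionRing A))) := by
      rw [MvPolynomial.mem_range_map_iff_coeffs_subset]
      intro x hx
      rw [Finset.mem_coe, MvPolynomial.mem_coeffs_iff] at hx
      obtain ⟨n, hn, rfl⟩ := hx
      rw [MvPolynomial.coeff_C_mul]
      have hn' : (c i).coeff n ≠ 0 := by
        intro h0
        rw [MvPolynomial.mem_support_iff, MvPolynomial.coeff_C_mul, h0, mul_zero] at hn
        exact hn rfl
      have hyS : (c i).coeff n ∈ S := by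
        simp only [S, Finset.mem_biUnion]
        exact ⟨i, hi, MvPolynomial.coeff_mem_coeffs _ hn'⟩
      have := hbS _ hyS
      rw [Algebra.smul_def] at this
      exact this
    obtain ⟨d, hd⟩ := this
    exact ⟨d, hd⟩
  choose! d hd using hlift
  have hmain : MvPolynomial.C b = ∑ i ∈ P, d i * i := by
    apply MvPolynomial.map_injective (algebraMap A (FractionRing A))
      (IsFractionRing.injective A (FractionRing A))
    rw [map_sum, MvPolynomial.map_C]
    simp only [map_mul]
    rw [Finset.sum_congr rfl (fun i hi => by rw [hd i hi])]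
    simp_rw [mul_assoc, ← Finset.mul_sum]
    have hc' : ∑ i ∈ P, c i * MvPolynomial.map (algebraMap A (FractionRing A)) i = 1 := by
      simpa [smul_eq_mul] using hc
    rw [hc', mul_one]
  refine ⟨b, nonZeroDivisors.ne_zero hb, fun p hp => ?_⟩
  have hu : IsUnit (MvPolynomial.C (algebraMap A p.asIdeal.ResidueField b) :
      MvPolynomial (Fin m) p.asIdeal.ResidueField) := by
    apply IsUnit.map
    rw [isUnit_iff_ne_zero]
    intro h0
    exact hp (Ideal.algebraMap_residueField_eq_zero.mp h0)
  apply Ideal.eq_top_of_isUnit_mem _ _ hu
  have : MvPolynomial.C (algebraMap A p.asIdeal.ResidueField b) =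
      ∑ i ∈ P, MvPolynomial.map (algebraMap A p.asIdeal.ResidueField) (d i) *
        MvPolynomial.map (algebraMap A p.asIdeal.ResidueField) i := by
    rw [← MvPolynomial.map_C, hmain, map_sum]
    simp only [map_mul]
  rw [this]
  exact Submodule.sum_mem _ (fun i hi => Ideal.mul_mem_left _ _ (Ideal.subset_span ⟨i, hi, rfl⟩))

end Groth.Agent.S4821
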