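import Groth.Statements.S4834
import Mathlib.CategoryTheory.Limits.Types.Filtered
import Mathlib.Algebra.Category.ModuleCat.FilteredColimits
import Mathlib.Data.Finset.Order
-- import your own Groth.Agent.* helpers here

set_option autoImplicit false
open CategoryTheory CategoryTheory.Limits
universe u
open Lim8

namespace Groth.Agent.S4834

/-- Let A be a commutative ring, M an A-module of finite type and (N_λ) an inductive system of A-modules
indexed by a nonempty directed preordered set. Then the canonical map colim_λ Hom_A(M, N_λ) →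
Hom_A(M, colim_λ N_λ), sending a compatible system of homomorphisms to its inductive limit, is
injective. This is the finite type case, in the form its proof gives. -/
theorem result {A : Type u} [CommRing A] (M : ModuleCat.{u} A)
    [Module.Finite A M] {J : Type u} [Preorder J] [IsDirected J (· ≤ ·)] [Nonempty J]
    (N : J ⥤ ModuleCat.{u} A) :
    Function.Injective (colimit.post N (coyoneda.obj (Opposite.op M))) := by
  classical
  intro x y hxy
  obtain ⟨i, a, rfl⟩ := Types.jointly_surjective' x
  obtain ⟨j, b, rfl⟩ := Types.jointly_surjective' y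
  have hxy' : a ≫ colimit.ι N i = b ≫ colimit.ι N j := by
    have h1 := ConcreteCategory.congr_hom (colimit.ι_post N (coyoneda.obj (Opposite.op M)) i) a
    have h2 := ConcreteCategory.congr_hom (colimit.ι_post N (coyoneda.obj (Opposite.op M)) j) b
    simp only [types_comp_apply] at h1 h2
    rw [h1, h2] at hxy
    exact hxy
  obtain ⟨k0, hik, hjk⟩ := directed_of (· ≤ ·) i j
  have hab : (a ≫ N.map (homOfLE hik)) ≫ colimit.ι N k0 = (b ≫ N.map (homOfLE hjk)) ≫ colimit.ι N k0 := by
    simp only [Category.assoc, colimit.w]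
    exact hxy'
  have hc' := isColimitOfPreserves (forget (ModuleCat.{u} A)) (colimit.isColimit N)
  have hpt : ∀ m : M, ∃ (k : J) (f : k0 ⟶ k),
      (N.map f).hom ((a ≫ N.map (homOfLE hik)).hom m) = (N.map f).hom ((b ≫ N.map (homOfLE hjk)).hom m) := by
    intro m
    have : ((forget (ModuleCat.{u} A)).mapCocone (colimit.cocone N)).ι.app k0 ((a ≫ N.map (homOfLE hik)).hom m) =
        ((forget (ModuleCat.{u} A)).mapCocone (colimit.cocone N)).ι.app k0 ((b ≫ N.map (homOfLE hjk)).hom m) := by
      change (colimit.ι N k0).hom ((a ≫ N.map (homOfLE hik)).hom m) =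
        (colimit.ι N k0).hom ((b ≫ N.map (homOfLE hjk)).hom m)
      rw [← LinearMap.comp_apply, ← LinearMap.comp_apply, ← ModuleCat.hom_comp, ← ModuleCat.hom_comp, hab]
    exact (Types.FilteredColimit.isColimit_eq_iff' hc' _ _).mp this
  choose kk ff hff using hpt
  obtain ⟨s, hs⟩ := Module.Finite.fg_top (R := A) (M := M)
  obtain ⟨K, hK⟩ := Finset.exists_le (insert k0 (s.image kk))
  have hk0K : k0 ≤ K := hK k0 (Finset.mem_insert_self _ _)
  have hmK : ∀ m ∈ s, kk m ≤ K := fun m hm =>
    hK _ (Finset.mem_insert_of_mem (Finset.mem_image_of_mem _ hm))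
  have heq : (a ≫ N.map (homOfLE hik)) ≫ N.map (homOfLE hk0K) =
      (b ≫ N.map (homOfLE hjk)) ≫ N.map (homOfLE hk0K) := by
    apply ModuleCat.hom_ext
    apply LinearMap.ext_on hs
    intro m hm
    have hfac : homOfLE hk0K = ff m ≫ homOfLE (hmK m hm) := Subsingleton.elim _ _
    rw [hfac, Functor.map_comp]
    simp only [ModuleCat.hom_comp, LinearMap.comp_apply] at hff ⊢
    rw [hff m]
  apply (Types.FilteredColimit.colimit_eq_iff _).mpr
  refine ⟨K, homOfLE (hik.trans hk0K), homOfLE (hjk.trans hk0K), ?_⟩
  change a ≫ N.map _ = b ≫ N.map _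
  have e1 : homOfLE (hik.trans hk0K) = homOfLE hik ≫ homOfLE hk0K := Subsingleton.elim _ _
  have e2 : homOfLE (hjk.trans hk0K) = homOfLE hjk ≫ homOfLE hk0K := Subsingleton.elim _ _
  rw [e1, e2, Functor.map_comp, Functor.map_comp, ← Category.assoc, ← Category.assoc]
  exact heq

end Groth.Agent.S4834
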