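import Groth.Statements.S4835
import Groth.Agent.S4834
import Mathlib.CategoryTheory.Limits.Types.Filtered
import Mathlib.Algebra.Category.ModuleCat.FilteredColimits
import Mathlib.Data.Finset.Order
-- import your own Groth.Agent.* helpers here

set_option autoImplicit false
open CategoryTheory CategoryTheory.Limits
universe u
open Lim8

namespace Groth.Agent.S4835

/-- Let A be a commutative ring, M an A-module of finite presentation and (N_λ) an inductive system of
A-modules indexed by a nonempty directed preordered set. Then the canonical map colim_λ Hom_A(M,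
N_λ) → Hom_A(M, colim_λ N_λ), sending a compatible system of homomorphisms to its inductive limit,
is bijective. This is the form established in the source's proof (finite presentation case). -/
theorem result {A : Type u} [CommRing A] (M : ModuleCat.{u} A)
    [Module.FinitePresentation A M] {J : Type u} [Preorder J] [IsDirected J (· ≤ ·)] [Nonempty J]
    (N : J ⥤ ModuleCat.{u} A) :
    Function.Bijective (colimit.post N (coyoneda.obj (Opposite.op M))) := by
  classical
  refine ⟨Groth.Agent.S4834.result M N, ?_⟩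
  intro G
  obtain ⟨n, m, f, g, hf, hex⟩ := Module.FinitePresentation.exists_fin' A M
  have hc' := isColimitOfPreserves (forget (ModuleCat.{u} A)) (colimit.isColimit N)
  have hlift : ∀ s : Fin n, ∃ (j : J) (y : N.obj j),
      (colimit.ι N j).hom y = G.hom (f (Pi.single s 1)) := by
    intro s
    obtain ⟨j, y, hy⟩ := Types.jointly_surjective_of_isColimit hc' (G.hom (f (Pi.single s 1)))
    exact ⟨j, y, hy⟩
  choose jj yy hyy using hlift
  obtain ⟨j0, hj0⟩ := Finset.exists_le (Finset.univ.image jj)
  have hjj : ∀ s, jj s ≤ j0 := fun s => hj0 _ (Finset.mem_image_of_mem _ (Finset.mem_univ s))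
  let y' : Fin n → N.obj j0 := fun s => (N.map (homOfLE (hjj s))).hom (yy s)
  have hy' : ∀ s, (colimit.ι N j0).hom (y' s) = G.hom (f (Pi.single s 1)) := by
    intro s
    rw [← hyy s]
    simp only [y']
    rw [← LinearMap.comp_apply, ← ModuleCat.hom_comp, colimit.w]
  let φ : (Fin n → A) →ₗ[A] N.obj j0 := (Pi.basisFun A (Fin n)).constr A y'
  have hφ : (colimit.ι N j0).hom ∘ₗ φ = G.hom ∘ₗ f := by
    apply (Pi.basisFun A (Fin n)).ext
    intro s
    rw [LinearMap.comp_apply, LinearMap.comp_apply]
    simp only [φ, Module.Basis.constr_basis]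
    rw [Pi.basisFun_apply]
    exact hy' s
  have hrel : ∀ t : Fin m, ∃ (k : J) (h : j0 ⟶ k), (N.map h).hom (φ (g (Pi.single t 1))) = 0 := by
    intro t
    have h0 : f (g (Pi.single t 1)) = 0 := hex.apply_apply_eq_zero _
    have : (colimit.ι N j0).hom (φ (g (Pi.single t 1))) = (colimit.ι N j0).hom (0 : N.obj j0) := by
      rw [← LinearMap.comp_apply (colimit.ι N j0).hom, hφ, LinearMap.comp_apply, h0, map_zero, map_zero]
    obtain ⟨k, h, hk⟩ :=
      (Types.FilteredColimit.isColimit_eq_iff' hc' (φ (g (Pi.single t 1))) (0 : N.obj j0)).mp this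
    refine ⟨k, h, ?_⟩
    change (N.map h).hom _ = (N.map h).hom 0 at hk
    rw [hk, map_zero]
  choose kk hh hkk using hrel
  obtain ⟨K, hK⟩ := Finset.exists_le (insert j0 (Finset.univ.image kk))
  have hj0K : j0 ≤ K := hK j0 (Finset.mem_insert_self _ _)
  have hkK : ∀ t, kk t ≤ K := fun t =>
    hK _ (Finset.mem_insert_of_mem (Finset.mem_image_of_mem _ (Finset.mem_univ t)))
  let ψ : (Fin n → A) →ₗ[A] N.obj K := (N.map (homOfLE hj0K)).hom ∘ₗ φ
  have hψg : ψ ∘ₗ g = 0 := by
    apply (Pi.basisFun A (Fin m)).ext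
    intro t
    have hfac : homOfLE hj0K = hh t ≫ homOfLE (hkK t) := Subsingleton.elim _ _
    simp only [LinearMap.comp_apply, ψ, Pi.basisFun_apply, LinearMap.zero_apply]
    rw [hfac, Functor.map_comp, ModuleCat.hom_comp, LinearMap.comp_apply, hkk t, map_zero]
  have hker : LinearMap.ker f ≤ LinearMap.ker ψ := by
    intro v hv
    rw [LinearMap.mem_ker] at hv ⊢
    obtain ⟨w, rfl⟩ := (hex v).mp hv
    rw [← LinearMap.comp_apply ψ g, hψg, LinearMap.zero_apply]
  let a : M →ₗ[A] N.obj K :=
    (LinearMap.ker f).liftQ ψ hker ∘ₗ (f.quotKerEquivOfSurjective hf).symm.toLinearMap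
  have ha : ∀ v, a (f v) = ψ v := by
    intro v
    simp only [a, LinearMap.comp_apply, LinearEquiv.coe_coe]
    have : (f.quotKerEquivOfSurjective hf).symm (f v) = Submodule.Quotient.mk v := by
      rw [LinearEquiv.symm_apply_eq]; rfl
    rw [this, Submodule.liftQ_apply]
  refine ⟨colimit.ι (N ⋙ coyoneda.obj (Opposite.op M)) K (ModuleCat.ofHom a), ?_⟩
  have h1 := ConcreteCategory.congr_hom (colimit.ι_post N (coyoneda.obj (Opposite.op M)) K)
    (ModuleCat.ofHom a)
  simp only [types_comp_apply] at h1
  rw [h1]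
  change ModuleCat.ofHom a ≫ colimit.ι N K = G
  apply ModuleCat.hom_ext
  apply LinearMap.ext
  intro x
  obtain ⟨v, rfl⟩ := hf x
  simp only [ModuleCat.hom_comp, ModuleCat.hom_ofHom, LinearMap.comp_apply, ha, ψ]
  rw [← LinearMap.comp_apply (colimit.ι N K).hom, ← ModuleCat.hom_comp, colimit.w]
  rw [← LinearMap.comp_apply (colimit.ι N j0).hom, hφ, LinearMap.comp_apply]

end Groth.Agent.S4835
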