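import Groth.Statements.S4858
-- import your own Groth.Agent.* helpers here

set_option autoImplicit false
universe u
open EGA43

namespace Groth.Agent.S4858

/-- Conditions a), a′), c), c′) (very dense subsets): for a subset X₀ of a topological space X the
following are equivalent: every nonempty locally closed subset of X meets X₀; every closed subset Z
of X equals the closure of Z ∩ X₀; the map U ↦ U ∩ X₀ is injective on open subsets of X; the map F ↦
F ∩ X₀ is injective on closed subsets of X. -/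
theorem result {X : Type u} [TopologicalSpace X] (X₀ : Set X) :
    [∀ Z : Set X, IsLocallyClosed Z → Z.Nonempty → (Z ∩ X₀).Nonempty,
      ∀ Z : Set X, IsClosed Z → closure (Z ∩ X₀) = Z,
      ∀ U V : Set X, IsOpen U → IsOpen V → U ∩ X₀ = V ∩ X₀ → U = V,
      ∀ F F' : Set X, IsClosed F → IsClosed F' → F ∩ X₀ = F' ∩ X₀ → F = F'].TFAE := by
  tfae_have 1 → 2 := by
    intro h Z hZ
    apply subset_antisymm (closure_minimal Set.inter_subset_left hZ)
    intro z hz
    by_contra hzc
    have hlc : IsLocallyClosed (Z ∩ (closure (Z ∩ X₀))ᶜ) :=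
      hZ.isLocallyClosed.inter isClosed_closure.isOpen_compl.isLocallyClosed
    obtain ⟨w, ⟨hwZ, hwc⟩, hwX⟩ := h _ hlc ⟨z, hz, hzc⟩
    exact hwc (subset_closure ⟨hwZ, hwX⟩)
  tfae_have 2 → 4 := by
    intro h F F' hF hF' heq
    rw [← h F hF, ← h F' hF', heq]
  tfae_have 4 → 3 := by
    intro h U V hU hV heq
    have := h Uᶜ Vᶜ hU.isClosed_compl hV.isClosed_compl (by
      ext x
      simp only [Set.mem_inter_iff, Set.mem_compl_iff]
      constructor
      · rintro ⟨hxU, hx0⟩
        refine ⟨fun hxV => hxU ?_, hx0⟩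
        have : x ∈ V ∩ X₀ := ⟨hxV, hx0⟩
        rw [← heq] at this; exact this.1
      · rintro ⟨hxV, hx0⟩
        refine ⟨fun hxU => hxV ?_, hx0⟩
        have : x ∈ U ∩ X₀ := ⟨hxU, hx0⟩
        rw [heq] at this; exact this.1)
    exact compl_inj_iff.mp this
  tfae_have 3 → 1 := by
    intro h Z hZ hne
    obtain ⟨U, C, hU, hC, rfl⟩ := hZ
    by_contra hemp
    rw [Set.not_nonempty_iff_eq_empty] at hemp
    have key := h (U ∩ Cᶜ) U (hU.inter hC.isOpen_compl) hU (by
      ext x
      simp only [Set.mem_inter_iff, Set.mem_compl_iff]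
      constructor
      · rintro ⟨⟨hxU, _⟩, hx0⟩; exact ⟨hxU, hx0⟩
      · rintro ⟨hxU, hx0⟩
        refine ⟨⟨hxU, fun hxC => ?_⟩, hx0⟩
        have : x ∈ (U ∩ C) ∩ X₀ := ⟨⟨hxU, hxC⟩, hx0⟩
        rw [hemp] at this; exact this)
    obtain ⟨x, hxU, hxC⟩ := hne
    have : x ∈ U ∩ Cᶜ := by rw [key]; exact hxU
    exact this.2 hxC
  tfae_finish

end Groth.Agent.S4858
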