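import Groth.Statements.S4859
-- import your own Groth.Agent.* helpers here

set_option autoImplicit false
universe u
open EGA43

namespace Groth.Agent.S4859

/-- Conditions a), a′), b) (quasi-homeomorphisms): for a continuous map f : X₀ → X the following are
equivalent: taking preimages is a bijection from the open subsets of X onto the open subsets of X₀;
taking preimages is a bijection from the closed subsets of X onto the closed subsets of X₀; the
topology of X₀ is induced from X through f and the image f(X₀) is very dense in X, in the sense that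
two open subsets of X with the same trace on f(X₀) coincide. -/
theorem result {X₀ X : Type u} [TopologicalSpace X₀] [TopologicalSpace X]
    (f : X₀ → X) (hf : Continuous f) :
    [Function.Bijective (fun U : TopologicalSpace.Opens X =>
        (⟨f ⁻¹' (U : Set X), U.isOpen.preimage hf⟩ : TopologicalSpace.Opens X₀)),
      Function.Bijective (fun F : TopologicalSpace.Closeds X =>
        (⟨f ⁻¹' (F : Set X), F.isClosed.preimage hf⟩ : TopologicalSpace.Closeds X₀)),
      Topology.IsInducing f ∧
        ∀ U V : Set X, IsOpen U → IsOpen V → U ∩ Set.range f = V ∩ Set.range f → U = V].TFAE := by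
  have pre_iff : ∀ U V : Set X, f ⁻¹' U = f ⁻¹' V ↔ U ∩ Set.range f = V ∩ Set.range f := by
    intro U V
    constructor
    · intro h
      ext y
      constructor
      · rintro ⟨hy, x, rfl⟩
        refine ⟨?_, x, rfl⟩
        have : x ∈ f ⁻¹' U := hy
        rw [h] at this; exact this
      · rintro ⟨hy, x, rfl⟩
        refine ⟨?_, x, rfl⟩
        have : x ∈ f ⁻¹' V := hy
        rw [← h] at this; exact this
    · intro h
      ext x
      constructor
      · intro hx
        have : f x ∈ U ∩ Set.range f := ⟨hx, x, rfl⟩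
        rw [h] at this; exact this.1
      · intro hx
        have : f x ∈ V ∩ Set.range f := ⟨hx, x, rfl⟩
        rw [← h] at this; exact this.1
  tfae_have 1 → 3 := by
    rintro ⟨hinj, hsurj⟩
    refine ⟨⟨?_⟩, ?_⟩
    · ext s
      rw [isOpen_induced_iff]
      constructor
      · intro hs
        obtain ⟨U, hU⟩ := hsurj ⟨s, hs⟩
        refine ⟨U, U.isOpen, ?_⟩
        have := congrArg (fun W : TopologicalSpace.Opens X₀ => (W : Set X₀)) hU
        simpa using this
      · rintro ⟨t, ht, rfl⟩
        exact ht.preimage hf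
    · intro U V hU hV h
      have := @hinj ⟨U, hU⟩ ⟨V, hV⟩ (by
        apply TopologicalSpace.Opens.ext
        exact (pre_iff U V).mpr h)
      exact congrArg (fun W : TopologicalSpace.Opens X => (W : Set X)) this
  tfae_have 3 → 1 := by
    rintro ⟨hind, hU⟩
    constructor
    · intro U V h
      apply TopologicalSpace.Opens.ext
      apply hU U V U.isOpen V.isOpen
      apply (pre_iff U V).mp
      exact congrArg (fun W : TopologicalSpace.Opens X₀ => (W : Set X₀)) h
    · intro W
      obtain ⟨t, ht, hteq⟩ := hind.isOpen_iff.mp W.isOpen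
      exact ⟨⟨t, ht⟩, TopologicalSpace.Opens.ext hteq⟩
  tfae_have 1 → 2 := by
    rintro ⟨hinj, hsurj⟩
    constructor
    · intro F G h
      have h' : f ⁻¹' (F : Set X) = f ⁻¹' (G : Set X) :=
        congrArg (fun W : TopologicalSpace.Closeds X₀ => (W : Set X₀)) h
      have := @hinj ⟨(F : Set X)ᶜ, F.isClosed.isOpen_compl⟩ ⟨(G : Set X)ᶜ, G.isClosed.isOpen_compl⟩ (by
        apply TopologicalSpace.Opens.ext
        show f ⁻¹' (F : Set X)ᶜ = f ⁻¹' (G : Set X)ᶜ
        rw [Set.preimage_compl, Set.preimage_compl, h'])
      apply TopologicalSpace.Closeds.ext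
      have h2 := congrArg (fun W : TopologicalSpace.Opens X => (W : Set X)) this
      simpa using h2
    · intro G
      obtain ⟨U, hU⟩ := hsurj ⟨(G : Set X₀)ᶜ, G.isClosed.isOpen_compl⟩
      refine ⟨⟨(U : Set X)ᶜ, U.isOpen.isClosed_compl⟩, ?_⟩
      apply TopologicalSpace.Closeds.ext
      have h2 : f ⁻¹' (U : Set X) = (G : Set X₀)ᶜ :=
        congrArg (fun W : TopologicalSpace.Opens X₀ => (W : Set X₀)) hU
      show f ⁻¹' (U : Set X)ᶜ = G
      rw [Set.preimage_compl, h2, compl_compl]
  tfae_have 2 → 1 := by
    rintro ⟨hinj, hsurj⟩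
    constructor
    · intro U V h
      have h' : f ⁻¹' (U : Set X) = f ⁻¹' (V : Set X) :=
        congrArg (fun W : TopologicalSpace.Opens X₀ => (W : Set X₀)) h
      have := @hinj ⟨(U : Set X)ᶜ, U.isOpen.isClosed_compl⟩ ⟨(V : Set X)ᶜ, V.isOpen.isClosed_compl⟩ (by
        apply TopologicalSpace.Closeds.ext
        show f ⁻¹' (U : Set X)ᶜ = f ⁻¹' (V : Set X)ᶜ
        rw [Set.preimage_compl, Set.preimage_compl, h'])
      apply TopologicalSpace.Opens.ext
      have h2 := congrArg (fun W : TopologicalSpace.Closeds X => (W : Set X)) this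
      simpa using h2
    · intro G
      obtain ⟨U, hU⟩ := hsurj ⟨(G : Set X₀)ᶜ, G.isOpen.isClosed_compl⟩
      refine ⟨⟨(U : Set X)ᶜ, U.isClosed.isOpen_compl⟩, ?_⟩
      apply TopologicalSpace.Opens.ext
      have h2 : f ⁻¹' (U : Set X) = (G : Set X₀)ᶜ :=
        congrArg (fun W : TopologicalSpace.Closeds X₀ => (W : Set X₀)) hU
      show f ⁻¹' (U : Set X)ᶜ = G
      rw [Set.preimage_compl, h2, compl_compl]
  tfae_finish

end Groth.Agent.S4859
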