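import Groth.Statements.S4894
-- import your own Groth.Agent.* helpers here

set_option autoImplicit false
universe u
open EGA43

namespace Groth.Agent.S4894

/-- Let f : X → Y be continuous and (W_i) an open covering of Y such that every restriction f⁻¹(W_i) →
W_i is a quasi-homeomorphism (taking preimages is a bijection on open subsets). Then f is a
quasi-homeomorphism. -/
theorem result {X Y : Type u} [TopologicalSpace X]
    [TopologicalSpace Y] (f : X → Y) (hf : Continuous f) {ι : Type u} (W : ι → Set Y)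
    (hWo : ∀ i, IsOpen (W i)) (hWc : ⋃ i, W i = Set.univ)
    (h : ∀ i, ((∀ U₁ U₂ : Set ↥(W i), IsOpen U₁ → IsOpen U₂ → ((W i).restrictPreimage f) ⁻¹' U₁ = ((W i).restrictPreimage f) ⁻¹' U₂ → U₁ = U₂) ∧ (∀ V : Set ↥(f ⁻¹' W i), IsOpen V → ∃ U : Set ↥(W i), IsOpen U ∧ ((W i).restrictPreimage f) ⁻¹' U = V))) :
    ((∀ U₁ U₂ : Set Y, IsOpen U₁ → IsOpen U₂ → (f) ⁻¹' U₁ = (f) ⁻¹' U₂ → U₁ = U₂) ∧ (∀ V : Set X, IsOpen V → ∃ U : Set Y, IsOpen U ∧ (f) ⁻¹' U = V)) := by
  constructor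
  · intro U₁ U₂ hU₁ hU₂ heq
    ext y
    have : y ∈ ⋃ i, W i := by rw [hWc]; trivial
    obtain ⟨i, hi⟩ := Set.mem_iUnion.mp this
    have key := (h i).1 (Subtype.val ⁻¹' U₁) (Subtype.val ⁻¹' U₂)
      (hU₁.preimage continuous_subtype_val) (hU₂.preimage continuous_subtype_val) (by
        ext ⟨x, hx⟩
        show f x ∈ U₁ ↔ f x ∈ U₂
        exact Set.ext_iff.mp heq x)
    have := Set.ext_iff.mp key ⟨y, hi⟩
    simpa using this
  · intro V hV
    choose U hUo hUeq using fun i => (h i).2 (Subtype.val ⁻¹' V) (hV.preimage continuous_subtype_val)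
    refine ⟨⋃ i, Subtype.val '' U i, isOpen_iUnion (fun i => (hWo i).isOpenMap_subtype_val _ (hUo i)), ?_⟩
    ext x
    simp only [Set.mem_preimage, Set.mem_iUnion, Set.mem_image]
    constructor
    · rintro ⟨i, ⟨y, hy⟩, hyU, hyx⟩
      have hx : x ∈ f ⁻¹' W i := by show f x ∈ W i; rw [← hyx]; exact hy
      have hmem : (⟨x, hx⟩ : f ⁻¹' W i) ∈ (W i).restrictPreimage f ⁻¹' U i := by
        show (W i).restrictPreimage f ⟨x, hx⟩ ∈ U i
        have e : (W i).restrictPreimage f ⟨x, hx⟩ = ⟨y, hy⟩ := by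
          apply Subtype.ext; exact hyx.symm
        rw [e]; exact hyU
      rw [hUeq i] at hmem
      exact hmem
    · intro hxV
      have : f x ∈ ⋃ i, W i := by rw [hWc]; trivial
      obtain ⟨i, hi⟩ := Set.mem_iUnion.mp this
      have hmem : (⟨x, hi⟩ : f ⁻¹' W i) ∈ Subtype.val ⁻¹' V := hxV
      rw [← hUeq i] at hmem
      exact ⟨i, ⟨f x, hi⟩, hmem, rfl⟩

end Groth.Agent.S4894
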