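import Groth.Statements.S4913
-- import your own Groth.Agent.* helpers here

set_option autoImplicit false
open CategoryTheory AlgebraicGeometry
universe u v w
open EGA43

namespace Groth.Agent.S4913

/-- Let ψ : X → Y be a continuous map of topological spaces which is open at the point x. Then for every
subset Y' of Y containing ψ x, the restriction ψ⁻¹(Y') → Y' of ψ is open at x. -/
theorem result {α : Type u} {β : Type v} [TopologicalSpace α] [TopologicalSpace β]
    (ψ : α → β) (hψ : Continuous ψ) (x : α) (h : EGA43.IsOpenAt ψ x) (Y' : Set β) (hx : ψ x ∈ Y') :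
    EGA43.IsOpenAt (Y'.restrictPreimage ψ) ⟨x, hx⟩ := by
  intro U hU
  rw [nhds_subtype, Filter.mem_comap] at hU
  obtain ⟨V, hV, hVU⟩ := hU
  have h2 := h V hV
  rw [nhds_subtype, Filter.mem_comap]
  refine ⟨ψ '' V, h2, ?_⟩
  rintro ⟨b, hb⟩ ⟨a, ha, hab⟩
  have ha' : a ∈ ψ ⁻¹' Y' := by
    show ψ a ∈ Y'
    rw [hab]; exact hb
  refine ⟨⟨a, ha'⟩, hVU ha, ?_⟩
  apply Subtype.ext
  simp [Set.restrictPreimage, hab]

end Groth.Agent.S4913
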