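import Groth.Statements.S4914
-- import your own Groth.Agent.* helpers here

set_option autoImplicit false
open CategoryTheory AlgebraicGeometry
universe u v w
open EGA43

namespace Groth.Agent.S4914

/-- Let ψ : X → Y be a continuous map, x a point of X, and (Y_i) a locally finite covering of Y by
closed subsets. If for every index i with ψ x ∈ Y_i the restriction ψ⁻¹(Y_i) → Y_i of ψ is open at
x, then ψ is open at x. -/
theorem result {α : Type u} {β : Type v} {ι : Type w} [TopologicalSpace α]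
    [TopologicalSpace β] (ψ : α → β) (hψ : Continuous ψ) (x : α) (Y : ι → Set β) (hY : LocallyFinite Y)
    (hcl : ∀ i, IsClosed (Y i)) (hcov : ⋃ i, Y i = Set.univ)
    (h : ∀ i, ∀ hi : ψ x ∈ Y i, EGA43.IsOpenAt ((Y i).restrictPreimage ψ) ⟨x, hi⟩) :
    EGA43.IsOpenAt ψ x := by
  intro U hU
  have hfin : {i | ψ x ∈ Y i}.Finite := hY.point_finite (ψ x)
  let g : ι → Set β := fun i => {_z | ψ x ∉ Y i} ∩ Y i
  have hg : LocallyFinite g := hY.subset (fun i => Set.inter_subset_right)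
  have hgc : ∀ i, IsClosed (g i) := fun i => isClosed_const.inter (hcl i)
  have hclosed : IsClosed (⋃ i, g i) := hg.isClosed_iUnion hgc
  have hnot : ψ x ∉ ⋃ i, g i := by
    simp only [Set.mem_iUnion, not_exists]
    intro i hi
    exact hi.1 hi.2
  have e1 : ∀ᶠ z in nhds (ψ x), z ∉ ⋃ i, g i := hclosed.isOpen_compl.mem_nhds hnot
  have e2 : ∀ i ∈ {i | ψ x ∈ Y i}, ∀ᶠ z in nhds (ψ x), z ∈ Y i → z ∈ ψ '' U := by
    intro i hi
    have hU' : (Subtype.val : ψ ⁻¹' Y i → α) ⁻¹' U ∈ nhds (⟨x, hi⟩ : ψ ⁻¹' Y i) :=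
      continuous_subtype_val.continuousAt.preimage_mem_nhds hU
    have h3 := h i hi _ hU'
    rw [nhds_subtype, Filter.mem_comap] at h3
    obtain ⟨t, ht, hts⟩ := h3
    filter_upwards [ht] with z hz hzY
    obtain ⟨a, ha, hae⟩ := hts (show (⟨z, hzY⟩ : Y i) ∈ Subtype.val ⁻¹' t from hz)
    refine ⟨a.1, ha, ?_⟩
    have := congrArg Subtype.val hae
    simpa [Set.restrictPreimage] using this
  have e2' : ∀ᶠ z in nhds (ψ x), ∀ i ∈ {i | ψ x ∈ Y i}, z ∈ Y i → z ∈ ψ '' U :=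
    (Filter.eventually_all_finite hfin).mpr e2
  filter_upwards [e1, e2'] with z hz1 hz2
  have : z ∈ ⋃ i, Y i := by rw [hcov]; trivial
  obtain ⟨i, hi⟩ := Set.mem_iUnion.mp this
  by_cases hxi : ψ x ∈ Y i
  · exact hz2 i hxi hi
  · exact (hz1 (Set.mem_iUnion.mpr ⟨i, show z ∈ g i from ⟨hxi, hi⟩⟩)).elim

end Groth.Agent.S4914
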