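import Groth.Statements.S4915
-- import your own Groth.Agent.* helpers here

set_option autoImplicit false
open CategoryTheory AlgebraicGeometry
universe u v w
open EGA43

namespace Groth.Agent.S4915

/-- Let γ : X' → X and ψ : X → Y be continuous maps and x' a point of X'. If ψ ∘ γ is open at x', then ψ
is open at the point γ x'. -/
theorem result {α : Type u} {β : Type v} {α' : Type w} [TopologicalSpace α]
    [TopologicalSpace β] [TopologicalSpace α'] (ψ : α → β) (hψ : Continuous ψ) (γ : α' → α) (hγ : Continuous γ)
    (x' : α') (h : EGA43.IsOpenAt (ψ ∘ γ) x') : EGA43.IsOpenAt ψ (γ x') := by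
  intro U hU
  have h1 : γ ⁻¹' U ∈ nhds x' := hγ.continuousAt.preimage_mem_nhds hU
  have h2 := h _ h1
  apply Filter.mem_of_superset h2
  rintro _ ⟨z, hz, rfl⟩
  exact ⟨γ z, hz, rfl⟩

end Groth.Agent.S4915
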