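import Groth.Statements.S4916
-- import your own Groth.Agent.* helpers here

set_option autoImplicit false
open CategoryTheory AlgebraicGeometry
universe u v w
open EGA43

namespace Groth.Agent.S4916

/-- Let ψ : X → Y be a continuous map of topological spaces and y a point of Y. The set of points x of
the fibre ψ⁻¹(y) at which ψ is open is a closed subset of ψ⁻¹(y). -/
theorem result {α : Type u} {β : Type v} [TopologicalSpace α] [TopologicalSpace β]
    (ψ : α → β) (hψ : Continuous ψ) (y : β) :
    IsClosed {x : ↥(ψ ⁻¹' {y}) | EGA43.IsOpenAt ψ x.1} := by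
  rw [← isOpen_compl_iff, isOpen_iff_mem_nhds]
  intro x hx
  simp only [Set.mem_compl_iff, Set.mem_setOf_eq, EGA43.IsOpenAt] at hx
  push_neg at hx
  obtain ⟨U, hU, hnot⟩ := hx
  obtain ⟨V, hVU, hVo, hxV⟩ := mem_nhds_iff.mp hU
  have hx1 : ψ x.1 = y := x.2
  have hV' : ψ '' V ∉ nhds y := by
    intro hc; apply hnot; rw [hx1]; exact Filter.mem_of_superset hc (Set.image_mono hVU)
  apply Filter.mem_of_superset ((hVo.preimage continuous_subtype_val).mem_nhds hxV)
  intro z hz
  simp only [Set.mem_compl_iff, Set.mem_setOf_eq, EGA43.IsOpenAt]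
  push_neg
  refine ⟨V, hVo.mem_nhds hz, ?_⟩
  have hz1 : ψ z.1 = y := z.2
  rw [hz1]; exact hV'

end Groth.Agent.S4916
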