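import Groth.Statements.S4971
import Mathlib.RingTheory.Nakayama
-- import your own Groth.Agent.* helpers here

set_option autoImplicit false
universe u
open EGA43

namespace Groth.Agent.S4971

/-- Let B be a Noetherian local ring, M, N, P three B-modules with N finitely generated, u : M → N and v
: N → P linear maps with v ∘ u = 0, and t an element of the maximal ideal of B which is P-regular.
If the induced sequence M/tM → N/tN → P/tP is exact, then M → N → P is exact. -/
theorem result {B : Type u} [CommRing B] [IsNoetherianRing B] [IsLocalRing B]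
    {M N P : Type u} [AddCommGroup M] [Module B M] [AddCommGroup N] [Module B N] [Module.Finite B N]
    [AddCommGroup P] [Module B P] (u : M →ₗ[B] N) (v : N →ₗ[B] P) (huv : v ∘ₗ u = 0) (t : B)
    (ht : t ∈ IsLocalRing.maximalIdeal B) (hreg : IsSMulRegular P t)
    (hu : (Ideal.span {t} • ⊤ : Submodule B M) ≤ (Ideal.span {t} • ⊤ : Submodule B N).comap u)
    (hv : (Ideal.span {t} • ⊤ : Submodule B N) ≤ (Ideal.span {t} • ⊤ : Submodule B P).comap v)
    (hex : LinearMap.ker ((Ideal.span {t} • ⊤ : Submodule B N).mapQ (Ideal.span {t} • ⊤ : Submodule B P) v hv) ≤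
      LinearMap.range ((Ideal.span {t} • ⊤ : Submodule B M).mapQ (Ideal.span {t} • ⊤ : Submodule B N) u hu)) :
    LinearMap.ker v ≤ LinearMap.range u := by
  have hfg : (LinearMap.ker v).FG := IsNoetherian.noetherian _
  apply Submodule.le_of_le_smul_of_le_jacobson_bot hfg (I := Ideal.span {t})
  · rw [IsLocalRing.jacobson_eq_maximalIdeal ⊥ bot_ne_top]
    exact (Ideal.span_singleton_le_iff_mem _).mpr ht
  · intro x hx
    have hx' : Submodule.Quotient.mk x ∈ LinearMap.ker ((Ideal.span {t} • ⊤ : Submodule B N).mapQ (Ideal.span {t} • ⊤ : Submodule B P) v hv) := by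
      rw [LinearMap.mem_ker, Submodule.mapQ_apply, LinearMap.mem_ker.mp hx, Submodule.Quotient.mk_zero]
    obtain ⟨mbar, hm⟩ := hex hx'
    obtain ⟨m, rfl⟩ := Submodule.Quotient.mk_surjective _ mbar
    rw [Submodule.mapQ_apply, Submodule.Quotient.eq] at hm
    -- hm : u m - x ∈ span {t} • ⊤
    rw [Submodule.ideal_span_singleton_smul, Submodule.mem_smul_pointwise_iff_exists] at hm
    obtain ⟨y, -, hy⟩ := hm
    -- hy : t • y = u m - x
    have hvy : v y = 0 := by
      apply hreg
      simp only
      rw [smul_zero, ← map_smul, hy, map_sub, LinearMap.mem_ker.mp hx, sub_zero]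
      exact LinearMap.congr_fun huv m
    have hxe : x = u m - t • y := by rw [hy]; abel
    rw [hxe]
    apply Submodule.sub_mem
    · exact Submodule.mem_sup_left (LinearMap.mem_range_self u m)
    · apply Submodule.mem_sup_right
      exact Submodule.smul_mem_smul (Ideal.mem_span_singleton_self t) (LinearMap.mem_ker.mpr hvy)

end Groth.Agent.S4971
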