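import Groth.Statements.S4998
import Mathlib.RingTheory.Etale.Field
-- import your own Groth.Agent.* helpers here

set_option autoImplicit false
universe u
open Unram17

namespace Groth.Agent.S4998

/-- Let A be an algebra of finite type over a field k. Then A is formally unramified over k if and only
if A is finite over k and every element of A has separable minimal polynomial over k (equivalently,
A is a finite product of finite separable extensions of k). -/
theorem result (k A : Type u) [Field k] [CommRing A]
    [Algebra k A] [Algebra.FiniteType k A] :
    Algebra.FormallyUnramified k A ↔ Module.Finite k A ∧ Algebra.IsSeparable k A := by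
  classical
  constructor
  · intro hU
    have hfin : Module.Finite k A := Algebra.FormallyUnramified.finite_of_free k A
    refine ⟨hfin, ?_⟩
    have hE : Algebra.FormallyEtale k A := Algebra.FormallyEtale.of_formallyUnramified_of_field k A
    have : IsArtinianRing A := IsArtinianRing.of_finite k A
    have := Algebra.FormallyUnramified.isReduced_of_field k A
    have hfinM : Finite (MaximalSpectrum A) := inferInstance
    let _ : Fintype (MaximalSpectrum A) := Fintype.ofFinite _
    constructor
    intro x
    have hsepm : ∀ m : MaximalSpectrum A, IsSeparable k (Ideal.Quotient.mk m.asIdeal x) := by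
      intro m
      have := m.isMaximal.isPrime
      exact Algebra.IsSeparable.isSeparable k _
    let T : Finset (Polynomial k) :=
      Finset.univ.image (fun m : MaximalSpectrum A => minpoly k (Ideal.Quotient.mk m.asIdeal x))
    have hF : (∏ q ∈ T, id q).Separable := by
      apply Polynomial.separable_prod'
      · intro p hp q hq hpq
        simp only [T, Finset.mem_image, Finset.mem_univ, true_and] at hp hq
        obtain ⟨m1, rfl⟩ := hp
        obtain ⟨m2, rfl⟩ := hq
        have := m1.isMaximal.isPrime
        have := m2.isMaximal.isPrime
        have hi1 := minpoly.irreducible (hsepm m1).isIntegral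
        have hi2 := minpoly.irreducible (hsepm m2).isIntegral
        rw [id, id, hi1.coprime_iff_not_dvd]
        intro hd
        apply hpq
        have h0 : Polynomial.aeval (Ideal.Quotient.mk m1.asIdeal x)
            (minpoly k (Ideal.Quotient.mk m2.asIdeal x)) = 0 := by
          obtain ⟨c, hc⟩ := hd
          rw [hc, map_mul, minpoly.aeval, zero_mul]
        exact (minpoly.eq_of_irreducible_of_monic hi2 h0
          (minpoly.monic (hsepm m2).isIntegral)).symm
      · intro p hp
        simp only [T, Finset.mem_image, Finset.mem_univ, true_and] at hp
        obtain ⟨m, rfl⟩ := hp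
        exact hsepm m
    have hFx : Polynomial.aeval x (∏ q ∈ T, id q) = 0 := by
      apply (IsArtinianRing.equivPi A).injective
      rw [map_zero]
      funext m
      rw [IsArtinianRing.equivPi_apply]
      change Ideal.Quotient.mk m.asIdeal _ = 0
      have hmk : Ideal.Quotient.mk m.asIdeal (Polynomial.aeval x (∏ q ∈ T, id q)) =
          Ideal.Quotient.mkₐ k m.asIdeal (Polynomial.aeval x (∏ q ∈ T, id q)) := rfl
      rw [hmk, ← Polynomial.aeval_algHom_apply, Ideal.Quotient.mkₐ_eq_mk]
      have hmem : minpoly k (Ideal.Quotient.mk m.asIdeal x) ∈ T :=
        Finset.mem_image.mpr ⟨m, Finset.mem_univ _, rfl⟩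
      obtain ⟨c, hc⟩ := Finset.dvd_prod_of_mem id hmem
      rw [hc, map_mul, id, minpoly.aeval, zero_mul]
    exact hF.of_dvd (minpoly.dvd k x hFx)
  · rintro ⟨-, hsep⟩
    rw [Algebra.FormallyUnramified.iff_comp_injective]
    intro B _ _ I hI f₁ f₂ e
    ext x
    have : f₁ x - f₂ x ∈ I := by
      simpa [Ideal.Quotient.mk_eq_mk_iff_sub_mem] using AlgHom.congr_fun e x
    have := Polynomial.eval_add_of_sq_eq_zero ((minpoly k x).map (algebraMap k B)) (f₂ x)
      (f₁ x - f₂ x) (show (f₁ x - f₂ x) ^ 2 ∈ ⊥ from hI ▸ Ideal.pow_mem_pow this 2)
    simp only [add_sub_cancel, Polynomial.eval_map_algebraMap, Polynomial.aeval_algHom_apply,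
      minpoly.aeval, map_zero, Polynomial.derivative_map, zero_add] at this
    have hunit : IsUnit (Polynomial.aeval x (Polynomial.derivative (minpoly k x))) := by
      obtain ⟨a, b, hab⟩ := Algebra.IsSeparable.isSeparable k x
      have h1 := congrArg (Polynomial.aeval x) hab
      rw [map_add, map_mul, map_mul, minpoly.aeval, mul_zero, zero_add, map_one] at h1
      exact IsUnit.of_mul_eq_one_right _ h1
    rwa [eq_comm, (hunit.map f₂).mul_right_eq_zero, sub_eq_zero] at this

end Groth.Agent.S4998
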