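import Groth.Statements.S5050
import Mathlib.RingTheory.Filtration
-- import your own Groth.Agent.* helpers here

set_option autoImplicit false
universe u v
open CInt

namespace Groth.Agent.S5050

/-- Let A be a Noetherian ring, N a finitely generated A-module, E and F submodules of N and Q an ideal
of A. For every natural number k there is h > 0 with E ⊓ (F ⊔ Q^h N) ≤ (E ⊓ F) ⊔ Q^k N. -/
theorem result {A : Type u} [CommRing A] [IsNoetherianRing A] {N : Type v} [AddCommGroup N]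
    [Module A N] [Module.Finite A N] (E F : Submodule A N) (Q : Ideal A) (k : ℕ) :
    ∃ h : ℕ, 0 < h ∧ E ⊓ (F ⊔ Q ^ h • (⊤ : Submodule A N)) ≤ (E ⊓ F) ⊔ Q ^ k • (⊤ : Submodule A N) := by
  classical
  let π := F.mkQ
  let E' : Submodule A (N ⧸ F) := E.map π
  obtain ⟨c, hc⟩ := Ideal.exists_pow_inf_eq_pow_smul Q E'
  refine ⟨k + c + 1, by omega, ?_⟩
  have hAR : Q ^ (k + c + 1) • (⊤ : Submodule A (N ⧸ F)) ⊓ E' ≤ Q ^ k • E' := by
    rw [hc (k + c + 1) (by omega)]
    calc Q ^ (k + c + 1 - c) • (Q ^ c • (⊤ : Submodule A (N ⧸ F)) ⊓ E')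
        ≤ Q ^ (k + c + 1 - c) • E' := Submodule.smul_mono le_rfl inf_le_right
      _ ≤ Q ^ k • E' := Submodule.smul_mono_left (Ideal.pow_le_pow_right (by omega))
  intro x hx
  obtain ⟨hxE, hxF⟩ := hx
  have h1 : π x ∈ E' := Submodule.mem_map_of_mem hxE
  have h2 : π x ∈ Q ^ (k + c + 1) • (⊤ : Submodule A (N ⧸ F)) := by
    obtain ⟨y, hy, z, hz, rfl⟩ := Submodule.mem_sup.mp hxF
    have hy0 : π y = 0 := (Submodule.Quotient.mk_eq_zero F).mpr hy
    have hz' : π z ∈ (Q ^ (k + c + 1) • (⊤ : Submodule A N)).map π := Submodule.mem_map_of_mem hz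
    rw [Submodule.map_smul'', Submodule.map_top, Submodule.range_mkQ] at hz'
    rw [map_add, hy0, zero_add]
    exact hz'
  have h3 : π x ∈ Q ^ k • E' := hAR ⟨h2, h1⟩
  have h3' : π x ∈ (Q ^ k • E).map π := by rw [Submodule.map_smul'']; exact h3
  obtain ⟨e, he, hex⟩ := Submodule.mem_map.mp h3'
  have hxe : x - e ∈ F := by
    rw [← Submodule.Quotient.eq]
    exact hex.symm
  have heE : e ∈ E := Submodule.smul_le_right he
  have heQ : e ∈ Q ^ k • (⊤ : Submodule A N) := Submodule.smul_mono le_rfl le_top he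
  have : x = (x - e) + e := by abel
  rw [this]
  exact Submodule.add_mem_sup ⟨E.sub_mem hxE heE, hxe⟩ heQ

end Groth.Agent.S5050
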