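import Groth.Statements.S5069
import Mathlib.RingTheory.HopkinsLevitzki
-- import your own Groth.Agent.* helpers here

set_option autoImplicit false
universe u v
open Hensel

namespace Groth.Agent.S5069

/-- First assertion, phrased for the images of the inductive system: let B be a Noetherian commutative
ring and (C_i) a family of Artinian subrings of B, directed under inclusion, whose union is B. Then
B is an Artinian ring. -/
theorem result (B : Type u) [CommRing B] [IsNoetherianRing B]
    {ι : Type v} [Nonempty ι] (C : ι → Subring B) (hdir : Directed (fun a b => a ≤ b) C)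
    (hart : ∀ i, IsArtinianRing ↥(C i)) (hcov : ∀ b : B, ∃ i, b ∈ C i) : IsArtinianRing B := by
  rw [isArtinianRing_iff_isNoetherianRing_krullDimLE_zero]
  refine ⟨inferInstance, Ring.KrullDimLE.mk₀ (fun p hp => ?_)⟩
  rw [Ideal.isMaximal_iff]
  refine ⟨hp.ne_top ∘ (Ideal.eq_top_iff_one p).mpr, ?_⟩
  intro J x hpJ hxp hxJ
  obtain ⟨i, hi⟩ := hcov x
  let q : Ideal (C i) := p.comap (C i).subtype
  have hq : q.IsPrime := Ideal.comap_isPrime _ _
  have hqm : q.IsMaximal := by
    have := hart i
    exact Ideal.IsPrime.isMaximal' hq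
  have hx' : (⟨x, hi⟩ : C i) ∉ q := hxp
  obtain ⟨y, j, hj, hyj⟩ := Ideal.IsMaximal.exists_inv hqm hx'
  have h1 : (y : B) * x + (j : B) = 1 := by
    have := congrArg (C i).subtype hyj
    simpa using this
  rw [← h1]
  exact J.add_mem (J.mul_mem_left _ hxJ) (hpJ hj)

end Groth.Agent.S5069
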