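import Groth.Statements.S5078
import Mathlib.RingTheory.AdicCompletion.Functoriality
import Mathlib.RingTheory.Finiteness.Cardinality
-- import your own Groth.Agent.* helpers here

set_option autoImplicit false
universe u v
open Hensel

namespace Groth.Agent.S5078

/-- Let A be a ring, I an ideal such that A is I-adically separated and complete, and M a finitely
generated projective A-module. Then M is I-adically separated and complete. -/
theorem result {A : Type u} [CommRing A] (I : Ideal A) [IsAdicComplete I A]
    (M : Type v) [AddCommGroup M] [Module A M] [Module.Finite A M] [Module.Projective A M] :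
    IsAdicComplete I M := by
  classical
  obtain ⟨n, f, hf⟩ := Module.Finite.exists_fin' A M
  obtain ⟨s, hs⟩ := Module.projective_lifting_property f LinearMap.id hf
  have hF : Function.Bijective (AdicCompletion.of I (Fin n → A)) := by
    have key : ∀ x : Fin n → A, AdicCompletion.piEquivOfFintype I (fun _ : Fin n => A)
        (AdicCompletion.of I (Fin n → A) x) = fun j => AdicCompletion.of I A (x j) := by
      intro x
      funext j
      rw [AdicCompletion.piEquivOfFintype_apply]
      rfl
    have hb : Function.Bijective (fun x : Fin n → A => fun j => AdicCompletion.of I A (x j)) := by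
      have hA := AdicCompletion.of_bijective I A
      constructor
      · intro x y hxy; funext j; exact hA.1 (congrFun hxy j)
      · intro z
        choose g hg using fun j => hA.2 (z j)
        exact ⟨g, funext hg⟩
    have e : ⇑(AdicCompletion.of I (Fin n → A)) =
        (AdicCompletion.piEquivOfFintype I (fun _ : Fin n => A)).symm ∘
          (fun x : Fin n → A => fun j => AdicCompletion.of I A (x j)) := by
      funext x
      rw [Function.comp_apply, ← key, LinearEquiv.symm_apply_apply]
    rw [e]
    exact (LinearEquiv.bijective _).comp hb
  rw [← AdicCompletion.of_bijective_iff]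
  have hfs : ∀ y, AdicCompletion.map I f (AdicCompletion.map I s y) = y := by
    intro y
    rw [AdicCompletion.map_comp_apply, hs, AdicCompletion.map_id, LinearMap.id_apply]
  have hfsx : ∀ x, f (s x) = x := fun x => by rw [← LinearMap.comp_apply, hs, LinearMap.id_apply]
  constructor
  · intro x y hxy
    have h1 := congrArg (AdicCompletion.map I s) hxy
    rw [AdicCompletion.map_of, AdicCompletion.map_of] at h1
    have h2 := hF.1 h1
    rw [← hfsx x, ← hfsx y, h2]
  · intro y
    obtain ⟨z, hz⟩ := hF.2 (AdicCompletion.map I s y)
    refine ⟨f z, ?_⟩
    rw [← AdicCompletion.map_of, hz, hfs]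

end Groth.Agent.S5078
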