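import Groth.Statements.S6012

set_option autoImplicit false
open CategoryTheory
universe v₁ v₂ u₁ u₂
open FibCat FibCat.Cleavage

namespace Groth.Agent.S6012

variable {𝒮 : Type u₁} {𝒳 : Type u₂} [Category.{v₁} 𝒮] [Category.{v₂} 𝒳] {p : 𝒳 ⥤ 𝒮}

theorem comp_fac (K : FibCat.Cleavage p) {R S T : 𝒮} (f : T ⟶ S) (g : R ⟶ T) (a : p.Fiber S) :
    Functor.Fiber.fiberInclusion.map ((K.comp f g).app a) ≫ K.lift a.2 (g ≫ f) =
      K.lift (K.obj_proj a.2 f) g ≫ K.lift a.2 f := by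
  rw [comp_app]
  exact Functor.IsCartesian.fac p (g ≫ f) (K.lift a.2 (g ≫ f))
    (K.lift (K.obj_proj a.2 f) g ≫ K.lift a.2 f)

theorem result (𝒮 : Type u₁) (𝒳 : Type u₂) [Category.{v₁} 𝒮] [Category.{v₂} 𝒳] (p : 𝒳 ⥤ 𝒮) (K : FibCat.Cleavage p) :
    p.IsFibered ↔ ∀ (R S T : 𝒮) (f : T ⟶ S) (g : R ⟶ T), IsIso (K.comp f g) := by
  constructor
  · intro hp R S T f g
    have : ∀ a : p.Fiber S, IsIso ((K.comp f g).app a) := fun a => by
      let L := K.lift (K.obj_proj a.2 f) g ≫ K.lift a.2 f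
      have l1 : p.IsCartesian g (K.lift (K.obj_proj a.2 f) g) := K.isCartesian _ _
      have l2 : p.IsCartesian f (K.lift a.2 f) := K.isCartesian _ _
      have hL : p.IsCartesian (g ≫ f) L := Functor.IsFibered.comp g f _ _
      let D := @Functor.IsCartesian.domainUniqueUpToIso _ _ _ _ p _ _ _ _ (g ≫ f)
        (K.lift a.2 (g ≫ f)) (K.isCartesian _ _) _ L hL
      have hD : p.IsHomLift (𝟙 R) D.inv := Functor.IsCartesian.domainUniqueUpToIso_hom_isHomLift _ _ _ _
      refine ⟨⟨Functor.Fiber.homMk p R D.inv, ?_, ?_⟩⟩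
      · apply Functor.Fiber.hom_ext
        exact D.hom_inv_id
      · apply Functor.Fiber.hom_ext
        exact D.inv_hom_id
    exact NatIso.isIso_of_isIso_app _
  · intro h
    apply Functor.IsFibered.of_exists_isStronglyCartesian
    intro a R f
    refine ⟨K.obj rfl f, K.lift rfl f, ?_⟩
    have hlf : p.IsHomLift f (K.lift rfl f) := (K.isCartesian rfl f).toIsHomLift
    refine ⟨?_⟩
    intro a' g φ' hφ'
    let A : p.Fiber (p.obj a) := ⟨a, rfl⟩
    have hc : IsIso ((K.comp f g).app A) := by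
      have := h _ _ _ f g
      infer_instance
    let c := (K.comp f g).app A
    let c' := Functor.Fiber.fiberInclusion.map c
    let ci' := Functor.Fiber.fiberInclusion.map (inv c)
    have hcc : c' ≫ ci' = 𝟙 _ := by
      simp only [c', ci', ← Functor.map_comp, IsIso.hom_inv_id, Functor.map_id]
    have hcc' : ci' ≫ c' = 𝟙 _ := by
      simp only [c', ci', ← Functor.map_comp, IsIso.inv_hom_id, Functor.map_id]
    have hcf : c' ≫ K.lift rfl (g ≫ f) = K.lift (K.obj_proj rfl f) g ≫ K.lift rfl f :=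
      comp_fac K f g A
    have hc'l : p.IsHomLift (𝟙 (p.obj a')) c' := Subtype.property _
    have hci'l : p.IsHomLift (𝟙 (p.obj a')) ci' := Subtype.property _
    have hlgf : p.IsCartesian (g ≫ f) (K.lift (rfl : p.obj a = p.obj a) (g ≫ f)) := K.isCartesian _ _
    have hlg : p.IsCartesian g (K.lift (K.obj_proj rfl f) g) := K.isCartesian _ _
    let τ := Functor.IsCartesian.map p (g ≫ f) (K.lift (rfl : p.obj a = p.obj a) (g ≫ f)) φ'
    have hτ : τ ≫ K.lift rfl (g ≫ f) = φ' := Functor.IsCartesian.fac p _ _ _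
    have hτl : p.IsHomLift (𝟙 (p.obj a')) τ := Functor.IsCartesian.map_isHomLift p _ _ _
    let χ := τ ≫ ci' ≫ K.lift (K.obj_proj rfl f) g
    have hχ1 : p.IsHomLift g (ci' ≫ K.lift (K.obj_proj rfl f) g) :=
      @IsHomLift.comp_lift_id_left' _ _ _ _ p _ _ _ (p.obj a') ci' hci'l _ _ g _ hlg.toIsHomLift
    have hχ : p.IsHomLift g χ :=
      @IsHomLift.comp_lift_id_left' _ _ _ _ p _ _ _ (p.obj a') τ hτl _ _ g _ hχ1
    have key : ci' ≫ K.lift (K.obj_proj rfl f) g ≫ K.lift rfl f = K.lift rfl (g ≫ f) := by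
      erw [← hcf, ← Category.assoc, hcc', Category.id_comp]
    refine ⟨χ, ⟨hχ, ?_⟩, ?_⟩
    · show (τ ≫ (ci' ≫ K.lift (K.obj_proj rfl f) g)) ≫ K.lift rfl f = φ'
      exact (Category.assoc τ _ _).trans ((congrArg (fun k => τ ≫ k) (Category.assoc ci' _ _)).trans
        ((congrArg (fun k => τ ≫ k) key).trans hτ))
    · rintro π ⟨hπ, hπf⟩
      let σ := Functor.IsCartesian.map p g (K.lift (K.obj_proj rfl f) g) π
      have hσ : σ ≫ K.lift (K.obj_proj rfl f) g = π := Functor.IsCartesian.fac p _ _ _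
      have hσl : p.IsHomLift (𝟙 (p.obj a')) σ := Functor.IsCartesian.map_isHomLift p _ _ _
      have hσc : p.IsHomLift (𝟙 (p.obj a')) (σ ≫ c') :=
        @IsHomLift.comp_of_lift_id _ _ _ _ p (p.obj a') _ _ _ σ c' hσl hc'l
      have e : σ ≫ c' = τ := by
        refine @Functor.IsCartesian.ext _ _ _ _ p _ _ _ _ (g ≫ f) (K.lift (rfl : p.obj a = p.obj a) (g ≫ f))
          hlgf _ (σ ≫ c') τ hσc hτl ?_
        erw [Category.assoc, hcf, ← Category.assoc, hσ, hπf, hτ]
      have e2 : σ = τ ≫ ci' := by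
        erw [← e, Category.assoc, hcc, Category.comp_id]
      rw [← hσ, e2]
      exact Category.assoc _ _ _

end Groth.Agent.S6012
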