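import Groth.Statements.S6013

set_option autoImplicit false
open CategoryTheory
universe v₁ v₂ u₁ u₂
open FibCat FibCat.Cleavage

namespace Groth.Agent.S6013

variable {𝒮 : Type u₁} {𝒳 : Type u₂} [Category.{v₁} 𝒮] [Category.{v₂} 𝒳] {p : 𝒳 ⥤ 𝒮}

theorem map_fac (K : FibCat.Cleavage p) {R S : 𝒮} (f : R ⟶ S) {x y : p.Fiber S} (φ : x ⟶ y) :
    Functor.Fiber.fiberInclusion.map ((K.inverseImage f).map φ) ≫ K.lift y.2 f =
      K.lift x.2 f ≫ Functor.Fiber.fiberInclusion.map φ := by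
  rw [inverseImage_map]
  exact Functor.IsCartesian.fac p f (K.lift y.2 f)
    (K.lift x.2 f ≫ Functor.Fiber.fiberInclusion.map φ)

theorem result (𝒮 : Type u₁) (𝒳 : Type u₂) [Category.{v₁} 𝒮] [Category.{v₂} 𝒳] (p : 𝒳 ⥤ 𝒮) [p.IsFibered] (K : FibCat.Cleavage p)
    (S T : 𝒮) (f : T ⟶ S) [IsIso f] : (K.inverseImage f).IsEquivalence := by
  have hiso : ∀ {b : 𝒳} (hb : p.obj b = S), IsIso (K.lift hb f) := fun hb =>
    Functor.IsStronglyCartesian.isIso_of_base_isIso p f (K.lift hb f)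
  have hisoinv : ∀ {b : 𝒳} (hb : p.obj b = T), IsIso (K.lift hb (inv f)) := fun hb =>
    Functor.IsStronglyCartesian.isIso_of_base_isIso p (inv f) (K.lift hb (inv f))
  have faithful : (K.inverseImage f).Faithful := ⟨fun {a b} φ ψ h => by
    apply Functor.Fiber.hom_ext
    have e1 := map_fac K f φ
    have e2 := map_fac K f ψ
    rw [h] at e1
    haveI := hiso a.2
    exact (cancel_epi (K.lift a.2 f)).1 (e1.symm.trans e2)⟩
  have full : (K.inverseImage f).Full := ⟨fun {a b} ψ => by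
    haveI := hiso a.2
    haveI := hiso b.2
    let χ : a.1 ⟶ b.1 := inv (K.lift a.2 f) ≫ Functor.Fiber.fiberInclusion.map ψ ≫ K.lift b.2 f
    have l1 : p.IsHomLift f (K.lift a.2 f) := (K.isCartesian a.2 f).toIsHomLift
    have l2 : p.IsHomLift (inv f) (inv (K.lift a.2 f)) := @IsHomLift.inv _ _ _ _ p _ _ _ _ f (K.lift a.2 f) _ (hiso a.2) l1
    have l3 : p.IsHomLift (𝟙 T) (Functor.Fiber.fiberInclusion.map ψ) := ψ.2
    have l4 : p.IsHomLift f (K.lift b.2 f) := (K.isCartesian b.2 f).toIsHomLift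
    have l5 : p.IsHomLift (𝟙 T ≫ f) (Functor.Fiber.fiberInclusion.map ψ ≫ K.lift b.2 f) :=
      @IsHomLift.comp _ _ _ _ p _ _ _ _ _ _ (𝟙 T) f (Functor.Fiber.fiberInclusion.map ψ) (K.lift b.2 f) l3 l4
    have hχ' : p.IsHomLift (inv f ≫ 𝟙 T ≫ f) χ :=
      @IsHomLift.comp _ _ _ _ p _ _ _ _ _ _ (inv f) (𝟙 T ≫ f) (inv (K.lift a.2 f)) (Functor.Fiber.fiberInclusion.map ψ ≫ K.lift b.2 f) l2 l5
    have hb : inv f ≫ 𝟙 T ≫ f = 𝟙 S := by simp
    have hχ : p.IsHomLift (𝟙 S) χ := hb ▸ hχ'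
    refine ⟨Functor.Fiber.homMk p S χ, ?_⟩
    apply Functor.Fiber.hom_ext
    have e1 := map_fac K f (Functor.Fiber.homMk p S χ)
    refine @Functor.IsCartesian.ext _ _ _ _ p _ _ _ _ f (K.lift b.2 f) (K.isCartesian b.2 f) _ _ _
      (Subtype.property _) (Subtype.property _) ?_
    erw [e1, Functor.Fiber.fiberInclusion_homMk]
    exact IsIso.hom_inv_id_assoc _ _⟩
  have essSurj : (K.inverseImage f).EssSurj := ⟨fun c => by
    haveI := hisoinv c.2
    let a : p.Fiber S := ⟨K.obj c.2 (inv f), K.obj_proj c.2 (inv f)⟩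
    haveI := hiso a.2
    let θ : K.obj a.2 f ⟶ c.1 := K.lift a.2 f ≫ K.lift c.2 (inv f)
    have l1 : p.IsHomLift f (K.lift a.2 f) := (K.isCartesian a.2 f).toIsHomLift
    have l2 : p.IsHomLift (inv f) (K.lift c.2 (inv f)) := (K.isCartesian c.2 (inv f)).toIsHomLift
    have hθ' : p.IsHomLift (f ≫ inv f) θ :=
      @IsHomLift.comp _ _ _ _ p _ _ _ _ _ _ f (inv f) (K.lift a.2 f) (K.lift c.2 (inv f)) l1 l2
    have hb : f ≫ inv f = 𝟙 T := by simp
    have hθ : p.IsHomLift (𝟙 T) θ := hb ▸ hθ'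
    haveI : IsIso θ := by dsimp only [θ]; infer_instance
    have hθi : p.IsHomLift (𝟙 T) (inv θ) := inferInstance
    refine ⟨a, ⟨Iso.mk (Functor.Fiber.homMk p T θ) (Functor.Fiber.homMk p T (inv θ)) ?_ ?_⟩⟩
    · apply Functor.Fiber.hom_ext
      exact IsIso.hom_inv_id θ
    · apply Functor.Fiber.hom_ext
      exact IsIso.inv_hom_id θ⟩
  exact { faithful := faithful, full := full, essSurj := essSurj }

end Groth.Agent.S6013
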