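import Groth.Statements.S6014

set_option autoImplicit false
open CategoryTheory
universe v₁ v₂ u₁ u₂
open FibCat FibCat.Cleavage

namespace Groth.Agent.S6014

theorem congr_lift {𝒮 : Type u₁} {𝒳 : Type u₂} [Category.{v₁} 𝒮] [Category.{v₂} 𝒳] {p : 𝒳 ⥤ 𝒮}
    (K : FibCat.Cleavage p) {S T : 𝒮} {f' f : T ⟶ S} (h : f' = f) (a : p.Fiber S) :
    Functor.Fiber.fiberInclusion.map ((K.inverseImageCongr h).hom.app a) ≫ K.lift a.2 f =
      K.lift a.2 f' := by
  subst h
  simp [FibCat.Cleavage.inverseImageCongr]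

theorem result (𝒮 : Type u₁) (𝒳 : Type u₂) [Category.{v₁} 𝒮] [Category.{v₂} 𝒳] (p : 𝒳 ⥤ 𝒮) (K : FibCat.Cleavage p) (S T : 𝒮) (f : T ⟶ S) (a : p.Fiber S) :
    Functor.Fiber.fiberInclusion.map ((K.comp f (𝟙 T)).app a ≫ (K.inverseImageCongr (Category.id_comp f)).hom.app a) =
      (K.transport (𝟙 T)).app ((K.inverseImage f).obj a) := by
  have e : (K.transport (𝟙 T)).app ((K.inverseImage f).obj a) =
      K.lift (a := K.obj a.2 f) (K.obj_proj a.2 f) (𝟙 T) := rfl
  rw [e]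
  refine @Functor.IsCartesian.ext _ _ _ _ p _ _ _ _ f (K.lift a.2 f) (K.isCartesian a.2 f) _ _ _
    ?i1 ?i2 ?h
  case i1 => exact ((K.comp f (𝟙 T)).app a ≫ (K.inverseImageCongr (Category.id_comp f)).hom.app a).2
  case i2 => exact (K.isCartesian _ (𝟙 T)).toIsHomLift
  case h =>
    rw [Functor.map_comp]
    erw [Category.assoc, congr_lift K (Category.id_comp f) a, comp_app, Functor.IsCartesian.fac]
    rfl

end Groth.Agent.S6014
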