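import Groth.Statements.S6016

set_option autoImplicit false
open CategoryTheory
universe v₁ v₂ u₁ u₂
open FibCat FibCat.Cleavage

namespace Groth.Agent.S6016

variable {𝒮 : Type u₁} {𝒳 : Type u₂} [Category.{v₁} 𝒮] [Category.{v₂} 𝒳] {p : 𝒳 ⥤ 𝒮}

theorem congr_lift (K : FibCat.Cleavage p) {S T : 𝒮} {f' f : T ⟶ S} (h : f' = f) (a : p.Fiber S) :
    Functor.Fiber.fiberInclusion.map ((K.inverseImageCongr h).hom.app a) ≫ K.lift a.2 f =
      K.lift a.2 f' := by
  subst h
  simp [FibCat.Cleavage.inverseImageCongr]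

theorem comp_fac (K : FibCat.Cleavage p) {R S T : 𝒮} (f : T ⟶ S) (g : R ⟶ T) (a : p.Fiber S) :
    Functor.Fiber.fiberInclusion.map ((K.comp f g).app a) ≫ K.lift a.2 (g ≫ f) =
      K.lift (K.obj_proj a.2 f) g ≫ K.lift a.2 f := by
  rw [comp_app]
  exact Functor.IsCartesian.fac p (g ≫ f) (K.lift a.2 (g ≫ f))
    (K.lift (K.obj_proj a.2 f) g ≫ K.lift a.2 f)

theorem map_fac (K : FibCat.Cleavage p) {R S : 𝒮} (f : R ⟶ S) {x y : p.Fiber S} (φ : x ⟶ y) :
    Functor.Fiber.fiberInclusion.map ((K.inverseImage f).map φ) ≫ K.lift y.2 f =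
      K.lift x.2 f ≫ Functor.Fiber.fiberInclusion.map φ := by
  rw [inverseImage_map]
  exact Functor.IsCartesian.fac p f (K.lift y.2 f)
    (K.lift x.2 f ≫ Functor.Fiber.fiberInclusion.map φ)

theorem result (𝒮 : Type u₁) (𝒳 : Type u₂) [Category.{v₁} 𝒮] [Category.{v₂} 𝒳] (p : 𝒳 ⥤ 𝒮) (K : FibCat.Cleavage p) (S T U V : 𝒮) (f : T ⟶ S) (g : U ⟶ T) (h : V ⟶ U) :
    Functor.whiskerLeft (K.inverseImage f) (K.comp g h) ≫ K.comp f (h ≫ g) ≫ (K.inverseImageCongr (Category.assoc h g f)).hom =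
      Functor.whiskerRight (K.comp f g) (K.inverseImage h) ≫ K.comp (g ≫ f) h := by
  ext a
  refine @Functor.IsCartesian.ext _ _ _ _ p _ _ _ _ (h ≫ g ≫ f) (K.lift a.2 (h ≫ g ≫ f))
    (K.isCartesian a.2 _) _ _ _ ?i1 ?i2 ?h
  case i1 => exact Subtype.property _
  case i2 => exact Subtype.property _
  case h =>
    simp only [NatTrans.comp_app, Functor.whiskerLeft_app, Functor.whiskerRight_app,
      Functor.map_comp]
    erw [Category.assoc, Category.assoc, congr_lift K (Category.assoc h g f) a]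
    erw [comp_fac K f (h ≫ g) a]
    erw [← Category.assoc, comp_fac K g h ((K.inverseImage f).obj a)]
    symm
    erw [Category.assoc, comp_fac K (g ≫ f) h a]
    erw [← Category.assoc, map_fac K h ((K.comp f g).app a)]
    erw [Category.assoc, comp_fac K f g a]
    exact (Category.assoc _ _ _).symm

end Groth.Agent.S6016
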