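import Groth.Statements.S6018

set_option autoImplicit false
open CategoryTheory
universe v₁ v₂ v₃ u₁ u₂ u₃
open FibCat FibCat.Cleavage

namespace Groth.Agent.S6018

theorem result (𝒮 : Type u₁) (𝒳 : Type u₂) [Category.{v₁} 𝒮]
    [Category.{v₂} 𝒳] (p : 𝒳 ⥤ 𝒮) (K : FibCat.Cleavage p) (C : Type u₃) [Category.{v₃} C] (F G : 𝒳 ⥤ C)
    (u : ∀ S : 𝒮, (Functor.Fiber.fiberInclusion ⋙ F : p.Fiber S ⥤ C) ⟶ Functor.Fiber.fiberInclusion ⋙ G)
    (hu : ∀ ⦃T S : 𝒮⦄ (f : T ⟶ S) (a : p.Fiber S),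
      F.map ((K.transport f).app a) ≫ (u S).app a = (u T).app ((K.inverseImage f).obj a) ≫ G.map ((K.transport f).app a)) :
    ∃! v : F ⟶ G, ∀ (S : 𝒮) (a : p.Fiber S), v.app a.1 = (u S).app a := by
  refine ⟨{ app := fun x => (u (p.obj x)).app ⟨x, rfl⟩, naturality := ?_ }, ?_, ?_⟩
  · intro x y φ
    -- factor φ through the chosen lift over p.map φ
    let f := p.map φ
    let y' : p.Fiber (p.obj y) := ⟨y, rfl⟩
    let x' : p.Fiber (p.obj x) := ⟨x, rfl⟩
    let φ' : x ⟶ K.obj y'.2 f := Functor.IsCartesian.map p f (K.lift y'.2 f) φ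
    have hfac : φ' ≫ K.lift y'.2 f = φ := Functor.IsCartesian.fac p f (K.lift y'.2 f) φ
    let ψ : x' ⟶ (K.inverseImage f).obj y' := Functor.Fiber.homMk p (p.obj x) φ'
    have hψ : Functor.Fiber.fiberInclusion.map ψ = φ' := rfl
    have h1 := hu f y'
    have h2 := (u (p.obj x)).naturality ψ
    simp only [Functor.comp_map, transport_app, hψ] at h1 h2
    rw [← hfac, F.map_comp, G.map_comp]
    erw [Category.assoc, h1, ← Category.assoc, h2, Category.assoc]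
    rfl
  · rintro S ⟨a, rfl⟩
    rfl
  · intro v hv
    ext x
    exact hv (p.obj x) ⟨x, rfl⟩

end Groth.Agent.S6018
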