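import Groth.Statements.S6019

set_option autoImplicit false
open CategoryTheory
universe v₁ v₂ u₁ u₂
open FibCat FibCat.Cleavage

namespace Groth.Agent.S6019

variable {𝒮 : Type u₁} {𝒳 : Type u₂} [Category.{v₁} 𝒮] [Category.{v₂} 𝒳]

theorem isCartesian_id_aux (p : 𝒳 ⥤ 𝒮) {R S : 𝒮} {a : 𝒳} (ha : p.obj a = S) (f : R ⟶ S)
    (h : ∃ e : R = S, HEq f (𝟙 S)) : p.IsCartesian f (𝟙 a) := by
  obtain ⟨e, hf⟩ := h
  subst e
  have : f = 𝟙 R := eq_of_heq hf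
  subst this
  subst ha
  infer_instance

open Classical in
noncomputable def choice (p : 𝒳 ⥤ 𝒮) [p.IsPreFibered] {R S : 𝒮} {a : 𝒳} (ha : p.obj a = S) (f : R ⟶ S) :
    Σ b : 𝒳, {φ : b ⟶ a // p.IsCartesian f φ} :=
  if h : ∃ e : R = S, HEq f (𝟙 S) then ⟨a, 𝟙 a, isCartesian_id_aux p ha f h⟩
  else ⟨Functor.IsPreFibered.pullbackObj ha f, Functor.IsPreFibered.pullbackMap ha f, inferInstance⟩

noncomputable def K0 (p : 𝒳 ⥤ 𝒮) [p.IsPreFibered] : FibCat.Cleavage p where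
  obj ha f := (choice p ha f).1
  lift ha f := (choice p ha f).2.1
  isCartesian ha f := (choice p ha f).2.2

theorem result (𝒮 : Type u₁) (𝒳 : Type u₂) [Category.{v₁} 𝒮] [Category.{v₂} 𝒳]
    (p : 𝒳 ⥤ 𝒮) [p.IsPreFibered] : ∃ K : FibCat.Cleavage p, K.IsNormalised := by
  refine ⟨K0 p, ?_⟩
  intro S a ha
  have hc : choice p ha (𝟙 S) = ⟨a, 𝟙 a, isCartesian_id_aux p ha (𝟙 S) ⟨rfl, HEq.rfl⟩⟩ :=
    dif_pos ⟨rfl, HEq.rfl⟩
  show ∃ h : (choice p ha (𝟙 S)).1 = a, (choice p ha (𝟙 S)).2.1 = eqToHom h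
  rw [hc]
  exact ⟨rfl, rfl⟩

end Groth.Agent.S6019
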