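import Groth.Statements.S6264
-- import your own Groth.Agent.* helpers here

set_option autoImplicit false
universe u
open CAlg

namespace Groth.Agent.S6264

/-- Let R → S be a ring map with the going-up property and p a prime of R such that exactly one prime q
of S lies over p. Then the localization S_p of S at the image of R - p is a localization of S at q,
i.e. S_p = S_q. -/
theorem result {R S : Type u} [CommRing R] [CommRing S] [Algebra R S] [Algebra.HasGoingUp R S] (p : Ideal R) [p.IsPrime] (q : Ideal S) [q.IsPrime] [q.LiesOver p] (huniq : ∀ q' : Ideal S, q'.IsPrime → q'.under R = p → q' = q) : IsLocalization.AtPrime (Localization (Algebra.algebraMapSubmonoid S p.primeCompl)) q := by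
  have hTq : Algebra.algebraMapSubmonoid S p.primeCompl ≤ q.primeCompl := by
    rintro _ ⟨r, hr, rfl⟩ hq
    apply hr
    have h1 : r ∈ q.under R := hq
    rwa [← Ideal.over_def q p] at h1
  apply IsLocalization.of_le (Algebra.algebraMapSubmonoid S p.primeCompl) q.primeCompl hTq
  intro s hs
  by_contra hnu
  obtain ⟨m, hm, hsm⟩ := exists_max_ideal_of_mem_nonunits hnu
  have hq'p : (m.comap (algebraMap S (Localization (Algebra.algebraMapSubmonoid S p.primeCompl)))).IsPrime :=
    hm.isPrime.comap _
  set q' := m.comap (algebraMap S (Localization (Algebra.algebraMapSubmonoid S p.primeCompl))) with hq'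
  have hdisj : ∀ t ∈ Algebra.algebraMapSubmonoid S p.primeCompl, t ∉ q' := by
    intro t ht htq
    exact hm.ne_top (Ideal.eq_top_of_isUnit_mem _ htq
      (IsLocalization.map_units (Localization (Algebra.algebraMapSubmonoid S p.primeCompl)) ⟨t, ht⟩))
  have hle : q'.under R ≤ p := by
    intro r hr
    by_contra hrp
    exact hdisj (algebraMap R S r) ⟨r, hrp, rfl⟩ hr
  have hsq' : s ∈ q' := hsm
  have hPr : (q'.under R).IsPrime := Ideal.IsPrime.under R q'
  obtain ⟨Q, hQ, hQp, hQo⟩ := Ideal.exists_ideal_ge_liesOver_of_le (p := q'.under R) (q := p) q' hle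
  have hQeq : Q = q := huniq Q hQp (Ideal.over_def Q p).symm
  exact hs (hQeq ▸ hQ hsq')

end Groth.Agent.S6264
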