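import Groth.Statements.S6268
import Mathlib.LinearAlgebra.TensorProduct.RightExactness
-- import your own Groth.Agent.* helpers here

set_option autoImplicit false
universe u
open CAlg

namespace Groth.Agent.S6268

open scoped TensorProduct

/-- Suppose the structure map R → S of an R-algebra S is universally injective as an R-linear map. Then
tensoring with S detects injectivity and surjectivity of R-linear maps (and hence reflects
isomorphisms): for an R-linear g : M → N, if S ⊗ g is injective then so is g, and if S ⊗ g is
surjective then so is g. -/
theorem result {R S : Type u} [CommRing R] [CommRing S] [Algebra R S] (hS : CAlgX.UniversallyInjective R (Algebra.linearMap R S)) {M N : Type u} [AddCommGroup M] [Module R M] [AddCommGroup N] [Module R N] (g : M →ₗ[R] N) : (Function.Injective (g.lTensor S) → Function.Injective g) ∧ (Function.Surjective (g.lTensor S) → Function.Surjective g) := by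
  have hι : ∀ (Q : Type u) [AddCommGroup Q] [Module R Q],
      Function.Injective (fun q : Q => (1 : S) ⊗ₜ[R] q) := by
    intro Q _ _
    have h := hS Q
    have e : (fun q : Q => (1 : S) ⊗ₜ[R] q) =
        ((Algebra.linearMap R S).rTensor Q) ∘ (TensorProduct.lid R Q).symm := by
      funext q
      simp [TensorProduct.lid_symm_apply]
    rw [e]
    exact h.comp (TensorProduct.lid R Q).symm.injective
  constructor
  · intro hinj x y hxy
    apply hι M
    apply hinj
    simp [hxy]
  · intro hsurj
    have hex : Function.Exact g (LinearMap.range g).mkQ := LinearMap.exact_map_mkQ_range g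
    have hexT := lTensor_exact S hex (Submodule.mkQ_surjective _)
    have hP : ∀ z : S ⊗[R] (N ⧸ LinearMap.range g), z = 0 := by
      intro z
      obtain ⟨w, rfl⟩ := LinearMap.lTensor_surjective S (Submodule.mkQ_surjective _) z
      obtain ⟨v, rfl⟩ := hsurj w
      exact hexT.apply_apply_eq_zero v
    intro n
    have h0 : (LinearMap.range g).mkQ n = 0 := by
      apply hι (N ⧸ LinearMap.range g)
      simp only
      rw [hP ((1 : S) ⊗ₜ[R] _), TensorProduct.tmul_zero]
    rwa [Submodule.mkQ_apply, Submodule.Quotient.mk_eq_zero, LinearMap.mem_range] at h0

end Groth.Agent.S6268
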