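import Groth.Statements.S6269
import Mathlib.LinearAlgebra.TensorProduct.RightExactness
-- import your own Groth.Agent.* helpers here

set_option autoImplicit false
universe u
open CAlg

namespace Groth.Agent.S6269

open scoped TensorProduct

/-- Let 0 → M₁ → M₂ → M₃ → 0 be a universally exact sequence of R-modules (a short exact sequence whose
first map is universally injective) with M₂ flat. Then M₁ and M₃ are flat. -/
theorem result {R : Type u} [CommRing R] {M₁ M₂ M₃ : Type u} [AddCommGroup M₁] [Module R M₁] [AddCommGroup M₂] [Module R M₂] [AddCommGroup M₃] [Module R M₃] (f : M₁ →ₗ[R] M₂) (g : M₂ →ₗ[R] M₃) (hexact : Function.Exact f g) (hg : Function.Surjective g) (hf : CAlgX.UniversallyInjective R f) [Module.Flat R M₂] : Module.Flat R M₁ ∧ Module.Flat R M₃ := by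
  have hex : Function.Exact f g := hexact
  -- commutation of left and right tensoring
  have comm : ∀ {A B C D : Type u} [AddCommGroup A] [Module R A] [AddCommGroup B] [Module R B]
      [AddCommGroup C] [Module R C] [AddCommGroup D] [Module R D] (a : A →ₗ[R] B) (b : C →ₗ[R] D)
      (x : A ⊗[R] C), (a.rTensor D) ((b.lTensor A) x) = (b.lTensor B) ((a.rTensor C) x) := by
    intro A B C D _ _ _ _ _ _ _ _ a b x
    rw [← LinearMap.comp_apply, LinearMap.rTensor_comp_lTensor, ← LinearMap.lTensor_comp_rTensor,
      LinearMap.comp_apply]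
  constructor
  · rw [Module.Flat.iff_lTensor_preserves_injective_linearMap]
    intro N P _ _ _ _ i hi
    have h2 : Function.Injective ((i.lTensor M₂) ∘ (f.rTensor N)) :=
      (Module.Flat.lTensor_preserves_injective_linearMap i hi).comp (hf N)
    have e : (i.lTensor M₂) ∘ (f.rTensor N) = (f.rTensor P) ∘ (i.lTensor M₁) := by
      funext x
      exact (comm f i x).symm
    rw [e] at h2
    exact h2.of_comp
  · rw [Module.Flat.iff_lTensor_preserves_injective_linearMap]
    intro K F _ _ _ _ i hi
    have hrow : ∀ (X : Type u) [AddCommGroup X] [Module R X],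
        Function.Exact (i.lTensor X) ((LinearMap.range i).mkQ.lTensor X) :=
      fun X _ _ => lTensor_exact X (LinearMap.exact_map_mkQ_range i) (Submodule.mkQ_surjective _)
    rw [injective_iff_map_eq_zero]
    intro z hz
    obtain ⟨y, rfl⟩ := LinearMap.rTensor_surjective K hg z
    have hy' : g.rTensor F (i.lTensor M₂ y) = 0 := by rw [comm g i y, hz]
    obtain ⟨x', hx'⟩ := (rTensor_exact F hex hg (i.lTensor M₂ y)).mp hy'
    have h4 : (LinearMap.range i).mkQ.lTensor M₁ x' = 0 := by
      apply (injective_iff_map_eq_zero _).mp (hf (F ⧸ LinearMap.range i))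
      rw [comm f (LinearMap.range i).mkQ x', hx']
      exact (hrow M₂).apply_apply_eq_zero y
    obtain ⟨x, hx⟩ := ((hrow M₁) x').mp h4
    have h6 : f.rTensor K x = y := by
      apply Module.Flat.lTensor_preserves_injective_linearMap i hi
      rw [← comm f i x, hx, hx']
    rw [← h6]
    exact (rTensor_exact K hex hg).apply_apply_eq_zero x

end Groth.Agent.S6269
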