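import Groth.Statements.S6273
-- import your own Groth.Agent.* helpers here

set_option autoImplicit false
universe u
open CAlg

namespace Groth.Agent.S6273

/-- Let R be a ring, S ⊆ R a multiplicative subset and A = S⁻¹R. If the image of Spec(A) → Spec(R) is
closed, then the localization map R → A is surjective; in particular A is isomorphic to R/I for the
ideal I = ker(R → A). -/
theorem result {R : Type u} [CommRing R] (S : Submonoid R) (A : Type u) [CommRing A] [Algebra R A] [IsLocalization S A] (hcl : IsClosed (Set.range (PrimeSpectrum.comap (algebraMap R A)))) : Function.Surjective (algebraMap R A) := by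
  have hrange := hcl.closure_eq
  rw [PrimeSpectrum.closure_range_comap] at hrange
  have key : ∀ s ∈ S, ∃ r : R, algebraMap R A (r * s) = 1 := by
    intro s hs
    by_contra hcon
    push_neg at hcon
    have hne : RingHom.ker (algebraMap R A) ⊔ Ideal.span {s} ≠ ⊤ := by
      intro htop
      rw [Ideal.eq_top_iff_one, Submodule.mem_sup] at htop
      obtain ⟨j, hj, y, hy, hjy⟩ := htop
      obtain ⟨r, rfl⟩ := Ideal.mem_span_singleton'.mp hy
      apply hcon r
      have hj0 : algebraMap R A j = 0 := hj
      have h1 := congrArg (algebraMap R A) hjy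
      rw [map_add, hj0, zero_add, map_one] at h1
      exact h1
    obtain ⟨m, hm, hle⟩ := Ideal.exists_le_maximal _ hne
    have hmem : (⟨m, hm.isPrime⟩ : PrimeSpectrum R) ∈
        PrimeSpectrum.zeroLocus (RingHom.ker (algebraMap R A) : Set R) := by
      intro x hx; exact hle (Ideal.mem_sup_left hx)
    rw [hrange, PrimeSpectrum.localization_comap_range A S] at hmem
    exact Set.disjoint_left.mp hmem hs (hle (Ideal.mem_sup_right (Ideal.mem_span_singleton_self s)))
  intro a
  obtain ⟨⟨x, s⟩, rfl⟩ := IsLocalization.mk'_surjective S a
  obtain ⟨r, hr⟩ := key s s.2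
  refine ⟨x * r, ?_⟩
  rw [IsLocalization.eq_mk'_iff_mul_eq, map_mul, mul_assoc, ← map_mul, hr, mul_one]

end Groth.Agent.S6273
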