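import Groth.Statements.S6275
import Mathlib.RingTheory.Localization.Basic
import Mathlib.RingTheory.Localization.Away.Basic
import Mathlib.RingTheory.Noetherian.Basic
-- import your own Groth.Agent.* helpers here

set_option autoImplicit false
universe u
open CAlg

namespace Groth.Agent.S6275

/-- Let R be a Noetherian ring and p ⊆ R a prime. Then there is f ∈ R, f ∉ p, such that R_f → R_p is
injective; equivalently every x ∈ R mapping to zero in R_p maps to zero in R_f. (The cases of a
domain and of a reduced ring with finitely many minimal primes are not included here.) -/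
theorem result {R : Type u} [CommRing R] [IsNoetherianRing R] (p : Ideal R) [p.IsPrime] : ∃ f : R, f ∉ p ∧ ∀ x : R, algebraMap R (Localization.AtPrime p) x = 0 → algebraMap R (Localization.Away f) x = 0 := by
  classical
  have hfg : (RingHom.ker (algebraMap R (Localization.AtPrime p))).FG := IsNoetherian.noetherian _
  obtain ⟨S, hS⟩ := hfg
  have hc : ∀ s ∈ S, ∃ c : R, c ∈ p.primeCompl ∧ c * s = 0 := by
    intro s hs
    have hsK : s ∈ RingHom.ker (algebraMap R (Localization.AtPrime p)) :=
      hS ▸ Submodule.subset_span hs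
    rw [RingHom.mem_ker, IsLocalization.map_eq_zero_iff p.primeCompl] at hsK
    obtain ⟨⟨c, hc⟩, hcs⟩ := hsK
    exact ⟨c, hc, hcs⟩
  choose! c hcp hcs using hc
  refine ⟨∏ s ∈ S, c s, Submonoid.prod_mem p.primeCompl (fun s hs => hcp s hs), ?_⟩
  intro x hx
  have hxK : x ∈ Ideal.span (S : Set R) := by rw [hS]; exact RingHom.mem_ker.mpr hx
  clear hx
  rw [IsLocalization.map_eq_zero_iff (Submonoid.powers (∏ s ∈ S, c s))]
  refine ⟨⟨∏ s ∈ S, c s, Submonoid.mem_powers _⟩, ?_⟩
  show (∏ s ∈ S, c s) * x = 0
  induction hxK using Submodule.span_induction with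
  | mem y hy =>
    rw [← Finset.mul_prod_erase S c hy, mul_comm (c y), mul_assoc, hcs y hy, mul_zero]
  | zero => rw [mul_zero]
  | add y z _ _ hy hz => rw [mul_add, hy, hz, add_zero]
  | smul a y _ hy => rw [smul_eq_mul, mul_left_comm, hy, mul_zero]

end Groth.Agent.S6275
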