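import Groth.Statements.S6277
import Mathlib.RingTheory.Noetherian.Defs
import Mathlib.RingTheory.Ideal.Maps
-- import your own Groth.Agent.* helpers here

set_option autoImplicit false
universe u
open CAlg

namespace Groth.Agent.S6277

/-- Any surjective ring endomorphism of a Noetherian ring is an isomorphism (bijective). -/
theorem result {R : Type u} [CommRing R] [IsNoetherianRing R] (f : R →+* R) (hf : Function.Surjective f) : Function.Bijective f := by
  refine ⟨?_, hf⟩
  let K : ℕ →o Ideal R := ⟨fun n => RingHom.ker (f ^ n), by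
    intro n m hnm y hy
    simp only [RingHom.mem_ker] at hy ⊢
    rw [RingHom.coe_pow] at hy ⊢
    obtain ⟨k, rfl⟩ := Nat.exists_eq_add_of_le hnm
    rw [add_comm, Function.iterate_add_apply, hy]
    exact iterate_map_zero f k⟩
  obtain ⟨n, hn⟩ := monotone_stabilizes_iff_noetherian.mpr (inferInstance : IsNoetherian R R) K
  rw [injective_iff_map_eq_zero]
  intro x hx
  obtain ⟨y, rfl⟩ : ∃ y, (f ^ n) y = x := by
    rw [RingHom.coe_pow]
    exact (hf.iterate n) x
  have hy : y ∈ K (n + 1) := by
    show y ∈ RingHom.ker (f ^ (n + 1))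
    rw [RingHom.mem_ker, RingHom.coe_pow, Function.iterate_succ_apply']
    rw [RingHom.coe_pow] at hx
    exact hx
  rw [← hn (n + 1) (by omega)] at hy
  exact RingHom.mem_ker.mp hy

end Groth.Agent.S6277
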