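import Groth.Statements.S6281
import Mathlib.RingTheory.Flat.FaithfullyFlat.Basic
-- import your own Groth.Agent.* helpers here

set_option autoImplicit false
universe u
open CAlg

namespace Groth.Agent.S6281

/-- For an R-algebra S and an S-module M, flatness of S over R follows once M is both flat over R and
faithfully flat over S. -/
theorem result {R S : Type u} [CommRing R] [CommRing S] [Algebra R S] (M : Type u) [AddCommGroup M] [Module S M] [Module R M] [IsScalarTower R S M] [Module.Flat R M] [Module.FaithfullyFlat S M] : Module.Flat R S := by
  rw [Module.Flat.iff_lTensor_preserves_injective_linearMap]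
  intro N Q _ _ _ _ f hf
  have hM : Function.Injective (f.lTensor M) := Module.Flat.lTensor_preserves_injective_linearMap f hf
  have key := TensorProduct.AlgebraTensorModule.lTensor_comp_cancelBaseChange R S S (M := M) f
  have hX : Function.Injective
      (TensorProduct.AlgebraTensorModule.lTensor S M
        (TensorProduct.AlgebraTensorModule.lTensor S S f)) := by
    have h2 : Function.Injective
        ((TensorProduct.AlgebraTensorModule.cancelBaseChange R S S M Q).toLinearMap ∘ₗ
          TensorProduct.AlgebraTensorModule.lTensor S M
            (TensorProduct.AlgebraTensorModule.lTensor S S f)) := by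
      rw [← key]
      exact hM.comp (TensorProduct.AlgebraTensorModule.cancelBaseChange R S S M N).injective
    exact Function.Injective.of_comp (f := ⇑(TensorProduct.AlgebraTensorModule.cancelBaseChange R S S M Q)) h2
  have hY := (Module.FaithfullyFlat.lTensor_injective_iff_injective S M
    (TensorProduct.AlgebraTensorModule.lTensor S S f)).mp hX
  exact hY

end Groth.Agent.S6281
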