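import Groth.Statements.S6282
-- import your own Groth.Agent.* helpers here

set_option autoImplicit false
universe u
open scoped TensorProduct
open CAlg

namespace Groth.Agent.S6282

/-- Let S → S' be a homomorphism of R-algebras, M an S-module, and M' = S' ⊗_S M with its induced
R-module structure. (1) When S' is flat over S, R-flatness of M passes to M'. (2) When S' is
faithfully flat over S, M is R-flat exactly when M' is. -/
theorem result {R S S' : Type u} [CommRing R] [CommRing S] [CommRing S'] [Algebra R S] [Algebra R S'] [Algebra S S'] [IsScalarTower R S S'] (M : Type u) [AddCommGroup M] [Module S M] [Module R M] [IsScalarTower R S M] : ([Module.Flat S S'] → Module.Flat R M → Module.Flat R (S' ⊗[S] M)) ∧ ([Module.FaithfullyFlat S S'] → (Module.Flat R M ↔ Module.Flat R (S' ⊗[S] M))) := by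
  have key : ∀ {N P : Type u} [AddCommGroup N] [Module R N] [AddCommGroup P] [Module R P]
      (f : N →ₗ[R] P),
      ⇑(TensorProduct.AlgebraTensorModule.assoc R S S S' M P) ∘ ⇑(f.lTensor (S' ⊗[S] M)) =
        ⇑((TensorProduct.AlgebraTensorModule.lTensor S M f).lTensor S') ∘
          ⇑(TensorProduct.AlgebraTensorModule.assoc R S S S' M N) := by
    intro N P _ _ _ _ f
    funext x
    induction x using TensorProduct.induction_on with
    | zero => simp
    | tmul a n =>
      induction a using TensorProduct.induction_on with
      | zero => simp
      | tmul s m => simp
      | add a b ha hb =>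
        simp only [Function.comp_apply] at ha hb ⊢
        rw [TensorProduct.add_tmul, map_add, map_add, ha, hb, map_add, map_add]
    | add x y hx hy =>
      simp only [Function.comp_apply] at hx hy ⊢
      rw [map_add, map_add, hx, hy, map_add, map_add]
  have part1 : Module.Flat S S' → Module.Flat R M → Module.Flat R (S' ⊗[S] M) := by
    intro hS' hM
    rw [Module.Flat.iff_lTensor_preserves_injective_linearMap]
    intro N P _ _ _ _ f hf
    have h1 : Function.Injective (f.lTensor M) := Module.Flat.lTensor_preserves_injective_linearMap f hf
    have h2 : Function.Injective ((TensorProduct.AlgebraTensorModule.lTensor S M f).lTensor S') :=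
      Module.Flat.lTensor_preserves_injective_linearMap _ h1
    have h3 : Function.Injective (⇑(TensorProduct.AlgebraTensorModule.assoc R S S S' M P) ∘
        ⇑(f.lTensor (S' ⊗[S] M))) := by
      rw [key f]
      exact h2.comp (TensorProduct.AlgebraTensorModule.assoc R S S S' M N).injective
    exact Function.Injective.of_comp h3
  constructor
  · intro _ hM
    exact part1 inferInstance hM
  intro _
  refine ⟨fun hM => part1 inferInstance hM, fun hT => ?_⟩
  rw [Module.Flat.iff_lTensor_preserves_injective_linearMap]
  intro N P _ _ _ _ f hf
  have h1 : Function.Injective (f.lTensor (S' ⊗[S] M)) :=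
    Module.Flat.lTensor_preserves_injective_linearMap f hf
  have h2 : Function.Injective ((TensorProduct.AlgebraTensorModule.lTensor S M f).lTensor S') := by
    have h3 : Function.Injective (⇑((TensorProduct.AlgebraTensorModule.lTensor S M f).lTensor S') ∘
        ⇑(TensorProduct.AlgebraTensorModule.assoc R S S S' M N)) := by
      rw [← key f]
      exact (TensorProduct.AlgebraTensorModule.assoc R S S S' M P).injective.comp h1
    have h4 := h3.comp (TensorProduct.AlgebraTensorModule.assoc R S S S' M N).symm.injective
    simpa [Function.comp_def] using h4
  have h5 := (Module.FaithfullyFlat.lTensor_injective_iff_injective S S'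
    (TensorProduct.AlgebraTensorModule.lTensor S M f)).mp h2
  exact h5

end Groth.Agent.S6282
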