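import Groth.Statements.S6283
import Mathlib.Algebra.Exact.Basic
import Mathlib.LinearAlgebra.Pi
-- import your own Groth.Agent.* helpers here

set_option autoImplicit false
universe u
open scoped TensorProduct
open CAlg

namespace Groth.Agent.S6283
open scoped TensorProduct

theorem lemA {R S : Type u} [CommRing R] [CommRing S] [Algebra R S] [Module.Flat R S]
    {N : Type u} [AddCommGroup N] [Module R N] (g : R →ₗ[R] N) (s : S)
    (hs : s ⊗ₜ[R] g 1 = 0) : s ∈ Ideal.map (algebraMap R S) (LinearMap.ker g) := by
  have hex : Function.Exact (LinearMap.ker g).subtype g := LinearMap.exact_subtype_ker_map g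
  have hex' := Module.Flat.lTensor_exact S hex
  have h0 : LinearMap.lTensor S g (s ⊗ₜ[R] (1 : R)) = 0 := by
    rw [LinearMap.lTensor_tmul]; exact hs
  obtain ⟨t, ht⟩ := (hex' (s ⊗ₜ[R] (1:R))).mp h0
  have key : ∀ t : S ⊗[R] (LinearMap.ker g),
      TensorProduct.rid R S (LinearMap.lTensor S (LinearMap.ker g).subtype t) ∈
        Ideal.map (algebraMap R S) (LinearMap.ker g) := by
    intro t
    induction t using TensorProduct.induction_on with
    | zero => simp
    | tmul a i =>
      rw [LinearMap.lTensor_tmul, TensorProduct.rid_tmul, Algebra.smul_def]
      exact Ideal.mul_mem_right _ _ (Ideal.mem_map_of_mem _ i.2)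
    | add x y hx hy => rw [map_add, map_add]; exact Ideal.add_mem _ hx hy
  have := key t
  rw [ht, TensorProduct.rid_tmul, one_smul] at this
  exact this

/-- Let R → S be a flat ring map, M an R-module and m ∈ M. Then Ann_R(m)S = Ann_S(1 ⊗ m), the
annihilator in S of the element 1 ⊗ m of S ⊗_R M. If moreover M is a finite R-module then Ann_R(M)S
= Ann_S(S ⊗_R M). -/
theorem result {R S : Type u} [CommRing R] [CommRing S] [Algebra R S] [Module.Flat R S] (M : Type u) [AddCommGroup M] [Module R M] : (∀ m : M, ((Submodule.span R {m}).annihilator).map (algebraMap R S) = (Submodule.span S {(1 : S) ⊗ₜ[R] m}).annihilator) ∧ (Module.Finite R M → (Module.annihilator R M).map (algebraMap R S) = Module.annihilator S (S ⊗[R] M)) := by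
  classical
  constructor
  · intro m
    have hker : (Submodule.span R {m}).annihilator =
        LinearMap.ker (LinearMap.toSpanSingleton R M m) := by
      ext r
      rw [Submodule.mem_annihilator_span_singleton, LinearMap.mem_ker,
        LinearMap.toSpanSingleton_apply]
    apply le_antisymm
    · rw [Ideal.map_le_iff_le_comap]
      intro r hr
      rw [Submodule.mem_annihilator_span_singleton] at hr
      show algebraMap R S r ∈ (Submodule.span S {(1 : S) ⊗ₜ[R] m}).annihilator
      rw [Submodule.mem_annihilator_span_singleton, TensorProduct.smul_tmul', smul_eq_mul,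
        mul_one, Algebra.algebraMap_eq_smul_one, TensorProduct.smul_tmul, hr,
        TensorProduct.tmul_zero]
    · intro s hs
      rw [Submodule.mem_annihilator_span_singleton, TensorProduct.smul_tmul', smul_eq_mul,
        mul_one] at hs
      rw [hker]
      apply lemA
      rw [LinearMap.toSpanSingleton_apply, one_smul]
      exact hs
  · intro hfin
    apply le_antisymm
    · rw [Ideal.map_le_iff_le_comap]
      intro r hr
      rw [Module.mem_annihilator] at hr
      show algebraMap R S r ∈ Module.annihilator S (S ⊗[R] M)
      rw [Module.mem_annihilator]
      intro x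
      rw [algebraMap_smul]
      induction x using TensorProduct.induction_on with
      | zero => simp
      | tmul a b => rw [TensorProduct.smul_tmul', TensorProduct.smul_tmul, hr b,
          TensorProduct.tmul_zero]
      | add x y hx hy => rw [smul_add, hx, hy, add_zero]
    · intro s hs
      rw [Module.mem_annihilator] at hs
      obtain ⟨n, m, hm⟩ := Module.Finite.exists_fin (R := R) (M := M)
      let g : R →ₗ[R] (Fin n → M) := LinearMap.pi (fun i => LinearMap.toSpanSingleton R M (m i))
      have hker : Module.annihilator R M = LinearMap.ker g := by
        ext r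
        rw [Module.mem_annihilator, LinearMap.mem_ker]
        constructor
        · intro h
          funext i
          simp [g, h]
        · intro h x
          have hx : x ∈ Submodule.span R (Set.range m) := by rw [hm]; trivial
          induction hx using Submodule.span_induction with
          | mem y hy =>
            obtain ⟨i, rfl⟩ := hy
            have := congrFun h i
            simpa [g] using this
          | zero => simp
          | add y z _ _ hy hz => rw [smul_add, hy, hz, add_zero]
          | smul a y _ hy => rw [smul_comm, hy, smul_zero]
      rw [hker]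
      apply lemA
      have hg1 : g 1 = ∑ i, Pi.single i (m i) := by
        rw [Finset.univ_sum_single]
        funext i
        simp [g]
      rw [hg1, TensorProduct.tmul_sum]
      apply Finset.sum_eq_zero
      intro i _
      have h1 : s ⊗ₜ[R] m i = 0 := by
        have := hs ((1 : S) ⊗ₜ[R] m i)
        rwa [TensorProduct.smul_tmul', smul_eq_mul, mul_one] at this
      have h2 : s ⊗ₜ[R] (Pi.single i (m i) : Fin n → M) =
          LinearMap.lTensor S (LinearMap.single R (fun _ : Fin n => M) i) (s ⊗ₜ[R] m i) := by
        rw [LinearMap.lTensor_tmul]
        rfl
      rw [h2, h1, map_zero]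

end Groth.Agent.S6283
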