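import Groth.Statements.S6284
import Mathlib.RingTheory.LocalRing.Module
import Mathlib.RingTheory.LocalRing.ResidueField.Ideal
import Mathlib.RingTheory.Flat.FaithfullyFlat.Basic
-- import your own Groth.Agent.* helpers here

set_option autoImplicit false
universe u
open scoped TensorProduct
open CAlg

namespace Groth.Agent.S6284
open TensorProduct

/-- Let R → R' be a ring map and M a finite R-module. Then the support of R' ⊗_R M is the inverse image
of the support of M under Spec(R') → Spec(R). -/
theorem result {R R' : Type u} [CommRing R] [CommRing R'] [Algebra R R'] (M : Type u) [AddCommGroup M] [Module R M] [Module.Finite R M] : Module.support R' (R' ⊗[R] M) = PrimeSpectrum.comap (algebraMap R R') ⁻¹' Module.support R M := by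
  classical
  ext q
  rw [Set.mem_preimage, Module.mem_support_iff_nontrivial_residueField_tensorProduct,
    Module.mem_support_iff_nontrivial_residueField_tensorProduct]
  let p : PrimeSpectrum R := PrimeSpectrum.comap (algebraMap R R') q
  change Nontrivial (q.asIdeal.ResidueField ⊗[R'] (R' ⊗[R] M)) ↔
    Nontrivial (p.asIdeal.ResidueField ⊗[R] M)
  let φ : p.asIdeal.ResidueField →+* q.asIdeal.ResidueField :=
    Ideal.ResidueField.map p.asIdeal q.asIdeal (algebraMap R R') rfl
  letI : Algebra p.asIdeal.ResidueField q.asIdeal.ResidueField := φ.toAlgebra
  haveI : IsScalarTower R p.asIdeal.ResidueField q.asIdeal.ResidueField := by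
    refine IsScalarTower.of_algebraMap_eq (fun r => ?_)
    change algebraMap R q.asIdeal.ResidueField r = φ (algebraMap R p.asIdeal.ResidueField r)
    exact (IsScalarTower.algebraMap_apply R R' q.asIdeal.ResidueField r).trans
      (Ideal.ResidueField.map_algebraMap p.asIdeal q.asIdeal (algebraMap R R') rfl r).symm
  let e1 := AlgebraTensorModule.cancelBaseChange R R' q.asIdeal.ResidueField
    q.asIdeal.ResidueField M
  let e2 := AlgebraTensorModule.cancelBaseChange R p.asIdeal.ResidueField q.asIdeal.ResidueField
    q.asIdeal.ResidueField M
  rw [e1.nontrivial_congr, ← e2.nontrivial_congr,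
    Module.FaithfullyFlat.nontrivial_tensorProduct_iff_right]

end Groth.Agent.S6284
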