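import Groth.Statements.S6288
import Mathlib.FieldTheory.Minpoly.Field
-- import your own Groth.Agent.* helpers here

set_option autoImplicit false
universe u
open CAlg

namespace Groth.Agent.S6288

/-- Let L/K be an algebraic extension of fields and B ⊆ L a valuation ring with fraction field L which
is not a field. Then A = K ∩ B is a valuation ring of K (automatic) which is again not a field, i.e.
A ≠ K. -/
theorem result (K L : Type u) [Field K] [Field L] [Algebra K L] [Algebra.IsAlgebraic K L] (B : ValuationSubring L) (hB : B ≠ ⊤) : B.comap (algebraMap K L) ≠ ⊤ := by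
  intro htop
  have hK : ∀ a : K, algebraMap K L a ∈ B := by
    intro a
    have : a ∈ B.comap (algebraMap K L) := by rw [htop]; exact ValuationSubring.mem_top a
    exact this
  obtain ⟨x, hx⟩ : ∃ x : L, x ∉ B := by
    by_contra h
    push Not at h
    exact hB (eq_top_iff.mpr (fun x _ => h x))
  set v := B.valuation with hv
  have hvx : 1 < v x := by
    rw [← not_le, ValuationSubring.valuation_le_one_iff]; exact hx
  have hx0 : x ≠ 0 := by rintro rfl; exact hx B.zero_mem
  set y := x⁻¹ with hy
  have hy0 : y ≠ 0 := inv_ne_zero hx0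
  have hvy : v y < 1 := by
    rw [hy, map_inv₀]
    exact inv_lt_one_of_one_lt₀ hvx
  have hvK : ∀ a : K, v (algebraMap K L a) ≤ 1 := fun a =>
    (ValuationSubring.valuation_le_one_iff B _).mpr (hK a)
  have hvK1 : ∀ a : K, a ≠ 0 → v (algebraMap K L a) = 1 := by
    intro a ha
    apply le_antisymm (hvK a)
    have h1 := hvK a⁻¹
    rw [map_inv₀, map_inv₀] at h1
    have hne : v (algebraMap K L a) ≠ 0 := by
      rw [Ne, Valuation.zero_iff]; exact (map_ne_zero _).mpr ha
    have hpos : 0 < v (algebraMap K L a) := lt_of_le_of_ne zero_le hne.symm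
    exact (inv_le_one₀ hpos).mp h1
  have hint : IsIntegral K y := (Algebra.IsAlgebraic.isAlgebraic y).isIntegral
  set q := minpoly K y with hq
  have hq0 : q.coeff 0 ≠ 0 := minpoly.coeff_zero_ne_zero hint hy0
  have hqy : Polynomial.aeval y q = 0 := minpoly.aeval K y
  rw [Polynomial.aeval_eq_sum_range, Finset.sum_range_succ'] at hqy
  simp only [pow_zero, Polynomial.coeff_zero_eq_eval_zero] at hqy
  have hc : Polynomial.eval 0 q • (1 : L) = algebraMap K L (Polynomial.eval 0 q) := by
    rw [Algebra.algebraMap_eq_smul_one]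
  have heq : algebraMap K L (Polynomial.eval 0 q) =
      -(∑ k ∈ Finset.range q.natDegree, q.coeff (k + 1) • y ^ (k + 1)) := by
    rw [← hc]; exact eq_neg_of_add_eq_zero_right hqy
  have hlt : v (∑ k ∈ Finset.range q.natDegree, q.coeff (k + 1) • y ^ (k + 1)) < 1 := by
    apply Valuation.map_sum_lt _ one_ne_zero
    intro k _
    rw [Algebra.smul_def, map_mul, map_pow]
    calc v (algebraMap K L (q.coeff (k + 1))) * v y ^ (k + 1) ≤ 1 * v y ^ (k + 1) := by
          gcongr; exact hvK _
      _ = v y ^ (k + 1) := one_mul _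
      _ < 1 := pow_lt_one₀ zero_le hvy (Nat.succ_ne_zero k)
  have h1 := hvK1 (Polynomial.eval 0 q) (by rw [← Polynomial.coeff_zero_eq_eval_zero]; exact hq0)
  rw [heq, Valuation.map_neg] at h1
  rw [h1] at hlt
  exact lt_irrefl _ hlt

end Groth.Agent.S6288
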