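import Groth.Statements.S6289
-- import your own Groth.Agent.* helpers here

set_option autoImplicit false
universe u
open CAlg

namespace Groth.Agent.S6289

/-- Let A' be a valuation ring with residue field K and A ⊆ K a valuation ring with fraction field K.
Then the subring C of A' consisting of the elements whose residue class lies in A is a valuation
ring. -/
theorem result (A' : Type u) [CommRing A'] [IsDomain A'] [ValuationRing A'] (A : ValuationSubring (IsLocalRing.ResidueField A')) : ValuationRing (A.toSubring.comap (IsLocalRing.residue A')) := by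
  refine { cond' := fun a b => ?_ }
  obtain ⟨c, hc⟩ := ValuationRing.cond (a : A') (b : A')
  by_cases hcA : IsLocalRing.residue A' c ∈ A
  · refine ⟨⟨c, hcA⟩, ?_⟩
    rcases hc with h | h
    · left; exact Subtype.ext h
    · right; exact Subtype.ext h
  · have hc0 : IsLocalRing.residue A' c ≠ 0 := fun h => hcA (h ▸ A.zero_mem)
    have hcu : IsUnit c := by
      by_contra hnu
      exact hc0 ((IsLocalRing.residue_eq_zero_iff c).mpr hnu)
    obtain ⟨u, rfl⟩ := hcu
    have hinv : IsLocalRing.residue A' (↑u⁻¹ : A') ∈ A := by
      have h1 := (A.mem_or_inv_mem (IsLocalRing.residue A' (u : A'))).resolve_left hcA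
      rwa [map_units_inv]
    refine ⟨⟨↑u⁻¹, hinv⟩, ?_⟩
    rcases hc with h | h
    · right
      apply Subtype.ext
      show (b : A') * ↑u⁻¹ = a
      rw [← h, mul_assoc, Units.mul_inv, mul_one]
    · left
      apply Subtype.ext
      show (a : A') * ↑u⁻¹ = b
      rw [← h, mul_assoc, Units.mul_inv, mul_one]

end Groth.Agent.S6289
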