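import Groth.Statements.S6291
import Mathlib.RingTheory.FiniteLength
import Mathlib.RingTheory.Nakayama
import Mathlib.RingTheory.Artinian.Module
import Mathlib.RingTheory.Jacobson.Ideal
import Mathlib.RingTheory.LocalRing.MaximalIdeal.Basic
-- import your own Groth.Agent.* helpers here

set_option autoImplicit false
universe u
open CAlg

namespace Groth.Agent.S6291

/-- Let R be a local ring with maximal ideal m and M an R-module of finite length. Then mⁿM = 0 for some
n. -/
theorem result {R : Type u} [CommRing R] [IsLocalRing R] (M : Type u) [AddCommGroup M] [Module R M] (hM : IsFiniteLength R M) : ∃ n : ℕ, (IsLocalRing.maximalIdeal R) ^ n • (⊤ : Submodule R M) = ⊥ := by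
  obtain ⟨hN, hA⟩ := isFiniteLength_iff_isNoetherian_isArtinian.mp hM
  let m := IsLocalRing.maximalIdeal R
  let f : ℕ →o (Submodule R M)ᵒᵈ := ⟨fun n => OrderDual.toDual (m ^ n • (⊤ : Submodule R M)), by
    intro a b hab
    exact Submodule.smul_mono_left (Ideal.pow_le_pow_right hab)⟩
  obtain ⟨n, hn⟩ := IsArtinian.monotone_stabilizes f
  refine ⟨n, ?_⟩
  apply Submodule.eq_bot_of_le_smul_of_le_jacobson_bot m
  · exact IsNoetherian.noetherian _
  · have h1 : f n = f (n + 1) := hn (n + 1) (by omega)
    have h2 : m ^ n • (⊤ : Submodule R M) = m ^ (n + 1) • (⊤ : Submodule R M) := h1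
    rw [pow_succ', Submodule.mul_smul] at h2
    exact h2.le
  · exact (IsLocalRing.jacobson_eq_maximalIdeal _ bot_ne_top).ge

end Groth.Agent.S6291
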