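import Groth.Statements.S6292
import Mathlib.RingTheory.Length
import Mathlib.Algebra.Module.Torsion.Basic
import Mathlib.RingTheory.Finiteness.Ideal
import Mathlib.LinearAlgebra.FiniteDimensional.Defs
import Mathlib.RingTheory.Ideal.Quotient.Basic
-- import your own Groth.Agent.* helpers here

set_option autoImplicit false
universe u
open CAlg

namespace Groth.Agent.S6292

/-- Let R be a ring and m ⊆ R a finitely generated maximal ideal (for instance R Noetherian). If M is a
finite R-module with mⁿM = 0 for some n, then M has finite length. -/
theorem result {R : Type u} [CommRing R] (m : Ideal R) [m.IsMaximal] (hm : m.FG) (M : Type u) [AddCommGroup M] [Module R M] [Module.Finite R M] (n : ℕ) (hn : m ^ n • (⊤ : Submodule R M) = ⊥) : IsFiniteLength R M := by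
  have key : ∀ (N : Type u) [AddCommGroup N] [Module R N] [Module.Finite R N],
      m • (⊤ : Submodule R N) = ⊥ → IsFiniteLength R N := by
    intro N _ _ _ hN
    have htor : Module.IsTorsionBySet R N m := by
      intro x a
      have : (a : R) • x ∈ m • (⊤ : Submodule R N) := Submodule.smul_mem_smul a.2 Submodule.mem_top
      rw [hN] at this
      exact (Submodule.mem_bot R).mp this
    letI : Module (R ⧸ m) N := htor.module
    haveI : IsScalarTower R (R ⧸ m) N := htor.isScalarTower
    letI : Field (R ⧸ m) := Ideal.Quotient.field m
    haveI : Module.Finite (R ⧸ m) N := Module.Finite.of_restrictScalars_finite R (R ⧸ m) N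
    have h1 : Module.length (R ⧸ m) N ≠ ⊤ := Module.length_ne_top
    rw [← Module.length_eq_of_surjective (R := R ⧸ m) (S := R) Ideal.Quotient.mk_surjective] at h1
    exact Module.length_ne_top_iff.mp h1
  induction n generalizing M with
  | zero =>
    rw [pow_zero, Ideal.one_eq_top, Submodule.top_smul] at hn
    haveI : Subsingleton M := (Submodule.subsingleton_iff R).mp (subsingleton_of_bot_eq_top hn.symm)
    exact IsFiniteLength.of_subsingleton
  | succ n ih =>
    set N := m ^ n • (⊤ : Submodule R M) with hNdef
    have hNfg : N.FG := Submodule.FG.smul (Ideal.FG.pow hm) Module.Finite.fg_top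
    haveI : Module.Finite R N := Module.Finite.iff_fg.mpr hNfg
    have hmN : m • (⊤ : Submodule R N) = ⊥ := by
      apply Submodule.map_injective_of_injective N.injective_subtype
      rw [Submodule.map_smul'', Submodule.map_subtype_top, Submodule.map_bot, hNdef,
        ← Submodule.mul_smul, ← pow_succ', hn]
    have hQ : m ^ n • (⊤ : Submodule R (M ⧸ N)) = ⊥ := by
      have : Submodule.map N.mkQ N = ⊥ := Submodule.mkQ_map_self N
      rw [← this, hNdef, Submodule.map_smul'', Submodule.map_top, Submodule.range_mkQ]
    have h1 := key N hmN
    have h2 := ih (M ⧸ N) hQ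
    rw [← Module.length_ne_top_iff] at h1 h2 ⊢
    rw [Module.length_eq_add_of_exact N.subtype N.mkQ N.injective_subtype N.mkQ_surjective
      (LinearMap.exact_subtype_mkQ N)]
    exact WithTop.add_ne_top.mpr ⟨h1, h2⟩

end Groth.Agent.S6292
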