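import Groth.Statements.S6296
import Mathlib.RingTheory.Nakayama
import Mathlib.RingTheory.Jacobson.Ideal
import Mathlib.RingTheory.LocalRing.ResidueField.Basic
-- import your own Groth.Agent.* helpers here

set_option autoImplicit false
universe u
open CAlg

namespace Groth.Agent.S6296

/-- Let A → B be a local homomorphism of local rings such that (1) B is a finite A-module, (2) the
maximal ideal m_B is finitely generated, (3) the induced map of residue fields is an isomorphism,
and (4) m_A/m_A² → m_B/m_B² is surjective, i.e. m_B ⊆ m_A B + m_B². Then A → B is surjective. -/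
theorem result {A B : Type u} [CommRing A] [CommRing B] [IsLocalRing A] [IsLocalRing B] [Algebra A B] [IsLocalHom (algebraMap A B)] [Module.Finite A B] (hfg : (IsLocalRing.maximalIdeal B).FG) (hres : Function.Surjective (IsLocalRing.ResidueField.map (algebraMap A B))) (hcot : IsLocalRing.maximalIdeal B ≤ (IsLocalRing.maximalIdeal A).map (algebraMap A B) ⊔ (IsLocalRing.maximalIdeal B) ^ 2) : Function.Surjective (algebraMap A B) := by
  have hjacA : IsLocalRing.maximalIdeal A ≤ Ideal.jacobson ⊥ :=
    (IsLocalRing.jacobson_eq_maximalIdeal ⊥ bot_ne_top).ge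
  have hjacB : IsLocalRing.maximalIdeal B ≤ Ideal.jacobson ⊥ :=
    (IsLocalRing.jacobson_eq_maximalIdeal ⊥ bot_ne_top).ge
  have h1 : IsLocalRing.maximalIdeal B ≤ (IsLocalRing.maximalIdeal A).map (algebraMap A B) := by
    apply Submodule.le_of_le_smul_of_le_jacobson_bot hfg hjacB
    rw [Ideal.smul_eq_mul, ← pow_two]
    exact hcot
  have h2 : (⊤ : Submodule A B) ≤
      Submodule.span A {(1 : B)} ⊔ (IsLocalRing.maximalIdeal A) • (⊤ : Submodule A B) := by
    intro b _
    obtain ⟨r, hr⟩ := hres (IsLocalRing.residue B b)
    obtain ⟨a, rfl⟩ := IsLocalRing.residue_surjective r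
    have he : IsLocalRing.residue B (algebraMap A B a) = IsLocalRing.residue B b := by
      rw [← hr, IsLocalRing.ResidueField.map_residue]
    have hdiff : b - algebraMap A B a ∈ IsLocalRing.maximalIdeal B := by
      rw [← IsLocalRing.residue_eq_zero_iff, map_sub, he, sub_self]
    have hdiff' : b - algebraMap A B a ∈ (IsLocalRing.maximalIdeal A) • (⊤ : Submodule A B) := by
      rw [Ideal.smul_top_eq_map]
      exact h1 hdiff
    have hb : b = a • (1 : B) + (b - algebraMap A B a) := by
      rw [Algebra.smul_def, mul_one]; ring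
    rw [hb]
    exact Submodule.add_mem_sup (Submodule.smul_mem _ a (Submodule.mem_span_singleton_self 1)) hdiff'
  have h3 : (⊤ : Submodule A B) ≤ Submodule.span A {(1 : B)} :=
    Submodule.le_of_le_smul_of_le_jacobson_bot Module.Finite.fg_top hjacA h2
  intro b
  have hb : b ∈ Submodule.span A {(1 : B)} := h3 Submodule.mem_top
  obtain ⟨a, ha⟩ := Submodule.mem_span_singleton.mp hb
  exact ⟨a, by rw [← ha, Algebra.smul_def, mul_one]⟩

end Groth.Agent.S6296
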