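import Groth.Statements.S6298
import Mathlib.Order.Preorder.Finite
import Mathlib.Tactic.Ring
import Mathlib.RingTheory.Ideal.Operations
-- import your own Groth.Agent.* helpers here

set_option autoImplicit false
universe u
open CAlg

namespace Groth.Agent.S6298

theorem aux {R : Type u} [CommRing R] (x : R) (I : Ideal R) (S : Finset (Ideal R))
    (hS : ∀ P ∈ S, P.IsPrime) (h : ∀ P ∈ S, ∃ y ∈ I, x + y ∉ P) :
    ∃ y ∈ I, ∀ P ∈ S, x + y ∉ P := by
  classical
  induction S using Finset.strongInduction with
  | H S ih =>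
    rcases S.eq_empty_or_nonempty with hSe | hne
    · exact ⟨0, I.zero_mem, by simp [hSe]⟩
    obtain ⟨P, hPS, hPmin⟩ := S.exists_minimal hne
    have hPprime : P.IsPrime := hS P hPS
    obtain ⟨y, hyI, hy⟩ := ih (S.erase P) (Finset.erase_ssubset hPS)
      (fun Q hQ => hS Q (Finset.mem_of_mem_erase hQ))
      (fun Q hQ => h Q (Finset.mem_of_mem_erase hQ))
    by_cases hyP : x + y ∈ P
    · have hnle : ¬ (I ⊓ (S.erase P).inf id ≤ P) := by
        intro hle
        rcases hPprime.inf_le.mp hle with hIP | hinf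
        · obtain ⟨z, hzI, hzP⟩ := h P hPS
          apply hzP
          have h1 : y ∈ P := hIP hyI
          have h2 : z ∈ P := hIP hzI
          have : x + z = (x + y) - y + z := by ring
          rw [this]
          exact P.add_mem (P.sub_mem hyP h1) h2
        · obtain ⟨Q, hQ, hQP⟩ := hPprime.inf_le'.mp hinf
          have hQS : Q ∈ S := Finset.mem_of_mem_erase hQ
          have hQne : Q ≠ P := Finset.ne_of_mem_erase hQ
          exact hQne (le_antisymm hQP (hPmin hQS hQP))
      obtain ⟨f, hf, hfP⟩ := SetLike.not_le_iff_exists.mp hnle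
      have hfI : f ∈ I := (Submodule.mem_inf.mp hf).1
      have hfQ : ∀ Q ∈ S.erase P, f ∈ Q := fun Q hQ =>
        (Finset.inf_le (f := id) hQ) (Submodule.mem_inf.mp hf).2
      refine ⟨y + f, I.add_mem hyI hfI, ?_⟩
      intro Q hQ
      by_cases hQP : Q = P
      · subst hQP
        intro hmem
        apply hfP
        have : f = (x + (y + f)) - (x + y) := by ring
        rw [this]
        exact Q.sub_mem hmem hyP
      · have hQ' : Q ∈ S.erase P := Finset.mem_erase.mpr ⟨hQP, hQ⟩
        intro hmem
        apply hy Q hQ'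
        have : x + y = (x + (y + f)) - f := by ring
        rw [this]
        exact Q.sub_mem hmem (hfQ Q hQ')
    · refine ⟨y, hyI, ?_⟩
      intro Q hQ
      by_cases hQP : Q = P
      · rw [hQP]; exact hyP
      · exact hy Q (Finset.mem_erase.mpr ⟨hQP, hQ⟩)


/-- Let R be a ring, x ∈ R, I ⊆ R an ideal and p₁, …, p_r prime ideals such that for each i the coset x
+ I is not contained in p_i. Then there is y ∈ I with x + y ∉ p_i for all i. -/
theorem result {R : Type u} [CommRing R] (x : R) (I : Ideal R) {r : ℕ} (p : Fin r → Ideal R) [∀ i, (p i).IsPrime] (h : ∀ i, ∃ y ∈ I, x + y ∉ p i) : ∃ y ∈ I, ∀ i, x + y ∉ p i := by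
  classical
  obtain ⟨y, hyI, hy⟩ := aux x I (Finset.univ.image p)
    (fun P hP => by
      obtain ⟨i, -, rfl⟩ := Finset.mem_image.mp hP
      infer_instance)
    (fun P hP => by
      obtain ⟨i, -, rfl⟩ := Finset.mem_image.mp hP
      exact h i)
  exact ⟨y, hyI, fun i => hy (p i) (Finset.mem_image.mpr ⟨i, Finset.mem_univ _, rfl⟩)⟩

end Groth.Agent.S6298
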