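import Groth.Statements.S6303
import Mathlib.LinearAlgebra.TensorProduct.Prod
import Mathlib.LinearAlgebra.TensorProduct.Quotient
-- import your own Groth.Agent.* helpers here

set_option autoImplicit false
universe u
open CAlg

namespace Groth.Agent.S6303

open scoped TensorProduct

/-- Let R be a ring, I, J ⊆ R ideals and M a flat R-module. Then IM ∩ JM = (I ∩ J)M. -/
theorem result {R : Type u} [CommRing R] (I J : Ideal R) (M : Type u) [AddCommGroup M] [Module R M] [Module.Flat R M] : (I • (⊤ : Submodule R M)) ⊓ (J • ⊤) = (I ⊓ J) • (⊤ : Submodule R M) := by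
  apply le_antisymm
  · intro m hm
    obtain ⟨hmI, hmJ⟩ := hm
    let f : (R ⧸ (I ⊓ J)) →ₗ[R] (R ⧸ I) × (R ⧸ J) :=
      LinearMap.prod (Submodule.factor (inf_le_left : I ⊓ J ≤ I))
        (Submodule.factor (inf_le_right : I ⊓ J ≤ J))
    have hf : Function.Injective f := by
      rw [← LinearMap.ker_eq_bot, eq_bot_iff]
      intro x hx
      induction x using Submodule.Quotient.induction_on with
      | H r =>
        rw [LinearMap.mem_ker] at hx
        have hx1 := congrArg Prod.fst hx
        have hx2 := congrArg Prod.snd hx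
        change (Submodule.Quotient.mk r : R ⧸ I) = 0 at hx1
        change (Submodule.Quotient.mk r : R ⧸ J) = 0 at hx2
        rw [Submodule.Quotient.mk_eq_zero] at hx1 hx2
        rw [Submodule.mem_bot, Submodule.Quotient.mk_eq_zero]
        exact ⟨hx1, hx2⟩
    have hft : Function.Injective (f.rTensor M) :=
      Module.Flat.rTensor_preserves_injective_linearMap f hf
    let e := TensorProduct.prodLeft R R (R ⧸ I) (R ⧸ J) M
    let eI := TensorProduct.quotTensorEquivQuotSMul M I
    let eJ := TensorProduct.quotTensorEquivQuotSMul M J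
    let eK := TensorProduct.quotTensorEquivQuotSMul M (I ⊓ J)
    have h1 : f.rTensor M ((1 : R ⧸ (I ⊓ J)) ⊗ₜ m) = 0 := by
      apply e.injective
      rw [map_zero, LinearMap.rTensor_tmul]
      have hf1 : f 1 = ((1 : R ⧸ I), (1 : R ⧸ J)) := by
        simp only [f, LinearMap.prod_apply]
        rfl
      rw [hf1, TensorProduct.prodLeft_tmul, Prod.mk_eq_zero]
      constructor
      · apply eI.injective
        rw [map_zero, TensorProduct.quotTensorEquivQuotSMul_mk_one_tmul, Submodule.Quotient.mk_eq_zero]
        exact hmI
      · apply eJ.injective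
        rw [map_zero, TensorProduct.quotTensorEquivQuotSMul_mk_one_tmul, Submodule.Quotient.mk_eq_zero]
        exact hmJ
    have h2 : (1 : R ⧸ (I ⊓ J)) ⊗ₜ[R] m = 0 := hft (by rw [h1, map_zero])
    have h3 := congrArg eK h2
    rw [TensorProduct.quotTensorEquivQuotSMul_mk_one_tmul, map_zero,
      Submodule.Quotient.mk_eq_zero] at h3
    exact h3
  · exact le_inf (Submodule.smul_mono_left inf_le_left) (Submodule.smul_mono_left inf_le_right)

end Groth.Agent.S6303
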