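import Groth.Statements.S6304
import Mathlib.LinearAlgebra.TensorProduct.RightExactness
import Mathlib.LinearAlgebra.Finsupp.LinearCombination
-- import your own Groth.Agent.* helpers here

set_option autoImplicit false
universe u
open CAlg

namespace Groth.Agent.S6304

open scoped TensorProduct

/-- In a short exact sequence 0 → M' → M → M'' → 0 of R-modules whose right-hand term M'' is flat, the
middle term M is flat when M' is, and M' is flat when M is. -/
theorem result {R : Type u} [CommRing R] {M' M M'' : Type u} [AddCommGroup M'] [Module R M'] [AddCommGroup M] [Module R M] [AddCommGroup M''] [Module R M''] (f : M' →ₗ[R] M) (g : M →ₗ[R] M'') (hf : Function.Injective f) (hexact : Function.Exact f g) (hg : Function.Surjective g) [Module.Flat R M''] : (Module.Flat R M' → Module.Flat R M) ∧ (Module.Flat R M → Module.Flat R M') := by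
  have comm : ∀ {A B C D : Type u} [AddCommGroup A] [Module R A] [AddCommGroup B] [Module R B]
      [AddCommGroup C] [Module R C] [AddCommGroup D] [Module R D] (a : A →ₗ[R] B) (b : C →ₗ[R] D)
      (x : A ⊗[R] C), (a.rTensor D) ((b.lTensor A) x) = (b.lTensor B) ((a.rTensor C) x) := by
    intro A B C D _ _ _ _ _ _ _ _ a b x
    rw [← LinearMap.comp_apply, LinearMap.rTensor_comp_lTensor, ← LinearMap.lTensor_comp_rTensor,
      LinearMap.comp_apply]
  -- universal injectivity of f
  have huniv : ∀ (Q : Type u) [AddCommGroup Q] [Module R Q], Function.Injective (f.rTensor Q) := by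
    intro Q _ _
    obtain ⟨F, _, _, _, π, hπ⟩ : ∃ (F : Type u) (_ : AddCommGroup F) (_ : Module R F)
        (_ : Module.Flat R F) (π : F →ₗ[R] Q), Function.Surjective π :=
      ⟨Q →₀ R, inferInstance, inferInstance, inferInstance, Finsupp.linearCombination R id,
        Finsupp.linearCombination_id_surjective R Q⟩
    have hexi : Function.Exact (LinearMap.ker π).subtype π := LinearMap.exact_subtype_ker_map π
    have hi : Function.Injective (LinearMap.ker π).subtype := (LinearMap.ker π).injective_subtype
    have hfF : Function.Injective (f.rTensor F) :=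
      Module.Flat.rTensor_preserves_injective_linearMap f hf
    rw [injective_iff_map_eq_zero]
    intro w hw
    obtain ⟨w₁, rfl⟩ := LinearMap.lTensor_surjective M' hπ w
    have h1 : π.lTensor M (f.rTensor F w₁) = 0 := by rw [← comm f π w₁, hw]
    obtain ⟨v, hv⟩ := ((lTensor_exact M (LinearMap.exact_subtype_ker_map π) hπ) _).mp h1
    have h2 : g.rTensor (LinearMap.ker π) v = 0 := by
      apply Module.Flat.lTensor_preserves_injective_linearMap (LinearMap.ker π).subtype hi
      rw [map_zero, ← comm g (LinearMap.ker π).subtype v, hv]
      exact (rTensor_exact F hexact hg).apply_apply_eq_zero w₁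
    obtain ⟨u, hu⟩ := ((rTensor_exact (LinearMap.ker π) hexact hg) v).mp h2
    have h3 : (LinearMap.ker π).subtype.lTensor M' u = w₁ := by
      apply hfF
      rw [comm f (LinearMap.ker π).subtype u, hu, hv]
    rw [← h3]
    exact (lTensor_exact M' (LinearMap.exact_subtype_ker_map π) hπ).apply_apply_eq_zero u
  constructor
  · intro hM'
    rw [Module.Flat.iff_lTensor_preserves_injective_linearMap]
    intro K F _ _ _ _ i hi
    rw [injective_iff_map_eq_zero]
    intro v hv
    have h1 : g.rTensor K v = 0 := by
      apply Module.Flat.lTensor_preserves_injective_linearMap i hi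
      rw [map_zero, ← comm g i v, hv, map_zero]
    obtain ⟨u, rfl⟩ := ((rTensor_exact K hexact hg) v).mp h1
    have h2 : i.lTensor M' u = 0 := by
      apply huniv F
      rw [map_zero, comm f i u, hv]
    have h3 : u = 0 := Module.Flat.lTensor_preserves_injective_linearMap i hi (by rw [h2, map_zero])
    rw [h3, map_zero]
  · intro hM
    rw [Module.Flat.iff_lTensor_preserves_injective_linearMap]
    intro N P _ _ _ _ i hi
    have h2 : Function.Injective ((i.lTensor M) ∘ (f.rTensor N)) :=
      (Module.Flat.lTensor_preserves_injective_linearMap i hi).comp (huniv N)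
    have e : (i.lTensor M) ∘ (f.rTensor N) = (f.rTensor P) ∘ (i.lTensor M') := by
      funext x
      exact (comm f i x).symm
    rw [e] at h2
    exact h2.of_comp

end Groth.Agent.S6304
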