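import Groth.Statements.S6305
import Groth.Agent.S6269
import Mathlib.LinearAlgebra.TensorProduct.RightExactness
import Mathlib.LinearAlgebra.Finsupp.LinearCombination
-- import your own Groth.Agent.* helpers here

set_option autoImplicit false
universe u
open CAlg

namespace Groth.Agent.S6305

open scoped TensorProduct

/-- An R-module M is flat exactly when every short exact sequence 0 → M₁ → M₂ → M → 0 of R-modules is
universally exact, i.e. its first map M₁ → M₂ is universally injective. -/
theorem result {R : Type u} [CommRing R] (M : Type u) [AddCommGroup M] [Module R M] : Module.Flat R M ↔ ∀ (M₁ M₂ : Type u) [AddCommGroup M₁] [Module R M₁] [AddCommGroup M₂] [Module R M₂] (f : M₁ →ₗ[R] M₂) (g : M₂ →ₗ[R] M), Function.Injective f → Function.Exact f g → Function.Surjective g → CAlgX.UniversallyInjective R f := by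
  have comm : ∀ {A B C D : Type u} [AddCommGroup A] [Module R A] [AddCommGroup B] [Module R B]
      [AddCommGroup C] [Module R C] [AddCommGroup D] [Module R D] (a : A →ₗ[R] B) (b : C →ₗ[R] D)
      (x : A ⊗[R] C), (a.rTensor D) ((b.lTensor A) x) = (b.lTensor B) ((a.rTensor C) x) := by
    intro A B C D _ _ _ _ _ _ _ _ a b x
    rw [← LinearMap.comp_apply, LinearMap.rTensor_comp_lTensor, ← LinearMap.lTensor_comp_rTensor,
      LinearMap.comp_apply]
  constructor
  · intro hM M' M₂ _ _ _ _ f g hf hexact hg
    intro Q _ _
    obtain ⟨F, _, _, _, π, hπ⟩ : ∃ (F : Type u) (_ : AddCommGroup F) (_ : Module R F)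
        (_ : Module.Flat R F) (π : F →ₗ[R] Q), Function.Surjective π :=
      ⟨Q →₀ R, inferInstance, inferInstance, inferInstance, Finsupp.linearCombination R id,
        Finsupp.linearCombination_id_surjective R Q⟩
    have hi : Function.Injective (LinearMap.ker π).subtype := (LinearMap.ker π).injective_subtype
    have hfF : Function.Injective (f.rTensor F) :=
      Module.Flat.rTensor_preserves_injective_linearMap f hf
    rw [injective_iff_map_eq_zero]
    intro w hw
    obtain ⟨w₁, rfl⟩ := LinearMap.lTensor_surjective M' hπ w
    have h1 : π.lTensor M₂ (f.rTensor F w₁) = 0 := by rw [← comm f π w₁, hw]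
    obtain ⟨v, hv⟩ := ((lTensor_exact M₂ (LinearMap.exact_subtype_ker_map π) hπ) _).mp h1
    have h2 : g.rTensor (LinearMap.ker π) v = 0 := by
      apply Module.Flat.lTensor_preserves_injective_linearMap (LinearMap.ker π).subtype hi
      rw [map_zero, ← comm g (LinearMap.ker π).subtype v, hv]
      exact (rTensor_exact F hexact hg).apply_apply_eq_zero w₁
    obtain ⟨u, hu⟩ := ((rTensor_exact (LinearMap.ker π) hexact hg) v).mp h2
    have h3 : (LinearMap.ker π).subtype.lTensor M' u = w₁ := by
      apply hfF
      rw [comm f (LinearMap.ker π).subtype u, hu, hv]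
    rw [← h3]
    exact (lTensor_exact M' (LinearMap.exact_subtype_ker_map π) hπ).apply_apply_eq_zero u
  · intro h
    obtain ⟨F, _, _, _, π, hπ⟩ : ∃ (F : Type u) (_ : AddCommGroup F) (_ : Module R F)
        (_ : Module.Flat R F) (π : F →ₗ[R] M), Function.Surjective π :=
      ⟨M →₀ R, inferInstance, inferInstance, inferInstance, Finsupp.linearCombination R id,
        Finsupp.linearCombination_id_surjective R M⟩
    have hu := h (LinearMap.ker π) F (LinearMap.ker π).subtype π (LinearMap.ker π).injective_subtype
      (LinearMap.exact_subtype_ker_map π) hπ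
    exact (Groth.Agent.S6269.result (LinearMap.ker π).subtype π
      (LinearMap.exact_subtype_ker_map π) hπ hu).2

end Groth.Agent.S6305
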