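import Groth.Statements.S6306
import Mathlib.RingTheory.Ideal.Maximal
-- import your own Groth.Agent.* helpers here

set_option autoImplicit false
universe u
open CAlg

namespace Groth.Agent.S6306

/-- Let R be a nonzero ring such that every nonzero prime ideal of R contains a non-zerodivisor. Then R
is a domain. -/
theorem result (R : Type u) [CommRing R] [Nontrivial R] (h : ∀ p : Ideal R, p.IsPrime → p ≠ ⊥ → ∃ x ∈ p, x ∈ nonZeroDivisors R) : IsDomain R := by
  have : NoZeroDivisors R := by
    constructor
    intro a b hab
    by_contra hne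
    push Not at hne
    obtain ⟨ha, hb⟩ := hne
    have hdisj : Disjoint ((Ideal.span {a} : Ideal R) : Set R) (nonZeroDivisors R) := by
      rw [Set.disjoint_left]
      intro x hx hxn
      obtain ⟨r, rfl⟩ := Ideal.mem_span_singleton'.mp hx
      have h1 : r * a * b = 0 := by
        rw [mul_assoc, hab, mul_zero]
      exact hb ((mem_nonZeroDivisors_iff.mp hxn).1 b h1)
    obtain ⟨p, hp, hle, hpd⟩ := Ideal.exists_le_prime_disjoint (Ideal.span {a}) (nonZeroDivisors R) hdisj
    have hp0 : p ≠ ⊥ := by
      intro h0
      apply ha
      have : a ∈ p := hle (Ideal.subset_span rfl)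
      rw [h0] at this
      exact (Submodule.mem_bot R).mp this
    obtain ⟨x, hxp, hxn⟩ := h p hp hp0
    exact Set.disjoint_left.mp hpd hxp hxn
  exact NoZeroDivisors.to_isDomain R

end Groth.Agent.S6306
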