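import Groth.Statements.S6307
-- import your own Groth.Agent.* helpers here

set_option autoImplicit false
universe u
open CAlg

namespace Groth.Agent.S6307

/-- Let R be a ring, J ⊆ R a principal ideal and I ⊆ J an ideal. Then I = J · (I : J). -/
theorem result {R : Type u} [CommRing R] (I J : Ideal R) (hJ : J.IsPrincipal) (hIJ : I ≤ J) : I = J * I.colon J := by
  obtain ⟨a, ha⟩ := hJ
  have hJ' : J = Ideal.span {a} := ha
  apply le_antisymm
  · intro x hx
    have hxJ := hIJ hx
    rw [hJ', Ideal.mem_span_singleton'] at hxJ
    obtain ⟨y, rfl⟩ := hxJ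
    have hy : y ∈ I.colon J := by
      rw [Submodule.mem_colon]
      intro s hs
      rw [SetLike.mem_coe, hJ', Ideal.mem_span_singleton'] at hs
      obtain ⟨c, rfl⟩ := hs
      have : y • (c * a) = c * (y * a) := by rw [smul_eq_mul]; ring
      rw [this]
      exact I.mul_mem_left c hx
    have haJ : a ∈ J := by rw [hJ']; exact Ideal.mem_span_singleton_self a
    rw [mul_comm y a]
    exact Ideal.mul_mem_mul haJ hy
  · rw [Ideal.mul_le]
    intro x hx y hy
    rw [Submodule.mem_colon] at hy
    have := hy x hx
    rw [smul_eq_mul] at this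
    rw [mul_comm]; exact this

end Groth.Agent.S6307
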