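import Groth.Statements.S6312
import Mathlib.Algebra.Module.LocalizedModule.Submodule
import Mathlib.RingTheory.Length
-- import your own Groth.Agent.* helpers here

set_option autoImplicit false
universe u
open CAlg

namespace Groth.Agent.S6312

/-- Let R be a ring, M an R-module and S ⊆ R a multiplicative subset. Then length_{S⁻¹R}(S⁻¹M) ≤
length_R(M). -/
theorem result {R : Type u} [CommRing R] (S : Submonoid R) (M : Type u) [AddCommGroup M] [Module R M] : Module.length (Localization S) (LocalizedModule S M) ≤ Module.length R M := by
  let gi := Submodule.localized'gi (Localization S) S (LocalizedModule.mkLinearMap S M)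
  have hmono : StrictMono (fun N : Submodule (Localization S) (LocalizedModule S M) =>
      Submodule.comap (LocalizedModule.mkLinearMap S M) (N.restrictScalars R)) :=
    gi.gc.monotone_u.strictMono_of_injective gi.u_injective
  rw [← WithBot.coe_le_coe, Module.coe_length, Module.coe_length]
  exact Order.krullDim_le_of_strictMono _ hmono

end Groth.Agent.S6312
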