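import Groth.Statements.S6338
-- import your own Groth.Agent.* helpers here

set_option autoImplicit false
universe u
open CAlg

namespace Groth.Agent.S6338

/-- Let M₁ → M₂ be a universally injective map of modules over a commutative ring (equivalently the
first map of a universally exact short exact sequence). If M₂ is Mittag-Leffler then so is M₁. -/
theorem result (R : Type u) [CommRing R] {M₁ M₂ : Type u}
    [AddCommGroup M₁] [Module R M₁] [AddCommGroup M₂] [Module R M₂] (f : M₁ →ₗ[R] M₂)
    (hf : CAlgX.UniversallyInjective R f) (h₂ : CAlg.IsMittagLeffler R M₂) :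
    CAlg.IsMittagLeffler R M₁ := by
  intro ι Q _ _
  have hinj : Function.Injective
      ((TensorProduct.piRightHom R R M₂ Q) ∘ (f.rTensor (∀ i, Q i))) :=
    (h₂ ι Q).comp (hf (∀ i, Q i))
  have hcomm : (TensorProduct.piRightHom R R M₂ Q) ∘ (f.rTensor (∀ i, Q i)) =
      (fun g i => (f.rTensor (Q i)) (g i)) ∘ (TensorProduct.piRightHom R R M₁ Q) := by
    funext x
    induction x using TensorProduct.induction_on with
    | zero => funext i; simp
    | tmul m q => funext i; simp [TensorProduct.piRightHom_tmul]
    | add x y hx hy =>
      funext i
      have hx' := congrFun hx i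
      have hy' := congrFun hy i
      simp only [Function.comp_apply, map_add, Pi.add_apply] at hx' hy' ⊢
      rw [hx', hy']
  rw [hcomm] at hinj
  exact hinj.of_comp

end Groth.Agent.S6338
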