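import Groth.Statements.S6339
import Mathlib.LinearAlgebra.TensorProduct.RightExactness
-- import your own Groth.Agent.* helpers here

set_option autoImplicit false
universe u
open CAlg

namespace Groth.Agent.S6339

open scoped TensorProduct

/-- Let 0 → M₁ → M₂ → M₃ → 0 be a universally exact short exact sequence of modules over a commutative
ring (the first map is universally injective, the second is surjective with kernel the image of the
first). If M₁ and M₃ are Mittag-Leffler then so is M₂. -/
theorem result (R : Type u) [CommRing R] {M₁ M₂ M₃ : Type u}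
    [AddCommGroup M₁] [Module R M₁] [AddCommGroup M₂] [Module R M₂] [AddCommGroup M₃] [Module R M₃]
    (f : M₁ →ₗ[R] M₂) (g : M₂ →ₗ[R] M₃) (hf : CAlgX.UniversallyInjective R f)
    (hg : Function.Surjective g) (hfg : LinearMap.range f = LinearMap.ker g)
    (h₁ : CAlg.IsMittagLeffler R M₁) (h₃ : CAlg.IsMittagLeffler R M₃) :
    CAlg.IsMittagLeffler R M₂ := by
  intro ι Q _ _
  have nat : ∀ {N₁ N₂ : Type u} [AddCommGroup N₁] [Module R N₁] [AddCommGroup N₂] [Module R N₂]
      (h : N₁ →ₗ[R] N₂) (x : N₁ ⊗[R] (∀ i, Q i)),
      TensorProduct.piRightHom R R N₂ Q (h.rTensor (∀ i, Q i) x) =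
        fun i => (h.rTensor (Q i)) (TensorProduct.piRightHom R R N₁ Q x i) := by
    intro N₁ N₂ _ _ _ _ h x
    induction x using TensorProduct.induction_on with
    | zero => funext i; simp
    | tmul m q => funext i; simp [TensorProduct.piRightHom_tmul]
    | add x y hx hy =>
      funext i
      have hx' := congrFun hx i
      have hy' := congrFun hy i
      simp only [map_add, Pi.add_apply] at hx' hy' ⊢
      rw [hx', hy']
  have hex : Function.Exact f g := LinearMap.exact_iff.mpr hfg.symm
  have hexT : Function.Exact (f.rTensor (∀ i, Q i)) (g.rTensor (∀ i, Q i)) :=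
    rTensor_exact (∀ i, Q i) hex hg
  rw [injective_iff_map_eq_zero]
  intro x hx
  have h3 : g.rTensor (∀ i, Q i) x = 0 := by
    apply (injective_iff_map_eq_zero _).mp (h₃ ι Q)
    rw [nat g x, hx]
    funext i
    simp
  obtain ⟨y, rfl⟩ := (hexT x).mp h3
  have h1 : TensorProduct.piRightHom R R M₁ Q y = 0 := by
    funext i
    have := congrFun (nat f y) i
    rw [hx] at this
    apply (injective_iff_map_eq_zero _).mp (hf (Q i))
    rw [← this]
    rfl
  have : y = 0 := (injective_iff_map_eq_zero _).mp (h₁ ι Q) y h1
  rw [this, map_zero]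

end Groth.Agent.S6339
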