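import Groth.Statements.S6342
-- import your own Groth.Agent.* helpers here

set_option autoImplicit false
universe u
open CAlg

namespace Groth.Agent.S6342

open scoped TensorProduct

/-- Let R → S be a ring map such that S is Mittag-Leffler as an R-module, and let M be an S-module which
is flat and Mittag-Leffler over S. Then M is Mittag-Leffler as an R-module. -/
theorem result (R S : Type u) [CommRing R] [CommRing S] [Algebra R S]
    (M : Type u) [AddCommGroup M] [Module S M] [Module R M] [IsScalarTower R S M]
    (hS : CAlg.IsMittagLeffler R S) [Module.Flat S M] (hM : CAlg.IsMittagLeffler S M) :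
    CAlg.IsMittagLeffler R M := by
  intro ι Q _ _
  let p : S ⊗[R] (∀ i, Q i) →ₗ[S] ∀ i, S ⊗[R] Q i := TensorProduct.piRightHom R S S Q
  have hp : Function.Injective p := hS ι Q
  have hβ : Function.Injective (p.lTensor M) :=
    Module.Flat.lTensor_preserves_injective_linearMap p hp
  have hγ := hM ι (fun i => S ⊗[R] Q i)
  let α := TensorProduct.AlgebraTensorModule.cancelBaseChange R S S M (∀ i, Q i)
  let δ : ∀ i, M ⊗[S] (S ⊗[R] Q i) ≃ₗ[S] M ⊗[R] Q i := fun i =>
    TensorProduct.AlgebraTensorModule.cancelBaseChange R S S M (Q i)
  have key : ∀ x : M ⊗[S] (S ⊗[R] ∀ i, Q i), TensorProduct.piRightHom R R M Q (α x) =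
      fun i => δ i (TensorProduct.piRightHom S S M (fun i => S ⊗[R] Q i) (p.lTensor M x) i) := by
    intro x
    induction x using TensorProduct.induction_on with
    | zero => funext i; simp
    | tmul m a =>
      induction a using TensorProduct.induction_on with
      | zero => funext i; simp
      | tmul s f =>
        funext i
        simp [α, δ, p, TensorProduct.AlgebraTensorModule.cancelBaseChange_tmul]
      | add a b ha hb =>
        funext i
        have ha' := congrFun ha i
        have hb' := congrFun hb i
        simp only [TensorProduct.tmul_add, map_add, Pi.add_apply] at ha' hb' ⊢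
        rw [ha', hb']
    | add x y hx hy =>
      funext i
      have hx' := congrFun hx i
      have hy' := congrFun hy i
      simp only [map_add, Pi.add_apply] at hx' hy' ⊢
      rw [hx', hy']
  intro x y hxy
  obtain ⟨x', rfl⟩ := α.surjective x
  obtain ⟨y', rfl⟩ := α.surjective y
  rw [key, key] at hxy
  have h2 : TensorProduct.piRightHom S S M (fun i => S ⊗[R] Q i) (p.lTensor M x') =
      TensorProduct.piRightHom S S M (fun i => S ⊗[R] Q i) (p.lTensor M y') := by
    funext i
    exact (δ i).injective (congrFun hxy i)
  rw [hβ (hγ h2)]

end Groth.Agent.S6342
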