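import Groth.Statements.S6348
-- import your own Groth.Agent.* helpers here

set_option autoImplicit false
universe u
open scoped TensorProduct
open CAlg

namespace Groth.Agent.S6348

open scoped TensorProduct

/-- For a ring map R → S and a Mittag-Leffler R-module M, the S-module S ⊗_R M is Mittag-Leffler. (The
companion parts on flat modules, projective modules and direct sums of countably generated modules
are standard base-change facts.) -/
theorem result (R S : Type u) [CommRing R] [CommRing S] [Algebra R S] (M : Type u)
    [AddCommGroup M] [Module R M] (hM : CAlg.IsMittagLeffler R M) :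
    CAlg.IsMittagLeffler S (S ⊗[R] M) := by
  intro ι Q _ _
  letI : ∀ i, Module R (Q i) := fun i => Module.compHom (Q i) (algebraMap R S)
  haveI : ∀ i, IsScalarTower R S (Q i) := fun i =>
    IsScalarTower.of_algebraMap_smul (fun r x => rfl)
  have hR := hM ι Q
  let e : (S ⊗[R] M) ⊗[S] (∀ i, Q i) ≃ₗ[R] M ⊗[R] (∀ i, Q i) :=
    ((TensorProduct.comm S (S ⊗[R] M) (∀ i, Q i)).restrictScalars R).trans
      (((TensorProduct.AlgebraTensorModule.cancelBaseChange R S S (∀ i, Q i) M).restrictScalars R).trans
        (TensorProduct.comm R (∀ i, Q i) M))
  let ei : ∀ i, (S ⊗[R] M) ⊗[S] Q i ≃ₗ[R] M ⊗[R] Q i := fun i =>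
    ((TensorProduct.comm S (S ⊗[R] M) (Q i)).restrictScalars R).trans
      (((TensorProduct.AlgebraTensorModule.cancelBaseChange R S S (Q i) M).restrictScalars R).trans
        (TensorProduct.comm R (Q i) M))
  have key : ∀ x, TensorProduct.piRightHom R R M Q (e x) =
      fun i => ei i (TensorProduct.piRightHom S S (S ⊗[R] M) Q x i) := by
    intro x
    induction x using TensorProduct.induction_on with
    | zero => funext i; simp
    | tmul a f =>
      induction a using TensorProduct.induction_on with
      | zero => funext i; simp
      | tmul s m =>
        funext i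
        simp [e, ei, TensorProduct.AlgebraTensorModule.cancelBaseChange_tmul]
      | add a b ha hb =>
        funext i
        have ha' := congrFun ha i
        have hb' := congrFun hb i
        simp only [TensorProduct.add_tmul, map_add, Pi.add_apply] at ha' hb' ⊢
        rw [ha', hb']
    | add x y hx hy =>
      funext i
      have hx' := congrFun hx i
      have hy' := congrFun hy i
      simp only [map_add, Pi.add_apply] at hx' hy' ⊢
      rw [hx', hy']
  intro x y hxy
  apply e.injective
  apply hR
  rw [key, key, hxy]

end Groth.Agent.S6348
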