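import Groth.Statements.S6350
import Mathlib.RingTheory.LocalRing.Module
-- import your own Groth.Agent.* helpers here

set_option autoImplicit false
universe u
open scoped TensorProduct
open CAlg

namespace Groth.Agent.S6350

/-- Let (R, m) be a local ring with nilpotent maximal ideal and M a flat R-module. A family of elements
of M is a basis of M over R if and only if its image is a basis of the R/m-vector space M/mM = R/m ⊗
M. -/
theorem result (R : Type u) [CommRing R] [IsLocalRing R]
    (hnil : IsNilpotent (IsLocalRing.maximalIdeal R)) (M : Type u) [AddCommGroup M] [Module R M] [Module.Flat R M]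
    {A : Type u} (x : A → M) :
    (LinearIndependent R x ∧ Submodule.span R (Set.range x) = ⊤) ↔
      (LinearIndependent (R ⧸ IsLocalRing.maximalIdeal R)
          (fun a => (1 : R ⧸ IsLocalRing.maximalIdeal R) ⊗ₜ[R] x a) ∧
        Submodule.span (R ⧸ IsLocalRing.maximalIdeal R)
          (Set.range fun a => (1 : R ⧸ IsLocalRing.maximalIdeal R) ⊗ₜ[R] x a) = ⊤) := by
  constructor
  · rintro ⟨hli, hsp⟩
    let b : Module.Basis A R M := Module.Basis.mk hli (by rw [hsp])
    let b' := b.baseChange (R ⧸ IsLocalRing.maximalIdeal R)
    have hb' : ∀ a, b' a = (1 : R ⧸ IsLocalRing.maximalIdeal R) ⊗ₜ[R] x a := by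
      intro a; simp [b', b, Module.Basis.baseChange_apply, Module.Basis.mk_apply]
    have e : (fun a => (1 : R ⧸ IsLocalRing.maximalIdeal R) ⊗ₜ[R] x a) = b' := by
      funext a; exact (hb' a).symm
    rw [e]
    exact ⟨b'.linearIndependent, b'.span_eq⟩
  · rintro ⟨hli, hsp⟩
    have hli' : LinearIndependent R x :=
      Module.IsLocalRing.linearIndependent_of_flat x hli
    refine ⟨hli', ?_⟩
    set m := IsLocalRing.maximalIdeal R
    set N := Submodule.span R (Set.range x)
    have hmap : N.map (TensorProduct.mk R (R ⧸ m) M 1) = ⊤ := by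
      rw [Submodule.map_span, ← Set.range_comp]
      have := congrArg (Submodule.restrictScalars R) hsp
      rw [Submodule.restrictScalars_span R (R ⧸ m) Ideal.Quotient.mk_surjective] at this
      rw [Submodule.restrictScalars_top] at this
      convert this using 2
      rfl
    have hsup : N ⊔ m • (⊤ : Submodule R M) = ⊤ := by
      rw [← LinearMap.ker_tensorProductMk (Q := M) (I := m), ← Submodule.comap_map_eq, hmap,
        Submodule.comap_top]
    obtain ⟨n, hn⟩ := hnil
    have key : ∀ k : ℕ, (⊤ : Submodule R M) ≤ N ⊔ (m ^ k) • (⊤ : Submodule R M) := by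
      intro k
      induction k with
      | zero => simp
      | succ k ih =>
        calc (⊤ : Submodule R M) ≤ N ⊔ (m ^ k) • (⊤ : Submodule R M) := ih
          _ ≤ N ⊔ (m ^ k) • (N ⊔ m • (⊤ : Submodule R M)) := by rw [hsup]
          _ ≤ N ⊔ (m ^ (k+1)) • (⊤ : Submodule R M) := by
            rw [Submodule.smul_sup, ← sup_assoc, pow_succ, Submodule.mul_smul]
            apply sup_le_sup_right
            exact sup_le le_rfl Submodule.smul_le_right
    have := key n
    rw [hn, Submodule.zero_eq_bot, Submodule.bot_smul, sup_bot_eq] at this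
    exact top_le_iff.mp this

end Groth.Agent.S6350
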