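import Groth.Statements.S6354
import Mathlib.RingTheory.Ideal.IdempotentFG
-- import your own Groth.Agent.* helpers here

set_option autoImplicit false
universe u
open CAlg

namespace Groth.Agent.S6354

open PrimeSpectrum

/-- idempotent generator gives projective quotient -/
theorem proj_quot_span_idem {R : Type u} [CommRing R] (e : R) (he : IsIdempotentElem e) :
    Module.Projective R (R ⧸ Ideal.span {e}) := by
  let I : Ideal R := Ideal.span {e}
  have hce : (1 - e) * e = 0 := by rw [sub_mul, one_mul, he.eq, sub_self]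
  let i : (R ⧸ I) →ₗ[R] R := Submodule.liftQ I (LinearMap.mulLeft R (1 - e)) (by
    intro x hx
    rw [Ideal.mem_span_singleton'] at hx
    obtain ⟨a, rfl⟩ := hx
    simp only [LinearMap.mem_ker, LinearMap.mulLeft_apply]
    calc (1 - e) * (a * e) = a * ((1 - e) * e) := by ring
      _ = 0 := by rw [hce, mul_zero])
  refine Module.Projective.of_split i (Submodule.mkQ I) ?_
  apply LinearMap.ext
  intro x
  induction x using Submodule.Quotient.induction_on with
  | H x =>
    simp only [LinearMap.comp_apply, i, Submodule.liftQ_apply, LinearMap.mulLeft_apply,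
      Submodule.mkQ_apply, LinearMap.id_apply]
    rw [Submodule.Quotient.eq]
    have : (1 - e) * x - x = -(x * e) := by ring
    rw [this]
    exact Submodule.neg_mem _ (Ideal.mul_mem_left _ x (Ideal.mem_span_singleton_self e))

/-- projective quotient gives idempotent generator -/
theorem idem_of_proj {R : Type u} [CommRing R] (I : Ideal R) [Module.Projective R (R ⧸ I)] :
    ∃ e : R, IsIdempotentElem e ∧ I = Ideal.span {e} := by
  obtain ⟨s, hs⟩ := Module.projective_lifting_property (Submodule.mkQ I) (LinearMap.id)
    (Submodule.mkQ_surjective I)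
  have hs' : ∀ y, Submodule.mkQ I (s y) = y := fun y => by
    have := congrArg (fun f => f y) hs
    simpa using this
  let e : R := 1 - s (Submodule.mkQ I 1)
  have heI : e ∈ I := by
    rw [← Submodule.Quotient.mk_eq_zero (p := I)]
    have : (Submodule.Quotient.mk e : R ⧸ I) = Submodule.mkQ I 1 - Submodule.mkQ I (s (Submodule.mkQ I 1)) := by
      simp [e]
    rw [this, hs', sub_self]
  have hmul : ∀ x ∈ I, x = x * e := by
    intro x hx
    have h1 : x * s (Submodule.mkQ I 1) = 0 := by
      rw [← smul_eq_mul, ← map_smul, ← map_smul, smul_eq_mul, mul_one]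
      rw [Submodule.mkQ_apply, (Submodule.Quotient.mk_eq_zero (p := I)).mpr hx, map_zero]
    calc x = x * (e + s (Submodule.mkQ I 1)) := by simp [e]
      _ = x * e + x * s (Submodule.mkQ I 1) := mul_add _ _ _
      _ = x * e := by rw [h1, add_zero]
  refine ⟨e, (hmul e heI).symm, ?_⟩
  apply le_antisymm
  · intro x hx
    rw [Ideal.mem_span_singleton']
    exact ⟨x, (hmul x hx).symm⟩
  · rw [Ideal.span_le, Set.singleton_subset_iff]
    exact heI

/-- primes contain exactly one of e, 1 - e -/
theorem mem_iff_not_mem_one_sub {R : Type u} [CommRing R] (e : R) (he : IsIdempotentElem e)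
    (p : PrimeSpectrum R) : e ∈ p.asIdeal ↔ 1 - e ∉ p.asIdeal := by
  constructor
  · intro h h'
    apply p.isPrime.ne_top
    rw [Ideal.eq_top_iff_one]
    have : (1 : R) = e + (1 - e) := by ring
    rw [this]
    exact Ideal.add_mem _ h h'
  · intro h
    have h0 : e * (1 - e) ∈ p.asIdeal := by
      rw [mul_sub, mul_one, he.eq, sub_self]; exact Ideal.zero_mem _
    rcases p.isPrime.mem_or_mem h0 with h1 | h1
    · exact h1
    · exact absurd h1 h

open PrimeSpectrum in
/-- For an ideal I of a commutative ring R these four conditions are equivalent: (1) I is finitely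
generated and pure; (2) I = (e) for some idempotent e; (3) I is pure with V(I) open in Spec R; (4)
R/I is projective as an R-module. -/
theorem result (R : Type u) [CommRing R] (I : Ideal R) :
    List.TFAE [I.Pure ∧ I.FG, ∃ e : R, IsIdempotentElem e ∧ I = Ideal.span {e},
      I.Pure ∧ IsOpen (zeroLocus (I : Set R)), Module.Projective R (R ⧸ I)] := by
  tfae_have 1 → 2 := by
    rintro ⟨hp, hfg⟩
    obtain ⟨e, he, hIe⟩ := (Ideal.isIdempotentElem_iff_of_fg I hfg).mp (Ideal.isIdempotentElem_of_pure I)
    exact ⟨e, he, hIe⟩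
  tfae_have 2 → 4 := by
    rintro ⟨e, he, rfl⟩
    exact proj_quot_span_idem e he
  tfae_have 4 → 1 := by
    intro hP
    refine ⟨inferInstance, ?_⟩
    obtain ⟨e, he, hIe⟩ := idem_of_proj I
    rw [hIe]
    exact ⟨{e}, by simp⟩
  tfae_have 2 → 3 := by
    rintro ⟨e, he, rfl⟩
    haveI := proj_quot_span_idem e he
    refine ⟨inferInstance, ?_⟩
    have : zeroLocus ((Ideal.span {e} : Ideal R) : Set R) = (basicOpen (1 - e) : Set (PrimeSpectrum R)) := by
      rw [zeroLocus_span]
      ext p
      simp only [mem_zeroLocus, Set.singleton_subset_iff, SetLike.mem_coe, mem_basicOpen]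
      exact mem_iff_not_mem_one_sub e he p
    rw [this]
    exact (basicOpen (1 - e)).isOpen
  tfae_have 3 → 2 := by
    rintro ⟨hp, ho⟩
    have hclo : IsClopen (zeroLocus (I : Set R)) := ⟨isClosed_zeroLocus _, ho⟩
    obtain ⟨e', ⟨he', heq⟩, -⟩ := existsUnique_idempotent_basicOpen_eq_of_isClopen hclo
    refine ⟨1 - e', he'.one_sub, ?_⟩
    haveI := proj_quot_span_idem (1 - e') he'.one_sub
    haveI : (Ideal.span {1 - e'}).Pure := inferInstance
    rw [← Ideal.zeroLocus_inj_of_pure, heq, zeroLocus_span]
    ext p
    simp only [mem_zeroLocus, Set.singleton_subset_iff, SetLike.mem_coe, mem_basicOpen]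
    rw [mem_iff_not_mem_one_sub (1 - e') he'.one_sub p, sub_sub_cancel]
  tfae_finish

end Groth.Agent.S6354
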