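import Groth.Statements.S6364
import Mathlib.LinearAlgebra.Matrix.Charpoly.Minpoly
import Mathlib.LinearAlgebra.Charpoly.ToMatrix
import Mathlib.LinearAlgebra.Matrix.Block
import Mathlib.RingTheory.Trace.Defs
-- import your own Groth.Agent.* helpers here

set_option autoImplicit false
universe u
open Fields

namespace Groth.Agent.S6364

/-- characteristic polynomial of a block diagonal matrix -/
theorem charpoly_blockDiagonal' {R : Type*} [CommRing R] {n o : Type*} [Fintype n] [DecidableEq n]
    [Fintype o] [DecidableEq o] (M : o → Matrix n n R) :
    (Matrix.blockDiagonal M).charpoly = ∏ k, (M k).charpoly := by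
  unfold Matrix.charpoly
  rw [← Matrix.det_blockDiagonal]
  congr 1
  ext ⟨i, k⟩ ⟨j, k'⟩
  simp only [Matrix.charmatrix_apply, Matrix.blockDiagonal_apply, Matrix.diagonal_apply]
  by_cases hk : k = k'
  · subst hk; by_cases hij : i = j
    · subst hij; simp
    · simp [hij]
  · simp [hk]

open IntermediateField in
/-- Let L/K be a finite extension and a ∈ L with minimal polynomial P over K. Then P ^ e, with e = [L :
K(a)], is the characteristic polynomial of multiplication by a (the K-linear map x ↦ a x on L), and
e · deg P = [L : K]. -/
theorem result {K L : Type u} [Field K] [Field L] [Algebra K L] [FiniteDimensional K L]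
    (a : L) :
    (Algebra.lmul K L a).charpoly = minpoly K a ^ Module.finrank K⟮a⟯ L ∧
      Module.finrank K⟮a⟯ L * (minpoly K a).natDegree = Module.finrank K L := by
  classical
  have hint : IsIntegral K a := .of_finite K a
  let pb := IntermediateField.adjoin.powerBasis hint
  let c := Module.finBasis K⟮a⟯ L
  constructor
  · rw [← LinearMap.charpoly_toMatrix (Algebra.lmul K L a) (pb.basis.smulTower c)]
    have h1 : (LinearMap.toMatrix (pb.basis.smulTower c) (pb.basis.smulTower c)) (Algebra.lmul K L a)
        = Algebra.leftMulMatrix (pb.basis.smulTower c) (algebraMap K⟮a⟯ L pb.gen) := by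
      rw [Algebra.leftMulMatrix_apply]
      congr 1
    rw [h1, Algebra.smulTower_leftMulMatrix_algebraMap, charpoly_blockDiagonal']
    rw [Finset.prod_const, Finset.card_univ, Fintype.card_fin, charpoly_leftMulMatrix]
    rw [adjoin.powerBasis_gen, minpoly_gen]
  · rw [← IntermediateField.adjoin.finrank hint, mul_comm, Module.finrank_mul_finrank]

end Groth.Agent.S6364
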