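import Groth.Statements.S6365
import Mathlib.LinearAlgebra.Matrix.ToLin
import Mathlib.RingTheory.Trace.Defs
import Mathlib.Data.Matrix.Composition
-- import your own Groth.Agent.* helpers here

set_option autoImplicit false
universe u
open Fields

namespace Groth.Agent.S6365

/-- Let L/K be a finite extension of fields, V a finite-dimensional L-vector space and φ an L-linear
endomorphism of V. Then the trace over K of φ (regarded as a K-linear map) is the trace from L to K
of the trace over L of φ. (The determinant analogue, det_K φ = Norm_{L/K}(det_L φ), is the standard
companion.) -/
theorem result {K L : Type u} [Field K] [Field L] [Algebra K L]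
    [FiniteDimensional K L] (V : Type u) [AddCommGroup V] [Module L V] [Module K V] [IsScalarTower K L V]
    [FiniteDimensional L V] (φ : V →ₗ[L] V) :
    LinearMap.trace K V (φ.restrictScalars K) = Algebra.trace K L (LinearMap.trace L V φ) := by
  classical
  let bA := Module.finBasis K L
  let bM := Module.finBasis L V
  rw [LinearMap.trace_eq_matrix_trace K (bA.smulTower' bM), LinearMap.restrictScalars_toMatrix,
      LinearMap.trace_eq_matrix_trace L bM, Algebra.trace_eq_matrix_trace bA]
  simp only [Matrix.trace, Matrix.diag, Matrix.comp_apply, Matrix.map_apply]
  rw [Fintype.sum_prod_type]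
  rw [map_sum]
  simp only [Matrix.sum_apply]
  rw [Finset.sum_comm]

end Groth.Agent.S6365
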