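import Groth.Statements.S6367
-- import your own Groth.Agent.* helpers here

set_option autoImplicit false
universe u
open CAlg

namespace Groth.Agent.S6367

/-- Let 0 → M₁ → M₂ → M₃ → 0 be a short exact sequence of R-modules (f injective, g surjective, image of
f = kernel of g). If M₁ and M₃ are coherent — finitely generated with every finitely generated
submodule finitely presented — then so is M₂. -/
theorem result (R : Type u) [CommRing R] {M₁ M₂ M₃ : Type u}
    [AddCommGroup M₁] [Module R M₁] [AddCommGroup M₂] [Module R M₂] [AddCommGroup M₃] [Module R M₃]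
    (f : M₁ →ₗ[R] M₂) (g : M₂ →ₗ[R] M₃) (hf : Function.Injective f) (hg : Function.Surjective g)
    (hfg : LinearMap.range f = LinearMap.ker g)
    (h₁ : (Module.Finite R M₁ ∧ ∀ N : Submodule R M₁, N.FG → Module.FinitePresentation R N))
    (h₃ : (Module.Finite R M₃ ∧ ∀ N : Submodule R M₃, N.FG → Module.FinitePresentation R N)) :
    (Module.Finite R M₂ ∧ ∀ N : Submodule R M₂, N.FG → Module.FinitePresentation R N) := by
  obtain ⟨hM₁, hsub₁⟩ := h₁
  obtain ⟨hM₃, hsub₃⟩ := h₃
  have hex : Function.Exact f g := LinearMap.exact_iff.mpr hfg.symm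
  refine ⟨Module.Finite.of_exact hex hg, ?_⟩
  intro N hN
  haveI : Module.Finite R N := Module.Finite.iff_fg.mpr hN
  haveI : Module.FinitePresentation R (N.map g) := hsub₃ _ (hN.map g)
  let l := g.submoduleMap N
  have hl : Function.Surjective l := g.submoduleMap_surjective N
  have hker : (LinearMap.ker l).FG := Module.FinitePresentation.fg_ker l hl
  have hK : (N.comap f).FG := by
    apply Submodule.fg_of_fg_map_injective f hf
    rw [Submodule.map_comap_eq]
    have : LinearMap.range f ⊓ N = (LinearMap.ker l).map N.subtype := by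
      rw [LinearMap.ker_submoduleMap, Submodule.map_comap_subtype, hfg, inf_comm]
    rw [this]; exact hker.map _
  haveI : Module.FinitePresentation R (N.comap f) := hsub₁ _ hK
  let φ₀ : N.comap f →ₗ[R] N := f.restrict (fun x hx => hx)
  have hφ₀ : ∀ x, φ₀ x ∈ LinearMap.ker l := by
    intro x
    rw [LinearMap.mem_ker]
    apply Subtype.ext
    simp only [l, LinearMap.submoduleMap_coe_apply, φ₀, LinearMap.coe_restrict_apply,
      ZeroMemClass.coe_zero]
    have : f x ∈ LinearMap.ker g := by rw [← hfg]; exact ⟨x, rfl⟩
    exact this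
  let φ : N.comap f →ₗ[R] LinearMap.ker l := LinearMap.codRestrict _ φ₀ hφ₀
  have hφinj : Function.Injective φ := by
    intro x y hxy
    apply Subtype.ext
    apply hf
    have := congrArg (fun z : LinearMap.ker l => ((z : N) : M₂)) hxy
    simpa [φ, φ₀] using this
  have hφsurj : Function.Surjective φ := by
    rintro ⟨⟨y, hyN⟩, hy⟩
    have hy' : g y = 0 := by
      have := congrArg Subtype.val (LinearMap.mem_ker.mp hy)
      simpa [l] using this
    have : y ∈ LinearMap.range f := by rw [hfg]; exact hy'
    obtain ⟨x, rfl⟩ := this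
    exact ⟨⟨x, hyN⟩, rfl⟩
  haveI : Module.FinitePresentation R (LinearMap.ker l) :=
    Module.finitePresentation_of_surjective φ hφsurj
      (by rw [LinearMap.ker_eq_bot.mpr hφinj]; exact Submodule.fg_bot)
  exact Module.finitePresentation_of_ker l hl

end Groth.Agent.S6367
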