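import Groth.Statements.S6366
import Groth.Agent.S6367
-- import your own Groth.Agent.* helpers here

set_option autoImplicit false
universe u
open CAlg

namespace Groth.Agent.S6366

theorem coh_of_surj {R : Type u} [CommRing R] {P M : Type u} [AddCommGroup P] [Module R P]
    [AddCommGroup M] [Module R M]
    (hP : Module.Finite R P ∧ ∀ N : Submodule R P, N.FG → Module.FinitePresentation R N)
    (π : P →ₗ[R] M) (hπ : Function.Surjective π) (hk : (LinearMap.ker π).FG) :
    Module.Finite R M ∧ ∀ N : Submodule R M, N.FG → Module.FinitePresentation R N := by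
  obtain ⟨hPf, hPs⟩ := hP
  refine ⟨Module.Finite.of_surjective π hπ, ?_⟩
  intro N hN
  have hle : N.comap π ⊓ LinearMap.ker π = LinearMap.ker π :=
    inf_eq_right.mpr (fun x hx => by
      simp [Submodule.mem_comap, LinearMap.mem_ker.mp hx, N.zero_mem])
  have hN' : (N.comap π).FG := by
    apply Submodule.fg_of_fg_map_of_fg_inf_ker π
    · rw [Submodule.map_comap_eq_of_surjective hπ]; exact hN
    · rw [hle]; exact hk
  have : Module.FinitePresentation R (N.comap π) := hPs _ hN'
  let l : N.comap π →ₗ[R] N := π.restrict (fun x hx => hx)
  have hl : Function.Surjective l := by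
    rintro ⟨y, hy⟩
    obtain ⟨x, rfl⟩ := hπ y
    exact ⟨⟨x, hy⟩, rfl⟩
  have hker : LinearMap.ker l = (LinearMap.ker π).comap (N.comap π).subtype := by
    ext x; simp [l, Subtype.ext_iff, LinearMap.mem_ker]
  apply Module.finitePresentation_of_surjective l hl
  rw [hker]
  apply Submodule.fg_of_fg_map_injective _ (N.comap π).injective_subtype
  rw [Submodule.map_comap_subtype, hle]
  exact hk

theorem coh_pi {R : Type u} [CommRing R]
    (hR : ∀ I : Ideal R, I.FG → Module.FinitePresentation R I) :
    ∀ n : ℕ, Module.Finite R (Fin n → R) ∧
      ∀ N : Submodule R (Fin n → R), N.FG → Module.FinitePresentation R N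
  | 0 => ⟨inferInstance, fun N _ => inferInstance⟩
  | n + 1 => by
    have ih := coh_pi hR n
    let f : R →ₗ[R] (Fin (n+1) → R) := LinearMap.single R (fun _ => R) 0
    let g : (Fin (n+1) → R) →ₗ[R] (Fin n → R) := LinearMap.funLeft R R Fin.succ
    have hf : Function.Injective f := fun a b h => by simpa [f] using congrFun h 0
    have hg : Function.Surjective g := fun w => ⟨Fin.cons 0 w, by
      funext i; simp [g, LinearMap.funLeft_apply]⟩
    have hfg : LinearMap.range f = LinearMap.ker g := by
      ext v
      constructor
      · rintro ⟨r, rfl⟩
        rw [LinearMap.mem_ker]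
        funext i
        simp [f, g, LinearMap.funLeft_apply, Pi.single_eq_of_ne (Fin.succ_ne_zero i)]
      · intro h
        rw [LinearMap.mem_ker] at h
        refine ⟨v 0, ?_⟩
        funext i
        refine Fin.cases ?_ ?_ i
        · simp [f]
        · intro j
          have := congrFun h j
          simp only [g, LinearMap.funLeft_apply, Function.comp_apply, Pi.zero_apply] at this
          simp [f, this, Pi.single_eq_of_ne (Fin.succ_ne_zero j)]
    exact Groth.Agent.S6367.result R f g hf hg hfg ⟨inferInstance, hR⟩ ih

/-- Let R be a coherent ring, i.e. every finitely generated ideal of R is finitely presented. Then an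
R-module is coherent (finitely generated, and every finitely generated submodule is finitely
presented) if and only if it is finitely presented. -/
theorem result (R : Type u) [CommRing R]
    (hR : ∀ I : Ideal R, I.FG → Module.FinitePresentation R I) (M : Type u) [AddCommGroup M] [Module R M] :
    (Module.Finite R M ∧ ∀ N : Submodule R M, N.FG → Module.FinitePresentation R N) ↔ Module.FinitePresentation R M := by
  constructor
  · rintro ⟨hf, hs⟩
    have : Module.FinitePresentation R (⊤ : Submodule R M) := hs ⊤ Module.Finite.fg_top
    exact Module.FinitePresentation.of_equiv Submodule.topEquiv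
  · intro hM
    obtain ⟨n, π, hπ⟩ := Module.Finite.exists_fin' R M
    exact coh_of_surj (coh_pi hR n) π hπ (Module.FinitePresentation.fg_ker π hπ)

end Groth.Agent.S6366
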