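import Groth.Statements.S6368
import Mathlib.RingTheory.Flat.FaithfullyFlat.Basic
import Mathlib.LinearAlgebra.TensorProduct.Finiteness
-- import your own Groth.Agent.* helpers here

set_option autoImplicit false
universe u
open scoped TensorProduct
open CAlg

namespace Groth.Agent.S6368

open scoped TensorProduct

/-- Let R → S be faithfully flat and M an R-module. If the S-module S ⊗_R M is countably generated then
M is countably generated. -/
theorem result (R S : Type u) [CommRing R] [CommRing S] [Algebra R S]
    [Module.FaithfullyFlat R S] (M : Type u) [AddCommGroup M] [Module R M]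
    (h : CAlg.IsCountablyGenerated S (S ⊗[R] M)) : CAlg.IsCountablyGenerated R M := by
  classical
  obtain ⟨s, hsc, hsp⟩ := h
  have hfin : ∀ x : S ⊗[R] M, ∃ F : Finset (S × M), x = ∑ i ∈ F, i.1 ⊗ₜ[R] i.2 :=
    fun x => TensorProduct.exists_finset x
  choose F hF using hfin
  let t : Set M := ⋃ x ∈ s, ((F x).image Prod.snd : Set M)
  have htc : t.Countable := hsc.biUnion (fun x _ => (Finset.finite_toSet _).countable)
  refine ⟨t, htc, ?_⟩
  let N := Submodule.span R t
  have hrange : LinearMap.range (N.subtype.baseChange S) = ⊤ := by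
    rw [eq_top_iff, ← hsp, Submodule.span_le]
    intro x hx
    rw [hF x]
    refine Submodule.sum_mem _ (fun i hi => ?_)
    have hit : i.2 ∈ t := by
      simp only [t, Set.mem_iUnion]
      exact ⟨x, hx, by simp only [Finset.coe_image, Set.mem_image, Finset.mem_coe]; exact ⟨i, hi, rfl⟩⟩
    have : i.1 ⊗ₜ[R] i.2 = i.1 • (N.subtype.baseChange S ((1 : S) ⊗ₜ[R] (⟨i.2, Submodule.subset_span hit⟩ : N))) := by
      simp [TensorProduct.smul_tmul']
    rw [this]
    exact Submodule.smul_mem _ _ (LinearMap.mem_range_self _ _)
  have hsurj : Function.Surjective (N.subtype.lTensor S) := by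
    intro y
    obtain ⟨z, hz⟩ := LinearMap.range_eq_top.mp hrange y
    exact ⟨z, by rw [← hz]; rfl⟩
  rw [Module.FaithfullyFlat.lTensor_surjective_iff_surjective (R := R) (M := S)] at hsurj
  rw [eq_top_iff]
  intro m _
  obtain ⟨n, hn⟩ := hsurj m
  rw [← hn]
  exact n.2

end Groth.Agent.S6368
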