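import Groth.Statements.S6372
import Mathlib.RingTheory.Flat.FaithfullyFlat.Basic
import Mathlib.Algebra.Algebra.Epi
-- import your own Groth.Agent.* helpers here

set_option autoImplicit false
universe u
open CAlg

namespace Groth.Agent.S6372

open scoped TensorProduct

/-- A faithfully flat epimorphism of rings is an isomorphism: if R → S is faithfully flat and an
epimorphism in the category of rings then it is bijective. -/
theorem result (R S : Type u) [CommRing R] [CommRing S] [Algebra R S]
    [Module.FaithfullyFlat R S] [Algebra.IsEpi R S] : Function.Bijective (algebraMap R S) := by
  let f : R →ₗ[R] S := Algebra.linearMap R S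
  let μ : S ⊗[R] S →ₗ[R] S := TensorProduct.lift (LinearMap.mul R S)
  have hμ : Function.Injective μ := Algebra.IsEpi.injective_lift_mul
  have hcomp : ∀ x : S ⊗[R] R, μ (f.lTensor S x) = TensorProduct.rid R S x := by
    intro x
    induction x using TensorProduct.induction_on with
    | zero => simp
    | tmul s r => simp [μ, f, Algebra.smul_def, mul_comm]
    | add x y hx hy => simp only [map_add, hx, hy]
  have hbij : Function.Bijective (f.lTensor S) := by
    constructor
    · intro x y hxy
      have := congrArg μ hxy
      rw [hcomp, hcomp] at this
      exact (TensorProduct.rid R S).injective this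
    · intro y
      refine ⟨(TensorProduct.rid R S).symm (μ y), hμ ?_⟩
      rw [hcomp, LinearEquiv.apply_symm_apply]
  exact (Module.FaithfullyFlat.lTensor_bijective_iff_bijective (R := R) (M := S) f).mp hbij

end Groth.Agent.S6372
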