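import Groth.Statements.S6373
import Mathlib.LinearAlgebra.Dual.Lemmas
-- import your own Groth.Agent.* helpers here

set_option autoImplicit false
universe u
open CAlg

namespace Groth.Agent.S6373

open scoped TensorProduct

/-- If k is a field and k → S is an epimorphism of rings, then S is the zero ring or k → S is an
isomorphism. -/
theorem result (k S : Type u) [Field k] [CommRing S] [Algebra k S] [Algebra.IsEpi k S] :
    Subsingleton S ∨ Function.Bijective (algebraMap k S) := by
  rcases subsingleton_or_nontrivial S with h | h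
  · exact Or.inl h
  right
  refine ⟨(algebraMap k S).injective, ?_⟩
  intro s
  by_contra hs
  push_neg at hs
  let W : Submodule k S := LinearMap.range (Algebra.linearMap k S)
  have hq : W.mkQ s ≠ 0 := by
    rw [Ne, Submodule.mkQ_apply, Submodule.Quotient.mk_eq_zero]
    rintro ⟨c, hc⟩
    exact hs c hc
  obtain ⟨ψ, hψ⟩ : ∃ ψ : Module.Dual k (S ⧸ W), ψ (W.mkQ s) ≠ 0 := by
    by_contra hcon
    push_neg at hcon
    exact hq ((Module.forall_dual_apply_eq_zero_iff k _).mp hcon)
  let φ : S →ₗ[k] k := ψ ∘ₗ W.mkQ
  have hφ1 : φ 1 = 0 := by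
    have h1 : W.mkQ 1 = 0 := by
      rw [Submodule.mkQ_apply, Submodule.Quotient.mk_eq_zero]
      exact ⟨1, by simp⟩
    simp only [φ, LinearMap.comp_apply, h1, map_zero]
  have htm := (Algebra.isEpi_iff_forall_one_tmul_eq k S).mp inferInstance s
  have := congrArg (fun x => TensorProduct.lid k S (φ.rTensor S x)) htm
  simp only [LinearMap.rTensor_tmul, TensorProduct.lid_tmul, hφ1, zero_smul] at this
  have hne : φ s • (1 : S) ≠ 0 := by
    rw [Algebra.smul_def, mul_one]
    exact (map_ne_zero_iff _ (algebraMap k S).injective).mpr hψ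
  exact hne this.symm

end Groth.Agent.S6373
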