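import Groth.Statements.S6374
import Groth.Agent.S6373
import Mathlib.LinearAlgebra.TensorProduct.Tower
import Mathlib.RingTheory.LocalRing.ResidueField.Fiber
-- import your own Groth.Agent.* helpers here

set_option autoImplicit false
universe u
open CAlg

namespace Groth.Agent.S6374

open scoped TensorProduct

/-- base change of a ring epimorphism is an epimorphism -/
theorem isEpi_baseChange' (R S A : Type*) [CommRing R] [CommRing S] [CommRing A]
    [Algebra R S] [Algebra R A] [Algebra.IsEpi R S] : Algebra.IsEpi A (A ⊗[R] S) := by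
  rw [Algebra.isEpi_iff_forall_one_tmul_eq]
  have hS := (Algebra.isEpi_iff_forall_one_tmul_eq R S).mp inferInstance
  -- key case: elements 1 ⊗ s
  have key : ∀ s : S, (1 : A ⊗[R] S) ⊗ₜ[A] ((1 : A) ⊗ₜ[R] s) = ((1 : A) ⊗ₜ[R] s) ⊗ₜ[A] (1 : A ⊗[R] S) := by
    intro s
    let e1 := TensorProduct.AlgebraTensorModule.cancelBaseChange R A A (A ⊗[R] S) S
    let e2 := TensorProduct.assoc R A S S
    apply e1.injective
    apply e2.injective
    have h1 : e2 (e1 ((1 : A ⊗[R] S) ⊗ₜ[A] ((1 : A) ⊗ₜ[R] s))) = (1 : A) ⊗ₜ[R] ((1 : S) ⊗ₜ[R] s) := by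
      simp [e1, e2, TensorProduct.AlgebraTensorModule.cancelBaseChange_tmul, Algebra.TensorProduct.one_def]
    have h2 : e2 (e1 (((1 : A) ⊗ₜ[R] s) ⊗ₜ[A] (1 : A ⊗[R] S))) = (1 : A) ⊗ₜ[R] (s ⊗ₜ[R] (1 : S)) := by
      rw [Algebra.TensorProduct.one_def]
      simp [e1, e2, TensorProduct.AlgebraTensorModule.cancelBaseChange_tmul]
    rw [h1, h2, hS s]
  intro t
  induction t using TensorProduct.induction_on with
  | zero => simp
  | tmul a s =>
    have : a ⊗ₜ[R] s = a • ((1 : A) ⊗ₜ[R] s) := by
      rw [TensorProduct.smul_tmul', smul_eq_mul, mul_one]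
    rw [this, TensorProduct.tmul_smul, ← TensorProduct.smul_tmul', key s]
  | add x y hx hy => rw [TensorProduct.tmul_add, TensorProduct.add_tmul, hx, hy]

/-- For an epimorphism of rings R → S, the induced map Spec S → Spec R is injective and induces trivial
residue field extensions; stated in the form the proof gives: for every prime p of R the fibre ring
S ⊗_R κ(p) is either zero or κ(p) → S ⊗_R κ(p) is bijective, together with injectivity of Spec S →
Spec R. -/
theorem result (R S : Type u) [CommRing R] [CommRing S] [Algebra R S]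
    [Algebra.IsEpi R S] :
    Function.Injective (PrimeSpectrum.comap (algebraMap R S)) ∧
      ∀ (p : Ideal R) [p.IsPrime],
        Subsingleton (p.Fiber S) ∨ Function.Bijective (algebraMap p.ResidueField (p.Fiber S)) := by
  have hfib : ∀ (p : Ideal R) [p.IsPrime],
      Subsingleton (p.Fiber S) ∨ Function.Bijective (algebraMap p.ResidueField (p.Fiber S)) := by
    intro p _
    haveI : Algebra.IsEpi p.ResidueField (p.Fiber S) := isEpi_baseChange' R S p.ResidueField
    exact Groth.Agent.S6373.result p.ResidueField (p.Fiber S)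
  refine ⟨?_, hfib⟩
  intro q1 q2 h
  let p := PrimeSpectrum.comap (algebraMap R S) q1
  let e := PrimeSpectrum.preimageEquivFiber R S p
  have h1 : q1 ∈ PrimeSpectrum.comap (algebraMap R S) ⁻¹' {p} := rfl
  have h2 : q2 ∈ PrimeSpectrum.comap (algebraMap R S) ⁻¹' {p} := by
    simp only [Set.mem_preimage, Set.mem_singleton_iff]; exact h.symm
  suffices hh : e ⟨q1, h1⟩ = e ⟨q2, h2⟩ by
    have := e.injective hh
    exact congrArg Subtype.val this
  rcases hfib p.asIdeal with hs | hb
  · exfalso
    exact (e ⟨q1, h1⟩).isPrime.ne_top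
      (Ideal.eq_top_of_isUnit_mem _ (Ideal.zero_mem _) (isUnit_of_subsingleton 0))
  · apply PrimeSpectrum.comap_injective_of_surjective
      (algebraMap p.asIdeal.ResidueField (p.asIdeal.Fiber S)) hb.2
    have hsub : ∀ x y : PrimeSpectrum p.asIdeal.ResidueField, x = y := by
      intro x y
      ext1
      rw [Ideal.eq_bot_of_prime x.asIdeal, Ideal.eq_bot_of_prime y.asIdeal]
    exact hsub _ _

end Groth.Agent.S6374
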