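import Groth.Statements.S6376
import Mathlib.Algebra.Algebra.Epi
-- import your own Groth.Agent.* helpers here

set_option autoImplicit false
universe u
open CAlg

namespace Groth.Agent.S6376

open scoped TensorProduct

/-- A ring map R → S is an epimorphism if and only if for all S-modules N₁, N₂ every R-linear map N₁ →
N₂ is S-linear, i.e. restriction of scalars from S-modules to R-modules is fully faithful. -/
theorem result (R S : Type u) [CommRing R] [CommRing S] [Algebra R S] :
    Algebra.IsEpi R S ↔
      ∀ (N₁ N₂ : Type u) [AddCommGroup N₁] [Module S N₁] [Module R N₁] [IsScalarTower R S N₁]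
        [AddCommGroup N₂] [Module S N₂] [Module R N₂] [IsScalarTower R S N₂] (φ : N₁ →ₗ[R] N₂),
        ∀ (s : S) (x : N₁), φ (s • x) = s • φ x := by
  constructor
  · intro hepi N₁ N₂ _ _ _ _ _ _ _ _ φ s x
    have hinj := Algebra.injective_lift_lsmul R S N₁
    have key : s ⊗ₜ[R] x = (1 : S) ⊗ₜ[R] (s • x) := by
      apply hinj
      simp
    have := congrArg (fun t => TensorProduct.lift
      (LinearMap.restrictScalars₁₂ R R (LinearMap.lsmul S N₂)) (φ.lTensor S t)) key
    simp at this
    exact this.symm
  · intro h
    rw [Algebra.isEpi_iff_forall_one_tmul_eq]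
    intro s
    have := h S (S ⊗[R] S) (TensorProduct.mk R S S 1) s 1
    simpa [TensorProduct.smul_tmul'] using this

end Groth.Agent.S6376
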