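import Groth.Statements.S6393
-- import your own Groth.Agent.* helpers here

set_option autoImplicit false
open CategoryTheory
universe v₂ u₂ v u
open FibCat

namespace Groth.Agent.S6393

theorem sc_of_lift {C : Type u} [Category.{v} C] {S : Type u₂} [Category.{v₂} S] (p : S ⥤ C)
    {a b : S} (φ : a ⟶ b) (hs : p.IsStronglyCartesian (p.map φ) φ) :
    ∀ {R T : C} (f : R ⟶ T), p.IsHomLift f φ → p.IsStronglyCartesian f φ := by
  intro R T f h
  obtain ⟨⟩ := h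
  exact hs

theorem fwd_fib {C : Type u} [Category.{v} C] {S : Type u₂} [Category.{v₂} S] (p : S ⥤ C)
    (h : FibCat.IsFibGrpd p) : p.IsFibered := by
  refine Functor.IsFibered.of_exists_isStronglyCartesian (fun a R f => ?_)
  obtain ⟨b, φ, hφ⟩ := h.exists_lift (x := a) f
  exact ⟨b, φ, sc_of_lift p φ (h.isStronglyCartesian φ) f hφ⟩

theorem fwd_grpd {C : Type u} [Category.{v} C] {S : Type u₂} [Category.{v₂} S] (p : S ⥤ C)
    (h : FibCat.IsFibGrpd p) (U : C) : IsGroupoid (p.Fiber U) := by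
  constructor
  intro x y m
  have hs : p.IsStronglyCartesian (𝟙 U) m.1 :=
    sc_of_lift p m.1 (h.isStronglyCartesian m.1) (𝟙 U) m.2
  have hy : p.IsHomLift (eqToHom y.2 ≫ 𝟙 U) (𝟙 y.1) :=
    (IsHomLift.lift_eqToHom_comp_iff (p := p) (𝟙 U) (𝟙 y.1) y.2).mpr (IsHomLift.id y.2)
  obtain ⟨n, ⟨hn1, hn2⟩, -⟩ :=
    @Functor.IsStronglyCartesian.universal_property' _ _ _ _ p _ _ _ _ (𝟙 U) m.1 hs y.1
      (eqToHom y.2) (𝟙 y.1) hy
  have hnU : p.IsHomLift (𝟙 U) n := by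
    have : p.IsHomLift (eqToHom y.2 ≫ 𝟙 U) n := by rw [Category.comp_id]; exact hn1
    exact (IsHomLift.lift_eqToHom_comp_iff (p := p) (𝟙 U) n y.2).mp this
  have hx : p.IsHomLift (eqToHom x.2 ≫ 𝟙 U) m.1 :=
    (IsHomLift.lift_eqToHom_comp_iff (p := p) (𝟙 U) m.1 x.2).mpr m.2
  obtain ⟨χ, -, hχu⟩ :=
    @Functor.IsStronglyCartesian.universal_property' _ _ _ _ p _ _ _ _ (𝟙 U) m.1 hs x.1
      (eqToHom x.2) m.1 hx
  have hmn : p.IsHomLift (eqToHom x.2) (m.1 ≫ n) := by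
    have h1 : p.IsHomLift (𝟙 U) (m.1 ≫ n) := by
      haveI := m.2; haveI := hnU; infer_instance
    have h2 : p.IsHomLift (eqToHom x.2 ≫ 𝟙 U) (m.1 ≫ n) :=
      (IsHomLift.lift_eqToHom_comp_iff (p := p) (𝟙 U) (m.1 ≫ n) x.2).mpr h1
    rwa [Category.comp_id] at h2
  have e1 : m.1 ≫ n = χ := hχu (m.1 ≫ n) ⟨hmn, by rw [Category.assoc, hn2, Category.comp_id]⟩
  have e2 : 𝟙 x.1 = χ := hχu (𝟙 x.1) ⟨IsHomLift.id_lift_eqToHom_domain x.2 rfl, Category.id_comp _⟩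
  refine ⟨⟨⟨n, hnU⟩, ?_, ?_⟩⟩
  · apply Subtype.ext
    show m.1 ≫ n = 𝟙 x.1
    rw [e1, e2]
  · apply Subtype.ext
    show n ≫ m.1 = 𝟙 y.1
    exact hn2

theorem bwd {C : Type u} [Category.{v} C] {S : Type u₂} [Category.{v₂} S] (p : S ⥤ C)
    (hfib : p.IsFibered) (hgrp : ∀ U : C, IsGroupoid (p.Fiber U)) : FibCat.IsFibGrpd p := by
  refine ⟨?_, ?_⟩
  · intro x V f
    obtain ⟨y, φ, hφ⟩ := Functor.IsPreFibered.exists_isCartesian' (p := p) (a := x) f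
    exact ⟨y, φ, hφ.toIsHomLift⟩
  · intro y x φ
    obtain ⟨y', ψ, hψ⟩ := Functor.IsPreFibered.exists_isCartesian' (p := p) (a := x) (p.map φ)
    have hψs : p.IsStronglyCartesian (p.map φ) ψ := by haveI := hψ; infer_instance
    obtain ⟨τ, ⟨hτ1, hτ2⟩, -⟩ := hψ.universal_property (φ' := φ)
    have hy' : p.obj y' = p.obj y := @IsHomLift.domain_eq _ _ _ _ p _ _ _ _ (p.map φ) ψ hψ.toIsHomLift
    let X0 : p.Fiber (p.obj y) := ⟨y, rfl⟩
    let Y0 : p.Fiber (p.obj y) := ⟨y', hy'⟩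
    let t : X0 ⟶ Y0 := ⟨τ, hτ1⟩
    have hiso : IsIso t := (hgrp (p.obj y)).all_isIso t
    let σ' : Y0 ⟶ X0 := inv t
    have hts : τ ≫ σ'.1 = 𝟙 y := congrArg Subtype.val (IsIso.hom_inv_id t)
    have hst : σ'.1 ≫ τ = 𝟙 y' := congrArg Subtype.val (IsIso.inv_hom_id t)
    have hσ : p.IsHomLift (𝟙 (p.obj y)) σ'.1 := σ'.2
    refine { toIsHomLift := inferInstance, universal_property' := ?_ }
    intro a' g φ' hφ'
    obtain ⟨χ0, ⟨hχ01, hχ02⟩, hχ0u⟩ :=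
      @Functor.IsStronglyCartesian.universal_property' _ _ _ _ p _ _ _ _ (p.map φ) ψ hψs a' g φ' hφ'
    refine ⟨χ0 ≫ σ'.1, ⟨?_, ?_⟩, ?_⟩
    · haveI := hχ01; haveI := hσ; infer_instance
    · rw [← hτ2, Category.assoc, ← Category.assoc σ'.1, hst, Category.id_comp, hχ02]
    · rintro χ' ⟨hχ'1, hχ'2⟩
      have hc : p.IsHomLift g (χ' ≫ τ) := by haveI := hχ'1; haveI := hτ1; infer_instance
      have e : χ' ≫ τ = χ0 := hχ0u (χ' ≫ τ) ⟨hc, by rw [Category.assoc, hτ2, hχ'2]⟩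
      rw [← e, Category.assoc, hts, Category.comp_id]

/-- Given `p : S ⥤ C`, saying that p is fibred in groupoids is equivalent to saying that p is a fibred
functor whose fibre category over every object of C is a groupoid. -/
theorem result {C : Type u} [Category.{v} C] {S : Type u₂} [Category.{v₂} S] (p : S ⥤ C) :
    FibCat.IsFibGrpd p ↔ (p.IsFibered ∧ ∀ U : C, IsGroupoid (p.Fiber U)) := by
  constructor
  · intro h
    exact ⟨fwd_fib p h, fwd_grpd p h⟩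
  · rintro ⟨hfib, hgrp⟩
    exact bwd p hfib hgrp

end Groth.Agent.S6393
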