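import Groth.Statements.S6396
-- import your own Groth.Agent.* helpers here

set_option autoImplicit false
open CategoryTheory
universe v u
open FibCat

namespace Groth.Agent.S6396

/-- A functor `G` over `C` between categories fibred in groupoids is faithful if and only if each
induced functor of fibre categories `𝒳_U ⥤ 𝒴_U` is faithful. -/
theorem result {C : Type u} [Category.{v} C] {𝒳 𝒴 : BasedCategory.{v, max u v} C} (G : 𝒳 ⥤ᵇ 𝒴) (h𝒳 : FibCat.IsFibGrpd 𝒳.p) (h𝒴 : FibCat.IsFibGrpd 𝒴.p) :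
    G.toFunctor.Faithful ↔ ∀ U : C, (FibCat.fiberFunctor G U).Faithful := by
  constructor
  · intro hG U
    constructor
    intro x y φ ψ h
    apply Subtype.ext
    apply hG.map_injective
    exact congrArg Subtype.val h
  · intro hU
    constructor
    intro a b φ ψ h
    have hφ := h𝒳.isStronglyCartesian φ
    have hψ : 𝒳.p.IsHomLift (𝒳.p.map φ) ψ := by
      have h1 : 𝒴.p.IsHomLift (𝒳.p.map φ) (G.map φ) := inferInstance
      rw [h] at h1
      exact (BasedFunctor.isHomLift_iff G (𝒳.p.map φ) ψ).mp h1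
    have hψ' : 𝒳.p.IsHomLift (𝟙 (𝒳.p.obj a) ≫ 𝒳.p.map φ) ψ := by
      rw [Category.id_comp]; exact hψ
    obtain ⟨χ, ⟨hχ1, hχ2⟩, -⟩ :=
      @Functor.IsStronglyCartesian.universal_property' _ _ _ _ 𝒳.p _ _ _ _ (𝒳.p.map φ) φ hφ a
        (𝟙 _) ψ hψ'
    have hGs := h𝒴.isStronglyCartesian (G.map φ)
    have hY : 𝒴.p.IsHomLift (𝟙 (𝒴.p.obj (G.obj a)) ≫ 𝒴.p.map (G.map φ)) (G.map φ) := by
      rw [Category.id_comp]; exact Functor.IsHomLift.map (p := 𝒴.p) (G.map φ)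
    obtain ⟨χ', -, hχ'u⟩ :=
      @Functor.IsStronglyCartesian.universal_property' _ _ _ _ 𝒴.p _ _ _ _
        (𝒴.p.map (G.map φ)) (G.map φ) hGs (G.obj a) (𝟙 _) (G.map φ) hY
    have hGχ : 𝒴.p.IsHomLift (𝟙 (𝒴.p.obj (G.obj a))) (G.map χ) := by
      have : 𝒴.p.IsHomLift (𝟙 (𝒳.p.obj a)) (G.map χ) := by haveI := hχ1; infer_instance
      rw [G.w_obj a]; exact this
    have e1 : G.map χ = χ' := hχ'u (G.map χ) ⟨hGχ, by rw [← Functor.map_comp, hχ2, h]⟩
    have e2 : 𝟙 (G.obj a) = χ' := hχ'u (𝟙 (G.obj a)) ⟨inferInstance, by simp⟩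
    let x : 𝒳.p.Fiber (𝒳.p.obj a) := ⟨a, rfl⟩
    let m1 : x ⟶ x := ⟨χ, hχ1⟩
    let m2 : x ⟶ x := ⟨𝟙 a, inferInstance⟩
    have hm : (FibCat.fiberFunctor G (𝒳.p.obj a)).map m1 =
        (FibCat.fiberFunctor G (𝒳.p.obj a)).map m2 := by
      apply Subtype.ext
      show G.map χ = G.map (𝟙 a)
      rw [e1, ← e2, Functor.map_id]
    have hm' : m1 = m2 := (hU (𝒳.p.obj a)).map_injective hm
    have hχ : χ = 𝟙 a := congrArg Subtype.val hm'
    rw [← hχ2, hχ, Category.id_comp]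

end Groth.Agent.S6396
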