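import Groth.Statements.S6397
import Groth.Agent.S6396
-- import your own Groth.Agent.* helpers here

set_option autoImplicit false
open CategoryTheory
universe v u
open FibCat

namespace Groth.Agent.S6397

/-- A functor `G` over `C` between categories fibred in groupoids is fully faithful if and only if each
induced functor of fibre categories `𝒳_U ⥤ 𝒴_U` is fully faithful. -/
theorem result {C : Type u} [Category.{v} C] {𝒳 𝒴 : BasedCategory.{v, max u v} C} (G : 𝒳 ⥤ᵇ 𝒴) (h𝒳 : FibCat.IsFibGrpd 𝒳.p) (h𝒴 : FibCat.IsFibGrpd 𝒴.p) :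
    (G.toFunctor.Full ∧ G.toFunctor.Faithful) ↔ ∀ U : C, (FibCat.fiberFunctor G U).Full ∧ (FibCat.fiberFunctor G U).Faithful := by
  have hfaith := Groth.Agent.S6396.result G h𝒳 h𝒴
  constructor
  · rintro ⟨hfull, hfa⟩ U
    refine ⟨?_, hfaith.mp hfa U⟩
    constructor
    intro x y m
    obtain ⟨φ, hφ⟩ := hfull.map_surjective (X := x.1) (Y := y.1) m.1
    have hlift : 𝒳.p.IsHomLift (𝟙 U) φ := by
      have h1 : 𝒴.p.IsHomLift (𝟙 U) (G.map φ) := by rw [hφ]; exact m.2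
      exact (BasedFunctor.isHomLift_iff G (𝟙 U) φ).mp h1
    exact ⟨⟨φ, hlift⟩, Subtype.ext hφ⟩
  · intro hU
    refine ⟨?_, hfaith.mpr (fun U => (hU U).2)⟩
    constructor
    intro a b ψ
    let f : 𝒳.p.obj a ⟶ 𝒳.p.obj b :=
      eqToHom (G.w_obj a).symm ≫ 𝒴.p.map ψ ≫ eqToHom (G.w_obj b)
    obtain ⟨a0, φ0, hφ0⟩ := h𝒳.exists_lift (x := b) f
    have ha0 : 𝒳.p.obj a0 = 𝒳.p.obj a := @IsHomLift.domain_eq _ _ _ _ 𝒳.p _ _ _ _ f φ0 hφ0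
    have hGφ0 : 𝒴.p.IsHomLift f (G.map φ0) := by haveI := hφ0; infer_instance
    have e : 𝒴.p.obj (G.obj a) = 𝒴.p.obj (G.obj a0) := by
      rw [G.w_obj a, G.w_obj a0, ha0]
    have hGs := h𝒴.isStronglyCartesian (G.map φ0)
    have hY : 𝒴.p.IsHomLift (eqToHom e ≫ 𝒴.p.map (G.map φ0)) ψ := by
      have hfac := @IsHomLift.fac' _ _ _ _ 𝒴.p _ _ _ _ f (G.map φ0) hGφ0
      rw [hfac]
      apply IsHomLift.of_fac' 𝒴.p _ _ rfl rfl
      simp [f]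
    obtain ⟨χ, ⟨hχ1, hχ2⟩, -⟩ :=
      @Functor.IsStronglyCartesian.universal_property' _ _ _ _ 𝒴.p _ _ _ _
        (𝒴.p.map (G.map φ0)) (G.map φ0) hGs (G.obj a) (eqToHom e) ψ hY
    have hχ : 𝒴.p.IsHomLift (𝟙 (𝒳.p.obj a)) χ := by
      have hfac := @IsHomLift.fac' _ _ _ _ 𝒴.p _ _ _ _ (eqToHom e) χ hχ1
      apply IsHomLift.of_fac' 𝒴.p _ _ (G.w_obj a) ((G.w_obj a0).trans ha0)
      rw [hfac]
      simp
    let x : 𝒳.p.Fiber (𝒳.p.obj a) := ⟨a, rfl⟩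
    let y : 𝒳.p.Fiber (𝒳.p.obj a) := ⟨a0, ha0⟩
    let m : (FibCat.fiberFunctor G (𝒳.p.obj a)).obj x ⟶ (FibCat.fiberFunctor G (𝒳.p.obj a)).obj y :=
      ⟨χ, hχ⟩
    obtain ⟨m0, hm0⟩ := (hU (𝒳.p.obj a)).1.map_surjective m
    have hχeq : G.map m0.1 = χ := congrArg Subtype.val hm0
    refine ⟨m0.1 ≫ φ0, ?_⟩
    rw [Functor.map_comp]
    change G.map m0.1 ≫ G.map φ0 = ψ
    rw [hχeq, hχ2]

end Groth.Agent.S6397
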