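import Groth.Statements.S6398
import Groth.Agent.S6397
import Groth.Agent.S6393
-- import your own Groth.Agent.* helpers here

set_option autoImplicit false
open CategoryTheory
universe v u
open FibCat

namespace Groth.Agent.S6398

/-- A functor `G` over `C` between categories fibred in groupoids is an equivalence of categories if and
only if each induced functor of fibre categories `𝒳_U ⥤ 𝒴_U` is an equivalence of categories. -/
theorem result {C : Type u} [Category.{v} C] {𝒳 𝒴 : BasedCategory.{v, max u v} C} (G : 𝒳 ⥤ᵇ 𝒴) (h𝒳 : FibCat.IsFibGrpd 𝒳.p) (h𝒴 : FibCat.IsFibGrpd 𝒴.p) :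
    G.toFunctor.IsEquivalence ↔ ∀ U : C, (FibCat.fiberFunctor G U).IsEquivalence := by
  have hff := Groth.Agent.S6397.result G h𝒳 h𝒴
  have hgrp : ∀ U, IsGroupoid (𝒴.p.Fiber U) := Groth.Agent.S6393.fwd_grpd 𝒴.p h𝒴
  constructor
  · intro hE U
    have h1 := (hff.mp ⟨hE.full, hE.faithful⟩ U)
    haveI := h1.1
    haveI := h1.2
    haveI : (FibCat.fiberFunctor G U).EssSurj := by
      constructor
      intro y
      haveI := hE.essSurj
      let x0 := G.toFunctor.objPreimage y.1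
      let e : G.obj x0 ≅ y.1 := G.toFunctor.objObjPreimageIso y.1
      let g : U ⟶ 𝒳.p.obj x0 := eqToHom y.2.symm ≫ 𝒴.p.map e.inv ≫ eqToHom (G.w_obj x0)
      obtain ⟨x, φ, hφ⟩ := h𝒳.exists_lift (x := x0) g
      have hxU : 𝒳.p.obj x = U := @IsHomLift.domain_eq _ _ _ _ 𝒳.p _ _ _ _ g φ hφ
      have hGφ : 𝒴.p.IsHomLift g (G.map φ) := by haveI := hφ; infer_instance
      have hm : 𝒴.p.IsHomLift (𝟙 U) (G.map φ ≫ e.hom) := by
        apply IsHomLift.of_fac' 𝒴.p _ _ ((G.w_obj x).trans hxU) y.2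
        rw [Functor.map_comp, @IsHomLift.fac' _ _ _ _ 𝒴.p _ _ _ _ g (G.map φ) hGφ]
        simp [g]
      let X : 𝒳.p.Fiber U := ⟨x, hxU⟩
      let m : (FibCat.fiberFunctor G U).obj X ⟶ y := ⟨G.map φ ≫ e.hom, hm⟩
      haveI : IsIso m := (hgrp U).all_isIso m
      exact ⟨X, ⟨asIso m⟩⟩
    exact { }
  · intro hU
    have h1 := hff.mpr (fun U => ⟨(hU U).full, (hU U).faithful⟩)
    haveI := h1.1
    haveI := h1.2
    haveI : G.toFunctor.EssSurj := by
      constructor
      intro y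
      haveI := (hU (𝒴.p.obj y)).essSurj
      let Y : 𝒴.p.Fiber (𝒴.p.obj y) := ⟨y, rfl⟩
      let X := (FibCat.fiberFunctor G (𝒴.p.obj y)).objPreimage Y
      let i := (FibCat.fiberFunctor G (𝒴.p.obj y)).objObjPreimageIso Y
      exact ⟨X.1, ⟨(Functor.Fiber.fiberInclusion).mapIso i⟩⟩
    exact { }

end Groth.Agent.S6398
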