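import Groth.Statements.S6408
-- import your own Groth.Agent.* helpers here

set_option autoImplicit false
open CategoryTheory
universe v u
open FibCat

namespace Groth.Agent.S6408

theorem based_ext {C : Type u} [Category.{v} C] {𝒳 𝒴 : BasedCategory.{v, max u v} C}
    {F G : 𝒳 ⥤ᵇ 𝒴} (h : F.toFunctor = G.toFunctor) : F = G := by
  cases F; cases G
  cases h
  rfl

/-- Between categories fibred in sets over `C` the only 2-morphisms over `C` are identities. -/
theorem result {C : Type u} [Category.{v} C] {𝒳 𝒴 : BasedCategory.{v, max u v} C} (h𝒳 : FibCat.IsFibSet 𝒳.p) (h𝒴 : FibCat.IsFibSet 𝒴.p) {F G : 𝒳 ⥤ᵇ 𝒴} (α : F ⟶ G) :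
    ∃ h : F = G, α = eqToHom h := by
  obtain ⟨-, hdisc⟩ := h𝒴
  have key : ∀ a : 𝒳.obj, ∃ h : F.obj a = G.obj a, α.toNatTrans.app a = eqToHom h := by
    intro a
    let x : 𝒴.p.Fiber (𝒳.p.obj a) := ⟨F.obj a, F.w_obj a⟩
    let y : 𝒴.p.Fiber (𝒳.p.obj a) := ⟨G.obj a, G.w_obj a⟩
    let m : x ⟶ y := ⟨α.toNatTrans.app a, inferInstance⟩
    have hxy : x = y := (hdisc (𝒳.p.obj a)).eq_of_hom m
    have h : F.obj a = G.obj a := congrArg Subtype.val hxy
    refine ⟨h, ?_⟩
    let m' : x ⟶ y := ⟨eqToHom h, IsHomLift.eqToHom_domain_lift_id h (F.w_obj a)⟩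
    have hmm : m = m' := Subsingleton.elim _ _
    exact congrArg Subtype.val hmm
  choose hobj happ using key
  have hF : F.toFunctor = G.toFunctor := by
    fapply Functor.ext
    · exact hobj
    · intro X Y f
      have nat := α.toNatTrans.naturality f
      rw [happ X, happ Y] at nat
      rw [← Category.assoc, ← nat]
      simp
  have hFG : F = G := based_ext hF
  refine ⟨hFG, ?_⟩
  subst hFG
  apply BasedNatTrans.homCategory.ext
  ext a
  rw [happ a]
  simp

end Groth.Agent.S6408
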