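import Groth.Statements.S6414
-- import your own Groth.Agent.* helpers here

set_option autoImplicit false
open CategoryTheory
universe v₁ u₁ v₂ u₂ v₃ u₃
open FibCat

namespace Groth.Agent.S6414

/-- A morphism that is strongly cartesian with respect to `F : 𝒜 ⥤ ℬ` and whose image is strongly
cartesian with respect to `G : ℬ ⥤ 𝒞` is strongly cartesian with respect to `F ⋙ G`. -/
theorem result {𝒜 : Type u₁} [Category.{v₁} 𝒜] {ℬ : Type u₂} [Category.{v₂} ℬ] {𝒞 : Type u₃} [Category.{v₃} 𝒞] (F : 𝒜 ⥤ ℬ) (G : ℬ ⥤ 𝒞) {x y : 𝒜} (φ : x ⟶ y)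
    [F.IsStronglyCartesian (F.map φ) φ] [G.IsStronglyCartesian (G.map (F.map φ)) (F.map φ)] :
    (F ⋙ G).IsStronglyCartesian ((F ⋙ G).map φ) φ := by
  have keyF : ∀ {a b : 𝒜} (ψ : a ⟶ b) (h : F.obj a ⟶ F.obj b), F.map ψ = h → F.IsHomLift h ψ := by
    intro a b ψ h e
    subst e
    infer_instance
  have keyG : ∀ {a b : ℬ} (ψ : a ⟶ b) (h : G.obj a ⟶ G.obj b), G.map ψ = h → G.IsHomLift h ψ := by
    intro a b ψ h e
    subst e
    infer_instance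
  have keyFG : ∀ {a b : 𝒜} (ψ : a ⟶ b) (h : (F ⋙ G).obj a ⟶ (F ⋙ G).obj b),
      (F ⋙ G).map ψ = h → (F ⋙ G).IsHomLift h ψ := by
    intro a b ψ h e
    subst e
    infer_instance
  refine ⟨fun {a'} g φ' hlift => ?_⟩
  have e1 : (F ⋙ G).map φ' = g ≫ (F ⋙ G).map φ :=
    (IsHomLift.eq_of_isHomLift (F ⋙ G) _ φ').symm
  have hG : G.IsHomLift (g ≫ G.map (F.map φ)) (F.map φ') := keyG _ _ e1
  obtain ⟨χ₁, ⟨hχ₁l, hχ₁c⟩, huniq₁⟩ :=
    Functor.IsStronglyCartesian.universal_property' (p := G) (f := G.map (F.map φ))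
      (φ := F.map φ) g (F.map φ')
  have hF : F.IsHomLift (χ₁ ≫ F.map φ) φ' := keyF _ _ hχ₁c.symm
  obtain ⟨χ, ⟨hχl, hχc⟩, huniq⟩ :=
    Functor.IsStronglyCartesian.universal_property' (p := F) (f := F.map φ) (φ := φ) χ₁ φ'
  have eχ : F.map χ = χ₁ := (IsHomLift.eq_of_isHomLift F _ χ).symm
  have eχ₁ : G.map χ₁ = g := (IsHomLift.eq_of_isHomLift G _ χ₁).symm
  refine ⟨χ, ⟨keyFG χ g (by simp [eχ, eχ₁]), hχc⟩, ?_⟩
  rintro χ' ⟨hχ'l, hχ'c⟩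
  have e2 : G.map (F.map χ') = g :=
    (IsHomLift.eq_of_isHomLift (F ⋙ G) _ χ').symm
  have h1 : F.map χ' = χ₁ := by
    apply huniq₁
    refine ⟨keyG _ _ e2, ?_⟩
    rw [← F.map_comp, hχ'c]
  apply huniq
  exact ⟨keyF _ _ h1, hχ'c⟩

end Groth.Agent.S6414
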