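import Groth.Statements.S6415
import Groth.Agent.S6414
-- import your own Groth.Agent.* helpers here

set_option autoImplicit false
open CategoryTheory
universe v₁ u₁ v₂ u₂ v₃ u₃
open FibCat

namespace Groth.Agent.S6415

/-- The composite of two fibred functors is fibred. -/
theorem result {𝒜 : Type u₁} [Category.{v₁} 𝒜] {ℬ : Type u₂} [Category.{v₂} ℬ] {𝒞 : Type u₃} [Category.{v₃} 𝒞] (F : 𝒜 ⥤ ℬ) (G : ℬ ⥤ 𝒞) [F.IsFibered] [G.IsFibered] : (F ⋙ G).IsFibered := by
  apply Functor.IsFibered.of_exists_isStronglyCartesian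
  intro a R f
  obtain ⟨b', ψ, hψ⟩ := Functor.IsPreFibered.exists_isCartesian' (p := G) f
  obtain ⟨b, φ, hφ⟩ := Functor.IsPreFibered.exists_isCartesian' (p := F) ψ
  refine ⟨b, φ, ?_⟩
  have h1 : F.obj b = b' := IsHomLift.domain_eq F ψ φ
  subst h1
  have h2 : ψ = F.map φ := IsHomLift.eq_of_isHomLift F ψ φ
  subst h2
  have h3 : G.obj (F.obj b) = R := IsHomLift.domain_eq G f (F.map φ)
  subst h3
  have h4 : f = G.map (F.map φ) := IsHomLift.eq_of_isHomLift G f (F.map φ)
  subst h4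
  exact Groth.Agent.S6414.result F G φ

end Groth.Agent.S6415
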