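import Groth.Statements.S6416
-- import your own Groth.Agent.* helpers here

set_option autoImplicit false
open CategoryTheory
universe v₁ u₁ v₂ u₂ v₃ u₃
open FibCat

namespace Groth.Agent.S6416

theorem lift_comp {𝒜 : Type u₁} [Category.{v₁} 𝒜] {ℬ : Type u₂} [Category.{v₂} ℬ]
    {𝒞 : Type u₃} [Category.{v₃} 𝒞] (F : 𝒜 ⥤ ℬ) (G : ℬ ⥤ 𝒞) {R S : 𝒞} {y' : ℬ} {y x : 𝒜}
    (f : R ⟶ S) (ψ : y' ⟶ F.obj x) (φ : y ⟶ x) (hF : F.IsHomLift ψ φ) (hG : G.IsHomLift f ψ) :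
    (F ⋙ G).IsHomLift f φ := by
  have key : ∀ {z : ℬ} (ψ' : y' ⟶ z), F.IsHomLift ψ' φ → G.IsHomLift f ψ' →
      (F ⋙ G).IsHomLift f φ := by
    intro z ψ' h1 h2
    obtain ⟨⟩ := h1
    obtain ⟨⟩ := h2
    exact Functor.IsHomLift.map (p := F ⋙ G) φ
  exact key ψ hF hG

/-- The composite of two functors fibred in groupoids is fibred in groupoids. -/
theorem result {𝒜 : Type u₁} [Category.{v₁} 𝒜] {ℬ : Type u₂} [Category.{v₂} ℬ] {𝒞 : Type u₃} [Category.{v₃} 𝒞] (F : 𝒜 ⥤ ℬ) (G : ℬ ⥤ 𝒞) (hF : FibCat.IsFibGrpd F) (hG : FibCat.IsFibGrpd G) : FibCat.IsFibGrpd (F ⋙ G) := by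
  refine ⟨?_, ?_⟩
  · intro x V f
    obtain ⟨y', ψ, hψ⟩ := hG.exists_lift (x := F.obj x) f
    obtain ⟨y, φ, hφ⟩ := hF.exists_lift (x := x) ψ
    exact ⟨y, φ, lift_comp F G f ψ φ hφ hψ⟩
  · intro y x φ
    have hGs := hG.isStronglyCartesian (F.map φ)
    have hFs := hF.isStronglyCartesian φ
    refine { toIsHomLift := inferInstance, universal_property' := ?_ }
    intro a' g φ' hφ'
    have e : g ≫ (F ⋙ G).map φ = (F ⋙ G).map φ' :=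
      @IsHomLift.eq_of_isHomLift _ _ _ _ (F ⋙ G) a' x _ φ' hφ'
    have hG1 : G.IsHomLift (g ≫ G.map (F.map φ)) (F.map φ') := by
      have e' : g ≫ G.map (F.map φ) = G.map (F.map φ') := e
      rw [e']; exact Functor.IsHomLift.map (p := G) (F.map φ')
    obtain ⟨ψ, ⟨hψ1, hψ2⟩, hψu⟩ :=
      @Functor.IsStronglyCartesian.universal_property' _ _ _ _ G _ _ _ _ (G.map (F.map φ))
        (F.map φ) hGs (F.obj a') g (F.map φ') hG1
    have hF1 : F.IsHomLift (ψ ≫ F.map φ) φ' := by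
      rw [hψ2]; exact Functor.IsHomLift.map (p := F) φ'
    obtain ⟨χ, ⟨hχ1, hχ2⟩, hχu⟩ :=
      @Functor.IsStronglyCartesian.universal_property' _ _ _ _ F _ _ _ _ (F.map φ) φ hFs a' ψ φ'
        hF1
    refine ⟨χ, ⟨lift_comp F G g ψ χ hχ1 hψ1, hχ2⟩, ?_⟩
    rintro χ' ⟨hχ'1, hχ'2⟩
    have e2 : g = (F ⋙ G).map χ' := @IsHomLift.eq_of_isHomLift _ _ _ _ (F ⋙ G) a' y g χ' hχ'1
    have hG2 : G.IsHomLift g (F.map χ') := by
      rw [e2]; exact Functor.IsHomLift.map (p := G) (F.map χ')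
    have hψeq : F.map χ' = ψ := hψu (F.map χ') ⟨hG2, by rw [← F.map_comp, hχ'2]⟩
    have hF2 : F.IsHomLift ψ χ' := by rw [← hψeq]; exact Functor.IsHomLift.map (p := F) χ'
    exact hχu χ' ⟨hF2, hχ'2⟩

end Groth.Agent.S6416
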