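import Groth.Statements.S6418
-- import your own Groth.Agent.* helpers here

set_option autoImplicit false
open CategoryTheory
universe v₁ u₁ v₂ u₂
open FibCat

namespace Groth.Agent.S6418

theorem obj_eq {C : Type u₂} [Category.{v₂} C] {U : C} (X Y : Over U) (h : X.left = Y.left)
    (hh : X.hom = eqToHom h ≫ Y.hom) : X = Y := by
  obtain ⟨Xl, ⟨⟨⟩⟩, Xh⟩ := X
  obtain ⟨Yl, ⟨⟨⟩⟩, Yh⟩ := Y
  change Xl = Yl at h
  subst h
  have : Xh = Yh := by simpa using hh
  subst this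
  rfl

theorem homlift_forget {𝒮 : Type u₁} [Category.{v₁} 𝒮] {C : Type u₂} [Category.{v₂} C] {U : C}
    (p' : 𝒮 ⥤ Over U) {a b : 𝒮} {R S : Over U} (f : R ⟶ S) (φ : a ⟶ b)
    (h : p'.IsHomLift f φ) : (p' ⋙ Over.forget U).IsHomLift f.left φ := by
  obtain ⟨⟩ := h
  exact Functor.IsHomLift.map (p := p' ⋙ Over.forget U) φ

theorem homlift_of_forget {𝒮 : Type u₁} [Category.{v₁} 𝒮] {C : Type u₂} [Category.{v₂} C] {U : C}
    (p' : 𝒮 ⥤ Over U) {a b : 𝒮} {R S : Over U} (f : R ⟶ S) (φ : a ⟶ b)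
    (ha : p'.obj a = R) (hb : p'.obj b = S) (h : (p' ⋙ Over.forget U).IsHomLift f.left φ) :
    p'.IsHomLift f φ := by
  subst ha hb
  have h1 : f.left = (p'.map φ).left :=
    @IsHomLift.eq_of_isHomLift _ _ _ _ (p' ⋙ Over.forget U) a b f.left φ h
  have hf : f = p'.map φ := Over.OverMorphism.ext h1
  subst hf
  infer_instance

/-- If `p' : 𝒮 ⥤ C/U` composed with the forgetful functor `C/U ⥤ C` is a fibred category, then so is
`p'`. -/
theorem result {𝒮 : Type u₁} [Category.{v₁} 𝒮] {C : Type u₂} [Category.{v₂} C] {U : C} (p' : 𝒮 ⥤ Over U) [(p' ⋙ Over.forget U).IsFibered] : p'.IsFibered := by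
  refine Functor.IsFibered.of_exists_isStronglyCartesian (fun a R f => ?_)
  obtain ⟨b, φ, hφ⟩ := Functor.IsPreFibered.exists_isCartesian' (p := (p' ⋙ Over.forget U)) (a := a) f.left
  have hsc := @Functor.IsFibered.isStronglyCartesian_of_isCartesian _ _ _ _ (p' ⋙ Over.forget U) _ _ _
    f.left _ _ φ hφ
  have hb : (p'.obj b).left = R.left := IsHomLift.domain_eq (p' ⋙ Over.forget U) f.left φ
  have hmap : (p'.map φ).left = eqToHom hb ≫ f.left := by
    have := IsHomLift.fac' (p' ⋙ Over.forget U) f.left φ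
    simpa using this
  have hobj : p'.obj b = R := by
    apply obj_eq _ _ hb
    rw [← Over.w (p'.map φ), hmap, Category.assoc, Over.w f]
  have hlift : p'.IsHomLift f φ := homlift_of_forget p' f φ hobj rfl hφ.toIsHomLift
  refine ⟨b, φ, ?_⟩
  refine { toIsHomLift := hlift, universal_property' := ?_ }
  intro a' g φ' hφ'
  have hq : (p' ⋙ Over.forget U).IsHomLift (g.left ≫ f.left) φ' := by
    have := homlift_forget p' (g ≫ f) φ' hφ'
    simpa using this
  obtain ⟨χ, ⟨hχ1, hχ2⟩, huniq⟩ :=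
    @Functor.IsStronglyCartesian.universal_property' _ _ _ _ (p' ⋙ Over.forget U) _ _ _ _ f.left φ
      hsc a' g.left φ' hq
  refine ⟨χ, ⟨homlift_of_forget p' g χ rfl hobj hχ1, hχ2⟩, ?_⟩
  rintro χ' ⟨hχ'1, hχ'2⟩
  exact huniq χ' ⟨homlift_forget p' g χ' hχ'1, hχ'2⟩

end Groth.Agent.S6418
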