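import Groth.Statements.S6419
import Groth.Agent.S6418
-- import your own Groth.Agent.* helpers here

set_option autoImplicit false
open CategoryTheory
universe v₁ u₁ v₂ u₂
open FibCat

namespace Groth.Agent.S6419

/-- If `p' : 𝒮 ⥤ C/U` composed with the forgetful functor `C/U ⥤ C` is fibred in groupoids, then so is
`p'`. -/
theorem result {𝒮 : Type u₁} [Category.{v₁} 𝒮] {C : Type u₂} [Category.{v₂} C] {U : C} (p' : 𝒮 ⥤ Over U) (h : FibCat.IsFibGrpd (p' ⋙ Over.forget U)) : FibCat.IsFibGrpd p' := by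
  have hq := h
  refine ⟨?_, ?_⟩
  · intro x V f
    obtain ⟨y, φ, hφ⟩ := hq.exists_lift (x := x) f.left
    have hb : (p'.obj y).left = V.left :=
      @IsHomLift.domain_eq _ _ _ _ (p' ⋙ Over.forget U) _ _ _ _ f.left φ hφ
    have hmap : (p'.map φ).left = eqToHom hb ≫ f.left := by
      have := @IsHomLift.fac' _ _ _ _ (p' ⋙ Over.forget U) _ _ _ _ f.left φ hφ
      simpa using this
    have hobj : p'.obj y = V := by
      apply Groth.Agent.S6418.obj_eq _ _ hb
      rw [← Over.w (p'.map φ), hmap, Category.assoc, Over.w f]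
    exact ⟨y, φ, Groth.Agent.S6418.homlift_of_forget p' f φ hobj rfl hφ⟩
  · intro y x φ
    have hsc := hq.isStronglyCartesian φ
    refine { toIsHomLift := inferInstance, universal_property' := ?_ }
    intro a' g φ' hφ'
    have hq' : (p' ⋙ Over.forget U).IsHomLift (g.left ≫ (p'.map φ).left) φ' := by
      have := Groth.Agent.S6418.homlift_forget p' (g ≫ p'.map φ) φ' hφ'
      simpa using this
    obtain ⟨χ, ⟨hχ1, hχ2⟩, huniq⟩ :=
      @Functor.IsStronglyCartesian.universal_property' _ _ _ _ (p' ⋙ Over.forget U) _ _ _ _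
        ((p' ⋙ Over.forget U).map φ) φ hsc a' g.left φ' hq'
    refine ⟨χ, ⟨Groth.Agent.S6418.homlift_of_forget p' g χ rfl rfl hχ1, hχ2⟩, ?_⟩
    rintro χ' ⟨hχ'1, hχ'2⟩
    exact huniq χ' ⟨Groth.Agent.S6418.homlift_forget p' g χ' hχ'1, hχ'2⟩

end Groth.Agent.S6419
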