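import Groth.Statements.S6424
import Mathlib.CategoryTheory.Limits.Constructions.FiniteProductsOfBinaryProducts
import Mathlib.CategoryTheory.Limits.Constructions.LimitsOfProductsAndEqualizers
-- import your own Groth.Agent.* helpers here

set_option autoImplicit false
open CategoryTheory CategoryTheory.Limits
universe v u
open CatLim

namespace Groth.Agent.S6424

/-- (2) ⇒ (1): a category with products of pairs and equalizers has all finite nonempty limits. -/
theorem result {C : Type u} [Category.{v} C] [HasBinaryProducts C] [HasEqualizers C]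
    (J : Type) [SmallCategory J] [FinCategory J] [Nonempty J] : HasLimitsOfShape J C := by
  have hfin : ∀ (n : ℕ) (f : Fin (n + 1) → C), HasProduct f := by
    intro n
    induction n with
    | zero =>
      intro f
      have : Subsingleton (Fin (0 + 1)) := Fin.subsingleton_one
      exact hasProduct_unique f
    | succ n ih =>
      intro f
      have := ih (fun i => f i.succ)
      exact HasLimit.mk ⟨_, extendFanIsLimit f (limit.isLimit _) (limit.isLimit _)⟩
  have hprod : ∀ (ι : Type) [Finite ι] [Nonempty ι] (f : ι → C), HasProduct f := by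
    intro ι _ _ f
    obtain ⟨n, ⟨e⟩⟩ := Finite.exists_equiv_fin ι
    obtain ⟨m, rfl⟩ : ∃ m, n = m + 1 := by
      rcases n with _ | m
      · exact (IsEmpty.false (e (Classical.arbitrary ι))).elim
      · exact ⟨m, rfl⟩
    have : HasLimitsOfShape (Discrete (Fin (m + 1))) C :=
      ⟨fun F => by
        have := hfin m (F.obj ∘ Discrete.mk)
        exact hasLimit_of_iso (Discrete.natIsoFunctor (F := F)).symm⟩
    have : HasLimitsOfShape (Discrete ι) C :=
      hasLimitsOfShape_of_equivalence (Discrete.equivalence e.symm)
    infer_instance
  refine ⟨fun F => ?_⟩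
  have := hprod J F.obj
  have : Nonempty (Σ p : J × J, p.1 ⟶ p.2) := by
    obtain ⟨j⟩ := (inferInstance : Nonempty J)
    exact ⟨⟨(j, j), 𝟙 j⟩⟩
  have := hprod (Σ p : J × J, p.1 ⟶ p.2) (fun f => F.obj f.1.2)
  exact hasLimit_of_equalizer_and_product F

end Groth.Agent.S6424
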