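import Groth.Statements.S6425
import Mathlib.CategoryTheory.Limits.Shapes.FunctorToTypes
import Mathlib.CategoryTheory.Limits.Types.Products
import Mathlib.CategoryTheory.Limits.Types.Colimits
-- import your own Groth.Agent.* helpers here

set_option autoImplicit false
open CategoryTheory CategoryTheory.Limits
universe v
open CatLim

namespace Groth.Agent.S6425

/-- Over an index category in which any two objects map to a common object, the comparison map `colim (M
× N) → colim M × colim N` for diagrams of sets is surjective. -/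
theorem result {I : Type v} [SmallCategory I]
    (hI : ∀ x y : I, ∃ (z : I) (_ : x ⟶ z) (_ : y ⟶ z), True) (M N : I ⥤ Type v) :
    Function.Surjective (prodComparison (colim : (I ⥤ Type v) ⥤ Type v) M N) := by
  intro t
  obtain ⟨i, m, hm⟩ := Types.jointly_surjective'
    ((Limits.prod.fst : (colim.obj M ⨯ colim.obj N) ⟶ colim.obj M) t)
  obtain ⟨j, n, hn⟩ := Types.jointly_surjective'
    ((Limits.prod.snd : (colim.obj M ⨯ colim.obj N) ⟶ colim.obj N) t)
  obtain ⟨z, f, g, -⟩ := hI i j
  refine ⟨colimit.ι (M ⨯ N) z (FunctorToTypes.prodMk (M.map f m) (N.map g n)), ?_⟩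
  apply (Types.binaryProductIso _ _).toEquiv.injective
  have h1 : ∀ y, (Limits.prod.fst : (colim.obj M ⨯ colim.obj N) ⟶ colim.obj M)
      (prodComparison (colim : (I ⥤ Type v) ⥤ Type v) M N y) =
      colim.map (Limits.prod.fst : M ⨯ N ⟶ M) y := by
    intro y
    rw [← ConcreteCategory.comp_apply, prodComparison_fst]
  have h2 : ∀ y, (Limits.prod.snd : (colim.obj M ⨯ colim.obj N) ⟶ colim.obj N)
      (prodComparison (colim : (I ⥤ Type v) ⥤ Type v) M N y) =
      colim.map (Limits.prod.snd : M ⨯ N ⟶ N) y := by
    intro y
    rw [← ConcreteCategory.comp_apply, prodComparison_snd]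
  refine Prod.ext ?_ ?_
  · simp only [Iso.toEquiv_fun, Types.binaryProductIso_hom_comp_fst_apply]
    rw [h1, colim_map, ← hm]
    rw [← ConcreteCategory.comp_apply, ι_colimMap, ConcreteCategory.comp_apply,
      FunctorToTypes.prodMk_fst]
    exact colimit.w_apply M f m
  · simp only [Iso.toEquiv_fun, Types.binaryProductIso_hom_comp_snd_apply]
    rw [h2, colim_map, ← hn]
    rw [← ConcreteCategory.comp_apply, ι_colimMap, ConcreteCategory.comp_apply,
      FunctorToTypes.prodMk_snd]
    exact colimit.w_apply N g n

end Groth.Agent.S6425
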