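import Groth.Statements.S6426
-- import your own Groth.Agent.* helpers here

set_option autoImplicit false
open CategoryTheory CategoryTheory.Limits
universe v
open CatLim

namespace Groth.Agent.S6426

/-- Over a nonempty index category in which any two objects map to a common object, the set-theoretic
colimit of a diagram of abelian groups surjects onto its colimit in abelian groups. (The published
statement does not require the index category to be nonempty; this row assumes it, because for the
empty index category the colimit of sets is empty while the colimit of abelian groups is the zero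
group.) -/
theorem result {I : Type v} [SmallCategory I] [Nonempty I]
    (hI : ∀ x y : I, ∃ (z : I) (_ : x ⟶ z) (_ : y ⟶ z), True) (M : I ⥤ AddCommGrpCat.{v}) :
    Function.Surjective (colimit.post M (forget AddCommGrpCat.{v})) := by
  classical
  let H : AddSubgroup (colimit M : AddCommGrpCat.{v}) :=
    { carrier := {y | ∃ (j : I) (x : M.obj j), (colimit.ι M j).hom x = y}
      zero_mem' := by
        obtain ⟨j⟩ := ‹Nonempty I›
        exact ⟨j, 0, map_zero _⟩
      add_mem' := by
        rintro _ _ ⟨j1, x1, rfl⟩ ⟨j2, x2, rfl⟩
        obtain ⟨z, f1, f2, -⟩ := hI j1 j2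
        refine ⟨z, (M.map f1).hom x1 + (M.map f2).hom x2, ?_⟩
        rw [map_add, ← colimit.w M f1, ← colimit.w M f2]
        rfl
      neg_mem' := by
        rintro _ ⟨j, x, rfl⟩
        exact ⟨j, -x, map_neg _ _⟩ }
  have hH : ∀ y, y ∈ H := by
    intro y
    let π : (colimit M : AddCommGrpCat.{v}) ⟶
        AddCommGrpCat.of ((colimit M : AddCommGrpCat.{v}) ⧸ H) :=
      AddCommGrpCat.ofHom (QuotientAddGroup.mk' H)
    have hπ : π = 0 := by
      apply colimit.hom_ext
      intro j
      ext x
      show (QuotientAddGroup.mk' H) ((colimit.ι M j).hom x) = 0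
      rw [QuotientAddGroup.mk'_apply, QuotientAddGroup.eq_zero_iff]
      exact ⟨j, x, rfl⟩
    have h2 : π.hom y = 0 := by rw [hπ]; rfl
    have h3 : (QuotientAddGroup.mk' H) y = 0 := h2
    rwa [QuotientAddGroup.mk'_apply, QuotientAddGroup.eq_zero_iff] at h3
  intro y
  obtain ⟨j, x, rfl⟩ := hH y
  refine ⟨colimit.ι (M ⋙ forget AddCommGrpCat) j x, ?_⟩
  have := colimit.ι_post M (forget AddCommGrpCat) j
  have h4 := congrArg (fun f => f x) this
  exact h4

end Groth.Agent.S6426
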