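import Groth.Statements.S6427
-- import your own Groth.Agent.* helpers here

set_option autoImplicit false
open CategoryTheory CategoryTheory.Limits
universe v
open CatLim

namespace Groth.Agent.S6427

/-- Over an index category in which every pair of morphisms with common source can be completed to a
commutative square, colimits of sets preserve injective morphisms of diagrams. -/
theorem result {I : Type v} [SmallCategory I]
    (hI : ∀ ⦃x y z : I⦄ (f : x ⟶ y) (g : x ⟶ z), ∃ (w : I) (f' : y ⟶ w) (g' : z ⟶ w), f ≫ f' = g ≫ g')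
    {M N : I ⥤ Type v} (φ : M ⟶ N) (hφ : ∀ i, Function.Injective (φ.app i)) :
    Function.Injective (colimMap φ) := by
  let Rel : (Σ j, N.obj j) → (Σ j, N.obj j) → Prop := fun a b =>
    ∃ (k : I) (f : a.1 ⟶ k) (g : b.1 ⟶ k), N.map f a.2 = N.map g b.2
  have hEqv : Equivalence Rel := by
    refine ⟨fun a => ⟨a.1, 𝟙 _, 𝟙 _, rfl⟩, fun ⟨k, f, g, h⟩ => ⟨k, g, f, h.symm⟩, ?_⟩
    rintro a b c ⟨k, f, g, h⟩ ⟨k', f', g', h'⟩
    obtain ⟨w, u, u', hu⟩ := hI g f'
    refine ⟨w, f ≫ u, g' ≫ u', ?_⟩
    rw [FunctorToTypes.map_comp_apply, FunctorToTypes.map_comp_apply, h, h'.symm,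
      ← FunctorToTypes.map_comp_apply, ← FunctorToTypes.map_comp_apply, hu]
  have hgen : ∀ a b, Relation.EqvGen N.ColimitTypeRel a b → Rel a b := by
    intro a b h
    induction h with
    | rel x y hxy =>
      obtain ⟨f, hf⟩ := hxy
      exact ⟨y.1, f, 𝟙 _, by rw [hf]; simp⟩
    | refl x => exact hEqv.refl x
    | symm x y _ ih => exact hEqv.symm ih
    | trans x y z _ _ ih1 ih2 => exact hEqv.trans ih1 ih2
  intro u v huv
  obtain ⟨i, x, rfl⟩ := Types.jointly_surjective' u
  obtain ⟨j, y, rfl⟩ := Types.jointly_surjective' v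
  have e1 : ∀ (l : I) (z : M.obj l),
      colimMap φ (colimit.ι M l z) = colimit.ι N l (φ.app l z) := by
    intro l z
    exact colimit.ι_map_apply φ l z
  rw [e1, e1] at huv
  obtain ⟨k, f, g, h⟩ := hgen _ _ (Types.colimit_eq huv)
  have h' : M.map f x = M.map g y := by
    apply hφ k
    rw [FunctorToTypes.naturality, FunctorToTypes.naturality]
    exact h
  exact Types.colimit_sound' f g h'

end Groth.Agent.S6427
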