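import Groth.Statements.S6436
import Mathlib.CategoryTheory.Adjunction.FullyFaithful
-- import your own Groth.Agent.* helpers here

set_option autoImplicit false
open CategoryTheory
universe v₁ u₁ v₂ u₂
open CatLim

namespace Groth.Agent.S6436

/-- For an adjunction `u ⊣ v`, if `v ∘ u` is fully faithful then so is `u`, and if `u ∘ v` is fully
faithful then so is `v`. -/
theorem result {C : Type u₁} [Category.{v₁} C] {D : Type u₂} [Category.{v₂} D] {u : C ⥤ D} {v : D ⥤ C} (adj : u ⊣ v) :
    ((u ⋙ v).Full → (u ⋙ v).Faithful → u.Full ∧ u.Faithful) ∧ ((v ⋙ u).Full → (v ⋙ u).Faithful → v.Full ∧ v.Faithful) := by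
  constructor
  · intro hF hFa
    have hunit : IsIso adj.unit := by
      have : ∀ X : C, IsIso (adj.unit.app X) := by
        intro X
        let m : v.obj (u.obj X) ⟶ X :=
          (u ⋙ v).preimage (v.map (adj.counit.app (u.obj X)))
        have hm : (u ⋙ v).map m = v.map (adj.counit.app (u.obj X)) := (u ⋙ v).map_preimage _
        refine ⟨⟨m, ?_, ?_⟩⟩
        · apply (u ⋙ v).map_injective
          rw [Functor.map_comp, hm, Functor.map_id]
          show v.map (u.map (adj.unit.app X)) ≫ v.map (adj.counit.app (u.obj X)) = _
          rw [← v.map_comp]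
          simp
        · have hnat := adj.unit.naturality m
          simp only [Functor.id_map] at hnat
          rw [hnat, hm]
          exact adj.right_triangle_components (u.obj X)
      exact NatIso.isIso_of_isIso_app _
    let e := adj.fullyFaithfulLOfIsIsoUnit
    exact ⟨e.full, e.faithful⟩
  · intro hF hFa
    have hcounit : IsIso adj.counit := by
      have : ∀ Y : D, IsIso (adj.counit.app Y) := by
        intro Y
        let m : Y ⟶ u.obj (v.obj Y) :=
          (v ⋙ u).preimage (u.map (adj.unit.app (v.obj Y)))
        have hm : (v ⋙ u).map m = u.map (adj.unit.app (v.obj Y)) := (v ⋙ u).map_preimage _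
        refine ⟨⟨m, ?_, ?_⟩⟩
        · have hnat := adj.counit.naturality m
          simp only [Functor.id_map] at hnat
          rw [← hnat, hm]
          exact adj.left_triangle_components (v.obj Y)
        · apply (v ⋙ u).map_injective
          rw [Functor.map_comp, hm, Functor.map_id]
          show u.map (adj.unit.app (v.obj Y)) ≫ u.map (v.map (adj.counit.app Y)) = _
          rw [← u.map_comp]
          simp
      exact NatIso.isIso_of_isIso_app _
    let e := adj.fullyFaithfulROfIsIsoCounit
    exact ⟨e.full, e.faithful⟩

end Groth.Agent.S6436
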