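import Groth.Statements.S6448
-- import your own Groth.Agent.* helpers here

set_option autoImplicit false
open CategoryTheory
universe v u
open CatLim

namespace Groth.Agent.S6448

/-- In a category where spans complete to commutative squares and parallel pairs are coequalized by a
later arrow, every connected component is filtered (so the category is a disjoint union of filtered
categories). -/
theorem result {I : Type u} [Category.{v} I]
    (h1 : ∀ ⦃w x y : I⦄ (a : w ⟶ x) (b : w ⟶ y), ∃ (z : I) (c : x ⟶ z) (d : y ⟶ z), a ≫ c = b ≫ d)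
    (h2 : ∀ ⦃x y : I⦄ (a b : x ⟶ y), ∃ (z : I) (c : y ⟶ z), a ≫ c = b ≫ c)
    (j : ConnectedComponents I) : IsFiltered j.Component := by
  have hcosp : ∀ x y : I, Zigzag x y → ∃ (z : I) (_ : x ⟶ z) (_ : y ⟶ z), True := by
    intro x y h
    induction h with
    | refl => exact ⟨x, 𝟙 x, 𝟙 x, trivial⟩
    | tail _ hyz ih =>
      obtain ⟨z, f, g, -⟩ := ih
      rcases hyz with ⟨⟨h⟩⟩ | ⟨⟨h⟩⟩
      · obtain ⟨w, c, d, -⟩ := h1 g h
        exact ⟨w, f ≫ c, d, trivial⟩
      · exact ⟨z, f, h ≫ g, trivial⟩
  have hmem : ∀ (X : j.Component) (z : I) (_ : X.obj ⟶ z), j.objectProperty z := by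
    intro X z f
    have hz : (Quotient.mk'' z : ConnectedComponents I) = Quotient.mk'' X.obj :=
      Quotient.sound' (Zigzag.of_inv f)
    exact hz.trans X.property
  have : IsFilteredOrEmpty j.Component := by
    constructor
    · intro X Y
      have hXY : Zigzag X.obj Y.obj := Quotient.exact' (X.property.trans Y.property.symm)
      obtain ⟨z, f, g, -⟩ := hcosp X.obj Y.obj hXY
      exact ⟨⟨z, hmem X z f⟩, ObjectProperty.homMk f, ObjectProperty.homMk g, trivial⟩
    · intro X Y f g
      obtain ⟨z, c, hc⟩ := h2 f.hom g.hom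
      refine ⟨⟨z, hmem Y z c⟩, ObjectProperty.homMk c, ?_⟩
      apply ObjectProperty.hom_ext
      simpa using hc
  exact { nonempty := inferInstance }

end Groth.Agent.S6448
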