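import Groth.Statements.S6457
-- import your own Groth.Agent.* helpers here

set_option autoImplicit false
universe u
open CategoryTheory AlgebraicGeometry
open Cyc

namespace Groth.Agent.S6457

/-- Let f : X → Y be a quasi-compact morphism of schemes and {Z_i} a locally finite collection of closed
subsets of X. Then the closures of the images f(Z_i) form a locally finite collection of closed
subsets of Y. (The published statement takes X and Y locally of finite type over a base; this row
allows arbitrary schemes, only quasi-compactness of f being used.) -/
theorem result (X Y : Scheme.{u}) (f : X ⟶ Y) [QuasiCompact f] (ι : Type u) (Z : ι → Set X) (hZ : ∀ i, IsClosed (Z i)) (hlf : LocallyFinite Z) : LocallyFinite (fun i => closure (f '' Z i)) := by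
  intro y
  obtain ⟨W, hW, hyW, -⟩ := exists_isAffineOpen_mem_and_subset (U := ⊤) (x := y) trivial
  have hcomp : IsCompact (f.base ⁻¹' (W : Set Y)) :=
    QuasiCompact.isCompact_preimage _ W.isOpen hW.isCompact
  refine ⟨(W : Set Y), W.isOpen.mem_nhds hyW, ?_⟩
  refine (hlf.finite_nonempty_inter_compact hcomp).subset ?_
  intro i hi
  simp only [Set.mem_setOf_eq] at hi ⊢
  rw [closure_inter_open_nonempty_iff W.isOpen, Set.image_inter_nonempty_iff] at hi
  exact hi

end Groth.Agent.S6457
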