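import Groth.Statements.S6775
import Mathlib.CategoryTheory.Abelian.CommSq
-- import your own Groth.Agent.* helpers here

set_option autoImplicit false
open CategoryTheory CategoryTheory.Limits
universe v u
open CategoryTheory CategoryTheory.Abelian

namespace Groth.Agent.S6775

set_option backward.isDefEq.respectTransparency false in
/-- In an abelian category a cartesian square whose bottom arrow `k` is an epimorphism is also
cocartesian, and the arrow `f` opposite to `k` is an epimorphism. -/
theorem result {A : Type u} [Category.{v} A] [Abelian A] {w x y z : A} (f : w ⟶ y) (g : w ⟶ x) (h : y ⟶ z) (k : x ⟶ z) (sq : IsPullback f g h k) [Epi k] : IsPushout f g h k ∧ Epi f := by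
  have hf : Epi f := MorphismProperty.of_isPullback (P := MorphismProperty.epimorphisms A)
    sq.flip (by simpa using (inferInstance : Epi k))
  refine ⟨?_, hf⟩
  let S := sq.toCommSq.shortComplex
  let S' := sq.toCommSq.shortComplex'
  have hS' : S'.Exact := sq.exact_shortComplex'
  let σ : (y ⊞ x) ≅ (y ⊞ x) :=
    { hom := biprod.map (𝟙 y) (-𝟙 x), inv := biprod.map (𝟙 y) (-𝟙 x),
      hom_inv_id := by ext <;> simp, inv_hom_id := by ext <;> simp }
  let e : S' ≅ S := ShortComplex.isoMk (Iso.refl _) σ (Iso.refl _)
    (by apply biprod.hom_ext <;> simp [S, S', σ]) (by apply biprod.hom_ext' <;> simp [S, S', σ])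
  have hS : S.Exact := ShortComplex.exact_of_iso e hS'
  have hepi : Epi S.g := by
    have : biprod.inr ≫ S.g = k := by dsimp [S]; exact biprod.inr_desc h k
    exact epi_of_epi_fac (h := k) this
  obtain ⟨hcolim⟩ := (S.exact_and_epi_g_iff_g_is_cokernel).mp ⟨hS, hepi⟩
  exact IsPushout.of_isColimit' sq.toCommSq
    ((sq.toCommSq.isColimitEquivIsColimitCokernelCofork).symm hcolim)

end Groth.Agent.S6775
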