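import Groth.Statements.S6776
import Mathlib.CategoryTheory.Abelian.CommSq
-- import your own Groth.Agent.* helpers here

set_option autoImplicit false
open CategoryTheory CategoryTheory.Limits
universe v u
open CategoryTheory CategoryTheory.Abelian

namespace Groth.Agent.S6776

set_option backward.isDefEq.respectTransparency false in
/-- In an abelian category a cocartesian square whose left arrow `g` is a monomorphism is also
cartesian, and the arrow `h` opposite to `g` is a monomorphism. -/
theorem result {A : Type u} [Category.{v} A] [Abelian A] {w x y z : A} (f : w ⟶ y) (g : w ⟶ x) (h : y ⟶ z) (k : x ⟶ z) (sq : IsPushout f g h k) [Mono g] : IsPullback f g h k ∧ Mono h := by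
  have hh : Mono h := MorphismProperty.of_isPushout (P := MorphismProperty.monomorphisms A)
    sq (by simpa using (inferInstance : Mono g))
  refine ⟨?_, hh⟩
  let S := sq.toCommSq.shortComplex
  let S' := sq.toCommSq.shortComplex'
  have hS : S.Exact := sq.exact_shortComplex
  let σ : (y ⊞ x) ≅ (y ⊞ x) :=
    { hom := biprod.map (𝟙 y) (-𝟙 x), inv := biprod.map (𝟙 y) (-𝟙 x),
      hom_inv_id := by ext <;> simp, inv_hom_id := by ext <;> simp }
  let e : S ≅ S' := ShortComplex.isoMk (Iso.refl _) σ (Iso.refl _)
    (by apply biprod.hom_ext <;> simp [S, S', σ]) (by apply biprod.hom_ext' <;> simp [S, S', σ])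
  have hS' : S'.Exact := ShortComplex.exact_of_iso e hS
  have hmono : Mono S'.f := by
    have : S'.f ≫ biprod.snd = g := by dsimp [S']; exact biprod.lift_snd f g
    exact mono_of_mono_fac (h := g) this
  obtain ⟨hlim⟩ := (S'.exact_and_mono_f_iff_f_is_kernel).mp ⟨hS', hmono⟩
  exact IsPullback.of_isLimit' sq.toCommSq
    ((sq.toCommSq.isLimitEquivIsLimitKernelFork).symm hlim)

end Groth.Agent.S6776
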