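import Groth.Statements.S6867
import Mathlib.LinearAlgebra.LinearIndependent.Lemmas
import Mathlib.Algebra.Module.Torsion.Pi
import Mathlib.LinearAlgebra.Basis.Basic
import Mathlib.LinearAlgebra.StdBasis
-- import your own Groth.Agent.* helpers here

set_option autoImplicit false
universe u
open CAlg

namespace Groth.Agent.S6867

/-- For a domain `R`, a finite `R`-module `M` is torsion free exactly when it admits an injective
`R`-linear map into `Rⁿ` for some `n`. -/
theorem result (R : Type u) [CommRing R] [IsDomain R] (M : Type u)
    [AddCommGroup M] [Module R M] [Module.Finite R M] :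
    Module.IsTorsionFree R M ↔ ∃ (n : ℕ) (f : M →ₗ[R] (Fin n → R)), Function.Injective f := by
  classical
  constructor
  · intro htf
    obtain ⟨k, s, hs⟩ := Module.Finite.exists_fin (R := R) (M := M)
    obtain ⟨I, indepI, hI⟩ := exists_maximal_linearIndepOn R s
    let N : Submodule R M := Submodule.span R (Set.range (fun x : I => s x))
    have hNeq : N = Submodule.span R (s '' I) := by
      simp only [N]
      congr 1
      ext m
      simp
    have exists_a : ∀ i : Fin k, ∃ a : R, a ≠ 0 ∧ a • s i ∈ N := by
      intro i
      by_cases hi : i ∈ I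
      · refine ⟨1, one_ne_zero, ?_⟩
        rw [one_smul]
        exact Submodule.subset_span ⟨⟨i, hi⟩, rfl⟩
      · rw [hNeq]; exact hI i hi
    choose a ha ha' using exists_a
    let A : R := ∏ i, a i
    have hA : A ≠ 0 := Finset.prod_ne_zero_iff.mpr (fun i _ => ha i)
    let φ : M →ₗ[R] M := A • LinearMap.id
    have hφinj : Function.Injective φ := by
      intro m₁ m₂ h
      exact smul_right_injective M hA h
    have hφN : ∀ m, φ m ∈ N := by
      have hle : Submodule.span R (Set.range s) ≤ N.comap φ := by
        rw [Submodule.span_le]
        rintro _ ⟨i, rfl⟩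
        show φ (s i) ∈ N
        have : φ (s i) = (∏ j ∈ Finset.univ.erase i, a j) • (a i • s i) := by
          simp only [φ, A, LinearMap.smul_apply, LinearMap.id_apply, smul_smul]
          rw [Finset.prod_erase_mul _ _ (Finset.mem_univ i)]
        rw [this]
        exact N.smul_mem _ (ha' i)
      intro m
      have : m ∈ Submodule.span R (Set.range s) := by rw [hs]; trivial
      exact hle this
    let ψ : M →ₗ[R] N := φ.codRestrict N hφN
    have hψinj : Function.Injective ψ := by
      intro m₁ m₂ h
      apply hφinj
      have := congrArg Subtype.val h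
      simpa [ψ] using this
    let b : Module.Basis I R N := Module.Basis.span indepI
    haveI : Fintype I := Fintype.ofFinite I
    let e : (I → R) ≃ₗ[R] (Fin (Fintype.card I) → R) :=
      LinearEquiv.funCongrLeft R R (Fintype.equivFin I).symm
    refine ⟨Fintype.card I, e.toLinearMap ∘ₗ b.equivFun.toLinearMap ∘ₗ ψ, ?_⟩
    intro m₁ m₂ h
    apply hψinj
    simpa using h
  · rintro ⟨n, f, hf⟩
    exact Function.Injective.moduleIsTorsionFree f hf (fun r m => map_smul f r m)

end Groth.Agent.S6867
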