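import Groth.Statements.S6866
import Groth.Agent.S6867
import Mathlib.LinearAlgebra.TensorProduct.Finiteness
import Mathlib.LinearAlgebra.TensorProduct.Pi
import Mathlib.LinearAlgebra.TensorProduct.Tower
-- import your own Groth.Agent.* helpers here

set_option autoImplicit false
universe u
open TensorProduct
open CAlg

namespace Groth.Agent.S6866
open scoped TensorProduct

/-- If `M` is a torsion free module over a domain `R` and `R → R'` is a flat ring map to another domain,
then `R' ⊗_R M` is torsion free over `R'`. -/
theorem result (R R' : Type u) [CommRing R] [IsDomain R] [CommRing R']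
    [IsDomain R'] [Algebra R R'] [Module.Flat R R'] (M : Type u) [AddCommGroup M] [Module R M]
    [Module.IsTorsionFree R M] : Module.IsTorsionFree R' (R' ⊗[R] M) := by
  classical
  rw [Module.isTorsionFree_iff_smul_eq_zero]
  intro a x hax
  by_cases ha : a = 0
  · exact Or.inl ha
  right
  obtain ⟨N, hNfin, hsub⟩ := TensorProduct.exists_finite_submodule_right_of_setFinite
    ({x} : Set (R' ⊗[R] M)) (Set.finite_singleton x)
  obtain ⟨x', hx'⟩ := LinearMap.mem_range.mp (hsub (Set.mem_singleton x))
  have hNtf : Module.IsTorsionFree R N :=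
    Function.Injective.moduleIsTorsionFree N.subtype Subtype.val_injective (fun r m => rfl)
  obtain ⟨n, f, hf⟩ := (Groth.Agent.S6867.result R N).mp hNtf
  let ι : R' ⊗[R] N →ₗ[R'] R' ⊗[R] M := LinearMap.baseChange R' N.subtype
  let φ : R' ⊗[R] N →ₗ[R'] R' ⊗[R] (Fin n → R) := LinearMap.baseChange R' f
  have hι : Function.Injective ι := by
    show Function.Injective (N.subtype.baseChange R' : R' ⊗[R] N → R' ⊗[R] M)
    rw [LinearMap.baseChange_eq_ltensor]
    exact Module.Flat.lTensor_preserves_injective_linearMap N.subtype Subtype.val_injective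
  have hφ : Function.Injective φ := by
    show Function.Injective (f.baseChange R' : R' ⊗[R] N → R' ⊗[R] (Fin n → R))
    rw [LinearMap.baseChange_eq_ltensor]
    exact Module.Flat.lTensor_preserves_injective_linearMap f hf
  let e := TensorProduct.piScalarRight R R' R' (Fin n)
  have hx'ι : ι x' = x := by
    show (N.subtype.baseChange R' : R' ⊗[R] N → R' ⊗[R] M) x' = x
    rw [LinearMap.baseChange_eq_ltensor]
    exact hx'
  have h1 : ι (a • x') = 0 := by rw [map_smul, hx'ι, hax]
  have h2 : a • x' = 0 := hι (by rw [h1, map_zero])
  have h3 : a • e (φ x') = 0 := by rw [← map_smul, ← map_smul, h2, map_zero, map_zero]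
  have h4 : e (φ x') = 0 := by
    funext i
    have := congrFun h3 i
    simp only [Pi.smul_apply, smul_eq_mul, Pi.zero_apply] at this ⊢
    exact (mul_eq_zero.mp this).resolve_left ha
  have h5 : x' = 0 := hφ (by rw [map_zero]; exact e.injective (by rw [h4, map_zero]))
  rw [← hx'ι, h5, map_zero]

end Groth.Agent.S6866
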