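import Groth.Statements.S6869
import Mathlib.LinearAlgebra.Dual.Lemmas
import Mathlib.Algebra.Module.LocalizedModule.Basic
import Mathlib.RingTheory.Localization.Integer
import Mathlib.RingTheory.Localization.FractionRing

set_option autoImplicit false
universe u
open CAlg

namespace Groth.Agent.S6869

theorem result (R : Type u) [CommRing R] [IsDomain R] (M : Type u)
    [AddCommGroup M] [Module R M] [Module.Finite R M] :
    Function.Injective (Module.Dual.eval R M) ↔ Module.IsTorsionFree R M := by
  constructor
  · intro h
    constructor
    intro r hr m₁ m₂ hm
    apply h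
    ext φ
    simp only [Module.Dual.eval_apply]
    have h1 : r * φ m₁ = r * φ m₂ := by
      have := congrArg φ hm
      simpa [smul_eq_mul] using this
    exact hr.1 h1
  · intro htf
    classical
    have hinj : ∀ m : M, LocalizedModule.mkLinearMap (nonZeroDivisors R) M m = 0 → m = 0 := by
      intro m hm
      rw [LocalizedModule.mkLinearMap_apply, ← LocalizedModule.zero_mk (1 : nonZeroDivisors R),
        LocalizedModule.mk_eq] at hm
      obtain ⟨u, hu⟩ := hm
      simp only [one_smul, smul_zero] at hu
      have hu' : (u : R) • m = 0 := hu
      exact (smul_eq_zero_iff_right (nonZeroDivisors.coe_ne_zero u)).mp hu'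
    rw [← LinearMap.ker_eq_bot, LinearMap.ker_eq_bot']
    intro m hm
    by_contra hm0
    let K := FractionRing R
    let V := LocalizedModule (nonZeroDivisors R) M
    let f : M →ₗ[R] V := LocalizedModule.mkLinearMap (nonZeroDivisors R) M
    have hfm : f m ≠ 0 := fun h0 => hm0 (hinj m h0)
    obtain ⟨ψ, hψ⟩ : ∃ ψ : Module.Dual K V, ψ (f m) ≠ 0 := by
      by_contra hne
      simp only [not_exists, not_not] at hne
      exact hfm ((Module.forall_dual_apply_eq_zero_iff K (f m)).mp hne)
    let g : M →ₗ[R] K := (ψ.restrictScalars R) ∘ₗ f
    have hgm : g m ≠ 0 := hψ
    obtain ⟨s, hs⟩ := Module.Finite.fg_top (R := R) (M := M)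
    obtain ⟨b, hb⟩ := IsLocalization.exist_integer_multiples_of_finset (nonZeroDivisors R)
      (s.image g)
    have hall : ∀ x : M, IsLocalization.IsInteger R ((b : R) • g x) := by
      intro x
      have hx : x ∈ Submodule.span R (s : Set M) := hs ▸ Submodule.mem_top
      induction hx using Submodule.span_induction with
      | mem y hy => exact hb _ (Finset.mem_image_of_mem g hy)
      | zero => rw [map_zero, smul_zero]; exact IsLocalization.isInteger_zero
      | add y z _ _ hy hz => rw [map_add, smul_add]; exact IsLocalization.isInteger_add hy hz
      | smul a y _ hy => rw [map_smul, smul_comm]; exact IsLocalization.isInteger_smul hy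
    have hinjK : Function.Injective (algebraMap R K) := IsFractionRing.injective R K
    let c : M → R := fun x => (hall x).choose
    have hc : ∀ x, algebraMap R K (c x) = (b : R) • g x := fun x => (hall x).choose_spec
    let φ : M →ₗ[R] R :=
      { toFun := c
        map_add' := by
          intro x y
          apply hinjK
          rw [map_add, hc, hc, hc, map_add, smul_add]
        map_smul' := by
          intro a x
          apply hinjK
          rw [hc, map_smul, smul_comm, RingHom.id_apply, smul_eq_mul, map_mul, hc,
            Algebra.smul_def] }
    have hφm : φ m ≠ 0 := by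
      intro h0
      have h1 : algebraMap R K (c m) = 0 := by
        show algebraMap R K (φ m) = 0
        rw [h0, map_zero]
      rw [hc, Algebra.smul_def] at h1
      rcases mul_eq_zero.mp h1 with h2 | h2
      · exact IsFractionRing.to_map_ne_zero_of_mem_nonZeroDivisors b.2 h2
      · exact hgm h2
    apply hφm
    have := congrArg (fun F : Module.Dual R (Module.Dual R M) => F φ) hm
    simpa using this

end Groth.Agent.S6869
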