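import Groth.Statements.S6882
import Mathlib.LinearAlgebra.FreeModule.PID
import Mathlib.Algebra.Module.Torsion.Basic
-- import your own Groth.Agent.* helpers here

set_option autoImplicit false
universe u
open CAlg

namespace Groth.Agent.S6882

/-- For a finite module `M` over a discrete valuation ring `R`, the evaluation map from `M` to its
double dual `M**` is surjective. -/
theorem result (R : Type u) [CommRing R] [IsDomain R]
    [IsDiscreteValuationRing R] (M : Type u) [AddCommGroup M] [Module R M] [Module.Finite R M] :
    Function.Surjective (Module.Dual.eval R M) := by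
  intro ψ
  have hkill : ∀ φ : Module.Dual R M, Submodule.torsion R M ≤ LinearMap.ker φ := by
    intro φ t ht
    obtain ⟨⟨r, hr⟩, hrt⟩ := (Submodule.mem_torsion_iff t).mp ht
    rw [LinearMap.mem_ker]
    have h : r * φ t = 0 := by
      rw [← smul_eq_mul, ← LinearMap.map_smul]
      simpa using congrArg φ hrt
    exact (mul_eq_zero.mp h).resolve_left (nonZeroDivisors.ne_zero hr)
  let ψ' : Module.Dual R (Module.Dual R (M ⧸ Submodule.torsion R M)) :=
    ψ ∘ₗ (Submodule.torsion R M).mkQ.dualMap
  obtain ⟨q, hq⟩ := (Module.bijective_dual_eval R (M ⧸ Submodule.torsion R M)).2 ψ'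
  obtain ⟨m, rfl⟩ := (Submodule.torsion R M).mkQ_surjective q
  refine ⟨m, ?_⟩
  ext φ
  have h1 := LinearMap.congr_fun hq ((Submodule.torsion R M).liftQ φ (hkill φ))
  have h2 : (Submodule.torsion R M).mkQ.dualMap ((Submodule.torsion R M).liftQ φ (hkill φ)) = φ := by
    ext x
    simp [LinearMap.dualMap_apply]
  simp only [Module.Dual.eval_apply, Submodule.mkQ_apply, Submodule.liftQ_apply, ψ',
    LinearMap.comp_apply, h2] at h1
  rw [Module.Dual.eval_apply, h1]

end Groth.Agent.S6882
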