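import Groth.Statements.S6933
import Mathlib.Algebra.Category.Grp.EpiMono
-- import your own Groth.Agent.* helpers here

set_option autoImplicit false
universe u
open CategoryTheory
open InjHull

namespace Groth.Agent.S6933

/-- An abelian group `J` that is injective as an object of the category of abelian groups is divisible:
`n J = J` for every nonzero integer `n`. (The published statement is an equivalence; this row states
the implication from injective to divisible.) -/
theorem result (J : Type u) [AddCommGroup J] (hJ : Injective (AddCommGrpCat.of J))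
    (n : ℤ) (hn : n ≠ 0) (x : J) : ∃ y : J, n • y = x := by
  have := hJ
  have hφ : Function.Injective ((AddEquiv.ulift.{0, u} (α := ℤ)).symm.toAddMonoidHom.comp
      ((AddMonoidHom.mulLeft n).comp (AddEquiv.ulift.{0, u} (α := ℤ)).toAddMonoidHom)) := by
    intro a b hab
    have h2 : n * a.down = n * b.down := by
      have := congrArg ULift.down hab
      simpa using this
    exact ULift.ext _ _ (mul_left_cancel₀ hn h2)
  have hmono : Mono (AddCommGrpCat.ofHom ((AddEquiv.ulift.{0, u} (α := ℤ)).symm.toAddMonoidHom.comp
      ((AddMonoidHom.mulLeft n).comp (AddEquiv.ulift.{0, u} (α := ℤ)).toAddMonoidHom))) :=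
    (AddCommGrpCat.mono_iff_injective _).mpr hφ
  obtain ⟨h, hh⟩ := Injective.factors (J := AddCommGrpCat.of J)
    (AddCommGrpCat.ofHom ((zmultiplesHom J x).comp (AddEquiv.ulift.{0, u} (α := ℤ)).toAddMonoidHom))
    (AddCommGrpCat.ofHom ((AddEquiv.ulift.{0, u} (α := ℤ)).symm.toAddMonoidHom.comp
      ((AddMonoidHom.mulLeft n).comp (AddEquiv.ulift.{0, u} (α := ℤ)).toAddMonoidHom)))
  refine ⟨h.hom (ULift.up 1), ?_⟩
  have := congrArg (fun k => k.hom (ULift.up 1)) hh
  simp only [AddCommGrpCat.hom_comp, AddCommGrpCat.hom_ofHom, AddMonoidHom.coe_comp,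
    Function.comp_apply] at this
  have e1 : (AddEquiv.ulift.{0, u} (α := ℤ)) (ULift.up 1) = 1 := rfl
  simp only [AddEquiv.toAddMonoidHom_eq_coe, AddMonoidHom.coe_coe, e1, AddMonoidHom.coe_mulLeft,
    mul_one, zmultiplesHom_apply, one_smul] at this
  rw [← this, ← map_zsmul]
  congr 1
  exact ULift.ext _ _ (by simp; rfl)

end Groth.Agent.S6933
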