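import Groth.Statements.S7038
import Mathlib.RingTheory.Finiteness.Ideal
-- import your own Groth.Agent.* helpers here

set_option autoImplicit false
universe u
open LocCoh

namespace Groth.Agent.S7038

/-- For an ideal I of a commutative ring R and an R-module M, if every element of M is killed by a power
of I then the support of M is contained in the closed set V(I); conversely, when I is finitely
generated and the support of M is contained in V(I), every element of M is killed by a power of I.
(Finite generation is used only for the converse.) -/
theorem result {R : Type u} [CommRing R] (I : Ideal R)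
    (M : Type u) [AddCommGroup M] [Module R M] :
    (LocCoh.IsPowerTorsion I M → Module.support R M ⊆ PrimeSpectrum.zeroLocus (I : Set R)) ∧
    (I.FG → Module.support R M ⊆ PrimeSpectrum.zeroLocus (I : Set R) → LocCoh.IsPowerTorsion I M) := by
  constructor
  · intro h p hp
    rw [Module.mem_support_iff_exists_annihilator] at hp
    obtain ⟨m, hm⟩ := hp
    obtain ⟨n, hn⟩ := h m
    have hle : I ^ n ≤ p.asIdeal := by
      refine le_trans (fun a ha => ?_) hm
      rw [Submodule.mem_annihilator_span_singleton]
      exact hn a ha
    rw [PrimeSpectrum.mem_zeroLocus, SetLike.coe_subset_coe]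
    exact Ideal.IsPrime.le_of_pow_le hle
  · intro hfg hsupp m
    have hIrad : I ≤ (Submodule.span R {m}).annihilator.radical := by
      rw [Ideal.radical_eq_sInf, le_sInf_iff]
      rintro q ⟨hJq, hq⟩
      have hmem : (⟨q, hq⟩ : PrimeSpectrum R) ∈ Module.support R M := by
        rw [Module.mem_support_iff_exists_annihilator]
        exact ⟨m, hJq⟩
      have := hsupp hmem
      rw [PrimeSpectrum.mem_zeroLocus, SetLike.coe_subset_coe] at this
      exact this
    obtain ⟨n, hn⟩ := Ideal.exists_pow_le_of_le_radical_of_fg hIrad hfg
    exact ⟨n, fun a ha => (Submodule.mem_annihilator_span_singleton _ _).mp (hn ha)⟩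

end Groth.Agent.S7038
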