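import Groth.Statements.S7039
-- import your own Groth.Agent.* helpers here

set_option autoImplicit false
universe u
open LocCoh

namespace Groth.Agent.S7039

/-- For a finitely generated ideal I of a commutative ring R and any R-module M, the quotient of M by
its submodule of I-power torsion elements has no nonzero element annihilated by I. -/
theorem result {R : Type u} [CommRing R] (I : Ideal R) (hI : I.FG)
    (M : Type u) [AddCommGroup M] [Module R M] :
    LocCoh.torsionBy I (M ⧸ DRing.torsionSub I M) = ⊥ := by
  classical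
  rw [Submodule.eq_bot_iff]
  intro x hx
  obtain ⟨m, rfl⟩ := Submodule.Quotient.mk_surjective _ x
  rw [Submodule.mem_torsionBySet_iff] at hx
  have hx' : ∀ a ∈ I, a • m ∈ DRing.torsionSub I M := by
    intro a ha
    have := hx ⟨a, ha⟩
    rw [← Submodule.Quotient.mk_smul, Submodule.Quotient.mk_eq_zero] at this
    exact this
  obtain ⟨s, hs⟩ := hI
  have hx'' : ∀ a ∈ (s : Set R), ∃ n : ℕ, ∀ b ∈ I ^ n, b • a • m = 0 := fun a ha =>
    hx' a (hs ▸ Ideal.subset_span ha)
  choose! N hN using hx''
  rw [Submodule.Quotient.mk_eq_zero]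
  show ∃ n : ℕ, ∀ a ∈ I ^ n, a • m = 0
  refine ⟨s.sup N + 1, fun b hb => ?_⟩
  let J : Ideal R := LinearMap.ker (LinearMap.toSpanSingleton R M m)
  have hJ : ∀ c, c ∈ J ↔ c • m = 0 := fun c => by simp [J]
  have key : I ^ (s.sup N + 1) ≤ J := by
    rw [pow_succ, Ideal.mul_le]
    intro x hxI y hy
    rw [← hs] at hy
    induction hy using Submodule.span_induction with
    | mem y hy =>
      rw [hJ, mul_smul]
      exact hN y hy x (Ideal.pow_le_pow_right (Finset.le_sup hy) hxI)
    | zero => rw [mul_zero]; exact J.zero_mem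
    | add y1 y2 _ _ h1 h2 => rw [mul_add]; exact J.add_mem h1 h2
    | smul c y _ h =>
      rw [smul_eq_mul, mul_left_comm]
      exact J.mul_mem_left c h
  exact (hJ b).mp (key hb)

end Groth.Agent.S7039
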