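import Groth.Statements.S7040
import Mathlib.Algebra.Homology.ShortComplex.ModuleCat
-- import your own Groth.Agent.* helpers here

set_option autoImplicit false
universe u
open CategoryTheory
open LocCoh

namespace Groth.Agent.S7040

/-- For a finitely generated ideal I of a commutative ring R, the property of being an I-power torsion
module (every element killed by a power of I) is a Serre class in the category of R-modules: it
holds for 0 and is closed under subobjects, quotients and extensions. -/
theorem result {R : Type u} [CommRing R] (I : Ideal R) (hI : I.FG) :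
    ObjectProperty.IsSerreClass (C := ModuleCat.{u} R) (fun M => LocCoh.IsPowerTorsion I M) := by
  classical
  refine { exists_zero := ?_, prop_of_mono := ?_, prop_of_epi := ?_, prop_X₂_of_shortExact := ?_ }
  · refine ⟨ModuleCat.of R PUnit, ModuleCat.isZero_of_subsingleton _, ?_⟩
    intro m
    exact ⟨0, fun a _ => Subsingleton.elim _ _⟩
  · intro X Y f hf hY x
    have hinj : Function.Injective f.hom := (ModuleCat.mono_iff_injective f).mp hf
    obtain ⟨n, hn⟩ := hY (f.hom x)
    refine ⟨n, fun a ha => hinj ?_⟩
    rw [map_smul, hn a ha, map_zero]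
  · intro X Y f hf hX y
    have hsurj : Function.Surjective f.hom := (ModuleCat.epi_iff_surjective f).mp hf
    obtain ⟨x, rfl⟩ := hsurj y
    obtain ⟨n, hn⟩ := hX x
    refine ⟨n, fun a ha => ?_⟩
    rw [← map_smul, hn a ha, map_zero]
  · intro S hS h₁ h₃ m
    have hex := (ShortComplex.moduleCat_exact_iff S).mp hS.exact
    obtain ⟨n, hn⟩ := h₃ (S.g.hom m)
    have hgen : ∀ a ∈ I ^ n, ∃ k : ℕ, ∀ b ∈ I ^ k, (b * a) • m = 0 := by
      intro a ha
      have h0 : S.g.hom (a • m) = 0 := by rw [map_smul, hn a ha]
      obtain ⟨x, hx⟩ := hex (a • m) h0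
      obtain ⟨k, hk⟩ := h₁ x
      refine ⟨k, fun b hb => ?_⟩
      have : S.f.hom (b • x) = (b * a) • m := by
        rw [map_smul]
        rw [hx, mul_smul]
      rw [← this, hk b hb, map_zero]
    have hgen' : ∀ a : R, ∃ k : ℕ, a ∈ I ^ n → ∀ b ∈ I ^ k, (b * a) • m = 0 := by
      intro a
      by_cases ha : a ∈ I ^ n
      · obtain ⟨k, hk⟩ := hgen a ha
        exact ⟨k, fun _ => hk⟩
      · exact ⟨0, fun h => absurd h ha⟩
    choose k hk using hgen'
    obtain ⟨s, hs⟩ := (Ideal.FG.pow (n := n) hI)
    set N := s.sup k with hN
    have key : ∀ a ∈ I ^ n, ∀ b ∈ I ^ N, (b * a) • m = 0 := by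
      intro a ha
      rw [← hs] at ha
      induction ha using Submodule.span_induction with
      | mem x hx =>
        intro b hb
        have hxI : x ∈ I ^ n := hs ▸ Submodule.subset_span hx
        have hle : k x ≤ N := Finset.le_sup hx
        exact hk x hxI b (Ideal.pow_le_pow_right hle hb)
      | zero => intro b _; simp
      | add x y _ _ hx hy =>
        intro b hb
        rw [mul_add, add_smul, hx b hb, hy b hb, add_zero]
      | smul c x _ hx =>
        intro b hb
        rw [smul_eq_mul, show b * (c * x) = c * (b * x) by ring, mul_smul, hx b hb, smul_zero]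
    refine ⟨N + n, fun z hz => ?_⟩
    rw [pow_add] at hz
    refine Submodule.mul_induction_on (C := fun z => z • m = 0) hz ?_ ?_
    · intro b hb a ha
      exact key a ha b hb
    · intro x y hx hy
      beta_reduce at hx hy ⊢
      rw [add_smul, hx, hy, add_zero]

end Groth.Agent.S7040
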