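import Groth.Statements.S7041
-- import your own Groth.Agent.* helpers here

set_option autoImplicit false
universe u
open TensorProduct
open LocCoh

namespace Groth.Agent.S7041

/-- Let R → R' be a homomorphism of commutative rings and I an ideal of R such that the induced map
R/I^n → R'/I^n R' is bijective for every n > 0. Then for every R-module M in which every element is
killed by a power of I, the map M → R' ⊗_R M sending m to 1 ⊗ m is bijective. -/
theorem result {R R' : Type u} [CommRing R] [CommRing R'] [Algebra R R']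
    (I : Ideal R)
    (hq : ∀ n : ℕ, 0 < n → Function.Bijective
      (Ideal.quotientMap (Ideal.map (algebraMap R R') (I ^ n)) (algebraMap R R') Ideal.le_comap_map))
    (M : Type u) [AddCommGroup M] [Module R M] (hM : LocCoh.IsPowerTorsion I M) :
    Function.Bijective (fun m : M => (1 : R') ⊗ₜ[R] m) := by
  classical
  have hex : ∀ (n : ℕ), 0 < n → ∀ r' : R', ∃ r : R,
      algebraMap R R' r - r' ∈ Ideal.map (algebraMap R R') (I ^ n) := by
    intro n hn r'
    obtain ⟨q, hq'⟩ := (hq n hn).2 (Ideal.Quotient.mk _ r')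
    obtain ⟨r, rfl⟩ := Ideal.Quotient.mk_surjective q
    refine ⟨r, ?_⟩
    rw [Ideal.quotientMap_mk] at hq'
    exact Ideal.Quotient.eq.mp hq'
  have huniq : ∀ (n : ℕ), 0 < n → ∀ r₁ r₂ : R,
      algebraMap R R' r₁ - algebraMap R R' r₂ ∈ Ideal.map (algebraMap R R') (I ^ n) →
      r₁ - r₂ ∈ I ^ n := by
    intro n hn r₁ r₂ h
    have : Ideal.quotientMap (Ideal.map (algebraMap R R') (I ^ n)) (algebraMap R R')
        Ideal.le_comap_map (Ideal.Quotient.mk _ r₁) =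
        Ideal.quotientMap (Ideal.map (algebraMap R R') (I ^ n)) (algebraMap R R')
        Ideal.le_comap_map (Ideal.Quotient.mk _ r₂) := by
      rw [Ideal.quotientMap_mk, Ideal.quotientMap_mk]
      exact Ideal.Quotient.eq.mpr h
    exact Ideal.Quotient.eq.mp ((hq n hn).1 this)
  let P : R' → M → R → Prop := fun r' m r => ∃ n : ℕ, 0 < n ∧ (∀ a ∈ I ^ n, a • m = 0) ∧
      algebraMap R R' r - r' ∈ Ideal.map (algebraMap R R') (I ^ n)
  have hPex : ∀ r' m, ∃ r, P r' m r := by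
    intro r' m
    obtain ⟨n, hn⟩ := hM m
    obtain ⟨r, hr⟩ := hex (n + 1) (Nat.succ_pos n) r'
    exact ⟨r, n + 1, Nat.succ_pos n,
      fun a ha => hn a (Ideal.pow_le_pow_right (Nat.le_succ n) ha), hr⟩
  have hPun : ∀ r' m r₁ r₂, P r' m r₁ → P r' m r₂ → r₁ • m = r₂ • m := by
    intro r' m r₁ r₂ hp₁ hp₂
    obtain ⟨n₁, hn₁, hk₁, h₁⟩ := hp₁
    obtain ⟨n₂, hn₂, hk₂, h₂⟩ := hp₂
    have key : ∀ k, 0 < k → (∀ a ∈ I ^ k, a • m = 0) → k ≤ n₁ → k ≤ n₂ →
        r₁ • m = r₂ • m := by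
      intro k hk hkk hk1 hk2
      have h1 : algebraMap R R' r₁ - r' ∈ Ideal.map (algebraMap R R') (I ^ k) :=
        Ideal.map_mono (Ideal.pow_le_pow_right hk1) h₁
      have h2 : algebraMap R R' r₂ - r' ∈ Ideal.map (algebraMap R R') (I ^ k) :=
        Ideal.map_mono (Ideal.pow_le_pow_right hk2) h₂
      have h3 := huniq k hk r₁ r₂ (by
        have := sub_mem h1 h2
        rwa [sub_sub_sub_cancel_right] at this)
      have := hkk _ h3
      rwa [sub_smul, sub_eq_zero] at this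
    rcases le_total n₁ n₂ with h | h
    · exact key n₁ hn₁ hk₁ le_rfl h
    · exact key n₂ hn₂ hk₂ h le_rfl
  let φ₀ : R' → M → M := fun r' m => (Classical.choose (hPex r' m)) • m
  have hφ₀ : ∀ r' m r, P r' m r → φ₀ r' m = r • m := fun r' m r h =>
    hPun r' m _ r (Classical.choose_spec (hPex r' m)) h
  have hadd1 : ∀ r₁' r₂' m, φ₀ (r₁' + r₂') m = φ₀ r₁' m + φ₀ r₂' m := by
    intro r₁' r₂' m
    obtain ⟨r₁, h₁⟩ := hPex r₁' m
    obtain ⟨r₂, h₂⟩ := hPex r₂' m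
    rw [hφ₀ _ _ _ h₁, hφ₀ _ _ _ h₂, ← add_smul]
    apply hφ₀
    obtain ⟨n₁, hn₁, hk₁, e₁⟩ := h₁
    obtain ⟨n₂, hn₂, hk₂, e₂⟩ := h₂
    rcases le_total n₁ n₂ with h | h
    · refine ⟨n₁, hn₁, hk₁, ?_⟩
      have e₂' := Ideal.map_mono (f := algebraMap R R') (Ideal.pow_le_pow_right h) e₂
      have := add_mem e₁ e₂'
      rw [map_add]; convert this using 1; ring
    · refine ⟨n₂, hn₂, hk₂, ?_⟩
      have e₁' := Ideal.map_mono (f := algebraMap R R') (Ideal.pow_le_pow_right h) e₁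
      have := add_mem e₁' e₂
      rw [map_add]; convert this using 1; ring
  have hsmul1 : ∀ (s : R) r' m, φ₀ (s • r') m = s • φ₀ r' m := by
    intro s r' m
    obtain ⟨r, h⟩ := hPex r' m
    rw [hφ₀ _ _ _ h, ← mul_smul]
    apply hφ₀
    obtain ⟨n, hn, hk, e⟩ := h
    refine ⟨n, hn, hk, ?_⟩
    have := Ideal.mul_mem_left _ (algebraMap R R' s) e
    rw [map_mul, Algebra.smul_def]; convert this using 1; ring
  have hadd2 : ∀ r' m₁ m₂, φ₀ r' (m₁ + m₂) = φ₀ r' m₁ + φ₀ r' m₂ := by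
    intro r' m₁ m₂
    obtain ⟨n₁, hn₁⟩ := hM m₁
    obtain ⟨n₂, hn₂⟩ := hM m₂
    obtain ⟨r, hr⟩ := hex (n₁ + n₂ + 1) (Nat.succ_pos _) r'
    have k1 : ∀ a ∈ I ^ (n₁ + n₂ + 1), a • m₁ = 0 := fun a ha =>
      hn₁ a (Ideal.pow_le_pow_right (by omega) ha)
    have k2 : ∀ a ∈ I ^ (n₁ + n₂ + 1), a • m₂ = 0 := fun a ha =>
      hn₂ a (Ideal.pow_le_pow_right (by omega) ha)
    rw [hφ₀ r' m₁ r ⟨_, Nat.succ_pos _, k1, hr⟩, hφ₀ r' m₂ r ⟨_, Nat.succ_pos _, k2, hr⟩,
      hφ₀ r' (m₁ + m₂) r ⟨_, Nat.succ_pos _,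
        fun a ha => by rw [smul_add, k1 a ha, k2 a ha, add_zero], hr⟩, smul_add]
  have hsmul2 : ∀ (s : R) r' m, φ₀ r' (s • m) = s • φ₀ r' m := by
    intro s r' m
    obtain ⟨r, h⟩ := hPex r' m
    rw [hφ₀ _ _ _ h]
    obtain ⟨n, hn, hk, e⟩ := h
    rw [hφ₀ r' (s • m) r ⟨n, hn, fun a ha => by rw [smul_comm, hk a ha, smul_zero], e⟩,
      smul_comm]
  let B : R' →ₗ[R] M →ₗ[R] M := LinearMap.mk₂ R φ₀ hadd1 hsmul1 hadd2 hsmul2
  let Φ : R' ⊗[R] M →ₗ[R] M := TensorProduct.lift B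
  have hΦ : ∀ r' m, Φ (r' ⊗ₜ m) = φ₀ r' m := fun r' m => by
    simp only [Φ, B, TensorProduct.lift.tmul, LinearMap.mk₂_apply]
  have hkill : ∀ (m : M) (n : ℕ), (∀ a ∈ I ^ n, a • m = 0) →
      ∀ x ∈ Ideal.map (algebraMap R R') (I ^ n), x ⊗ₜ[R] m = 0 := by
    intro m n hm x hx
    induction hx using Submodule.span_induction with
    | mem x hx =>
      obtain ⟨a, ha, rfl⟩ := hx
      rw [Algebra.algebraMap_eq_smul_one, TensorProduct.smul_tmul, hm a ha,
        TensorProduct.tmul_zero]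
    | zero => exact TensorProduct.zero_tmul _ _
    | add x y _ _ hx hy => rw [TensorProduct.add_tmul, hx, hy, add_zero]
    | smul c x _ hx =>
      rw [← TensorProduct.smul_tmul', hx, smul_zero]
  have hleft : ∀ m : M, Φ ((1 : R') ⊗ₜ[R] m) = m := by
    intro m
    rw [hΦ]
    obtain ⟨n, hn⟩ := hM m
    rw [hφ₀ 1 m 1 ⟨n + 1, Nat.succ_pos n,
      fun a ha => hn a (Ideal.pow_le_pow_right (Nat.le_succ n) ha), by simp⟩, one_smul]
  have hright : ∀ t : R' ⊗[R] M, (1 : R') ⊗ₜ[R] (Φ t) = t := by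
    intro t
    induction t using TensorProduct.induction_on with
    | zero => rw [map_zero, TensorProduct.tmul_zero]
    | tmul r' m =>
      rw [hΦ]
      obtain ⟨r, h⟩ := hPex r' m
      rw [hφ₀ _ _ _ h]
      obtain ⟨n, hn, hk, e⟩ := h
      rw [← TensorProduct.smul_tmul, ← Algebra.algebraMap_eq_smul_one]
      have := hkill m n hk _ e
      rw [TensorProduct.sub_tmul, sub_eq_zero] at this
      exact this
    | add x y hx hy => rw [map_add, TensorProduct.tmul_add, hx, hy]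
  refine ⟨fun m₁ m₂ h => ?_, fun t => ⟨Φ t, hright t⟩⟩
  have h' := congrArg Φ h
  simp only at h'
  rwa [hleft, hleft] at h'

end Groth.Agent.S7041
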