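import Groth.Statements.S7065
import Mathlib.RingTheory.Spectrum.Prime.Topology
-- import your own Groth.Agent.* helpers here

set_option autoImplicit false
universe u
open EtGlue

namespace Groth.Agent.S7065

/-- Let R → R' be a homomorphism of commutative rings and f an element of R such that the induced map
R/fR → R'/fR' is bijective. Then Spec(R') ⊔ Spec(R_f) → Spec(R) is surjective: every prime of R is
the contraction of a prime of R' or of a prime of R_f. -/
theorem result {R R' : Type u} [CommRing R] [CommRing R']
    [Algebra R R'] (f : R)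
    (hq : Function.Bijective
      (Ideal.quotientMap (Ideal.map (algebraMap R R') (Ideal.span {f})) (algebraMap R R') Ideal.le_comap_map))
    (p : PrimeSpectrum R) :
    (∃ q : PrimeSpectrum R', PrimeSpectrum.comap (algebraMap R R') q = p) ∨
      ∃ q : PrimeSpectrum (Localization.Away f), PrimeSpectrum.comap (algebraMap R (Localization.Away f)) q = p := by
  classical
  by_cases hf : f ∈ p.asIdeal
  · left
    let φ := Ideal.quotientMap (Ideal.map (algebraMap R R') (Ideal.span {f})) (algebraMap R R')
      Ideal.le_comap_map
    let e : (R ⧸ Ideal.span {f}) ≃+* (R' ⧸ Ideal.map (algebraMap R R') (Ideal.span {f})) :=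
      RingEquiv.ofBijective φ hq
    have hker : Ideal.span {f} ≤ p.asIdeal := (Ideal.span_singleton_le_iff_mem _).mpr hf
    let pbar : Ideal (R ⧸ Ideal.span {f}) := Ideal.map (Ideal.Quotient.mk _) p.asIdeal
    have hpbar : pbar.IsPrime := Ideal.map_isPrime_of_surjective Ideal.Quotient.mk_surjective
      (by rwa [Ideal.mk_ker])
    let Qbar : Ideal (R' ⧸ Ideal.map (algebraMap R R') (Ideal.span {f})) :=
      Ideal.comap (e.symm : (R' ⧸ Ideal.map (algebraMap R R') (Ideal.span {f})) →+*
        (R ⧸ Ideal.span {f})) pbar
    have hQbar : Qbar.IsPrime := Ideal.comap_isPrime _ _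
    let q : Ideal R' := Ideal.comap (Ideal.Quotient.mk _) Qbar
    have hq' : q.IsPrime := Ideal.comap_isPrime _ _
    refine ⟨⟨q, hq'⟩, ?_⟩
    ext x
    rw [PrimeSpectrum.comap_asIdeal, Ideal.mem_comap]
    change e.symm (Ideal.Quotient.mk _ (algebraMap R R' x)) ∈ pbar ↔ x ∈ p.asIdeal
    have h1 : Ideal.Quotient.mk (Ideal.map (algebraMap R R') (Ideal.span {f})) (algebraMap R R' x)
        = e (Ideal.Quotient.mk _ x) := by
      change _ = φ (Ideal.Quotient.mk _ x)
      rw [Ideal.quotientMap_mk]
    rw [h1, RingEquiv.symm_apply_apply]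
    exact Ideal.mem_quotient_iff_mem hker
  · right
    have hmem : p ∈ Set.range (PrimeSpectrum.comap (algebraMap R (Localization.Away f))) := by
      rw [PrimeSpectrum.localization_away_comap_range (Localization.Away f) f]
      exact hf
    obtain ⟨q, hq'⟩ := hmem
    exact ⟨q, hq'⟩

end Groth.Agent.S7065
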