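import Groth.Statements.S7085
import Mathlib.RingTheory.Finiteness.Ideal
-- import your own Groth.Agent.* helpers here

set_option autoImplicit false
universe u
open LocCoh

namespace Groth.Agent.S7085

/-- Let R be a commutative ring, I an ideal generated by finitely many elements f_1, …, f_t, and M an
R-module. Then: M has no nonzero element killed by I if and only if it has no nonzero element killed
by I^n for every n ≥ 1; and M has no nonzero element killed by I if and only if an element of M
vanishing in every localization M_{f_i} is zero. -/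
theorem result {R : Type u} [CommRing R] {t : ℕ} (f : Fin t → R)
    (I : Ideal R) (hI : Ideal.span (Set.range f) = I) (M : Type u) [AddCommGroup M] [Module R M] :
    (LocCoh.torsionBy I M = ⊥ ↔ ∀ n : ℕ, 1 ≤ n → LocCoh.torsionBy (I ^ n) M = ⊥) ∧
    (LocCoh.torsionBy I M = ⊥ ↔
      ∀ m : M, (∀ i : Fin t, LocalizedModule.mkLinearMap (Submonoid.powers (f i)) M m = 0) → m = 0) := by
  classical
  simp only [LocCoh.torsionBy]
  have part1 : Submodule.torsionBySet R M (I : Set R) = ⊥ ↔
      ∀ n : ℕ, 1 ≤ n → Submodule.torsionBySet R M ((I ^ n : Ideal R) : Set R) = ⊥ := by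
    constructor
    · intro h n hn
      induction n with
      | zero => omega
      | succ k ih =>
        rcases Nat.eq_zero_or_pos k with hk | hk
        · subst hk; simpa using h
        · have ih' := ih hk
          rw [eq_bot_iff]
          intro m hm
          rw [Submodule.mem_torsionBySet_iff] at hm
          have hmI : m ∈ Submodule.torsionBySet R M (I : Set R) := by
            rw [Submodule.mem_torsionBySet_iff]
            rintro ⟨a, ha⟩
            have h2 : a • m ∈ Submodule.torsionBySet R M ((I ^ k : Ideal R) : Set R) := by
              rw [Submodule.mem_torsionBySet_iff]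
              rintro ⟨b, hb⟩
              rw [← mul_smul]
              exact hm ⟨b * a, by rw [pow_succ]; exact Ideal.mul_mem_mul hb ha⟩
            rw [ih'] at h2
            exact (Submodule.mem_bot R).mp h2
          rw [h] at hmI
          exact hmI
    · intro h
      simpa using h 1 le_rfl
  refine ⟨part1, ?_⟩
  constructor
  · intro h m hm
    have hfi : ∀ i, ∃ k : ℕ, f i ^ k • m = 0 := by
      intro i
      obtain ⟨⟨c, hc⟩, hc'⟩ := (IsLocalizedModule.eq_zero_iff (Submonoid.powers (f i))
        (LocalizedModule.mkLinearMap (Submonoid.powers (f i)) M)).mp (hm i)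
      obtain ⟨k, rfl⟩ := hc
      exact ⟨k, hc'⟩
    let J : Ideal R := LinearMap.ker (LinearMap.toSpanSingleton R M m)
    have hle : I ≤ J.radical := by
      rw [← hI, Ideal.span_le]
      rintro _ ⟨i, rfl⟩
      obtain ⟨k, hk⟩ := hfi i
      exact ⟨k, by simp [J, hk]⟩
    have hfg : I.FG := ⟨(Finset.univ.image f), by rw [← hI]; simp⟩
    obtain ⟨N, hN⟩ := Ideal.exists_pow_le_of_le_radical_of_fg hle hfg
    rcases Nat.eq_zero_or_pos N with h0 | hpos
    · subst h0
      have h1 : (1 : R) ∈ J := hN (by simp)
      simpa [J] using h1
    · have hb := (part1.mp h) N hpos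
      have hmN : m ∈ Submodule.torsionBySet R M ((I ^ N : Ideal R) : Set R) := by
        rw [Submodule.mem_torsionBySet_iff]
        rintro ⟨a, ha⟩
        have h3 := hN ha
        simpa [J] using h3
      rw [hb] at hmN
      exact (Submodule.mem_bot R).mp hmN
  · intro h
    rw [eq_bot_iff]
    intro m hm
    rw [Submodule.mem_torsionBySet_iff] at hm
    rw [Submodule.mem_bot]
    apply h
    intro i
    rw [IsLocalizedModule.eq_zero_iff (Submonoid.powers (f i))]
    refine ⟨⟨f i, Submonoid.mem_powers _⟩, ?_⟩
    exact hm ⟨f i, by rw [← hI]; exact Ideal.subset_span ⟨i, rfl⟩⟩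

end Groth.Agent.S7085
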