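import Groth.Statements.S7087
import Mathlib.RingTheory.Ideal.Operations
import Mathlib.Tactic.Ring
-- import your own Groth.Agent.* helpers here

set_option autoImplicit false
universe u
open LocCoh

namespace Groth.Agent.S7087

/-- Let R be a commutative ring and f_1, …, f_n elements generating an ideal I. Let M be the module with
generators e_1, …, e_n and relations f_i e_j = f_j e_i. Then e_i ↦ f_i defines a surjection M → I
whose kernel is annihilated by I. Elementwise: if a tuple (a_1, …, a_n) in R^n satisfies Σ a_i f_i =
0, then for every b in I the tuple b • a lies in the submodule of R^n spanned by the vectors f_i e_j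
− f_j e_i. -/
theorem result {R : Type u} [CommRing R] {n : ℕ} (f : Fin n → R)
    (a : Fin n → R) (ha : ∑ i, a i * f i = 0) (b : R) (hb : b ∈ Ideal.span (Set.range f)) :
    b • a ∈ Submodule.span R {v : Fin n → R | ∃ i j : Fin n, v = f i • Pi.single j (1 : R) - f j • Pi.single i (1 : R)} := by
  obtain ⟨c, rfl⟩ := Ideal.mem_span_range_iff_exists_fun.mp hb
  have key : (∑ i, c i * f i) • a = ∑ i, ∑ j, (c i * a j) •
      (f i • Pi.single j (1 : R) - f j • Pi.single i (1 : R)) := by
    ext k
    simp only [Pi.smul_apply, smul_eq_mul, Finset.sum_apply, Pi.sub_apply, Pi.single_apply,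
      mul_ite, mul_one, mul_zero, mul_sub, Finset.sum_sub_distrib]
    simp only [Finset.sum_ite_irrel, Finset.sum_const_zero, Finset.sum_ite_eq, Finset.mem_univ,
      if_true]
    have h2 : ∑ x, c k * a x * f x = c k * ∑ x, a x * f x := by
      rw [Finset.mul_sum]; exact Finset.sum_congr rfl fun _ _ => by ring
    rw [h2, ha, mul_zero, sub_zero, Finset.sum_mul]
    exact Finset.sum_congr rfl fun _ _ => by ring
  rw [key]
  exact Submodule.sum_mem _ fun i _ => Submodule.sum_mem _ fun j _ =>
    Submodule.smul_mem _ _ (Submodule.subset_span ⟨i, j, rfl⟩)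

end Groth.Agent.S7087
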