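import Groth.Statements.S7107
import Mathlib.LinearAlgebra.Finsupp.SumProd
import Mathlib.LinearAlgebra.Finsupp.Pi
import Mathlib.SetTheory.Cardinal.Arithmetic
-- import your own Groth.Agent.* helpers here

set_option autoImplicit false
universe u
open CAlg

namespace Groth.Agent.S7107


noncomputable def splitV (R : Type u) [CommRing R] (α : Type*) (M N : Type u) [AddCommGroup M]
    [Module R M] [AddCommGroup N] [Module R N] :
    (α →₀ M × N) ≃ₗ[R] (α →₀ M) × (α →₀ N) :=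
  LinearEquiv.ofLinearMap
    (LinearMap.prod (Finsupp.mapRange.linearMap (LinearMap.fst R M N))
      (Finsupp.mapRange.linearMap (LinearMap.snd R M N)))
    (LinearMap.coprod (Finsupp.mapRange.linearMap (LinearMap.inl R M N))
      (Finsupp.mapRange.linearMap (LinearMap.inr R M N)))
    (by
      apply LinearMap.ext
      intro x
      ext a <;> simp)
    (by
      apply LinearMap.ext
      intro x
      ext a <;> simp)

noncomputable def splitO (R : Type u) [CommRing R] (M : Type u) [AddCommGroup M] [Module R M] :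
    (ℕ →₀ M) ≃ₗ[R] (ℕ →₀ M) × M :=
  (Finsupp.domLCongr Equiv.natSumPUnitEquivNat.{0}.symm).trans
    ((Finsupp.sumFinsuppLEquivProdFinsupp R).trans
      (LinearEquiv.prodCongr (LinearEquiv.refl R _) (Finsupp.uniqueLinearEquiv R M PUnit.unit.{1})))



/-- Let R be a ring and P, Q modules such that P ⊕ Q is isomorphic to a free module F on an infinite
basis. Then P ⊕ F is isomorphic to F. -/
theorem result (R : Type u) [CommRing R] (P Q : Type u) [AddCommGroup P] [Module R P]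
    [AddCommGroup Q] [Module R Q] (ι : Type u) [Infinite ι] (e : (P × Q) ≃ₗ[R] (ι →₀ R)) :
    Nonempty ((P × (ι →₀ R)) ≃ₗ[R] (ι →₀ R)) := by
  have hcard : Cardinal.mk (ℕ × ι) = Cardinal.mk ι := by
    simp [Cardinal.mk_prod, Cardinal.aleph0_mul_eq (Cardinal.aleph0_le_mk ι)]
  obtain ⟨eι⟩ := Cardinal.eq.1 hcard
  let E1 : (ι →₀ R) ≃ₗ[R] (ℕ →₀ (ι →₀ R)) :=
    (Finsupp.domLCongr eι.symm).trans (Finsupp.curryLinearEquiv R)
  let E2 : (ℕ →₀ (ι →₀ R)) ≃ₗ[R] (ℕ →₀ (P × Q)) := Finsupp.mapRange.linearEquiv e.symm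
  let G : (ι →₀ R) ≃ₗ[R] (ℕ →₀ P) × (ℕ →₀ Q) := E1.trans (E2.trans (splitV R ℕ P Q))
  let O : (ℕ →₀ P) ≃ₗ[R] (ℕ →₀ P) × P := splitO R P
  refine ⟨?_⟩
  exact (LinearEquiv.prodCongr (LinearEquiv.refl R P) G).trans
    ((LinearEquiv.prodAssoc R P (ℕ →₀ P) (ℕ →₀ Q)).symm.trans
      ((LinearEquiv.prodCongr ((LinearEquiv.prodComm R P (ℕ →₀ P)).trans O.symm)
        (LinearEquiv.refl R (ℕ →₀ Q))).trans G.symm))

end Groth.Agent.S7107
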