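import Groth.Statements.S7108
import Groth.Agent.S7107
import Mathlib.LinearAlgebra.Projection
import Mathlib.LinearAlgebra.FreeModule.Basic
import Mathlib.Algebra.Group.Finsupp
-- import your own Groth.Agent.* helpers here

set_option autoImplicit false
universe u
open CAlg

namespace Groth.Agent.S7108

/-- Every projective module P over a ring R becomes free after adding a suitable free module: P ⊕ F is
free for some free module F (here F is the free module on some index type). -/
theorem result (R : Type u) [CommRing R] (P : Type u) [AddCommGroup P]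
    [Module R P] [Module.Projective R P] : ∃ ι : Type u, Module.Free R (P × (ι →₀ R)) := by
  obtain ⟨s, hs⟩ := Module.projective_def'.1 (inferInstance : Module.Projective R P)
  have hsp : ∀ p : P, Finsupp.linearCombination R (id : P → P) (s p) = p := fun p => by
    have := LinearMap.congr_fun hs p
    simpa using this
  have hsinj : Function.Injective s := by
    intro x y hxy
    rw [← hsp x, ← hsp y, hxy]
  let f : (P →₀ R) →ₗ[R] LinearMap.range s :=
    LinearMap.codRestrict (LinearMap.range s) (s.comp (Finsupp.linearCombination R (id : P → P)))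
      (fun x => LinearMap.mem_range_self s _)
  have hf : ∀ x : LinearMap.range s, f x = x := by
    rintro ⟨_, ⟨p, rfl⟩⟩
    apply Subtype.ext
    simp only [f, LinearMap.codRestrict_apply, LinearMap.comp_apply, hsp]
  have hc := LinearMap.isCompl_of_proj hf
  let E0 : (P × LinearMap.ker f) ≃ₗ[R] (P →₀ R) :=
    (LinearEquiv.prodCongr (LinearEquiv.ofInjective s hsinj) (LinearEquiv.refl R _)).trans
      (Submodule.prodEquivOfIsCompl _ _ hc)
  let G : (ℕ × P →₀ R) ≃ₗ[R] P × ((ℕ →₀ P) × (ℕ →₀ LinearMap.ker f)) :=
    (Finsupp.curryLinearEquiv R).trans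
      ((Finsupp.mapRange.linearEquiv E0.symm).trans
        ((Groth.Agent.S7107.splitV R ℕ P (LinearMap.ker f)).trans
          ((LinearEquiv.prodCongr (Groth.Agent.S7107.splitO R P) (LinearEquiv.refl R _)).trans
            ((LinearEquiv.prodCongr (LinearEquiv.prodComm R _ _) (LinearEquiv.refl R _)).trans
              (LinearEquiv.prodAssoc R P _ _)))))
  letI i1 : AddCommGroup (ℕ →₀ P) := Finsupp.instAddCommGroup
  letI i2 : AddCommGroup (ℕ →₀ LinearMap.ker f) :=
    @Finsupp.instAddCommGroup ℕ (LinearMap.ker f) (Submodule.addCommGroup _)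
  letI i3 : AddCommGroup ((ℕ →₀ P) × (ℕ →₀ LinearMap.ker f)) := Prod.instAddCommGroup
  obtain ⟨e⟩ := Groth.Agent.S7107.result R P ((ℕ →₀ P) × (ℕ →₀ LinearMap.ker f)) (ℕ × P) G.symm
  exact ⟨ℕ × P, Module.Free.of_equiv e.symm⟩

end Groth.Agent.S7108
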