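import Groth.Statements.S7129
import Mathlib.RingTheory.Flat.Tensor
import Mathlib.Tactic
-- import your own Groth.Agent.* helpers here

set_option autoImplicit false
universe u
open EtAlg

namespace Groth.Agent.S7129

/-- Every module over a product of fields ∏ K_i is flat over it (the product is an absolutely flat
ring). -/
theorem result (ι : Type u) (K : ι → Type u) [∀ i, Field (K i)] (M : Type u)
    [AddCommGroup M] [Module (∀ i, K i) M] : Module.Flat (∀ i, K i) M := by
  classical
  -- every principal ideal is generated by an idempotent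
  have hprin : ∀ x : (∀ i, K i), Ideal.span {x} = Ideal.span {x * x⁻¹} ∧
      IsIdempotentElem (x * x⁻¹) := by
    intro x
    have h1 : x * x⁻¹ * x = x := by
      funext i
      simp only [Pi.mul_apply, Pi.inv_apply]
      by_cases hx : x i = 0
      · rw [hx, mul_zero]
      · rw [mul_inv_cancel₀ hx, one_mul]
    refine ⟨le_antisymm ?_ ?_, ?_⟩
    · rw [Ideal.span_singleton_le_span_singleton]
      exact ⟨x, h1.symm⟩
    · rw [Ideal.span_singleton_le_span_singleton]
      exact ⟨x⁻¹, rfl⟩
    · show x * x⁻¹ * (x * x⁻¹) = x * x⁻¹
      rw [← mul_assoc, h1]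
  -- sup of two idempotent-generated ideals
  have hsup : ∀ e f : (∀ i, K i), IsIdempotentElem e → IsIdempotentElem f →
      Ideal.span {e} ⊔ Ideal.span {f} = Ideal.span {e + f - e * f} ∧
        IsIdempotentElem (e + f - e * f) := by
    intro e f he hf
    have hge : (e + f - e * f) * e = e := by
      have : e * e = e := he
      calc (e + f - e * f) * e = e * e + f * e - e * e * f := by ring
        _ = e := by rw [this]; ring
    have hgf : (e + f - e * f) * f = f := by
      have : f * f = f := hf
      calc (e + f - e * f) * f = e * f + f * f - e * (f * f) := by ring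
        _ = f := by rw [this]; ring
    refine ⟨le_antisymm ?_ ?_, ?_⟩
    · apply sup_le
      · rw [Ideal.span_singleton_le_span_singleton]; exact ⟨e, hge.symm⟩
      · rw [Ideal.span_singleton_le_span_singleton]; exact ⟨f, hgf.symm⟩
    · rw [Ideal.span_singleton_le_iff_mem]
      refine Ideal.sub_mem _ (Ideal.add_mem _ ?_ ?_) ?_
      · exact Ideal.mem_sup_left (Ideal.mem_span_singleton_self e)
      · exact Ideal.mem_sup_right (Ideal.mem_span_singleton_self f)
      · exact Ideal.mem_sup_left (Ideal.mul_mem_right _ _ (Ideal.mem_span_singleton_self e))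
    · show (e + f - e * f) * (e + f - e * f) = e + f - e * f
      calc (e + f - e * f) * (e + f - e * f)
          = (e + f - e * f) * e + (e + f - e * f) * f - (e + f - e * f) * e * f := by ring
        _ = e + f - e * f := by rw [hge, hgf]
  -- every f.g. ideal is generated by an idempotent
  have hfg : ∀ s : Finset (∀ i, K i), ∃ e, IsIdempotentElem e ∧
      Ideal.span (s : Set (∀ i, K i)) = Ideal.span {e} := by
    intro s
    induction s using Finset.induction_on with
    | empty => exact ⟨0, IsIdempotentElem.zero, by simp⟩
    | insert x s hxs ih =>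
      obtain ⟨e, he, hse⟩ := ih
      obtain ⟨h1, h2⟩ := hprin x
      obtain ⟨h3, h4⟩ := hsup _ _ h2 he
      refine ⟨_, h4, ?_⟩
      rw [Finset.coe_insert, Ideal.span_insert, hse, h1]
      exact h3
  rw [Module.Flat.iff_rTensor_injective]
  intro I hI
  obtain ⟨s, hs⟩ := hI
  obtain ⟨e, he, hse⟩ := hfg s
  have hI' : I = Ideal.span {e} := by rw [← hs, ← hse]
  subst hI'
  let ρ : (∀ i, K i) →ₗ[(∀ i, K i)] Ideal.span {e} :=
    { toFun := fun r => ⟨r * e, Ideal.mul_mem_left _ r (Ideal.mem_span_singleton_self e)⟩
      map_add' := fun a b => by apply Subtype.ext; simp [add_mul]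
      map_smul' := fun a b => by apply Subtype.ext; simp [mul_assoc] }
  have hρ : ρ ∘ₗ (Ideal.span {e}).subtype = LinearMap.id := by
    apply LinearMap.ext
    rintro ⟨z, hz⟩
    obtain ⟨c, rfl⟩ := Ideal.mem_span_singleton'.mp hz
    apply Subtype.ext
    show c * e * e = c * e
    rw [mul_assoc, he.eq]
  have hleft : Function.LeftInverse (ρ.rTensor M) ((Ideal.span {e}).subtype.rTensor M) := by
    intro x
    rw [← LinearMap.rTensor_comp_apply, hρ, LinearMap.rTensor_id, LinearMap.id_apply]
  exact hleft.injective

end Groth.Agent.S7129
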