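import Groth.Statements.S7144
import Mathlib.Tactic.Ring
import Mathlib.Tactic.LinearCombination
-- import your own Groth.Agent.* helpers here

set_option autoImplicit false
universe u
open CAlg

namespace Groth.Agent.S7144

/-- (1) ⇔ (2): let R be a nonzero ring. Then for all a, b in R one of a, b divides the other if and only
if R is local and every finitely generated ideal of R is principal. (The further equivalence with
the total ordering of the set of ideals by inclusion is standard and not restated here.) -/
theorem result (R : Type u) [CommRing R] [Nontrivial R] :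
    PreValuationRing R ↔ IsLocalRing R ∧ IsBezout R := by
  constructor
  · intro h
    refine ⟨ValuationRing.isLocalRing R, ?_⟩
    classical
    rw [IsBezout.iff_span_pair_isPrincipal]
    intro x y
    rw [Ideal.span_insert]
    rcases (ValuationRing.le_total_ideal R).total (Ideal.span {x} : Ideal R) (Ideal.span {y})
      with h | h
    · rw [sup_eq_right.mpr h]; exact ⟨⟨_, rfl⟩⟩
    · rw [sup_eq_left.mpr h]; exact ⟨⟨_, rfl⟩⟩
  · rintro ⟨hl, hb⟩
    refine ⟨fun a b => ?_⟩
    obtain ⟨g, e : _ = Ideal.span _⟩ := IsBezout.span_pair_isPrincipal a b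
    obtain ⟨a', rfl⟩ := Ideal.mem_span_singleton'.mp
        (show a ∈ Ideal.span {g} by rw [← e]; exact Ideal.subset_span (by simp))
    obtain ⟨b', rfl⟩ := Ideal.mem_span_singleton'.mp
        (show b ∈ Ideal.span {g} by rw [← e]; exact Ideal.subset_span (by simp))
    obtain ⟨x, y, e'⟩ := Ideal.mem_span_pair.mp
        (show g ∈ Ideal.span {a' * g, b' * g} by rw [e]; exact Ideal.subset_span (by simp))
    rcases IsLocalRing.isUnit_or_isUnit_one_sub_self (x * a' + y * b') with hu | hu
    · rcases IsLocalRing.isUnit_or_isUnit_of_isUnit_add hu with h' | h'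
      · obtain ⟨c, hc⟩ : a' ∣ b' := (isUnit_of_mul_isUnit_right h').dvd
        exact ⟨c, Or.inl (by rw [hc]; ring)⟩
      · obtain ⟨c, hc⟩ : b' ∣ a' := (isUnit_of_mul_isUnit_right h').dvd
        exact ⟨c, Or.inr (by rw [hc]; ring)⟩
    · have hg : g = 0 := by
        have : g * (1 - (x * a' + y * b')) = 0 := by linear_combination -e'
        exact (hu.mul_left_eq_zero).mp this
      subst hg
      exact ⟨0, Or.inl (by simp)⟩

end Groth.Agent.S7144
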