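import Groth.Statements.S7290
import Mathlib.RingTheory.Spectrum.Prime.ConstructibleSet
-- import your own Groth.Agent.* helpers here

set_option autoImplicit false
open CategoryTheory CategoryTheory.Limits AlgebraicGeometry Opposite
universe u
open ProEtW

namespace Groth.Agent.S7290

/-- Let A be a ring and let Spec A be the disjoint union of finitely many constructible subsets T_i.
Then there is a finite subset E of A such that the stratification of Spec A according to which
elements of E vanish at a point refines the given one: each nonempty stratum, consisting of the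
primes whose intersection with E is a prescribed subset, is contained in one of the T_i. -/
theorem result (A : Type u) [CommRing A] {ι : Type u} [Finite ι]
    (T : ι → Set (PrimeSpectrum A)) (hT : ∀ i, Topology.IsConstructible (T i))
    (hcov : ⋃ i, T i = Set.univ) (hdisj : Pairwise fun i j => Disjoint (T i) (T j)) :
    ∃ E : Finset A, ∀ E'' : Finset A, E'' ⊆ E →
      ∀ x : PrimeSpectrum A, (∀ f ∈ E, f ∈ x.asIdeal ↔ f ∈ E'') →
        ∃ i, {y : PrimeSpectrum A | ∀ f ∈ E, f ∈ y.asIdeal ↔ f ∈ E''} ⊆ T i := by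
  classical
  haveI := Fintype.ofFinite ι
  have hS : ∀ i, ∃ S : PrimeSpectrum.ConstructibleSetData A, S.toSet = T i :=
    fun i => PrimeSpectrum.exists_constructibleSetData_iff.mpr (hT i)
  choose S hS using hS
  let elems : PrimeSpectrum.BasicConstructibleSetData A → Finset A :=
    fun C => insert C.f (Finset.univ.image C.g)
  let E : Finset A := Finset.univ.biUnion (fun i => (S i).biUnion elems)
  have hfE : ∀ i, ∀ C ∈ S i, C.f ∈ E := by
    intro i C hC
    simp only [E, Finset.mem_biUnion, Finset.mem_univ, true_and]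
    exact ⟨i, C, hC, Finset.mem_insert_self _ _⟩
  have hgE : ∀ i, ∀ C ∈ S i, ∀ j, C.g j ∈ E := by
    intro i C hC j
    simp only [E, Finset.mem_biUnion, Finset.mem_univ, true_and]
    exact ⟨i, C, hC, Finset.mem_insert_of_mem (Finset.mem_image_of_mem _ (Finset.mem_univ j))⟩
  refine ⟨E, fun E'' _ x hx => ?_⟩
  have hxT : x ∈ ⋃ i, T i := by rw [hcov]; trivial
  obtain ⟨i, hi⟩ := Set.mem_iUnion.mp hxT
  refine ⟨i, fun y hy => ?_⟩
  have hsame : ∀ f ∈ E, (f ∈ y.asIdeal ↔ f ∈ x.asIdeal) :=
    fun f hf => (hy f hf).trans (hx f hf).symm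
  rw [← hS i] at hi ⊢
  simp only [PrimeSpectrum.ConstructibleSetData.toSet, Set.mem_iUnion] at hi ⊢
  obtain ⟨C, hC, hxC⟩ := hi
  refine ⟨C, hC, ?_⟩
  simp only [PrimeSpectrum.BasicConstructibleSetData.toSet, Set.mem_sdiff,
    PrimeSpectrum.mem_zeroLocus, Set.singleton_subset_iff, SetLike.mem_coe,
    Set.range_subset_iff] at hxC ⊢
  exact ⟨fun j => (hsame _ (hgE i C hC j)).mpr (hxC.1 j),
    fun h => hxC.2 ((hsame _ (hfE i C hC)).mp h)⟩

end Groth.Agent.S7290
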