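import Groth.Statements.S7317
import Mathlib.Tactic.Linarith
import Mathlib.Tactic.Ring
-- import your own Groth.Agent.* helpers here

set_option autoImplicit false
open Finset
open Models Models.NumericalType

namespace Groth.Agent.S7317

/-- Let T be a numerical type on n > 1 indices and i an index whose contribution m_i (w_i (g_i - 1) -
a_ii / 2) to the genus is zero (stated as m_i (2 w_i (g_i - 1) - a_ii) = 0). Then g_i = 0 and a_ii =
-2 w_i, i.e. i is a (-2)-index. -/
theorem result {n : ℕ} (T : Models.NumericalType n) (hn : 1 < n) (i : Fin n)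
    (h : T.m i * (2 * T.w i * (T.g i - 1) - T.a i i) = 0) : T.IsMinusTwo i := by
  have hrow : ∑ j, T.a i j * T.m j = 0 := by
    have := congrFun T.mulVec_m i
    simpa [Matrix.mulVec, dotProduct] using this
  obtain ⟨i', hi', j, hj, hij⟩ := T.connected {i} (Finset.singleton_nonempty i) (by
    intro h
    have h1 : (Finset.univ : Finset (Fin n)).card = 1 := by rw [← h]; simp
    simp at h1; omega)
  rw [Finset.mem_singleton] at hi' hj
  subst hi'
  have hpos : 0 < T.a i' j := lt_of_le_of_ne (T.offDiag_nonneg i' j (Ne.symm hj)) (Ne.symm hij)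
  have haii : T.a i' i' < 0 := by
    have hsplit := Finset.add_sum_erase Finset.univ (fun k => T.a i' k * T.m k) (Finset.mem_univ i')
    have hnonneg : ∀ k ∈ Finset.univ.erase i', 0 ≤ T.a i' k * T.m k := by
      intro k hk
      have hki : k ≠ i' := Finset.ne_of_mem_erase hk
      exact mul_nonneg (T.offDiag_nonneg i' k (Ne.symm hki)) (T.m_pos k).le
    have hj' : j ∈ Finset.univ.erase i' := Finset.mem_erase.mpr ⟨hj, Finset.mem_univ j⟩
    have hge := Finset.single_le_sum hnonneg hj'
    have hjpos : 0 < T.a i' j * T.m j := mul_pos hpos (T.m_pos j)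
    have hmi := T.m_pos i'
    have hlt : T.a i' i' * T.m i' < 0 := by
      linarith
    by_contra hcon
    push Not at hcon
    have := mul_nonneg hcon hmi.le
    linarith
  show T.g i' = 0 ∧ T.a i' i' = -2 * T.w i'
  have hw := T.w_pos i'
  have hX : 2 * T.w i' * (T.g i' - 1) - T.a i' i' = 0 := by
    rcases mul_eq_zero.mp h with h0 | h0
    · exact absurd h0 (T.m_pos i').ne'
    · exact h0
  have hg : T.g i' = 0 := by
    have hg0 := T.g_nonneg i'
    by_contra hne
    have hg1 : 1 ≤ T.g i' := by omega
    nlinarith [mul_nonneg hw.le (sub_nonneg.mpr hg1)]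
  refine ⟨hg, ?_⟩
  rw [hg] at hX
  linarith

end Groth.Agent.S7317
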