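import Groth.Statements.S7318
import Mathlib.Combinatorics.SimpleGraph.Acyclic
import Mathlib.Data.Sym.Sym2.Order
import Mathlib.Combinatorics.SimpleGraph.Finite
-- import your own Groth.Agent.* helpers here

set_option autoImplicit false
open Finset
open Models Models.NumericalType

namespace Groth.Agent.S7318

/-- For a numerical type T on n indices with e pairs i < j such that a_ij > 0, the topological genus 1 -
n + e is ≥ 0. -/
theorem result {n : ℕ} (T : Models.NumericalType n) : 0 ≤ T.topGenus := by
  classical
  let G : SimpleGraph (Fin n) :=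
    { Adj := fun i j => i ≠ j ∧ 0 < T.a i j
      symm := ⟨fun i j h => ⟨h.1.symm, by rw [T.symm.apply]; exact h.2⟩⟩
      loopless := ⟨fun i h => h.1 rfl⟩ }
  have hconn : G.Connected := by
    have hne : Nonempty (Fin n) := ⟨⟨0, T.pos⟩⟩
    rw [SimpleGraph.connected_iff_exists_forall_reachable]
    refine ⟨⟨0, T.pos⟩, fun j => ?_⟩
    by_contra hj
    obtain ⟨i', hi', j', hj', hij⟩ :=
      T.connected (Finset.univ.filter fun x => G.Reachable ⟨0, T.pos⟩ x)
        ⟨⟨0, T.pos⟩, by simp⟩ (by
          intro h
          have : j ∈ Finset.univ.filter fun x => G.Reachable ⟨0, T.pos⟩ x := by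
            rw [h]; exact Finset.mem_univ j
          simp only [Finset.mem_filter, Finset.mem_univ, true_and] at this
          exact hj this)
    simp only [Finset.mem_filter, Finset.mem_univ, true_and] at hi' hj'
    have hne' : i' ≠ j' := by rintro rfl; exact hj' hi'
    have hadj : G.Adj i' j' := ⟨hne', lt_of_le_of_ne (T.offDiag_nonneg i' j' hne') (Ne.symm hij)⟩
    exact hj' (hi'.trans (SimpleGraph.Adj.reachable hadj))
  have h1 := hconn.card_vert_le_card_edgeSet_add_one
  have h2 : Nat.card G.edgeSet ≤ T.edgeCount := by
    unfold Models.NumericalType.edgeCount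
    rw [Nat.card_eq_fintype_card, ← SimpleGraph.edgeFinset_card]
    apply Finset.card_le_card_of_injOn (fun e : Sym2 (Fin n) => (e.inf, e.sup))
    · intro e he
      rw [Finset.mem_coe, SimpleGraph.mem_edgeFinset] at he
      induction e using Sym2.ind with
      | h i j =>
        rw [SimpleGraph.mem_edgeSet] at he
        obtain ⟨hne, hpos⟩ := he
        simp only [Finset.coe_filter, Finset.mem_univ, true_and, Sym2.inf_mk, Sym2.sup_mk,
          Set.mem_ofPred_eq]
        rcases lt_or_gt_of_ne hne with h | h
        · rw [inf_eq_left.mpr h.le, sup_eq_right.mpr h.le]; exact ⟨h, hpos⟩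
        · rw [inf_eq_right.mpr h.le, sup_eq_left.mpr h.le]
          exact ⟨h, by rw [T.symm.apply]; exact hpos⟩
    · intro e1 _ e2 _ h
      simp only [Prod.mk.injEq] at h
      exact Sym2.inf_eq_inf_and_sup_eq_sup.mp h
  rw [Nat.card_eq_fintype_card, Fintype.card_fin] at h1
  unfold Models.NumericalType.topGenus
  omega

end Groth.Agent.S7318
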