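import Groth.Statements.S7341
import Groth.Agent.Lib_helper11_Models3
import Mathlib.Tactic.FinCases
-- import your own Groth.Agent.* helpers here

set_option autoImplicit false
open Finset
open Models Models.NumericalType

namespace Groth.Agent.S7341

/-- Classification of proper subgraphs which are chains of three vertices: let T be a numerical type on
n > 3 indices and i, j, k distinct (-2)-indices with a_ij > 0 and a_jk > 0. Then a_ik = 0 and, up to
reversing the order of i, j, k, one of the following holds for some integer w: (A3) w_i = w_j = w_k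
= w, a_ij = a_jk = w, with 2 m_i ≥ m_j, 2 m_j ≥ m_i + m_k, 2 m_k ≥ m_j; (C3) w_i = w_j = w, w_k =
2w, a_ij = w, a_jk = 2w, with 2 m_i ≥ m_j, 2 m_j ≥ m_i + 2 m_k, 2 m_k ≥ m_j; (B3) w_i = w_j = 2w,
w_k = w, a_ij = a_jk = 2w, with 2 m_i ≥ m_j, 2 m_j ≥ m_i + m_k, m_k ≥ m_j. -/
theorem result {n : ℕ} (T : Models.NumericalType n) (hn : 3 < n) (i j k : Fin n)
    (hij : i ≠ j) (hjk : j ≠ k) (hik : i ≠ k) (hi : T.IsMinusTwo i) (hj : T.IsMinusTwo j) (hk : T.IsMinusTwo k)
    (h1 : 0 < T.a i j) (h2 : 0 < T.a j k) :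
    T.a i k = 0 ∧ ∃ (i' k' : Fin n) (w : ℤ), ((i' = i ∧ k' = k) ∨ (i' = k ∧ k' = i)) ∧
      ((T.w i' = w ∧ T.w j = w ∧ T.w k' = w ∧ T.a i' j = w ∧ T.a j k' = w ∧
          T.m j ≤ 2 * T.m i' ∧ T.m i' + T.m k' ≤ 2 * T.m j ∧ T.m j ≤ 2 * T.m k') ∨
        (T.w i' = w ∧ T.w j = w ∧ T.w k' = 2 * w ∧ T.a i' j = w ∧ T.a j k' = 2 * w ∧
          T.m j ≤ 2 * T.m i' ∧ T.m i' + 2 * T.m k' ≤ 2 * T.m j ∧ T.m j ≤ 2 * T.m k') ∨
        (T.w i' = 2 * w ∧ T.w j = 2 * w ∧ T.w k' = w ∧ T.a i' j = 2 * w ∧ T.a j k' = 2 * w ∧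
          T.m j ≤ 2 * T.m i' ∧ T.m i' + T.m k' ≤ 2 * T.m j ∧ T.m j ≤ T.m k')) := by
  classical
  have hinj : Function.Injective (![i, j, k] : Fin 3 → Fin n) := by
    intro a b hab
    fin_cases a <;> fin_cases b <;> simp_all [eq_comm]
  let v : Fin 3 ↪ Fin n := ⟨![i, j, k], hinj⟩
  have hv0 : v 0 = i := rfl
  have hv1 : v 1 = j := rfl
  have hv2 : v 2 = k := rfl
  have di : T.a i i = -2 * T.w i := hi.2
  have dj : T.a j j = -2 * T.w j := hj.2
  have dk : T.a k k = -2 * T.w k := hk.2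
  have sij : T.a j i = T.a i j := T.symm.apply i j
  have sjk : T.a k j = T.a j k := T.symm.apply j k
  have sik : T.a k i = T.a i k := T.symm.apply i k
  have oik : 0 ≤ T.a i k := T.offDiag_nonneg i k hik
  have wpi := T.w_pos i
  have wpj := T.w_pos j
  have wpk := T.w_pos k
  have a1i : T.w i ≤ T.a i j := Int.le_of_dvd h1 (T.w_dvd i j)
  have a1j : T.w j ≤ T.a i j := by rw [← sij]; exact Int.le_of_dvd (sij ▸ h1) (T.w_dvd j i)
  have a2j : T.w j ≤ T.a j k := Int.le_of_dvd h2 (T.w_dvd j k)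
  have a2k : T.w k ≤ T.a j k := by rw [← sjk]; exact Int.le_of_dvd (sjk ▸ h2) (T.w_dvd k j)
  have t110 := Groth.Agent.helper11.quad_test T v (by omega) (![1, 1, 0] : Fin 3 → ℤ) 0 (by decide)
  have ht110_0 : (![1, 1, 0] : Fin 3 → ℤ) 0 = 1 := rfl
  have ht110_1 : (![1, 1, 0] : Fin 3 → ℤ) 1 = 1 := rfl
  have ht110_2 : (![1, 1, 0] : Fin 3 → ℤ) 2 = 0 := rfl
  simp only [Fin.sum_univ_three, hv0, hv1, hv2, ht110_0, ht110_1, ht110_2] at t110
  norm_num at t110
  have t011 := Groth.Agent.helper11.quad_test T v (by omega) (![0, 1, 1] : Fin 3 → ℤ) 1 (by decide)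
  have ht011_0 : (![0, 1, 1] : Fin 3 → ℤ) 0 = 0 := rfl
  have ht011_1 : (![0, 1, 1] : Fin 3 → ℤ) 1 = 1 := rfl
  have ht011_2 : (![0, 1, 1] : Fin 3 → ℤ) 2 = 1 := rfl
  simp only [Fin.sum_univ_three, hv0, hv1, hv2, ht011_0, ht011_1, ht011_2] at t011
  norm_num at t011
  have t111 := Groth.Agent.helper11.quad_test T v (by omega) (![1, 1, 1] : Fin 3 → ℤ) 0 (by decide)
  have ht111_0 : (![1, 1, 1] : Fin 3 → ℤ) 0 = 1 := rfl
  have ht111_1 : (![1, 1, 1] : Fin 3 → ℤ) 1 = 1 := rfl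
  have ht111_2 : (![1, 1, 1] : Fin 3 → ℤ) 2 = 1 := rfl
  simp only [Fin.sum_univ_three, hv0, hv1, hv2, ht111_0, ht111_1, ht111_2] at t111
  norm_num at t111
  have t121 := Groth.Agent.helper11.quad_test T v (by omega) (![1, 2, 1] : Fin 3 → ℤ) 0 (by decide)
  have ht121_0 : (![1, 2, 1] : Fin 3 → ℤ) 0 = 1 := rfl
  have ht121_1 : (![1, 2, 1] : Fin 3 → ℤ) 1 = 2 := rfl
  have ht121_2 : (![1, 2, 1] : Fin 3 → ℤ) 2 = 1 := rfl
  simp only [Fin.sum_univ_three, hv0, hv1, hv2, ht121_0, ht121_1, ht121_2] at t121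
  norm_num at t121
  have t123 := Groth.Agent.helper11.quad_test T v (by omega) (![1, 2, 3] : Fin 3 → ℤ) 0 (by decide)
  have ht123_0 : (![1, 2, 3] : Fin 3 → ℤ) 0 = 1 := rfl
  have ht123_1 : (![1, 2, 3] : Fin 3 → ℤ) 1 = 2 := rfl
  have ht123_2 : (![1, 2, 3] : Fin 3 → ℤ) 2 = 3 := rfl
  simp only [Fin.sum_univ_three, hv0, hv1, hv2, ht123_0, ht123_1, ht123_2] at t123
  norm_num at t123
  have t321 := Groth.Agent.helper11.quad_test T v (by omega) (![3, 2, 1] : Fin 3 → ℤ) 0 (by decide)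
  have ht321_0 : (![3, 2, 1] : Fin 3 → ℤ) 0 = 3 := rfl
  have ht321_1 : (![3, 2, 1] : Fin 3 → ℤ) 1 = 2 := rfl
  have ht321_2 : (![3, 2, 1] : Fin 3 → ℤ) 2 = 1 := rfl
  simp only [Fin.sum_univ_three, hv0, hv1, hv2, ht321_0, ht321_1, ht321_2] at t321
  norm_num at t321
  have t221 := Groth.Agent.helper11.quad_test T v (by omega) (![2, 2, 1] : Fin 3 → ℤ) 0 (by decide)
  have ht221_0 : (![2, 2, 1] : Fin 3 → ℤ) 0 = 2 := rfl
  have ht221_1 : (![2, 2, 1] : Fin 3 → ℤ) 1 = 2 := rfl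
  have ht221_2 : (![2, 2, 1] : Fin 3 → ℤ) 2 = 1 := rfl
  simp only [Fin.sum_univ_three, hv0, hv1, hv2, ht221_0, ht221_1, ht221_2] at t221
  norm_num at t221
  have t122 := Groth.Agent.helper11.quad_test T v (by omega) (![1, 2, 2] : Fin 3 → ℤ) 0 (by decide)
  have ht122_0 : (![1, 2, 2] : Fin 3 → ℤ) 0 = 1 := rfl
  have ht122_1 : (![1, 2, 2] : Fin 3 → ℤ) 1 = 2 := rfl
  have ht122_2 : (![1, 2, 2] : Fin 3 → ℤ) 2 = 2 := rfl
  simp only [Fin.sum_univ_three, hv0, hv1, hv2, ht122_0, ht122_1, ht122_2] at t122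
  norm_num at t122
  have haik : T.a i k = 0 := by
    by_contra hne
    have hpos : 0 < T.a i k := lt_of_le_of_ne oik (Ne.symm hne)
    have := Int.le_of_dvd hpos (T.w_dvd i k)
    have := Int.le_of_dvd (sik ▸ hpos) (T.w_dvd k i)
    rw [sik] at this
    linarith
  have E1 := Groth.Agent.helper11.edge_cases wpi wpj (T.w_dvd i j) (by rw [← sij]; exact T.w_dvd j i) a1i a1j (by linarith)
  have E2 := Groth.Agent.helper11.edge_cases wpj wpk (T.w_dvd j k) (by rw [← sjk]; exact T.w_dvd k j) a2j a2k (by linarith)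
  have ri := Groth.Agent.helper11.row_sum_le T v 0
  have rj := Groth.Agent.helper11.row_sum_le T v 1
  have rk := Groth.Agent.helper11.row_sum_le T v 2
  simp only [Fin.sum_univ_three, hv0, hv1, hv2] at ri rj rk
  rw [di, haik] at ri
  rw [sij, dj] at rj
  rw [sik, haik, sjk, dk] at rk
  refine ⟨haik, ?_⟩
  rcases E1 with ⟨e1, f1⟩ | ⟨e1, f1, g1, d1⟩ | ⟨e1, f1, g1, d1⟩ <;>
    rcases E2 with ⟨e2, f2⟩ | ⟨e2, f2, g2, d2⟩ | ⟨e2, f2, g2, d2⟩
  · -- A3
    rw [f1] at ri rj; rw [f2] at rj rk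
    rw [e1] at ri rj; rw [← e2] at rk
    have mi1 : T.m j ≤ 2 * T.m i := by
      by_contra hc; push Not at hc
      have := mul_pos wpj (show 0 < T.m j - 2 * T.m i by linarith)
      linarith
    have mi2 : T.m i + T.m k ≤ 2 * T.m j := by
      by_contra hc; push Not at hc
      have := mul_pos wpj (show 0 < T.m i + T.m k - 2 * T.m j by linarith)
      linarith
    have mi3 : T.m j ≤ 2 * T.m k := by
      by_contra hc; push Not at hc
      have := mul_pos wpj (show 0 < T.m j - 2 * T.m k by linarith)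
      linarith
    exact ⟨i, k, T.w j, Or.inl ⟨rfl, rfl⟩, Or.inl ⟨e1, rfl, e2.symm, f1.trans e1, f2, mi1, mi2, mi3⟩⟩
  · -- C3
    have hk2 : T.w k = 2 * T.w j := Groth.Agent.helper11.eq_two_mul_of_dvd wpj d2 g2 (by linarith)
    rw [f1] at ri rj; rw [f2] at rj rk
    rw [e1] at ri rj; rw [hk2] at rj rk
    have mi1 : T.m j ≤ 2 * T.m i := by
      by_contra hc; push Not at hc
      have := mul_pos wpj (show 0 < T.m j - 2 * T.m i by linarith)
      linarith
    have mi2 : T.m i + 2 * T.m k ≤ 2 * T.m j := by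
      by_contra hc; push Not at hc
      have := mul_pos wpj (show 0 < T.m i + 2 * T.m k - 2 * T.m j by linarith)
      linarith
    have mi3 : T.m j ≤ 2 * T.m k := by
      by_contra hc; push Not at hc
      have := mul_pos wpj (show 0 < T.m j - 2 * T.m k by linarith)
      linarith
    exact ⟨i, k, T.w j, Or.inl ⟨rfl, rfl⟩, Or.inr (Or.inl ⟨e1, rfl, hk2, f1.trans e1, f2.trans hk2, mi1, mi2, mi3⟩)⟩
  · -- B3
    have hj2 : T.w j = 2 * T.w k := Groth.Agent.helper11.eq_two_mul_of_dvd wpk d2 g2 (by linarith)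
    rw [f1] at ri rj; rw [f2] at rj rk
    rw [e1] at ri rj; rw [hj2] at ri rj rk
    have mi1 : T.m j ≤ 2 * T.m i := by
      by_contra hc; push Not at hc
      have := mul_pos wpk (show 0 < T.m j - 2 * T.m i by linarith)
      linarith
    have mi2 : T.m i + T.m k ≤ 2 * T.m j := by
      by_contra hc; push Not at hc
      have := mul_pos wpk (show 0 < T.m i + T.m k - 2 * T.m j by linarith)
      linarith
    have mi3 : T.m j ≤ T.m k := by
      by_contra hc; push Not at hc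
      have := mul_pos wpk (show 0 < T.m j - T.m k by linarith)
      linarith
    exact ⟨i, k, T.w k, Or.inl ⟨rfl, rfl⟩, Or.inr (Or.inr ⟨e1.trans hj2, hj2, rfl, f1.trans (e1.trans hj2), f2.trans hj2, mi1, mi2, mi3⟩)⟩
  · -- B3 reversed
    have hj2 : T.w j = 2 * T.w i := Groth.Agent.helper11.eq_two_mul_of_dvd wpi d1 g1 (by linarith)
    rw [f1] at ri rj; rw [f2] at rj rk
    rw [← e2] at rk; rw [hj2] at ri rj rk
    have mi1 : T.m j ≤ 2 * T.m k := by
      by_contra hc; push Not at hc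
      have := mul_pos wpi (show 0 < T.m j - 2 * T.m k by linarith)
      linarith
    have mi2 : T.m k + T.m i ≤ 2 * T.m j := by
      by_contra hc; push Not at hc
      have := mul_pos wpi (show 0 < T.m k + T.m i - 2 * T.m j by linarith)
      linarith
    have mi3 : T.m j ≤ T.m i := by
      by_contra hc; push Not at hc
      have := mul_pos wpi (show 0 < T.m j - T.m i by linarith)
      linarith
    exact ⟨k, i, T.w i, Or.inr ⟨rfl, rfl⟩, Or.inr (Or.inr ⟨e2.symm.trans hj2, hj2, rfl, sjk.trans (f2.trans hj2), sij.trans (f1.trans hj2), mi1, mi2, mi3⟩)⟩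
  · exfalso; linarith
  · exfalso; linarith
  · -- C3 reversed
    have hi2 : T.w i = 2 * T.w j := Groth.Agent.helper11.eq_two_mul_of_dvd wpj d1 g1 (by linarith)
    rw [f1] at ri rj; rw [f2] at rj rk
    rw [← e2] at rk; rw [hi2] at ri rj
    have mi1 : T.m j ≤ 2 * T.m k := by
      by_contra hc; push Not at hc
      have := mul_pos wpj (show 0 < T.m j - 2 * T.m k by linarith)
      linarith
    have mi2 : T.m k + 2 * T.m i ≤ 2 * T.m j := by
      by_contra hc; push Not at hc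
      have := mul_pos wpj (show 0 < T.m k + 2 * T.m i - 2 * T.m j by linarith)
      linarith
    have mi3 : T.m j ≤ 2 * T.m i := by
      by_contra hc; push Not at hc
      have := mul_pos wpj (show 0 < T.m j - 2 * T.m i by linarith)
      linarith
    exact ⟨k, i, T.w j, Or.inr ⟨rfl, rfl⟩, Or.inr (Or.inl ⟨e2.symm, rfl, hi2, sjk.trans f2, sij.trans (f1.trans hi2), mi1, mi2, mi3⟩)⟩
  · exfalso; linarith
  · exfalso; linarith

end Groth.Agent.S7341
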