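import Groth.Statements.S7343
import Groth.Agent.Lib_helper11_Models
-- import your own Groth.Agent.* helpers here

set_option autoImplicit false
open Finset
open Models Models.NumericalType

namespace Groth.Agent.S7343

/-- Let T be a numerical type on n > 7 indices. Then no seven (-2)-indices of T, pairwise distinct and
named f, g, h, i, j, k, l, have a_fg, a_gh, a_ij, a_jh, a_kl and a_lh all nonzero (three chains of
length two attached to h). -/
theorem result {n : ℕ} (T : Models.NumericalType n) (hn : 7 < n)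
    (v : Fin 7 ↪ Fin n) (hv : ∀ j, T.IsMinusTwo (v j))
    (h01 : T.a (v 0) (v 1) ≠ 0) (h12 : T.a (v 1) (v 2) ≠ 0) (h34 : T.a (v 3) (v 4) ≠ 0)
    (h42 : T.a (v 4) (v 2) ≠ 0) (h56 : T.a (v 5) (v 6) ≠ 0) (h62 : T.a (v 6) (v 2) ≠ 0) : False := by
  classical
  have hQ := Groth.Agent.helper11.models_quad_neg T
    (Function.extend v (![1, 2, 3, 1, 2, 1, 2] : Fin 7 → ℤ) 0)
    ⟨v 0, by rw [v.injective.extend_apply]; simp⟩
    (by
      obtain ⟨j, hj⟩ := Groth.Agent.helper11.exists_not_mem_range v hn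
      refine ⟨j, ?_⟩
      rw [Function.extend_apply' _ _ _ (by rintro ⟨p, rfl⟩; exact hj ⟨p, rfl⟩)]
      rfl)
  rw [Groth.Agent.helper11.quad_extend] at hQ
  have hc0 : (![1, 2, 3, 1, 2, 1, 2] : Fin 7 → ℤ) 0 = 1 := rfl
  have hc1 : (![1, 2, 3, 1, 2, 1, 2] : Fin 7 → ℤ) 1 = 2 := rfl
  have hc2 : (![1, 2, 3, 1, 2, 1, 2] : Fin 7 → ℤ) 2 = 3 := rfl
  have hc3 : (![1, 2, 3, 1, 2, 1, 2] : Fin 7 → ℤ) 3 = 1 := rfl
  have hc4 : (![1, 2, 3, 1, 2, 1, 2] : Fin 7 → ℤ) 4 = 2 := rfl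
  have hc5 : (![1, 2, 3, 1, 2, 1, 2] : Fin 7 → ℤ) 5 = 1 := rfl
  have hc6 : (![1, 2, 3, 1, 2, 1, 2] : Fin 7 → ℤ) 6 = 2 := rfl
  simp only [Fin.sum_univ_seven] at hQ
  simp only [hc0, hc1, hc2, hc3, hc4, hc5, hc6] at hQ
  norm_num at hQ
  have hd : ∀ p, T.a (v p) (v p) = -2 * T.w (v p) := fun p => (hv p).2
  have hs : ∀ p q, T.a (v q) (v p) = T.a (v p) (v q) := fun p q => T.symm.apply _ _
  have ho : ∀ p q, p ≠ q → 0 ≤ T.a (v p) (v q) := fun p q h =>
    T.offDiag_nonneg _ _ (v.injective.ne h)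
  have hw1 : ∀ p q, 0 < T.a (v p) (v q) → T.w (v p) ≤ T.a (v p) (v q) := fun p q h =>
    Int.le_of_dvd h (T.w_dvd _ _)
  have hw2 : ∀ p q, 0 < T.a (v p) (v q) → T.w (v q) ≤ T.a (v p) (v q) := fun p q h => by
    rw [← hs]; exact Int.le_of_dvd (by rw [hs]; exact h) (T.w_dvd _ _)
  have := hd 0
  have := hd 1
  have := hd 2
  have := hd 3
  have := hd 4
  have := hd 5
  have := hd 6
  have := hs 0 1
  have := ho 0 1 (by decide)
  have := hs 0 2
  have := ho 0 2 (by decide)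
  have := hs 0 3
  have := ho 0 3 (by decide)
  have := hs 0 4
  have := ho 0 4 (by decide)
  have := hs 0 5
  have := ho 0 5 (by decide)
  have := hs 0 6
  have := ho 0 6 (by decide)
  have := hs 1 2
  have := ho 1 2 (by decide)
  have := hs 1 3
  have := ho 1 3 (by decide)
  have := hs 1 4
  have := ho 1 4 (by decide)
  have := hs 1 5
  have := ho 1 5 (by decide)
  have := hs 1 6
  have := ho 1 6 (by decide)
  have := hs 2 3
  have := ho 2 3 (by decide)
  have := hs 2 4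
  have := ho 2 4 (by decide)
  have := hs 2 5
  have := ho 2 5 (by decide)
  have := hs 2 6
  have := ho 2 6 (by decide)
  have := hs 3 4
  have := ho 3 4 (by decide)
  have := hs 3 5
  have := ho 3 5 (by decide)
  have := hs 3 6
  have := ho 3 6 (by decide)
  have := hs 4 5
  have := ho 4 5 (by decide)
  have := hs 4 6
  have := ho 4 6 (by decide)
  have := hs 5 6
  have := ho 5 6 (by decide)
  have e01 : 0 < T.a (v 0) (v 1) := lt_of_le_of_ne (ho 0 1 (by decide)) (Ne.symm h01)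
  have := hw1 0 1 e01
  have := hw2 0 1 e01
  have e12 : 0 < T.a (v 1) (v 2) := lt_of_le_of_ne (ho 1 2 (by decide)) (Ne.symm h12)
  have := hw1 1 2 e12
  have := hw2 1 2 e12
  have e34 : 0 < T.a (v 3) (v 4) := lt_of_le_of_ne (ho 3 4 (by decide)) (Ne.symm h34)
  have := hw1 3 4 e34
  have := hw2 3 4 e34
  have e42 : 0 < T.a (v 4) (v 2) := lt_of_le_of_ne (ho 4 2 (by decide)) (Ne.symm h42)
  have := hw1 4 2 e42
  have := hw2 4 2 e42
  have e56 : 0 < T.a (v 5) (v 6) := lt_of_le_of_ne (ho 5 6 (by decide)) (Ne.symm h56)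
  have := hw1 5 6 e56
  have := hw2 5 6 e56
  have e62 : 0 < T.a (v 6) (v 2) := lt_of_le_of_ne (ho 6 2 (by decide)) (Ne.symm h62)
  have := hw1 6 2 e62
  have := hw2 6 2 e62
  linarith

end Groth.Agent.S7343
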