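import Groth.Statements.S7346
import Groth.Agent.Lib_helper11_Models2
-- import your own Groth.Agent.* helpers here

set_option autoImplicit false
open Finset
open Models Models.NumericalType

namespace Groth.Agent.S7346

/-- Classification of proper subgraphs of type D4 (one vertex joined to three others): let T be a
numerical type on n > 4 indices and i_1, …, i_4 distinct (-2)-indices with a_{12}, a_{13}, a_{14}
nonzero. Then for some integer w all w_{i_j} equal w, these intersection numbers equal w, all other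
a_{i_j i_k} (j ≠ k) vanish, and 2 m_1 ≥ m_2 + m_3 + m_4, 2 m_2 ≥ m_1, 2 m_3 ≥ m_1, 2 m_4 ≥ m_1. -/
theorem result {n : ℕ} (T : Models.NumericalType n) (hn : 4 < n)
    (v : Fin 4 ↪ Fin n) (hv : ∀ j, T.IsMinusTwo (v j)) (h01 : T.a (v 0) (v 1) ≠ 0) (h02 : T.a (v 0) (v 2) ≠ 0) (h03 : T.a (v 0) (v 3) ≠ 0) :
    ∃ w : ℤ, (∀ j : Fin 4, T.w (v j) = w) ∧
      T.a (v 0) (v 1) = w ∧
      T.a (v 0) (v 2) = w ∧
      T.a (v 0) (v 3) = w ∧
      T.a (v 1) (v 2) = 0 ∧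
      T.a (v 1) (v 3) = 0 ∧
      T.a (v 2) (v 3) = 0 ∧
      T.m (v 1) + T.m (v 2) + T.m (v 3) ≤ 2 * T.m (v 0) ∧
      T.m (v 0) ≤ 2 * T.m (v 1) ∧
      T.m (v 0) ≤ 2 * T.m (v 2) ∧
      T.m (v 0) ≤ 2 * T.m (v 3) := by
  classical
  have hd : ∀ p, T.a (v p) (v p) = -2 * T.w (v p) := fun p => (hv p).2
  have hs : ∀ p q, T.a (v q) (v p) = T.a (v p) (v q) := fun p q => T.symm.apply _ _
  have ho : ∀ p q, p ≠ q → 0 ≤ T.a (v p) (v q) := fun p q h =>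
    T.offDiag_nonneg _ _ (v.injective.ne h)
  have hw1 : ∀ p q, 0 < T.a (v p) (v q) → T.w (v p) ≤ T.a (v p) (v q) := fun p q h =>
    Int.le_of_dvd h (T.w_dvd _ _)
  have hw2 : ∀ p q, 0 < T.a (v p) (v q) → T.w (v q) ≤ T.a (v p) (v q) := fun p q h => by
    rw [← hs]; exact Int.le_of_dvd (by rw [hs]; exact h) (T.w_dvd _ _)
  have hwp : ∀ p, 0 < T.w (v p) := fun p => T.w_pos _
  have e01 : 0 < T.a (v 0) (v 1) := lt_of_le_of_ne (ho 0 1 (by decide)) (Ne.symm h01)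
  have e02 : 0 < T.a (v 0) (v 2) := lt_of_le_of_ne (ho 0 2 (by decide)) (Ne.symm h02)
  have e03 : 0 < T.a (v 0) (v 3) := lt_of_le_of_ne (ho 0 3 (by decide)) (Ne.symm h03)
  have := hd 0
  have := hwp 0
  have := hd 1
  have := hwp 1
  have := hd 2
  have := hwp 2
  have := hd 3
  have := hwp 3
  have := hs 0 1
  have := ho 0 1 (by decide)
  have := hs 0 2
  have := ho 0 2 (by decide)
  have := hs 0 3
  have := ho 0 3 (by decide)
  have := hs 1 2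
  have := ho 1 2 (by decide)
  have := hs 1 3
  have := ho 1 3 (by decide)
  have := hs 2 3
  have := ho 2 3 (by decide)
  have := hw1 0 1 e01
  have := hw2 0 1 e01
  have := hw1 0 2 e02
  have := hw2 0 2 e02
  have := hw1 0 3 e03
  have := hw2 0 3 e03
  have t01 := Groth.Agent.helper11.quad_test T v hn (![1, 1, 0, 0] : Fin 4 → ℤ) 0 (by decide)
  have ht01_0 : (![1, 1, 0, 0] : Fin 4 → ℤ) 0 = 1 := rfl
  have ht01_1 : (![1, 1, 0, 0] : Fin 4 → ℤ) 1 = 1 := rfl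
  have ht01_2 : (![1, 1, 0, 0] : Fin 4 → ℤ) 2 = 0 := rfl
  have ht01_3 : (![1, 1, 0, 0] : Fin 4 → ℤ) 3 = 0 := rfl
  simp only [Fin.sum_univ_four, ht01_0, ht01_1, ht01_2, ht01_3] at t01
  norm_num at t01
  have t02 := Groth.Agent.helper11.quad_test T v hn (![1, 0, 1, 0] : Fin 4 → ℤ) 0 (by decide)
  have ht02_0 : (![1, 0, 1, 0] : Fin 4 → ℤ) 0 = 1 := rfl
  have ht02_1 : (![1, 0, 1, 0] : Fin 4 → ℤ) 1 = 0 := rfl
  have ht02_2 : (![1, 0, 1, 0] : Fin 4 → ℤ) 2 = 1 := rfl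
  have ht02_3 : (![1, 0, 1, 0] : Fin 4 → ℤ) 3 = 0 := rfl
  simp only [Fin.sum_univ_four, ht02_0, ht02_1, ht02_2, ht02_3] at t02
  norm_num at t02
  have t03 := Groth.Agent.helper11.quad_test T v hn (![1, 0, 0, 1] : Fin 4 → ℤ) 0 (by decide)
  have ht03_0 : (![1, 0, 0, 1] : Fin 4 → ℤ) 0 = 1 := rfl
  have ht03_1 : (![1, 0, 0, 1] : Fin 4 → ℤ) 1 = 0 := rfl
  have ht03_2 : (![1, 0, 0, 1] : Fin 4 → ℤ) 2 = 0 := rfl
  have ht03_3 : (![1, 0, 0, 1] : Fin 4 → ℤ) 3 = 1 := rfl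
  simp only [Fin.sum_univ_four, ht03_0, ht03_1, ht03_2, ht03_3] at t03
  norm_num at t03
  have tD := Groth.Agent.helper11.quad_test T v hn (![2, 1, 1, 1] : Fin 4 → ℤ) 0 (by decide)
  have htD_0 : (![2, 1, 1, 1] : Fin 4 → ℤ) 0 = 2 := rfl
  have htD_1 : (![2, 1, 1, 1] : Fin 4 → ℤ) 1 = 1 := rfl
  have htD_2 : (![2, 1, 1, 1] : Fin 4 → ℤ) 2 = 1 := rfl
  have htD_3 : (![2, 1, 1, 1] : Fin 4 → ℤ) 3 = 1 := rfl
  simp only [Fin.sum_univ_four, htD_0, htD_1, htD_2, htD_3] at tD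
  norm_num at tD
  have tD1 := Groth.Agent.helper11.quad_test T v hn (![2, 2, 1, 1] : Fin 4 → ℤ) 0 (by decide)
  have htD1_0 : (![2, 2, 1, 1] : Fin 4 → ℤ) 0 = 2 := rfl
  have htD1_1 : (![2, 2, 1, 1] : Fin 4 → ℤ) 1 = 2 := rfl
  have htD1_2 : (![2, 2, 1, 1] : Fin 4 → ℤ) 2 = 1 := rfl
  have htD1_3 : (![2, 2, 1, 1] : Fin 4 → ℤ) 3 = 1 := rfl
  simp only [Fin.sum_univ_four, htD1_0, htD1_1, htD1_2, htD1_3] at tD1
  norm_num at tD1
  have tD2 := Groth.Agent.helper11.quad_test T v hn (![2, 1, 2, 1] : Fin 4 → ℤ) 0 (by decide)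
  have htD2_0 : (![2, 1, 2, 1] : Fin 4 → ℤ) 0 = 2 := rfl
  have htD2_1 : (![2, 1, 2, 1] : Fin 4 → ℤ) 1 = 1 := rfl
  have htD2_2 : (![2, 1, 2, 1] : Fin 4 → ℤ) 2 = 2 := rfl
  have htD2_3 : (![2, 1, 2, 1] : Fin 4 → ℤ) 3 = 1 := rfl
  simp only [Fin.sum_univ_four, htD2_0, htD2_1, htD2_2, htD2_3] at tD2
  norm_num at tD2
  have tD3 := Groth.Agent.helper11.quad_test T v hn (![2, 1, 1, 2] : Fin 4 → ℤ) 0 (by decide)
  have htD3_0 : (![2, 1, 1, 2] : Fin 4 → ℤ) 0 = 2 := rfl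
  have htD3_1 : (![2, 1, 1, 2] : Fin 4 → ℤ) 1 = 1 := rfl
  have htD3_2 : (![2, 1, 1, 2] : Fin 4 → ℤ) 2 = 1 := rfl
  have htD3_3 : (![2, 1, 1, 2] : Fin 4 → ℤ) 3 = 2 := rfl
  simp only [Fin.sum_univ_four, htD3_0, htD3_1, htD3_2, htD3_3] at tD3
  norm_num at tD3
  have hweq1 : T.w (v 1) = T.w (v 0) := by
    rcases lt_trichotomy (T.w (v 0)) (T.w (v 1)) with h | h | h
    · exfalso
      have ha : T.a (v 0) (v 1) = T.w (v 1) :=
        Groth.Agent.helper11.dvd_eq_of_lt_two_mul (hwp 1) (by rw [← hs]; exact T.w_dvd _ _)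
          (hw2 0 1 e01) (by linarith)
      have h2 : 2 * T.w (v 0) ≤ T.w (v 1) :=
        Groth.Agent.helper11.two_mul_le_of_dvd_of_lt (hwp 0) (by rw [← ha]; exact T.w_dvd _ _) h
      linarith
    · exact h.symm
    · exfalso
      have ha : T.a (v 0) (v 1) = T.w (v 0) :=
        Groth.Agent.helper11.dvd_eq_of_lt_two_mul (hwp 0) (T.w_dvd _ _) (hw1 0 1 e01) (by linarith)
      have h2 : 2 * T.w (v 1) ≤ T.w (v 0) :=
        Groth.Agent.helper11.two_mul_le_of_dvd_of_lt (hwp 1) (by rw [← ha, ← hs]; exact T.w_dvd _ _) h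
      linarith
  have hweq2 : T.w (v 2) = T.w (v 0) := by
    rcases lt_trichotomy (T.w (v 0)) (T.w (v 2)) with h | h | h
    · exfalso
      have ha : T.a (v 0) (v 2) = T.w (v 2) :=
        Groth.Agent.helper11.dvd_eq_of_lt_two_mul (hwp 2) (by rw [← hs]; exact T.w_dvd _ _)
          (hw2 0 2 e02) (by linarith)
      have h2 : 2 * T.w (v 0) ≤ T.w (v 2) :=
        Groth.Agent.helper11.two_mul_le_of_dvd_of_lt (hwp 0) (by rw [← ha]; exact T.w_dvd _ _) h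
      linarith
    · exact h.symm
    · exfalso
      have ha : T.a (v 0) (v 2) = T.w (v 0) :=
        Groth.Agent.helper11.dvd_eq_of_lt_two_mul (hwp 0) (T.w_dvd _ _) (hw1 0 2 e02) (by linarith)
      have h2 : 2 * T.w (v 2) ≤ T.w (v 0) :=
        Groth.Agent.helper11.two_mul_le_of_dvd_of_lt (hwp 2) (by rw [← ha, ← hs]; exact T.w_dvd _ _) h
      linarith
  have hweq3 : T.w (v 3) = T.w (v 0) := by
    rcases lt_trichotomy (T.w (v 0)) (T.w (v 3)) with h | h | h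
    · exfalso
      have ha : T.a (v 0) (v 3) = T.w (v 3) :=
        Groth.Agent.helper11.dvd_eq_of_lt_two_mul (hwp 3) (by rw [← hs]; exact T.w_dvd _ _)
          (hw2 0 3 e03) (by linarith)
      have h2 : 2 * T.w (v 0) ≤ T.w (v 3) :=
        Groth.Agent.helper11.two_mul_le_of_dvd_of_lt (hwp 0) (by rw [← ha]; exact T.w_dvd _ _) h
      linarith
    · exact h.symm
    · exfalso
      have ha : T.a (v 0) (v 3) = T.w (v 0) :=
        Groth.Agent.helper11.dvd_eq_of_lt_two_mul (hwp 0) (T.w_dvd _ _) (hw1 0 3 e03) (by linarith)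
      have h2 : 2 * T.w (v 3) ≤ T.w (v 0) :=
        Groth.Agent.helper11.two_mul_le_of_dvd_of_lt (hwp 3) (by rw [← ha, ← hs]; exact T.w_dvd _ _) h
      linarith
  have ha01 : T.a (v 0) (v 1) = T.w (v 0) :=
    Groth.Agent.helper11.dvd_eq_of_lt_two_mul (hwp 0) (T.w_dvd _ _) (hw1 0 1 e01) (by linarith)
  have ha02 : T.a (v 0) (v 2) = T.w (v 0) :=
    Groth.Agent.helper11.dvd_eq_of_lt_two_mul (hwp 0) (T.w_dvd _ _) (hw1 0 2 e02) (by linarith)
  have ha03 : T.a (v 0) (v 3) = T.w (v 0) :=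
    Groth.Agent.helper11.dvd_eq_of_lt_two_mul (hwp 0) (T.w_dvd _ _) (hw1 0 3 e03) (by linarith)
  have hz12 : T.a (v 1) (v 2) = 0 := by
    by_contra hne
    have hpos : 0 < T.a (v 1) (v 2) := lt_of_le_of_ne (ho 1 2 (by decide)) (Ne.symm hne)
    have := hw1 1 2 hpos
    linarith
  have hz13 : T.a (v 1) (v 3) = 0 := by
    by_contra hne
    have hpos : 0 < T.a (v 1) (v 3) := lt_of_le_of_ne (ho 1 3 (by decide)) (Ne.symm hne)
    have := hw1 1 3 hpos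
    linarith
  have hz23 : T.a (v 2) (v 3) = 0 := by
    by_contra hne
    have hpos : 0 < T.a (v 2) (v 3) := lt_of_le_of_ne (ho 2 3 (by decide)) (Ne.symm hne)
    have := hw1 2 3 hpos
    linarith
  have r0 := Groth.Agent.helper11.row_sum_le T v 0
  have r1 := Groth.Agent.helper11.row_sum_le T v 1
  have r2 := Groth.Agent.helper11.row_sum_le T v 2
  have r3 := Groth.Agent.helper11.row_sum_le T v 3
  simp only [Fin.sum_univ_four] at r0 r1 r2 r3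
  have k0 : T.a (v 0) (v 0) * T.m (v 0) + T.a (v 0) (v 1) * T.m (v 1) + T.a (v 0) (v 2) * T.m (v 2) + T.a (v 0) (v 3) * T.m (v 3) = T.w (v 0) * (T.m (v 1) + T.m (v 2) + T.m (v 3) - 2 * T.m (v 0)) := by
    rw [hd 0, ha01, ha02, ha03]; ring
  have k1 : T.a (v 1) (v 0) * T.m (v 0) + T.a (v 1) (v 1) * T.m (v 1) + T.a (v 1) (v 2) * T.m (v 2) + T.a (v 1) (v 3) * T.m (v 3) = T.w (v 0) * (T.m (v 0) - 2 * T.m (v 1)) := by
    rw [hd 1, hweq1, hs 0 1, ha01, hz12, hz13]; ring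
  have k2 : T.a (v 2) (v 0) * T.m (v 0) + T.a (v 2) (v 1) * T.m (v 1) + T.a (v 2) (v 2) * T.m (v 2) + T.a (v 2) (v 3) * T.m (v 3) = T.w (v 0) * (T.m (v 0) - 2 * T.m (v 2)) := by
    rw [hd 2, hweq2, hs 0 2, ha02, hs 1 2, hz12, hz23]; ring
  have k3 : T.a (v 3) (v 0) * T.m (v 0) + T.a (v 3) (v 1) * T.m (v 1) + T.a (v 3) (v 2) * T.m (v 2) + T.a (v 3) (v 3) * T.m (v 3) = T.w (v 0) * (T.m (v 0) - 2 * T.m (v 3)) := by
    rw [hd 3, hweq3, hs 0 3, ha03, hs 1 3, hz13, hs 2 3, hz23]; ring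
  rw [k0] at r0; rw [k1] at r1; rw [k2] at r2; rw [k3] at r3
  have hw0 := hwp 0
  have m0 : T.m (v 1) + T.m (v 2) + T.m (v 3) ≤ 2 * T.m (v 0) := by
    by_contra hc; push Not at hc
    have := mul_pos hw0 (show 0 < T.m (v 1) + T.m (v 2) + T.m (v 3) - 2 * T.m (v 0) by linarith)
    linarith
  have m1 : T.m (v 0) ≤ 2 * T.m (v 1) := by
    by_contra hc; push Not at hc
    have := mul_pos hw0 (show 0 < T.m (v 0) - 2 * T.m (v 1) by linarith)
    linarith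
  have m2 : T.m (v 0) ≤ 2 * T.m (v 2) := by
    by_contra hc; push Not at hc
    have := mul_pos hw0 (show 0 < T.m (v 0) - 2 * T.m (v 2) by linarith)
    linarith
  have m3 : T.m (v 0) ≤ 2 * T.m (v 3) := by
    by_contra hc; push Not at hc
    have := mul_pos hw0 (show 0 < T.m (v 0) - 2 * T.m (v 3) by linarith)
    linarith
  refine ⟨T.w (v 0), ?_, ha01, ha02, ha03, hz12, hz13, hz23, m0, m1, m2, m3⟩
  intro j
  fin_cases j
  · rfl
  · exact hweq1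
  · exact hweq2
  · exact hweq3

end Groth.Agent.S7346
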