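import Groth.Statements.S7347
import Groth.Agent.Lib_helper11_Models2
import Mathlib.Tactic.FinCases
-- import your own Groth.Agent.* helpers here

set_option autoImplicit false
open Finset
open Models Models.NumericalType

namespace Groth.Agent.S7347

set_option maxHeartbeats 4000000

/-- Classification of proper subgraphs of type D5 (a chain i_1 i_2 i_3 with i_4 and i_5 both joined to
i_3): let T be a numerical type on n > 5 indices and i_1, …, i_5 distinct (-2)-indices with a_{12},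
a_{23}, a_{34}, a_{35} nonzero. Then for some integer w all w_{i_j} equal w, these intersection
numbers equal w, all other a_{i_j i_k} (j ≠ k) vanish, and 2 m_1 ≥ m_2, 2 m_2 ≥ m_1 + m_3, 2 m_3 ≥
m_2 + m_4 + m_5, 2 m_4 ≥ m_3, 2 m_5 ≥ m_3. -/
theorem result {n : ℕ} (T : Models.NumericalType n) (hn : 5 < n)
    (v : Fin 5 ↪ Fin n) (hv : ∀ j, T.IsMinusTwo (v j)) (h01 : T.a (v 0) (v 1) ≠ 0) (h12 : T.a (v 1) (v 2) ≠ 0) (h23 : T.a (v 2) (v 3) ≠ 0) (h24 : T.a (v 2) (v 4) ≠ 0) :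
    ∃ w : ℤ, (∀ j : Fin 5, T.w (v j) = w) ∧
      T.a (v 0) (v 1) = w ∧
      T.a (v 1) (v 2) = w ∧
      T.a (v 2) (v 3) = w ∧
      T.a (v 2) (v 4) = w ∧
      T.a (v 0) (v 2) = 0 ∧
      T.a (v 0) (v 3) = 0 ∧
      T.a (v 0) (v 4) = 0 ∧
      T.a (v 1) (v 3) = 0 ∧
      T.a (v 1) (v 4) = 0 ∧
      T.a (v 3) (v 4) = 0 ∧
      T.m (v 1) ≤ 2 * T.m (v 0) ∧
      T.m (v 0) + T.m (v 2) ≤ 2 * T.m (v 1) ∧
      T.m (v 1) + T.m (v 3) + T.m (v 4) ≤ 2 * T.m (v 2) ∧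
      T.m (v 2) ≤ 2 * T.m (v 3) ∧
      T.m (v 2) ≤ 2 * T.m (v 4) := by
  classical
  have hd : ∀ p, T.a (v p) (v p) = -2 * T.w (v p) := fun p => (hv p).2
  have hs : ∀ p q, T.a (v q) (v p) = T.a (v p) (v q) := fun p q => T.symm.apply _ _
  have ho : ∀ p q, p ≠ q → 0 ≤ T.a (v p) (v q) := fun p q h =>
    T.offDiag_nonneg _ _ (v.injective.ne h)
  have hw1 : ∀ p q, 0 < T.a (v p) (v q) → T.w (v p) ≤ T.a (v p) (v q) := fun p q h =>
    Int.le_of_dvd h (T.w_dvd _ _)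
  have hw2 : ∀ p q, 0 < T.a (v p) (v q) → T.w (v q) ≤ T.a (v p) (v q) := fun p q h => by
    rw [← hs]; exact Int.le_of_dvd (by rw [hs]; exact h) (T.w_dvd _ _)
  have hwp : ∀ p, 0 < T.w (v p) := fun p => T.w_pos _
  have := hd 0
  have := hwp 0
  have := hd 1
  have := hwp 1
  have := hd 2
  have := hwp 2
  have := hd 3
  have := hwp 3
  have := hd 4
  have := hwp 4
  have := hs 0 1
  have := ho 0 1 (by decide)
  have := hs 0 2
  have := ho 0 2 (by decide)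
  have := hs 0 3
  have := ho 0 3 (by decide)
  have := hs 0 4
  have := ho 0 4 (by decide)
  have := hs 1 2
  have := ho 1 2 (by decide)
  have := hs 1 3
  have := ho 1 3 (by decide)
  have := hs 1 4
  have := ho 1 4 (by decide)
  have := hs 2 3
  have := ho 2 3 (by decide)
  have := hs 2 4
  have := ho 2 4 (by decide)
  have := hs 3 4
  have := ho 3 4 (by decide)
  have e0_1 : 0 < T.a (v 0) (v 1) := lt_of_le_of_ne (ho 0 1 (by decide)) (Ne.symm h01)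
  have := hw1 0 1 e0_1
  have := hw2 0 1 e0_1
  have e1_2 : 0 < T.a (v 1) (v 2) := lt_of_le_of_ne (ho 1 2 (by decide)) (Ne.symm h12)
  have := hw1 1 2 e1_2
  have := hw2 1 2 e1_2
  have e2_3 : 0 < T.a (v 2) (v 3) := lt_of_le_of_ne (ho 2 3 (by decide)) (Ne.symm h23)
  have := hw1 2 3 e2_3
  have := hw2 2 3 e2_3
  have e2_4 : 0 < T.a (v 2) (v 4) := lt_of_le_of_ne (ho 2 4 (by decide)) (Ne.symm h24)
  have := hw1 2 4 e2_4
  have := hw2 2 4 e2_4
  have hwc1 : T.w (v 1) = T.w (v 2) := by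
    have tv1 := Groth.Agent.helper11.quad_test T v hn (![0, 1, 1, 0, 0] : Fin 5 → ℤ) 1 (by decide)
    have htv1_0 : (![0, 1, 1, 0, 0] : Fin 5 → ℤ) 0 = 0 := rfl
    have htv1_1 : (![0, 1, 1, 0, 0] : Fin 5 → ℤ) 1 = 1 := rfl
    have htv1_2 : (![0, 1, 1, 0, 0] : Fin 5 → ℤ) 2 = 1 := rfl
    have htv1_3 : (![0, 1, 1, 0, 0] : Fin 5 → ℤ) 3 = 0 := rfl
    have htv1_4 : (![0, 1, 1, 0, 0] : Fin 5 → ℤ) 4 = 0 := rfl
    simp only [Fin.sum_univ_five] at tv1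
    simp only [htv1_0, htv1_1, htv1_2, htv1_3, htv1_4] at tv1
    norm_num at tv1
    rcases lt_trichotomy (T.w (v 2)) (T.w (v 1)) with h | h | h
    · exfalso
      have tv2 := Groth.Agent.helper11.quad_test T v hn (![0, 1, 2, 1, 1] : Fin 5 → ℤ) 1 (by decide)
      have htv2_0 : (![0, 1, 2, 1, 1] : Fin 5 → ℤ) 0 = 0 := rfl
      have htv2_1 : (![0, 1, 2, 1, 1] : Fin 5 → ℤ) 1 = 1 := rfl
      have htv2_2 : (![0, 1, 2, 1, 1] : Fin 5 → ℤ) 2 = 2 := rfl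
      have htv2_3 : (![0, 1, 2, 1, 1] : Fin 5 → ℤ) 3 = 1 := rfl
      have htv2_4 : (![0, 1, 2, 1, 1] : Fin 5 → ℤ) 4 = 1 := rfl
      simp only [Fin.sum_univ_five] at tv2
      simp only [htv2_0, htv2_1, htv2_2, htv2_3, htv2_4] at tv2
      norm_num at tv2
      have ha : T.a (v 1) (v 2) = T.w (v 1) :=
        Groth.Agent.helper11.dvd_eq_of_lt_two_mul (hwp 1) (T.w_dvd _ _)
          (hw1 1 2 e1_2) (by linarith)
      have h2 : 2 * T.w (v 2) ≤ T.w (v 1) :=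
        Groth.Agent.helper11.two_mul_le_of_dvd_of_lt (hwp 2) (by rw [← ha]; exact (by rw [← hs]; exact T.w_dvd _ _)) h
      linarith
    · exact h.symm
    · exfalso
      have tv3 := Groth.Agent.helper11.quad_test T v hn (![0, 2, 2, 1, 1] : Fin 5 → ℤ) 1 (by decide)
      have htv3_0 : (![0, 2, 2, 1, 1] : Fin 5 → ℤ) 0 = 0 := rfl
      have htv3_1 : (![0, 2, 2, 1, 1] : Fin 5 → ℤ) 1 = 2 := rfl
      have htv3_2 : (![0, 2, 2, 1, 1] : Fin 5 → ℤ) 2 = 2 := rfl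
      have htv3_3 : (![0, 2, 2, 1, 1] : Fin 5 → ℤ) 3 = 1 := rfl
      have htv3_4 : (![0, 2, 2, 1, 1] : Fin 5 → ℤ) 4 = 1 := rfl
      simp only [Fin.sum_univ_five] at tv3
      simp only [htv3_0, htv3_1, htv3_2, htv3_3, htv3_4] at tv3
      norm_num at tv3
      have ha : T.a (v 1) (v 2) = T.w (v 2) :=
        Groth.Agent.helper11.dvd_eq_of_lt_two_mul (hwp 2) (by rw [← hs]; exact T.w_dvd _ _)
          (hw2 1 2 e1_2) (by linarith)
      have h2 : 2 * T.w (v 1) ≤ T.w (v 2) :=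
        Groth.Agent.helper11.two_mul_le_of_dvd_of_lt (hwp 1) (by rw [← ha]; exact (T.w_dvd _ _)) h
      linarith
  have hwc3 : T.w (v 3) = T.w (v 2) := by
    have tv4 := Groth.Agent.helper11.quad_test T v hn (![0, 0, 1, 1, 0] : Fin 5 → ℤ) 2 (by decide)
    have htv4_0 : (![0, 0, 1, 1, 0] : Fin 5 → ℤ) 0 = 0 := rfl
    have htv4_1 : (![0, 0, 1, 1, 0] : Fin 5 → ℤ) 1 = 0 := rfl
    have htv4_2 : (![0, 0, 1, 1, 0] : Fin 5 → ℤ) 2 = 1 := rfl
    have htv4_3 : (![0, 0, 1, 1, 0] : Fin 5 → ℤ) 3 = 1 := rfl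
    have htv4_4 : (![0, 0, 1, 1, 0] : Fin 5 → ℤ) 4 = 0 := rfl
    simp only [Fin.sum_univ_five] at tv4
    simp only [htv4_0, htv4_1, htv4_2, htv4_3, htv4_4] at tv4
    norm_num at tv4
    rcases lt_trichotomy (T.w (v 2)) (T.w (v 3)) with h | h | h
    · exfalso
      have tv5 := Groth.Agent.helper11.quad_test T v hn (![0, 1, 2, 1, 1] : Fin 5 → ℤ) 1 (by decide)
      have htv5_0 : (![0, 1, 2, 1, 1] : Fin 5 → ℤ) 0 = 0 := rfl
      have htv5_1 : (![0, 1, 2, 1, 1] : Fin 5 → ℤ) 1 = 1 := rfl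
      have htv5_2 : (![0, 1, 2, 1, 1] : Fin 5 → ℤ) 2 = 2 := rfl
      have htv5_3 : (![0, 1, 2, 1, 1] : Fin 5 → ℤ) 3 = 1 := rfl
      have htv5_4 : (![0, 1, 2, 1, 1] : Fin 5 → ℤ) 4 = 1 := rfl
      simp only [Fin.sum_univ_five] at tv5
      simp only [htv5_0, htv5_1, htv5_2, htv5_3, htv5_4] at tv5
      norm_num at tv5
      have ha : T.a (v 2) (v 3) = T.w (v 3) :=
        Groth.Agent.helper11.dvd_eq_of_lt_two_mul (hwp 3) (by rw [← hs]; exact T.w_dvd _ _)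
          (hw2 2 3 e2_3) (by linarith)
      have h2 : 2 * T.w (v 2) ≤ T.w (v 3) :=
        Groth.Agent.helper11.two_mul_le_of_dvd_of_lt (hwp 2) (by rw [← ha]; exact (T.w_dvd _ _)) h
      linarith
    · exact h.symm
    · exfalso
      have tv6 := Groth.Agent.helper11.quad_test T v hn (![0, 1, 2, 2, 1] : Fin 5 → ℤ) 1 (by decide)
      have htv6_0 : (![0, 1, 2, 2, 1] : Fin 5 → ℤ) 0 = 0 := rfl
      have htv6_1 : (![0, 1, 2, 2, 1] : Fin 5 → ℤ) 1 = 1 := rfl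
      have htv6_2 : (![0, 1, 2, 2, 1] : Fin 5 → ℤ) 2 = 2 := rfl
      have htv6_3 : (![0, 1, 2, 2, 1] : Fin 5 → ℤ) 3 = 2 := rfl
      have htv6_4 : (![0, 1, 2, 2, 1] : Fin 5 → ℤ) 4 = 1 := rfl
      simp only [Fin.sum_univ_five] at tv6
      simp only [htv6_0, htv6_1, htv6_2, htv6_3, htv6_4] at tv6
      norm_num at tv6
      have ha : T.a (v 2) (v 3) = T.w (v 2) :=
        Groth.Agent.helper11.dvd_eq_of_lt_two_mul (hwp 2) (T.w_dvd _ _)
          (hw1 2 3 e2_3) (by linarith)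
      have h2 : 2 * T.w (v 3) ≤ T.w (v 2) :=
        Groth.Agent.helper11.two_mul_le_of_dvd_of_lt (hwp 3) (by rw [← ha]; exact (by rw [← hs]; exact T.w_dvd _ _)) h
      linarith
  have hwc4 : T.w (v 4) = T.w (v 2) := by
    have tv7 := Groth.Agent.helper11.quad_test T v hn (![0, 0, 1, 0, 1] : Fin 5 → ℤ) 2 (by decide)
    have htv7_0 : (![0, 0, 1, 0, 1] : Fin 5 → ℤ) 0 = 0 := rfl
    have htv7_1 : (![0, 0, 1, 0, 1] : Fin 5 → ℤ) 1 = 0 := rfl
    have htv7_2 : (![0, 0, 1, 0, 1] : Fin 5 → ℤ) 2 = 1 := rfl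
    have htv7_3 : (![0, 0, 1, 0, 1] : Fin 5 → ℤ) 3 = 0 := rfl
    have htv7_4 : (![0, 0, 1, 0, 1] : Fin 5 → ℤ) 4 = 1 := rfl
    simp only [Fin.sum_univ_five] at tv7
    simp only [htv7_0, htv7_1, htv7_2, htv7_3, htv7_4] at tv7
    norm_num at tv7
    rcases lt_trichotomy (T.w (v 2)) (T.w (v 4)) with h | h | h
    · exfalso
      have tv8 := Groth.Agent.helper11.quad_test T v hn (![0, 1, 2, 1, 1] : Fin 5 → ℤ) 1 (by decide)
      have htv8_0 : (![0, 1, 2, 1, 1] : Fin 5 → ℤ) 0 = 0 := rfl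
      have htv8_1 : (![0, 1, 2, 1, 1] : Fin 5 → ℤ) 1 = 1 := rfl
      have htv8_2 : (![0, 1, 2, 1, 1] : Fin 5 → ℤ) 2 = 2 := rfl
      have htv8_3 : (![0, 1, 2, 1, 1] : Fin 5 → ℤ) 3 = 1 := rfl
      have htv8_4 : (![0, 1, 2, 1, 1] : Fin 5 → ℤ) 4 = 1 := rfl
      simp only [Fin.sum_univ_five] at tv8
      simp only [htv8_0, htv8_1, htv8_2, htv8_3, htv8_4] at tv8
      norm_num at tv8
      have ha : T.a (v 2) (v 4) = T.w (v 4) :=
        Groth.Agent.helper11.dvd_eq_of_lt_two_mul (hwp 4) (by rw [← hs]; exact T.w_dvd _ _)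
          (hw2 2 4 e2_4) (by linarith)
      have h2 : 2 * T.w (v 2) ≤ T.w (v 4) :=
        Groth.Agent.helper11.two_mul_le_of_dvd_of_lt (hwp 2) (by rw [← ha]; exact (T.w_dvd _ _)) h
      linarith
    · exact h.symm
    · exfalso
      have tv9 := Groth.Agent.helper11.quad_test T v hn (![0, 1, 2, 1, 2] : Fin 5 → ℤ) 1 (by decide)
      have htv9_0 : (![0, 1, 2, 1, 2] : Fin 5 → ℤ) 0 = 0 := rfl
      have htv9_1 : (![0, 1, 2, 1, 2] : Fin 5 → ℤ) 1 = 1 := rfl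
      have htv9_2 : (![0, 1, 2, 1, 2] : Fin 5 → ℤ) 2 = 2 := rfl
      have htv9_3 : (![0, 1, 2, 1, 2] : Fin 5 → ℤ) 3 = 1 := rfl
      have htv9_4 : (![0, 1, 2, 1, 2] : Fin 5 → ℤ) 4 = 2 := rfl
      simp only [Fin.sum_univ_five] at tv9
      simp only [htv9_0, htv9_1, htv9_2, htv9_3, htv9_4] at tv9
      norm_num at tv9
      have ha : T.a (v 2) (v 4) = T.w (v 2) :=
        Groth.Agent.helper11.dvd_eq_of_lt_two_mul (hwp 2) (T.w_dvd _ _)
          (hw1 2 4 e2_4) (by linarith)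
      have h2 : 2 * T.w (v 4) ≤ T.w (v 2) :=
        Groth.Agent.helper11.two_mul_le_of_dvd_of_lt (hwp 4) (by rw [← ha]; exact (by rw [← hs]; exact T.w_dvd _ _)) h
      linarith
  have ev1_2 : T.a (v 1) (v 2) = T.w (v 2) := by
    have tv10 := Groth.Agent.helper11.quad_test T v hn (![0, 1, 1, 0, 0] : Fin 5 → ℤ) 1 (by decide)
    have htv10_0 : (![0, 1, 1, 0, 0] : Fin 5 → ℤ) 0 = 0 := rfl
    have htv10_1 : (![0, 1, 1, 0, 0] : Fin 5 → ℤ) 1 = 1 := rfl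
    have htv10_2 : (![0, 1, 1, 0, 0] : Fin 5 → ℤ) 2 = 1 := rfl
    have htv10_3 : (![0, 1, 1, 0, 0] : Fin 5 → ℤ) 3 = 0 := rfl
    have htv10_4 : (![0, 1, 1, 0, 0] : Fin 5 → ℤ) 4 = 0 := rfl
    simp only [Fin.sum_univ_five] at tv10
    simp only [htv10_0, htv10_1, htv10_2, htv10_3, htv10_4] at tv10
    norm_num at tv10
    have := hwc1
    exact Groth.Agent.helper11.dvd_eq_of_lt_two_mul (hwp 2) (by rw [show T.w (v 2) = T.w (v 1) by linarith]; exact T.w_dvd _ _)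
      (by linarith) (by linarith)
  have ev2_3 : T.a (v 2) (v 3) = T.w (v 2) := by
    have tv11 := Groth.Agent.helper11.quad_test T v hn (![0, 0, 1, 1, 0] : Fin 5 → ℤ) 2 (by decide)
    have htv11_0 : (![0, 0, 1, 1, 0] : Fin 5 → ℤ) 0 = 0 := rfl
    have htv11_1 : (![0, 0, 1, 1, 0] : Fin 5 → ℤ) 1 = 0 := rfl
    have htv11_2 : (![0, 0, 1, 1, 0] : Fin 5 → ℤ) 2 = 1 := rfl
    have htv11_3 : (![0, 0, 1, 1, 0] : Fin 5 → ℤ) 3 = 1 := rfl
    have htv11_4 : (![0, 0, 1, 1, 0] : Fin 5 → ℤ) 4 = 0 := rfl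
    simp only [Fin.sum_univ_five] at tv11
    simp only [htv11_0, htv11_1, htv11_2, htv11_3, htv11_4] at tv11
    norm_num at tv11
    have := hwc3
    exact Groth.Agent.helper11.dvd_eq_of_lt_two_mul (hwp 2) (by rw [show T.w (v 2) = T.w (v 2) by linarith]; exact T.w_dvd _ _)
      (by linarith) (by linarith)
  have ev2_4 : T.a (v 2) (v 4) = T.w (v 2) := by
    have tv12 := Groth.Agent.helper11.quad_test T v hn (![0, 0, 1, 0, 1] : Fin 5 → ℤ) 2 (by decide)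
    have htv12_0 : (![0, 0, 1, 0, 1] : Fin 5 → ℤ) 0 = 0 := rfl
    have htv12_1 : (![0, 0, 1, 0, 1] : Fin 5 → ℤ) 1 = 0 := rfl
    have htv12_2 : (![0, 0, 1, 0, 1] : Fin 5 → ℤ) 2 = 1 := rfl
    have htv12_3 : (![0, 0, 1, 0, 1] : Fin 5 → ℤ) 3 = 0 := rfl
    have htv12_4 : (![0, 0, 1, 0, 1] : Fin 5 → ℤ) 4 = 1 := rfl
    simp only [Fin.sum_univ_five] at tv12
    simp only [htv12_0, htv12_1, htv12_2, htv12_3, htv12_4] at tv12
    norm_num at tv12
    have := hwc4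
    exact Groth.Agent.helper11.dvd_eq_of_lt_two_mul (hwp 2) (by rw [show T.w (v 2) = T.w (v 2) by linarith]; exact T.w_dvd _ _)
      (by linarith) (by linarith)
  have hwc0 : T.w (v 0) = T.w (v 2) := by
    have tv13 := Groth.Agent.helper11.quad_test T v hn (![1, 1, 0, 0, 0] : Fin 5 → ℤ) 0 (by decide)
    have htv13_0 : (![1, 1, 0, 0, 0] : Fin 5 → ℤ) 0 = 1 := rfl
    have htv13_1 : (![1, 1, 0, 0, 0] : Fin 5 → ℤ) 1 = 1 := rfl
    have htv13_2 : (![1, 1, 0, 0, 0] : Fin 5 → ℤ) 2 = 0 := rfl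
    have htv13_3 : (![1, 1, 0, 0, 0] : Fin 5 → ℤ) 3 = 0 := rfl
    have htv13_4 : (![1, 1, 0, 0, 0] : Fin 5 → ℤ) 4 = 0 := rfl
    simp only [Fin.sum_univ_five] at tv13
    simp only [htv13_0, htv13_1, htv13_2, htv13_3, htv13_4] at tv13
    norm_num at tv13
    rcases lt_trichotomy (T.w (v 1)) (T.w (v 0)) with h | h | h
    · exfalso
      have tv14 := Groth.Agent.helper11.quad_test T v hn (![1, 2, 2, 1, 1] : Fin 5 → ℤ) 0 (by decide)
      have htv14_0 : (![1, 2, 2, 1, 1] : Fin 5 → ℤ) 0 = 1 := rfl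
      have htv14_1 : (![1, 2, 2, 1, 1] : Fin 5 → ℤ) 1 = 2 := rfl
      have htv14_2 : (![1, 2, 2, 1, 1] : Fin 5 → ℤ) 2 = 2 := rfl
      have htv14_3 : (![1, 2, 2, 1, 1] : Fin 5 → ℤ) 3 = 1 := rfl
      have htv14_4 : (![1, 2, 2, 1, 1] : Fin 5 → ℤ) 4 = 1 := rfl
      simp only [Fin.sum_univ_five] at tv14
      simp only [htv14_0, htv14_1, htv14_2, htv14_3, htv14_4] at tv14
      norm_num at tv14
      have ha : T.a (v 0) (v 1) = T.w (v 0) :=
        Groth.Agent.helper11.dvd_eq_of_lt_two_mul (hwp 0) (T.w_dvd _ _)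
          (hw1 0 1 e0_1) (by linarith)
      have h2 : 2 * T.w (v 1) ≤ T.w (v 0) :=
        Groth.Agent.helper11.two_mul_le_of_dvd_of_lt (hwp 1) (by rw [← ha]; exact (by rw [← hs]; exact T.w_dvd _ _)) h
      have := hwc1
      linarith
    · rw [← h]; exact hwc1
    · exfalso
      have tv15 := Groth.Agent.helper11.quad_test T v hn (![2, 2, 2, 1, 1] : Fin 5 → ℤ) 0 (by decide)
      have htv15_0 : (![2, 2, 2, 1, 1] : Fin 5 → ℤ) 0 = 2 := rfl
      have htv15_1 : (![2, 2, 2, 1, 1] : Fin 5 → ℤ) 1 = 2 := rfl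
      have htv15_2 : (![2, 2, 2, 1, 1] : Fin 5 → ℤ) 2 = 2 := rfl
      have htv15_3 : (![2, 2, 2, 1, 1] : Fin 5 → ℤ) 3 = 1 := rfl
      have htv15_4 : (![2, 2, 2, 1, 1] : Fin 5 → ℤ) 4 = 1 := rfl
      simp only [Fin.sum_univ_five] at tv15
      simp only [htv15_0, htv15_1, htv15_2, htv15_3, htv15_4] at tv15
      norm_num at tv15
      have ha : T.a (v 0) (v 1) = T.w (v 1) :=
        Groth.Agent.helper11.dvd_eq_of_lt_two_mul (hwp 1) (by rw [← hs]; exact T.w_dvd _ _)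
          (hw2 0 1 e0_1) (by linarith)
      have h2 : 2 * T.w (v 0) ≤ T.w (v 1) :=
        Groth.Agent.helper11.two_mul_le_of_dvd_of_lt (hwp 0) (by rw [← ha]; exact (T.w_dvd _ _)) h
      have := hwc1
      linarith
  have ev0_1 : T.a (v 0) (v 1) = T.w (v 2) := by
    have tv16 := Groth.Agent.helper11.quad_test T v hn (![1, 1, 0, 0, 0] : Fin 5 → ℤ) 0 (by decide)
    have htv16_0 : (![1, 1, 0, 0, 0] : Fin 5 → ℤ) 0 = 1 := rfl
    have htv16_1 : (![1, 1, 0, 0, 0] : Fin 5 → ℤ) 1 = 1 := rfl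
    have htv16_2 : (![1, 1, 0, 0, 0] : Fin 5 → ℤ) 2 = 0 := rfl
    have htv16_3 : (![1, 1, 0, 0, 0] : Fin 5 → ℤ) 3 = 0 := rfl
    have htv16_4 : (![1, 1, 0, 0, 0] : Fin 5 → ℤ) 4 = 0 := rfl
    simp only [Fin.sum_univ_five] at tv16
    simp only [htv16_0, htv16_1, htv16_2, htv16_3, htv16_4] at tv16
    norm_num at tv16
    have := hwc0
    have := hwc1
    exact Groth.Agent.helper11.dvd_eq_of_lt_two_mul (hwp 2) (by rw [show T.w (v 2) = T.w (v 0) by linarith]; exact T.w_dvd _ _)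
      (by linarith) (by linarith)
  have hz0_2 : T.a (v 0) (v 2) = 0 := by
    by_contra hne
    have hpos : 0 < T.a (v 0) (v 2) := lt_of_le_of_ne (ho 0 2 (by decide)) (Ne.symm hne)
    have := hw1 0 2 hpos
    have tv17 := Groth.Agent.helper11.quad_test T v hn (![1, 1, 1, 0, 0] : Fin 5 → ℤ) 0 (by decide)
    have htv17_0 : (![1, 1, 1, 0, 0] : Fin 5 → ℤ) 0 = 1 := rfl
    have htv17_1 : (![1, 1, 1, 0, 0] : Fin 5 → ℤ) 1 = 1 := rfl
    have htv17_2 : (![1, 1, 1, 0, 0] : Fin 5 → ℤ) 2 = 1 := rfl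
    have htv17_3 : (![1, 1, 1, 0, 0] : Fin 5 → ℤ) 3 = 0 := rfl
    have htv17_4 : (![1, 1, 1, 0, 0] : Fin 5 → ℤ) 4 = 0 := rfl
    simp only [Fin.sum_univ_five] at tv17
    simp only [htv17_0, htv17_1, htv17_2, htv17_3, htv17_4] at tv17
    norm_num at tv17
    have := hwc0
    have := hwc1
    have := hwc3
    have := hwc4
    have := ev0_1
    have := ev1_2
    have := ev2_3
    have := ev2_4
    linarith
  have hz0_3 : T.a (v 0) (v 3) = 0 := by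
    by_contra hne
    have hpos : 0 < T.a (v 0) (v 3) := lt_of_le_of_ne (ho 0 3 (by decide)) (Ne.symm hne)
    have := hw1 0 3 hpos
    have tv18 := Groth.Agent.helper11.quad_test T v hn (![1, 1, 1, 1, 0] : Fin 5 → ℤ) 0 (by decide)
    have htv18_0 : (![1, 1, 1, 1, 0] : Fin 5 → ℤ) 0 = 1 := rfl
    have htv18_1 : (![1, 1, 1, 1, 0] : Fin 5 → ℤ) 1 = 1 := rfl
    have htv18_2 : (![1, 1, 1, 1, 0] : Fin 5 → ℤ) 2 = 1 := rfl
    have htv18_3 : (![1, 1, 1, 1, 0] : Fin 5 → ℤ) 3 = 1 := rfl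
    have htv18_4 : (![1, 1, 1, 1, 0] : Fin 5 → ℤ) 4 = 0 := rfl
    simp only [Fin.sum_univ_five] at tv18
    simp only [htv18_0, htv18_1, htv18_2, htv18_3, htv18_4] at tv18
    norm_num at tv18
    have := hwc0
    have := hwc1
    have := hwc3
    have := hwc4
    have := ev0_1
    have := ev1_2
    have := ev2_3
    have := ev2_4
    linarith
  have hz0_4 : T.a (v 0) (v 4) = 0 := by
    by_contra hne
    have hpos : 0 < T.a (v 0) (v 4) := lt_of_le_of_ne (ho 0 4 (by decide)) (Ne.symm hne)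
    have := hw1 0 4 hpos
    have tv19 := Groth.Agent.helper11.quad_test T v hn (![1, 1, 1, 0, 1] : Fin 5 → ℤ) 0 (by decide)
    have htv19_0 : (![1, 1, 1, 0, 1] : Fin 5 → ℤ) 0 = 1 := rfl
    have htv19_1 : (![1, 1, 1, 0, 1] : Fin 5 → ℤ) 1 = 1 := rfl
    have htv19_2 : (![1, 1, 1, 0, 1] : Fin 5 → ℤ) 2 = 1 := rfl
    have htv19_3 : (![1, 1, 1, 0, 1] : Fin 5 → ℤ) 3 = 0 := rfl
    have htv19_4 : (![1, 1, 1, 0, 1] : Fin 5 → ℤ) 4 = 1 := rfl
    simp only [Fin.sum_univ_five] at tv19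
    simp only [htv19_0, htv19_1, htv19_2, htv19_3, htv19_4] at tv19
    norm_num at tv19
    have := hwc0
    have := hwc1
    have := hwc3
    have := hwc4
    have := ev0_1
    have := ev1_2
    have := ev2_3
    have := ev2_4
    linarith
  have hz1_3 : T.a (v 1) (v 3) = 0 := by
    by_contra hne
    have hpos : 0 < T.a (v 1) (v 3) := lt_of_le_of_ne (ho 1 3 (by decide)) (Ne.symm hne)
    have := hw1 1 3 hpos
    have tv20 := Groth.Agent.helper11.quad_test T v hn (![0, 1, 1, 1, 0] : Fin 5 → ℤ) 1 (by decide)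
    have htv20_0 : (![0, 1, 1, 1, 0] : Fin 5 → ℤ) 0 = 0 := rfl
    have htv20_1 : (![0, 1, 1, 1, 0] : Fin 5 → ℤ) 1 = 1 := rfl
    have htv20_2 : (![0, 1, 1, 1, 0] : Fin 5 → ℤ) 2 = 1 := rfl
    have htv20_3 : (![0, 1, 1, 1, 0] : Fin 5 → ℤ) 3 = 1 := rfl
    have htv20_4 : (![0, 1, 1, 1, 0] : Fin 5 → ℤ) 4 = 0 := rfl
    simp only [Fin.sum_univ_five] at tv20
    simp only [htv20_0, htv20_1, htv20_2, htv20_3, htv20_4] at tv20
    norm_num at tv20
    have := hwc0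
    have := hwc1
    have := hwc3
    have := hwc4
    have := ev0_1
    have := ev1_2
    have := ev2_3
    have := ev2_4
    linarith
  have hz1_4 : T.a (v 1) (v 4) = 0 := by
    by_contra hne
    have hpos : 0 < T.a (v 1) (v 4) := lt_of_le_of_ne (ho 1 4 (by decide)) (Ne.symm hne)
    have := hw1 1 4 hpos
    have tv21 := Groth.Agent.helper11.quad_test T v hn (![0, 1, 1, 0, 1] : Fin 5 → ℤ) 1 (by decide)
    have htv21_0 : (![0, 1, 1, 0, 1] : Fin 5 → ℤ) 0 = 0 := rfl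
    have htv21_1 : (![0, 1, 1, 0, 1] : Fin 5 → ℤ) 1 = 1 := rfl
    have htv21_2 : (![0, 1, 1, 0, 1] : Fin 5 → ℤ) 2 = 1 := rfl
    have htv21_3 : (![0, 1, 1, 0, 1] : Fin 5 → ℤ) 3 = 0 := rfl
    have htv21_4 : (![0, 1, 1, 0, 1] : Fin 5 → ℤ) 4 = 1 := rfl
    simp only [Fin.sum_univ_five] at tv21
    simp only [htv21_0, htv21_1, htv21_2, htv21_3, htv21_4] at tv21
    norm_num at tv21
    have := hwc0
    have := hwc1
    have := hwc3
    have := hwc4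
    have := ev0_1
    have := ev1_2
    have := ev2_3
    have := ev2_4
    linarith
  have hz3_4 : T.a (v 3) (v 4) = 0 := by
    by_contra hne
    have hpos : 0 < T.a (v 3) (v 4) := lt_of_le_of_ne (ho 3 4 (by decide)) (Ne.symm hne)
    have := hw1 3 4 hpos
    have tv22 := Groth.Agent.helper11.quad_test T v hn (![0, 0, 1, 1, 1] : Fin 5 → ℤ) 2 (by decide)
    have htv22_0 : (![0, 0, 1, 1, 1] : Fin 5 → ℤ) 0 = 0 := rfl
    have htv22_1 : (![0, 0, 1, 1, 1] : Fin 5 → ℤ) 1 = 0 := rfl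
    have htv22_2 : (![0, 0, 1, 1, 1] : Fin 5 → ℤ) 2 = 1 := rfl
    have htv22_3 : (![0, 0, 1, 1, 1] : Fin 5 → ℤ) 3 = 1 := rfl
    have htv22_4 : (![0, 0, 1, 1, 1] : Fin 5 → ℤ) 4 = 1 := rfl
    simp only [Fin.sum_univ_five] at tv22
    simp only [htv22_0, htv22_1, htv22_2, htv22_3, htv22_4] at tv22
    norm_num at tv22
    have := hwc0
    have := hwc1
    have := hwc3
    have := hwc4
    have := ev0_1
    have := ev1_2
    have := ev2_3
    have := ev2_4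
    linarith
  have A0_0 : T.a (v 0) (v 0) = -2 * T.w (v 2) := by rw [hd 0, hwc0]
  have A0_1 : T.a (v 0) (v 1) = T.w (v 2) := ev0_1
  have A0_2 : T.a (v 0) (v 2) = 0 := hz0_2
  have A0_3 : T.a (v 0) (v 3) = 0 := hz0_3
  have A0_4 : T.a (v 0) (v 4) = 0 := hz0_4
  have A1_0 : T.a (v 1) (v 0) = T.w (v 2) := (hs 0 1).trans ev0_1
  have A1_1 : T.a (v 1) (v 1) = -2 * T.w (v 2) := by rw [hd 1, hwc1]
  have A1_2 : T.a (v 1) (v 2) = T.w (v 2) := ev1_2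
  have A1_3 : T.a (v 1) (v 3) = 0 := hz1_3
  have A1_4 : T.a (v 1) (v 4) = 0 := hz1_4
  have A2_0 : T.a (v 2) (v 0) = 0 := (hs 0 2).trans hz0_2
  have A2_1 : T.a (v 2) (v 1) = T.w (v 2) := (hs 1 2).trans ev1_2
  have A2_2 : T.a (v 2) (v 2) = -2 * T.w (v 2) := hd 2
  have A2_3 : T.a (v 2) (v 3) = T.w (v 2) := ev2_3
  have A2_4 : T.a (v 2) (v 4) = T.w (v 2) := ev2_4
  have A3_0 : T.a (v 3) (v 0) = 0 := (hs 0 3).trans hz0_3
  have A3_1 : T.a (v 3) (v 1) = 0 := (hs 1 3).trans hz1_3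
  have A3_2 : T.a (v 3) (v 2) = T.w (v 2) := (hs 2 3).trans ev2_3
  have A3_3 : T.a (v 3) (v 3) = -2 * T.w (v 2) := by rw [hd 3, hwc3]
  have A3_4 : T.a (v 3) (v 4) = 0 := hz3_4
  have A4_0 : T.a (v 4) (v 0) = 0 := (hs 0 4).trans hz0_4
  have A4_1 : T.a (v 4) (v 1) = 0 := (hs 1 4).trans hz1_4
  have A4_2 : T.a (v 4) (v 2) = T.w (v 2) := (hs 2 4).trans ev2_4
  have A4_3 : T.a (v 4) (v 3) = 0 := (hs 3 4).trans hz3_4
  have A4_4 : T.a (v 4) (v 4) = -2 * T.w (v 2) := by rw [hd 4, hwc4]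
  have hw0 := hwp 2
  have kr0 : ∑ q, T.a (v 0) (v q) * T.m (v q) = T.w (v 2) * (T.m (v 1) - 2 * T.m (v 0)) := by
    simp only [Fin.sum_univ_five]
    simp only [A0_0, A0_1, A0_2, A0_3, A0_4]
    ring
  have r0 := Groth.Agent.helper11.row_sum_le T v 0
  rw [kr0] at r0
  have mi0 : T.m (v 1) ≤ 2 * T.m (v 0) := by
    by_contra hcon; push Not at hcon
    have := mul_pos hw0 (show 0 < T.m (v 1) - 2 * T.m (v 0) by linarith)
    linarith
  have kr1 : ∑ q, T.a (v 1) (v q) * T.m (v q) = T.w (v 2) * (T.m (v 0) + T.m (v 2) - 2 * T.m (v 1)) := by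
    simp only [Fin.sum_univ_five]
    simp only [A1_0, A1_1, A1_2, A1_3, A1_4]
    ring
  have r1 := Groth.Agent.helper11.row_sum_le T v 1
  rw [kr1] at r1
  have mi1 : T.m (v 0) + T.m (v 2) ≤ 2 * T.m (v 1) := by
    by_contra hcon; push Not at hcon
    have := mul_pos hw0 (show 0 < T.m (v 0) + T.m (v 2) - 2 * T.m (v 1) by linarith)
    linarith
  have kr2 : ∑ q, T.a (v 2) (v q) * T.m (v q) = T.w (v 2) * (T.m (v 1) + T.m (v 3) + T.m (v 4) - 2 * T.m (v 2)) := by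
    simp only [Fin.sum_univ_five]
    simp only [A2_0, A2_1, A2_2, A2_3, A2_4]
    ring
  have r2 := Groth.Agent.helper11.row_sum_le T v 2
  rw [kr2] at r2
  have mi2 : T.m (v 1) + T.m (v 3) + T.m (v 4) ≤ 2 * T.m (v 2) := by
    by_contra hcon; push Not at hcon
    have := mul_pos hw0 (show 0 < T.m (v 1) + T.m (v 3) + T.m (v 4) - 2 * T.m (v 2) by linarith)
    linarith
  have kr3 : ∑ q, T.a (v 3) (v q) * T.m (v q) = T.w (v 2) * (T.m (v 2) - 2 * T.m (v 3)) := by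
    simp only [Fin.sum_univ_five]
    simp only [A3_0, A3_1, A3_2, A3_3, A3_4]
    ring
  have r3 := Groth.Agent.helper11.row_sum_le T v 3
  rw [kr3] at r3
  have mi3 : T.m (v 2) ≤ 2 * T.m (v 3) := by
    by_contra hcon; push Not at hcon
    have := mul_pos hw0 (show 0 < T.m (v 2) - 2 * T.m (v 3) by linarith)
    linarith
  have kr4 : ∑ q, T.a (v 4) (v q) * T.m (v q) = T.w (v 2) * (T.m (v 2) - 2 * T.m (v 4)) := by
    simp only [Fin.sum_univ_five]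
    simp only [A4_0, A4_1, A4_2, A4_3, A4_4]
    ring
  have r4 := Groth.Agent.helper11.row_sum_le T v 4
  rw [kr4] at r4
  have mi4 : T.m (v 2) ≤ 2 * T.m (v 4) := by
    by_contra hcon; push Not at hcon
    have := mul_pos hw0 (show 0 < T.m (v 2) - 2 * T.m (v 4) by linarith)
    linarith
  refine ⟨T.w (v 2), ?_, A0_1, A1_2, A2_3, A2_4, A0_2, A0_3, A0_4, A1_3, A1_4, A3_4, mi0, mi1, mi2, mi3, mi4⟩
  intro j
  fin_cases j
  · exact hwc0
  · exact hwc1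
  · rfl
  · exact hwc3
  · exact hwc4

end Groth.Agent.S7347
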