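import Groth.Statements.S7348
import Groth.Agent.Lib_helper11_Models2
import Mathlib.Tactic.FinCases
-- import your own Groth.Agent.* helpers here

set_option autoImplicit false
open Finset
open Models Models.NumericalType

namespace Groth.Agent.S7348

set_option maxHeartbeats 4000000

/-- Classification of proper subgraphs of type E6 (a chain i_1 … i_5 with i_6 joined to i_3): let T be a
numerical type on n > 6 indices and i_1, …, i_6 distinct (-2)-indices with a_{12}, a_{23}, a_{34},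
a_{45}, a_{36} nonzero. Then for some integer w all w_{i_j} equal w, these intersection numbers
equal w, all other a_{i_j i_k} (j ≠ k) vanish, and 2 m_1 ≥ m_2, 2 m_2 ≥ m_1 + m_3, 2 m_3 ≥ m_2 + m_4
+ m_6, 2 m_4 ≥ m_3 + m_5, 2 m_5 ≥ m_4, 2 m_6 ≥ m_3. (The published list of inequalities has 2 m_5 ≥
m_3 where the intersection matrix gives 2 m_5 ≥ m_4; the former fails for the extended E8
configuration of multiplicities 4, 5, 6, 4, 2 with 3 attached to the third vertex, so 2 m_5 ≥ m_4 is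
stated.) -/
theorem result {n : ℕ} (T : Models.NumericalType n) (hn : 6 < n)
    (v : Fin 6 ↪ Fin n) (hv : ∀ j, T.IsMinusTwo (v j)) (h01 : T.a (v 0) (v 1) ≠ 0) (h12 : T.a (v 1) (v 2) ≠ 0) (h23 : T.a (v 2) (v 3) ≠ 0) (h34 : T.a (v 3) (v 4) ≠ 0) (h25 : T.a (v 2) (v 5) ≠ 0) :
    ∃ w : ℤ, (∀ j : Fin 6, T.w (v j) = w) ∧
      T.a (v 0) (v 1) = w ∧
      T.a (v 1) (v 2) = w ∧
      T.a (v 2) (v 3) = w ∧
      T.a (v 3) (v 4) = w ∧
      T.a (v 2) (v 5) = w ∧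
      T.a (v 0) (v 2) = 0 ∧
      T.a (v 0) (v 3) = 0 ∧
      T.a (v 0) (v 4) = 0 ∧
      T.a (v 0) (v 5) = 0 ∧
      T.a (v 1) (v 3) = 0 ∧
      T.a (v 1) (v 4) = 0 ∧
      T.a (v 1) (v 5) = 0 ∧
      T.a (v 2) (v 4) = 0 ∧
      T.a (v 3) (v 5) = 0 ∧
      T.a (v 4) (v 5) = 0 ∧
      T.m (v 1) ≤ 2 * T.m (v 0) ∧
      T.m (v 0) + T.m (v 2) ≤ 2 * T.m (v 1) ∧
      T.m (v 1) + T.m (v 3) + T.m (v 5) ≤ 2 * T.m (v 2) ∧
      T.m (v 2) + T.m (v 4) ≤ 2 * T.m (v 3) ∧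
      T.m (v 3) ≤ 2 * T.m (v 4) ∧
      T.m (v 2) ≤ 2 * T.m (v 5) := by
  classical
  have hd : ∀ p, T.a (v p) (v p) = -2 * T.w (v p) := fun p => (hv p).2
  have hs : ∀ p q, T.a (v q) (v p) = T.a (v p) (v q) := fun p q => T.symm.apply _ _
  have ho : ∀ p q, p ≠ q → 0 ≤ T.a (v p) (v q) := fun p q h =>
    T.offDiag_nonneg _ _ (v.injective.ne h)
  have hw1 : ∀ p q, 0 < T.a (v p) (v q) → T.w (v p) ≤ T.a (v p) (v q) := fun p q h =>
    Int.le_of_dvd h (T.w_dvd _ _)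
  have hw2 : ∀ p q, 0 < T.a (v p) (v q) → T.w (v q) ≤ T.a (v p) (v q) := fun p q h => by
    rw [← hs]; exact Int.le_of_dvd (by rw [hs]; exact h) (T.w_dvd _ _)
  have hwp : ∀ p, 0 < T.w (v p) := fun p => T.w_pos _
  have := hd 0
  have := hwp 0
  have := hd 1
  have := hwp 1
  have := hd 2
  have := hwp 2
  have := hd 3
  have := hwp 3
  have := hd 4
  have := hwp 4
  have := hd 5
  have := hwp 5
  have := hs 0 1
  have := ho 0 1 (by decide)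
  have := hs 0 2
  have := ho 0 2 (by decide)
  have := hs 0 3
  have := ho 0 3 (by decide)
  have := hs 0 4
  have := ho 0 4 (by decide)
  have := hs 0 5
  have := ho 0 5 (by decide)
  have := hs 1 2
  have := ho 1 2 (by decide)
  have := hs 1 3
  have := ho 1 3 (by decide)
  have := hs 1 4
  have := ho 1 4 (by decide)
  have := hs 1 5
  have := ho 1 5 (by decide)
  have := hs 2 3
  have := ho 2 3 (by decide)
  have := hs 2 4
  have := ho 2 4 (by decide)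
  have := hs 2 5
  have := ho 2 5 (by decide)
  have := hs 3 4
  have := ho 3 4 (by decide)
  have := hs 3 5
  have := ho 3 5 (by decide)
  have := hs 4 5
  have := ho 4 5 (by decide)
  have e0_1 : 0 < T.a (v 0) (v 1) := lt_of_le_of_ne (ho 0 1 (by decide)) (Ne.symm h01)
  have := hw1 0 1 e0_1
  have := hw2 0 1 e0_1
  have e1_2 : 0 < T.a (v 1) (v 2) := lt_of_le_of_ne (ho 1 2 (by decide)) (Ne.symm h12)
  have := hw1 1 2 e1_2
  have := hw2 1 2 e1_2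
  have e2_3 : 0 < T.a (v 2) (v 3) := lt_of_le_of_ne (ho 2 3 (by decide)) (Ne.symm h23)
  have := hw1 2 3 e2_3
  have := hw2 2 3 e2_3
  have e3_4 : 0 < T.a (v 3) (v 4) := lt_of_le_of_ne (ho 3 4 (by decide)) (Ne.symm h34)
  have := hw1 3 4 e3_4
  have := hw2 3 4 e3_4
  have e2_5 : 0 < T.a (v 2) (v 5) := lt_of_le_of_ne (ho 2 5 (by decide)) (Ne.symm h25)
  have := hw1 2 5 e2_5
  have := hw2 2 5 e2_5
  have hwc1 : T.w (v 1) = T.w (v 2) := by
    have tv1 := Groth.Agent.helper11.quad_test T v hn (![0, 1, 1, 0, 0, 0] : Fin 6 → ℤ) 1 (by decide)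
    have htv1_0 : (![0, 1, 1, 0, 0, 0] : Fin 6 → ℤ) 0 = 0 := rfl
    have htv1_1 : (![0, 1, 1, 0, 0, 0] : Fin 6 → ℤ) 1 = 1 := rfl
    have htv1_2 : (![0, 1, 1, 0, 0, 0] : Fin 6 → ℤ) 2 = 1 := rfl
    have htv1_3 : (![0, 1, 1, 0, 0, 0] : Fin 6 → ℤ) 3 = 0 := rfl
    have htv1_4 : (![0, 1, 1, 0, 0, 0] : Fin 6 → ℤ) 4 = 0 := rfl
    have htv1_5 : (![0, 1, 1, 0, 0, 0] : Fin 6 → ℤ) 5 = 0 := rfl
    simp only [Fin.sum_univ_six] at tv1
    simp only [htv1_0, htv1_1, htv1_2, htv1_3, htv1_4, htv1_5] at tv1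
    norm_num at tv1
    rcases lt_trichotomy (T.w (v 2)) (T.w (v 1)) with h | h | h
    · exfalso
      have tv2 := Groth.Agent.helper11.quad_test T v hn (![0, 1, 2, 1, 0, 1] : Fin 6 → ℤ) 1 (by decide)
      have htv2_0 : (![0, 1, 2, 1, 0, 1] : Fin 6 → ℤ) 0 = 0 := rfl
      have htv2_1 : (![0, 1, 2, 1, 0, 1] : Fin 6 → ℤ) 1 = 1 := rfl
      have htv2_2 : (![0, 1, 2, 1, 0, 1] : Fin 6 → ℤ) 2 = 2 := rfl
      have htv2_3 : (![0, 1, 2, 1, 0, 1] : Fin 6 → ℤ) 3 = 1 := rfl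
      have htv2_4 : (![0, 1, 2, 1, 0, 1] : Fin 6 → ℤ) 4 = 0 := rfl
      have htv2_5 : (![0, 1, 2, 1, 0, 1] : Fin 6 → ℤ) 5 = 1 := rfl
      simp only [Fin.sum_univ_six] at tv2
      simp only [htv2_0, htv2_1, htv2_2, htv2_3, htv2_4, htv2_5] at tv2
      norm_num at tv2
      have ha : T.a (v 1) (v 2) = T.w (v 1) :=
        Groth.Agent.helper11.dvd_eq_of_lt_two_mul (hwp 1) (T.w_dvd _ _)
          (hw1 1 2 e1_2) (by linarith)
      have h2 : 2 * T.w (v 2) ≤ T.w (v 1) :=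
        Groth.Agent.helper11.two_mul_le_of_dvd_of_lt (hwp 2) (by rw [← ha]; exact (by rw [← hs]; exact T.w_dvd _ _)) h
      linarith
    · exact h.symm
    · exfalso
      have tv3 := Groth.Agent.helper11.quad_test T v hn (![0, 2, 2, 1, 0, 1] : Fin 6 → ℤ) 1 (by decide)
      have htv3_0 : (![0, 2, 2, 1, 0, 1] : Fin 6 → ℤ) 0 = 0 := rfl
      have htv3_1 : (![0, 2, 2, 1, 0, 1] : Fin 6 → ℤ) 1 = 2 := rfl
      have htv3_2 : (![0, 2, 2, 1, 0, 1] : Fin 6 → ℤ) 2 = 2 := rfl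
      have htv3_3 : (![0, 2, 2, 1, 0, 1] : Fin 6 → ℤ) 3 = 1 := rfl
      have htv3_4 : (![0, 2, 2, 1, 0, 1] : Fin 6 → ℤ) 4 = 0 := rfl
      have htv3_5 : (![0, 2, 2, 1, 0, 1] : Fin 6 → ℤ) 5 = 1 := rfl
      simp only [Fin.sum_univ_six] at tv3
      simp only [htv3_0, htv3_1, htv3_2, htv3_3, htv3_4, htv3_5] at tv3
      norm_num at tv3
      have ha : T.a (v 1) (v 2) = T.w (v 2) :=
        Groth.Agent.helper11.dvd_eq_of_lt_two_mul (hwp 2) (by rw [← hs]; exact T.w_dvd _ _)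
          (hw2 1 2 e1_2) (by linarith)
      have h2 : 2 * T.w (v 1) ≤ T.w (v 2) :=
        Groth.Agent.helper11.two_mul_le_of_dvd_of_lt (hwp 1) (by rw [← ha]; exact (T.w_dvd _ _)) h
      linarith
  have hwc3 : T.w (v 3) = T.w (v 2) := by
    have tv4 := Groth.Agent.helper11.quad_test T v hn (![0, 0, 1, 1, 0, 0] : Fin 6 → ℤ) 2 (by decide)
    have htv4_0 : (![0, 0, 1, 1, 0, 0] : Fin 6 → ℤ) 0 = 0 := rfl
    have htv4_1 : (![0, 0, 1, 1, 0, 0] : Fin 6 → ℤ) 1 = 0 := rfl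
    have htv4_2 : (![0, 0, 1, 1, 0, 0] : Fin 6 → ℤ) 2 = 1 := rfl
    have htv4_3 : (![0, 0, 1, 1, 0, 0] : Fin 6 → ℤ) 3 = 1 := rfl
    have htv4_4 : (![0, 0, 1, 1, 0, 0] : Fin 6 → ℤ) 4 = 0 := rfl
    have htv4_5 : (![0, 0, 1, 1, 0, 0] : Fin 6 → ℤ) 5 = 0 := rfl
    simp only [Fin.sum_univ_six] at tv4
    simp only [htv4_0, htv4_1, htv4_2, htv4_3, htv4_4, htv4_5] at tv4
    norm_num at tv4
    rcases lt_trichotomy (T.w (v 2)) (T.w (v 3)) with h | h | h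
    · exfalso
      have tv5 := Groth.Agent.helper11.quad_test T v hn (![0, 1, 2, 1, 0, 1] : Fin 6 → ℤ) 1 (by decide)
      have htv5_0 : (![0, 1, 2, 1, 0, 1] : Fin 6 → ℤ) 0 = 0 := rfl
      have htv5_1 : (![0, 1, 2, 1, 0, 1] : Fin 6 → ℤ) 1 = 1 := rfl
      have htv5_2 : (![0, 1, 2, 1, 0, 1] : Fin 6 → ℤ) 2 = 2 := rfl
      have htv5_3 : (![0, 1, 2, 1, 0, 1] : Fin 6 → ℤ) 3 = 1 := rfl
      have htv5_4 : (![0, 1, 2, 1, 0, 1] : Fin 6 → ℤ) 4 = 0 := rfl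
      have htv5_5 : (![0, 1, 2, 1, 0, 1] : Fin 6 → ℤ) 5 = 1 := rfl
      simp only [Fin.sum_univ_six] at tv5
      simp only [htv5_0, htv5_1, htv5_2, htv5_3, htv5_4, htv5_5] at tv5
      norm_num at tv5
      have ha : T.a (v 2) (v 3) = T.w (v 3) :=
        Groth.Agent.helper11.dvd_eq_of_lt_two_mul (hwp 3) (by rw [← hs]; exact T.w_dvd _ _)
          (hw2 2 3 e2_3) (by linarith)
      have h2 : 2 * T.w (v 2) ≤ T.w (v 3) :=
        Groth.Agent.helper11.two_mul_le_of_dvd_of_lt (hwp 2) (by rw [← ha]; exact (T.w_dvd _ _)) h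
      linarith
    · exact h.symm
    · exfalso
      have tv6 := Groth.Agent.helper11.quad_test T v hn (![0, 1, 2, 2, 0, 1] : Fin 6 → ℤ) 1 (by decide)
      have htv6_0 : (![0, 1, 2, 2, 0, 1] : Fin 6 → ℤ) 0 = 0 := rfl
      have htv6_1 : (![0, 1, 2, 2, 0, 1] : Fin 6 → ℤ) 1 = 1 := rfl
      have htv6_2 : (![0, 1, 2, 2, 0, 1] : Fin 6 → ℤ) 2 = 2 := rfl
      have htv6_3 : (![0, 1, 2, 2, 0, 1] : Fin 6 → ℤ) 3 = 2 := rfl
      have htv6_4 : (![0, 1, 2, 2, 0, 1] : Fin 6 → ℤ) 4 = 0 := rfl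
      have htv6_5 : (![0, 1, 2, 2, 0, 1] : Fin 6 → ℤ) 5 = 1 := rfl
      simp only [Fin.sum_univ_six] at tv6
      simp only [htv6_0, htv6_1, htv6_2, htv6_3, htv6_4, htv6_5] at tv6
      norm_num at tv6
      have ha : T.a (v 2) (v 3) = T.w (v 2) :=
        Groth.Agent.helper11.dvd_eq_of_lt_two_mul (hwp 2) (T.w_dvd _ _)
          (hw1 2 3 e2_3) (by linarith)
      have h2 : 2 * T.w (v 3) ≤ T.w (v 2) :=
        Groth.Agent.helper11.two_mul_le_of_dvd_of_lt (hwp 3) (by rw [← ha]; exact (by rw [← hs]; exact T.w_dvd _ _)) h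
      linarith
  have hwc5 : T.w (v 5) = T.w (v 2) := by
    have tv7 := Groth.Agent.helper11.quad_test T v hn (![0, 0, 1, 0, 0, 1] : Fin 6 → ℤ) 2 (by decide)
    have htv7_0 : (![0, 0, 1, 0, 0, 1] : Fin 6 → ℤ) 0 = 0 := rfl
    have htv7_1 : (![0, 0, 1, 0, 0, 1] : Fin 6 → ℤ) 1 = 0 := rfl
    have htv7_2 : (![0, 0, 1, 0, 0, 1] : Fin 6 → ℤ) 2 = 1 := rfl
    have htv7_3 : (![0, 0, 1, 0, 0, 1] : Fin 6 → ℤ) 3 = 0 := rfl
    have htv7_4 : (![0, 0, 1, 0, 0, 1] : Fin 6 → ℤ) 4 = 0 := rfl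
    have htv7_5 : (![0, 0, 1, 0, 0, 1] : Fin 6 → ℤ) 5 = 1 := rfl
    simp only [Fin.sum_univ_six] at tv7
    simp only [htv7_0, htv7_1, htv7_2, htv7_3, htv7_4, htv7_5] at tv7
    norm_num at tv7
    rcases lt_trichotomy (T.w (v 2)) (T.w (v 5)) with h | h | h
    · exfalso
      have tv8 := Groth.Agent.helper11.quad_test T v hn (![0, 1, 2, 1, 0, 1] : Fin 6 → ℤ) 1 (by decide)
      have htv8_0 : (![0, 1, 2, 1, 0, 1] : Fin 6 → ℤ) 0 = 0 := rfl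
      have htv8_1 : (![0, 1, 2, 1, 0, 1] : Fin 6 → ℤ) 1 = 1 := rfl
      have htv8_2 : (![0, 1, 2, 1, 0, 1] : Fin 6 → ℤ) 2 = 2 := rfl
      have htv8_3 : (![0, 1, 2, 1, 0, 1] : Fin 6 → ℤ) 3 = 1 := rfl
      have htv8_4 : (![0, 1, 2, 1, 0, 1] : Fin 6 → ℤ) 4 = 0 := rfl
      have htv8_5 : (![0, 1, 2, 1, 0, 1] : Fin 6 → ℤ) 5 = 1 := rfl
      simp only [Fin.sum_univ_six] at tv8
      simp only [htv8_0, htv8_1, htv8_2, htv8_3, htv8_4, htv8_5] at tv8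
      norm_num at tv8
      have ha : T.a (v 2) (v 5) = T.w (v 5) :=
        Groth.Agent.helper11.dvd_eq_of_lt_two_mul (hwp 5) (by rw [← hs]; exact T.w_dvd _ _)
          (hw2 2 5 e2_5) (by linarith)
      have h2 : 2 * T.w (v 2) ≤ T.w (v 5) :=
        Groth.Agent.helper11.two_mul_le_of_dvd_of_lt (hwp 2) (by rw [← ha]; exact (T.w_dvd _ _)) h
      linarith
    · exact h.symm
    · exfalso
      have tv9 := Groth.Agent.helper11.quad_test T v hn (![0, 1, 2, 1, 0, 2] : Fin 6 → ℤ) 1 (by decide)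
      have htv9_0 : (![0, 1, 2, 1, 0, 2] : Fin 6 → ℤ) 0 = 0 := rfl
      have htv9_1 : (![0, 1, 2, 1, 0, 2] : Fin 6 → ℤ) 1 = 1 := rfl
      have htv9_2 : (![0, 1, 2, 1, 0, 2] : Fin 6 → ℤ) 2 = 2 := rfl
      have htv9_3 : (![0, 1, 2, 1, 0, 2] : Fin 6 → ℤ) 3 = 1 := rfl
      have htv9_4 : (![0, 1, 2, 1, 0, 2] : Fin 6 → ℤ) 4 = 0 := rfl
      have htv9_5 : (![0, 1, 2, 1, 0, 2] : Fin 6 → ℤ) 5 = 2 := rfl
      simp only [Fin.sum_univ_six] at tv9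
      simp only [htv9_0, htv9_1, htv9_2, htv9_3, htv9_4, htv9_5] at tv9
      norm_num at tv9
      have ha : T.a (v 2) (v 5) = T.w (v 2) :=
        Groth.Agent.helper11.dvd_eq_of_lt_two_mul (hwp 2) (T.w_dvd _ _)
          (hw1 2 5 e2_5) (by linarith)
      have h2 : 2 * T.w (v 5) ≤ T.w (v 2) :=
        Groth.Agent.helper11.two_mul_le_of_dvd_of_lt (hwp 5) (by rw [← ha]; exact (by rw [← hs]; exact T.w_dvd _ _)) h
      linarith
  have ev1_2 : T.a (v 1) (v 2) = T.w (v 2) := by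
    have tv10 := Groth.Agent.helper11.quad_test T v hn (![0, 1, 1, 0, 0, 0] : Fin 6 → ℤ) 1 (by decide)
    have htv10_0 : (![0, 1, 1, 0, 0, 0] : Fin 6 → ℤ) 0 = 0 := rfl
    have htv10_1 : (![0, 1, 1, 0, 0, 0] : Fin 6 → ℤ) 1 = 1 := rfl
    have htv10_2 : (![0, 1, 1, 0, 0, 0] : Fin 6 → ℤ) 2 = 1 := rfl
    have htv10_3 : (![0, 1, 1, 0, 0, 0] : Fin 6 → ℤ) 3 = 0 := rfl
    have htv10_4 : (![0, 1, 1, 0, 0, 0] : Fin 6 → ℤ) 4 = 0 := rfl
    have htv10_5 : (![0, 1, 1, 0, 0, 0] : Fin 6 → ℤ) 5 = 0 := rfl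
    simp only [Fin.sum_univ_six] at tv10
    simp only [htv10_0, htv10_1, htv10_2, htv10_3, htv10_4, htv10_5] at tv10
    norm_num at tv10
    have := hwc1
    exact Groth.Agent.helper11.dvd_eq_of_lt_two_mul (hwp 2) (by rw [show T.w (v 2) = T.w (v 1) by linarith]; exact T.w_dvd _ _)
      (by linarith) (by linarith)
  have ev2_3 : T.a (v 2) (v 3) = T.w (v 2) := by
    have tv11 := Groth.Agent.helper11.quad_test T v hn (![0, 0, 1, 1, 0, 0] : Fin 6 → ℤ) 2 (by decide)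
    have htv11_0 : (![0, 0, 1, 1, 0, 0] : Fin 6 → ℤ) 0 = 0 := rfl
    have htv11_1 : (![0, 0, 1, 1, 0, 0] : Fin 6 → ℤ) 1 = 0 := rfl
    have htv11_2 : (![0, 0, 1, 1, 0, 0] : Fin 6 → ℤ) 2 = 1 := rfl
    have htv11_3 : (![0, 0, 1, 1, 0, 0] : Fin 6 → ℤ) 3 = 1 := rfl
    have htv11_4 : (![0, 0, 1, 1, 0, 0] : Fin 6 → ℤ) 4 = 0 := rfl
    have htv11_5 : (![0, 0, 1, 1, 0, 0] : Fin 6 → ℤ) 5 = 0 := rfl
    simp only [Fin.sum_univ_six] at tv11
    simp only [htv11_0, htv11_1, htv11_2, htv11_3, htv11_4, htv11_5] at tv11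
    norm_num at tv11
    have := hwc3
    exact Groth.Agent.helper11.dvd_eq_of_lt_two_mul (hwp 2) (by rw [show T.w (v 2) = T.w (v 2) by linarith]; exact T.w_dvd _ _)
      (by linarith) (by linarith)
  have ev2_5 : T.a (v 2) (v 5) = T.w (v 2) := by
    have tv12 := Groth.Agent.helper11.quad_test T v hn (![0, 0, 1, 0, 0, 1] : Fin 6 → ℤ) 2 (by decide)
    have htv12_0 : (![0, 0, 1, 0, 0, 1] : Fin 6 → ℤ) 0 = 0 := rfl
    have htv12_1 : (![0, 0, 1, 0, 0, 1] : Fin 6 → ℤ) 1 = 0 := rfl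
    have htv12_2 : (![0, 0, 1, 0, 0, 1] : Fin 6 → ℤ) 2 = 1 := rfl
    have htv12_3 : (![0, 0, 1, 0, 0, 1] : Fin 6 → ℤ) 3 = 0 := rfl
    have htv12_4 : (![0, 0, 1, 0, 0, 1] : Fin 6 → ℤ) 4 = 0 := rfl
    have htv12_5 : (![0, 0, 1, 0, 0, 1] : Fin 6 → ℤ) 5 = 1 := rfl
    simp only [Fin.sum_univ_six] at tv12
    simp only [htv12_0, htv12_1, htv12_2, htv12_3, htv12_4, htv12_5] at tv12
    norm_num at tv12
    have := hwc5
    exact Groth.Agent.helper11.dvd_eq_of_lt_two_mul (hwp 2) (by rw [show T.w (v 2) = T.w (v 2) by linarith]; exact T.w_dvd _ _)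
      (by linarith) (by linarith)
  have hwc0 : T.w (v 0) = T.w (v 2) := by
    have tv13 := Groth.Agent.helper11.quad_test T v hn (![1, 1, 0, 0, 0, 0] : Fin 6 → ℤ) 0 (by decide)
    have htv13_0 : (![1, 1, 0, 0, 0, 0] : Fin 6 → ℤ) 0 = 1 := rfl
    have htv13_1 : (![1, 1, 0, 0, 0, 0] : Fin 6 → ℤ) 1 = 1 := rfl
    have htv13_2 : (![1, 1, 0, 0, 0, 0] : Fin 6 → ℤ) 2 = 0 := rfl
    have htv13_3 : (![1, 1, 0, 0, 0, 0] : Fin 6 → ℤ) 3 = 0 := rfl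
    have htv13_4 : (![1, 1, 0, 0, 0, 0] : Fin 6 → ℤ) 4 = 0 := rfl
    have htv13_5 : (![1, 1, 0, 0, 0, 0] : Fin 6 → ℤ) 5 = 0 := rfl
    simp only [Fin.sum_univ_six] at tv13
    simp only [htv13_0, htv13_1, htv13_2, htv13_3, htv13_4, htv13_5] at tv13
    norm_num at tv13
    rcases lt_trichotomy (T.w (v 1)) (T.w (v 0)) with h | h | h
    · exfalso
      have tv14 := Groth.Agent.helper11.quad_test T v hn (![1, 2, 2, 1, 0, 1] : Fin 6 → ℤ) 0 (by decide)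
      have htv14_0 : (![1, 2, 2, 1, 0, 1] : Fin 6 → ℤ) 0 = 1 := rfl
      have htv14_1 : (![1, 2, 2, 1, 0, 1] : Fin 6 → ℤ) 1 = 2 := rfl
      have htv14_2 : (![1, 2, 2, 1, 0, 1] : Fin 6 → ℤ) 2 = 2 := rfl
      have htv14_3 : (![1, 2, 2, 1, 0, 1] : Fin 6 → ℤ) 3 = 1 := rfl
      have htv14_4 : (![1, 2, 2, 1, 0, 1] : Fin 6 → ℤ) 4 = 0 := rfl
      have htv14_5 : (![1, 2, 2, 1, 0, 1] : Fin 6 → ℤ) 5 = 1 := rfl
      simp only [Fin.sum_univ_six] at tv14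
      simp only [htv14_0, htv14_1, htv14_2, htv14_3, htv14_4, htv14_5] at tv14
      norm_num at tv14
      have ha : T.a (v 0) (v 1) = T.w (v 0) :=
        Groth.Agent.helper11.dvd_eq_of_lt_two_mul (hwp 0) (T.w_dvd _ _)
          (hw1 0 1 e0_1) (by linarith)
      have h2 : 2 * T.w (v 1) ≤ T.w (v 0) :=
        Groth.Agent.helper11.two_mul_le_of_dvd_of_lt (hwp 1) (by rw [← ha]; exact (by rw [← hs]; exact T.w_dvd _ _)) h
      have := hwc1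
      linarith
    · rw [← h]; exact hwc1
    · exfalso
      have tv15 := Groth.Agent.helper11.quad_test T v hn (![2, 2, 2, 1, 0, 1] : Fin 6 → ℤ) 0 (by decide)
      have htv15_0 : (![2, 2, 2, 1, 0, 1] : Fin 6 → ℤ) 0 = 2 := rfl
      have htv15_1 : (![2, 2, 2, 1, 0, 1] : Fin 6 → ℤ) 1 = 2 := rfl
      have htv15_2 : (![2, 2, 2, 1, 0, 1] : Fin 6 → ℤ) 2 = 2 := rfl
      have htv15_3 : (![2, 2, 2, 1, 0, 1] : Fin 6 → ℤ) 3 = 1 := rfl
      have htv15_4 : (![2, 2, 2, 1, 0, 1] : Fin 6 → ℤ) 4 = 0 := rfl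
      have htv15_5 : (![2, 2, 2, 1, 0, 1] : Fin 6 → ℤ) 5 = 1 := rfl
      simp only [Fin.sum_univ_six] at tv15
      simp only [htv15_0, htv15_1, htv15_2, htv15_3, htv15_4, htv15_5] at tv15
      norm_num at tv15
      have ha : T.a (v 0) (v 1) = T.w (v 1) :=
        Groth.Agent.helper11.dvd_eq_of_lt_two_mul (hwp 1) (by rw [← hs]; exact T.w_dvd _ _)
          (hw2 0 1 e0_1) (by linarith)
      have h2 : 2 * T.w (v 0) ≤ T.w (v 1) :=
        Groth.Agent.helper11.two_mul_le_of_dvd_of_lt (hwp 0) (by rw [← ha]; exact (T.w_dvd _ _)) h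
      have := hwc1
      linarith
  have ev0_1 : T.a (v 0) (v 1) = T.w (v 2) := by
    have tv16 := Groth.Agent.helper11.quad_test T v hn (![1, 1, 0, 0, 0, 0] : Fin 6 → ℤ) 0 (by decide)
    have htv16_0 : (![1, 1, 0, 0, 0, 0] : Fin 6 → ℤ) 0 = 1 := rfl
    have htv16_1 : (![1, 1, 0, 0, 0, 0] : Fin 6 → ℤ) 1 = 1 := rfl
    have htv16_2 : (![1, 1, 0, 0, 0, 0] : Fin 6 → ℤ) 2 = 0 := rfl
    have htv16_3 : (![1, 1, 0, 0, 0, 0] : Fin 6 → ℤ) 3 = 0 := rfl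
    have htv16_4 : (![1, 1, 0, 0, 0, 0] : Fin 6 → ℤ) 4 = 0 := rfl
    have htv16_5 : (![1, 1, 0, 0, 0, 0] : Fin 6 → ℤ) 5 = 0 := rfl
    simp only [Fin.sum_univ_six] at tv16
    simp only [htv16_0, htv16_1, htv16_2, htv16_3, htv16_4, htv16_5] at tv16
    norm_num at tv16
    have := hwc0
    have := hwc1
    exact Groth.Agent.helper11.dvd_eq_of_lt_two_mul (hwp 2) (by rw [show T.w (v 2) = T.w (v 0) by linarith]; exact T.w_dvd _ _)
      (by linarith) (by linarith)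
  have hwc4 : T.w (v 4) = T.w (v 2) := by
    have tv17 := Groth.Agent.helper11.quad_test T v hn (![0, 0, 0, 1, 1, 0] : Fin 6 → ℤ) 3 (by decide)
    have htv17_0 : (![0, 0, 0, 1, 1, 0] : Fin 6 → ℤ) 0 = 0 := rfl
    have htv17_1 : (![0, 0, 0, 1, 1, 0] : Fin 6 → ℤ) 1 = 0 := rfl
    have htv17_2 : (![0, 0, 0, 1, 1, 0] : Fin 6 → ℤ) 2 = 0 := rfl
    have htv17_3 : (![0, 0, 0, 1, 1, 0] : Fin 6 → ℤ) 3 = 1 := rfl
    have htv17_4 : (![0, 0, 0, 1, 1, 0] : Fin 6 → ℤ) 4 = 1 := rfl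
    have htv17_5 : (![0, 0, 0, 1, 1, 0] : Fin 6 → ℤ) 5 = 0 := rfl
    simp only [Fin.sum_univ_six] at tv17
    simp only [htv17_0, htv17_1, htv17_2, htv17_3, htv17_4, htv17_5] at tv17
    norm_num at tv17
    rcases lt_trichotomy (T.w (v 3)) (T.w (v 4)) with h | h | h
    · exfalso
      have tv18 := Groth.Agent.helper11.quad_test T v hn (![0, 1, 2, 2, 1, 1] : Fin 6 → ℤ) 1 (by decide)
      have htv18_0 : (![0, 1, 2, 2, 1, 1] : Fin 6 → ℤ) 0 = 0 := rfl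
      have htv18_1 : (![0, 1, 2, 2, 1, 1] : Fin 6 → ℤ) 1 = 1 := rfl
      have htv18_2 : (![0, 1, 2, 2, 1, 1] : Fin 6 → ℤ) 2 = 2 := rfl
      have htv18_3 : (![0, 1, 2, 2, 1, 1] : Fin 6 → ℤ) 3 = 2 := rfl
      have htv18_4 : (![0, 1, 2, 2, 1, 1] : Fin 6 → ℤ) 4 = 1 := rfl
      have htv18_5 : (![0, 1, 2, 2, 1, 1] : Fin 6 → ℤ) 5 = 1 := rfl
      simp only [Fin.sum_univ_six] at tv18
      simp only [htv18_0, htv18_1, htv18_2, htv18_3, htv18_4, htv18_5] at tv18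
      norm_num at tv18
      have ha : T.a (v 3) (v 4) = T.w (v 4) :=
        Groth.Agent.helper11.dvd_eq_of_lt_two_mul (hwp 4) (by rw [← hs]; exact T.w_dvd _ _)
          (hw2 3 4 e3_4) (by linarith)
      have h2 : 2 * T.w (v 3) ≤ T.w (v 4) :=
        Groth.Agent.helper11.two_mul_le_of_dvd_of_lt (hwp 3) (by rw [← ha]; exact (T.w_dvd _ _)) h
      have := hwc3
      linarith
    · rw [← h]; exact hwc3
    · exfalso
      have tv19 := Groth.Agent.helper11.quad_test T v hn (![0, 1, 2, 2, 2, 1] : Fin 6 → ℤ) 1 (by decide)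
      have htv19_0 : (![0, 1, 2, 2, 2, 1] : Fin 6 → ℤ) 0 = 0 := rfl
      have htv19_1 : (![0, 1, 2, 2, 2, 1] : Fin 6 → ℤ) 1 = 1 := rfl
      have htv19_2 : (![0, 1, 2, 2, 2, 1] : Fin 6 → ℤ) 2 = 2 := rfl
      have htv19_3 : (![0, 1, 2, 2, 2, 1] : Fin 6 → ℤ) 3 = 2 := rfl
      have htv19_4 : (![0, 1, 2, 2, 2, 1] : Fin 6 → ℤ) 4 = 2 := rfl
      have htv19_5 : (![0, 1, 2, 2, 2, 1] : Fin 6 → ℤ) 5 = 1 := rfl
      simp only [Fin.sum_univ_six] at tv19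
      simp only [htv19_0, htv19_1, htv19_2, htv19_3, htv19_4, htv19_5] at tv19
      norm_num at tv19
      have ha : T.a (v 3) (v 4) = T.w (v 3) :=
        Groth.Agent.helper11.dvd_eq_of_lt_two_mul (hwp 3) (T.w_dvd _ _)
          (hw1 3 4 e3_4) (by linarith)
      have h2 : 2 * T.w (v 4) ≤ T.w (v 3) :=
        Groth.Agent.helper11.two_mul_le_of_dvd_of_lt (hwp 4) (by rw [← ha]; exact (by rw [← hs]; exact T.w_dvd _ _)) h
      have := hwc3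
      linarith
  have ev3_4 : T.a (v 3) (v 4) = T.w (v 2) := by
    have tv20 := Groth.Agent.helper11.quad_test T v hn (![0, 0, 0, 1, 1, 0] : Fin 6 → ℤ) 3 (by decide)
    have htv20_0 : (![0, 0, 0, 1, 1, 0] : Fin 6 → ℤ) 0 = 0 := rfl
    have htv20_1 : (![0, 0, 0, 1, 1, 0] : Fin 6 → ℤ) 1 = 0 := rfl
    have htv20_2 : (![0, 0, 0, 1, 1, 0] : Fin 6 → ℤ) 2 = 0 := rfl
    have htv20_3 : (![0, 0, 0, 1, 1, 0] : Fin 6 → ℤ) 3 = 1 := rfl
    have htv20_4 : (![0, 0, 0, 1, 1, 0] : Fin 6 → ℤ) 4 = 1 := rfl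
    have htv20_5 : (![0, 0, 0, 1, 1, 0] : Fin 6 → ℤ) 5 = 0 := rfl
    simp only [Fin.sum_univ_six] at tv20
    simp only [htv20_0, htv20_1, htv20_2, htv20_3, htv20_4, htv20_5] at tv20
    norm_num at tv20
    have := hwc3
    have := hwc4
    exact Groth.Agent.helper11.dvd_eq_of_lt_two_mul (hwp 2) (by rw [show T.w (v 2) = T.w (v 3) by linarith]; exact T.w_dvd _ _)
      (by linarith) (by linarith)
  have hz0_2 : T.a (v 0) (v 2) = 0 := by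
    by_contra hne
    have hpos : 0 < T.a (v 0) (v 2) := lt_of_le_of_ne (ho 0 2 (by decide)) (Ne.symm hne)
    have := hw1 0 2 hpos
    have tv21 := Groth.Agent.helper11.quad_test T v hn (![1, 1, 1, 0, 0, 0] : Fin 6 → ℤ) 0 (by decide)
    have htv21_0 : (![1, 1, 1, 0, 0, 0] : Fin 6 → ℤ) 0 = 1 := rfl
    have htv21_1 : (![1, 1, 1, 0, 0, 0] : Fin 6 → ℤ) 1 = 1 := rfl
    have htv21_2 : (![1, 1, 1, 0, 0, 0] : Fin 6 → ℤ) 2 = 1 := rfl
    have htv21_3 : (![1, 1, 1, 0, 0, 0] : Fin 6 → ℤ) 3 = 0 := rfl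
    have htv21_4 : (![1, 1, 1, 0, 0, 0] : Fin 6 → ℤ) 4 = 0 := rfl
    have htv21_5 : (![1, 1, 1, 0, 0, 0] : Fin 6 → ℤ) 5 = 0 := rfl
    simp only [Fin.sum_univ_six] at tv21
    simp only [htv21_0, htv21_1, htv21_2, htv21_3, htv21_4, htv21_5] at tv21
    norm_num at tv21
    have := hwc0
    have := hwc1
    have := hwc3
    have := hwc4
    have := hwc5
    have := ev0_1
    have := ev1_2
    have := ev2_3
    have := ev3_4
    have := ev2_5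
    linarith
  have hz0_3 : T.a (v 0) (v 3) = 0 := by
    by_contra hne
    have hpos : 0 < T.a (v 0) (v 3) := lt_of_le_of_ne (ho 0 3 (by decide)) (Ne.symm hne)
    have := hw1 0 3 hpos
    have tv22 := Groth.Agent.helper11.quad_test T v hn (![1, 1, 1, 1, 0, 0] : Fin 6 → ℤ) 0 (by decide)
    have htv22_0 : (![1, 1, 1, 1, 0, 0] : Fin 6 → ℤ) 0 = 1 := rfl
    have htv22_1 : (![1, 1, 1, 1, 0, 0] : Fin 6 → ℤ) 1 = 1 := rfl
    have htv22_2 : (![1, 1, 1, 1, 0, 0] : Fin 6 → ℤ) 2 = 1 := rfl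
    have htv22_3 : (![1, 1, 1, 1, 0, 0] : Fin 6 → ℤ) 3 = 1 := rfl
    have htv22_4 : (![1, 1, 1, 1, 0, 0] : Fin 6 → ℤ) 4 = 0 := rfl
    have htv22_5 : (![1, 1, 1, 1, 0, 0] : Fin 6 → ℤ) 5 = 0 := rfl
    simp only [Fin.sum_univ_six] at tv22
    simp only [htv22_0, htv22_1, htv22_2, htv22_3, htv22_4, htv22_5] at tv22
    norm_num at tv22
    have := hwc0
    have := hwc1
    have := hwc3
    have := hwc4
    have := hwc5
    have := ev0_1
    have := ev1_2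
    have := ev2_3
    have := ev3_4
    have := ev2_5
    linarith
  have hz0_4 : T.a (v 0) (v 4) = 0 := by
    by_contra hne
    have hpos : 0 < T.a (v 0) (v 4) := lt_of_le_of_ne (ho 0 4 (by decide)) (Ne.symm hne)
    have := hw1 0 4 hpos
    have tv23 := Groth.Agent.helper11.quad_test T v hn (![1, 1, 1, 1, 1, 0] : Fin 6 → ℤ) 0 (by decide)
    have htv23_0 : (![1, 1, 1, 1, 1, 0] : Fin 6 → ℤ) 0 = 1 := rfl
    have htv23_1 : (![1, 1, 1, 1, 1, 0] : Fin 6 → ℤ) 1 = 1 := rfl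
    have htv23_2 : (![1, 1, 1, 1, 1, 0] : Fin 6 → ℤ) 2 = 1 := rfl
    have htv23_3 : (![1, 1, 1, 1, 1, 0] : Fin 6 → ℤ) 3 = 1 := rfl
    have htv23_4 : (![1, 1, 1, 1, 1, 0] : Fin 6 → ℤ) 4 = 1 := rfl
    have htv23_5 : (![1, 1, 1, 1, 1, 0] : Fin 6 → ℤ) 5 = 0 := rfl
    simp only [Fin.sum_univ_six] at tv23
    simp only [htv23_0, htv23_1, htv23_2, htv23_3, htv23_4, htv23_5] at tv23
    norm_num at tv23
    have := hwc0
    have := hwc1
    have := hwc3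
    have := hwc4
    have := hwc5
    have := ev0_1
    have := ev1_2
    have := ev2_3
    have := ev3_4
    have := ev2_5
    linarith
  have hz0_5 : T.a (v 0) (v 5) = 0 := by
    by_contra hne
    have hpos : 0 < T.a (v 0) (v 5) := lt_of_le_of_ne (ho 0 5 (by decide)) (Ne.symm hne)
    have := hw1 0 5 hpos
    have tv24 := Groth.Agent.helper11.quad_test T v hn (![1, 1, 1, 0, 0, 1] : Fin 6 → ℤ) 0 (by decide)
    have htv24_0 : (![1, 1, 1, 0, 0, 1] : Fin 6 → ℤ) 0 = 1 := rfl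
    have htv24_1 : (![1, 1, 1, 0, 0, 1] : Fin 6 → ℤ) 1 = 1 := rfl
    have htv24_2 : (![1, 1, 1, 0, 0, 1] : Fin 6 → ℤ) 2 = 1 := rfl
    have htv24_3 : (![1, 1, 1, 0, 0, 1] : Fin 6 → ℤ) 3 = 0 := rfl
    have htv24_4 : (![1, 1, 1, 0, 0, 1] : Fin 6 → ℤ) 4 = 0 := rfl
    have htv24_5 : (![1, 1, 1, 0, 0, 1] : Fin 6 → ℤ) 5 = 1 := rfl
    simp only [Fin.sum_univ_six] at tv24
    simp only [htv24_0, htv24_1, htv24_2, htv24_3, htv24_4, htv24_5] at tv24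
    norm_num at tv24
    have := hwc0
    have := hwc1
    have := hwc3
    have := hwc4
    have := hwc5
    have := ev0_1
    have := ev1_2
    have := ev2_3
    have := ev3_4
    have := ev2_5
    linarith
  have hz1_3 : T.a (v 1) (v 3) = 0 := by
    by_contra hne
    have hpos : 0 < T.a (v 1) (v 3) := lt_of_le_of_ne (ho 1 3 (by decide)) (Ne.symm hne)
    have := hw1 1 3 hpos
    have tv25 := Groth.Agent.helper11.quad_test T v hn (![0, 1, 1, 1, 0, 0] : Fin 6 → ℤ) 1 (by decide)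
    have htv25_0 : (![0, 1, 1, 1, 0, 0] : Fin 6 → ℤ) 0 = 0 := rfl
    have htv25_1 : (![0, 1, 1, 1, 0, 0] : Fin 6 → ℤ) 1 = 1 := rfl
    have htv25_2 : (![0, 1, 1, 1, 0, 0] : Fin 6 → ℤ) 2 = 1 := rfl
    have htv25_3 : (![0, 1, 1, 1, 0, 0] : Fin 6 → ℤ) 3 = 1 := rfl
    have htv25_4 : (![0, 1, 1, 1, 0, 0] : Fin 6 → ℤ) 4 = 0 := rfl
    have htv25_5 : (![0, 1, 1, 1, 0, 0] : Fin 6 → ℤ) 5 = 0 := rfl
    simp only [Fin.sum_univ_six] at tv25
    simp only [htv25_0, htv25_1, htv25_2, htv25_3, htv25_4, htv25_5] at tv25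
    norm_num at tv25
    have := hwc0
    have := hwc1
    have := hwc3
    have := hwc4
    have := hwc5
    have := ev0_1
    have := ev1_2
    have := ev2_3
    have := ev3_4
    have := ev2_5
    linarith
  have hz1_4 : T.a (v 1) (v 4) = 0 := by
    by_contra hne
    have hpos : 0 < T.a (v 1) (v 4) := lt_of_le_of_ne (ho 1 4 (by decide)) (Ne.symm hne)
    have := hw1 1 4 hpos
    have tv26 := Groth.Agent.helper11.quad_test T v hn (![0, 1, 1, 1, 1, 0] : Fin 6 → ℤ) 1 (by decide)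
    have htv26_0 : (![0, 1, 1, 1, 1, 0] : Fin 6 → ℤ) 0 = 0 := rfl
    have htv26_1 : (![0, 1, 1, 1, 1, 0] : Fin 6 → ℤ) 1 = 1 := rfl
    have htv26_2 : (![0, 1, 1, 1, 1, 0] : Fin 6 → ℤ) 2 = 1 := rfl
    have htv26_3 : (![0, 1, 1, 1, 1, 0] : Fin 6 → ℤ) 3 = 1 := rfl
    have htv26_4 : (![0, 1, 1, 1, 1, 0] : Fin 6 → ℤ) 4 = 1 := rfl
    have htv26_5 : (![0, 1, 1, 1, 1, 0] : Fin 6 → ℤ) 5 = 0 := rfl
    simp only [Fin.sum_univ_six] at tv26
    simp only [htv26_0, htv26_1, htv26_2, htv26_3, htv26_4, htv26_5] at tv26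
    norm_num at tv26
    have := hwc0
    have := hwc1
    have := hwc3
    have := hwc4
    have := hwc5
    have := ev0_1
    have := ev1_2
    have := ev2_3
    have := ev3_4
    have := ev2_5
    linarith
  have hz1_5 : T.a (v 1) (v 5) = 0 := by
    by_contra hne
    have hpos : 0 < T.a (v 1) (v 5) := lt_of_le_of_ne (ho 1 5 (by decide)) (Ne.symm hne)
    have := hw1 1 5 hpos
    have tv27 := Groth.Agent.helper11.quad_test T v hn (![0, 1, 1, 0, 0, 1] : Fin 6 → ℤ) 1 (by decide)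
    have htv27_0 : (![0, 1, 1, 0, 0, 1] : Fin 6 → ℤ) 0 = 0 := rfl
    have htv27_1 : (![0, 1, 1, 0, 0, 1] : Fin 6 → ℤ) 1 = 1 := rfl
    have htv27_2 : (![0, 1, 1, 0, 0, 1] : Fin 6 → ℤ) 2 = 1 := rfl
    have htv27_3 : (![0, 1, 1, 0, 0, 1] : Fin 6 → ℤ) 3 = 0 := rfl
    have htv27_4 : (![0, 1, 1, 0, 0, 1] : Fin 6 → ℤ) 4 = 0 := rfl
    have htv27_5 : (![0, 1, 1, 0, 0, 1] : Fin 6 → ℤ) 5 = 1 := rfl
    simp only [Fin.sum_univ_six] at tv27
    simp only [htv27_0, htv27_1, htv27_2, htv27_3, htv27_4, htv27_5] at tv27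
    norm_num at tv27
    have := hwc0
    have := hwc1
    have := hwc3
    have := hwc4
    have := hwc5
    have := ev0_1
    have := ev1_2
    have := ev2_3
    have := ev3_4
    have := ev2_5
    linarith
  have hz2_4 : T.a (v 2) (v 4) = 0 := by
    by_contra hne
    have hpos : 0 < T.a (v 2) (v 4) := lt_of_le_of_ne (ho 2 4 (by decide)) (Ne.symm hne)
    have := hw1 2 4 hpos
    have tv28 := Groth.Agent.helper11.quad_test T v hn (![0, 0, 1, 1, 1, 0] : Fin 6 → ℤ) 2 (by decide)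
    have htv28_0 : (![0, 0, 1, 1, 1, 0] : Fin 6 → ℤ) 0 = 0 := rfl
    have htv28_1 : (![0, 0, 1, 1, 1, 0] : Fin 6 → ℤ) 1 = 0 := rfl
    have htv28_2 : (![0, 0, 1, 1, 1, 0] : Fin 6 → ℤ) 2 = 1 := rfl
    have htv28_3 : (![0, 0, 1, 1, 1, 0] : Fin 6 → ℤ) 3 = 1 := rfl
    have htv28_4 : (![0, 0, 1, 1, 1, 0] : Fin 6 → ℤ) 4 = 1 := rfl
    have htv28_5 : (![0, 0, 1, 1, 1, 0] : Fin 6 → ℤ) 5 = 0 := rfl
    simp only [Fin.sum_univ_six] at tv28
    simp only [htv28_0, htv28_1, htv28_2, htv28_3, htv28_4, htv28_5] at tv28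
    norm_num at tv28
    have := hwc0
    have := hwc1
    have := hwc3
    have := hwc4
    have := hwc5
    have := ev0_1
    have := ev1_2
    have := ev2_3
    have := ev3_4
    have := ev2_5
    linarith
  have hz3_5 : T.a (v 3) (v 5) = 0 := by
    by_contra hne
    have hpos : 0 < T.a (v 3) (v 5) := lt_of_le_of_ne (ho 3 5 (by decide)) (Ne.symm hne)
    have := hw1 3 5 hpos
    have tv29 := Groth.Agent.helper11.quad_test T v hn (![0, 0, 1, 1, 0, 1] : Fin 6 → ℤ) 2 (by decide)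
    have htv29_0 : (![0, 0, 1, 1, 0, 1] : Fin 6 → ℤ) 0 = 0 := rfl
    have htv29_1 : (![0, 0, 1, 1, 0, 1] : Fin 6 → ℤ) 1 = 0 := rfl
    have htv29_2 : (![0, 0, 1, 1, 0, 1] : Fin 6 → ℤ) 2 = 1 := rfl
    have htv29_3 : (![0, 0, 1, 1, 0, 1] : Fin 6 → ℤ) 3 = 1 := rfl
    have htv29_4 : (![0, 0, 1, 1, 0, 1] : Fin 6 → ℤ) 4 = 0 := rfl
    have htv29_5 : (![0, 0, 1, 1, 0, 1] : Fin 6 → ℤ) 5 = 1 := rfl
    simp only [Fin.sum_univ_six] at tv29
    simp only [htv29_0, htv29_1, htv29_2, htv29_3, htv29_4, htv29_5] at tv29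
    norm_num at tv29
    have := hwc0
    have := hwc1
    have := hwc3
    have := hwc4
    have := hwc5
    have := ev0_1
    have := ev1_2
    have := ev2_3
    have := ev3_4
    have := ev2_5
    linarith
  have hz4_5 : T.a (v 4) (v 5) = 0 := by
    by_contra hne
    have hpos : 0 < T.a (v 4) (v 5) := lt_of_le_of_ne (ho 4 5 (by decide)) (Ne.symm hne)
    have := hw1 4 5 hpos
    have tv30 := Groth.Agent.helper11.quad_test T v hn (![0, 0, 1, 1, 1, 1] : Fin 6 → ℤ) 2 (by decide)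
    have htv30_0 : (![0, 0, 1, 1, 1, 1] : Fin 6 → ℤ) 0 = 0 := rfl
    have htv30_1 : (![0, 0, 1, 1, 1, 1] : Fin 6 → ℤ) 1 = 0 := rfl
    have htv30_2 : (![0, 0, 1, 1, 1, 1] : Fin 6 → ℤ) 2 = 1 := rfl
    have htv30_3 : (![0, 0, 1, 1, 1, 1] : Fin 6 → ℤ) 3 = 1 := rfl
    have htv30_4 : (![0, 0, 1, 1, 1, 1] : Fin 6 → ℤ) 4 = 1 := rfl
    have htv30_5 : (![0, 0, 1, 1, 1, 1] : Fin 6 → ℤ) 5 = 1 := rfl
    simp only [Fin.sum_univ_six] at tv30
    simp only [htv30_0, htv30_1, htv30_2, htv30_3, htv30_4, htv30_5] at tv30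
    norm_num at tv30
    have := hwc0
    have := hwc1
    have := hwc3
    have := hwc4
    have := hwc5
    have := ev0_1
    have := ev1_2
    have := ev2_3
    have := ev3_4
    have := ev2_5
    linarith
  have A0_0 : T.a (v 0) (v 0) = -2 * T.w (v 2) := by rw [hd 0, hwc0]
  have A0_1 : T.a (v 0) (v 1) = T.w (v 2) := ev0_1
  have A0_2 : T.a (v 0) (v 2) = 0 := hz0_2
  have A0_3 : T.a (v 0) (v 3) = 0 := hz0_3
  have A0_4 : T.a (v 0) (v 4) = 0 := hz0_4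
  have A0_5 : T.a (v 0) (v 5) = 0 := hz0_5
  have A1_0 : T.a (v 1) (v 0) = T.w (v 2) := (hs 0 1).trans ev0_1
  have A1_1 : T.a (v 1) (v 1) = -2 * T.w (v 2) := by rw [hd 1, hwc1]
  have A1_2 : T.a (v 1) (v 2) = T.w (v 2) := ev1_2
  have A1_3 : T.a (v 1) (v 3) = 0 := hz1_3
  have A1_4 : T.a (v 1) (v 4) = 0 := hz1_4
  have A1_5 : T.a (v 1) (v 5) = 0 := hz1_5
  have A2_0 : T.a (v 2) (v 0) = 0 := (hs 0 2).trans hz0_2
  have A2_1 : T.a (v 2) (v 1) = T.w (v 2) := (hs 1 2).trans ev1_2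
  have A2_2 : T.a (v 2) (v 2) = -2 * T.w (v 2) := hd 2
  have A2_3 : T.a (v 2) (v 3) = T.w (v 2) := ev2_3
  have A2_4 : T.a (v 2) (v 4) = 0 := hz2_4
  have A2_5 : T.a (v 2) (v 5) = T.w (v 2) := ev2_5
  have A3_0 : T.a (v 3) (v 0) = 0 := (hs 0 3).trans hz0_3
  have A3_1 : T.a (v 3) (v 1) = 0 := (hs 1 3).trans hz1_3
  have A3_2 : T.a (v 3) (v 2) = T.w (v 2) := (hs 2 3).trans ev2_3
  have A3_3 : T.a (v 3) (v 3) = -2 * T.w (v 2) := by rw [hd 3, hwc3]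
  have A3_4 : T.a (v 3) (v 4) = T.w (v 2) := ev3_4
  have A3_5 : T.a (v 3) (v 5) = 0 := hz3_5
  have A4_0 : T.a (v 4) (v 0) = 0 := (hs 0 4).trans hz0_4
  have A4_1 : T.a (v 4) (v 1) = 0 := (hs 1 4).trans hz1_4
  have A4_2 : T.a (v 4) (v 2) = 0 := (hs 2 4).trans hz2_4
  have A4_3 : T.a (v 4) (v 3) = T.w (v 2) := (hs 3 4).trans ev3_4
  have A4_4 : T.a (v 4) (v 4) = -2 * T.w (v 2) := by rw [hd 4, hwc4]
  have A4_5 : T.a (v 4) (v 5) = 0 := hz4_5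
  have A5_0 : T.a (v 5) (v 0) = 0 := (hs 0 5).trans hz0_5
  have A5_1 : T.a (v 5) (v 1) = 0 := (hs 1 5).trans hz1_5
  have A5_2 : T.a (v 5) (v 2) = T.w (v 2) := (hs 2 5).trans ev2_5
  have A5_3 : T.a (v 5) (v 3) = 0 := (hs 3 5).trans hz3_5
  have A5_4 : T.a (v 5) (v 4) = 0 := (hs 4 5).trans hz4_5
  have A5_5 : T.a (v 5) (v 5) = -2 * T.w (v 2) := by rw [hd 5, hwc5]
  have hw0 := hwp 2
  have kr0 : ∑ q, T.a (v 0) (v q) * T.m (v q) = T.w (v 2) * (T.m (v 1) - 2 * T.m (v 0)) := by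
    simp only [Fin.sum_univ_six]
    simp only [A0_0, A0_1, A0_2, A0_3, A0_4, A0_5]
    ring
  have r0 := Groth.Agent.helper11.row_sum_le T v 0
  rw [kr0] at r0
  have mi0 : T.m (v 1) ≤ 2 * T.m (v 0) := by
    by_contra hcon; push Not at hcon
    have := mul_pos hw0 (show 0 < T.m (v 1) - 2 * T.m (v 0) by linarith)
    linarith
  have kr1 : ∑ q, T.a (v 1) (v q) * T.m (v q) = T.w (v 2) * (T.m (v 0) + T.m (v 2) - 2 * T.m (v 1)) := by
    simp only [Fin.sum_univ_six]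
    simp only [A1_0, A1_1, A1_2, A1_3, A1_4, A1_5]
    ring
  have r1 := Groth.Agent.helper11.row_sum_le T v 1
  rw [kr1] at r1
  have mi1 : T.m (v 0) + T.m (v 2) ≤ 2 * T.m (v 1) := by
    by_contra hcon; push Not at hcon
    have := mul_pos hw0 (show 0 < T.m (v 0) + T.m (v 2) - 2 * T.m (v 1) by linarith)
    linarith
  have kr2 : ∑ q, T.a (v 2) (v q) * T.m (v q) = T.w (v 2) * (T.m (v 1) + T.m (v 3) + T.m (v 5) - 2 * T.m (v 2)) := by
    simp only [Fin.sum_univ_six]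
    simp only [A2_0, A2_1, A2_2, A2_3, A2_4, A2_5]
    ring
  have r2 := Groth.Agent.helper11.row_sum_le T v 2
  rw [kr2] at r2
  have mi2 : T.m (v 1) + T.m (v 3) + T.m (v 5) ≤ 2 * T.m (v 2) := by
    by_contra hcon; push Not at hcon
    have := mul_pos hw0 (show 0 < T.m (v 1) + T.m (v 3) + T.m (v 5) - 2 * T.m (v 2) by linarith)
    linarith
  have kr3 : ∑ q, T.a (v 3) (v q) * T.m (v q) = T.w (v 2) * (T.m (v 2) + T.m (v 4) - 2 * T.m (v 3)) := by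
    simp only [Fin.sum_univ_six]
    simp only [A3_0, A3_1, A3_2, A3_3, A3_4, A3_5]
    ring
  have r3 := Groth.Agent.helper11.row_sum_le T v 3
  rw [kr3] at r3
  have mi3 : T.m (v 2) + T.m (v 4) ≤ 2 * T.m (v 3) := by
    by_contra hcon; push Not at hcon
    have := mul_pos hw0 (show 0 < T.m (v 2) + T.m (v 4) - 2 * T.m (v 3) by linarith)
    linarith
  have kr4 : ∑ q, T.a (v 4) (v q) * T.m (v q) = T.w (v 2) * (T.m (v 3) - 2 * T.m (v 4)) := by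
    simp only [Fin.sum_univ_six]
    simp only [A4_0, A4_1, A4_2, A4_3, A4_4, A4_5]
    ring
  have r4 := Groth.Agent.helper11.row_sum_le T v 4
  rw [kr4] at r4
  have mi4 : T.m (v 3) ≤ 2 * T.m (v 4) := by
    by_contra hcon; push Not at hcon
    have := mul_pos hw0 (show 0 < T.m (v 3) - 2 * T.m (v 4) by linarith)
    linarith
  have kr5 : ∑ q, T.a (v 5) (v q) * T.m (v q) = T.w (v 2) * (T.m (v 2) - 2 * T.m (v 5)) := by
    simp only [Fin.sum_univ_six]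
    simp only [A5_0, A5_1, A5_2, A5_3, A5_4, A5_5]
    ring
  have r5 := Groth.Agent.helper11.row_sum_le T v 5
  rw [kr5] at r5
  have mi5 : T.m (v 2) ≤ 2 * T.m (v 5) := by
    by_contra hcon; push Not at hcon
    have := mul_pos hw0 (show 0 < T.m (v 2) - 2 * T.m (v 5) by linarith)
    linarith
  refine ⟨T.w (v 2), ?_, A0_1, A1_2, A2_3, A3_4, A2_5, A0_2, A0_3, A0_4, A0_5, A1_3, A1_4, A1_5, A2_4, A3_5, A4_5, mi0, mi1, mi2, mi3, mi4, mi5⟩
  intro j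
  fin_cases j
  · exact hwc0
  · exact hwc1
  · rfl
  · exact hwc3
  · exact hwc4
  · exact hwc5

end Groth.Agent.S7348
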