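import Groth.Statements.S7350
import Groth.Agent.Lib_helper11_Models2
import Mathlib.Tactic.FinCases
-- import your own Groth.Agent.* helpers here

set_option autoImplicit false
open Finset
open Models Models.NumericalType

namespace Groth.Agent.S7350

set_option maxHeartbeats 4000000

/-- Classification of proper subgraphs of type E8 (a chain i_1 … i_7 with i_8 joined to i_5): let T be a
numerical type on n > 8 indices and i_1, …, i_8 distinct (-2)-indices with a_{12}, a_{23}, a_{34},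
a_{45}, a_{56}, a_{67}, a_{58} nonzero. Then for some integer w all w_{i_j} equal w, these
intersection numbers equal w, all other a_{i_j i_k} (j ≠ k) vanish, and 2 m_1 ≥ m_2, 2 m_2 ≥ m_1 +
m_3, 2 m_3 ≥ m_2 + m_4, 2 m_4 ≥ m_3 + m_5, 2 m_5 ≥ m_4 + m_6 + m_8, 2 m_6 ≥ m_5 + m_7, 2 m_7 ≥ m_6,
2 m_8 ≥ m_5. (The published statement lists a_{65} and a_{57} among the nonzero entries, which
contradicts its own conclusion a_{57} = 0; this row uses the edges of the E8 graph, a_{67} and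
a_{58}, as the pictured graph and the matrix give them.) -/
theorem result {n : ℕ} (T : Models.NumericalType n) (hn : 8 < n)
    (v : Fin 8 ↪ Fin n) (hv : ∀ j, T.IsMinusTwo (v j)) (h01 : T.a (v 0) (v 1) ≠ 0) (h12 : T.a (v 1) (v 2) ≠ 0) (h23 : T.a (v 2) (v 3) ≠ 0) (h34 : T.a (v 3) (v 4) ≠ 0) (h45 : T.a (v 4) (v 5) ≠ 0) (h56 : T.a (v 5) (v 6) ≠ 0) (h47 : T.a (v 4) (v 7) ≠ 0) :
    ∃ w : ℤ, (∀ j : Fin 8, T.w (v j) = w) ∧
      T.a (v 0) (v 1) = w ∧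
      T.a (v 1) (v 2) = w ∧
      T.a (v 2) (v 3) = w ∧
      T.a (v 3) (v 4) = w ∧
      T.a (v 4) (v 5) = w ∧
      T.a (v 5) (v 6) = w ∧
      T.a (v 4) (v 7) = w ∧
      T.a (v 0) (v 2) = 0 ∧
      T.a (v 0) (v 3) = 0 ∧
      T.a (v 0) (v 4) = 0 ∧
      T.a (v 0) (v 5) = 0 ∧
      T.a (v 0) (v 6) = 0 ∧
      T.a (v 0) (v 7) = 0 ∧
      T.a (v 1) (v 3) = 0 ∧
      T.a (v 1) (v 4) = 0 ∧
      T.a (v 1) (v 5) = 0 ∧
      T.a (v 1) (v 6) = 0 ∧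
      T.a (v 1) (v 7) = 0 ∧
      T.a (v 2) (v 4) = 0 ∧
      T.a (v 2) (v 5) = 0 ∧
      T.a (v 2) (v 6) = 0 ∧
      T.a (v 2) (v 7) = 0 ∧
      T.a (v 3) (v 5) = 0 ∧
      T.a (v 3) (v 6) = 0 ∧
      T.a (v 3) (v 7) = 0 ∧
      T.a (v 4) (v 6) = 0 ∧
      T.a (v 5) (v 7) = 0 ∧
      T.a (v 6) (v 7) = 0 ∧
      T.m (v 1) ≤ 2 * T.m (v 0) ∧
      T.m (v 0) + T.m (v 2) ≤ 2 * T.m (v 1) ∧
      T.m (v 1) + T.m (v 3) ≤ 2 * T.m (v 2) ∧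
      T.m (v 2) + T.m (v 4) ≤ 2 * T.m (v 3) ∧
      T.m (v 3) + T.m (v 5) + T.m (v 7) ≤ 2 * T.m (v 4) ∧
      T.m (v 4) + T.m (v 6) ≤ 2 * T.m (v 5) ∧
      T.m (v 5) ≤ 2 * T.m (v 6) ∧
      T.m (v 4) ≤ 2 * T.m (v 7) := by
  classical
  have hd : ∀ p, T.a (v p) (v p) = -2 * T.w (v p) := fun p => (hv p).2
  have hs : ∀ p q, T.a (v q) (v p) = T.a (v p) (v q) := fun p q => T.symm.apply _ _
  have ho : ∀ p q, p ≠ q → 0 ≤ T.a (v p) (v q) := fun p q h =>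
    T.offDiag_nonneg _ _ (v.injective.ne h)
  have hw1 : ∀ p q, 0 < T.a (v p) (v q) → T.w (v p) ≤ T.a (v p) (v q) := fun p q h =>
    Int.le_of_dvd h (T.w_dvd _ _)
  have hw2 : ∀ p q, 0 < T.a (v p) (v q) → T.w (v q) ≤ T.a (v p) (v q) := fun p q h => by
    rw [← hs]; exact Int.le_of_dvd (by rw [hs]; exact h) (T.w_dvd _ _)
  have hwp : ∀ p, 0 < T.w (v p) := fun p => T.w_pos _
  have := hd 0
  have := hwp 0
  have := hd 1
  have := hwp 1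
  have := hd 2
  have := hwp 2
  have := hd 3
  have := hwp 3
  have := hd 4
  have := hwp 4
  have := hd 5
  have := hwp 5
  have := hd 6
  have := hwp 6
  have := hd 7
  have := hwp 7
  have := hs 0 1
  have := ho 0 1 (by decide)
  have := hs 0 2
  have := ho 0 2 (by decide)
  have := hs 0 3
  have := ho 0 3 (by decide)
  have := hs 0 4
  have := ho 0 4 (by decide)
  have := hs 0 5
  have := ho 0 5 (by decide)
  have := hs 0 6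
  have := ho 0 6 (by decide)
  have := hs 0 7
  have := ho 0 7 (by decide)
  have := hs 1 2
  have := ho 1 2 (by decide)
  have := hs 1 3
  have := ho 1 3 (by decide)
  have := hs 1 4
  have := ho 1 4 (by decide)
  have := hs 1 5
  have := ho 1 5 (by decide)
  have := hs 1 6
  have := ho 1 6 (by decide)
  have := hs 1 7
  have := ho 1 7 (by decide)
  have := hs 2 3
  have := ho 2 3 (by decide)
  have := hs 2 4
  have := ho 2 4 (by decide)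
  have := hs 2 5
  have := ho 2 5 (by decide)
  have := hs 2 6
  have := ho 2 6 (by decide)
  have := hs 2 7
  have := ho 2 7 (by decide)
  have := hs 3 4
  have := ho 3 4 (by decide)
  have := hs 3 5
  have := ho 3 5 (by decide)
  have := hs 3 6
  have := ho 3 6 (by decide)
  have := hs 3 7
  have := ho 3 7 (by decide)
  have := hs 4 5
  have := ho 4 5 (by decide)
  have := hs 4 6
  have := ho 4 6 (by decide)
  have := hs 4 7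
  have := ho 4 7 (by decide)
  have := hs 5 6
  have := ho 5 6 (by decide)
  have := hs 5 7
  have := ho 5 7 (by decide)
  have := hs 6 7
  have := ho 6 7 (by decide)
  have e0_1 : 0 < T.a (v 0) (v 1) := lt_of_le_of_ne (ho 0 1 (by decide)) (Ne.symm h01)
  have := hw1 0 1 e0_1
  have := hw2 0 1 e0_1
  have e1_2 : 0 < T.a (v 1) (v 2) := lt_of_le_of_ne (ho 1 2 (by decide)) (Ne.symm h12)
  have := hw1 1 2 e1_2
  have := hw2 1 2 e1_2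
  have e2_3 : 0 < T.a (v 2) (v 3) := lt_of_le_of_ne (ho 2 3 (by decide)) (Ne.symm h23)
  have := hw1 2 3 e2_3
  have := hw2 2 3 e2_3
  have e3_4 : 0 < T.a (v 3) (v 4) := lt_of_le_of_ne (ho 3 4 (by decide)) (Ne.symm h34)
  have := hw1 3 4 e3_4
  have := hw2 3 4 e3_4
  have e4_5 : 0 < T.a (v 4) (v 5) := lt_of_le_of_ne (ho 4 5 (by decide)) (Ne.symm h45)
  have := hw1 4 5 e4_5
  have := hw2 4 5 e4_5
  have e5_6 : 0 < T.a (v 5) (v 6) := lt_of_le_of_ne (ho 5 6 (by decide)) (Ne.symm h56)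
  have := hw1 5 6 e5_6
  have := hw2 5 6 e5_6
  have e4_7 : 0 < T.a (v 4) (v 7) := lt_of_le_of_ne (ho 4 7 (by decide)) (Ne.symm h47)
  have := hw1 4 7 e4_7
  have := hw2 4 7 e4_7
  have hwc3 : T.w (v 3) = T.w (v 4) := by
    have tv1 := Groth.Agent.helper11.quad_test T v hn (![0, 0, 0, 1, 1, 0, 0, 0] : Fin 8 → ℤ) 3 (by decide)
    have htv1_0 : (![0, 0, 0, 1, 1, 0, 0, 0] : Fin 8 → ℤ) 0 = 0 := rfl
    have htv1_1 : (![0, 0, 0, 1, 1, 0, 0, 0] : Fin 8 → ℤ) 1 = 0 := rfl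
    have htv1_2 : (![0, 0, 0, 1, 1, 0, 0, 0] : Fin 8 → ℤ) 2 = 0 := rfl
    have htv1_3 : (![0, 0, 0, 1, 1, 0, 0, 0] : Fin 8 → ℤ) 3 = 1 := rfl
    have htv1_4 : (![0, 0, 0, 1, 1, 0, 0, 0] : Fin 8 → ℤ) 4 = 1 := rfl
    have htv1_5 : (![0, 0, 0, 1, 1, 0, 0, 0] : Fin 8 → ℤ) 5 = 0 := rfl
    have htv1_6 : (![0, 0, 0, 1, 1, 0, 0, 0] : Fin 8 → ℤ) 6 = 0 := rfl
    have htv1_7 : (![0, 0, 0, 1, 1, 0, 0, 0] : Fin 8 → ℤ) 7 = 0 := rfl
    simp only [Fin.sum_univ_eight] at tv1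
    simp only [htv1_0, htv1_1, htv1_2, htv1_3, htv1_4, htv1_5, htv1_6, htv1_7] at tv1
    norm_num at tv1
    rcases lt_trichotomy (T.w (v 4)) (T.w (v 3)) with h | h | h
    · exfalso
      have tv2 := Groth.Agent.helper11.quad_test T v hn (![0, 0, 0, 1, 2, 1, 0, 1] : Fin 8 → ℤ) 3 (by decide)
      have htv2_0 : (![0, 0, 0, 1, 2, 1, 0, 1] : Fin 8 → ℤ) 0 = 0 := rfl
      have htv2_1 : (![0, 0, 0, 1, 2, 1, 0, 1] : Fin 8 → ℤ) 1 = 0 := rfl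
      have htv2_2 : (![0, 0, 0, 1, 2, 1, 0, 1] : Fin 8 → ℤ) 2 = 0 := rfl
      have htv2_3 : (![0, 0, 0, 1, 2, 1, 0, 1] : Fin 8 → ℤ) 3 = 1 := rfl
      have htv2_4 : (![0, 0, 0, 1, 2, 1, 0, 1] : Fin 8 → ℤ) 4 = 2 := rfl
      have htv2_5 : (![0, 0, 0, 1, 2, 1, 0, 1] : Fin 8 → ℤ) 5 = 1 := rfl
      have htv2_6 : (![0, 0, 0, 1, 2, 1, 0, 1] : Fin 8 → ℤ) 6 = 0 := rfl
      have htv2_7 : (![0, 0, 0, 1, 2, 1, 0, 1] : Fin 8 → ℤ) 7 = 1 := rfl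
      simp only [Fin.sum_univ_eight] at tv2
      simp only [htv2_0, htv2_1, htv2_2, htv2_3, htv2_4, htv2_5, htv2_6, htv2_7] at tv2
      norm_num at tv2
      have ha : T.a (v 3) (v 4) = T.w (v 3) :=
        Groth.Agent.helper11.dvd_eq_of_lt_two_mul (hwp 3) (T.w_dvd _ _)
          (hw1 3 4 e3_4) (by linarith)
      have h2 : 2 * T.w (v 4) ≤ T.w (v 3) :=
        Groth.Agent.helper11.two_mul_le_of_dvd_of_lt (hwp 4) (by rw [← ha]; exact (by rw [← hs]; exact T.w_dvd _ _)) h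
      linarith
    · exact h.symm
    · exfalso
      have tv3 := Groth.Agent.helper11.quad_test T v hn (![0, 0, 0, 2, 2, 1, 0, 1] : Fin 8 → ℤ) 3 (by decide)
      have htv3_0 : (![0, 0, 0, 2, 2, 1, 0, 1] : Fin 8 → ℤ) 0 = 0 := rfl
      have htv3_1 : (![0, 0, 0, 2, 2, 1, 0, 1] : Fin 8 → ℤ) 1 = 0 := rfl
      have htv3_2 : (![0, 0, 0, 2, 2, 1, 0, 1] : Fin 8 → ℤ) 2 = 0 := rfl
      have htv3_3 : (![0, 0, 0, 2, 2, 1, 0, 1] : Fin 8 → ℤ) 3 = 2 := rfl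
      have htv3_4 : (![0, 0, 0, 2, 2, 1, 0, 1] : Fin 8 → ℤ) 4 = 2 := rfl
      have htv3_5 : (![0, 0, 0, 2, 2, 1, 0, 1] : Fin 8 → ℤ) 5 = 1 := rfl
      have htv3_6 : (![0, 0, 0, 2, 2, 1, 0, 1] : Fin 8 → ℤ) 6 = 0 := rfl
      have htv3_7 : (![0, 0, 0, 2, 2, 1, 0, 1] : Fin 8 → ℤ) 7 = 1 := rfl
      simp only [Fin.sum_univ_eight] at tv3
      simp only [htv3_0, htv3_1, htv3_2, htv3_3, htv3_4, htv3_5, htv3_6, htv3_7] at tv3
      norm_num at tv3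
      have ha : T.a (v 3) (v 4) = T.w (v 4) :=
        Groth.Agent.helper11.dvd_eq_of_lt_two_mul (hwp 4) (by rw [← hs]; exact T.w_dvd _ _)
          (hw2 3 4 e3_4) (by linarith)
      have h2 : 2 * T.w (v 3) ≤ T.w (v 4) :=
        Groth.Agent.helper11.two_mul_le_of_dvd_of_lt (hwp 3) (by rw [← ha]; exact (T.w_dvd _ _)) h
      linarith
  have hwc5 : T.w (v 5) = T.w (v 4) := by
    have tv4 := Groth.Agent.helper11.quad_test T v hn (![0, 0, 0, 0, 1, 1, 0, 0] : Fin 8 → ℤ) 4 (by decide)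
    have htv4_0 : (![0, 0, 0, 0, 1, 1, 0, 0] : Fin 8 → ℤ) 0 = 0 := rfl
    have htv4_1 : (![0, 0, 0, 0, 1, 1, 0, 0] : Fin 8 → ℤ) 1 = 0 := rfl
    have htv4_2 : (![0, 0, 0, 0, 1, 1, 0, 0] : Fin 8 → ℤ) 2 = 0 := rfl
    have htv4_3 : (![0, 0, 0, 0, 1, 1, 0, 0] : Fin 8 → ℤ) 3 = 0 := rfl
    have htv4_4 : (![0, 0, 0, 0, 1, 1, 0, 0] : Fin 8 → ℤ) 4 = 1 := rfl
    have htv4_5 : (![0, 0, 0, 0, 1, 1, 0, 0] : Fin 8 → ℤ) 5 = 1 := rfl
    have htv4_6 : (![0, 0, 0, 0, 1, 1, 0, 0] : Fin 8 → ℤ) 6 = 0 := rfl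
    have htv4_7 : (![0, 0, 0, 0, 1, 1, 0, 0] : Fin 8 → ℤ) 7 = 0 := rfl
    simp only [Fin.sum_univ_eight] at tv4
    simp only [htv4_0, htv4_1, htv4_2, htv4_3, htv4_4, htv4_5, htv4_6, htv4_7] at tv4
    norm_num at tv4
    rcases lt_trichotomy (T.w (v 4)) (T.w (v 5)) with h | h | h
    · exfalso
      have tv5 := Groth.Agent.helper11.quad_test T v hn (![0, 0, 0, 1, 2, 1, 0, 1] : Fin 8 → ℤ) 3 (by decide)
      have htv5_0 : (![0, 0, 0, 1, 2, 1, 0, 1] : Fin 8 → ℤ) 0 = 0 := rfl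
      have htv5_1 : (![0, 0, 0, 1, 2, 1, 0, 1] : Fin 8 → ℤ) 1 = 0 := rfl
      have htv5_2 : (![0, 0, 0, 1, 2, 1, 0, 1] : Fin 8 → ℤ) 2 = 0 := rfl
      have htv5_3 : (![0, 0, 0, 1, 2, 1, 0, 1] : Fin 8 → ℤ) 3 = 1 := rfl
      have htv5_4 : (![0, 0, 0, 1, 2, 1, 0, 1] : Fin 8 → ℤ) 4 = 2 := rfl
      have htv5_5 : (![0, 0, 0, 1, 2, 1, 0, 1] : Fin 8 → ℤ) 5 = 1 := rfl
      have htv5_6 : (![0, 0, 0, 1, 2, 1, 0, 1] : Fin 8 → ℤ) 6 = 0 := rfl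
      have htv5_7 : (![0, 0, 0, 1, 2, 1, 0, 1] : Fin 8 → ℤ) 7 = 1 := rfl
      simp only [Fin.sum_univ_eight] at tv5
      simp only [htv5_0, htv5_1, htv5_2, htv5_3, htv5_4, htv5_5, htv5_6, htv5_7] at tv5
      norm_num at tv5
      have ha : T.a (v 4) (v 5) = T.w (v 5) :=
        Groth.Agent.helper11.dvd_eq_of_lt_two_mul (hwp 5) (by rw [← hs]; exact T.w_dvd _ _)
          (hw2 4 5 e4_5) (by linarith)
      have h2 : 2 * T.w (v 4) ≤ T.w (v 5) :=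
        Groth.Agent.helper11.two_mul_le_of_dvd_of_lt (hwp 4) (by rw [← ha]; exact (T.w_dvd _ _)) h
      linarith
    · exact h.symm
    · exfalso
      have tv6 := Groth.Agent.helper11.quad_test T v hn (![0, 0, 0, 1, 2, 2, 0, 1] : Fin 8 → ℤ) 3 (by decide)
      have htv6_0 : (![0, 0, 0, 1, 2, 2, 0, 1] : Fin 8 → ℤ) 0 = 0 := rfl
      have htv6_1 : (![0, 0, 0, 1, 2, 2, 0, 1] : Fin 8 → ℤ) 1 = 0 := rfl
      have htv6_2 : (![0, 0, 0, 1, 2, 2, 0, 1] : Fin 8 → ℤ) 2 = 0 := rfl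
      have htv6_3 : (![0, 0, 0, 1, 2, 2, 0, 1] : Fin 8 → ℤ) 3 = 1 := rfl
      have htv6_4 : (![0, 0, 0, 1, 2, 2, 0, 1] : Fin 8 → ℤ) 4 = 2 := rfl
      have htv6_5 : (![0, 0, 0, 1, 2, 2, 0, 1] : Fin 8 → ℤ) 5 = 2 := rfl
      have htv6_6 : (![0, 0, 0, 1, 2, 2, 0, 1] : Fin 8 → ℤ) 6 = 0 := rfl
      have htv6_7 : (![0, 0, 0, 1, 2, 2, 0, 1] : Fin 8 → ℤ) 7 = 1 := rfl
      simp only [Fin.sum_univ_eight] at tv6
      simp only [htv6_0, htv6_1, htv6_2, htv6_3, htv6_4, htv6_5, htv6_6, htv6_7] at tv6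
      norm_num at tv6
      have ha : T.a (v 4) (v 5) = T.w (v 4) :=
        Groth.Agent.helper11.dvd_eq_of_lt_two_mul (hwp 4) (T.w_dvd _ _)
          (hw1 4 5 e4_5) (by linarith)
      have h2 : 2 * T.w (v 5) ≤ T.w (v 4) :=
        Groth.Agent.helper11.two_mul_le_of_dvd_of_lt (hwp 5) (by rw [← ha]; exact (by rw [← hs]; exact T.w_dvd _ _)) h
      linarith
  have hwc7 : T.w (v 7) = T.w (v 4) := by
    have tv7 := Groth.Agent.helper11.quad_test T v hn (![0, 0, 0, 0, 1, 0, 0, 1] : Fin 8 → ℤ) 4 (by decide)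
    have htv7_0 : (![0, 0, 0, 0, 1, 0, 0, 1] : Fin 8 → ℤ) 0 = 0 := rfl
    have htv7_1 : (![0, 0, 0, 0, 1, 0, 0, 1] : Fin 8 → ℤ) 1 = 0 := rfl
    have htv7_2 : (![0, 0, 0, 0, 1, 0, 0, 1] : Fin 8 → ℤ) 2 = 0 := rfl
    have htv7_3 : (![0, 0, 0, 0, 1, 0, 0, 1] : Fin 8 → ℤ) 3 = 0 := rfl
    have htv7_4 : (![0, 0, 0, 0, 1, 0, 0, 1] : Fin 8 → ℤ) 4 = 1 := rfl
    have htv7_5 : (![0, 0, 0, 0, 1, 0, 0, 1] : Fin 8 → ℤ) 5 = 0 := rfl
    have htv7_6 : (![0, 0, 0, 0, 1, 0, 0, 1] : Fin 8 → ℤ) 6 = 0 := rfl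
    have htv7_7 : (![0, 0, 0, 0, 1, 0, 0, 1] : Fin 8 → ℤ) 7 = 1 := rfl
    simp only [Fin.sum_univ_eight] at tv7
    simp only [htv7_0, htv7_1, htv7_2, htv7_3, htv7_4, htv7_5, htv7_6, htv7_7] at tv7
    norm_num at tv7
    rcases lt_trichotomy (T.w (v 4)) (T.w (v 7)) with h | h | h
    · exfalso
      have tv8 := Groth.Agent.helper11.quad_test T v hn (![0, 0, 0, 1, 2, 1, 0, 1] : Fin 8 → ℤ) 3 (by decide)
      have htv8_0 : (![0, 0, 0, 1, 2, 1, 0, 1] : Fin 8 → ℤ) 0 = 0 := rfl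
      have htv8_1 : (![0, 0, 0, 1, 2, 1, 0, 1] : Fin 8 → ℤ) 1 = 0 := rfl
      have htv8_2 : (![0, 0, 0, 1, 2, 1, 0, 1] : Fin 8 → ℤ) 2 = 0 := rfl
      have htv8_3 : (![0, 0, 0, 1, 2, 1, 0, 1] : Fin 8 → ℤ) 3 = 1 := rfl
      have htv8_4 : (![0, 0, 0, 1, 2, 1, 0, 1] : Fin 8 → ℤ) 4 = 2 := rfl
      have htv8_5 : (![0, 0, 0, 1, 2, 1, 0, 1] : Fin 8 → ℤ) 5 = 1 := rfl
      have htv8_6 : (![0, 0, 0, 1, 2, 1, 0, 1] : Fin 8 → ℤ) 6 = 0 := rfl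
      have htv8_7 : (![0, 0, 0, 1, 2, 1, 0, 1] : Fin 8 → ℤ) 7 = 1 := rfl
      simp only [Fin.sum_univ_eight] at tv8
      simp only [htv8_0, htv8_1, htv8_2, htv8_3, htv8_4, htv8_5, htv8_6, htv8_7] at tv8
      norm_num at tv8
      have ha : T.a (v 4) (v 7) = T.w (v 7) :=
        Groth.Agent.helper11.dvd_eq_of_lt_two_mul (hwp 7) (by rw [← hs]; exact T.w_dvd _ _)
          (hw2 4 7 e4_7) (by linarith)
      have h2 : 2 * T.w (v 4) ≤ T.w (v 7) :=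
        Groth.Agent.helper11.two_mul_le_of_dvd_of_lt (hwp 4) (by rw [← ha]; exact (T.w_dvd _ _)) h
      linarith
    · exact h.symm
    · exfalso
      have tv9 := Groth.Agent.helper11.quad_test T v hn (![0, 0, 0, 1, 2, 1, 0, 2] : Fin 8 → ℤ) 3 (by decide)
      have htv9_0 : (![0, 0, 0, 1, 2, 1, 0, 2] : Fin 8 → ℤ) 0 = 0 := rfl
      have htv9_1 : (![0, 0, 0, 1, 2, 1, 0, 2] : Fin 8 → ℤ) 1 = 0 := rfl
      have htv9_2 : (![0, 0, 0, 1, 2, 1, 0, 2] : Fin 8 → ℤ) 2 = 0 := rfl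
      have htv9_3 : (![0, 0, 0, 1, 2, 1, 0, 2] : Fin 8 → ℤ) 3 = 1 := rfl
      have htv9_4 : (![0, 0, 0, 1, 2, 1, 0, 2] : Fin 8 → ℤ) 4 = 2 := rfl
      have htv9_5 : (![0, 0, 0, 1, 2, 1, 0, 2] : Fin 8 → ℤ) 5 = 1 := rfl
      have htv9_6 : (![0, 0, 0, 1, 2, 1, 0, 2] : Fin 8 → ℤ) 6 = 0 := rfl
      have htv9_7 : (![0, 0, 0, 1, 2, 1, 0, 2] : Fin 8 → ℤ) 7 = 2 := rfl
      simp only [Fin.sum_univ_eight] at tv9
      simp only [htv9_0, htv9_1, htv9_2, htv9_3, htv9_4, htv9_5, htv9_6, htv9_7] at tv9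
      norm_num at tv9
      have ha : T.a (v 4) (v 7) = T.w (v 4) :=
        Groth.Agent.helper11.dvd_eq_of_lt_two_mul (hwp 4) (T.w_dvd _ _)
          (hw1 4 7 e4_7) (by linarith)
      have h2 : 2 * T.w (v 7) ≤ T.w (v 4) :=
        Groth.Agent.helper11.two_mul_le_of_dvd_of_lt (hwp 7) (by rw [← ha]; exact (by rw [← hs]; exact T.w_dvd _ _)) h
      linarith
  have ev3_4 : T.a (v 3) (v 4) = T.w (v 4) := by
    have tv10 := Groth.Agent.helper11.quad_test T v hn (![0, 0, 0, 1, 1, 0, 0, 0] : Fin 8 → ℤ) 3 (by decide)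
    have htv10_0 : (![0, 0, 0, 1, 1, 0, 0, 0] : Fin 8 → ℤ) 0 = 0 := rfl
    have htv10_1 : (![0, 0, 0, 1, 1, 0, 0, 0] : Fin 8 → ℤ) 1 = 0 := rfl
    have htv10_2 : (![0, 0, 0, 1, 1, 0, 0, 0] : Fin 8 → ℤ) 2 = 0 := rfl
    have htv10_3 : (![0, 0, 0, 1, 1, 0, 0, 0] : Fin 8 → ℤ) 3 = 1 := rfl
    have htv10_4 : (![0, 0, 0, 1, 1, 0, 0, 0] : Fin 8 → ℤ) 4 = 1 := rfl
    have htv10_5 : (![0, 0, 0, 1, 1, 0, 0, 0] : Fin 8 → ℤ) 5 = 0 := rfl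
    have htv10_6 : (![0, 0, 0, 1, 1, 0, 0, 0] : Fin 8 → ℤ) 6 = 0 := rfl
    have htv10_7 : (![0, 0, 0, 1, 1, 0, 0, 0] : Fin 8 → ℤ) 7 = 0 := rfl
    simp only [Fin.sum_univ_eight] at tv10
    simp only [htv10_0, htv10_1, htv10_2, htv10_3, htv10_4, htv10_5, htv10_6, htv10_7] at tv10
    norm_num at tv10
    have := hwc3
    exact Groth.Agent.helper11.dvd_eq_of_lt_two_mul (hwp 4) (by rw [show T.w (v 4) = T.w (v 3) by linarith]; exact T.w_dvd _ _)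
      (by linarith) (by linarith)
  have ev4_5 : T.a (v 4) (v 5) = T.w (v 4) := by
    have tv11 := Groth.Agent.helper11.quad_test T v hn (![0, 0, 0, 0, 1, 1, 0, 0] : Fin 8 → ℤ) 4 (by decide)
    have htv11_0 : (![0, 0, 0, 0, 1, 1, 0, 0] : Fin 8 → ℤ) 0 = 0 := rfl
    have htv11_1 : (![0, 0, 0, 0, 1, 1, 0, 0] : Fin 8 → ℤ) 1 = 0 := rfl
    have htv11_2 : (![0, 0, 0, 0, 1, 1, 0, 0] : Fin 8 → ℤ) 2 = 0 := rfl
    have htv11_3 : (![0, 0, 0, 0, 1, 1, 0, 0] : Fin 8 → ℤ) 3 = 0 := rfl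
    have htv11_4 : (![0, 0, 0, 0, 1, 1, 0, 0] : Fin 8 → ℤ) 4 = 1 := rfl
    have htv11_5 : (![0, 0, 0, 0, 1, 1, 0, 0] : Fin 8 → ℤ) 5 = 1 := rfl
    have htv11_6 : (![0, 0, 0, 0, 1, 1, 0, 0] : Fin 8 → ℤ) 6 = 0 := rfl
    have htv11_7 : (![0, 0, 0, 0, 1, 1, 0, 0] : Fin 8 → ℤ) 7 = 0 := rfl
    simp only [Fin.sum_univ_eight] at tv11
    simp only [htv11_0, htv11_1, htv11_2, htv11_3, htv11_4, htv11_5, htv11_6, htv11_7] at tv11
    norm_num at tv11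
    have := hwc5
    exact Groth.Agent.helper11.dvd_eq_of_lt_two_mul (hwp 4) (by rw [show T.w (v 4) = T.w (v 4) by linarith]; exact T.w_dvd _ _)
      (by linarith) (by linarith)
  have ev4_7 : T.a (v 4) (v 7) = T.w (v 4) := by
    have tv12 := Groth.Agent.helper11.quad_test T v hn (![0, 0, 0, 0, 1, 0, 0, 1] : Fin 8 → ℤ) 4 (by decide)
    have htv12_0 : (![0, 0, 0, 0, 1, 0, 0, 1] : Fin 8 → ℤ) 0 = 0 := rfl
    have htv12_1 : (![0, 0, 0, 0, 1, 0, 0, 1] : Fin 8 → ℤ) 1 = 0 := rfl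
    have htv12_2 : (![0, 0, 0, 0, 1, 0, 0, 1] : Fin 8 → ℤ) 2 = 0 := rfl
    have htv12_3 : (![0, 0, 0, 0, 1, 0, 0, 1] : Fin 8 → ℤ) 3 = 0 := rfl
    have htv12_4 : (![0, 0, 0, 0, 1, 0, 0, 1] : Fin 8 → ℤ) 4 = 1 := rfl
    have htv12_5 : (![0, 0, 0, 0, 1, 0, 0, 1] : Fin 8 → ℤ) 5 = 0 := rfl
    have htv12_6 : (![0, 0, 0, 0, 1, 0, 0, 1] : Fin 8 → ℤ) 6 = 0 := rfl
    have htv12_7 : (![0, 0, 0, 0, 1, 0, 0, 1] : Fin 8 → ℤ) 7 = 1 := rfl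
    simp only [Fin.sum_univ_eight] at tv12
    simp only [htv12_0, htv12_1, htv12_2, htv12_3, htv12_4, htv12_5, htv12_6, htv12_7] at tv12
    norm_num at tv12
    have := hwc7
    exact Groth.Agent.helper11.dvd_eq_of_lt_two_mul (hwp 4) (by rw [show T.w (v 4) = T.w (v 4) by linarith]; exact T.w_dvd _ _)
      (by linarith) (by linarith)
  have hwc2 : T.w (v 2) = T.w (v 4) := by
    have tv13 := Groth.Agent.helper11.quad_test T v hn (![0, 0, 1, 1, 0, 0, 0, 0] : Fin 8 → ℤ) 2 (by decide)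
    have htv13_0 : (![0, 0, 1, 1, 0, 0, 0, 0] : Fin 8 → ℤ) 0 = 0 := rfl
    have htv13_1 : (![0, 0, 1, 1, 0, 0, 0, 0] : Fin 8 → ℤ) 1 = 0 := rfl
    have htv13_2 : (![0, 0, 1, 1, 0, 0, 0, 0] : Fin 8 → ℤ) 2 = 1 := rfl
    have htv13_3 : (![0, 0, 1, 1, 0, 0, 0, 0] : Fin 8 → ℤ) 3 = 1 := rfl
    have htv13_4 : (![0, 0, 1, 1, 0, 0, 0, 0] : Fin 8 → ℤ) 4 = 0 := rfl
    have htv13_5 : (![0, 0, 1, 1, 0, 0, 0, 0] : Fin 8 → ℤ) 5 = 0 := rfl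
    have htv13_6 : (![0, 0, 1, 1, 0, 0, 0, 0] : Fin 8 → ℤ) 6 = 0 := rfl
    have htv13_7 : (![0, 0, 1, 1, 0, 0, 0, 0] : Fin 8 → ℤ) 7 = 0 := rfl
    simp only [Fin.sum_univ_eight] at tv13
    simp only [htv13_0, htv13_1, htv13_2, htv13_3, htv13_4, htv13_5, htv13_6, htv13_7] at tv13
    norm_num at tv13
    rcases lt_trichotomy (T.w (v 3)) (T.w (v 2)) with h | h | h
    · exfalso
      have tv14 := Groth.Agent.helper11.quad_test T v hn (![0, 0, 1, 2, 2, 1, 0, 1] : Fin 8 → ℤ) 2 (by decide)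
      have htv14_0 : (![0, 0, 1, 2, 2, 1, 0, 1] : Fin 8 → ℤ) 0 = 0 := rfl
      have htv14_1 : (![0, 0, 1, 2, 2, 1, 0, 1] : Fin 8 → ℤ) 1 = 0 := rfl
      have htv14_2 : (![0, 0, 1, 2, 2, 1, 0, 1] : Fin 8 → ℤ) 2 = 1 := rfl
      have htv14_3 : (![0, 0, 1, 2, 2, 1, 0, 1] : Fin 8 → ℤ) 3 = 2 := rfl
      have htv14_4 : (![0, 0, 1, 2, 2, 1, 0, 1] : Fin 8 → ℤ) 4 = 2 := rfl
      have htv14_5 : (![0, 0, 1, 2, 2, 1, 0, 1] : Fin 8 → ℤ) 5 = 1 := rfl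
      have htv14_6 : (![0, 0, 1, 2, 2, 1, 0, 1] : Fin 8 → ℤ) 6 = 0 := rfl
      have htv14_7 : (![0, 0, 1, 2, 2, 1, 0, 1] : Fin 8 → ℤ) 7 = 1 := rfl
      simp only [Fin.sum_univ_eight] at tv14
      simp only [htv14_0, htv14_1, htv14_2, htv14_3, htv14_4, htv14_5, htv14_6, htv14_7] at tv14
      norm_num at tv14
      have ha : T.a (v 2) (v 3) = T.w (v 2) :=
        Groth.Agent.helper11.dvd_eq_of_lt_two_mul (hwp 2) (T.w_dvd _ _)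
          (hw1 2 3 e2_3) (by linarith)
      have h2 : 2 * T.w (v 3) ≤ T.w (v 2) :=
        Groth.Agent.helper11.two_mul_le_of_dvd_of_lt (hwp 3) (by rw [← ha]; exact (by rw [← hs]; exact T.w_dvd _ _)) h
      have := hwc3
      linarith
    · rw [← h]; exact hwc3
    · exfalso
      have tv15 := Groth.Agent.helper11.quad_test T v hn (![0, 0, 2, 2, 2, 1, 0, 1] : Fin 8 → ℤ) 2 (by decide)
      have htv15_0 : (![0, 0, 2, 2, 2, 1, 0, 1] : Fin 8 → ℤ) 0 = 0 := rfl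
      have htv15_1 : (![0, 0, 2, 2, 2, 1, 0, 1] : Fin 8 → ℤ) 1 = 0 := rfl
      have htv15_2 : (![0, 0, 2, 2, 2, 1, 0, 1] : Fin 8 → ℤ) 2 = 2 := rfl
      have htv15_3 : (![0, 0, 2, 2, 2, 1, 0, 1] : Fin 8 → ℤ) 3 = 2 := rfl
      have htv15_4 : (![0, 0, 2, 2, 2, 1, 0, 1] : Fin 8 → ℤ) 4 = 2 := rfl
      have htv15_5 : (![0, 0, 2, 2, 2, 1, 0, 1] : Fin 8 → ℤ) 5 = 1 := rfl
      have htv15_6 : (![0, 0, 2, 2, 2, 1, 0, 1] : Fin 8 → ℤ) 6 = 0 := rfl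
      have htv15_7 : (![0, 0, 2, 2, 2, 1, 0, 1] : Fin 8 → ℤ) 7 = 1 := rfl
      simp only [Fin.sum_univ_eight] at tv15
      simp only [htv15_0, htv15_1, htv15_2, htv15_3, htv15_4, htv15_5, htv15_6, htv15_7] at tv15
      norm_num at tv15
      have ha : T.a (v 2) (v 3) = T.w (v 3) :=
        Groth.Agent.helper11.dvd_eq_of_lt_two_mul (hwp 3) (by rw [← hs]; exact T.w_dvd _ _)
          (hw2 2 3 e2_3) (by linarith)
      have h2 : 2 * T.w (v 2) ≤ T.w (v 3) :=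
        Groth.Agent.helper11.two_mul_le_of_dvd_of_lt (hwp 2) (by rw [← ha]; exact (T.w_dvd _ _)) h
      have := hwc3
      linarith
  have ev2_3 : T.a (v 2) (v 3) = T.w (v 4) := by
    have tv16 := Groth.Agent.helper11.quad_test T v hn (![0, 0, 1, 1, 0, 0, 0, 0] : Fin 8 → ℤ) 2 (by decide)
    have htv16_0 : (![0, 0, 1, 1, 0, 0, 0, 0] : Fin 8 → ℤ) 0 = 0 := rfl
    have htv16_1 : (![0, 0, 1, 1, 0, 0, 0, 0] : Fin 8 → ℤ) 1 = 0 := rfl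
    have htv16_2 : (![0, 0, 1, 1, 0, 0, 0, 0] : Fin 8 → ℤ) 2 = 1 := rfl
    have htv16_3 : (![0, 0, 1, 1, 0, 0, 0, 0] : Fin 8 → ℤ) 3 = 1 := rfl
    have htv16_4 : (![0, 0, 1, 1, 0, 0, 0, 0] : Fin 8 → ℤ) 4 = 0 := rfl
    have htv16_5 : (![0, 0, 1, 1, 0, 0, 0, 0] : Fin 8 → ℤ) 5 = 0 := rfl
    have htv16_6 : (![0, 0, 1, 1, 0, 0, 0, 0] : Fin 8 → ℤ) 6 = 0 := rfl
    have htv16_7 : (![0, 0, 1, 1, 0, 0, 0, 0] : Fin 8 → ℤ) 7 = 0 := rfl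
    simp only [Fin.sum_univ_eight] at tv16
    simp only [htv16_0, htv16_1, htv16_2, htv16_3, htv16_4, htv16_5, htv16_6, htv16_7] at tv16
    norm_num at tv16
    have := hwc2
    have := hwc3
    exact Groth.Agent.helper11.dvd_eq_of_lt_two_mul (hwp 4) (by rw [show T.w (v 4) = T.w (v 2) by linarith]; exact T.w_dvd _ _)
      (by linarith) (by linarith)
  have hwc6 : T.w (v 6) = T.w (v 4) := by
    have tv17 := Groth.Agent.helper11.quad_test T v hn (![0, 0, 0, 0, 0, 1, 1, 0] : Fin 8 → ℤ) 5 (by decide)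
    have htv17_0 : (![0, 0, 0, 0, 0, 1, 1, 0] : Fin 8 → ℤ) 0 = 0 := rfl
    have htv17_1 : (![0, 0, 0, 0, 0, 1, 1, 0] : Fin 8 → ℤ) 1 = 0 := rfl
    have htv17_2 : (![0, 0, 0, 0, 0, 1, 1, 0] : Fin 8 → ℤ) 2 = 0 := rfl
    have htv17_3 : (![0, 0, 0, 0, 0, 1, 1, 0] : Fin 8 → ℤ) 3 = 0 := rfl
    have htv17_4 : (![0, 0, 0, 0, 0, 1, 1, 0] : Fin 8 → ℤ) 4 = 0 := rfl
    have htv17_5 : (![0, 0, 0, 0, 0, 1, 1, 0] : Fin 8 → ℤ) 5 = 1 := rfl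
    have htv17_6 : (![0, 0, 0, 0, 0, 1, 1, 0] : Fin 8 → ℤ) 6 = 1 := rfl
    have htv17_7 : (![0, 0, 0, 0, 0, 1, 1, 0] : Fin 8 → ℤ) 7 = 0 := rfl
    simp only [Fin.sum_univ_eight] at tv17
    simp only [htv17_0, htv17_1, htv17_2, htv17_3, htv17_4, htv17_5, htv17_6, htv17_7] at tv17
    norm_num at tv17
    rcases lt_trichotomy (T.w (v 5)) (T.w (v 6)) with h | h | h
    · exfalso
      have tv18 := Groth.Agent.helper11.quad_test T v hn (![0, 0, 0, 1, 2, 2, 1, 1] : Fin 8 → ℤ) 3 (by decide)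
      have htv18_0 : (![0, 0, 0, 1, 2, 2, 1, 1] : Fin 8 → ℤ) 0 = 0 := rfl
      have htv18_1 : (![0, 0, 0, 1, 2, 2, 1, 1] : Fin 8 → ℤ) 1 = 0 := rfl
      have htv18_2 : (![0, 0, 0, 1, 2, 2, 1, 1] : Fin 8 → ℤ) 2 = 0 := rfl
      have htv18_3 : (![0, 0, 0, 1, 2, 2, 1, 1] : Fin 8 → ℤ) 3 = 1 := rfl
      have htv18_4 : (![0, 0, 0, 1, 2, 2, 1, 1] : Fin 8 → ℤ) 4 = 2 := rfl
      have htv18_5 : (![0, 0, 0, 1, 2, 2, 1, 1] : Fin 8 → ℤ) 5 = 2 := rfl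
      have htv18_6 : (![0, 0, 0, 1, 2, 2, 1, 1] : Fin 8 → ℤ) 6 = 1 := rfl
      have htv18_7 : (![0, 0, 0, 1, 2, 2, 1, 1] : Fin 8 → ℤ) 7 = 1 := rfl
      simp only [Fin.sum_univ_eight] at tv18
      simp only [htv18_0, htv18_1, htv18_2, htv18_3, htv18_4, htv18_5, htv18_6, htv18_7] at tv18
      norm_num at tv18
      have ha : T.a (v 5) (v 6) = T.w (v 6) :=
        Groth.Agent.helper11.dvd_eq_of_lt_two_mul (hwp 6) (by rw [← hs]; exact T.w_dvd _ _)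
          (hw2 5 6 e5_6) (by linarith)
      have h2 : 2 * T.w (v 5) ≤ T.w (v 6) :=
        Groth.Agent.helper11.two_mul_le_of_dvd_of_lt (hwp 5) (by rw [← ha]; exact (T.w_dvd _ _)) h
      have := hwc5
      linarith
    · rw [← h]; exact hwc5
    · exfalso
      have tv19 := Groth.Agent.helper11.quad_test T v hn (![0, 0, 0, 1, 2, 2, 2, 1] : Fin 8 → ℤ) 3 (by decide)
      have htv19_0 : (![0, 0, 0, 1, 2, 2, 2, 1] : Fin 8 → ℤ) 0 = 0 := rfl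
      have htv19_1 : (![0, 0, 0, 1, 2, 2, 2, 1] : Fin 8 → ℤ) 1 = 0 := rfl
      have htv19_2 : (![0, 0, 0, 1, 2, 2, 2, 1] : Fin 8 → ℤ) 2 = 0 := rfl
      have htv19_3 : (![0, 0, 0, 1, 2, 2, 2, 1] : Fin 8 → ℤ) 3 = 1 := rfl
      have htv19_4 : (![0, 0, 0, 1, 2, 2, 2, 1] : Fin 8 → ℤ) 4 = 2 := rfl
      have htv19_5 : (![0, 0, 0, 1, 2, 2, 2, 1] : Fin 8 → ℤ) 5 = 2 := rfl
      have htv19_6 : (![0, 0, 0, 1, 2, 2, 2, 1] : Fin 8 → ℤ) 6 = 2 := rfl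
      have htv19_7 : (![0, 0, 0, 1, 2, 2, 2, 1] : Fin 8 → ℤ) 7 = 1 := rfl
      simp only [Fin.sum_univ_eight] at tv19
      simp only [htv19_0, htv19_1, htv19_2, htv19_3, htv19_4, htv19_5, htv19_6, htv19_7] at tv19
      norm_num at tv19
      have ha : T.a (v 5) (v 6) = T.w (v 5) :=
        Groth.Agent.helper11.dvd_eq_of_lt_two_mul (hwp 5) (T.w_dvd _ _)
          (hw1 5 6 e5_6) (by linarith)
      have h2 : 2 * T.w (v 6) ≤ T.w (v 5) :=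
        Groth.Agent.helper11.two_mul_le_of_dvd_of_lt (hwp 6) (by rw [← ha]; exact (by rw [← hs]; exact T.w_dvd _ _)) h
      have := hwc5
      linarith
  have ev5_6 : T.a (v 5) (v 6) = T.w (v 4) := by
    have tv20 := Groth.Agent.helper11.quad_test T v hn (![0, 0, 0, 0, 0, 1, 1, 0] : Fin 8 → ℤ) 5 (by decide)
    have htv20_0 : (![0, 0, 0, 0, 0, 1, 1, 0] : Fin 8 → ℤ) 0 = 0 := rfl
    have htv20_1 : (![0, 0, 0, 0, 0, 1, 1, 0] : Fin 8 → ℤ) 1 = 0 := rfl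
    have htv20_2 : (![0, 0, 0, 0, 0, 1, 1, 0] : Fin 8 → ℤ) 2 = 0 := rfl
    have htv20_3 : (![0, 0, 0, 0, 0, 1, 1, 0] : Fin 8 → ℤ) 3 = 0 := rfl
    have htv20_4 : (![0, 0, 0, 0, 0, 1, 1, 0] : Fin 8 → ℤ) 4 = 0 := rfl
    have htv20_5 : (![0, 0, 0, 0, 0, 1, 1, 0] : Fin 8 → ℤ) 5 = 1 := rfl
    have htv20_6 : (![0, 0, 0, 0, 0, 1, 1, 0] : Fin 8 → ℤ) 6 = 1 := rfl
    have htv20_7 : (![0, 0, 0, 0, 0, 1, 1, 0] : Fin 8 → ℤ) 7 = 0 := rfl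
    simp only [Fin.sum_univ_eight] at tv20
    simp only [htv20_0, htv20_1, htv20_2, htv20_3, htv20_4, htv20_5, htv20_6, htv20_7] at tv20
    norm_num at tv20
    have := hwc5
    have := hwc6
    exact Groth.Agent.helper11.dvd_eq_of_lt_two_mul (hwp 4) (by rw [show T.w (v 4) = T.w (v 5) by linarith]; exact T.w_dvd _ _)
      (by linarith) (by linarith)
  have hwc1 : T.w (v 1) = T.w (v 4) := by
    have tv21 := Groth.Agent.helper11.quad_test T v hn (![0, 1, 1, 0, 0, 0, 0, 0] : Fin 8 → ℤ) 1 (by decide)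
    have htv21_0 : (![0, 1, 1, 0, 0, 0, 0, 0] : Fin 8 → ℤ) 0 = 0 := rfl
    have htv21_1 : (![0, 1, 1, 0, 0, 0, 0, 0] : Fin 8 → ℤ) 1 = 1 := rfl
    have htv21_2 : (![0, 1, 1, 0, 0, 0, 0, 0] : Fin 8 → ℤ) 2 = 1 := rfl
    have htv21_3 : (![0, 1, 1, 0, 0, 0, 0, 0] : Fin 8 → ℤ) 3 = 0 := rfl
    have htv21_4 : (![0, 1, 1, 0, 0, 0, 0, 0] : Fin 8 → ℤ) 4 = 0 := rfl
    have htv21_5 : (![0, 1, 1, 0, 0, 0, 0, 0] : Fin 8 → ℤ) 5 = 0 := rfl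
    have htv21_6 : (![0, 1, 1, 0, 0, 0, 0, 0] : Fin 8 → ℤ) 6 = 0 := rfl
    have htv21_7 : (![0, 1, 1, 0, 0, 0, 0, 0] : Fin 8 → ℤ) 7 = 0 := rfl
    simp only [Fin.sum_univ_eight] at tv21
    simp only [htv21_0, htv21_1, htv21_2, htv21_3, htv21_4, htv21_5, htv21_6, htv21_7] at tv21
    norm_num at tv21
    rcases lt_trichotomy (T.w (v 2)) (T.w (v 1)) with h | h | h
    · exfalso
      have tv22 := Groth.Agent.helper11.quad_test T v hn (![0, 1, 2, 2, 2, 1, 0, 1] : Fin 8 → ℤ) 1 (by decide)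
      have htv22_0 : (![0, 1, 2, 2, 2, 1, 0, 1] : Fin 8 → ℤ) 0 = 0 := rfl
      have htv22_1 : (![0, 1, 2, 2, 2, 1, 0, 1] : Fin 8 → ℤ) 1 = 1 := rfl
      have htv22_2 : (![0, 1, 2, 2, 2, 1, 0, 1] : Fin 8 → ℤ) 2 = 2 := rfl
      have htv22_3 : (![0, 1, 2, 2, 2, 1, 0, 1] : Fin 8 → ℤ) 3 = 2 := rfl
      have htv22_4 : (![0, 1, 2, 2, 2, 1, 0, 1] : Fin 8 → ℤ) 4 = 2 := rfl
      have htv22_5 : (![0, 1, 2, 2, 2, 1, 0, 1] : Fin 8 → ℤ) 5 = 1 := rfl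
      have htv22_6 : (![0, 1, 2, 2, 2, 1, 0, 1] : Fin 8 → ℤ) 6 = 0 := rfl
      have htv22_7 : (![0, 1, 2, 2, 2, 1, 0, 1] : Fin 8 → ℤ) 7 = 1 := rfl
      simp only [Fin.sum_univ_eight] at tv22
      simp only [htv22_0, htv22_1, htv22_2, htv22_3, htv22_4, htv22_5, htv22_6, htv22_7] at tv22
      norm_num at tv22
      have ha : T.a (v 1) (v 2) = T.w (v 1) :=
        Groth.Agent.helper11.dvd_eq_of_lt_two_mul (hwp 1) (T.w_dvd _ _)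
          (hw1 1 2 e1_2) (by linarith)
      have h2 : 2 * T.w (v 2) ≤ T.w (v 1) :=
        Groth.Agent.helper11.two_mul_le_of_dvd_of_lt (hwp 2) (by rw [← ha]; exact (by rw [← hs]; exact T.w_dvd _ _)) h
      have := hwc2
      linarith
    · rw [← h]; exact hwc2
    · exfalso
      have tv23 := Groth.Agent.helper11.quad_test T v hn (![0, 2, 2, 2, 2, 1, 0, 1] : Fin 8 → ℤ) 1 (by decide)
      have htv23_0 : (![0, 2, 2, 2, 2, 1, 0, 1] : Fin 8 → ℤ) 0 = 0 := rfl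
      have htv23_1 : (![0, 2, 2, 2, 2, 1, 0, 1] : Fin 8 → ℤ) 1 = 2 := rfl
      have htv23_2 : (![0, 2, 2, 2, 2, 1, 0, 1] : Fin 8 → ℤ) 2 = 2 := rfl
      have htv23_3 : (![0, 2, 2, 2, 2, 1, 0, 1] : Fin 8 → ℤ) 3 = 2 := rfl
      have htv23_4 : (![0, 2, 2, 2, 2, 1, 0, 1] : Fin 8 → ℤ) 4 = 2 := rfl
      have htv23_5 : (![0, 2, 2, 2, 2, 1, 0, 1] : Fin 8 → ℤ) 5 = 1 := rfl
      have htv23_6 : (![0, 2, 2, 2, 2, 1, 0, 1] : Fin 8 → ℤ) 6 = 0 := rfl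
      have htv23_7 : (![0, 2, 2, 2, 2, 1, 0, 1] : Fin 8 → ℤ) 7 = 1 := rfl
      simp only [Fin.sum_univ_eight] at tv23
      simp only [htv23_0, htv23_1, htv23_2, htv23_3, htv23_4, htv23_5, htv23_6, htv23_7] at tv23
      norm_num at tv23
      have ha : T.a (v 1) (v 2) = T.w (v 2) :=
        Groth.Agent.helper11.dvd_eq_of_lt_two_mul (hwp 2) (by rw [← hs]; exact T.w_dvd _ _)
          (hw2 1 2 e1_2) (by linarith)
      have h2 : 2 * T.w (v 1) ≤ T.w (v 2) :=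
        Groth.Agent.helper11.two_mul_le_of_dvd_of_lt (hwp 1) (by rw [← ha]; exact (T.w_dvd _ _)) h
      have := hwc2
      linarith
  have ev1_2 : T.a (v 1) (v 2) = T.w (v 4) := by
    have tv24 := Groth.Agent.helper11.quad_test T v hn (![0, 1, 1, 0, 0, 0, 0, 0] : Fin 8 → ℤ) 1 (by decide)
    have htv24_0 : (![0, 1, 1, 0, 0, 0, 0, 0] : Fin 8 → ℤ) 0 = 0 := rfl
    have htv24_1 : (![0, 1, 1, 0, 0, 0, 0, 0] : Fin 8 → ℤ) 1 = 1 := rfl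
    have htv24_2 : (![0, 1, 1, 0, 0, 0, 0, 0] : Fin 8 → ℤ) 2 = 1 := rfl
    have htv24_3 : (![0, 1, 1, 0, 0, 0, 0, 0] : Fin 8 → ℤ) 3 = 0 := rfl
    have htv24_4 : (![0, 1, 1, 0, 0, 0, 0, 0] : Fin 8 → ℤ) 4 = 0 := rfl
    have htv24_5 : (![0, 1, 1, 0, 0, 0, 0, 0] : Fin 8 → ℤ) 5 = 0 := rfl
    have htv24_6 : (![0, 1, 1, 0, 0, 0, 0, 0] : Fin 8 → ℤ) 6 = 0 := rfl
    have htv24_7 : (![0, 1, 1, 0, 0, 0, 0, 0] : Fin 8 → ℤ) 7 = 0 := rfl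
    simp only [Fin.sum_univ_eight] at tv24
    simp only [htv24_0, htv24_1, htv24_2, htv24_3, htv24_4, htv24_5, htv24_6, htv24_7] at tv24
    norm_num at tv24
    have := hwc1
    have := hwc2
    exact Groth.Agent.helper11.dvd_eq_of_lt_two_mul (hwp 4) (by rw [show T.w (v 4) = T.w (v 1) by linarith]; exact T.w_dvd _ _)
      (by linarith) (by linarith)
  have hwc0 : T.w (v 0) = T.w (v 4) := by
    have tv25 := Groth.Agent.helper11.quad_test T v hn (![1, 1, 0, 0, 0, 0, 0, 0] : Fin 8 → ℤ) 0 (by decide)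
    have htv25_0 : (![1, 1, 0, 0, 0, 0, 0, 0] : Fin 8 → ℤ) 0 = 1 := rfl
    have htv25_1 : (![1, 1, 0, 0, 0, 0, 0, 0] : Fin 8 → ℤ) 1 = 1 := rfl
    have htv25_2 : (![1, 1, 0, 0, 0, 0, 0, 0] : Fin 8 → ℤ) 2 = 0 := rfl
    have htv25_3 : (![1, 1, 0, 0, 0, 0, 0, 0] : Fin 8 → ℤ) 3 = 0 := rfl
    have htv25_4 : (![1, 1, 0, 0, 0, 0, 0, 0] : Fin 8 → ℤ) 4 = 0 := rfl
    have htv25_5 : (![1, 1, 0, 0, 0, 0, 0, 0] : Fin 8 → ℤ) 5 = 0 := rfl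
    have htv25_6 : (![1, 1, 0, 0, 0, 0, 0, 0] : Fin 8 → ℤ) 6 = 0 := rfl
    have htv25_7 : (![1, 1, 0, 0, 0, 0, 0, 0] : Fin 8 → ℤ) 7 = 0 := rfl
    simp only [Fin.sum_univ_eight] at tv25
    simp only [htv25_0, htv25_1, htv25_2, htv25_3, htv25_4, htv25_5, htv25_6, htv25_7] at tv25
    norm_num at tv25
    rcases lt_trichotomy (T.w (v 1)) (T.w (v 0)) with h | h | h
    · exfalso
      have tv26 := Groth.Agent.helper11.quad_test T v hn (![1, 2, 2, 2, 2, 1, 0, 1] : Fin 8 → ℤ) 0 (by decide)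
      have htv26_0 : (![1, 2, 2, 2, 2, 1, 0, 1] : Fin 8 → ℤ) 0 = 1 := rfl
      have htv26_1 : (![1, 2, 2, 2, 2, 1, 0, 1] : Fin 8 → ℤ) 1 = 2 := rfl
      have htv26_2 : (![1, 2, 2, 2, 2, 1, 0, 1] : Fin 8 → ℤ) 2 = 2 := rfl
      have htv26_3 : (![1, 2, 2, 2, 2, 1, 0, 1] : Fin 8 → ℤ) 3 = 2 := rfl
      have htv26_4 : (![1, 2, 2, 2, 2, 1, 0, 1] : Fin 8 → ℤ) 4 = 2 := rfl
      have htv26_5 : (![1, 2, 2, 2, 2, 1, 0, 1] : Fin 8 → ℤ) 5 = 1 := rfl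
      have htv26_6 : (![1, 2, 2, 2, 2, 1, 0, 1] : Fin 8 → ℤ) 6 = 0 := rfl
      have htv26_7 : (![1, 2, 2, 2, 2, 1, 0, 1] : Fin 8 → ℤ) 7 = 1 := rfl
      simp only [Fin.sum_univ_eight] at tv26
      simp only [htv26_0, htv26_1, htv26_2, htv26_3, htv26_4, htv26_5, htv26_6, htv26_7] at tv26
      norm_num at tv26
      have ha : T.a (v 0) (v 1) = T.w (v 0) :=
        Groth.Agent.helper11.dvd_eq_of_lt_two_mul (hwp 0) (T.w_dvd _ _)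
          (hw1 0 1 e0_1) (by linarith)
      have h2 : 2 * T.w (v 1) ≤ T.w (v 0) :=
        Groth.Agent.helper11.two_mul_le_of_dvd_of_lt (hwp 1) (by rw [← ha]; exact (by rw [← hs]; exact T.w_dvd _ _)) h
      have := hwc1
      linarith
    · rw [← h]; exact hwc1
    · exfalso
      have tv27 := Groth.Agent.helper11.quad_test T v hn (![2, 2, 2, 2, 2, 1, 0, 1] : Fin 8 → ℤ) 0 (by decide)
      have htv27_0 : (![2, 2, 2, 2, 2, 1, 0, 1] : Fin 8 → ℤ) 0 = 2 := rfl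
      have htv27_1 : (![2, 2, 2, 2, 2, 1, 0, 1] : Fin 8 → ℤ) 1 = 2 := rfl
      have htv27_2 : (![2, 2, 2, 2, 2, 1, 0, 1] : Fin 8 → ℤ) 2 = 2 := rfl
      have htv27_3 : (![2, 2, 2, 2, 2, 1, 0, 1] : Fin 8 → ℤ) 3 = 2 := rfl
      have htv27_4 : (![2, 2, 2, 2, 2, 1, 0, 1] : Fin 8 → ℤ) 4 = 2 := rfl
      have htv27_5 : (![2, 2, 2, 2, 2, 1, 0, 1] : Fin 8 → ℤ) 5 = 1 := rfl
      have htv27_6 : (![2, 2, 2, 2, 2, 1, 0, 1] : Fin 8 → ℤ) 6 = 0 := rfl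
      have htv27_7 : (![2, 2, 2, 2, 2, 1, 0, 1] : Fin 8 → ℤ) 7 = 1 := rfl
      simp only [Fin.sum_univ_eight] at tv27
      simp only [htv27_0, htv27_1, htv27_2, htv27_3, htv27_4, htv27_5, htv27_6, htv27_7] at tv27
      norm_num at tv27
      have ha : T.a (v 0) (v 1) = T.w (v 1) :=
        Groth.Agent.helper11.dvd_eq_of_lt_two_mul (hwp 1) (by rw [← hs]; exact T.w_dvd _ _)
          (hw2 0 1 e0_1) (by linarith)
      have h2 : 2 * T.w (v 0) ≤ T.w (v 1) :=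
        Groth.Agent.helper11.two_mul_le_of_dvd_of_lt (hwp 0) (by rw [← ha]; exact (T.w_dvd _ _)) h
      have := hwc1
      linarith
  have ev0_1 : T.a (v 0) (v 1) = T.w (v 4) := by
    have tv28 := Groth.Agent.helper11.quad_test T v hn (![1, 1, 0, 0, 0, 0, 0, 0] : Fin 8 → ℤ) 0 (by decide)
    have htv28_0 : (![1, 1, 0, 0, 0, 0, 0, 0] : Fin 8 → ℤ) 0 = 1 := rfl
    have htv28_1 : (![1, 1, 0, 0, 0, 0, 0, 0] : Fin 8 → ℤ) 1 = 1 := rfl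
    have htv28_2 : (![1, 1, 0, 0, 0, 0, 0, 0] : Fin 8 → ℤ) 2 = 0 := rfl
    have htv28_3 : (![1, 1, 0, 0, 0, 0, 0, 0] : Fin 8 → ℤ) 3 = 0 := rfl
    have htv28_4 : (![1, 1, 0, 0, 0, 0, 0, 0] : Fin 8 → ℤ) 4 = 0 := rfl
    have htv28_5 : (![1, 1, 0, 0, 0, 0, 0, 0] : Fin 8 → ℤ) 5 = 0 := rfl
    have htv28_6 : (![1, 1, 0, 0, 0, 0, 0, 0] : Fin 8 → ℤ) 6 = 0 := rfl
    have htv28_7 : (![1, 1, 0, 0, 0, 0, 0, 0] : Fin 8 → ℤ) 7 = 0 := rfl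
    simp only [Fin.sum_univ_eight] at tv28
    simp only [htv28_0, htv28_1, htv28_2, htv28_3, htv28_4, htv28_5, htv28_6, htv28_7] at tv28
    norm_num at tv28
    have := hwc0
    have := hwc1
    exact Groth.Agent.helper11.dvd_eq_of_lt_two_mul (hwp 4) (by rw [show T.w (v 4) = T.w (v 0) by linarith]; exact T.w_dvd _ _)
      (by linarith) (by linarith)
  have hz0_2 : T.a (v 0) (v 2) = 0 := by
    by_contra hne
    have hpos : 0 < T.a (v 0) (v 2) := lt_of_le_of_ne (ho 0 2 (by decide)) (Ne.symm hne)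
    have := hw1 0 2 hpos
    have tv29 := Groth.Agent.helper11.quad_test T v hn (![1, 1, 1, 0, 0, 0, 0, 0] : Fin 8 → ℤ) 0 (by decide)
    have htv29_0 : (![1, 1, 1, 0, 0, 0, 0, 0] : Fin 8 → ℤ) 0 = 1 := rfl
    have htv29_1 : (![1, 1, 1, 0, 0, 0, 0, 0] : Fin 8 → ℤ) 1 = 1 := rfl
    have htv29_2 : (![1, 1, 1, 0, 0, 0, 0, 0] : Fin 8 → ℤ) 2 = 1 := rfl
    have htv29_3 : (![1, 1, 1, 0, 0, 0, 0, 0] : Fin 8 → ℤ) 3 = 0 := rfl
    have htv29_4 : (![1, 1, 1, 0, 0, 0, 0, 0] : Fin 8 → ℤ) 4 = 0 := rfl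
    have htv29_5 : (![1, 1, 1, 0, 0, 0, 0, 0] : Fin 8 → ℤ) 5 = 0 := rfl
    have htv29_6 : (![1, 1, 1, 0, 0, 0, 0, 0] : Fin 8 → ℤ) 6 = 0 := rfl
    have htv29_7 : (![1, 1, 1, 0, 0, 0, 0, 0] : Fin 8 → ℤ) 7 = 0 := rfl
    simp only [Fin.sum_univ_eight] at tv29
    simp only [htv29_0, htv29_1, htv29_2, htv29_3, htv29_4, htv29_5, htv29_6, htv29_7] at tv29
    norm_num at tv29
    have := hwc0
    have := hwc1
    have := hwc2
    have := hwc3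
    have := hwc5
    have := hwc6
    have := hwc7
    have := ev0_1
    have := ev1_2
    have := ev2_3
    have := ev3_4
    have := ev4_5
    have := ev5_6
    have := ev4_7
    linarith
  have hz0_3 : T.a (v 0) (v 3) = 0 := by
    by_contra hne
    have hpos : 0 < T.a (v 0) (v 3) := lt_of_le_of_ne (ho 0 3 (by decide)) (Ne.symm hne)
    have := hw1 0 3 hpos
    have tv30 := Groth.Agent.helper11.quad_test T v hn (![1, 1, 1, 1, 0, 0, 0, 0] : Fin 8 → ℤ) 0 (by decide)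
    have htv30_0 : (![1, 1, 1, 1, 0, 0, 0, 0] : Fin 8 → ℤ) 0 = 1 := rfl
    have htv30_1 : (![1, 1, 1, 1, 0, 0, 0, 0] : Fin 8 → ℤ) 1 = 1 := rfl
    have htv30_2 : (![1, 1, 1, 1, 0, 0, 0, 0] : Fin 8 → ℤ) 2 = 1 := rfl
    have htv30_3 : (![1, 1, 1, 1, 0, 0, 0, 0] : Fin 8 → ℤ) 3 = 1 := rfl
    have htv30_4 : (![1, 1, 1, 1, 0, 0, 0, 0] : Fin 8 → ℤ) 4 = 0 := rfl
    have htv30_5 : (![1, 1, 1, 1, 0, 0, 0, 0] : Fin 8 → ℤ) 5 = 0 := rfl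
    have htv30_6 : (![1, 1, 1, 1, 0, 0, 0, 0] : Fin 8 → ℤ) 6 = 0 := rfl
    have htv30_7 : (![1, 1, 1, 1, 0, 0, 0, 0] : Fin 8 → ℤ) 7 = 0 := rfl
    simp only [Fin.sum_univ_eight] at tv30
    simp only [htv30_0, htv30_1, htv30_2, htv30_3, htv30_4, htv30_5, htv30_6, htv30_7] at tv30
    norm_num at tv30
    have := hwc0
    have := hwc1
    have := hwc2
    have := hwc3
    have := hwc5
    have := hwc6
    have := hwc7
    have := ev0_1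
    have := ev1_2
    have := ev2_3
    have := ev3_4
    have := ev4_5
    have := ev5_6
    have := ev4_7
    linarith
  have hz0_4 : T.a (v 0) (v 4) = 0 := by
    by_contra hne
    have hpos : 0 < T.a (v 0) (v 4) := lt_of_le_of_ne (ho 0 4 (by decide)) (Ne.symm hne)
    have := hw1 0 4 hpos
    have tv31 := Groth.Agent.helper11.quad_test T v hn (![1, 1, 1, 1, 1, 0, 0, 0] : Fin 8 → ℤ) 0 (by decide)
    have htv31_0 : (![1, 1, 1, 1, 1, 0, 0, 0] : Fin 8 → ℤ) 0 = 1 := rfl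
    have htv31_1 : (![1, 1, 1, 1, 1, 0, 0, 0] : Fin 8 → ℤ) 1 = 1 := rfl
    have htv31_2 : (![1, 1, 1, 1, 1, 0, 0, 0] : Fin 8 → ℤ) 2 = 1 := rfl
    have htv31_3 : (![1, 1, 1, 1, 1, 0, 0, 0] : Fin 8 → ℤ) 3 = 1 := rfl
    have htv31_4 : (![1, 1, 1, 1, 1, 0, 0, 0] : Fin 8 → ℤ) 4 = 1 := rfl
    have htv31_5 : (![1, 1, 1, 1, 1, 0, 0, 0] : Fin 8 → ℤ) 5 = 0 := rfl
    have htv31_6 : (![1, 1, 1, 1, 1, 0, 0, 0] : Fin 8 → ℤ) 6 = 0 := rfl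
    have htv31_7 : (![1, 1, 1, 1, 1, 0, 0, 0] : Fin 8 → ℤ) 7 = 0 := rfl
    simp only [Fin.sum_univ_eight] at tv31
    simp only [htv31_0, htv31_1, htv31_2, htv31_3, htv31_4, htv31_5, htv31_6, htv31_7] at tv31
    norm_num at tv31
    have := hwc0
    have := hwc1
    have := hwc2
    have := hwc3
    have := hwc5
    have := hwc6
    have := hwc7
    have := ev0_1
    have := ev1_2
    have := ev2_3
    have := ev3_4
    have := ev4_5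
    have := ev5_6
    have := ev4_7
    linarith
  have hz0_5 : T.a (v 0) (v 5) = 0 := by
    by_contra hne
    have hpos : 0 < T.a (v 0) (v 5) := lt_of_le_of_ne (ho 0 5 (by decide)) (Ne.symm hne)
    have := hw1 0 5 hpos
    have tv32 := Groth.Agent.helper11.quad_test T v hn (![1, 1, 1, 1, 1, 1, 0, 0] : Fin 8 → ℤ) 0 (by decide)
    have htv32_0 : (![1, 1, 1, 1, 1, 1, 0, 0] : Fin 8 → ℤ) 0 = 1 := rfl
    have htv32_1 : (![1, 1, 1, 1, 1, 1, 0, 0] : Fin 8 → ℤ) 1 = 1 := rfl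
    have htv32_2 : (![1, 1, 1, 1, 1, 1, 0, 0] : Fin 8 → ℤ) 2 = 1 := rfl
    have htv32_3 : (![1, 1, 1, 1, 1, 1, 0, 0] : Fin 8 → ℤ) 3 = 1 := rfl
    have htv32_4 : (![1, 1, 1, 1, 1, 1, 0, 0] : Fin 8 → ℤ) 4 = 1 := rfl
    have htv32_5 : (![1, 1, 1, 1, 1, 1, 0, 0] : Fin 8 → ℤ) 5 = 1 := rfl
    have htv32_6 : (![1, 1, 1, 1, 1, 1, 0, 0] : Fin 8 → ℤ) 6 = 0 := rfl
    have htv32_7 : (![1, 1, 1, 1, 1, 1, 0, 0] : Fin 8 → ℤ) 7 = 0 := rfl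
    simp only [Fin.sum_univ_eight] at tv32
    simp only [htv32_0, htv32_1, htv32_2, htv32_3, htv32_4, htv32_5, htv32_6, htv32_7] at tv32
    norm_num at tv32
    have := hwc0
    have := hwc1
    have := hwc2
    have := hwc3
    have := hwc5
    have := hwc6
    have := hwc7
    have := ev0_1
    have := ev1_2
    have := ev2_3
    have := ev3_4
    have := ev4_5
    have := ev5_6
    have := ev4_7
    linarith
  have hz0_6 : T.a (v 0) (v 6) = 0 := by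
    by_contra hne
    have hpos : 0 < T.a (v 0) (v 6) := lt_of_le_of_ne (ho 0 6 (by decide)) (Ne.symm hne)
    have := hw1 0 6 hpos
    have tv33 := Groth.Agent.helper11.quad_test T v hn (![1, 1, 1, 1, 1, 1, 1, 0] : Fin 8 → ℤ) 0 (by decide)
    have htv33_0 : (![1, 1, 1, 1, 1, 1, 1, 0] : Fin 8 → ℤ) 0 = 1 := rfl
    have htv33_1 : (![1, 1, 1, 1, 1, 1, 1, 0] : Fin 8 → ℤ) 1 = 1 := rfl
    have htv33_2 : (![1, 1, 1, 1, 1, 1, 1, 0] : Fin 8 → ℤ) 2 = 1 := rfl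
    have htv33_3 : (![1, 1, 1, 1, 1, 1, 1, 0] : Fin 8 → ℤ) 3 = 1 := rfl
    have htv33_4 : (![1, 1, 1, 1, 1, 1, 1, 0] : Fin 8 → ℤ) 4 = 1 := rfl
    have htv33_5 : (![1, 1, 1, 1, 1, 1, 1, 0] : Fin 8 → ℤ) 5 = 1 := rfl
    have htv33_6 : (![1, 1, 1, 1, 1, 1, 1, 0] : Fin 8 → ℤ) 6 = 1 := rfl
    have htv33_7 : (![1, 1, 1, 1, 1, 1, 1, 0] : Fin 8 → ℤ) 7 = 0 := rfl
    simp only [Fin.sum_univ_eight] at tv33
    simp only [htv33_0, htv33_1, htv33_2, htv33_3, htv33_4, htv33_5, htv33_6, htv33_7] at tv33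
    norm_num at tv33
    have := hwc0
    have := hwc1
    have := hwc2
    have := hwc3
    have := hwc5
    have := hwc6
    have := hwc7
    have := ev0_1
    have := ev1_2
    have := ev2_3
    have := ev3_4
    have := ev4_5
    have := ev5_6
    have := ev4_7
    linarith
  have hz0_7 : T.a (v 0) (v 7) = 0 := by
    by_contra hne
    have hpos : 0 < T.a (v 0) (v 7) := lt_of_le_of_ne (ho 0 7 (by decide)) (Ne.symm hne)
    have := hw1 0 7 hpos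
    have tv34 := Groth.Agent.helper11.quad_test T v hn (![1, 1, 1, 1, 1, 0, 0, 1] : Fin 8 → ℤ) 0 (by decide)
    have htv34_0 : (![1, 1, 1, 1, 1, 0, 0, 1] : Fin 8 → ℤ) 0 = 1 := rfl
    have htv34_1 : (![1, 1, 1, 1, 1, 0, 0, 1] : Fin 8 → ℤ) 1 = 1 := rfl
    have htv34_2 : (![1, 1, 1, 1, 1, 0, 0, 1] : Fin 8 → ℤ) 2 = 1 := rfl
    have htv34_3 : (![1, 1, 1, 1, 1, 0, 0, 1] : Fin 8 → ℤ) 3 = 1 := rfl
    have htv34_4 : (![1, 1, 1, 1, 1, 0, 0, 1] : Fin 8 → ℤ) 4 = 1 := rfl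
    have htv34_5 : (![1, 1, 1, 1, 1, 0, 0, 1] : Fin 8 → ℤ) 5 = 0 := rfl
    have htv34_6 : (![1, 1, 1, 1, 1, 0, 0, 1] : Fin 8 → ℤ) 6 = 0 := rfl
    have htv34_7 : (![1, 1, 1, 1, 1, 0, 0, 1] : Fin 8 → ℤ) 7 = 1 := rfl
    simp only [Fin.sum_univ_eight] at tv34
    simp only [htv34_0, htv34_1, htv34_2, htv34_3, htv34_4, htv34_5, htv34_6, htv34_7] at tv34
    norm_num at tv34
    have := hwc0
    have := hwc1
    have := hwc2
    have := hwc3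
    have := hwc5
    have := hwc6
    have := hwc7
    have := ev0_1
    have := ev1_2
    have := ev2_3
    have := ev3_4
    have := ev4_5
    have := ev5_6
    have := ev4_7
    linarith
  have hz1_3 : T.a (v 1) (v 3) = 0 := by
    by_contra hne
    have hpos : 0 < T.a (v 1) (v 3) := lt_of_le_of_ne (ho 1 3 (by decide)) (Ne.symm hne)
    have := hw1 1 3 hpos
    have tv35 := Groth.Agent.helper11.quad_test T v hn (![0, 1, 1, 1, 0, 0, 0, 0] : Fin 8 → ℤ) 1 (by decide)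
    have htv35_0 : (![0, 1, 1, 1, 0, 0, 0, 0] : Fin 8 → ℤ) 0 = 0 := rfl
    have htv35_1 : (![0, 1, 1, 1, 0, 0, 0, 0] : Fin 8 → ℤ) 1 = 1 := rfl
    have htv35_2 : (![0, 1, 1, 1, 0, 0, 0, 0] : Fin 8 → ℤ) 2 = 1 := rfl
    have htv35_3 : (![0, 1, 1, 1, 0, 0, 0, 0] : Fin 8 → ℤ) 3 = 1 := rfl
    have htv35_4 : (![0, 1, 1, 1, 0, 0, 0, 0] : Fin 8 → ℤ) 4 = 0 := rfl
    have htv35_5 : (![0, 1, 1, 1, 0, 0, 0, 0] : Fin 8 → ℤ) 5 = 0 := rfl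
    have htv35_6 : (![0, 1, 1, 1, 0, 0, 0, 0] : Fin 8 → ℤ) 6 = 0 := rfl
    have htv35_7 : (![0, 1, 1, 1, 0, 0, 0, 0] : Fin 8 → ℤ) 7 = 0 := rfl
    simp only [Fin.sum_univ_eight] at tv35
    simp only [htv35_0, htv35_1, htv35_2, htv35_3, htv35_4, htv35_5, htv35_6, htv35_7] at tv35
    norm_num at tv35
    have := hwc0
    have := hwc1
    have := hwc2
    have := hwc3
    have := hwc5
    have := hwc6
    have := hwc7
    have := ev0_1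
    have := ev1_2
    have := ev2_3
    have := ev3_4
    have := ev4_5
    have := ev5_6
    have := ev4_7
    linarith
  have hz1_4 : T.a (v 1) (v 4) = 0 := by
    by_contra hne
    have hpos : 0 < T.a (v 1) (v 4) := lt_of_le_of_ne (ho 1 4 (by decide)) (Ne.symm hne)
    have := hw1 1 4 hpos
    have tv36 := Groth.Agent.helper11.quad_test T v hn (![0, 1, 1, 1, 1, 0, 0, 0] : Fin 8 → ℤ) 1 (by decide)
    have htv36_0 : (![0, 1, 1, 1, 1, 0, 0, 0] : Fin 8 → ℤ) 0 = 0 := rfl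
    have htv36_1 : (![0, 1, 1, 1, 1, 0, 0, 0] : Fin 8 → ℤ) 1 = 1 := rfl
    have htv36_2 : (![0, 1, 1, 1, 1, 0, 0, 0] : Fin 8 → ℤ) 2 = 1 := rfl
    have htv36_3 : (![0, 1, 1, 1, 1, 0, 0, 0] : Fin 8 → ℤ) 3 = 1 := rfl
    have htv36_4 : (![0, 1, 1, 1, 1, 0, 0, 0] : Fin 8 → ℤ) 4 = 1 := rfl
    have htv36_5 : (![0, 1, 1, 1, 1, 0, 0, 0] : Fin 8 → ℤ) 5 = 0 := rfl
    have htv36_6 : (![0, 1, 1, 1, 1, 0, 0, 0] : Fin 8 → ℤ) 6 = 0 := rfl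
    have htv36_7 : (![0, 1, 1, 1, 1, 0, 0, 0] : Fin 8 → ℤ) 7 = 0 := rfl
    simp only [Fin.sum_univ_eight] at tv36
    simp only [htv36_0, htv36_1, htv36_2, htv36_3, htv36_4, htv36_5, htv36_6, htv36_7] at tv36
    norm_num at tv36
    have := hwc0
    have := hwc1
    have := hwc2
    have := hwc3
    have := hwc5
    have := hwc6
    have := hwc7
    have := ev0_1
    have := ev1_2
    have := ev2_3
    have := ev3_4
    have := ev4_5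
    have := ev5_6
    have := ev4_7
    linarith
  have hz1_5 : T.a (v 1) (v 5) = 0 := by
    by_contra hne
    have hpos : 0 < T.a (v 1) (v 5) := lt_of_le_of_ne (ho 1 5 (by decide)) (Ne.symm hne)
    have := hw1 1 5 hpos
    have tv37 := Groth.Agent.helper11.quad_test T v hn (![0, 1, 1, 1, 1, 1, 0, 0] : Fin 8 → ℤ) 1 (by decide)
    have htv37_0 : (![0, 1, 1, 1, 1, 1, 0, 0] : Fin 8 → ℤ) 0 = 0 := rfl
    have htv37_1 : (![0, 1, 1, 1, 1, 1, 0, 0] : Fin 8 → ℤ) 1 = 1 := rfl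
    have htv37_2 : (![0, 1, 1, 1, 1, 1, 0, 0] : Fin 8 → ℤ) 2 = 1 := rfl
    have htv37_3 : (![0, 1, 1, 1, 1, 1, 0, 0] : Fin 8 → ℤ) 3 = 1 := rfl
    have htv37_4 : (![0, 1, 1, 1, 1, 1, 0, 0] : Fin 8 → ℤ) 4 = 1 := rfl
    have htv37_5 : (![0, 1, 1, 1, 1, 1, 0, 0] : Fin 8 → ℤ) 5 = 1 := rfl
    have htv37_6 : (![0, 1, 1, 1, 1, 1, 0, 0] : Fin 8 → ℤ) 6 = 0 := rfl
    have htv37_7 : (![0, 1, 1, 1, 1, 1, 0, 0] : Fin 8 → ℤ) 7 = 0 := rfl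
    simp only [Fin.sum_univ_eight] at tv37
    simp only [htv37_0, htv37_1, htv37_2, htv37_3, htv37_4, htv37_5, htv37_6, htv37_7] at tv37
    norm_num at tv37
    have := hwc0
    have := hwc1
    have := hwc2
    have := hwc3
    have := hwc5
    have := hwc6
    have := hwc7
    have := ev0_1
    have := ev1_2
    have := ev2_3
    have := ev3_4
    have := ev4_5
    have := ev5_6
    have := ev4_7
    linarith
  have hz1_6 : T.a (v 1) (v 6) = 0 := by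
    by_contra hne
    have hpos : 0 < T.a (v 1) (v 6) := lt_of_le_of_ne (ho 1 6 (by decide)) (Ne.symm hne)
    have := hw1 1 6 hpos
    have tv38 := Groth.Agent.helper11.quad_test T v hn (![0, 1, 1, 1, 1, 1, 1, 0] : Fin 8 → ℤ) 1 (by decide)
    have htv38_0 : (![0, 1, 1, 1, 1, 1, 1, 0] : Fin 8 → ℤ) 0 = 0 := rfl
    have htv38_1 : (![0, 1, 1, 1, 1, 1, 1, 0] : Fin 8 → ℤ) 1 = 1 := rfl
    have htv38_2 : (![0, 1, 1, 1, 1, 1, 1, 0] : Fin 8 → ℤ) 2 = 1 := rfl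
    have htv38_3 : (![0, 1, 1, 1, 1, 1, 1, 0] : Fin 8 → ℤ) 3 = 1 := rfl
    have htv38_4 : (![0, 1, 1, 1, 1, 1, 1, 0] : Fin 8 → ℤ) 4 = 1 := rfl
    have htv38_5 : (![0, 1, 1, 1, 1, 1, 1, 0] : Fin 8 → ℤ) 5 = 1 := rfl
    have htv38_6 : (![0, 1, 1, 1, 1, 1, 1, 0] : Fin 8 → ℤ) 6 = 1 := rfl
    have htv38_7 : (![0, 1, 1, 1, 1, 1, 1, 0] : Fin 8 → ℤ) 7 = 0 := rfl
    simp only [Fin.sum_univ_eight] at tv38
    simp only [htv38_0, htv38_1, htv38_2, htv38_3, htv38_4, htv38_5, htv38_6, htv38_7] at tv38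
    norm_num at tv38
    have := hwc0
    have := hwc1
    have := hwc2
    have := hwc3
    have := hwc5
    have := hwc6
    have := hwc7
    have := ev0_1
    have := ev1_2
    have := ev2_3
    have := ev3_4
    have := ev4_5
    have := ev5_6
    have := ev4_7
    linarith
  have hz1_7 : T.a (v 1) (v 7) = 0 := by
    by_contra hne
    have hpos : 0 < T.a (v 1) (v 7) := lt_of_le_of_ne (ho 1 7 (by decide)) (Ne.symm hne)
    have := hw1 1 7 hpos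
    have tv39 := Groth.Agent.helper11.quad_test T v hn (![0, 1, 1, 1, 1, 0, 0, 1] : Fin 8 → ℤ) 1 (by decide)
    have htv39_0 : (![0, 1, 1, 1, 1, 0, 0, 1] : Fin 8 → ℤ) 0 = 0 := rfl
    have htv39_1 : (![0, 1, 1, 1, 1, 0, 0, 1] : Fin 8 → ℤ) 1 = 1 := rfl
    have htv39_2 : (![0, 1, 1, 1, 1, 0, 0, 1] : Fin 8 → ℤ) 2 = 1 := rfl
    have htv39_3 : (![0, 1, 1, 1, 1, 0, 0, 1] : Fin 8 → ℤ) 3 = 1 := rfl
    have htv39_4 : (![0, 1, 1, 1, 1, 0, 0, 1] : Fin 8 → ℤ) 4 = 1 := rfl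
    have htv39_5 : (![0, 1, 1, 1, 1, 0, 0, 1] : Fin 8 → ℤ) 5 = 0 := rfl
    have htv39_6 : (![0, 1, 1, 1, 1, 0, 0, 1] : Fin 8 → ℤ) 6 = 0 := rfl
    have htv39_7 : (![0, 1, 1, 1, 1, 0, 0, 1] : Fin 8 → ℤ) 7 = 1 := rfl
    simp only [Fin.sum_univ_eight] at tv39
    simp only [htv39_0, htv39_1, htv39_2, htv39_3, htv39_4, htv39_5, htv39_6, htv39_7] at tv39
    norm_num at tv39
    have := hwc0
    have := hwc1
    have := hwc2
    have := hwc3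
    have := hwc5
    have := hwc6
    have := hwc7
    have := ev0_1
    have := ev1_2
    have := ev2_3
    have := ev3_4
    have := ev4_5
    have := ev5_6
    have := ev4_7
    linarith
  have hz2_4 : T.a (v 2) (v 4) = 0 := by
    by_contra hne
    have hpos : 0 < T.a (v 2) (v 4) := lt_of_le_of_ne (ho 2 4 (by decide)) (Ne.symm hne)
    have := hw1 2 4 hpos
    have tv40 := Groth.Agent.helper11.quad_test T v hn (![0, 0, 1, 1, 1, 0, 0, 0] : Fin 8 → ℤ) 2 (by decide)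
    have htv40_0 : (![0, 0, 1, 1, 1, 0, 0, 0] : Fin 8 → ℤ) 0 = 0 := rfl
    have htv40_1 : (![0, 0, 1, 1, 1, 0, 0, 0] : Fin 8 → ℤ) 1 = 0 := rfl
    have htv40_2 : (![0, 0, 1, 1, 1, 0, 0, 0] : Fin 8 → ℤ) 2 = 1 := rfl
    have htv40_3 : (![0, 0, 1, 1, 1, 0, 0, 0] : Fin 8 → ℤ) 3 = 1 := rfl
    have htv40_4 : (![0, 0, 1, 1, 1, 0, 0, 0] : Fin 8 → ℤ) 4 = 1 := rfl
    have htv40_5 : (![0, 0, 1, 1, 1, 0, 0, 0] : Fin 8 → ℤ) 5 = 0 := rfl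
    have htv40_6 : (![0, 0, 1, 1, 1, 0, 0, 0] : Fin 8 → ℤ) 6 = 0 := rfl
    have htv40_7 : (![0, 0, 1, 1, 1, 0, 0, 0] : Fin 8 → ℤ) 7 = 0 := rfl
    simp only [Fin.sum_univ_eight] at tv40
    simp only [htv40_0, htv40_1, htv40_2, htv40_3, htv40_4, htv40_5, htv40_6, htv40_7] at tv40
    norm_num at tv40
    have := hwc0
    have := hwc1
    have := hwc2
    have := hwc3
    have := hwc5
    have := hwc6
    have := hwc7
    have := ev0_1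
    have := ev1_2
    have := ev2_3
    have := ev3_4
    have := ev4_5
    have := ev5_6
    have := ev4_7
    linarith
  have hz2_5 : T.a (v 2) (v 5) = 0 := by
    by_contra hne
    have hpos : 0 < T.a (v 2) (v 5) := lt_of_le_of_ne (ho 2 5 (by decide)) (Ne.symm hne)
    have := hw1 2 5 hpos
    have tv41 := Groth.Agent.helper11.quad_test T v hn (![0, 0, 1, 1, 1, 1, 0, 0] : Fin 8 → ℤ) 2 (by decide)
    have htv41_0 : (![0, 0, 1, 1, 1, 1, 0, 0] : Fin 8 → ℤ) 0 = 0 := rfl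
    have htv41_1 : (![0, 0, 1, 1, 1, 1, 0, 0] : Fin 8 → ℤ) 1 = 0 := rfl
    have htv41_2 : (![0, 0, 1, 1, 1, 1, 0, 0] : Fin 8 → ℤ) 2 = 1 := rfl
    have htv41_3 : (![0, 0, 1, 1, 1, 1, 0, 0] : Fin 8 → ℤ) 3 = 1 := rfl
    have htv41_4 : (![0, 0, 1, 1, 1, 1, 0, 0] : Fin 8 → ℤ) 4 = 1 := rfl
    have htv41_5 : (![0, 0, 1, 1, 1, 1, 0, 0] : Fin 8 → ℤ) 5 = 1 := rfl
    have htv41_6 : (![0, 0, 1, 1, 1, 1, 0, 0] : Fin 8 → ℤ) 6 = 0 := rfl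
    have htv41_7 : (![0, 0, 1, 1, 1, 1, 0, 0] : Fin 8 → ℤ) 7 = 0 := rfl
    simp only [Fin.sum_univ_eight] at tv41
    simp only [htv41_0, htv41_1, htv41_2, htv41_3, htv41_4, htv41_5, htv41_6, htv41_7] at tv41
    norm_num at tv41
    have := hwc0
    have := hwc1
    have := hwc2
    have := hwc3
    have := hwc5
    have := hwc6
    have := hwc7
    have := ev0_1
    have := ev1_2
    have := ev2_3
    have := ev3_4
    have := ev4_5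
    have := ev5_6
    have := ev4_7
    linarith
  have hz2_6 : T.a (v 2) (v 6) = 0 := by
    by_contra hne
    have hpos : 0 < T.a (v 2) (v 6) := lt_of_le_of_ne (ho 2 6 (by decide)) (Ne.symm hne)
    have := hw1 2 6 hpos
    have tv42 := Groth.Agent.helper11.quad_test T v hn (![0, 0, 1, 1, 1, 1, 1, 0] : Fin 8 → ℤ) 2 (by decide)
    have htv42_0 : (![0, 0, 1, 1, 1, 1, 1, 0] : Fin 8 → ℤ) 0 = 0 := rfl
    have htv42_1 : (![0, 0, 1, 1, 1, 1, 1, 0] : Fin 8 → ℤ) 1 = 0 := rfl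
    have htv42_2 : (![0, 0, 1, 1, 1, 1, 1, 0] : Fin 8 → ℤ) 2 = 1 := rfl
    have htv42_3 : (![0, 0, 1, 1, 1, 1, 1, 0] : Fin 8 → ℤ) 3 = 1 := rfl
    have htv42_4 : (![0, 0, 1, 1, 1, 1, 1, 0] : Fin 8 → ℤ) 4 = 1 := rfl
    have htv42_5 : (![0, 0, 1, 1, 1, 1, 1, 0] : Fin 8 → ℤ) 5 = 1 := rfl
    have htv42_6 : (![0, 0, 1, 1, 1, 1, 1, 0] : Fin 8 → ℤ) 6 = 1 := rfl
    have htv42_7 : (![0, 0, 1, 1, 1, 1, 1, 0] : Fin 8 → ℤ) 7 = 0 := rfl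
    simp only [Fin.sum_univ_eight] at tv42
    simp only [htv42_0, htv42_1, htv42_2, htv42_3, htv42_4, htv42_5, htv42_6, htv42_7] at tv42
    norm_num at tv42
    have := hwc0
    have := hwc1
    have := hwc2
    have := hwc3
    have := hwc5
    have := hwc6
    have := hwc7
    have := ev0_1
    have := ev1_2
    have := ev2_3
    have := ev3_4
    have := ev4_5
    have := ev5_6
    have := ev4_7
    linarith
  have hz2_7 : T.a (v 2) (v 7) = 0 := by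
    by_contra hne
    have hpos : 0 < T.a (v 2) (v 7) := lt_of_le_of_ne (ho 2 7 (by decide)) (Ne.symm hne)
    have := hw1 2 7 hpos
    have tv43 := Groth.Agent.helper11.quad_test T v hn (![0, 0, 1, 1, 1, 0, 0, 1] : Fin 8 → ℤ) 2 (by decide)
    have htv43_0 : (![0, 0, 1, 1, 1, 0, 0, 1] : Fin 8 → ℤ) 0 = 0 := rfl
    have htv43_1 : (![0, 0, 1, 1, 1, 0, 0, 1] : Fin 8 → ℤ) 1 = 0 := rfl
    have htv43_2 : (![0, 0, 1, 1, 1, 0, 0, 1] : Fin 8 → ℤ) 2 = 1 := rfl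
    have htv43_3 : (![0, 0, 1, 1, 1, 0, 0, 1] : Fin 8 → ℤ) 3 = 1 := rfl
    have htv43_4 : (![0, 0, 1, 1, 1, 0, 0, 1] : Fin 8 → ℤ) 4 = 1 := rfl
    have htv43_5 : (![0, 0, 1, 1, 1, 0, 0, 1] : Fin 8 → ℤ) 5 = 0 := rfl
    have htv43_6 : (![0, 0, 1, 1, 1, 0, 0, 1] : Fin 8 → ℤ) 6 = 0 := rfl
    have htv43_7 : (![0, 0, 1, 1, 1, 0, 0, 1] : Fin 8 → ℤ) 7 = 1 := rfl
    simp only [Fin.sum_univ_eight] at tv43
    simp only [htv43_0, htv43_1, htv43_2, htv43_3, htv43_4, htv43_5, htv43_6, htv43_7] at tv43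
    norm_num at tv43
    have := hwc0
    have := hwc1
    have := hwc2
    have := hwc3
    have := hwc5
    have := hwc6
    have := hwc7
    have := ev0_1
    have := ev1_2
    have := ev2_3
    have := ev3_4
    have := ev4_5
    have := ev5_6
    have := ev4_7
    linarith
  have hz3_5 : T.a (v 3) (v 5) = 0 := by
    by_contra hne
    have hpos : 0 < T.a (v 3) (v 5) := lt_of_le_of_ne (ho 3 5 (by decide)) (Ne.symm hne)
    have := hw1 3 5 hpos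
    have tv44 := Groth.Agent.helper11.quad_test T v hn (![0, 0, 0, 1, 1, 1, 0, 0] : Fin 8 → ℤ) 3 (by decide)
    have htv44_0 : (![0, 0, 0, 1, 1, 1, 0, 0] : Fin 8 → ℤ) 0 = 0 := rfl
    have htv44_1 : (![0, 0, 0, 1, 1, 1, 0, 0] : Fin 8 → ℤ) 1 = 0 := rfl
    have htv44_2 : (![0, 0, 0, 1, 1, 1, 0, 0] : Fin 8 → ℤ) 2 = 0 := rfl
    have htv44_3 : (![0, 0, 0, 1, 1, 1, 0, 0] : Fin 8 → ℤ) 3 = 1 := rfl
    have htv44_4 : (![0, 0, 0, 1, 1, 1, 0, 0] : Fin 8 → ℤ) 4 = 1 := rfl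
    have htv44_5 : (![0, 0, 0, 1, 1, 1, 0, 0] : Fin 8 → ℤ) 5 = 1 := rfl
    have htv44_6 : (![0, 0, 0, 1, 1, 1, 0, 0] : Fin 8 → ℤ) 6 = 0 := rfl
    have htv44_7 : (![0, 0, 0, 1, 1, 1, 0, 0] : Fin 8 → ℤ) 7 = 0 := rfl
    simp only [Fin.sum_univ_eight] at tv44
    simp only [htv44_0, htv44_1, htv44_2, htv44_3, htv44_4, htv44_5, htv44_6, htv44_7] at tv44
    norm_num at tv44
    have := hwc0
    have := hwc1
    have := hwc2
    have := hwc3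
    have := hwc5
    have := hwc6
    have := hwc7
    have := ev0_1
    have := ev1_2
    have := ev2_3
    have := ev3_4
    have := ev4_5
    have := ev5_6
    have := ev4_7
    linarith
  have hz3_6 : T.a (v 3) (v 6) = 0 := by
    by_contra hne
    have hpos : 0 < T.a (v 3) (v 6) := lt_of_le_of_ne (ho 3 6 (by decide)) (Ne.symm hne)
    have := hw1 3 6 hpos
    have tv45 := Groth.Agent.helper11.quad_test T v hn (![0, 0, 0, 1, 1, 1, 1, 0] : Fin 8 → ℤ) 3 (by decide)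
    have htv45_0 : (![0, 0, 0, 1, 1, 1, 1, 0] : Fin 8 → ℤ) 0 = 0 := rfl
    have htv45_1 : (![0, 0, 0, 1, 1, 1, 1, 0] : Fin 8 → ℤ) 1 = 0 := rfl
    have htv45_2 : (![0, 0, 0, 1, 1, 1, 1, 0] : Fin 8 → ℤ) 2 = 0 := rfl
    have htv45_3 : (![0, 0, 0, 1, 1, 1, 1, 0] : Fin 8 → ℤ) 3 = 1 := rfl
    have htv45_4 : (![0, 0, 0, 1, 1, 1, 1, 0] : Fin 8 → ℤ) 4 = 1 := rfl
    have htv45_5 : (![0, 0, 0, 1, 1, 1, 1, 0] : Fin 8 → ℤ) 5 = 1 := rfl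
    have htv45_6 : (![0, 0, 0, 1, 1, 1, 1, 0] : Fin 8 → ℤ) 6 = 1 := rfl
    have htv45_7 : (![0, 0, 0, 1, 1, 1, 1, 0] : Fin 8 → ℤ) 7 = 0 := rfl
    simp only [Fin.sum_univ_eight] at tv45
    simp only [htv45_0, htv45_1, htv45_2, htv45_3, htv45_4, htv45_5, htv45_6, htv45_7] at tv45
    norm_num at tv45
    have := hwc0
    have := hwc1
    have := hwc2
    have := hwc3
    have := hwc5
    have := hwc6
    have := hwc7
    have := ev0_1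
    have := ev1_2
    have := ev2_3
    have := ev3_4
    have := ev4_5
    have := ev5_6
    have := ev4_7
    linarith
  have hz3_7 : T.a (v 3) (v 7) = 0 := by
    by_contra hne
    have hpos : 0 < T.a (v 3) (v 7) := lt_of_le_of_ne (ho 3 7 (by decide)) (Ne.symm hne)
    have := hw1 3 7 hpos
    have tv46 := Groth.Agent.helper11.quad_test T v hn (![0, 0, 0, 1, 1, 0, 0, 1] : Fin 8 → ℤ) 3 (by decide)
    have htv46_0 : (![0, 0, 0, 1, 1, 0, 0, 1] : Fin 8 → ℤ) 0 = 0 := rfl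
    have htv46_1 : (![0, 0, 0, 1, 1, 0, 0, 1] : Fin 8 → ℤ) 1 = 0 := rfl
    have htv46_2 : (![0, 0, 0, 1, 1, 0, 0, 1] : Fin 8 → ℤ) 2 = 0 := rfl
    have htv46_3 : (![0, 0, 0, 1, 1, 0, 0, 1] : Fin 8 → ℤ) 3 = 1 := rfl
    have htv46_4 : (![0, 0, 0, 1, 1, 0, 0, 1] : Fin 8 → ℤ) 4 = 1 := rfl
    have htv46_5 : (![0, 0, 0, 1, 1, 0, 0, 1] : Fin 8 → ℤ) 5 = 0 := rfl
    have htv46_6 : (![0, 0, 0, 1, 1, 0, 0, 1] : Fin 8 → ℤ) 6 = 0 := rfl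
    have htv46_7 : (![0, 0, 0, 1, 1, 0, 0, 1] : Fin 8 → ℤ) 7 = 1 := rfl
    simp only [Fin.sum_univ_eight] at tv46
    simp only [htv46_0, htv46_1, htv46_2, htv46_3, htv46_4, htv46_5, htv46_6, htv46_7] at tv46
    norm_num at tv46
    have := hwc0
    have := hwc1
    have := hwc2
    have := hwc3
    have := hwc5
    have := hwc6
    have := hwc7
    have := ev0_1
    have := ev1_2
    have := ev2_3
    have := ev3_4
    have := ev4_5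
    have := ev5_6
    have := ev4_7
    linarith
  have hz4_6 : T.a (v 4) (v 6) = 0 := by
    by_contra hne
    have hpos : 0 < T.a (v 4) (v 6) := lt_of_le_of_ne (ho 4 6 (by decide)) (Ne.symm hne)
    have := hw1 4 6 hpos
    have tv47 := Groth.Agent.helper11.quad_test T v hn (![0, 0, 0, 0, 1, 1, 1, 0] : Fin 8 → ℤ) 4 (by decide)
    have htv47_0 : (![0, 0, 0, 0, 1, 1, 1, 0] : Fin 8 → ℤ) 0 = 0 := rfl
    have htv47_1 : (![0, 0, 0, 0, 1, 1, 1, 0] : Fin 8 → ℤ) 1 = 0 := rfl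
    have htv47_2 : (![0, 0, 0, 0, 1, 1, 1, 0] : Fin 8 → ℤ) 2 = 0 := rfl
    have htv47_3 : (![0, 0, 0, 0, 1, 1, 1, 0] : Fin 8 → ℤ) 3 = 0 := rfl
    have htv47_4 : (![0, 0, 0, 0, 1, 1, 1, 0] : Fin 8 → ℤ) 4 = 1 := rfl
    have htv47_5 : (![0, 0, 0, 0, 1, 1, 1, 0] : Fin 8 → ℤ) 5 = 1 := rfl
    have htv47_6 : (![0, 0, 0, 0, 1, 1, 1, 0] : Fin 8 → ℤ) 6 = 1 := rfl
    have htv47_7 : (![0, 0, 0, 0, 1, 1, 1, 0] : Fin 8 → ℤ) 7 = 0 := rfl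
    simp only [Fin.sum_univ_eight] at tv47
    simp only [htv47_0, htv47_1, htv47_2, htv47_3, htv47_4, htv47_5, htv47_6, htv47_7] at tv47
    norm_num at tv47
    have := hwc0
    have := hwc1
    have := hwc2
    have := hwc3
    have := hwc5
    have := hwc6
    have := hwc7
    have := ev0_1
    have := ev1_2
    have := ev2_3
    have := ev3_4
    have := ev4_5
    have := ev5_6
    have := ev4_7
    linarith
  have hz5_7 : T.a (v 5) (v 7) = 0 := by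
    by_contra hne
    have hpos : 0 < T.a (v 5) (v 7) := lt_of_le_of_ne (ho 5 7 (by decide)) (Ne.symm hne)
    have := hw1 5 7 hpos
    have tv48 := Groth.Agent.helper11.quad_test T v hn (![0, 0, 0, 0, 1, 1, 0, 1] : Fin 8 → ℤ) 4 (by decide)
    have htv48_0 : (![0, 0, 0, 0, 1, 1, 0, 1] : Fin 8 → ℤ) 0 = 0 := rfl
    have htv48_1 : (![0, 0, 0, 0, 1, 1, 0, 1] : Fin 8 → ℤ) 1 = 0 := rfl
    have htv48_2 : (![0, 0, 0, 0, 1, 1, 0, 1] : Fin 8 → ℤ) 2 = 0 := rfl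
    have htv48_3 : (![0, 0, 0, 0, 1, 1, 0, 1] : Fin 8 → ℤ) 3 = 0 := rfl
    have htv48_4 : (![0, 0, 0, 0, 1, 1, 0, 1] : Fin 8 → ℤ) 4 = 1 := rfl
    have htv48_5 : (![0, 0, 0, 0, 1, 1, 0, 1] : Fin 8 → ℤ) 5 = 1 := rfl
    have htv48_6 : (![0, 0, 0, 0, 1, 1, 0, 1] : Fin 8 → ℤ) 6 = 0 := rfl
    have htv48_7 : (![0, 0, 0, 0, 1, 1, 0, 1] : Fin 8 → ℤ) 7 = 1 := rfl
    simp only [Fin.sum_univ_eight] at tv48
    simp only [htv48_0, htv48_1, htv48_2, htv48_3, htv48_4, htv48_5, htv48_6, htv48_7] at tv48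
    norm_num at tv48
    have := hwc0
    have := hwc1
    have := hwc2
    have := hwc3
    have := hwc5
    have := hwc6
    have := hwc7
    have := ev0_1
    have := ev1_2
    have := ev2_3
    have := ev3_4
    have := ev4_5
    have := ev5_6
    have := ev4_7
    linarith
  have hz6_7 : T.a (v 6) (v 7) = 0 := by
    by_contra hne
    have hpos : 0 < T.a (v 6) (v 7) := lt_of_le_of_ne (ho 6 7 (by decide)) (Ne.symm hne)
    have := hw1 6 7 hpos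
    have tv49 := Groth.Agent.helper11.quad_test T v hn (![0, 0, 0, 0, 1, 1, 1, 1] : Fin 8 → ℤ) 4 (by decide)
    have htv49_0 : (![0, 0, 0, 0, 1, 1, 1, 1] : Fin 8 → ℤ) 0 = 0 := rfl
    have htv49_1 : (![0, 0, 0, 0, 1, 1, 1, 1] : Fin 8 → ℤ) 1 = 0 := rfl
    have htv49_2 : (![0, 0, 0, 0, 1, 1, 1, 1] : Fin 8 → ℤ) 2 = 0 := rfl
    have htv49_3 : (![0, 0, 0, 0, 1, 1, 1, 1] : Fin 8 → ℤ) 3 = 0 := rfl
    have htv49_4 : (![0, 0, 0, 0, 1, 1, 1, 1] : Fin 8 → ℤ) 4 = 1 := rfl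
    have htv49_5 : (![0, 0, 0, 0, 1, 1, 1, 1] : Fin 8 → ℤ) 5 = 1 := rfl
    have htv49_6 : (![0, 0, 0, 0, 1, 1, 1, 1] : Fin 8 → ℤ) 6 = 1 := rfl
    have htv49_7 : (![0, 0, 0, 0, 1, 1, 1, 1] : Fin 8 → ℤ) 7 = 1 := rfl
    simp only [Fin.sum_univ_eight] at tv49
    simp only [htv49_0, htv49_1, htv49_2, htv49_3, htv49_4, htv49_5, htv49_6, htv49_7] at tv49
    norm_num at tv49
    have := hwc0
    have := hwc1
    have := hwc2
    have := hwc3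
    have := hwc5
    have := hwc6
    have := hwc7
    have := ev0_1
    have := ev1_2
    have := ev2_3
    have := ev3_4
    have := ev4_5
    have := ev5_6
    have := ev4_7
    linarith
  have A0_0 : T.a (v 0) (v 0) = -2 * T.w (v 4) := by rw [hd 0, hwc0]
  have A0_1 : T.a (v 0) (v 1) = T.w (v 4) := ev0_1
  have A0_2 : T.a (v 0) (v 2) = 0 := hz0_2
  have A0_3 : T.a (v 0) (v 3) = 0 := hz0_3
  have A0_4 : T.a (v 0) (v 4) = 0 := hz0_4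
  have A0_5 : T.a (v 0) (v 5) = 0 := hz0_5
  have A0_6 : T.a (v 0) (v 6) = 0 := hz0_6
  have A0_7 : T.a (v 0) (v 7) = 0 := hz0_7
  have A1_0 : T.a (v 1) (v 0) = T.w (v 4) := (hs 0 1).trans ev0_1
  have A1_1 : T.a (v 1) (v 1) = -2 * T.w (v 4) := by rw [hd 1, hwc1]
  have A1_2 : T.a (v 1) (v 2) = T.w (v 4) := ev1_2
  have A1_3 : T.a (v 1) (v 3) = 0 := hz1_3
  have A1_4 : T.a (v 1) (v 4) = 0 := hz1_4
  have A1_5 : T.a (v 1) (v 5) = 0 := hz1_5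
  have A1_6 : T.a (v 1) (v 6) = 0 := hz1_6
  have A1_7 : T.a (v 1) (v 7) = 0 := hz1_7
  have A2_0 : T.a (v 2) (v 0) = 0 := (hs 0 2).trans hz0_2
  have A2_1 : T.a (v 2) (v 1) = T.w (v 4) := (hs 1 2).trans ev1_2
  have A2_2 : T.a (v 2) (v 2) = -2 * T.w (v 4) := by rw [hd 2, hwc2]
  have A2_3 : T.a (v 2) (v 3) = T.w (v 4) := ev2_3
  have A2_4 : T.a (v 2) (v 4) = 0 := hz2_4
  have A2_5 : T.a (v 2) (v 5) = 0 := hz2_5
  have A2_6 : T.a (v 2) (v 6) = 0 := hz2_6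
  have A2_7 : T.a (v 2) (v 7) = 0 := hz2_7
  have A3_0 : T.a (v 3) (v 0) = 0 := (hs 0 3).trans hz0_3
  have A3_1 : T.a (v 3) (v 1) = 0 := (hs 1 3).trans hz1_3
  have A3_2 : T.a (v 3) (v 2) = T.w (v 4) := (hs 2 3).trans ev2_3
  have A3_3 : T.a (v 3) (v 3) = -2 * T.w (v 4) := by rw [hd 3, hwc3]
  have A3_4 : T.a (v 3) (v 4) = T.w (v 4) := ev3_4
  have A3_5 : T.a (v 3) (v 5) = 0 := hz3_5
  have A3_6 : T.a (v 3) (v 6) = 0 := hz3_6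
  have A3_7 : T.a (v 3) (v 7) = 0 := hz3_7
  have A4_0 : T.a (v 4) (v 0) = 0 := (hs 0 4).trans hz0_4
  have A4_1 : T.a (v 4) (v 1) = 0 := (hs 1 4).trans hz1_4
  have A4_2 : T.a (v 4) (v 2) = 0 := (hs 2 4).trans hz2_4
  have A4_3 : T.a (v 4) (v 3) = T.w (v 4) := (hs 3 4).trans ev3_4
  have A4_4 : T.a (v 4) (v 4) = -2 * T.w (v 4) := hd 4
  have A4_5 : T.a (v 4) (v 5) = T.w (v 4) := ev4_5
  have A4_6 : T.a (v 4) (v 6) = 0 := hz4_6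
  have A4_7 : T.a (v 4) (v 7) = T.w (v 4) := ev4_7
  have A5_0 : T.a (v 5) (v 0) = 0 := (hs 0 5).trans hz0_5
  have A5_1 : T.a (v 5) (v 1) = 0 := (hs 1 5).trans hz1_5
  have A5_2 : T.a (v 5) (v 2) = 0 := (hs 2 5).trans hz2_5
  have A5_3 : T.a (v 5) (v 3) = 0 := (hs 3 5).trans hz3_5
  have A5_4 : T.a (v 5) (v 4) = T.w (v 4) := (hs 4 5).trans ev4_5
  have A5_5 : T.a (v 5) (v 5) = -2 * T.w (v 4) := by rw [hd 5, hwc5]
  have A5_6 : T.a (v 5) (v 6) = T.w (v 4) := ev5_6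
  have A5_7 : T.a (v 5) (v 7) = 0 := hz5_7
  have A6_0 : T.a (v 6) (v 0) = 0 := (hs 0 6).trans hz0_6
  have A6_1 : T.a (v 6) (v 1) = 0 := (hs 1 6).trans hz1_6
  have A6_2 : T.a (v 6) (v 2) = 0 := (hs 2 6).trans hz2_6
  have A6_3 : T.a (v 6) (v 3) = 0 := (hs 3 6).trans hz3_6
  have A6_4 : T.a (v 6) (v 4) = 0 := (hs 4 6).trans hz4_6
  have A6_5 : T.a (v 6) (v 5) = T.w (v 4) := (hs 5 6).trans ev5_6
  have A6_6 : T.a (v 6) (v 6) = -2 * T.w (v 4) := by rw [hd 6, hwc6]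
  have A6_7 : T.a (v 6) (v 7) = 0 := hz6_7
  have A7_0 : T.a (v 7) (v 0) = 0 := (hs 0 7).trans hz0_7
  have A7_1 : T.a (v 7) (v 1) = 0 := (hs 1 7).trans hz1_7
  have A7_2 : T.a (v 7) (v 2) = 0 := (hs 2 7).trans hz2_7
  have A7_3 : T.a (v 7) (v 3) = 0 := (hs 3 7).trans hz3_7
  have A7_4 : T.a (v 7) (v 4) = T.w (v 4) := (hs 4 7).trans ev4_7
  have A7_5 : T.a (v 7) (v 5) = 0 := (hs 5 7).trans hz5_7
  have A7_6 : T.a (v 7) (v 6) = 0 := (hs 6 7).trans hz6_7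
  have A7_7 : T.a (v 7) (v 7) = -2 * T.w (v 4) := by rw [hd 7, hwc7]
  have hw0 := hwp 4
  have kr0 : ∑ q, T.a (v 0) (v q) * T.m (v q) = T.w (v 4) * (T.m (v 1) - 2 * T.m (v 0)) := by
    simp only [Fin.sum_univ_eight]
    simp only [A0_0, A0_1, A0_2, A0_3, A0_4, A0_5, A0_6, A0_7]
    ring
  have r0 := Groth.Agent.helper11.row_sum_le T v 0
  rw [kr0] at r0
  have mi0 : T.m (v 1) ≤ 2 * T.m (v 0) := by
    by_contra hcon; push Not at hcon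
    have := mul_pos hw0 (show 0 < T.m (v 1) - 2 * T.m (v 0) by linarith)
    linarith
  have kr1 : ∑ q, T.a (v 1) (v q) * T.m (v q) = T.w (v 4) * (T.m (v 0) + T.m (v 2) - 2 * T.m (v 1)) := by
    simp only [Fin.sum_univ_eight]
    simp only [A1_0, A1_1, A1_2, A1_3, A1_4, A1_5, A1_6, A1_7]
    ring
  have r1 := Groth.Agent.helper11.row_sum_le T v 1
  rw [kr1] at r1
  have mi1 : T.m (v 0) + T.m (v 2) ≤ 2 * T.m (v 1) := by
    by_contra hcon; push Not at hcon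
    have := mul_pos hw0 (show 0 < T.m (v 0) + T.m (v 2) - 2 * T.m (v 1) by linarith)
    linarith
  have kr2 : ∑ q, T.a (v 2) (v q) * T.m (v q) = T.w (v 4) * (T.m (v 1) + T.m (v 3) - 2 * T.m (v 2)) := by
    simp only [Fin.sum_univ_eight]
    simp only [A2_0, A2_1, A2_2, A2_3, A2_4, A2_5, A2_6, A2_7]
    ring
  have r2 := Groth.Agent.helper11.row_sum_le T v 2
  rw [kr2] at r2
  have mi2 : T.m (v 1) + T.m (v 3) ≤ 2 * T.m (v 2) := by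
    by_contra hcon; push Not at hcon
    have := mul_pos hw0 (show 0 < T.m (v 1) + T.m (v 3) - 2 * T.m (v 2) by linarith)
    linarith
  have kr3 : ∑ q, T.a (v 3) (v q) * T.m (v q) = T.w (v 4) * (T.m (v 2) + T.m (v 4) - 2 * T.m (v 3)) := by
    simp only [Fin.sum_univ_eight]
    simp only [A3_0, A3_1, A3_2, A3_3, A3_4, A3_5, A3_6, A3_7]
    ring
  have r3 := Groth.Agent.helper11.row_sum_le T v 3
  rw [kr3] at r3
  have mi3 : T.m (v 2) + T.m (v 4) ≤ 2 * T.m (v 3) := by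
    by_contra hcon; push Not at hcon
    have := mul_pos hw0 (show 0 < T.m (v 2) + T.m (v 4) - 2 * T.m (v 3) by linarith)
    linarith
  have kr4 : ∑ q, T.a (v 4) (v q) * T.m (v q) = T.w (v 4) * (T.m (v 3) + T.m (v 5) + T.m (v 7) - 2 * T.m (v 4)) := by
    simp only [Fin.sum_univ_eight]
    simp only [A4_0, A4_1, A4_2, A4_3, A4_4, A4_5, A4_6, A4_7]
    ring
  have r4 := Groth.Agent.helper11.row_sum_le T v 4
  rw [kr4] at r4
  have mi4 : T.m (v 3) + T.m (v 5) + T.m (v 7) ≤ 2 * T.m (v 4) := by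
    by_contra hcon; push Not at hcon
    have := mul_pos hw0 (show 0 < T.m (v 3) + T.m (v 5) + T.m (v 7) - 2 * T.m (v 4) by linarith)
    linarith
  have kr5 : ∑ q, T.a (v 5) (v q) * T.m (v q) = T.w (v 4) * (T.m (v 4) + T.m (v 6) - 2 * T.m (v 5)) := by
    simp only [Fin.sum_univ_eight]
    simp only [A5_0, A5_1, A5_2, A5_3, A5_4, A5_5, A5_6, A5_7]
    ring
  have r5 := Groth.Agent.helper11.row_sum_le T v 5
  rw [kr5] at r5
  have mi5 : T.m (v 4) + T.m (v 6) ≤ 2 * T.m (v 5) := by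
    by_contra hcon; push Not at hcon
    have := mul_pos hw0 (show 0 < T.m (v 4) + T.m (v 6) - 2 * T.m (v 5) by linarith)
    linarith
  have kr6 : ∑ q, T.a (v 6) (v q) * T.m (v q) = T.w (v 4) * (T.m (v 5) - 2 * T.m (v 6)) := by
    simp only [Fin.sum_univ_eight]
    simp only [A6_0, A6_1, A6_2, A6_3, A6_4, A6_5, A6_6, A6_7]
    ring
  have r6 := Groth.Agent.helper11.row_sum_le T v 6
  rw [kr6] at r6
  have mi6 : T.m (v 5) ≤ 2 * T.m (v 6) := by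
    by_contra hcon; push Not at hcon
    have := mul_pos hw0 (show 0 < T.m (v 5) - 2 * T.m (v 6) by linarith)
    linarith
  have kr7 : ∑ q, T.a (v 7) (v q) * T.m (v q) = T.w (v 4) * (T.m (v 4) - 2 * T.m (v 7)) := by
    simp only [Fin.sum_univ_eight]
    simp only [A7_0, A7_1, A7_2, A7_3, A7_4, A7_5, A7_6, A7_7]
    ring
  have r7 := Groth.Agent.helper11.row_sum_le T v 7
  rw [kr7] at r7
  have mi7 : T.m (v 4) ≤ 2 * T.m (v 7) := by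
    by_contra hcon; push Not at hcon
    have := mul_pos hw0 (show 0 < T.m (v 4) - 2 * T.m (v 7) by linarith)
    linarith
  refine ⟨T.w (v 4), ?_, A0_1, A1_2, A2_3, A3_4, A4_5, A5_6, A4_7, A0_2, A0_3, A0_4, A0_5, A0_6, A0_7, A1_3, A1_4, A1_5, A1_6, A1_7, A2_4, A2_5, A2_6, A2_7, A3_5, A3_6, A3_7, A4_6, A5_7, A6_7, mi0, mi1, mi2, mi3, mi4, mi5, mi6, mi7⟩
  intro j
  fin_cases j
  · exact hwc0
  · exact hwc1
  · exact hwc2
  · exact hwc3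
  · rfl
  · exact hwc5
  · exact hwc6
  · exact hwc7

end Groth.Agent.S7350
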