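import Groth.Statements.S7351
import Groth.Agent.Lib_helper11_Models
-- import your own Groth.Agent.* helpers here

set_option autoImplicit false
open Finset
open Models Models.NumericalType

namespace Groth.Agent.S7351

/-- Let T be a numerical type on n > 5 indices. There do not exist five distinct (-2)-indices h, i, j,
k, l with a_hi > 0, a_hj > 0, a_hk > 0 and a_hl > 0. -/
theorem result {n : ℕ} (T : Models.NumericalType n) (hn : 5 < n)
    (v : Fin 5 ↪ Fin n) (hv : ∀ j, T.IsMinusTwo (v j))
    (h01 : 0 < T.a (v 0) (v 1)) (h02 : 0 < T.a (v 0) (v 2)) (h03 : 0 < T.a (v 0) (v 3)) (h04 : 0 < T.a (v 0) (v 4)) : False := by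
  classical
  have hQ := Groth.Agent.helper11.models_quad_neg T
    (Function.extend v (fun p : Fin 5 => if p = 0 then (2 : ℤ) else 1) 0)
    ⟨v 0, by rw [v.injective.extend_apply]; simp⟩
    (by
      obtain ⟨j, hj⟩ := Groth.Agent.helper11.exists_not_mem_range v hn
      refine ⟨j, ?_⟩
      rw [Function.extend_apply' _ _ _ (by rintro ⟨p, rfl⟩; exact hj ⟨p, rfl⟩)]
      rfl)
  rw [Groth.Agent.helper11.quad_extend] at hQ
  simp only [Fin.sum_univ_five] at hQ
  norm_num [Fin.ext_iff] at hQ
  have hd : ∀ p, T.a (v p) (v p) = -2 * T.w (v p) := fun p => (hv p).2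
  have hs : ∀ p q, T.a (v q) (v p) = T.a (v p) (v q) := fun p q => T.symm.apply _ _
  have ho : ∀ p q, p ≠ q → 0 ≤ T.a (v p) (v q) := fun p q h =>
    T.offDiag_nonneg _ _ (v.injective.ne h)
  have hw1 : ∀ p q, 0 < T.a (v p) (v q) → T.w (v p) ≤ T.a (v p) (v q) := fun p q h =>
    Int.le_of_dvd h (T.w_dvd _ _)
  have hw2 : ∀ p q, 0 < T.a (v p) (v q) → T.w (v q) ≤ T.a (v p) (v q) := fun p q h => by
    rw [← hs]; exact Int.le_of_dvd (by rw [hs]; exact h) (T.w_dvd _ _)
  have := hd 0; have := hd 1; have := hd 2; have := hd 3; have := hd 4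
  have := hs 0 1; have := hs 0 2; have := hs 0 3; have := hs 0 4
  have := hs 1 2; have := hs 1 3; have := hs 1 4; have := hs 2 3; have := hs 2 4; have := hs 3 4
  have := ho 1 2 (by decide); have := ho 1 3 (by decide); have := ho 1 4 (by decide)
  have := ho 2 3 (by decide); have := ho 2 4 (by decide); have := ho 3 4 (by decide)
  have := hw1 0 1 h01; have := hw1 0 2 h02; have := hw1 0 3 h03; have := hw1 0 4 h04
  have := hw2 0 1 h01; have := hw2 0 2 h02; have := hw2 0 3 h03; have := hw2 0 4 h04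
  linarith

end Groth.Agent.S7351
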