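import Groth.Statements.S7352
import Groth.Agent.Lib_helper11_Models3
import Mathlib.Tactic.FinCases
-- import your own Groth.Agent.* helpers here

set_option autoImplicit false
open Finset
open Models Models.NumericalType

namespace Groth.Agent.S7352

set_option maxHeartbeats 4000000

/-- Classification of proper subgraphs which are chains of four vertices: let T be a numerical type on n
> 4 indices and i_1, …, i_4 distinct (-2)-indices with a_{i_j i_{j+1}} nonzero for j < 4. Then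
a_{i_j i_l} = 0 for |j - l| ≥ 2 and, after possibly reversing the order of the indices, for some
integer w one of the following holds: (A4) w = (w, w, w, w), consecutive a = (w, w, w), with 2m_1 ≥
m_2, 2m_2 ≥ m_1 + m_3, 2m_3 ≥ m_2 + m_4, 2m_4 ≥ m_3; (C4) w = (w, w, w, 2w), consecutive a = (w, w,
2w), with 2m_1 ≥ m_2, 2m_2 ≥ m_1 + m_3, 2m_3 ≥ m_2 + 2m_4, 2m_4 ≥ m_3; (B4) w = (2w, 2w, 2w, w),
consecutive a = (2w, 2w, 2w), with 2m_1 ≥ m_2, 2m_2 ≥ m_1 + m_3, 2m_3 ≥ m_2 + m_4, m_4 ≥ m_3; (F4) w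
= (w, w, 2w, 2w), consecutive a = (w, 2w, 2w), with 2m_1 ≥ m_2, 2m_2 ≥ m_1 + 2m_3, 2m_3 ≥ m_2 + m_4,
2m_4 ≥ m_3. -/
theorem result {n : ℕ} (T : Models.NumericalType n) (hn : 4 < n)
    (v : Fin 4 ↪ Fin n) (hv : ∀ j, T.IsMinusTwo (v j)) (h01 : T.a (v 0) (v 1) ≠ 0) (h12 : T.a (v 1) (v 2) ≠ 0) (h23 : T.a (v 2) (v 3) ≠ 0) :
    (T.a (v 0) (v 2) = 0 ∧ T.a (v 0) (v 3) = 0 ∧ T.a (v 1) (v 3) = 0) ∧
    ∃ (u : Fin 4 → Fin n) (w : ℤ), ((∀ j, u j = v j) ∨ (∀ j, u j = v (Fin.rev j))) ∧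
      ((T.w (u 0) = w ∧ T.w (u 1) = w ∧ T.w (u 2) = w ∧ T.w (u 3) = w ∧ T.a (u 0) (u 1) = w ∧ T.a (u 1) (u 2) = w ∧ T.a (u 2) (u 3) = w ∧ T.m (u 1) ≤ 2 * T.m (u 0) ∧ T.m (u 0) + T.m (u 2) ≤ 2 * T.m (u 1) ∧ T.m (u 1) + T.m (u 3) ≤ 2 * T.m (u 2) ∧ T.m (u 2) ≤ 2 * T.m (u 3)) ∨
      (T.w (u 0) = w ∧ T.w (u 1) = w ∧ T.w (u 2) = w ∧ T.w (u 3) = 2 * w ∧ T.a (u 0) (u 1) = w ∧ T.a (u 1) (u 2) = w ∧ T.a (u 2) (u 3) = 2 * w ∧ T.m (u 1) ≤ 2 * T.m (u 0) ∧ T.m (u 0) + T.m (u 2) ≤ 2 * T.m (u 1) ∧ T.m (u 1) + 2 * T.m (u 3) ≤ 2 * T.m (u 2) ∧ T.m (u 2) ≤ 2 * T.m (u 3)) ∨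
      (T.w (u 0) = 2 * w ∧ T.w (u 1) = 2 * w ∧ T.w (u 2) = 2 * w ∧ T.w (u 3) = w ∧ T.a (u 0) (u 1) = 2 * w ∧ T.a (u 1) (u 2) = 2 * w ∧ T.a (u 2) (u 3) = 2 * w ∧ T.m (u 1) ≤ 2 * T.m (u 0) ∧ T.m (u 0) + T.m (u 2) ≤ 2 * T.m (u 1) ∧ T.m (u 1) + T.m (u 3) ≤ 2 * T.m (u 2) ∧ T.m (u 2) ≤ T.m (u 3)) ∨
      (T.w (u 0) = w ∧ T.w (u 1) = w ∧ T.w (u 2) = 2 * w ∧ T.w (u 3) = 2 * w ∧ T.a (u 0) (u 1) = w ∧ T.a (u 1) (u 2) = 2 * w ∧ T.a (u 2) (u 3) = 2 * w ∧ T.m (u 1) ≤ 2 * T.m (u 0) ∧ T.m (u 0) + 2 * T.m (u 2) ≤ 2 * T.m (u 1) ∧ T.m (u 1) + T.m (u 3) ≤ 2 * T.m (u 2) ∧ T.m (u 2) ≤ 2 * T.m (u 3))) := by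
  classical
  have hd : ∀ p, T.a (v p) (v p) = -2 * T.w (v p) := fun p => (hv p).2
  have hs : ∀ p q, T.a (v q) (v p) = T.a (v p) (v q) := fun p q => T.symm.apply _ _
  have ho : ∀ p q, p ≠ q → 0 ≤ T.a (v p) (v q) := fun p q h =>
    T.offDiag_nonneg _ _ (v.injective.ne h)
  have hw1 : ∀ p q, 0 < T.a (v p) (v q) → T.w (v p) ≤ T.a (v p) (v q) := fun p q h =>
    Int.le_of_dvd h (T.w_dvd _ _)
  have hw2 : ∀ p q, 0 < T.a (v p) (v q) → T.w (v q) ≤ T.a (v p) (v q) := fun p q h => by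
    rw [← hs]; exact Int.le_of_dvd (by rw [hs]; exact h) (T.w_dvd _ _)
  have hwp : ∀ p, 0 < T.w (v p) := fun p => T.w_pos _
  have := hd 0
  have := hwp 0
  have := hd 1
  have := hwp 1
  have := hd 2
  have := hwp 2
  have := hd 3
  have := hwp 3
  have := hs 0 1
  have := ho 0 1 (by decide)
  have := hs 0 2
  have := ho 0 2 (by decide)
  have := hs 0 3
  have := ho 0 3 (by decide)
  have := hs 1 2
  have := ho 1 2 (by decide)
  have := hs 1 3
  have := ho 1 3 (by decide)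
  have := hs 2 3
  have := ho 2 3 (by decide)
  have e0 : 0 < T.a (v 0) (v 1) := lt_of_le_of_ne (ho 0 1 (by decide)) (Ne.symm h01)
  have := hw1 0 1 e0
  have := hw2 0 1 e0
  have e1 : 0 < T.a (v 1) (v 2) := lt_of_le_of_ne (ho 1 2 (by decide)) (Ne.symm h12)
  have := hw1 1 2 e1
  have := hw2 1 2 e1
  have e2 : 0 < T.a (v 2) (v 3) := lt_of_le_of_ne (ho 2 3 (by decide)) (Ne.symm h23)
  have := hw1 2 3 e2
  have := hw2 2 3 e2
  have hz0_2 : T.a (v 0) (v 2) = 0 := by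
    by_contra hne
    have hpos : 0 < T.a (v 0) (v 2) := lt_of_le_of_ne (ho 0 2 (by decide)) (Ne.symm hne)
    have := hw1 0 2 hpos
    have := hw2 0 2 hpos
    have tv1 := Groth.Agent.helper11.quad_test T v hn (![1, 1, 1, 0] : Fin 4 → ℤ) 0 (by decide)
    have htv1_0 : (![1, 1, 1, 0] : Fin 4 → ℤ) 0 = 1 := rfl
    have htv1_1 : (![1, 1, 1, 0] : Fin 4 → ℤ) 1 = 1 := rfl
    have htv1_2 : (![1, 1, 1, 0] : Fin 4 → ℤ) 2 = 1 := rfl
    have htv1_3 : (![1, 1, 1, 0] : Fin 4 → ℤ) 3 = 0 := rfl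
    simp only [Fin.sum_univ_four] at tv1
    simp only [htv1_0, htv1_1, htv1_2, htv1_3] at tv1
    norm_num at tv1
    linarith
  have hz0_3 : T.a (v 0) (v 3) = 0 := by
    by_contra hne
    have hpos : 0 < T.a (v 0) (v 3) := lt_of_le_of_ne (ho 0 3 (by decide)) (Ne.symm hne)
    have := hw1 0 3 hpos
    have := hw2 0 3 hpos
    have tv2 := Groth.Agent.helper11.quad_test T v hn (![1, 1, 1, 1] : Fin 4 → ℤ) 0 (by decide)
    have htv2_0 : (![1, 1, 1, 1] : Fin 4 → ℤ) 0 = 1 := rfl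
    have htv2_1 : (![1, 1, 1, 1] : Fin 4 → ℤ) 1 = 1 := rfl
    have htv2_2 : (![1, 1, 1, 1] : Fin 4 → ℤ) 2 = 1 := rfl
    have htv2_3 : (![1, 1, 1, 1] : Fin 4 → ℤ) 3 = 1 := rfl
    simp only [Fin.sum_univ_four] at tv2
    simp only [htv2_0, htv2_1, htv2_2, htv2_3] at tv2
    norm_num at tv2
    linarith
  have hz1_3 : T.a (v 1) (v 3) = 0 := by
    by_contra hne
    have hpos : 0 < T.a (v 1) (v 3) := lt_of_le_of_ne (ho 1 3 (by decide)) (Ne.symm hne)
    have := hw1 1 3 hpos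
    have := hw2 1 3 hpos
    have tv3 := Groth.Agent.helper11.quad_test T v hn (![0, 1, 1, 1] : Fin 4 → ℤ) 1 (by decide)
    have htv3_0 : (![0, 1, 1, 1] : Fin 4 → ℤ) 0 = 0 := rfl
    have htv3_1 : (![0, 1, 1, 1] : Fin 4 → ℤ) 1 = 1 := rfl
    have htv3_2 : (![0, 1, 1, 1] : Fin 4 → ℤ) 2 = 1 := rfl
    have htv3_3 : (![0, 1, 1, 1] : Fin 4 → ℤ) 3 = 1 := rfl
    simp only [Fin.sum_univ_four] at tv3
    simp only [htv3_0, htv3_1, htv3_2, htv3_3] at tv3
    norm_num at tv3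
    linarith
  have := hz0_2
  have := hz0_3
  have := hz1_3
  have E0 := Groth.Agent.helper11.edge_cases (hwp 0) (hwp 1) (T.w_dvd _ _) (by rw [← hs]; exact T.w_dvd _ _) (hw1 0 1 e0) (hw2 0 1 e0) (by
    have tv4 := Groth.Agent.helper11.quad_test T v hn (![1, 1, 0, 0] : Fin 4 → ℤ) 0 (by decide)
    have htv4_0 : (![1, 1, 0, 0] : Fin 4 → ℤ) 0 = 1 := rfl
    have htv4_1 : (![1, 1, 0, 0] : Fin 4 → ℤ) 1 = 1 := rfl
    have htv4_2 : (![1, 1, 0, 0] : Fin 4 → ℤ) 2 = 0 := rfl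
    have htv4_3 : (![1, 1, 0, 0] : Fin 4 → ℤ) 3 = 0 := rfl
    simp only [Fin.sum_univ_four] at tv4
    simp only [htv4_0, htv4_1, htv4_2, htv4_3] at tv4
    norm_num at tv4
    linarith)
  have E1 := Groth.Agent.helper11.edge_cases (hwp 1) (hwp 2) (T.w_dvd _ _) (by rw [← hs]; exact T.w_dvd _ _) (hw1 1 2 e1) (hw2 1 2 e1) (by
    have tv5 := Groth.Agent.helper11.quad_test T v hn (![0, 1, 1, 0] : Fin 4 → ℤ) 1 (by decide)
    have htv5_0 : (![0, 1, 1, 0] : Fin 4 → ℤ) 0 = 0 := rfl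
    have htv5_1 : (![0, 1, 1, 0] : Fin 4 → ℤ) 1 = 1 := rfl
    have htv5_2 : (![0, 1, 1, 0] : Fin 4 → ℤ) 2 = 1 := rfl
    have htv5_3 : (![0, 1, 1, 0] : Fin 4 → ℤ) 3 = 0 := rfl
    simp only [Fin.sum_univ_four] at tv5
    simp only [htv5_0, htv5_1, htv5_2, htv5_3] at tv5
    norm_num at tv5
    linarith)
  have E2 := Groth.Agent.helper11.edge_cases (hwp 2) (hwp 3) (T.w_dvd _ _) (by rw [← hs]; exact T.w_dvd _ _) (hw1 2 3 e2) (hw2 2 3 e2) (by
    have tv6 := Groth.Agent.helper11.quad_test T v hn (![0, 0, 1, 1] : Fin 4 → ℤ) 2 (by decide)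
    have htv6_0 : (![0, 0, 1, 1] : Fin 4 → ℤ) 0 = 0 := rfl
    have htv6_1 : (![0, 0, 1, 1] : Fin 4 → ℤ) 1 = 0 := rfl
    have htv6_2 : (![0, 0, 1, 1] : Fin 4 → ℤ) 2 = 1 := rfl
    have htv6_3 : (![0, 0, 1, 1] : Fin 4 → ℤ) 3 = 1 := rfl
    simp only [Fin.sum_univ_four] at tv6
    simp only [htv6_0, htv6_1, htv6_2, htv6_3] at tv6
    norm_num at tv6
    linarith)
  refine ⟨⟨hz0_2, hz0_3, hz1_3⟩, ?_⟩
  rcases E0 with ⟨x0, y0⟩ | ⟨x0, y0, z0, d0⟩ | ⟨x0, y0, z0, d0⟩ <;>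
    rcases E1 with ⟨x1, y1⟩ | ⟨x1, y1, z1, d1⟩ | ⟨x1, y1, z1, d1⟩ <;>
    rcases E2 with ⟨x2, y2⟩ | ⟨x2, y2, z2, d2⟩ | ⟨x2, y2, z2, d2⟩
  · -- EEE
    have A0_0 : T.a (v 0) (v 0) = -2 * T.w (v 0) := by linarith
    have A0_1 : T.a (v 0) (v 1) = T.w (v 0) := by linarith
    have A0_2 : T.a (v 0) (v 2) = 0 := by linarith
    have A0_3 : T.a (v 0) (v 3) = 0 := by linarith
    have A1_0 : T.a (v 1) (v 0) = T.w (v 0) := by linarith
    have A1_1 : T.a (v 1) (v 1) = -2 * T.w (v 0) := by linarith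
    have A1_2 : T.a (v 1) (v 2) = T.w (v 0) := by linarith
    have A1_3 : T.a (v 1) (v 3) = 0 := by linarith
    have A2_0 : T.a (v 2) (v 0) = 0 := by linarith
    have A2_1 : T.a (v 2) (v 1) = T.w (v 0) := by linarith
    have A2_2 : T.a (v 2) (v 2) = -2 * T.w (v 0) := by linarith
    have A2_3 : T.a (v 2) (v 3) = T.w (v 0) := by linarith
    have A3_0 : T.a (v 3) (v 0) = 0 := by linarith
    have A3_1 : T.a (v 3) (v 1) = 0 := by linarith
    have A3_2 : T.a (v 3) (v 2) = T.w (v 0) := by linarith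
    have A3_3 : T.a (v 3) (v 3) = -2 * T.w (v 0) := by linarith
    have W0 : T.w (v 0) = T.w (v 0) := by linarith
    have W1 : T.w (v 1) = T.w (v 0) := by linarith
    have W2 : T.w (v 2) = T.w (v 0) := by linarith
    have W3 : T.w (v 3) = T.w (v 0) := by linarith
    have hw0 := hwp 0
    have r0 := Groth.Agent.helper11.row_sum_le T v 0
    simp only [Fin.sum_univ_four] at r0
    simp only [A0_0, A0_1, A0_2, A0_3] at r0
    have mi0 : T.m (v 1) ≤ 2 * T.m (v 0) := by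
      by_contra hc; push Not at hc
      have := mul_pos hw0 (show 0 < T.m (v 1) - 2 * T.m (v 0) by linarith)
      linarith only [r0, this]
    have r1 := Groth.Agent.helper11.row_sum_le T v 1
    simp only [Fin.sum_univ_four] at r1
    simp only [A1_0, A1_1, A1_2, A1_3] at r1
    have mi1 : T.m (v 0) + T.m (v 2) ≤ 2 * T.m (v 1) := by
      by_contra hc; push Not at hc
      have := mul_pos hw0 (show 0 < T.m (v 0) + T.m (v 2) - 2 * T.m (v 1) by linarith)
      linarith only [r1, this]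
    have r2 := Groth.Agent.helper11.row_sum_le T v 2
    simp only [Fin.sum_univ_four] at r2
    simp only [A2_0, A2_1, A2_2, A2_3] at r2
    have mi2 : T.m (v 1) + T.m (v 3) ≤ 2 * T.m (v 2) := by
      by_contra hc; push Not at hc
      have := mul_pos hw0 (show 0 < T.m (v 1) + T.m (v 3) - 2 * T.m (v 2) by linarith)
      linarith only [r2, this]
    have r3 := Groth.Agent.helper11.row_sum_le T v 3
    simp only [Fin.sum_univ_four] at r3
    simp only [A3_0, A3_1, A3_2, A3_3] at r3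
    have mi3 : T.m (v 2) ≤ 2 * T.m (v 3) := by
      by_contra hc; push Not at hc
      have := mul_pos hw0 (show 0 < T.m (v 2) - 2 * T.m (v 3) by linarith)
      linarith only [r3, this]
    exact ⟨fun j => v j, T.w (v 0), Or.inl (fun j => rfl), Or.inl ⟨(show T.w (v 0) = T.w (v 0) by linarith), (show T.w (v 1) = T.w (v 0) by linarith), (show T.w (v 2) = T.w (v 0) by linarith), (show T.w (v 3) = T.w (v 0) by linarith), (show T.a (v 0) (v 1) = T.w (v 0) by linarith), (show T.a (v 1) (v 2) = T.w (v 0) by linarith), (show T.a (v 2) (v 3) = T.w (v 0) by linarith), mi0, mi1, mi2, mi3⟩⟩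
  · -- EEL
    have hlt2 : T.w (v 3) < 3 * T.w (v 2) := by
      by_contra hc; push Not at hc
      have tv7 := Groth.Agent.helper11.quad_test T v hn (![0, 1, 2, 1] : Fin 4 → ℤ) 1 (by decide)
      have htv7_0 : (![0, 1, 2, 1] : Fin 4 → ℤ) 0 = 0 := rfl
      have htv7_1 : (![0, 1, 2, 1] : Fin 4 → ℤ) 1 = 1 := rfl
      have htv7_2 : (![0, 1, 2, 1] : Fin 4 → ℤ) 2 = 2 := rfl
      have htv7_3 : (![0, 1, 2, 1] : Fin 4 → ℤ) 3 = 1 := rfl
      simp only [Fin.sum_univ_four] at tv7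
      simp only [htv7_0, htv7_1, htv7_2, htv7_3] at tv7
      norm_num at tv7
      linarith
    have hr2 : T.w (v 3) = 2 * T.w (v 2) := Groth.Agent.helper11.eq_two_mul_of_dvd (hwp 2) d2 z2 hlt2
    have A0_0 : T.a (v 0) (v 0) = -2 * T.w (v 0) := by linarith
    have A0_1 : T.a (v 0) (v 1) = T.w (v 0) := by linarith
    have A0_2 : T.a (v 0) (v 2) = 0 := by linarith
    have A0_3 : T.a (v 0) (v 3) = 0 := by linarith
    have A1_0 : T.a (v 1) (v 0) = T.w (v 0) := by linarith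
    have A1_1 : T.a (v 1) (v 1) = -2 * T.w (v 0) := by linarith
    have A1_2 : T.a (v 1) (v 2) = T.w (v 0) := by linarith
    have A1_3 : T.a (v 1) (v 3) = 0 := by linarith
    have A2_0 : T.a (v 2) (v 0) = 0 := by linarith
    have A2_1 : T.a (v 2) (v 1) = T.w (v 0) := by linarith
    have A2_2 : T.a (v 2) (v 2) = -2 * T.w (v 0) := by linarith
    have A2_3 : T.a (v 2) (v 3) = 2 * T.w (v 0) := by linarith
    have A3_0 : T.a (v 3) (v 0) = 0 := by linarith
    have A3_1 : T.a (v 3) (v 1) = 0 := by linarith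
    have A3_2 : T.a (v 3) (v 2) = 2 * T.w (v 0) := by linarith
    have A3_3 : T.a (v 3) (v 3) = -2 * 2 * T.w (v 0) := by linarith
    have W0 : T.w (v 0) = T.w (v 0) := by linarith
    have W1 : T.w (v 1) = T.w (v 0) := by linarith
    have W2 : T.w (v 2) = T.w (v 0) := by linarith
    have W3 : T.w (v 3) = 2 * T.w (v 0) := by linarith
    have hw0 := hwp 0
    have r0 := Groth.Agent.helper11.row_sum_le T v 0
    simp only [Fin.sum_univ_four] at r0
    simp only [A0_0, A0_1, A0_2, A0_3] at r0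
    have mi0 : T.m (v 1) ≤ 2 * T.m (v 0) := by
      by_contra hc; push Not at hc
      have := mul_pos hw0 (show 0 < T.m (v 1) - 2 * T.m (v 0) by linarith)
      linarith only [r0, this]
    have r1 := Groth.Agent.helper11.row_sum_le T v 1
    simp only [Fin.sum_univ_four] at r1
    simp only [A1_0, A1_1, A1_2, A1_3] at r1
    have mi1 : T.m (v 0) + T.m (v 2) ≤ 2 * T.m (v 1) := by
      by_contra hc; push Not at hc
      have := mul_pos hw0 (show 0 < T.m (v 0) + T.m (v 2) - 2 * T.m (v 1) by linarith)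
      linarith only [r1, this]
    have r2 := Groth.Agent.helper11.row_sum_le T v 2
    simp only [Fin.sum_univ_four] at r2
    simp only [A2_0, A2_1, A2_2, A2_3] at r2
    have mi2 : T.m (v 1) + 2 * T.m (v 3) ≤ 2 * T.m (v 2) := by
      by_contra hc; push Not at hc
      have := mul_pos hw0 (show 0 < T.m (v 1) + 2 * T.m (v 3) - 2 * T.m (v 2) by linarith)
      linarith only [r2, this]
    have r3 := Groth.Agent.helper11.row_sum_le T v 3
    simp only [Fin.sum_univ_four] at r3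
    simp only [A3_0, A3_1, A3_2, A3_3] at r3
    have mi3 : T.m (v 2) ≤ 2 * T.m (v 3) := by
      by_contra hc; push Not at hc
      have := mul_pos hw0 (show 0 < T.m (v 2) - 2 * T.m (v 3) by linarith)
      linarith only [r3, this]
    exact ⟨fun j => v j, T.w (v 0), Or.inl (fun j => rfl), Or.inr (Or.inl ⟨(show T.w (v 0) = T.w (v 0) by linarith), (show T.w (v 1) = T.w (v 0) by linarith), (show T.w (v 2) = T.w (v 0) by linarith), (show T.w (v 3) = 2 * T.w (v 0) by linarith), (show T.a (v 0) (v 1) = T.w (v 0) by linarith), (show T.a (v 1) (v 2) = T.w (v 0) by linarith), (show T.a (v 2) (v 3) = 2 * T.w (v 0) by linarith), mi0, mi1, mi2, mi3⟩)⟩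
  · -- EEG
    have hlt2 : T.w (v 2) < 3 * T.w (v 3) := by
      by_contra hc; push Not at hc
      have tv8 := Groth.Agent.helper11.quad_test T v hn (![0, 1, 2, 3] : Fin 4 → ℤ) 1 (by decide)
      have htv8_0 : (![0, 1, 2, 3] : Fin 4 → ℤ) 0 = 0 := rfl
      have htv8_1 : (![0, 1, 2, 3] : Fin 4 → ℤ) 1 = 1 := rfl
      have htv8_2 : (![0, 1, 2, 3] : Fin 4 → ℤ) 2 = 2 := rfl
      have htv8_3 : (![0, 1, 2, 3] : Fin 4 → ℤ) 3 = 3 := rfl
      simp only [Fin.sum_univ_four] at tv8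
      simp only [htv8_0, htv8_1, htv8_2, htv8_3] at tv8
      norm_num at tv8
      linarith
    have hr2 : T.w (v 2) = 2 * T.w (v 3) := Groth.Agent.helper11.eq_two_mul_of_dvd (hwp 3) d2 z2 hlt2
    have A0_0 : T.a (v 0) (v 0) = -2 * 2 * T.w (v 3) := by linarith
    have A0_1 : T.a (v 0) (v 1) = 2 * T.w (v 3) := by linarith
    have A0_2 : T.a (v 0) (v 2) = 0 := by linarith
    have A0_3 : T.a (v 0) (v 3) = 0 := by linarith
    have A1_0 : T.a (v 1) (v 0) = 2 * T.w (v 3) := by linarith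
    have A1_1 : T.a (v 1) (v 1) = -2 * 2 * T.w (v 3) := by linarith
    have A1_2 : T.a (v 1) (v 2) = 2 * T.w (v 3) := by linarith
    have A1_3 : T.a (v 1) (v 3) = 0 := by linarith
    have A2_0 : T.a (v 2) (v 0) = 0 := by linarith
    have A2_1 : T.a (v 2) (v 1) = 2 * T.w (v 3) := by linarith
    have A2_2 : T.a (v 2) (v 2) = -2 * 2 * T.w (v 3) := by linarith
    have A2_3 : T.a (v 2) (v 3) = 2 * T.w (v 3) := by linarith
    have A3_0 : T.a (v 3) (v 0) = 0 := by linarith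
    have A3_1 : T.a (v 3) (v 1) = 0 := by linarith
    have A3_2 : T.a (v 3) (v 2) = 2 * T.w (v 3) := by linarith
    have A3_3 : T.a (v 3) (v 3) = -2 * T.w (v 3) := by linarith
    have W0 : T.w (v 0) = 2 * T.w (v 3) := by linarith
    have W1 : T.w (v 1) = 2 * T.w (v 3) := by linarith
    have W2 : T.w (v 2) = 2 * T.w (v 3) := by linarith
    have W3 : T.w (v 3) = T.w (v 3) := by linarith
    have hw0 := hwp 3
    have r0 := Groth.Agent.helper11.row_sum_le T v 0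
    simp only [Fin.sum_univ_four] at r0
    simp only [A0_0, A0_1, A0_2, A0_3] at r0
    have mi0 : T.m (v 1) ≤ 2 * T.m (v 0) := by
      by_contra hc; push Not at hc
      have := mul_pos hw0 (show 0 < T.m (v 1) - 2 * T.m (v 0) by linarith)
      linarith only [r0, this]
    have r1 := Groth.Agent.helper11.row_sum_le T v 1
    simp only [Fin.sum_univ_four] at r1
    simp only [A1_0, A1_1, A1_2, A1_3] at r1
    have mi1 : T.m (v 0) + T.m (v 2) ≤ 2 * T.m (v 1) := by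
      by_contra hc; push Not at hc
      have := mul_pos hw0 (show 0 < T.m (v 0) + T.m (v 2) - 2 * T.m (v 1) by linarith)
      linarith only [r1, this]
    have r2 := Groth.Agent.helper11.row_sum_le T v 2
    simp only [Fin.sum_univ_four] at r2
    simp only [A2_0, A2_1, A2_2, A2_3] at r2
    have mi2 : T.m (v 1) + T.m (v 3) ≤ 2 * T.m (v 2) := by
      by_contra hc; push Not at hc
      have := mul_pos hw0 (show 0 < T.m (v 1) + T.m (v 3) - 2 * T.m (v 2) by linarith)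
      linarith only [r2, this]
    have r3 := Groth.Agent.helper11.row_sum_le T v 3
    simp only [Fin.sum_univ_four] at r3
    simp only [A3_0, A3_1, A3_2, A3_3] at r3
    have mi3 : T.m (v 2) ≤ T.m (v 3) := by
      by_contra hc; push Not at hc
      have := mul_pos hw0 (show 0 < T.m (v 2) - T.m (v 3) by linarith)
      linarith only [r3, this]
    exact ⟨fun j => v j, T.w (v 3), Or.inl (fun j => rfl), Or.inr (Or.inr (Or.inl ⟨(show T.w (v 0) = 2 * T.w (v 3) by linarith), (show T.w (v 1) = 2 * T.w (v 3) by linarith), (show T.w (v 2) = 2 * T.w (v 3) by linarith), (show T.w (v 3) = T.w (v 3) by linarith), (show T.a (v 0) (v 1) = 2 * T.w (v 3) by linarith), (show T.a (v 1) (v 2) = 2 * T.w (v 3) by linarith), (show T.a (v 2) (v 3) = 2 * T.w (v 3) by linarith), mi0, mi1, mi2, mi3⟩))⟩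
  · -- ELE
    have hlt1 : T.w (v 2) < 3 * T.w (v 1) := by
      by_contra hc; push Not at hc
      have tv9 := Groth.Agent.helper11.quad_test T v hn (![1, 2, 1, 0] : Fin 4 → ℤ) 0 (by decide)
      have htv9_0 : (![1, 2, 1, 0] : Fin 4 → ℤ) 0 = 1 := rfl
      have htv9_1 : (![1, 2, 1, 0] : Fin 4 → ℤ) 1 = 2 := rfl
      have htv9_2 : (![1, 2, 1, 0] : Fin 4 → ℤ) 2 = 1 := rfl
      have htv9_3 : (![1, 2, 1, 0] : Fin 4 → ℤ) 3 = 0 := rfl
      simp only [Fin.sum_univ_four] at tv9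
      simp only [htv9_0, htv9_1, htv9_2, htv9_3] at tv9
      norm_num at tv9
      linarith
    have hr1 : T.w (v 2) = 2 * T.w (v 1) := Groth.Agent.helper11.eq_two_mul_of_dvd (hwp 1) d1 z1 hlt1
    have A0_0 : T.a (v 0) (v 0) = -2 * T.w (v 0) := by linarith
    have A0_1 : T.a (v 0) (v 1) = T.w (v 0) := by linarith
    have A0_2 : T.a (v 0) (v 2) = 0 := by linarith
    have A0_3 : T.a (v 0) (v 3) = 0 := by linarith
    have A1_0 : T.a (v 1) (v 0) = T.w (v 0) := by linarith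
    have A1_1 : T.a (v 1) (v 1) = -2 * T.w (v 0) := by linarith
    have A1_2 : T.a (v 1) (v 2) = 2 * T.w (v 0) := by linarith
    have A1_3 : T.a (v 1) (v 3) = 0 := by linarith
    have A2_0 : T.a (v 2) (v 0) = 0 := by linarith
    have A2_1 : T.a (v 2) (v 1) = 2 * T.w (v 0) := by linarith
    have A2_2 : T.a (v 2) (v 2) = -2 * 2 * T.w (v 0) := by linarith
    have A2_3 : T.a (v 2) (v 3) = 2 * T.w (v 0) := by linarith
    have A3_0 : T.a (v 3) (v 0) = 0 := by linarith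
    have A3_1 : T.a (v 3) (v 1) = 0 := by linarith
    have A3_2 : T.a (v 3) (v 2) = 2 * T.w (v 0) := by linarith
    have A3_3 : T.a (v 3) (v 3) = -2 * 2 * T.w (v 0) := by linarith
    have W0 : T.w (v 0) = T.w (v 0) := by linarith
    have W1 : T.w (v 1) = T.w (v 0) := by linarith
    have W2 : T.w (v 2) = 2 * T.w (v 0) := by linarith
    have W3 : T.w (v 3) = 2 * T.w (v 0) := by linarith
    have hw0 := hwp 0
    have r0 := Groth.Agent.helper11.row_sum_le T v 0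
    simp only [Fin.sum_univ_four] at r0
    simp only [A0_0, A0_1, A0_2, A0_3] at r0
    have mi0 : T.m (v 1) ≤ 2 * T.m (v 0) := by
      by_contra hc; push Not at hc
      have := mul_pos hw0 (show 0 < T.m (v 1) - 2 * T.m (v 0) by linarith)
      linarith only [r0, this]
    have r1 := Groth.Agent.helper11.row_sum_le T v 1
    simp only [Fin.sum_univ_four] at r1
    simp only [A1_0, A1_1, A1_2, A1_3] at r1
    have mi1 : T.m (v 0) + 2 * T.m (v 2) ≤ 2 * T.m (v 1) := by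
      by_contra hc; push Not at hc
      have := mul_pos hw0 (show 0 < T.m (v 0) + 2 * T.m (v 2) - 2 * T.m (v 1) by linarith)
      linarith only [r1, this]
    have r2 := Groth.Agent.helper11.row_sum_le T v 2
    simp only [Fin.sum_univ_four] at r2
    simp only [A2_0, A2_1, A2_2, A2_3] at r2
    have mi2 : T.m (v 1) + T.m (v 3) ≤ 2 * T.m (v 2) := by
      by_contra hc; push Not at hc
      have := mul_pos hw0 (show 0 < T.m (v 1) + T.m (v 3) - 2 * T.m (v 2) by linarith)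
      linarith only [r2, this]
    have r3 := Groth.Agent.helper11.row_sum_le T v 3
    simp only [Fin.sum_univ_four] at r3
    simp only [A3_0, A3_1, A3_2, A3_3] at r3
    have mi3 : T.m (v 2) ≤ 2 * T.m (v 3) := by
      by_contra hc; push Not at hc
      have := mul_pos hw0 (show 0 < T.m (v 2) - 2 * T.m (v 3) by linarith)
      linarith only [r3, this]
    exact ⟨fun j => v j, T.w (v 0), Or.inl (fun j => rfl), Or.inr (Or.inr (Or.inr (⟨(show T.w (v 0) = T.w (v 0) by linarith), (show T.w (v 1) = T.w (v 0) by linarith), (show T.w (v 2) = 2 * T.w (v 0) by linarith), (show T.w (v 3) = 2 * T.w (v 0) by linarith), (show T.a (v 0) (v 1) = T.w (v 0) by linarith), (show T.a (v 1) (v 2) = 2 * T.w (v 0) by linarith), (show T.a (v 2) (v 3) = 2 * T.w (v 0) by linarith), mi0, mi1, mi2, mi3⟩)))⟩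
  · -- ELL
    exfalso
    have tv10 := Groth.Agent.helper11.quad_test T v hn (![0, 2, 2, 1] : Fin 4 → ℤ) 1 (by decide)
    have htv10_0 : (![0, 2, 2, 1] : Fin 4 → ℤ) 0 = 0 := rfl
    have htv10_1 : (![0, 2, 2, 1] : Fin 4 → ℤ) 1 = 2 := rfl
    have htv10_2 : (![0, 2, 2, 1] : Fin 4 → ℤ) 2 = 2 := rfl
    have htv10_3 : (![0, 2, 2, 1] : Fin 4 → ℤ) 3 = 1 := rfl
    simp only [Fin.sum_univ_four] at tv10
    simp only [htv10_0, htv10_1, htv10_2, htv10_3] at tv10
    norm_num at tv10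
    linarith
  · -- ELG
    exfalso
    have tv11 := Groth.Agent.helper11.quad_test T v hn (![0, 1, 1, 1] : Fin 4 → ℤ) 1 (by decide)
    have htv11_0 : (![0, 1, 1, 1] : Fin 4 → ℤ) 0 = 0 := rfl
    have htv11_1 : (![0, 1, 1, 1] : Fin 4 → ℤ) 1 = 1 := rfl
    have htv11_2 : (![0, 1, 1, 1] : Fin 4 → ℤ) 2 = 1 := rfl
    have htv11_3 : (![0, 1, 1, 1] : Fin 4 → ℤ) 3 = 1 := rfl
    simp only [Fin.sum_univ_four] at tv11
    simp only [htv11_0, htv11_1, htv11_2, htv11_3] at tv11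
    norm_num at tv11
    linarith
  · -- EGE
    have hlt1 : T.w (v 1) < 3 * T.w (v 2) := by
      by_contra hc; push Not at hc
      have tv12 := Groth.Agent.helper11.quad_test T v hn (![0, 1, 2, 1] : Fin 4 → ℤ) 1 (by decide)
      have htv12_0 : (![0, 1, 2, 1] : Fin 4 → ℤ) 0 = 0 := rfl
      have htv12_1 : (![0, 1, 2, 1] : Fin 4 → ℤ) 1 = 1 := rfl
      have htv12_2 : (![0, 1, 2, 1] : Fin 4 → ℤ) 2 = 2 := rfl
      have htv12_3 : (![0, 1, 2, 1] : Fin 4 → ℤ) 3 = 1 := rfl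
      simp only [Fin.sum_univ_four] at tv12
      simp only [htv12_0, htv12_1, htv12_2, htv12_3] at tv12
      norm_num at tv12
      linarith
    have hr1 : T.w (v 1) = 2 * T.w (v 2) := Groth.Agent.helper11.eq_two_mul_of_dvd (hwp 2) d1 z1 hlt1
    have A0_0 : T.a (v 0) (v 0) = -2 * 2 * T.w (v 3) := by linarith
    have A0_1 : T.a (v 0) (v 1) = 2 * T.w (v 3) := by linarith
    have A0_2 : T.a (v 0) (v 2) = 0 := by linarith
    have A0_3 : T.a (v 0) (v 3) = 0 := by linarith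
    have A1_0 : T.a (v 1) (v 0) = 2 * T.w (v 3) := by linarith
    have A1_1 : T.a (v 1) (v 1) = -2 * 2 * T.w (v 3) := by linarith
    have A1_2 : T.a (v 1) (v 2) = 2 * T.w (v 3) := by linarith
    have A1_3 : T.a (v 1) (v 3) = 0 := by linarith
    have A2_0 : T.a (v 2) (v 0) = 0 := by linarith
    have A2_1 : T.a (v 2) (v 1) = 2 * T.w (v 3) := by linarith
    have A2_2 : T.a (v 2) (v 2) = -2 * T.w (v 3) := by linarith
    have A2_3 : T.a (v 2) (v 3) = T.w (v 3) := by linarith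
    have A3_0 : T.a (v 3) (v 0) = 0 := by linarith
    have A3_1 : T.a (v 3) (v 1) = 0 := by linarith
    have A3_2 : T.a (v 3) (v 2) = T.w (v 3) := by linarith
    have A3_3 : T.a (v 3) (v 3) = -2 * T.w (v 3) := by linarith
    have W0 : T.w (v 0) = 2 * T.w (v 3) := by linarith
    have W1 : T.w (v 1) = 2 * T.w (v 3) := by linarith
    have W2 : T.w (v 2) = T.w (v 3) := by linarith
    have W3 : T.w (v 3) = T.w (v 3) := by linarith
    have hw0 := hwp 3
    have r0 := Groth.Agent.helper11.row_sum_le T v 3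
    simp only [Fin.sum_univ_four] at r0
    simp only [A3_0, A3_1, A3_2, A3_3] at r0
    have mi0 : T.m (v 2) ≤ 2 * T.m (v 3) := by
      by_contra hc; push Not at hc
      have := mul_pos hw0 (show 0 < T.m (v 2) - 2 * T.m (v 3) by linarith)
      linarith only [r0, this]
    have r1 := Groth.Agent.helper11.row_sum_le T v 2
    simp only [Fin.sum_univ_four] at r1
    simp only [A2_0, A2_1, A2_2, A2_3] at r1
    have mi1 : T.m (v 3) + 2 * T.m (v 1) ≤ 2 * T.m (v 2) := by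
      by_contra hc; push Not at hc
      have := mul_pos hw0 (show 0 < T.m (v 3) + 2 * T.m (v 1) - 2 * T.m (v 2) by linarith)
      linarith only [r1, this]
    have r2 := Groth.Agent.helper11.row_sum_le T v 1
    simp only [Fin.sum_univ_four] at r2
    simp only [A1_0, A1_1, A1_2, A1_3] at r2
    have mi2 : T.m (v 2) + T.m (v 0) ≤ 2 * T.m (v 1) := by
      by_contra hc; push Not at hc
      have := mul_pos hw0 (show 0 < T.m (v 2) + T.m (v 0) - 2 * T.m (v 1) by linarith)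
      linarith only [r2, this]
    have r3 := Groth.Agent.helper11.row_sum_le T v 0
    simp only [Fin.sum_univ_four] at r3
    simp only [A0_0, A0_1, A0_2, A0_3] at r3
    have mi3 : T.m (v 1) ≤ 2 * T.m (v 0) := by
      by_contra hc; push Not at hc
      have := mul_pos hw0 (show 0 < T.m (v 1) - 2 * T.m (v 0) by linarith)
      linarith only [r3, this]
    exact ⟨fun j => v (Fin.rev j), T.w (v 3), Or.inr (fun j => rfl), Or.inr (Or.inr (Or.inr (⟨(show T.w (v 3) = T.w (v 3) by linarith), (show T.w (v 2) = T.w (v 3) by linarith), (show T.w (v 1) = 2 * T.w (v 3) by linarith), (show T.w (v 0) = 2 * T.w (v 3) by linarith), (show T.a (v 3) (v 2) = T.w (v 3) by linarith), (show T.a (v 2) (v 1) = 2 * T.w (v 3) by linarith), (show T.a (v 1) (v 0) = 2 * T.w (v 3) by linarith), mi0, mi1, mi2, mi3⟩)))⟩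
  · -- EGL
    exfalso
    have tv13 := Groth.Agent.helper11.quad_test T v hn (![0, 1, 2, 1] : Fin 4 → ℤ) 1 (by decide)
    have htv13_0 : (![0, 1, 2, 1] : Fin 4 → ℤ) 0 = 0 := rfl
    have htv13_1 : (![0, 1, 2, 1] : Fin 4 → ℤ) 1 = 1 := rfl
    have htv13_2 : (![0, 1, 2, 1] : Fin 4 → ℤ) 2 = 2 := rfl
    have htv13_3 : (![0, 1, 2, 1] : Fin 4 → ℤ) 3 = 1 := rfl
    simp only [Fin.sum_univ_four] at tv13
    simp only [htv13_0, htv13_1, htv13_2, htv13_3] at tv13
    norm_num at tv13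
    linarith
  · -- EGG
    exfalso
    have tv14 := Groth.Agent.helper11.quad_test T v hn (![0, 1, 2, 2] : Fin 4 → ℤ) 1 (by decide)
    have htv14_0 : (![0, 1, 2, 2] : Fin 4 → ℤ) 0 = 0 := rfl
    have htv14_1 : (![0, 1, 2, 2] : Fin 4 → ℤ) 1 = 1 := rfl
    have htv14_2 : (![0, 1, 2, 2] : Fin 4 → ℤ) 2 = 2 := rfl
    have htv14_3 : (![0, 1, 2, 2] : Fin 4 → ℤ) 3 = 2 := rfl
    simp only [Fin.sum_univ_four] at tv14
    simp only [htv14_0, htv14_1, htv14_2, htv14_3] at tv14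
    norm_num at tv14
    linarith
  · -- LEE
    have hlt0 : T.w (v 1) < 3 * T.w (v 0) := by
      by_contra hc; push Not at hc
      have tv15 := Groth.Agent.helper11.quad_test T v hn (![3, 2, 1, 0] : Fin 4 → ℤ) 0 (by decide)
      have htv15_0 : (![3, 2, 1, 0] : Fin 4 → ℤ) 0 = 3 := rfl
      have htv15_1 : (![3, 2, 1, 0] : Fin 4 → ℤ) 1 = 2 := rfl
      have htv15_2 : (![3, 2, 1, 0] : Fin 4 → ℤ) 2 = 1 := rfl
      have htv15_3 : (![3, 2, 1, 0] : Fin 4 → ℤ) 3 = 0 := rfl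
      simp only [Fin.sum_univ_four] at tv15
      simp only [htv15_0, htv15_1, htv15_2, htv15_3] at tv15
      norm_num at tv15
      linarith
    have hr0 : T.w (v 1) = 2 * T.w (v 0) := Groth.Agent.helper11.eq_two_mul_of_dvd (hwp 0) d0 z0 hlt0
    have A0_0 : T.a (v 0) (v 0) = -2 * T.w (v 0) := by linarith
    have A0_1 : T.a (v 0) (v 1) = 2 * T.w (v 0) := by linarith
    have A0_2 : T.a (v 0) (v 2) = 0 := by linarith
    have A0_3 : T.a (v 0) (v 3) = 0 := by linarith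
    have A1_0 : T.a (v 1) (v 0) = 2 * T.w (v 0) := by linarith
    have A1_1 : T.a (v 1) (v 1) = -2 * 2 * T.w (v 0) := by linarith
    have A1_2 : T.a (v 1) (v 2) = 2 * T.w (v 0) := by linarith
    have A1_3 : T.a (v 1) (v 3) = 0 := by linarith
    have A2_0 : T.a (v 2) (v 0) = 0 := by linarith
    have A2_1 : T.a (v 2) (v 1) = 2 * T.w (v 0) := by linarith
    have A2_2 : T.a (v 2) (v 2) = -2 * 2 * T.w (v 0) := by linarith
    have A2_3 : T.a (v 2) (v 3) = 2 * T.w (v 0) := by linarith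
    have A3_0 : T.a (v 3) (v 0) = 0 := by linarith
    have A3_1 : T.a (v 3) (v 1) = 0 := by linarith
    have A3_2 : T.a (v 3) (v 2) = 2 * T.w (v 0) := by linarith
    have A3_3 : T.a (v 3) (v 3) = -2 * 2 * T.w (v 0) := by linarith
    have W0 : T.w (v 0) = T.w (v 0) := by linarith
    have W1 : T.w (v 1) = 2 * T.w (v 0) := by linarith
    have W2 : T.w (v 2) = 2 * T.w (v 0) := by linarith
    have W3 : T.w (v 3) = 2 * T.w (v 0) := by linarith
    have hw0 := hwp 0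
    have r0 := Groth.Agent.helper11.row_sum_le T v 3
    simp only [Fin.sum_univ_four] at r0
    simp only [A3_0, A3_1, A3_2, A3_3] at r0
    have mi0 : T.m (v 2) ≤ 2 * T.m (v 3) := by
      by_contra hc; push Not at hc
      have := mul_pos hw0 (show 0 < T.m (v 2) - 2 * T.m (v 3) by linarith)
      linarith only [r0, this]
    have r1 := Groth.Agent.helper11.row_sum_le T v 2
    simp only [Fin.sum_univ_four] at r1
    simp only [A2_0, A2_1, A2_2, A2_3] at r1
    have mi1 : T.m (v 3) + T.m (v 1) ≤ 2 * T.m (v 2) := by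
      by_contra hc; push Not at hc
      have := mul_pos hw0 (show 0 < T.m (v 3) + T.m (v 1) - 2 * T.m (v 2) by linarith)
      linarith only [r1, this]
    have r2 := Groth.Agent.helper11.row_sum_le T v 1
    simp only [Fin.sum_univ_four] at r2
    simp only [A1_0, A1_1, A1_2, A1_3] at r2
    have mi2 : T.m (v 2) + T.m (v 0) ≤ 2 * T.m (v 1) := by
      by_contra hc; push Not at hc
      have := mul_pos hw0 (show 0 < T.m (v 2) + T.m (v 0) - 2 * T.m (v 1) by linarith)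
      linarith only [r2, this]
    have r3 := Groth.Agent.helper11.row_sum_le T v 0
    simp only [Fin.sum_univ_four] at r3
    simp only [A0_0, A0_1, A0_2, A0_3] at r3
    have mi3 : T.m (v 1) ≤ T.m (v 0) := by
      by_contra hc; push Not at hc
      have := mul_pos hw0 (show 0 < T.m (v 1) - T.m (v 0) by linarith)
      linarith only [r3, this]
    exact ⟨fun j => v (Fin.rev j), T.w (v 0), Or.inr (fun j => rfl), Or.inr (Or.inr (Or.inl ⟨(show T.w (v 3) = 2 * T.w (v 0) by linarith), (show T.w (v 2) = 2 * T.w (v 0) by linarith), (show T.w (v 1) = 2 * T.w (v 0) by linarith), (show T.w (v 0) = T.w (v 0) by linarith), (show T.a (v 3) (v 2) = 2 * T.w (v 0) by linarith), (show T.a (v 2) (v 1) = 2 * T.w (v 0) by linarith), (show T.a (v 1) (v 0) = 2 * T.w (v 0) by linarith), mi0, mi1, mi2, mi3⟩))⟩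
  · -- LEL
    exfalso
    have tv16 := Groth.Agent.helper11.quad_test T v hn (![2, 2, 2, 1] : Fin 4 → ℤ) 0 (by decide)
    have htv16_0 : (![2, 2, 2, 1] : Fin 4 → ℤ) 0 = 2 := rfl
    have htv16_1 : (![2, 2, 2, 1] : Fin 4 → ℤ) 1 = 2 := rfl
    have htv16_2 : (![2, 2, 2, 1] : Fin 4 → ℤ) 2 = 2 := rfl
    have htv16_3 : (![2, 2, 2, 1] : Fin 4 → ℤ) 3 = 1 := rfl
    simp only [Fin.sum_univ_four] at tv16
    simp only [htv16_0, htv16_1, htv16_2, htv16_3] at tv16
    norm_num at tv16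
    linarith
  · -- LEG
    exfalso
    have tv17 := Groth.Agent.helper11.quad_test T v hn (![1, 1, 1, 1] : Fin 4 → ℤ) 0 (by decide)
    have htv17_0 : (![1, 1, 1, 1] : Fin 4 → ℤ) 0 = 1 := rfl
    have htv17_1 : (![1, 1, 1, 1] : Fin 4 → ℤ) 1 = 1 := rfl
    have htv17_2 : (![1, 1, 1, 1] : Fin 4 → ℤ) 2 = 1 := rfl
    have htv17_3 : (![1, 1, 1, 1] : Fin 4 → ℤ) 3 = 1 := rfl
    simp only [Fin.sum_univ_four] at tv17
    simp only [htv17_0, htv17_1, htv17_2, htv17_3] at tv17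
    norm_num at tv17
    linarith
  · -- LLE
    exfalso
    have tv18 := Groth.Agent.helper11.quad_test T v hn (![2, 2, 1, 0] : Fin 4 → ℤ) 0 (by decide)
    have htv18_0 : (![2, 2, 1, 0] : Fin 4 → ℤ) 0 = 2 := rfl
    have htv18_1 : (![2, 2, 1, 0] : Fin 4 → ℤ) 1 = 2 := rfl
    have htv18_2 : (![2, 2, 1, 0] : Fin 4 → ℤ) 2 = 1 := rfl
    have htv18_3 : (![2, 2, 1, 0] : Fin 4 → ℤ) 3 = 0 := rfl
    simp only [Fin.sum_univ_four] at tv18
    simp only [htv18_0, htv18_1, htv18_2, htv18_3] at tv18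
    norm_num at tv18
    linarith
  · -- LLL
    exfalso
    have tv19 := Groth.Agent.helper11.quad_test T v hn (![0, 2, 2, 1] : Fin 4 → ℤ) 1 (by decide)
    have htv19_0 : (![0, 2, 2, 1] : Fin 4 → ℤ) 0 = 0 := rfl
    have htv19_1 : (![0, 2, 2, 1] : Fin 4 → ℤ) 1 = 2 := rfl
    have htv19_2 : (![0, 2, 2, 1] : Fin 4 → ℤ) 2 = 2 := rfl
    have htv19_3 : (![0, 2, 2, 1] : Fin 4 → ℤ) 3 = 1 := rfl
    simp only [Fin.sum_univ_four] at tv19
    simp only [htv19_0, htv19_1, htv19_2, htv19_3] at tv19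
    norm_num at tv19
    linarith
  · -- LLG
    exfalso
    have tv20 := Groth.Agent.helper11.quad_test T v hn (![0, 1, 1, 1] : Fin 4 → ℤ) 1 (by decide)
    have htv20_0 : (![0, 1, 1, 1] : Fin 4 → ℤ) 0 = 0 := rfl
    have htv20_1 : (![0, 1, 1, 1] : Fin 4 → ℤ) 1 = 1 := rfl
    have htv20_2 : (![0, 1, 1, 1] : Fin 4 → ℤ) 2 = 1 := rfl
    have htv20_3 : (![0, 1, 1, 1] : Fin 4 → ℤ) 3 = 1 := rfl
    simp only [Fin.sum_univ_four] at tv20
    simp only [htv20_0, htv20_1, htv20_2, htv20_3] at tv20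
    norm_num at tv20
    linarith
  · -- LGE
    exfalso
    have tv21 := Groth.Agent.helper11.quad_test T v hn (![1, 1, 1, 0] : Fin 4 → ℤ) 0 (by decide)
    have htv21_0 : (![1, 1, 1, 0] : Fin 4 → ℤ) 0 = 1 := rfl
    have htv21_1 : (![1, 1, 1, 0] : Fin 4 → ℤ) 1 = 1 := rfl
    have htv21_2 : (![1, 1, 1, 0] : Fin 4 → ℤ) 2 = 1 := rfl
    have htv21_3 : (![1, 1, 1, 0] : Fin 4 → ℤ) 3 = 0 := rfl
    simp only [Fin.sum_univ_four] at tv21
    simp only [htv21_0, htv21_1, htv21_2, htv21_3] at tv21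
    norm_num at tv21
    linarith
  · -- LGL
    exfalso
    have tv22 := Groth.Agent.helper11.quad_test T v hn (![1, 1, 1, 0] : Fin 4 → ℤ) 0 (by decide)
    have htv22_0 : (![1, 1, 1, 0] : Fin 4 → ℤ) 0 = 1 := rfl
    have htv22_1 : (![1, 1, 1, 0] : Fin 4 → ℤ) 1 = 1 := rfl
    have htv22_2 : (![1, 1, 1, 0] : Fin 4 → ℤ) 2 = 1 := rfl
    have htv22_3 : (![1, 1, 1, 0] : Fin 4 → ℤ) 3 = 0 := rfl
    simp only [Fin.sum_univ_four] at tv22
    simp only [htv22_0, htv22_1, htv22_2, htv22_3] at tv22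
    norm_num at tv22
    linarith
  · -- LGG
    exfalso
    have tv23 := Groth.Agent.helper11.quad_test T v hn (![1, 1, 1, 0] : Fin 4 → ℤ) 0 (by decide)
    have htv23_0 : (![1, 1, 1, 0] : Fin 4 → ℤ) 0 = 1 := rfl
    have htv23_1 : (![1, 1, 1, 0] : Fin 4 → ℤ) 1 = 1 := rfl
    have htv23_2 : (![1, 1, 1, 0] : Fin 4 → ℤ) 2 = 1 := rfl
    have htv23_3 : (![1, 1, 1, 0] : Fin 4 → ℤ) 3 = 0 := rfl
    simp only [Fin.sum_univ_four] at tv23
    simp only [htv23_0, htv23_1, htv23_2, htv23_3] at tv23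
    norm_num at tv23
    linarith
  · -- GEE
    have hlt0 : T.w (v 0) < 3 * T.w (v 1) := by
      by_contra hc; push Not at hc
      have tv24 := Groth.Agent.helper11.quad_test T v hn (![1, 2, 1, 0] : Fin 4 → ℤ) 0 (by decide)
      have htv24_0 : (![1, 2, 1, 0] : Fin 4 → ℤ) 0 = 1 := rfl
      have htv24_1 : (![1, 2, 1, 0] : Fin 4 → ℤ) 1 = 2 := rfl
      have htv24_2 : (![1, 2, 1, 0] : Fin 4 → ℤ) 2 = 1 := rfl
      have htv24_3 : (![1, 2, 1, 0] : Fin 4 → ℤ) 3 = 0 := rfl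
      simp only [Fin.sum_univ_four] at tv24
      simp only [htv24_0, htv24_1, htv24_2, htv24_3] at tv24
      norm_num at tv24
      linarith
    have hr0 : T.w (v 0) = 2 * T.w (v 1) := Groth.Agent.helper11.eq_two_mul_of_dvd (hwp 1) d0 z0 hlt0
    have A0_0 : T.a (v 0) (v 0) = -2 * 2 * T.w (v 3) := by linarith
    have A0_1 : T.a (v 0) (v 1) = 2 * T.w (v 3) := by linarith
    have A0_2 : T.a (v 0) (v 2) = 0 := by linarith
    have A0_3 : T.a (v 0) (v 3) = 0 := by linarith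
    have A1_0 : T.a (v 1) (v 0) = 2 * T.w (v 3) := by linarith
    have A1_1 : T.a (v 1) (v 1) = -2 * T.w (v 3) := by linarith
    have A1_2 : T.a (v 1) (v 2) = T.w (v 3) := by linarith
    have A1_3 : T.a (v 1) (v 3) = 0 := by linarith
    have A2_0 : T.a (v 2) (v 0) = 0 := by linarith
    have A2_1 : T.a (v 2) (v 1) = T.w (v 3) := by linarith
    have A2_2 : T.a (v 2) (v 2) = -2 * T.w (v 3) := by linarith
    have A2_3 : T.a (v 2) (v 3) = T.w (v 3) := by linarith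
    have A3_0 : T.a (v 3) (v 0) = 0 := by linarith
    have A3_1 : T.a (v 3) (v 1) = 0 := by linarith
    have A3_2 : T.a (v 3) (v 2) = T.w (v 3) := by linarith
    have A3_3 : T.a (v 3) (v 3) = -2 * T.w (v 3) := by linarith
    have W0 : T.w (v 0) = 2 * T.w (v 3) := by linarith
    have W1 : T.w (v 1) = T.w (v 3) := by linarith
    have W2 : T.w (v 2) = T.w (v 3) := by linarith
    have W3 : T.w (v 3) = T.w (v 3) := by linarith
    have hw0 := hwp 3
    have r0 := Groth.Agent.helper11.row_sum_le T v 3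
    simp only [Fin.sum_univ_four] at r0
    simp only [A3_0, A3_1, A3_2, A3_3] at r0
    have mi0 : T.m (v 2) ≤ 2 * T.m (v 3) := by
      by_contra hc; push Not at hc
      have := mul_pos hw0 (show 0 < T.m (v 2) - 2 * T.m (v 3) by linarith)
      linarith only [r0, this]
    have r1 := Groth.Agent.helper11.row_sum_le T v 2
    simp only [Fin.sum_univ_four] at r1
    simp only [A2_0, A2_1, A2_2, A2_3] at r1
    have mi1 : T.m (v 3) + T.m (v 1) ≤ 2 * T.m (v 2) := by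
      by_contra hc; push Not at hc
      have := mul_pos hw0 (show 0 < T.m (v 3) + T.m (v 1) - 2 * T.m (v 2) by linarith)
      linarith only [r1, this]
    have r2 := Groth.Agent.helper11.row_sum_le T v 1
    simp only [Fin.sum_univ_four] at r2
    simp only [A1_0, A1_1, A1_2, A1_3] at r2
    have mi2 : T.m (v 2) + 2 * T.m (v 0) ≤ 2 * T.m (v 1) := by
      by_contra hc; push Not at hc
      have := mul_pos hw0 (show 0 < T.m (v 2) + 2 * T.m (v 0) - 2 * T.m (v 1) by linarith)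
      linarith only [r2, this]
    have r3 := Groth.Agent.helper11.row_sum_le T v 0
    simp only [Fin.sum_univ_four] at r3
    simp only [A0_0, A0_1, A0_2, A0_3] at r3
    have mi3 : T.m (v 1) ≤ 2 * T.m (v 0) := by
      by_contra hc; push Not at hc
      have := mul_pos hw0 (show 0 < T.m (v 1) - 2 * T.m (v 0) by linarith)
      linarith only [r3, this]
    exact ⟨fun j => v (Fin.rev j), T.w (v 3), Or.inr (fun j => rfl), Or.inr (Or.inl ⟨(show T.w (v 3) = T.w (v 3) by linarith), (show T.w (v 2) = T.w (v 3) by linarith), (show T.w (v 1) = T.w (v 3) by linarith), (show T.w (v 0) = 2 * T.w (v 3) by linarith), (show T.a (v 3) (v 2) = T.w (v 3) by linarith), (show T.a (v 2) (v 1) = T.w (v 3) by linarith), (show T.a (v 1) (v 0) = 2 * T.w (v 3) by linarith), mi0, mi1, mi2, mi3⟩)⟩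
  · -- GEL
    exfalso
    have tv25 := Groth.Agent.helper11.quad_test T v hn (![1, 2, 2, 1] : Fin 4 → ℤ) 0 (by decide)
    have htv25_0 : (![1, 2, 2, 1] : Fin 4 → ℤ) 0 = 1 := rfl
    have htv25_1 : (![1, 2, 2, 1] : Fin 4 → ℤ) 1 = 2 := rfl
    have htv25_2 : (![1, 2, 2, 1] : Fin 4 → ℤ) 2 = 2 := rfl
    have htv25_3 : (![1, 2, 2, 1] : Fin 4 → ℤ) 3 = 1 := rfl
    simp only [Fin.sum_univ_four] at tv25
    simp only [htv25_0, htv25_1, htv25_2, htv25_3] at tv25
    norm_num at tv25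
    linarith
  · -- GEG
    exfalso
    have tv26 := Groth.Agent.helper11.quad_test T v hn (![1, 2, 2, 2] : Fin 4 → ℤ) 0 (by decide)
    have htv26_0 : (![1, 2, 2, 2] : Fin 4 → ℤ) 0 = 1 := rfl
    have htv26_1 : (![1, 2, 2, 2] : Fin 4 → ℤ) 1 = 2 := rfl
    have htv26_2 : (![1, 2, 2, 2] : Fin 4 → ℤ) 2 = 2 := rfl
    have htv26_3 : (![1, 2, 2, 2] : Fin 4 → ℤ) 3 = 2 := rfl
    simp only [Fin.sum_univ_four] at tv26
    simp only [htv26_0, htv26_1, htv26_2, htv26_3] at tv26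
    norm_num at tv26
    linarith
  · -- GLE
    exfalso
    have tv27 := Groth.Agent.helper11.quad_test T v hn (![1, 2, 1, 0] : Fin 4 → ℤ) 0 (by decide)
    have htv27_0 : (![1, 2, 1, 0] : Fin 4 → ℤ) 0 = 1 := rfl
    have htv27_1 : (![1, 2, 1, 0] : Fin 4 → ℤ) 1 = 2 := rfl
    have htv27_2 : (![1, 2, 1, 0] : Fin 4 → ℤ) 2 = 1 := rfl
    have htv27_3 : (![1, 2, 1, 0] : Fin 4 → ℤ) 3 = 0 := rfl
    simp only [Fin.sum_univ_four] at tv27
    simp only [htv27_0, htv27_1, htv27_2, htv27_3] at tv27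
    norm_num at tv27
    linarith
  · -- GLL
    exfalso
    have tv28 := Groth.Agent.helper11.quad_test T v hn (![1, 2, 1, 0] : Fin 4 → ℤ) 0 (by decide)
    have htv28_0 : (![1, 2, 1, 0] : Fin 4 → ℤ) 0 = 1 := rfl
    have htv28_1 : (![1, 2, 1, 0] : Fin 4 → ℤ) 1 = 2 := rfl
    have htv28_2 : (![1, 2, 1, 0] : Fin 4 → ℤ) 2 = 1 := rfl
    have htv28_3 : (![1, 2, 1, 0] : Fin 4 → ℤ) 3 = 0 := rfl
    simp only [Fin.sum_univ_four] at tv28
    simp only [htv28_0, htv28_1, htv28_2, htv28_3] at tv28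
    norm_num at tv28
    linarith
  · -- GLG
    exfalso
    have tv29 := Groth.Agent.helper11.quad_test T v hn (![0, 1, 1, 1] : Fin 4 → ℤ) 1 (by decide)
    have htv29_0 : (![0, 1, 1, 1] : Fin 4 → ℤ) 0 = 0 := rfl
    have htv29_1 : (![0, 1, 1, 1] : Fin 4 → ℤ) 1 = 1 := rfl
    have htv29_2 : (![0, 1, 1, 1] : Fin 4 → ℤ) 2 = 1 := rfl
    have htv29_3 : (![0, 1, 1, 1] : Fin 4 → ℤ) 3 = 1 := rfl
    simp only [Fin.sum_univ_four] at tv29
    simp only [htv29_0, htv29_1, htv29_2, htv29_3] at tv29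
    norm_num at tv29
    linarith
  · -- GGE
    exfalso
    have tv30 := Groth.Agent.helper11.quad_test T v hn (![1, 2, 2, 0] : Fin 4 → ℤ) 0 (by decide)
    have htv30_0 : (![1, 2, 2, 0] : Fin 4 → ℤ) 0 = 1 := rfl
    have htv30_1 : (![1, 2, 2, 0] : Fin 4 → ℤ) 1 = 2 := rfl
    have htv30_2 : (![1, 2, 2, 0] : Fin 4 → ℤ) 2 = 2 := rfl
    have htv30_3 : (![1, 2, 2, 0] : Fin 4 → ℤ) 3 = 0 := rfl
    simp only [Fin.sum_univ_four] at tv30
    simp only [htv30_0, htv30_1, htv30_2, htv30_3] at tv30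
    norm_num at tv30
    linarith
  · -- GGL
    exfalso
    have tv31 := Groth.Agent.helper11.quad_test T v hn (![0, 1, 2, 1] : Fin 4 → ℤ) 1 (by decide)
    have htv31_0 : (![0, 1, 2, 1] : Fin 4 → ℤ) 0 = 0 := rfl
    have htv31_1 : (![0, 1, 2, 1] : Fin 4 → ℤ) 1 = 1 := rfl
    have htv31_2 : (![0, 1, 2, 1] : Fin 4 → ℤ) 2 = 2 := rfl
    have htv31_3 : (![0, 1, 2, 1] : Fin 4 → ℤ) 3 = 1 := rfl
    simp only [Fin.sum_univ_four] at tv31
    simp only [htv31_0, htv31_1, htv31_2, htv31_3] at tv31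
    norm_num at tv31
    linarith
  · -- GGG
    exfalso
    have tv32 := Groth.Agent.helper11.quad_test T v hn (![0, 1, 2, 2] : Fin 4 → ℤ) 1 (by decide)
    have htv32_0 : (![0, 1, 2, 2] : Fin 4 → ℤ) 0 = 0 := rfl
    have htv32_1 : (![0, 1, 2, 2] : Fin 4 → ℤ) 1 = 1 := rfl
    have htv32_2 : (![0, 1, 2, 2] : Fin 4 → ℤ) 2 = 2 := rfl
    have htv32_3 : (![0, 1, 2, 2] : Fin 4 → ℤ) 3 = 2 := rfl
    simp only [Fin.sum_univ_four] at tv32
    simp only [htv32_0, htv32_1, htv32_2, htv32_3] at tv32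
    norm_num at tv32
    linarith

end Groth.Agent.S7352
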