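import Groth.Statements.S7353
import Groth.Agent.Lib_helper11_Models3
import Mathlib.Tactic.FinCases
-- import your own Groth.Agent.* helpers here

set_option autoImplicit false
open Finset
open Models Models.NumericalType

namespace Groth.Agent.S7353

set_option maxHeartbeats 4000000

/-- Classification of proper subgraphs which are chains of five vertices: let T be a numerical type on n
> 5 indices and i_1, …, i_5 distinct (-2)-indices with a_{i_j i_{j+1}} nonzero for j < 5. Then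
a_{i_j i_l} = 0 for |j - l| ≥ 2 and, after possibly reversing the order of the indices, for some
integer w one of the following holds: (A5) w = (w, w, w, w, w), consecutive a = (w, w, w, w), with
2m_1 ≥ m_2, 2m_2 ≥ m_1 + m_3, 2m_3 ≥ m_2 + m_4, 2m_4 ≥ m_3 + m_5, 2m_5 ≥ m_4; (C5) w = (w, w, w, w,
2w), consecutive a = (w, w, w, 2w), with 2m_1 ≥ m_2, 2m_2 ≥ m_1 + m_3, 2m_3 ≥ m_2 + m_4, 2m_4 ≥ m_3
+ 2m_5, 2m_5 ≥ m_4; (B5) w = (2w, 2w, 2w, 2w, w), consecutive a = (2w, 2w, 2w, 2w), with 2m_1 ≥ m_2,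
2m_2 ≥ m_1 + m_3, 2m_3 ≥ m_2 + m_4, 2m_4 ≥ m_3 + m_5, m_5 ≥ m_4. (The inequalities are those given
by the rows Σ_l a_{kl} m_l = 0 of the displayed matrices; the published text has 2m_3 ≥ m_2 + 2m_4
and 2m_4 ≥ m_3 + m_5 in case C5 and m_4 ≥ m_3 in case B5, of which the first does not follow — for
the numerical type with six indices, weights (1,1,1,1,2,1), chain intersection numbers (1,1,1,2)
plus a_{16} = 1, a_{66} = -1 and multiplicities (2,2,2,2,1,2) one has 2m_3 = 4 < m_2 + 2m_4 = 6 — so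
the matrix inequalities are stated.) -/
theorem result {n : ℕ} (T : Models.NumericalType n) (hn : 5 < n)
    (v : Fin 5 ↪ Fin n) (hv : ∀ j, T.IsMinusTwo (v j)) (h01 : T.a (v 0) (v 1) ≠ 0) (h12 : T.a (v 1) (v 2) ≠ 0) (h23 : T.a (v 2) (v 3) ≠ 0) (h34 : T.a (v 3) (v 4) ≠ 0) :
    (T.a (v 0) (v 2) = 0 ∧ T.a (v 0) (v 3) = 0 ∧ T.a (v 0) (v 4) = 0 ∧ T.a (v 1) (v 3) = 0 ∧ T.a (v 1) (v 4) = 0 ∧ T.a (v 2) (v 4) = 0) ∧
    ∃ (u : Fin 5 → Fin n) (w : ℤ), ((∀ j, u j = v j) ∨ (∀ j, u j = v (Fin.rev j))) ∧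
      ((T.w (u 0) = w ∧ T.w (u 1) = w ∧ T.w (u 2) = w ∧ T.w (u 3) = w ∧ T.w (u 4) = w ∧ T.a (u 0) (u 1) = w ∧ T.a (u 1) (u 2) = w ∧ T.a (u 2) (u 3) = w ∧ T.a (u 3) (u 4) = w ∧ T.m (u 1) ≤ 2 * T.m (u 0) ∧ T.m (u 0) + T.m (u 2) ≤ 2 * T.m (u 1) ∧ T.m (u 1) + T.m (u 3) ≤ 2 * T.m (u 2) ∧ T.m (u 2) + T.m (u 4) ≤ 2 * T.m (u 3) ∧ T.m (u 3) ≤ 2 * T.m (u 4)) ∨
      (T.w (u 0) = w ∧ T.w (u 1) = w ∧ T.w (u 2) = w ∧ T.w (u 3) = w ∧ T.w (u 4) = 2 * w ∧ T.a (u 0) (u 1) = w ∧ T.a (u 1) (u 2) = w ∧ T.a (u 2) (u 3) = w ∧ T.a (u 3) (u 4) = 2 * w ∧ T.m (u 1) ≤ 2 * T.m (u 0) ∧ T.m (u 0) + T.m (u 2) ≤ 2 * T.m (u 1) ∧ T.m (u 1) + T.m (u 3) ≤ 2 * T.m (u 2) ∧ T.m (u 2) + 2 * T.m (u 4) ≤ 2 * T.m (u 3) ∧ T.m (u 3) ≤ 2 * T.m (u 4)) ∨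
      (T.w (u 0) = 2 * w ∧ T.w (u 1) = 2 * w ∧ T.w (u 2) = 2 * w ∧ T.w (u 3) = 2 * w ∧ T.w (u 4) = w ∧ T.a (u 0) (u 1) = 2 * w ∧ T.a (u 1) (u 2) = 2 * w ∧ T.a (u 2) (u 3) = 2 * w ∧ T.a (u 3) (u 4) = 2 * w ∧ T.m (u 1) ≤ 2 * T.m (u 0) ∧ T.m (u 0) + T.m (u 2) ≤ 2 * T.m (u 1) ∧ T.m (u 1) + T.m (u 3) ≤ 2 * T.m (u 2) ∧ T.m (u 2) + T.m (u 4) ≤ 2 * T.m (u 3) ∧ T.m (u 3) ≤ T.m (u 4))) := by
  classical
  have hd : ∀ p, T.a (v p) (v p) = -2 * T.w (v p) := fun p => (hv p).2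
  have hs : ∀ p q, T.a (v q) (v p) = T.a (v p) (v q) := fun p q => T.symm.apply _ _
  have ho : ∀ p q, p ≠ q → 0 ≤ T.a (v p) (v q) := fun p q h =>
    T.offDiag_nonneg _ _ (v.injective.ne h)
  have hw1 : ∀ p q, 0 < T.a (v p) (v q) → T.w (v p) ≤ T.a (v p) (v q) := fun p q h =>
    Int.le_of_dvd h (T.w_dvd _ _)
  have hw2 : ∀ p q, 0 < T.a (v p) (v q) → T.w (v q) ≤ T.a (v p) (v q) := fun p q h => by
    rw [← hs]; exact Int.le_of_dvd (by rw [hs]; exact h) (T.w_dvd _ _)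
  have hwp : ∀ p, 0 < T.w (v p) := fun p => T.w_pos _
  have := hd 0
  have := hwp 0
  have := hd 1
  have := hwp 1
  have := hd 2
  have := hwp 2
  have := hd 3
  have := hwp 3
  have := hd 4
  have := hwp 4
  have := hs 0 1
  have := ho 0 1 (by decide)
  have := hs 0 2
  have := ho 0 2 (by decide)
  have := hs 0 3
  have := ho 0 3 (by decide)
  have := hs 0 4
  have := ho 0 4 (by decide)
  have := hs 1 2
  have := ho 1 2 (by decide)
  have := hs 1 3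
  have := ho 1 3 (by decide)
  have := hs 1 4
  have := ho 1 4 (by decide)
  have := hs 2 3
  have := ho 2 3 (by decide)
  have := hs 2 4
  have := ho 2 4 (by decide)
  have := hs 3 4
  have := ho 3 4 (by decide)
  have e0 : 0 < T.a (v 0) (v 1) := lt_of_le_of_ne (ho 0 1 (by decide)) (Ne.symm h01)
  have := hw1 0 1 e0
  have := hw2 0 1 e0
  have e1 : 0 < T.a (v 1) (v 2) := lt_of_le_of_ne (ho 1 2 (by decide)) (Ne.symm h12)
  have := hw1 1 2 e1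
  have := hw2 1 2 e1
  have e2 : 0 < T.a (v 2) (v 3) := lt_of_le_of_ne (ho 2 3 (by decide)) (Ne.symm h23)
  have := hw1 2 3 e2
  have := hw2 2 3 e2
  have e3 : 0 < T.a (v 3) (v 4) := lt_of_le_of_ne (ho 3 4 (by decide)) (Ne.symm h34)
  have := hw1 3 4 e3
  have := hw2 3 4 e3
  have hz0_2 : T.a (v 0) (v 2) = 0 := by
    by_contra hne
    have hpos : 0 < T.a (v 0) (v 2) := lt_of_le_of_ne (ho 0 2 (by decide)) (Ne.symm hne)
    have := hw1 0 2 hpos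
    have := hw2 0 2 hpos
    have tv1 := Groth.Agent.helper11.quad_test T v hn (![1, 1, 1, 0, 0] : Fin 5 → ℤ) 0 (by decide)
    have htv1_0 : (![1, 1, 1, 0, 0] : Fin 5 → ℤ) 0 = 1 := rfl
    have htv1_1 : (![1, 1, 1, 0, 0] : Fin 5 → ℤ) 1 = 1 := rfl
    have htv1_2 : (![1, 1, 1, 0, 0] : Fin 5 → ℤ) 2 = 1 := rfl
    have htv1_3 : (![1, 1, 1, 0, 0] : Fin 5 → ℤ) 3 = 0 := rfl
    have htv1_4 : (![1, 1, 1, 0, 0] : Fin 5 → ℤ) 4 = 0 := rfl
    simp only [Fin.sum_univ_five] at tv1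
    simp only [htv1_0, htv1_1, htv1_2, htv1_3, htv1_4] at tv1
    norm_num at tv1
    linarith
  have hz0_3 : T.a (v 0) (v 3) = 0 := by
    by_contra hne
    have hpos : 0 < T.a (v 0) (v 3) := lt_of_le_of_ne (ho 0 3 (by decide)) (Ne.symm hne)
    have := hw1 0 3 hpos
    have := hw2 0 3 hpos
    have tv2 := Groth.Agent.helper11.quad_test T v hn (![1, 1, 1, 1, 0] : Fin 5 → ℤ) 0 (by decide)
    have htv2_0 : (![1, 1, 1, 1, 0] : Fin 5 → ℤ) 0 = 1 := rfl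
    have htv2_1 : (![1, 1, 1, 1, 0] : Fin 5 → ℤ) 1 = 1 := rfl
    have htv2_2 : (![1, 1, 1, 1, 0] : Fin 5 → ℤ) 2 = 1 := rfl
    have htv2_3 : (![1, 1, 1, 1, 0] : Fin 5 → ℤ) 3 = 1 := rfl
    have htv2_4 : (![1, 1, 1, 1, 0] : Fin 5 → ℤ) 4 = 0 := rfl
    simp only [Fin.sum_univ_five] at tv2
    simp only [htv2_0, htv2_1, htv2_2, htv2_3, htv2_4] at tv2
    norm_num at tv2
    linarith
  have hz0_4 : T.a (v 0) (v 4) = 0 := by
    by_contra hne
    have hpos : 0 < T.a (v 0) (v 4) := lt_of_le_of_ne (ho 0 4 (by decide)) (Ne.symm hne)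
    have := hw1 0 4 hpos
    have := hw2 0 4 hpos
    have tv3 := Groth.Agent.helper11.quad_test T v hn (![1, 1, 1, 1, 1] : Fin 5 → ℤ) 0 (by decide)
    have htv3_0 : (![1, 1, 1, 1, 1] : Fin 5 → ℤ) 0 = 1 := rfl
    have htv3_1 : (![1, 1, 1, 1, 1] : Fin 5 → ℤ) 1 = 1 := rfl
    have htv3_2 : (![1, 1, 1, 1, 1] : Fin 5 → ℤ) 2 = 1 := rfl
    have htv3_3 : (![1, 1, 1, 1, 1] : Fin 5 → ℤ) 3 = 1 := rfl
    have htv3_4 : (![1, 1, 1, 1, 1] : Fin 5 → ℤ) 4 = 1 := rfl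
    simp only [Fin.sum_univ_five] at tv3
    simp only [htv3_0, htv3_1, htv3_2, htv3_3, htv3_4] at tv3
    norm_num at tv3
    linarith
  have hz1_3 : T.a (v 1) (v 3) = 0 := by
    by_contra hne
    have hpos : 0 < T.a (v 1) (v 3) := lt_of_le_of_ne (ho 1 3 (by decide)) (Ne.symm hne)
    have := hw1 1 3 hpos
    have := hw2 1 3 hpos
    have tv4 := Groth.Agent.helper11.quad_test T v hn (![0, 1, 1, 1, 0] : Fin 5 → ℤ) 1 (by decide)
    have htv4_0 : (![0, 1, 1, 1, 0] : Fin 5 → ℤ) 0 = 0 := rfl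
    have htv4_1 : (![0, 1, 1, 1, 0] : Fin 5 → ℤ) 1 = 1 := rfl
    have htv4_2 : (![0, 1, 1, 1, 0] : Fin 5 → ℤ) 2 = 1 := rfl
    have htv4_3 : (![0, 1, 1, 1, 0] : Fin 5 → ℤ) 3 = 1 := rfl
    have htv4_4 : (![0, 1, 1, 1, 0] : Fin 5 → ℤ) 4 = 0 := rfl
    simp only [Fin.sum_univ_five] at tv4
    simp only [htv4_0, htv4_1, htv4_2, htv4_3, htv4_4] at tv4
    norm_num at tv4
    linarith
  have hz1_4 : T.a (v 1) (v 4) = 0 := by
    by_contra hne
    have hpos : 0 < T.a (v 1) (v 4) := lt_of_le_of_ne (ho 1 4 (by decide)) (Ne.symm hne)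
    have := hw1 1 4 hpos
    have := hw2 1 4 hpos
    have tv5 := Groth.Agent.helper11.quad_test T v hn (![0, 1, 1, 1, 1] : Fin 5 → ℤ) 1 (by decide)
    have htv5_0 : (![0, 1, 1, 1, 1] : Fin 5 → ℤ) 0 = 0 := rfl
    have htv5_1 : (![0, 1, 1, 1, 1] : Fin 5 → ℤ) 1 = 1 := rfl
    have htv5_2 : (![0, 1, 1, 1, 1] : Fin 5 → ℤ) 2 = 1 := rfl
    have htv5_3 : (![0, 1, 1, 1, 1] : Fin 5 → ℤ) 3 = 1 := rfl
    have htv5_4 : (![0, 1, 1, 1, 1] : Fin 5 → ℤ) 4 = 1 := rfl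
    simp only [Fin.sum_univ_five] at tv5
    simp only [htv5_0, htv5_1, htv5_2, htv5_3, htv5_4] at tv5
    norm_num at tv5
    linarith
  have hz2_4 : T.a (v 2) (v 4) = 0 := by
    by_contra hne
    have hpos : 0 < T.a (v 2) (v 4) := lt_of_le_of_ne (ho 2 4 (by decide)) (Ne.symm hne)
    have := hw1 2 4 hpos
    have := hw2 2 4 hpos
    have tv6 := Groth.Agent.helper11.quad_test T v hn (![0, 0, 1, 1, 1] : Fin 5 → ℤ) 2 (by decide)
    have htv6_0 : (![0, 0, 1, 1, 1] : Fin 5 → ℤ) 0 = 0 := rfl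
    have htv6_1 : (![0, 0, 1, 1, 1] : Fin 5 → ℤ) 1 = 0 := rfl
    have htv6_2 : (![0, 0, 1, 1, 1] : Fin 5 → ℤ) 2 = 1 := rfl
    have htv6_3 : (![0, 0, 1, 1, 1] : Fin 5 → ℤ) 3 = 1 := rfl
    have htv6_4 : (![0, 0, 1, 1, 1] : Fin 5 → ℤ) 4 = 1 := rfl
    simp only [Fin.sum_univ_five] at tv6
    simp only [htv6_0, htv6_1, htv6_2, htv6_3, htv6_4] at tv6
    norm_num at tv6
    linarith
  have := hz0_2
  have := hz0_3
  have := hz0_4
  have := hz1_3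
  have := hz1_4
  have := hz2_4
  have E0 := Groth.Agent.helper11.edge_cases (hwp 0) (hwp 1) (T.w_dvd _ _) (by rw [← hs]; exact T.w_dvd _ _) (hw1 0 1 e0) (hw2 0 1 e0) (by
    have tv7 := Groth.Agent.helper11.quad_test T v hn (![1, 1, 0, 0, 0] : Fin 5 → ℤ) 0 (by decide)
    have htv7_0 : (![1, 1, 0, 0, 0] : Fin 5 → ℤ) 0 = 1 := rfl
    have htv7_1 : (![1, 1, 0, 0, 0] : Fin 5 → ℤ) 1 = 1 := rfl
    have htv7_2 : (![1, 1, 0, 0, 0] : Fin 5 → ℤ) 2 = 0 := rfl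
    have htv7_3 : (![1, 1, 0, 0, 0] : Fin 5 → ℤ) 3 = 0 := rfl
    have htv7_4 : (![1, 1, 0, 0, 0] : Fin 5 → ℤ) 4 = 0 := rfl
    simp only [Fin.sum_univ_five] at tv7
    simp only [htv7_0, htv7_1, htv7_2, htv7_3, htv7_4] at tv7
    norm_num at tv7
    linarith)
  have E1 := Groth.Agent.helper11.edge_cases (hwp 1) (hwp 2) (T.w_dvd _ _) (by rw [← hs]; exact T.w_dvd _ _) (hw1 1 2 e1) (hw2 1 2 e1) (by
    have tv8 := Groth.Agent.helper11.quad_test T v hn (![0, 1, 1, 0, 0] : Fin 5 → ℤ) 1 (by decide)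
    have htv8_0 : (![0, 1, 1, 0, 0] : Fin 5 → ℤ) 0 = 0 := rfl
    have htv8_1 : (![0, 1, 1, 0, 0] : Fin 5 → ℤ) 1 = 1 := rfl
    have htv8_2 : (![0, 1, 1, 0, 0] : Fin 5 → ℤ) 2 = 1 := rfl
    have htv8_3 : (![0, 1, 1, 0, 0] : Fin 5 → ℤ) 3 = 0 := rfl
    have htv8_4 : (![0, 1, 1, 0, 0] : Fin 5 → ℤ) 4 = 0 := rfl
    simp only [Fin.sum_univ_five] at tv8
    simp only [htv8_0, htv8_1, htv8_2, htv8_3, htv8_4] at tv8
    norm_num at tv8
    linarith)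
  have E2 := Groth.Agent.helper11.edge_cases (hwp 2) (hwp 3) (T.w_dvd _ _) (by rw [← hs]; exact T.w_dvd _ _) (hw1 2 3 e2) (hw2 2 3 e2) (by
    have tv9 := Groth.Agent.helper11.quad_test T v hn (![0, 0, 1, 1, 0] : Fin 5 → ℤ) 2 (by decide)
    have htv9_0 : (![0, 0, 1, 1, 0] : Fin 5 → ℤ) 0 = 0 := rfl
    have htv9_1 : (![0, 0, 1, 1, 0] : Fin 5 → ℤ) 1 = 0 := rfl
    have htv9_2 : (![0, 0, 1, 1, 0] : Fin 5 → ℤ) 2 = 1 := rfl
    have htv9_3 : (![0, 0, 1, 1, 0] : Fin 5 → ℤ) 3 = 1 := rfl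
    have htv9_4 : (![0, 0, 1, 1, 0] : Fin 5 → ℤ) 4 = 0 := rfl
    simp only [Fin.sum_univ_five] at tv9
    simp only [htv9_0, htv9_1, htv9_2, htv9_3, htv9_4] at tv9
    norm_num at tv9
    linarith)
  have E3 := Groth.Agent.helper11.edge_cases (hwp 3) (hwp 4) (T.w_dvd _ _) (by rw [← hs]; exact T.w_dvd _ _) (hw1 3 4 e3) (hw2 3 4 e3) (by
    have tv10 := Groth.Agent.helper11.quad_test T v hn (![0, 0, 0, 1, 1] : Fin 5 → ℤ) 3 (by decide)
    have htv10_0 : (![0, 0, 0, 1, 1] : Fin 5 → ℤ) 0 = 0 := rfl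
    have htv10_1 : (![0, 0, 0, 1, 1] : Fin 5 → ℤ) 1 = 0 := rfl
    have htv10_2 : (![0, 0, 0, 1, 1] : Fin 5 → ℤ) 2 = 0 := rfl
    have htv10_3 : (![0, 0, 0, 1, 1] : Fin 5 → ℤ) 3 = 1 := rfl
    have htv10_4 : (![0, 0, 0, 1, 1] : Fin 5 → ℤ) 4 = 1 := rfl
    simp only [Fin.sum_univ_five] at tv10
    simp only [htv10_0, htv10_1, htv10_2, htv10_3, htv10_4] at tv10
    norm_num at tv10
    linarith)
  refine ⟨⟨hz0_2, hz0_3, hz0_4, hz1_3, hz1_4, hz2_4⟩, ?_⟩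
  rcases E0 with ⟨x0, y0⟩ | ⟨x0, y0, z0, d0⟩ | ⟨x0, y0, z0, d0⟩ <;>
    rcases E1 with ⟨x1, y1⟩ | ⟨x1, y1, z1, d1⟩ | ⟨x1, y1, z1, d1⟩ <;>
    rcases E2 with ⟨x2, y2⟩ | ⟨x2, y2, z2, d2⟩ | ⟨x2, y2, z2, d2⟩ <;>
    rcases E3 with ⟨x3, y3⟩ | ⟨x3, y3, z3, d3⟩ | ⟨x3, y3, z3, d3⟩
  · -- EEEE
    have A0_0 : T.a (v 0) (v 0) = -2 * T.w (v 0) := by linarith
    have A0_1 : T.a (v 0) (v 1) = T.w (v 0) := by linarith
    have A0_2 : T.a (v 0) (v 2) = 0 := by linarith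
    have A0_3 : T.a (v 0) (v 3) = 0 := by linarith
    have A0_4 : T.a (v 0) (v 4) = 0 := by linarith
    have A1_0 : T.a (v 1) (v 0) = T.w (v 0) := by linarith
    have A1_1 : T.a (v 1) (v 1) = -2 * T.w (v 0) := by linarith
    have A1_2 : T.a (v 1) (v 2) = T.w (v 0) := by linarith
    have A1_3 : T.a (v 1) (v 3) = 0 := by linarith
    have A1_4 : T.a (v 1) (v 4) = 0 := by linarith
    have A2_0 : T.a (v 2) (v 0) = 0 := by linarith
    have A2_1 : T.a (v 2) (v 1) = T.w (v 0) := by linarith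
    have A2_2 : T.a (v 2) (v 2) = -2 * T.w (v 0) := by linarith
    have A2_3 : T.a (v 2) (v 3) = T.w (v 0) := by linarith
    have A2_4 : T.a (v 2) (v 4) = 0 := by linarith
    have A3_0 : T.a (v 3) (v 0) = 0 := by linarith
    have A3_1 : T.a (v 3) (v 1) = 0 := by linarith
    have A3_2 : T.a (v 3) (v 2) = T.w (v 0) := by linarith
    have A3_3 : T.a (v 3) (v 3) = -2 * T.w (v 0) := by linarith
    have A3_4 : T.a (v 3) (v 4) = T.w (v 0) := by linarith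
    have A4_0 : T.a (v 4) (v 0) = 0 := by linarith
    have A4_1 : T.a (v 4) (v 1) = 0 := by linarith
    have A4_2 : T.a (v 4) (v 2) = 0 := by linarith
    have A4_3 : T.a (v 4) (v 3) = T.w (v 0) := by linarith
    have A4_4 : T.a (v 4) (v 4) = -2 * T.w (v 0) := by linarith
    have W0 : T.w (v 0) = T.w (v 0) := by linarith
    have W1 : T.w (v 1) = T.w (v 0) := by linarith
    have W2 : T.w (v 2) = T.w (v 0) := by linarith
    have W3 : T.w (v 3) = T.w (v 0) := by linarith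
    have W4 : T.w (v 4) = T.w (v 0) := by linarith
    have hw0 := hwp 0
    have r0 := Groth.Agent.helper11.row_sum_le T v 0
    simp only [Fin.sum_univ_five] at r0
    simp only [A0_0, A0_1, A0_2, A0_3, A0_4] at r0
    have mi0 : T.m (v 1) ≤ 2 * T.m (v 0) := by
      by_contra hc; push Not at hc
      have := mul_pos hw0 (show 0 < T.m (v 1) - 2 * T.m (v 0) by linarith)
      linarith only [r0, this]
    have r1 := Groth.Agent.helper11.row_sum_le T v 1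
    simp only [Fin.sum_univ_five] at r1
    simp only [A1_0, A1_1, A1_2, A1_3, A1_4] at r1
    have mi1 : T.m (v 0) + T.m (v 2) ≤ 2 * T.m (v 1) := by
      by_contra hc; push Not at hc
      have := mul_pos hw0 (show 0 < T.m (v 0) + T.m (v 2) - 2 * T.m (v 1) by linarith)
      linarith only [r1, this]
    have r2 := Groth.Agent.helper11.row_sum_le T v 2
    simp only [Fin.sum_univ_five] at r2
    simp only [A2_0, A2_1, A2_2, A2_3, A2_4] at r2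
    have mi2 : T.m (v 1) + T.m (v 3) ≤ 2 * T.m (v 2) := by
      by_contra hc; push Not at hc
      have := mul_pos hw0 (show 0 < T.m (v 1) + T.m (v 3) - 2 * T.m (v 2) by linarith)
      linarith only [r2, this]
    have r3 := Groth.Agent.helper11.row_sum_le T v 3
    simp only [Fin.sum_univ_five] at r3
    simp only [A3_0, A3_1, A3_2, A3_3, A3_4] at r3
    have mi3 : T.m (v 2) + T.m (v 4) ≤ 2 * T.m (v 3) := by
      by_contra hc; push Not at hc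
      have := mul_pos hw0 (show 0 < T.m (v 2) + T.m (v 4) - 2 * T.m (v 3) by linarith)
      linarith only [r3, this]
    have r4 := Groth.Agent.helper11.row_sum_le T v 4
    simp only [Fin.sum_univ_five] at r4
    simp only [A4_0, A4_1, A4_2, A4_3, A4_4] at r4
    have mi4 : T.m (v 3) ≤ 2 * T.m (v 4) := by
      by_contra hc; push Not at hc
      have := mul_pos hw0 (show 0 < T.m (v 3) - 2 * T.m (v 4) by linarith)
      linarith only [r4, this]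
    exact ⟨fun j => v j, T.w (v 0), Or.inl (fun j => rfl), Or.inl ⟨(show T.w (v 0) = T.w (v 0) by linarith), (show T.w (v 1) = T.w (v 0) by linarith), (show T.w (v 2) = T.w (v 0) by linarith), (show T.w (v 3) = T.w (v 0) by linarith), (show T.w (v 4) = T.w (v 0) by linarith), (show T.a (v 0) (v 1) = T.w (v 0) by linarith), (show T.a (v 1) (v 2) = T.w (v 0) by linarith), (show T.a (v 2) (v 3) = T.w (v 0) by linarith), (show T.a (v 3) (v 4) = T.w (v 0) by linarith), mi0, mi1, mi2, mi3, mi4⟩⟩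
  · -- EEEL
    have hlt3 : T.w (v 4) < 3 * T.w (v 3) := by
      by_contra hc; push Not at hc
      have tv11 := Groth.Agent.helper11.quad_test T v hn (![0, 0, 1, 2, 1] : Fin 5 → ℤ) 2 (by decide)
      have htv11_0 : (![0, 0, 1, 2, 1] : Fin 5 → ℤ) 0 = 0 := rfl
      have htv11_1 : (![0, 0, 1, 2, 1] : Fin 5 → ℤ) 1 = 0 := rfl
      have htv11_2 : (![0, 0, 1, 2, 1] : Fin 5 → ℤ) 2 = 1 := rfl
      have htv11_3 : (![0, 0, 1, 2, 1] : Fin 5 → ℤ) 3 = 2 := rfl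
      have htv11_4 : (![0, 0, 1, 2, 1] : Fin 5 → ℤ) 4 = 1 := rfl
      simp only [Fin.sum_univ_five] at tv11
      simp only [htv11_0, htv11_1, htv11_2, htv11_3, htv11_4] at tv11
      norm_num at tv11
      linarith
    have hr3 : T.w (v 4) = 2 * T.w (v 3) := Groth.Agent.helper11.eq_two_mul_of_dvd (hwp 3) d3 z3 hlt3
    have A0_0 : T.a (v 0) (v 0) = -2 * T.w (v 0) := by linarith
    have A0_1 : T.a (v 0) (v 1) = T.w (v 0) := by linarith
    have A0_2 : T.a (v 0) (v 2) = 0 := by linarith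
    have A0_3 : T.a (v 0) (v 3) = 0 := by linarith
    have A0_4 : T.a (v 0) (v 4) = 0 := by linarith
    have A1_0 : T.a (v 1) (v 0) = T.w (v 0) := by linarith
    have A1_1 : T.a (v 1) (v 1) = -2 * T.w (v 0) := by linarith
    have A1_2 : T.a (v 1) (v 2) = T.w (v 0) := by linarith
    have A1_3 : T.a (v 1) (v 3) = 0 := by linarith
    have A1_4 : T.a (v 1) (v 4) = 0 := by linarith
    have A2_0 : T.a (v 2) (v 0) = 0 := by linarith
    have A2_1 : T.a (v 2) (v 1) = T.w (v 0) := by linarith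
    have A2_2 : T.a (v 2) (v 2) = -2 * T.w (v 0) := by linarith
    have A2_3 : T.a (v 2) (v 3) = T.w (v 0) := by linarith
    have A2_4 : T.a (v 2) (v 4) = 0 := by linarith
    have A3_0 : T.a (v 3) (v 0) = 0 := by linarith
    have A3_1 : T.a (v 3) (v 1) = 0 := by linarith
    have A3_2 : T.a (v 3) (v 2) = T.w (v 0) := by linarith
    have A3_3 : T.a (v 3) (v 3) = -2 * T.w (v 0) := by linarith
    have A3_4 : T.a (v 3) (v 4) = 2 * T.w (v 0) := by linarith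
    have A4_0 : T.a (v 4) (v 0) = 0 := by linarith
    have A4_1 : T.a (v 4) (v 1) = 0 := by linarith
    have A4_2 : T.a (v 4) (v 2) = 0 := by linarith
    have A4_3 : T.a (v 4) (v 3) = 2 * T.w (v 0) := by linarith
    have A4_4 : T.a (v 4) (v 4) = -2 * 2 * T.w (v 0) := by linarith
    have W0 : T.w (v 0) = T.w (v 0) := by linarith
    have W1 : T.w (v 1) = T.w (v 0) := by linarith
    have W2 : T.w (v 2) = T.w (v 0) := by linarith
    have W3 : T.w (v 3) = T.w (v 0) := by linarith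
    have W4 : T.w (v 4) = 2 * T.w (v 0) := by linarith
    have hw0 := hwp 0
    have r0 := Groth.Agent.helper11.row_sum_le T v 0
    simp only [Fin.sum_univ_five] at r0
    simp only [A0_0, A0_1, A0_2, A0_3, A0_4] at r0
    have mi0 : T.m (v 1) ≤ 2 * T.m (v 0) := by
      by_contra hc; push Not at hc
      have := mul_pos hw0 (show 0 < T.m (v 1) - 2 * T.m (v 0) by linarith)
      linarith only [r0, this]
    have r1 := Groth.Agent.helper11.row_sum_le T v 1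
    simp only [Fin.sum_univ_five] at r1
    simp only [A1_0, A1_1, A1_2, A1_3, A1_4] at r1
    have mi1 : T.m (v 0) + T.m (v 2) ≤ 2 * T.m (v 1) := by
      by_contra hc; push Not at hc
      have := mul_pos hw0 (show 0 < T.m (v 0) + T.m (v 2) - 2 * T.m (v 1) by linarith)
      linarith only [r1, this]
    have r2 := Groth.Agent.helper11.row_sum_le T v 2
    simp only [Fin.sum_univ_five] at r2
    simp only [A2_0, A2_1, A2_2, A2_3, A2_4] at r2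
    have mi2 : T.m (v 1) + T.m (v 3) ≤ 2 * T.m (v 2) := by
      by_contra hc; push Not at hc
      have := mul_pos hw0 (show 0 < T.m (v 1) + T.m (v 3) - 2 * T.m (v 2) by linarith)
      linarith only [r2, this]
    have r3 := Groth.Agent.helper11.row_sum_le T v 3
    simp only [Fin.sum_univ_five] at r3
    simp only [A3_0, A3_1, A3_2, A3_3, A3_4] at r3
    have mi3 : T.m (v 2) + 2 * T.m (v 4) ≤ 2 * T.m (v 3) := by
      by_contra hc; push Not at hc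
      have := mul_pos hw0 (show 0 < T.m (v 2) + 2 * T.m (v 4) - 2 * T.m (v 3) by linarith)
      linarith only [r3, this]
    have r4 := Groth.Agent.helper11.row_sum_le T v 4
    simp only [Fin.sum_univ_five] at r4
    simp only [A4_0, A4_1, A4_2, A4_3, A4_4] at r4
    have mi4 : T.m (v 3) ≤ 2 * T.m (v 4) := by
      by_contra hc; push Not at hc
      have := mul_pos hw0 (show 0 < T.m (v 3) - 2 * T.m (v 4) by linarith)
      linarith only [r4, this]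
    exact ⟨fun j => v j, T.w (v 0), Or.inl (fun j => rfl), Or.inr (Or.inl ⟨(show T.w (v 0) = T.w (v 0) by linarith), (show T.w (v 1) = T.w (v 0) by linarith), (show T.w (v 2) = T.w (v 0) by linarith), (show T.w (v 3) = T.w (v 0) by linarith), (show T.w (v 4) = 2 * T.w (v 0) by linarith), (show T.a (v 0) (v 1) = T.w (v 0) by linarith), (show T.a (v 1) (v 2) = T.w (v 0) by linarith), (show T.a (v 2) (v 3) = T.w (v 0) by linarith), (show T.a (v 3) (v 4) = 2 * T.w (v 0) by linarith), mi0, mi1, mi2, mi3, mi4⟩)⟩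
  · -- EEEG
    have hlt3 : T.w (v 3) < 3 * T.w (v 4) := by
      by_contra hc; push Not at hc
      have tv12 := Groth.Agent.helper11.quad_test T v hn (![0, 0, 1, 2, 3] : Fin 5 → ℤ) 2 (by decide)
      have htv12_0 : (![0, 0, 1, 2, 3] : Fin 5 → ℤ) 0 = 0 := rfl
      have htv12_1 : (![0, 0, 1, 2, 3] : Fin 5 → ℤ) 1 = 0 := rfl
      have htv12_2 : (![0, 0, 1, 2, 3] : Fin 5 → ℤ) 2 = 1 := rfl
      have htv12_3 : (![0, 0, 1, 2, 3] : Fin 5 → ℤ) 3 = 2 := rfl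
      have htv12_4 : (![0, 0, 1, 2, 3] : Fin 5 → ℤ) 4 = 3 := rfl
      simp only [Fin.sum_univ_five] at tv12
      simp only [htv12_0, htv12_1, htv12_2, htv12_3, htv12_4] at tv12
      norm_num at tv12
      linarith
    have hr3 : T.w (v 3) = 2 * T.w (v 4) := Groth.Agent.helper11.eq_two_mul_of_dvd (hwp 4) d3 z3 hlt3
    have A0_0 : T.a (v 0) (v 0) = -2 * 2 * T.w (v 4) := by linarith
    have A0_1 : T.a (v 0) (v 1) = 2 * T.w (v 4) := by linarith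
    have A0_2 : T.a (v 0) (v 2) = 0 := by linarith
    have A0_3 : T.a (v 0) (v 3) = 0 := by linarith
    have A0_4 : T.a (v 0) (v 4) = 0 := by linarith
    have A1_0 : T.a (v 1) (v 0) = 2 * T.w (v 4) := by linarith
    have A1_1 : T.a (v 1) (v 1) = -2 * 2 * T.w (v 4) := by linarith
    have A1_2 : T.a (v 1) (v 2) = 2 * T.w (v 4) := by linarith
    have A1_3 : T.a (v 1) (v 3) = 0 := by linarith
    have A1_4 : T.a (v 1) (v 4) = 0 := by linarith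
    have A2_0 : T.a (v 2) (v 0) = 0 := by linarith
    have A2_1 : T.a (v 2) (v 1) = 2 * T.w (v 4) := by linarith
    have A2_2 : T.a (v 2) (v 2) = -2 * 2 * T.w (v 4) := by linarith
    have A2_3 : T.a (v 2) (v 3) = 2 * T.w (v 4) := by linarith
    have A2_4 : T.a (v 2) (v 4) = 0 := by linarith
    have A3_0 : T.a (v 3) (v 0) = 0 := by linarith
    have A3_1 : T.a (v 3) (v 1) = 0 := by linarith
    have A3_2 : T.a (v 3) (v 2) = 2 * T.w (v 4) := by linarith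
    have A3_3 : T.a (v 3) (v 3) = -2 * 2 * T.w (v 4) := by linarith
    have A3_4 : T.a (v 3) (v 4) = 2 * T.w (v 4) := by linarith
    have A4_0 : T.a (v 4) (v 0) = 0 := by linarith
    have A4_1 : T.a (v 4) (v 1) = 0 := by linarith
    have A4_2 : T.a (v 4) (v 2) = 0 := by linarith
    have A4_3 : T.a (v 4) (v 3) = 2 * T.w (v 4) := by linarith
    have A4_4 : T.a (v 4) (v 4) = -2 * T.w (v 4) := by linarith
    have W0 : T.w (v 0) = 2 * T.w (v 4) := by linarith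
    have W1 : T.w (v 1) = 2 * T.w (v 4) := by linarith
    have W2 : T.w (v 2) = 2 * T.w (v 4) := by linarith
    have W3 : T.w (v 3) = 2 * T.w (v 4) := by linarith
    have W4 : T.w (v 4) = T.w (v 4) := by linarith
    have hw0 := hwp 4
    have r0 := Groth.Agent.helper11.row_sum_le T v 0
    simp only [Fin.sum_univ_five] at r0
    simp only [A0_0, A0_1, A0_2, A0_3, A0_4] at r0
    have mi0 : T.m (v 1) ≤ 2 * T.m (v 0) := by
      by_contra hc; push Not at hc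
      have := mul_pos hw0 (show 0 < T.m (v 1) - 2 * T.m (v 0) by linarith)
      linarith only [r0, this]
    have r1 := Groth.Agent.helper11.row_sum_le T v 1
    simp only [Fin.sum_univ_five] at r1
    simp only [A1_0, A1_1, A1_2, A1_3, A1_4] at r1
    have mi1 : T.m (v 0) + T.m (v 2) ≤ 2 * T.m (v 1) := by
      by_contra hc; push Not at hc
      have := mul_pos hw0 (show 0 < T.m (v 0) + T.m (v 2) - 2 * T.m (v 1) by linarith)
      linarith only [r1, this]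
    have r2 := Groth.Agent.helper11.row_sum_le T v 2
    simp only [Fin.sum_univ_five] at r2
    simp only [A2_0, A2_1, A2_2, A2_3, A2_4] at r2
    have mi2 : T.m (v 1) + T.m (v 3) ≤ 2 * T.m (v 2) := by
      by_contra hc; push Not at hc
      have := mul_pos hw0 (show 0 < T.m (v 1) + T.m (v 3) - 2 * T.m (v 2) by linarith)
      linarith only [r2, this]
    have r3 := Groth.Agent.helper11.row_sum_le T v 3
    simp only [Fin.sum_univ_five] at r3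
    simp only [A3_0, A3_1, A3_2, A3_3, A3_4] at r3
    have mi3 : T.m (v 2) + T.m (v 4) ≤ 2 * T.m (v 3) := by
      by_contra hc; push Not at hc
      have := mul_pos hw0 (show 0 < T.m (v 2) + T.m (v 4) - 2 * T.m (v 3) by linarith)
      linarith only [r3, this]
    have r4 := Groth.Agent.helper11.row_sum_le T v 4
    simp only [Fin.sum_univ_five] at r4
    simp only [A4_0, A4_1, A4_2, A4_3, A4_4] at r4
    have mi4 : T.m (v 3) ≤ T.m (v 4) := by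
      by_contra hc; push Not at hc
      have := mul_pos hw0 (show 0 < T.m (v 3) - T.m (v 4) by linarith)
      linarith only [r4, this]
    exact ⟨fun j => v j, T.w (v 4), Or.inl (fun j => rfl), Or.inr (Or.inr (⟨(show T.w (v 0) = 2 * T.w (v 4) by linarith), (show T.w (v 1) = 2 * T.w (v 4) by linarith), (show T.w (v 2) = 2 * T.w (v 4) by linarith), (show T.w (v 3) = 2 * T.w (v 4) by linarith), (show T.w (v 4) = T.w (v 4) by linarith), (show T.a (v 0) (v 1) = 2 * T.w (v 4) by linarith), (show T.a (v 1) (v 2) = 2 * T.w (v 4) by linarith), (show T.a (v 2) (v 3) = 2 * T.w (v 4) by linarith), (show T.a (v 3) (v 4) = 2 * T.w (v 4) by linarith), mi0, mi1, mi2, mi3, mi4⟩))⟩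
  · -- EELE
    exfalso
    have tv13 := Groth.Agent.helper11.quad_test T v hn (![1, 2, 3, 2, 1] : Fin 5 → ℤ) 0 (by decide)
    have htv13_0 : (![1, 2, 3, 2, 1] : Fin 5 → ℤ) 0 = 1 := rfl
    have htv13_1 : (![1, 2, 3, 2, 1] : Fin 5 → ℤ) 1 = 2 := rfl
    have htv13_2 : (![1, 2, 3, 2, 1] : Fin 5 → ℤ) 2 = 3 := rfl
    have htv13_3 : (![1, 2, 3, 2, 1] : Fin 5 → ℤ) 3 = 2 := rfl
    have htv13_4 : (![1, 2, 3, 2, 1] : Fin 5 → ℤ) 4 = 1 := rfl
    simp only [Fin.sum_univ_five] at tv13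
    simp only [htv13_0, htv13_1, htv13_2, htv13_3, htv13_4] at tv13
    norm_num at tv13
    linarith
  · -- EELL
    exfalso
    have tv14 := Groth.Agent.helper11.quad_test T v hn (![0, 0, 2, 2, 1] : Fin 5 → ℤ) 2 (by decide)
    have htv14_0 : (![0, 0, 2, 2, 1] : Fin 5 → ℤ) 0 = 0 := rfl
    have htv14_1 : (![0, 0, 2, 2, 1] : Fin 5 → ℤ) 1 = 0 := rfl
    have htv14_2 : (![0, 0, 2, 2, 1] : Fin 5 → ℤ) 2 = 2 := rfl
    have htv14_3 : (![0, 0, 2, 2, 1] : Fin 5 → ℤ) 3 = 2 := rfl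
    have htv14_4 : (![0, 0, 2, 2, 1] : Fin 5 → ℤ) 4 = 1 := rfl
    simp only [Fin.sum_univ_five] at tv14
    simp only [htv14_0, htv14_1, htv14_2, htv14_3, htv14_4] at tv14
    norm_num at tv14
    linarith
  · -- EELG
    exfalso
    have tv15 := Groth.Agent.helper11.quad_test T v hn (![0, 0, 1, 1, 1] : Fin 5 → ℤ) 2 (by decide)
    have htv15_0 : (![0, 0, 1, 1, 1] : Fin 5 → ℤ) 0 = 0 := rfl
    have htv15_1 : (![0, 0, 1, 1, 1] : Fin 5 → ℤ) 1 = 0 := rfl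
    have htv15_2 : (![0, 0, 1, 1, 1] : Fin 5 → ℤ) 2 = 1 := rfl
    have htv15_3 : (![0, 0, 1, 1, 1] : Fin 5 → ℤ) 3 = 1 := rfl
    have htv15_4 : (![0, 0, 1, 1, 1] : Fin 5 → ℤ) 4 = 1 := rfl
    simp only [Fin.sum_univ_five] at tv15
    simp only [htv15_0, htv15_1, htv15_2, htv15_3, htv15_4] at tv15
    norm_num at tv15
    linarith
  · -- EEGE
    exfalso
    have tv16 := Groth.Agent.helper11.quad_test T v hn (![1, 2, 3, 4, 2] : Fin 5 → ℤ) 0 (by decide)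
    have htv16_0 : (![1, 2, 3, 4, 2] : Fin 5 → ℤ) 0 = 1 := rfl
    have htv16_1 : (![1, 2, 3, 4, 2] : Fin 5 → ℤ) 1 = 2 := rfl
    have htv16_2 : (![1, 2, 3, 4, 2] : Fin 5 → ℤ) 2 = 3 := rfl
    have htv16_3 : (![1, 2, 3, 4, 2] : Fin 5 → ℤ) 3 = 4 := rfl
    have htv16_4 : (![1, 2, 3, 4, 2] : Fin 5 → ℤ) 4 = 2 := rfl
    simp only [Fin.sum_univ_five] at tv16
    simp only [htv16_0, htv16_1, htv16_2, htv16_3, htv16_4] at tv16
    norm_num at tv16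
    linarith
  · -- EEGL
    exfalso
    have tv17 := Groth.Agent.helper11.quad_test T v hn (![0, 0, 1, 2, 1] : Fin 5 → ℤ) 2 (by decide)
    have htv17_0 : (![0, 0, 1, 2, 1] : Fin 5 → ℤ) 0 = 0 := rfl
    have htv17_1 : (![0, 0, 1, 2, 1] : Fin 5 → ℤ) 1 = 0 := rfl
    have htv17_2 : (![0, 0, 1, 2, 1] : Fin 5 → ℤ) 2 = 1 := rfl
    have htv17_3 : (![0, 0, 1, 2, 1] : Fin 5 → ℤ) 3 = 2 := rfl
    have htv17_4 : (![0, 0, 1, 2, 1] : Fin 5 → ℤ) 4 = 1 := rfl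
    simp only [Fin.sum_univ_five] at tv17
    simp only [htv17_0, htv17_1, htv17_2, htv17_3, htv17_4] at tv17
    norm_num at tv17
    linarith
  · -- EEGG
    exfalso
    have tv18 := Groth.Agent.helper11.quad_test T v hn (![0, 0, 1, 2, 2] : Fin 5 → ℤ) 2 (by decide)
    have htv18_0 : (![0, 0, 1, 2, 2] : Fin 5 → ℤ) 0 = 0 := rfl
    have htv18_1 : (![0, 0, 1, 2, 2] : Fin 5 → ℤ) 1 = 0 := rfl
    have htv18_2 : (![0, 0, 1, 2, 2] : Fin 5 → ℤ) 2 = 1 := rfl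
    have htv18_3 : (![0, 0, 1, 2, 2] : Fin 5 → ℤ) 3 = 2 := rfl
    have htv18_4 : (![0, 0, 1, 2, 2] : Fin 5 → ℤ) 4 = 2 := rfl
    simp only [Fin.sum_univ_five] at tv18
    simp only [htv18_0, htv18_1, htv18_2, htv18_3, htv18_4] at tv18
    norm_num at tv18
    linarith
  · -- ELEE
    exfalso
    have tv19 := Groth.Agent.helper11.quad_test T v hn (![2, 4, 3, 2, 1] : Fin 5 → ℤ) 0 (by decide)
    have htv19_0 : (![2, 4, 3, 2, 1] : Fin 5 → ℤ) 0 = 2 := rfl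
    have htv19_1 : (![2, 4, 3, 2, 1] : Fin 5 → ℤ) 1 = 4 := rfl
    have htv19_2 : (![2, 4, 3, 2, 1] : Fin 5 → ℤ) 2 = 3 := rfl
    have htv19_3 : (![2, 4, 3, 2, 1] : Fin 5 → ℤ) 3 = 2 := rfl
    have htv19_4 : (![2, 4, 3, 2, 1] : Fin 5 → ℤ) 4 = 1 := rfl
    simp only [Fin.sum_univ_five] at tv19
    simp only [htv19_0, htv19_1, htv19_2, htv19_3, htv19_4] at tv19
    norm_num at tv19
    linarith
  · -- ELEL
    exfalso
    have tv20 := Groth.Agent.helper11.quad_test T v hn (![0, 2, 2, 2, 1] : Fin 5 → ℤ) 1 (by decide)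
    have htv20_0 : (![0, 2, 2, 2, 1] : Fin 5 → ℤ) 0 = 0 := rfl
    have htv20_1 : (![0, 2, 2, 2, 1] : Fin 5 → ℤ) 1 = 2 := rfl
    have htv20_2 : (![0, 2, 2, 2, 1] : Fin 5 → ℤ) 2 = 2 := rfl
    have htv20_3 : (![0, 2, 2, 2, 1] : Fin 5 → ℤ) 3 = 2 := rfl
    have htv20_4 : (![0, 2, 2, 2, 1] : Fin 5 → ℤ) 4 = 1 := rfl
    simp only [Fin.sum_univ_five] at tv20
    simp only [htv20_0, htv20_1, htv20_2, htv20_3, htv20_4] at tv20
    norm_num at tv20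
    linarith
  · -- ELEG
    exfalso
    have tv21 := Groth.Agent.helper11.quad_test T v hn (![0, 1, 1, 1, 1] : Fin 5 → ℤ) 1 (by decide)
    have htv21_0 : (![0, 1, 1, 1, 1] : Fin 5 → ℤ) 0 = 0 := rfl
    have htv21_1 : (![0, 1, 1, 1, 1] : Fin 5 → ℤ) 1 = 1 := rfl
    have htv21_2 : (![0, 1, 1, 1, 1] : Fin 5 → ℤ) 2 = 1 := rfl
    have htv21_3 : (![0, 1, 1, 1, 1] : Fin 5 → ℤ) 3 = 1 := rfl
    have htv21_4 : (![0, 1, 1, 1, 1] : Fin 5 → ℤ) 4 = 1 := rfl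
    simp only [Fin.sum_univ_five] at tv21
    simp only [htv21_0, htv21_1, htv21_2, htv21_3, htv21_4] at tv21
    norm_num at tv21
    linarith
  · -- ELLE
    exfalso
    have tv22 := Groth.Agent.helper11.quad_test T v hn (![0, 2, 2, 1, 0] : Fin 5 → ℤ) 1 (by decide)
    have htv22_0 : (![0, 2, 2, 1, 0] : Fin 5 → ℤ) 0 = 0 := rfl
    have htv22_1 : (![0, 2, 2, 1, 0] : Fin 5 → ℤ) 1 = 2 := rfl
    have htv22_2 : (![0, 2, 2, 1, 0] : Fin 5 → ℤ) 2 = 2 := rfl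
    have htv22_3 : (![0, 2, 2, 1, 0] : Fin 5 → ℤ) 3 = 1 := rfl
    have htv22_4 : (![0, 2, 2, 1, 0] : Fin 5 → ℤ) 4 = 0 := rfl
    simp only [Fin.sum_univ_five] at tv22
    simp only [htv22_0, htv22_1, htv22_2, htv22_3, htv22_4] at tv22
    norm_num at tv22
    linarith
  · -- ELLL
    exfalso
    have tv23 := Groth.Agent.helper11.quad_test T v hn (![0, 0, 2, 2, 1] : Fin 5 → ℤ) 2 (by decide)
    have htv23_0 : (![0, 0, 2, 2, 1] : Fin 5 → ℤ) 0 = 0 := rfl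
    have htv23_1 : (![0, 0, 2, 2, 1] : Fin 5 → ℤ) 1 = 0 := rfl
    have htv23_2 : (![0, 0, 2, 2, 1] : Fin 5 → ℤ) 2 = 2 := rfl
    have htv23_3 : (![0, 0, 2, 2, 1] : Fin 5 → ℤ) 3 = 2 := rfl
    have htv23_4 : (![0, 0, 2, 2, 1] : Fin 5 → ℤ) 4 = 1 := rfl
    simp only [Fin.sum_univ_five] at tv23
    simp only [htv23_0, htv23_1, htv23_2, htv23_3, htv23_4] at tv23
    norm_num at tv23
    linarith
  · -- ELLG
    exfalso
    have tv24 := Groth.Agent.helper11.quad_test T v hn (![0, 0, 1, 1, 1] : Fin 5 → ℤ) 2 (by decide)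
    have htv24_0 : (![0, 0, 1, 1, 1] : Fin 5 → ℤ) 0 = 0 := rfl
    have htv24_1 : (![0, 0, 1, 1, 1] : Fin 5 → ℤ) 1 = 0 := rfl
    have htv24_2 : (![0, 0, 1, 1, 1] : Fin 5 → ℤ) 2 = 1 := rfl
    have htv24_3 : (![0, 0, 1, 1, 1] : Fin 5 → ℤ) 3 = 1 := rfl
    have htv24_4 : (![0, 0, 1, 1, 1] : Fin 5 → ℤ) 4 = 1 := rfl
    simp only [Fin.sum_univ_five] at tv24
    simp only [htv24_0, htv24_1, htv24_2, htv24_3, htv24_4] at tv24
    norm_num at tv24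
    linarith
  · -- ELGE
    exfalso
    have tv25 := Groth.Agent.helper11.quad_test T v hn (![0, 1, 1, 1, 0] : Fin 5 → ℤ) 1 (by decide)
    have htv25_0 : (![0, 1, 1, 1, 0] : Fin 5 → ℤ) 0 = 0 := rfl
    have htv25_1 : (![0, 1, 1, 1, 0] : Fin 5 → ℤ) 1 = 1 := rfl
    have htv25_2 : (![0, 1, 1, 1, 0] : Fin 5 → ℤ) 2 = 1 := rfl
    have htv25_3 : (![0, 1, 1, 1, 0] : Fin 5 → ℤ) 3 = 1 := rfl
    have htv25_4 : (![0, 1, 1, 1, 0] : Fin 5 → ℤ) 4 = 0 := rfl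
    simp only [Fin.sum_univ_five] at tv25
    simp only [htv25_0, htv25_1, htv25_2, htv25_3, htv25_4] at tv25
    norm_num at tv25
    linarith
  · -- ELGL
    exfalso
    have tv26 := Groth.Agent.helper11.quad_test T v hn (![0, 1, 1, 1, 0] : Fin 5 → ℤ) 1 (by decide)
    have htv26_0 : (![0, 1, 1, 1, 0] : Fin 5 → ℤ) 0 = 0 := rfl
    have htv26_1 : (![0, 1, 1, 1, 0] : Fin 5 → ℤ) 1 = 1 := rfl
    have htv26_2 : (![0, 1, 1, 1, 0] : Fin 5 → ℤ) 2 = 1 := rfl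
    have htv26_3 : (![0, 1, 1, 1, 0] : Fin 5 → ℤ) 3 = 1 := rfl
    have htv26_4 : (![0, 1, 1, 1, 0] : Fin 5 → ℤ) 4 = 0 := rfl
    simp only [Fin.sum_univ_five] at tv26
    simp only [htv26_0, htv26_1, htv26_2, htv26_3, htv26_4] at tv26
    norm_num at tv26
    linarith
  · -- ELGG
    exfalso
    have tv27 := Groth.Agent.helper11.quad_test T v hn (![0, 1, 1, 1, 0] : Fin 5 → ℤ) 1 (by decide)
    have htv27_0 : (![0, 1, 1, 1, 0] : Fin 5 → ℤ) 0 = 0 := rfl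
    have htv27_1 : (![0, 1, 1, 1, 0] : Fin 5 → ℤ) 1 = 1 := rfl
    have htv27_2 : (![0, 1, 1, 1, 0] : Fin 5 → ℤ) 2 = 1 := rfl
    have htv27_3 : (![0, 1, 1, 1, 0] : Fin 5 → ℤ) 3 = 1 := rfl
    have htv27_4 : (![0, 1, 1, 1, 0] : Fin 5 → ℤ) 4 = 0 := rfl
    simp only [Fin.sum_univ_five] at tv27
    simp only [htv27_0, htv27_1, htv27_2, htv27_3, htv27_4] at tv27
    norm_num at tv27
    linarith
  · -- EGEE
    exfalso
    have tv28 := Groth.Agent.helper11.quad_test T v hn (![1, 2, 3, 2, 1] : Fin 5 → ℤ) 0 (by decide)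
    have htv28_0 : (![1, 2, 3, 2, 1] : Fin 5 → ℤ) 0 = 1 := rfl
    have htv28_1 : (![1, 2, 3, 2, 1] : Fin 5 → ℤ) 1 = 2 := rfl
    have htv28_2 : (![1, 2, 3, 2, 1] : Fin 5 → ℤ) 2 = 3 := rfl
    have htv28_3 : (![1, 2, 3, 2, 1] : Fin 5 → ℤ) 3 = 2 := rfl
    have htv28_4 : (![1, 2, 3, 2, 1] : Fin 5 → ℤ) 4 = 1 := rfl
    simp only [Fin.sum_univ_five] at tv28
    simp only [htv28_0, htv28_1, htv28_2, htv28_3, htv28_4] at tv28
    norm_num at tv28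
    linarith
  · -- EGEL
    exfalso
    have tv29 := Groth.Agent.helper11.quad_test T v hn (![0, 1, 2, 2, 1] : Fin 5 → ℤ) 1 (by decide)
    have htv29_0 : (![0, 1, 2, 2, 1] : Fin 5 → ℤ) 0 = 0 := rfl
    have htv29_1 : (![0, 1, 2, 2, 1] : Fin 5 → ℤ) 1 = 1 := rfl
    have htv29_2 : (![0, 1, 2, 2, 1] : Fin 5 → ℤ) 2 = 2 := rfl
    have htv29_3 : (![0, 1, 2, 2, 1] : Fin 5 → ℤ) 3 = 2 := rfl
    have htv29_4 : (![0, 1, 2, 2, 1] : Fin 5 → ℤ) 4 = 1 := rfl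
    simp only [Fin.sum_univ_five] at tv29
    simp only [htv29_0, htv29_1, htv29_2, htv29_3, htv29_4] at tv29
    norm_num at tv29
    linarith
  · -- EGEG
    exfalso
    have tv30 := Groth.Agent.helper11.quad_test T v hn (![0, 1, 2, 2, 2] : Fin 5 → ℤ) 1 (by decide)
    have htv30_0 : (![0, 1, 2, 2, 2] : Fin 5 → ℤ) 0 = 0 := rfl
    have htv30_1 : (![0, 1, 2, 2, 2] : Fin 5 → ℤ) 1 = 1 := rfl
    have htv30_2 : (![0, 1, 2, 2, 2] : Fin 5 → ℤ) 2 = 2 := rfl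
    have htv30_3 : (![0, 1, 2, 2, 2] : Fin 5 → ℤ) 3 = 2 := rfl
    have htv30_4 : (![0, 1, 2, 2, 2] : Fin 5 → ℤ) 4 = 2 := rfl
    simp only [Fin.sum_univ_five] at tv30
    simp only [htv30_0, htv30_1, htv30_2, htv30_3, htv30_4] at tv30
    norm_num at tv30
    linarith
  · -- EGLE
    exfalso
    have tv31 := Groth.Agent.helper11.quad_test T v hn (![0, 1, 2, 1, 0] : Fin 5 → ℤ) 1 (by decide)
    have htv31_0 : (![0, 1, 2, 1, 0] : Fin 5 → ℤ) 0 = 0 := rfl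
    have htv31_1 : (![0, 1, 2, 1, 0] : Fin 5 → ℤ) 1 = 1 := rfl
    have htv31_2 : (![0, 1, 2, 1, 0] : Fin 5 → ℤ) 2 = 2 := rfl
    have htv31_3 : (![0, 1, 2, 1, 0] : Fin 5 → ℤ) 3 = 1 := rfl
    have htv31_4 : (![0, 1, 2, 1, 0] : Fin 5 → ℤ) 4 = 0 := rfl
    simp only [Fin.sum_univ_five] at tv31
    simp only [htv31_0, htv31_1, htv31_2, htv31_3, htv31_4] at tv31
    norm_num at tv31
    linarith
  · -- EGLL
    exfalso
    have tv32 := Groth.Agent.helper11.quad_test T v hn (![0, 1, 2, 1, 0] : Fin 5 → ℤ) 1 (by decide)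
    have htv32_0 : (![0, 1, 2, 1, 0] : Fin 5 → ℤ) 0 = 0 := rfl
    have htv32_1 : (![0, 1, 2, 1, 0] : Fin 5 → ℤ) 1 = 1 := rfl
    have htv32_2 : (![0, 1, 2, 1, 0] : Fin 5 → ℤ) 2 = 2 := rfl
    have htv32_3 : (![0, 1, 2, 1, 0] : Fin 5 → ℤ) 3 = 1 := rfl
    have htv32_4 : (![0, 1, 2, 1, 0] : Fin 5 → ℤ) 4 = 0 := rfl
    simp only [Fin.sum_univ_five] at tv32
    simp only [htv32_0, htv32_1, htv32_2, htv32_3, htv32_4] at tv32
    norm_num at tv32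
    linarith
  · -- EGLG
    exfalso
    have tv33 := Groth.Agent.helper11.quad_test T v hn (![0, 0, 1, 1, 1] : Fin 5 → ℤ) 2 (by decide)
    have htv33_0 : (![0, 0, 1, 1, 1] : Fin 5 → ℤ) 0 = 0 := rfl
    have htv33_1 : (![0, 0, 1, 1, 1] : Fin 5 → ℤ) 1 = 0 := rfl
    have htv33_2 : (![0, 0, 1, 1, 1] : Fin 5 → ℤ) 2 = 1 := rfl
    have htv33_3 : (![0, 0, 1, 1, 1] : Fin 5 → ℤ) 3 = 1 := rfl
    have htv33_4 : (![0, 0, 1, 1, 1] : Fin 5 → ℤ) 4 = 1 := rfl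
    simp only [Fin.sum_univ_five] at tv33
    simp only [htv33_0, htv33_1, htv33_2, htv33_3, htv33_4] at tv33
    norm_num at tv33
    linarith
  · -- EGGE
    exfalso
    have tv34 := Groth.Agent.helper11.quad_test T v hn (![0, 1, 2, 2, 0] : Fin 5 → ℤ) 1 (by decide)
    have htv34_0 : (![0, 1, 2, 2, 0] : Fin 5 → ℤ) 0 = 0 := rfl
    have htv34_1 : (![0, 1, 2, 2, 0] : Fin 5 → ℤ) 1 = 1 := rfl
    have htv34_2 : (![0, 1, 2, 2, 0] : Fin 5 → ℤ) 2 = 2 := rfl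
    have htv34_3 : (![0, 1, 2, 2, 0] : Fin 5 → ℤ) 3 = 2 := rfl
    have htv34_4 : (![0, 1, 2, 2, 0] : Fin 5 → ℤ) 4 = 0 := rfl
    simp only [Fin.sum_univ_five] at tv34
    simp only [htv34_0, htv34_1, htv34_2, htv34_3, htv34_4] at tv34
    norm_num at tv34
    linarith
  · -- EGGL
    exfalso
    have tv35 := Groth.Agent.helper11.quad_test T v hn (![0, 0, 1, 2, 1] : Fin 5 → ℤ) 2 (by decide)
    have htv35_0 : (![0, 0, 1, 2, 1] : Fin 5 → ℤ) 0 = 0 := rfl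
    have htv35_1 : (![0, 0, 1, 2, 1] : Fin 5 → ℤ) 1 = 0 := rfl
    have htv35_2 : (![0, 0, 1, 2, 1] : Fin 5 → ℤ) 2 = 1 := rfl
    have htv35_3 : (![0, 0, 1, 2, 1] : Fin 5 → ℤ) 3 = 2 := rfl
    have htv35_4 : (![0, 0, 1, 2, 1] : Fin 5 → ℤ) 4 = 1 := rfl
    simp only [Fin.sum_univ_five] at tv35
    simp only [htv35_0, htv35_1, htv35_2, htv35_3, htv35_4] at tv35
    norm_num at tv35
    linarith
  · -- EGGG
    exfalso
    have tv36 := Groth.Agent.helper11.quad_test T v hn (![0, 0, 1, 2, 2] : Fin 5 → ℤ) 2 (by decide)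
    have htv36_0 : (![0, 0, 1, 2, 2] : Fin 5 → ℤ) 0 = 0 := rfl
    have htv36_1 : (![0, 0, 1, 2, 2] : Fin 5 → ℤ) 1 = 0 := rfl
    have htv36_2 : (![0, 0, 1, 2, 2] : Fin 5 → ℤ) 2 = 1 := rfl
    have htv36_3 : (![0, 0, 1, 2, 2] : Fin 5 → ℤ) 3 = 2 := rfl
    have htv36_4 : (![0, 0, 1, 2, 2] : Fin 5 → ℤ) 4 = 2 := rfl
    simp only [Fin.sum_univ_five] at tv36
    simp only [htv36_0, htv36_1, htv36_2, htv36_3, htv36_4] at tv36
    norm_num at tv36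
    linarith
  · -- LEEE
    have hlt0 : T.w (v 1) < 3 * T.w (v 0) := by
      by_contra hc; push Not at hc
      have tv37 := Groth.Agent.helper11.quad_test T v hn (![3, 2, 1, 0, 0] : Fin 5 → ℤ) 0 (by decide)
      have htv37_0 : (![3, 2, 1, 0, 0] : Fin 5 → ℤ) 0 = 3 := rfl
      have htv37_1 : (![3, 2, 1, 0, 0] : Fin 5 → ℤ) 1 = 2 := rfl
      have htv37_2 : (![3, 2, 1, 0, 0] : Fin 5 → ℤ) 2 = 1 := rfl
      have htv37_3 : (![3, 2, 1, 0, 0] : Fin 5 → ℤ) 3 = 0 := rfl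
      have htv37_4 : (![3, 2, 1, 0, 0] : Fin 5 → ℤ) 4 = 0 := rfl
      simp only [Fin.sum_univ_five] at tv37
      simp only [htv37_0, htv37_1, htv37_2, htv37_3, htv37_4] at tv37
      norm_num at tv37
      linarith
    have hr0 : T.w (v 1) = 2 * T.w (v 0) := Groth.Agent.helper11.eq_two_mul_of_dvd (hwp 0) d0 z0 hlt0
    have A0_0 : T.a (v 0) (v 0) = -2 * T.w (v 0) := by linarith
    have A0_1 : T.a (v 0) (v 1) = 2 * T.w (v 0) := by linarith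
    have A0_2 : T.a (v 0) (v 2) = 0 := by linarith
    have A0_3 : T.a (v 0) (v 3) = 0 := by linarith
    have A0_4 : T.a (v 0) (v 4) = 0 := by linarith
    have A1_0 : T.a (v 1) (v 0) = 2 * T.w (v 0) := by linarith
    have A1_1 : T.a (v 1) (v 1) = -2 * 2 * T.w (v 0) := by linarith
    have A1_2 : T.a (v 1) (v 2) = 2 * T.w (v 0) := by linarith
    have A1_3 : T.a (v 1) (v 3) = 0 := by linarith
    have A1_4 : T.a (v 1) (v 4) = 0 := by linarith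
    have A2_0 : T.a (v 2) (v 0) = 0 := by linarith
    have A2_1 : T.a (v 2) (v 1) = 2 * T.w (v 0) := by linarith
    have A2_2 : T.a (v 2) (v 2) = -2 * 2 * T.w (v 0) := by linarith
    have A2_3 : T.a (v 2) (v 3) = 2 * T.w (v 0) := by linarith
    have A2_4 : T.a (v 2) (v 4) = 0 := by linarith
    have A3_0 : T.a (v 3) (v 0) = 0 := by linarith
    have A3_1 : T.a (v 3) (v 1) = 0 := by linarith
    have A3_2 : T.a (v 3) (v 2) = 2 * T.w (v 0) := by linarith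
    have A3_3 : T.a (v 3) (v 3) = -2 * 2 * T.w (v 0) := by linarith
    have A3_4 : T.a (v 3) (v 4) = 2 * T.w (v 0) := by linarith
    have A4_0 : T.a (v 4) (v 0) = 0 := by linarith
    have A4_1 : T.a (v 4) (v 1) = 0 := by linarith
    have A4_2 : T.a (v 4) (v 2) = 0 := by linarith
    have A4_3 : T.a (v 4) (v 3) = 2 * T.w (v 0) := by linarith
    have A4_4 : T.a (v 4) (v 4) = -2 * 2 * T.w (v 0) := by linarith
    have W0 : T.w (v 0) = T.w (v 0) := by linarith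
    have W1 : T.w (v 1) = 2 * T.w (v 0) := by linarith
    have W2 : T.w (v 2) = 2 * T.w (v 0) := by linarith
    have W3 : T.w (v 3) = 2 * T.w (v 0) := by linarith
    have W4 : T.w (v 4) = 2 * T.w (v 0) := by linarith
    have hw0 := hwp 0
    have r0 := Groth.Agent.helper11.row_sum_le T v 4
    simp only [Fin.sum_univ_five] at r0
    simp only [A4_0, A4_1, A4_2, A4_3, A4_4] at r0
    have mi0 : T.m (v 3) ≤ 2 * T.m (v 4) := by
      by_contra hc; push Not at hc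
      have := mul_pos hw0 (show 0 < T.m (v 3) - 2 * T.m (v 4) by linarith)
      linarith only [r0, this]
    have r1 := Groth.Agent.helper11.row_sum_le T v 3
    simp only [Fin.sum_univ_five] at r1
    simp only [A3_0, A3_1, A3_2, A3_3, A3_4] at r1
    have mi1 : T.m (v 4) + T.m (v 2) ≤ 2 * T.m (v 3) := by
      by_contra hc; push Not at hc
      have := mul_pos hw0 (show 0 < T.m (v 4) + T.m (v 2) - 2 * T.m (v 3) by linarith)
      linarith only [r1, this]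
    have r2 := Groth.Agent.helper11.row_sum_le T v 2
    simp only [Fin.sum_univ_five] at r2
    simp only [A2_0, A2_1, A2_2, A2_3, A2_4] at r2
    have mi2 : T.m (v 3) + T.m (v 1) ≤ 2 * T.m (v 2) := by
      by_contra hc; push Not at hc
      have := mul_pos hw0 (show 0 < T.m (v 3) + T.m (v 1) - 2 * T.m (v 2) by linarith)
      linarith only [r2, this]
    have r3 := Groth.Agent.helper11.row_sum_le T v 1
    simp only [Fin.sum_univ_five] at r3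
    simp only [A1_0, A1_1, A1_2, A1_3, A1_4] at r3
    have mi3 : T.m (v 2) + T.m (v 0) ≤ 2 * T.m (v 1) := by
      by_contra hc; push Not at hc
      have := mul_pos hw0 (show 0 < T.m (v 2) + T.m (v 0) - 2 * T.m (v 1) by linarith)
      linarith only [r3, this]
    have r4 := Groth.Agent.helper11.row_sum_le T v 0
    simp only [Fin.sum_univ_five] at r4
    simp only [A0_0, A0_1, A0_2, A0_3, A0_4] at r4
    have mi4 : T.m (v 1) ≤ T.m (v 0) := by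
      by_contra hc; push Not at hc
      have := mul_pos hw0 (show 0 < T.m (v 1) - T.m (v 0) by linarith)
      linarith only [r4, this]
    exact ⟨fun j => v (Fin.rev j), T.w (v 0), Or.inr (fun j => rfl), Or.inr (Or.inr (⟨(show T.w (v 4) = 2 * T.w (v 0) by linarith), (show T.w (v 3) = 2 * T.w (v 0) by linarith), (show T.w (v 2) = 2 * T.w (v 0) by linarith), (show T.w (v 1) = 2 * T.w (v 0) by linarith), (show T.w (v 0) = T.w (v 0) by linarith), (show T.a (v 4) (v 3) = 2 * T.w (v 0) by linarith), (show T.a (v 3) (v 2) = 2 * T.w (v 0) by linarith), (show T.a (v 2) (v 1) = 2 * T.w (v 0) by linarith), (show T.a (v 1) (v 0) = 2 * T.w (v 0) by linarith), mi0, mi1, mi2, mi3, mi4⟩))⟩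
  · -- LEEL
    exfalso
    have tv38 := Groth.Agent.helper11.quad_test T v hn (![2, 2, 2, 2, 1] : Fin 5 → ℤ) 0 (by decide)
    have htv38_0 : (![2, 2, 2, 2, 1] : Fin 5 → ℤ) 0 = 2 := rfl
    have htv38_1 : (![2, 2, 2, 2, 1] : Fin 5 → ℤ) 1 = 2 := rfl
    have htv38_2 : (![2, 2, 2, 2, 1] : Fin 5 → ℤ) 2 = 2 := rfl
    have htv38_3 : (![2, 2, 2, 2, 1] : Fin 5 → ℤ) 3 = 2 := rfl
    have htv38_4 : (![2, 2, 2, 2, 1] : Fin 5 → ℤ) 4 = 1 := rfl
    simp only [Fin.sum_univ_five] at tv38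
    simp only [htv38_0, htv38_1, htv38_2, htv38_3, htv38_4] at tv38
    norm_num at tv38
    linarith
  · -- LEEG
    exfalso
    have tv39 := Groth.Agent.helper11.quad_test T v hn (![1, 1, 1, 1, 1] : Fin 5 → ℤ) 0 (by decide)
    have htv39_0 : (![1, 1, 1, 1, 1] : Fin 5 → ℤ) 0 = 1 := rfl
    have htv39_1 : (![1, 1, 1, 1, 1] : Fin 5 → ℤ) 1 = 1 := rfl
    have htv39_2 : (![1, 1, 1, 1, 1] : Fin 5 → ℤ) 2 = 1 := rfl
    have htv39_3 : (![1, 1, 1, 1, 1] : Fin 5 → ℤ) 3 = 1 := rfl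
    have htv39_4 : (![1, 1, 1, 1, 1] : Fin 5 → ℤ) 4 = 1 := rfl
    simp only [Fin.sum_univ_five] at tv39
    simp only [htv39_0, htv39_1, htv39_2, htv39_3, htv39_4] at tv39
    norm_num at tv39
    linarith
  · -- LELE
    exfalso
    have tv40 := Groth.Agent.helper11.quad_test T v hn (![2, 2, 2, 1, 0] : Fin 5 → ℤ) 0 (by decide)
    have htv40_0 : (![2, 2, 2, 1, 0] : Fin 5 → ℤ) 0 = 2 := rfl
    have htv40_1 : (![2, 2, 2, 1, 0] : Fin 5 → ℤ) 1 = 2 := rfl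
    have htv40_2 : (![2, 2, 2, 1, 0] : Fin 5 → ℤ) 2 = 2 := rfl
    have htv40_3 : (![2, 2, 2, 1, 0] : Fin 5 → ℤ) 3 = 1 := rfl
    have htv40_4 : (![2, 2, 2, 1, 0] : Fin 5 → ℤ) 4 = 0 := rfl
    simp only [Fin.sum_univ_five] at tv40
    simp only [htv40_0, htv40_1, htv40_2, htv40_3, htv40_4] at tv40
    norm_num at tv40
    linarith
  · -- LELL
    exfalso
    have tv41 := Groth.Agent.helper11.quad_test T v hn (![0, 0, 2, 2, 1] : Fin 5 → ℤ) 2 (by decide)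
    have htv41_0 : (![0, 0, 2, 2, 1] : Fin 5 → ℤ) 0 = 0 := rfl
    have htv41_1 : (![0, 0, 2, 2, 1] : Fin 5 → ℤ) 1 = 0 := rfl
    have htv41_2 : (![0, 0, 2, 2, 1] : Fin 5 → ℤ) 2 = 2 := rfl
    have htv41_3 : (![0, 0, 2, 2, 1] : Fin 5 → ℤ) 3 = 2 := rfl
    have htv41_4 : (![0, 0, 2, 2, 1] : Fin 5 → ℤ) 4 = 1 := rfl
    simp only [Fin.sum_univ_five] at tv41
    simp only [htv41_0, htv41_1, htv41_2, htv41_3, htv41_4] at tv41
    norm_num at tv41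
    linarith
  · -- LELG
    exfalso
    have tv42 := Groth.Agent.helper11.quad_test T v hn (![0, 0, 1, 1, 1] : Fin 5 → ℤ) 2 (by decide)
    have htv42_0 : (![0, 0, 1, 1, 1] : Fin 5 → ℤ) 0 = 0 := rfl
    have htv42_1 : (![0, 0, 1, 1, 1] : Fin 5 → ℤ) 1 = 0 := rfl
    have htv42_2 : (![0, 0, 1, 1, 1] : Fin 5 → ℤ) 2 = 1 := rfl
    have htv42_3 : (![0, 0, 1, 1, 1] : Fin 5 → ℤ) 3 = 1 := rfl
    have htv42_4 : (![0, 0, 1, 1, 1] : Fin 5 → ℤ) 4 = 1 := rfl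
    simp only [Fin.sum_univ_five] at tv42
    simp only [htv42_0, htv42_1, htv42_2, htv42_3, htv42_4] at tv42
    norm_num at tv42
    linarith
  · -- LEGE
    exfalso
    have tv43 := Groth.Agent.helper11.quad_test T v hn (![1, 1, 1, 1, 0] : Fin 5 → ℤ) 0 (by decide)
    have htv43_0 : (![1, 1, 1, 1, 0] : Fin 5 → ℤ) 0 = 1 := rfl
    have htv43_1 : (![1, 1, 1, 1, 0] : Fin 5 → ℤ) 1 = 1 := rfl
    have htv43_2 : (![1, 1, 1, 1, 0] : Fin 5 → ℤ) 2 = 1 := rfl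
    have htv43_3 : (![1, 1, 1, 1, 0] : Fin 5 → ℤ) 3 = 1 := rfl
    have htv43_4 : (![1, 1, 1, 1, 0] : Fin 5 → ℤ) 4 = 0 := rfl
    simp only [Fin.sum_univ_five] at tv43
    simp only [htv43_0, htv43_1, htv43_2, htv43_3, htv43_4] at tv43
    norm_num at tv43
    linarith
  · -- LEGL
    exfalso
    have tv44 := Groth.Agent.helper11.quad_test T v hn (![0, 0, 1, 2, 1] : Fin 5 → ℤ) 2 (by decide)
    have htv44_0 : (![0, 0, 1, 2, 1] : Fin 5 → ℤ) 0 = 0 := rfl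
    have htv44_1 : (![0, 0, 1, 2, 1] : Fin 5 → ℤ) 1 = 0 := rfl
    have htv44_2 : (![0, 0, 1, 2, 1] : Fin 5 → ℤ) 2 = 1 := rfl
    have htv44_3 : (![0, 0, 1, 2, 1] : Fin 5 → ℤ) 3 = 2 := rfl
    have htv44_4 : (![0, 0, 1, 2, 1] : Fin 5 → ℤ) 4 = 1 := rfl
    simp only [Fin.sum_univ_five] at tv44
    simp only [htv44_0, htv44_1, htv44_2, htv44_3, htv44_4] at tv44
    norm_num at tv44
    linarith
  · -- LEGG
    exfalso
    have tv45 := Groth.Agent.helper11.quad_test T v hn (![1, 1, 1, 1, 0] : Fin 5 → ℤ) 0 (by decide)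
    have htv45_0 : (![1, 1, 1, 1, 0] : Fin 5 → ℤ) 0 = 1 := rfl
    have htv45_1 : (![1, 1, 1, 1, 0] : Fin 5 → ℤ) 1 = 1 := rfl
    have htv45_2 : (![1, 1, 1, 1, 0] : Fin 5 → ℤ) 2 = 1 := rfl
    have htv45_3 : (![1, 1, 1, 1, 0] : Fin 5 → ℤ) 3 = 1 := rfl
    have htv45_4 : (![1, 1, 1, 1, 0] : Fin 5 → ℤ) 4 = 0 := rfl
    simp only [Fin.sum_univ_five] at tv45
    simp only [htv45_0, htv45_1, htv45_2, htv45_3, htv45_4] at tv45
    norm_num at tv45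
    linarith
  · -- LLEE
    exfalso
    have tv46 := Groth.Agent.helper11.quad_test T v hn (![2, 2, 1, 0, 0] : Fin 5 → ℤ) 0 (by decide)
    have htv46_0 : (![2, 2, 1, 0, 0] : Fin 5 → ℤ) 0 = 2 := rfl
    have htv46_1 : (![2, 2, 1, 0, 0] : Fin 5 → ℤ) 1 = 2 := rfl
    have htv46_2 : (![2, 2, 1, 0, 0] : Fin 5 → ℤ) 2 = 1 := rfl
    have htv46_3 : (![2, 2, 1, 0, 0] : Fin 5 → ℤ) 3 = 0 := rfl
    have htv46_4 : (![2, 2, 1, 0, 0] : Fin 5 → ℤ) 4 = 0 := rfl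
    simp only [Fin.sum_univ_five] at tv46
    simp only [htv46_0, htv46_1, htv46_2, htv46_3, htv46_4] at tv46
    norm_num at tv46
    linarith
  · -- LLEL
    exfalso
    have tv47 := Groth.Agent.helper11.quad_test T v hn (![2, 2, 1, 0, 0] : Fin 5 → ℤ) 0 (by decide)
    have htv47_0 : (![2, 2, 1, 0, 0] : Fin 5 → ℤ) 0 = 2 := rfl
    have htv47_1 : (![2, 2, 1, 0, 0] : Fin 5 → ℤ) 1 = 2 := rfl
    have htv47_2 : (![2, 2, 1, 0, 0] : Fin 5 → ℤ) 2 = 1 := rfl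
    have htv47_3 : (![2, 2, 1, 0, 0] : Fin 5 → ℤ) 3 = 0 := rfl
    have htv47_4 : (![2, 2, 1, 0, 0] : Fin 5 → ℤ) 4 = 0 := rfl
    simp only [Fin.sum_univ_five] at tv47
    simp only [htv47_0, htv47_1, htv47_2, htv47_3, htv47_4] at tv47
    norm_num at tv47
    linarith
  · -- LLEG
    exfalso
    have tv48 := Groth.Agent.helper11.quad_test T v hn (![0, 1, 1, 1, 1] : Fin 5 → ℤ) 1 (by decide)
    have htv48_0 : (![0, 1, 1, 1, 1] : Fin 5 → ℤ) 0 = 0 := rfl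
    have htv48_1 : (![0, 1, 1, 1, 1] : Fin 5 → ℤ) 1 = 1 := rfl
    have htv48_2 : (![0, 1, 1, 1, 1] : Fin 5 → ℤ) 2 = 1 := rfl
    have htv48_3 : (![0, 1, 1, 1, 1] : Fin 5 → ℤ) 3 = 1 := rfl
    have htv48_4 : (![0, 1, 1, 1, 1] : Fin 5 → ℤ) 4 = 1 := rfl
    simp only [Fin.sum_univ_five] at tv48
    simp only [htv48_0, htv48_1, htv48_2, htv48_3, htv48_4] at tv48
    norm_num at tv48
    linarith
  · -- LLLE
    exfalso
    have tv49 := Groth.Agent.helper11.quad_test T v hn (![0, 2, 2, 1, 0] : Fin 5 → ℤ) 1 (by decide)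
    have htv49_0 : (![0, 2, 2, 1, 0] : Fin 5 → ℤ) 0 = 0 := rfl
    have htv49_1 : (![0, 2, 2, 1, 0] : Fin 5 → ℤ) 1 = 2 := rfl
    have htv49_2 : (![0, 2, 2, 1, 0] : Fin 5 → ℤ) 2 = 2 := rfl
    have htv49_3 : (![0, 2, 2, 1, 0] : Fin 5 → ℤ) 3 = 1 := rfl
    have htv49_4 : (![0, 2, 2, 1, 0] : Fin 5 → ℤ) 4 = 0 := rfl
    simp only [Fin.sum_univ_five] at tv49
    simp only [htv49_0, htv49_1, htv49_2, htv49_3, htv49_4] at tv49
    norm_num at tv49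
    linarith
  · -- LLLL
    exfalso
    have tv50 := Groth.Agent.helper11.quad_test T v hn (![0, 0, 2, 2, 1] : Fin 5 → ℤ) 2 (by decide)
    have htv50_0 : (![0, 0, 2, 2, 1] : Fin 5 → ℤ) 0 = 0 := rfl
    have htv50_1 : (![0, 0, 2, 2, 1] : Fin 5 → ℤ) 1 = 0 := rfl
    have htv50_2 : (![0, 0, 2, 2, 1] : Fin 5 → ℤ) 2 = 2 := rfl
    have htv50_3 : (![0, 0, 2, 2, 1] : Fin 5 → ℤ) 3 = 2 := rfl
    have htv50_4 : (![0, 0, 2, 2, 1] : Fin 5 → ℤ) 4 = 1 := rfl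
    simp only [Fin.sum_univ_five] at tv50
    simp only [htv50_0, htv50_1, htv50_2, htv50_3, htv50_4] at tv50
    norm_num at tv50
    linarith
  · -- LLLG
    exfalso
    have tv51 := Groth.Agent.helper11.quad_test T v hn (![0, 0, 1, 1, 1] : Fin 5 → ℤ) 2 (by decide)
    have htv51_0 : (![0, 0, 1, 1, 1] : Fin 5 → ℤ) 0 = 0 := rfl
    have htv51_1 : (![0, 0, 1, 1, 1] : Fin 5 → ℤ) 1 = 0 := rfl
    have htv51_2 : (![0, 0, 1, 1, 1] : Fin 5 → ℤ) 2 = 1 := rfl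
    have htv51_3 : (![0, 0, 1, 1, 1] : Fin 5 → ℤ) 3 = 1 := rfl
    have htv51_4 : (![0, 0, 1, 1, 1] : Fin 5 → ℤ) 4 = 1 := rfl
    simp only [Fin.sum_univ_five] at tv51
    simp only [htv51_0, htv51_1, htv51_2, htv51_3, htv51_4] at tv51
    norm_num at tv51
    linarith
  · -- LLGE
    exfalso
    have tv52 := Groth.Agent.helper11.quad_test T v hn (![0, 1, 1, 1, 0] : Fin 5 → ℤ) 1 (by decide)
    have htv52_0 : (![0, 1, 1, 1, 0] : Fin 5 → ℤ) 0 = 0 := rfl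
    have htv52_1 : (![0, 1, 1, 1, 0] : Fin 5 → ℤ) 1 = 1 := rfl
    have htv52_2 : (![0, 1, 1, 1, 0] : Fin 5 → ℤ) 2 = 1 := rfl
    have htv52_3 : (![0, 1, 1, 1, 0] : Fin 5 → ℤ) 3 = 1 := rfl
    have htv52_4 : (![0, 1, 1, 1, 0] : Fin 5 → ℤ) 4 = 0 := rfl
    simp only [Fin.sum_univ_five] at tv52
    simp only [htv52_0, htv52_1, htv52_2, htv52_3, htv52_4] at tv52
    norm_num at tv52
    linarith
  · -- LLGL
    exfalso
    have tv53 := Groth.Agent.helper11.quad_test T v hn (![0, 1, 1, 1, 0] : Fin 5 → ℤ) 1 (by decide)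
    have htv53_0 : (![0, 1, 1, 1, 0] : Fin 5 → ℤ) 0 = 0 := rfl
    have htv53_1 : (![0, 1, 1, 1, 0] : Fin 5 → ℤ) 1 = 1 := rfl
    have htv53_2 : (![0, 1, 1, 1, 0] : Fin 5 → ℤ) 2 = 1 := rfl
    have htv53_3 : (![0, 1, 1, 1, 0] : Fin 5 → ℤ) 3 = 1 := rfl
    have htv53_4 : (![0, 1, 1, 1, 0] : Fin 5 → ℤ) 4 = 0 := rfl
    simp only [Fin.sum_univ_five] at tv53
    simp only [htv53_0, htv53_1, htv53_2, htv53_3, htv53_4] at tv53
    norm_num at tv53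
    linarith
  · -- LLGG
    exfalso
    have tv54 := Groth.Agent.helper11.quad_test T v hn (![0, 1, 1, 1, 0] : Fin 5 → ℤ) 1 (by decide)
    have htv54_0 : (![0, 1, 1, 1, 0] : Fin 5 → ℤ) 0 = 0 := rfl
    have htv54_1 : (![0, 1, 1, 1, 0] : Fin 5 → ℤ) 1 = 1 := rfl
    have htv54_2 : (![0, 1, 1, 1, 0] : Fin 5 → ℤ) 2 = 1 := rfl
    have htv54_3 : (![0, 1, 1, 1, 0] : Fin 5 → ℤ) 3 = 1 := rfl
    have htv54_4 : (![0, 1, 1, 1, 0] : Fin 5 → ℤ) 4 = 0 := rfl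
    simp only [Fin.sum_univ_five] at tv54
    simp only [htv54_0, htv54_1, htv54_2, htv54_3, htv54_4] at tv54
    norm_num at tv54
    linarith
  · -- LGEE
    exfalso
    have tv55 := Groth.Agent.helper11.quad_test T v hn (![1, 1, 1, 0, 0] : Fin 5 → ℤ) 0 (by decide)
    have htv55_0 : (![1, 1, 1, 0, 0] : Fin 5 → ℤ) 0 = 1 := rfl
    have htv55_1 : (![1, 1, 1, 0, 0] : Fin 5 → ℤ) 1 = 1 := rfl
    have htv55_2 : (![1, 1, 1, 0, 0] : Fin 5 → ℤ) 2 = 1 := rfl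
    have htv55_3 : (![1, 1, 1, 0, 0] : Fin 5 → ℤ) 3 = 0 := rfl
    have htv55_4 : (![1, 1, 1, 0, 0] : Fin 5 → ℤ) 4 = 0 := rfl
    simp only [Fin.sum_univ_five] at tv55
    simp only [htv55_0, htv55_1, htv55_2, htv55_3, htv55_4] at tv55
    norm_num at tv55
    linarith
  · -- LGEL
    exfalso
    have tv56 := Groth.Agent.helper11.quad_test T v hn (![1, 1, 1, 0, 0] : Fin 5 → ℤ) 0 (by decide)
    have htv56_0 : (![1, 1, 1, 0, 0] : Fin 5 → ℤ) 0 = 1 := rfl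
    have htv56_1 : (![1, 1, 1, 0, 0] : Fin 5 → ℤ) 1 = 1 := rfl
    have htv56_2 : (![1, 1, 1, 0, 0] : Fin 5 → ℤ) 2 = 1 := rfl
    have htv56_3 : (![1, 1, 1, 0, 0] : Fin 5 → ℤ) 3 = 0 := rfl
    have htv56_4 : (![1, 1, 1, 0, 0] : Fin 5 → ℤ) 4 = 0 := rfl
    simp only [Fin.sum_univ_five] at tv56
    simp only [htv56_0, htv56_1, htv56_2, htv56_3, htv56_4] at tv56
    norm_num at tv56
    linarith
  · -- LGEG
    exfalso
    have tv57 := Groth.Agent.helper11.quad_test T v hn (![1, 1, 1, 0, 0] : Fin 5 → ℤ) 0 (by decide)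
    have htv57_0 : (![1, 1, 1, 0, 0] : Fin 5 → ℤ) 0 = 1 := rfl
    have htv57_1 : (![1, 1, 1, 0, 0] : Fin 5 → ℤ) 1 = 1 := rfl
    have htv57_2 : (![1, 1, 1, 0, 0] : Fin 5 → ℤ) 2 = 1 := rfl
    have htv57_3 : (![1, 1, 1, 0, 0] : Fin 5 → ℤ) 3 = 0 := rfl
    have htv57_4 : (![1, 1, 1, 0, 0] : Fin 5 → ℤ) 4 = 0 := rfl
    simp only [Fin.sum_univ_five] at tv57
    simp only [htv57_0, htv57_1, htv57_2, htv57_3, htv57_4] at tv57
    norm_num at tv57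
    linarith
  · -- LGLE
    exfalso
    have tv58 := Groth.Agent.helper11.quad_test T v hn (![1, 1, 1, 0, 0] : Fin 5 → ℤ) 0 (by decide)
    have htv58_0 : (![1, 1, 1, 0, 0] : Fin 5 → ℤ) 0 = 1 := rfl
    have htv58_1 : (![1, 1, 1, 0, 0] : Fin 5 → ℤ) 1 = 1 := rfl
    have htv58_2 : (![1, 1, 1, 0, 0] : Fin 5 → ℤ) 2 = 1 := rfl
    have htv58_3 : (![1, 1, 1, 0, 0] : Fin 5 → ℤ) 3 = 0 := rfl
    have htv58_4 : (![1, 1, 1, 0, 0] : Fin 5 → ℤ) 4 = 0 := rfl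
    simp only [Fin.sum_univ_five] at tv58
    simp only [htv58_0, htv58_1, htv58_2, htv58_3, htv58_4] at tv58
    norm_num at tv58
    linarith
  · -- LGLL
    exfalso
    have tv59 := Groth.Agent.helper11.quad_test T v hn (![1, 1, 1, 0, 0] : Fin 5 → ℤ) 0 (by decide)
    have htv59_0 : (![1, 1, 1, 0, 0] : Fin 5 → ℤ) 0 = 1 := rfl
    have htv59_1 : (![1, 1, 1, 0, 0] : Fin 5 → ℤ) 1 = 1 := rfl
    have htv59_2 : (![1, 1, 1, 0, 0] : Fin 5 → ℤ) 2 = 1 := rfl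
    have htv59_3 : (![1, 1, 1, 0, 0] : Fin 5 → ℤ) 3 = 0 := rfl
    have htv59_4 : (![1, 1, 1, 0, 0] : Fin 5 → ℤ) 4 = 0 := rfl
    simp only [Fin.sum_univ_five] at tv59
    simp only [htv59_0, htv59_1, htv59_2, htv59_3, htv59_4] at tv59
    norm_num at tv59
    linarith
  · -- LGLG
    exfalso
    have tv60 := Groth.Agent.helper11.quad_test T v hn (![0, 0, 1, 1, 1] : Fin 5 → ℤ) 2 (by decide)
    have htv60_0 : (![0, 0, 1, 1, 1] : Fin 5 → ℤ) 0 = 0 := rfl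
    have htv60_1 : (![0, 0, 1, 1, 1] : Fin 5 → ℤ) 1 = 0 := rfl
    have htv60_2 : (![0, 0, 1, 1, 1] : Fin 5 → ℤ) 2 = 1 := rfl
    have htv60_3 : (![0, 0, 1, 1, 1] : Fin 5 → ℤ) 3 = 1 := rfl
    have htv60_4 : (![0, 0, 1, 1, 1] : Fin 5 → ℤ) 4 = 1 := rfl
    simp only [Fin.sum_univ_five] at tv60
    simp only [htv60_0, htv60_1, htv60_2, htv60_3, htv60_4] at tv60
    norm_num at tv60
    linarith
  · -- LGGE
    exfalso
    have tv61 := Groth.Agent.helper11.quad_test T v hn (![1, 1, 1, 0, 0] : Fin 5 → ℤ) 0 (by decide)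
    have htv61_0 : (![1, 1, 1, 0, 0] : Fin 5 → ℤ) 0 = 1 := rfl
    have htv61_1 : (![1, 1, 1, 0, 0] : Fin 5 → ℤ) 1 = 1 := rfl
    have htv61_2 : (![1, 1, 1, 0, 0] : Fin 5 → ℤ) 2 = 1 := rfl
    have htv61_3 : (![1, 1, 1, 0, 0] : Fin 5 → ℤ) 3 = 0 := rfl
    have htv61_4 : (![1, 1, 1, 0, 0] : Fin 5 → ℤ) 4 = 0 := rfl
    simp only [Fin.sum_univ_five] at tv61
    simp only [htv61_0, htv61_1, htv61_2, htv61_3, htv61_4] at tv61
    norm_num at tv61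
    linarith
  · -- LGGL
    exfalso
    have tv62 := Groth.Agent.helper11.quad_test T v hn (![1, 1, 1, 0, 0] : Fin 5 → ℤ) 0 (by decide)
    have htv62_0 : (![1, 1, 1, 0, 0] : Fin 5 → ℤ) 0 = 1 := rfl
    have htv62_1 : (![1, 1, 1, 0, 0] : Fin 5 → ℤ) 1 = 1 := rfl
    have htv62_2 : (![1, 1, 1, 0, 0] : Fin 5 → ℤ) 2 = 1 := rfl
    have htv62_3 : (![1, 1, 1, 0, 0] : Fin 5 → ℤ) 3 = 0 := rfl
    have htv62_4 : (![1, 1, 1, 0, 0] : Fin 5 → ℤ) 4 = 0 := rfl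
    simp only [Fin.sum_univ_five] at tv62
    simp only [htv62_0, htv62_1, htv62_2, htv62_3, htv62_4] at tv62
    norm_num at tv62
    linarith
  · -- LGGG
    exfalso
    have tv63 := Groth.Agent.helper11.quad_test T v hn (![1, 1, 1, 0, 0] : Fin 5 → ℤ) 0 (by decide)
    have htv63_0 : (![1, 1, 1, 0, 0] : Fin 5 → ℤ) 0 = 1 := rfl
    have htv63_1 : (![1, 1, 1, 0, 0] : Fin 5 → ℤ) 1 = 1 := rfl
    have htv63_2 : (![1, 1, 1, 0, 0] : Fin 5 → ℤ) 2 = 1 := rfl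
    have htv63_3 : (![1, 1, 1, 0, 0] : Fin 5 → ℤ) 3 = 0 := rfl
    have htv63_4 : (![1, 1, 1, 0, 0] : Fin 5 → ℤ) 4 = 0 := rfl
    simp only [Fin.sum_univ_five] at tv63
    simp only [htv63_0, htv63_1, htv63_2, htv63_3, htv63_4] at tv63
    norm_num at tv63
    linarith
  · -- GEEE
    have hlt0 : T.w (v 0) < 3 * T.w (v 1) := by
      by_contra hc; push Not at hc
      have tv64 := Groth.Agent.helper11.quad_test T v hn (![1, 2, 1, 0, 0] : Fin 5 → ℤ) 0 (by decide)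
      have htv64_0 : (![1, 2, 1, 0, 0] : Fin 5 → ℤ) 0 = 1 := rfl
      have htv64_1 : (![1, 2, 1, 0, 0] : Fin 5 → ℤ) 1 = 2 := rfl
      have htv64_2 : (![1, 2, 1, 0, 0] : Fin 5 → ℤ) 2 = 1 := rfl
      have htv64_3 : (![1, 2, 1, 0, 0] : Fin 5 → ℤ) 3 = 0 := rfl
      have htv64_4 : (![1, 2, 1, 0, 0] : Fin 5 → ℤ) 4 = 0 := rfl
      simp only [Fin.sum_univ_five] at tv64
      simp only [htv64_0, htv64_1, htv64_2, htv64_3, htv64_4] at tv64
      norm_num at tv64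
      linarith
    have hr0 : T.w (v 0) = 2 * T.w (v 1) := Groth.Agent.helper11.eq_two_mul_of_dvd (hwp 1) d0 z0 hlt0
    have A0_0 : T.a (v 0) (v 0) = -2 * 2 * T.w (v 4) := by linarith
    have A0_1 : T.a (v 0) (v 1) = 2 * T.w (v 4) := by linarith
    have A0_2 : T.a (v 0) (v 2) = 0 := by linarith
    have A0_3 : T.a (v 0) (v 3) = 0 := by linarith
    have A0_4 : T.a (v 0) (v 4) = 0 := by linarith
    have A1_0 : T.a (v 1) (v 0) = 2 * T.w (v 4) := by linarith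
    have A1_1 : T.a (v 1) (v 1) = -2 * T.w (v 4) := by linarith
    have A1_2 : T.a (v 1) (v 2) = T.w (v 4) := by linarith
    have A1_3 : T.a (v 1) (v 3) = 0 := by linarith
    have A1_4 : T.a (v 1) (v 4) = 0 := by linarith
    have A2_0 : T.a (v 2) (v 0) = 0 := by linarith
    have A2_1 : T.a (v 2) (v 1) = T.w (v 4) := by linarith
    have A2_2 : T.a (v 2) (v 2) = -2 * T.w (v 4) := by linarith
    have A2_3 : T.a (v 2) (v 3) = T.w (v 4) := by linarith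
    have A2_4 : T.a (v 2) (v 4) = 0 := by linarith
    have A3_0 : T.a (v 3) (v 0) = 0 := by linarith
    have A3_1 : T.a (v 3) (v 1) = 0 := by linarith
    have A3_2 : T.a (v 3) (v 2) = T.w (v 4) := by linarith
    have A3_3 : T.a (v 3) (v 3) = -2 * T.w (v 4) := by linarith
    have A3_4 : T.a (v 3) (v 4) = T.w (v 4) := by linarith
    have A4_0 : T.a (v 4) (v 0) = 0 := by linarith
    have A4_1 : T.a (v 4) (v 1) = 0 := by linarith
    have A4_2 : T.a (v 4) (v 2) = 0 := by linarith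
    have A4_3 : T.a (v 4) (v 3) = T.w (v 4) := by linarith
    have A4_4 : T.a (v 4) (v 4) = -2 * T.w (v 4) := by linarith
    have W0 : T.w (v 0) = 2 * T.w (v 4) := by linarith
    have W1 : T.w (v 1) = T.w (v 4) := by linarith
    have W2 : T.w (v 2) = T.w (v 4) := by linarith
    have W3 : T.w (v 3) = T.w (v 4) := by linarith
    have W4 : T.w (v 4) = T.w (v 4) := by linarith
    have hw0 := hwp 4
    have r0 := Groth.Agent.helper11.row_sum_le T v 4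
    simp only [Fin.sum_univ_five] at r0
    simp only [A4_0, A4_1, A4_2, A4_3, A4_4] at r0
    have mi0 : T.m (v 3) ≤ 2 * T.m (v 4) := by
      by_contra hc; push Not at hc
      have := mul_pos hw0 (show 0 < T.m (v 3) - 2 * T.m (v 4) by linarith)
      linarith only [r0, this]
    have r1 := Groth.Agent.helper11.row_sum_le T v 3
    simp only [Fin.sum_univ_five] at r1
    simp only [A3_0, A3_1, A3_2, A3_3, A3_4] at r1
    have mi1 : T.m (v 4) + T.m (v 2) ≤ 2 * T.m (v 3) := by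
      by_contra hc; push Not at hc
      have := mul_pos hw0 (show 0 < T.m (v 4) + T.m (v 2) - 2 * T.m (v 3) by linarith)
      linarith only [r1, this]
    have r2 := Groth.Agent.helper11.row_sum_le T v 2
    simp only [Fin.sum_univ_five] at r2
    simp only [A2_0, A2_1, A2_2, A2_3, A2_4] at r2
    have mi2 : T.m (v 3) + T.m (v 1) ≤ 2 * T.m (v 2) := by
      by_contra hc; push Not at hc
      have := mul_pos hw0 (show 0 < T.m (v 3) + T.m (v 1) - 2 * T.m (v 2) by linarith)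
      linarith only [r2, this]
    have r3 := Groth.Agent.helper11.row_sum_le T v 1
    simp only [Fin.sum_univ_five] at r3
    simp only [A1_0, A1_1, A1_2, A1_3, A1_4] at r3
    have mi3 : T.m (v 2) + 2 * T.m (v 0) ≤ 2 * T.m (v 1) := by
      by_contra hc; push Not at hc
      have := mul_pos hw0 (show 0 < T.m (v 2) + 2 * T.m (v 0) - 2 * T.m (v 1) by linarith)
      linarith only [r3, this]
    have r4 := Groth.Agent.helper11.row_sum_le T v 0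
    simp only [Fin.sum_univ_five] at r4
    simp only [A0_0, A0_1, A0_2, A0_3, A0_4] at r4
    have mi4 : T.m (v 1) ≤ 2 * T.m (v 0) := by
      by_contra hc; push Not at hc
      have := mul_pos hw0 (show 0 < T.m (v 1) - 2 * T.m (v 0) by linarith)
      linarith only [r4, this]
    exact ⟨fun j => v (Fin.rev j), T.w (v 4), Or.inr (fun j => rfl), Or.inr (Or.inl ⟨(show T.w (v 4) = T.w (v 4) by linarith), (show T.w (v 3) = T.w (v 4) by linarith), (show T.w (v 2) = T.w (v 4) by linarith), (show T.w (v 1) = T.w (v 4) by linarith), (show T.w (v 0) = 2 * T.w (v 4) by linarith), (show T.a (v 4) (v 3) = T.w (v 4) by linarith), (show T.a (v 3) (v 2) = T.w (v 4) by linarith), (show T.a (v 2) (v 1) = T.w (v 4) by linarith), (show T.a (v 1) (v 0) = 2 * T.w (v 4) by linarith), mi0, mi1, mi2, mi3, mi4⟩)⟩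
  · -- GEEL
    exfalso
    have tv65 := Groth.Agent.helper11.quad_test T v hn (![1, 2, 2, 2, 1] : Fin 5 → ℤ) 0 (by decide)
    have htv65_0 : (![1, 2, 2, 2, 1] : Fin 5 → ℤ) 0 = 1 := rfl
    have htv65_1 : (![1, 2, 2, 2, 1] : Fin 5 → ℤ) 1 = 2 := rfl
    have htv65_2 : (![1, 2, 2, 2, 1] : Fin 5 → ℤ) 2 = 2 := rfl
    have htv65_3 : (![1, 2, 2, 2, 1] : Fin 5 → ℤ) 3 = 2 := rfl
    have htv65_4 : (![1, 2, 2, 2, 1] : Fin 5 → ℤ) 4 = 1 := rfl
    simp only [Fin.sum_univ_five] at tv65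
    simp only [htv65_0, htv65_1, htv65_2, htv65_3, htv65_4] at tv65
    norm_num at tv65
    linarith
  · -- GEEG
    exfalso
    have tv66 := Groth.Agent.helper11.quad_test T v hn (![1, 2, 2, 2, 2] : Fin 5 → ℤ) 0 (by decide)
    have htv66_0 : (![1, 2, 2, 2, 2] : Fin 5 → ℤ) 0 = 1 := rfl
    have htv66_1 : (![1, 2, 2, 2, 2] : Fin 5 → ℤ) 1 = 2 := rfl
    have htv66_2 : (![1, 2, 2, 2, 2] : Fin 5 → ℤ) 2 = 2 := rfl
    have htv66_3 : (![1, 2, 2, 2, 2] : Fin 5 → ℤ) 3 = 2 := rfl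
    have htv66_4 : (![1, 2, 2, 2, 2] : Fin 5 → ℤ) 4 = 2 := rfl
    simp only [Fin.sum_univ_five] at tv66
    simp only [htv66_0, htv66_1, htv66_2, htv66_3, htv66_4] at tv66
    norm_num at tv66
    linarith
  · -- GELE
    exfalso
    have tv67 := Groth.Agent.helper11.quad_test T v hn (![1, 2, 2, 1, 0] : Fin 5 → ℤ) 0 (by decide)
    have htv67_0 : (![1, 2, 2, 1, 0] : Fin 5 → ℤ) 0 = 1 := rfl
    have htv67_1 : (![1, 2, 2, 1, 0] : Fin 5 → ℤ) 1 = 2 := rfl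
    have htv67_2 : (![1, 2, 2, 1, 0] : Fin 5 → ℤ) 2 = 2 := rfl
    have htv67_3 : (![1, 2, 2, 1, 0] : Fin 5 → ℤ) 3 = 1 := rfl
    have htv67_4 : (![1, 2, 2, 1, 0] : Fin 5 → ℤ) 4 = 0 := rfl
    simp only [Fin.sum_univ_five] at tv67
    simp only [htv67_0, htv67_1, htv67_2, htv67_3, htv67_4] at tv67
    norm_num at tv67
    linarith
  · -- GELL
    exfalso
    have tv68 := Groth.Agent.helper11.quad_test T v hn (![0, 0, 2, 2, 1] : Fin 5 → ℤ) 2 (by decide)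
    have htv68_0 : (![0, 0, 2, 2, 1] : Fin 5 → ℤ) 0 = 0 := rfl
    have htv68_1 : (![0, 0, 2, 2, 1] : Fin 5 → ℤ) 1 = 0 := rfl
    have htv68_2 : (![0, 0, 2, 2, 1] : Fin 5 → ℤ) 2 = 2 := rfl
    have htv68_3 : (![0, 0, 2, 2, 1] : Fin 5 → ℤ) 3 = 2 := rfl
    have htv68_4 : (![0, 0, 2, 2, 1] : Fin 5 → ℤ) 4 = 1 := rfl
    simp only [Fin.sum_univ_five] at tv68
    simp only [htv68_0, htv68_1, htv68_2, htv68_3, htv68_4] at tv68
    norm_num at tv68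
    linarith
  · -- GELG
    exfalso
    have tv69 := Groth.Agent.helper11.quad_test T v hn (![0, 0, 1, 1, 1] : Fin 5 → ℤ) 2 (by decide)
    have htv69_0 : (![0, 0, 1, 1, 1] : Fin 5 → ℤ) 0 = 0 := rfl
    have htv69_1 : (![0, 0, 1, 1, 1] : Fin 5 → ℤ) 1 = 0 := rfl
    have htv69_2 : (![0, 0, 1, 1, 1] : Fin 5 → ℤ) 2 = 1 := rfl
    have htv69_3 : (![0, 0, 1, 1, 1] : Fin 5 → ℤ) 3 = 1 := rfl
    have htv69_4 : (![0, 0, 1, 1, 1] : Fin 5 → ℤ) 4 = 1 := rfl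
    simp only [Fin.sum_univ_five] at tv69
    simp only [htv69_0, htv69_1, htv69_2, htv69_3, htv69_4] at tv69
    norm_num at tv69
    linarith
  · -- GEGE
    exfalso
    have tv70 := Groth.Agent.helper11.quad_test T v hn (![1, 2, 2, 2, 0] : Fin 5 → ℤ) 0 (by decide)
    have htv70_0 : (![1, 2, 2, 2, 0] : Fin 5 → ℤ) 0 = 1 := rfl
    have htv70_1 : (![1, 2, 2, 2, 0] : Fin 5 → ℤ) 1 = 2 := rfl
    have htv70_2 : (![1, 2, 2, 2, 0] : Fin 5 → ℤ) 2 = 2 := rfl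
    have htv70_3 : (![1, 2, 2, 2, 0] : Fin 5 → ℤ) 3 = 2 := rfl
    have htv70_4 : (![1, 2, 2, 2, 0] : Fin 5 → ℤ) 4 = 0 := rfl
    simp only [Fin.sum_univ_five] at tv70
    simp only [htv70_0, htv70_1, htv70_2, htv70_3, htv70_4] at tv70
    norm_num at tv70
    linarith
  · -- GEGL
    exfalso
    have tv71 := Groth.Agent.helper11.quad_test T v hn (![0, 0, 1, 2, 1] : Fin 5 → ℤ) 2 (by decide)
    have htv71_0 : (![0, 0, 1, 2, 1] : Fin 5 → ℤ) 0 = 0 := rfl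
    have htv71_1 : (![0, 0, 1, 2, 1] : Fin 5 → ℤ) 1 = 0 := rfl
    have htv71_2 : (![0, 0, 1, 2, 1] : Fin 5 → ℤ) 2 = 1 := rfl
    have htv71_3 : (![0, 0, 1, 2, 1] : Fin 5 → ℤ) 3 = 2 := rfl
    have htv71_4 : (![0, 0, 1, 2, 1] : Fin 5 → ℤ) 4 = 1 := rfl
    simp only [Fin.sum_univ_five] at tv71
    simp only [htv71_0, htv71_1, htv71_2, htv71_3, htv71_4] at tv71
    norm_num at tv71
    linarith
  · -- GEGG
    exfalso
    have tv72 := Groth.Agent.helper11.quad_test T v hn (![0, 0, 1, 2, 2] : Fin 5 → ℤ) 2 (by decide)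
    have htv72_0 : (![0, 0, 1, 2, 2] : Fin 5 → ℤ) 0 = 0 := rfl
    have htv72_1 : (![0, 0, 1, 2, 2] : Fin 5 → ℤ) 1 = 0 := rfl
    have htv72_2 : (![0, 0, 1, 2, 2] : Fin 5 → ℤ) 2 = 1 := rfl
    have htv72_3 : (![0, 0, 1, 2, 2] : Fin 5 → ℤ) 3 = 2 := rfl
    have htv72_4 : (![0, 0, 1, 2, 2] : Fin 5 → ℤ) 4 = 2 := rfl
    simp only [Fin.sum_univ_five] at tv72
    simp only [htv72_0, htv72_1, htv72_2, htv72_3, htv72_4] at tv72
    norm_num at tv72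
    linarith
  · -- GLEE
    exfalso
    have tv73 := Groth.Agent.helper11.quad_test T v hn (![1, 2, 1, 0, 0] : Fin 5 → ℤ) 0 (by decide)
    have htv73_0 : (![1, 2, 1, 0, 0] : Fin 5 → ℤ) 0 = 1 := rfl
    have htv73_1 : (![1, 2, 1, 0, 0] : Fin 5 → ℤ) 1 = 2 := rfl
    have htv73_2 : (![1, 2, 1, 0, 0] : Fin 5 → ℤ) 2 = 1 := rfl
    have htv73_3 : (![1, 2, 1, 0, 0] : Fin 5 → ℤ) 3 = 0 := rfl
    have htv73_4 : (![1, 2, 1, 0, 0] : Fin 5 → ℤ) 4 = 0 := rfl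
    simp only [Fin.sum_univ_five] at tv73
    simp only [htv73_0, htv73_1, htv73_2, htv73_3, htv73_4] at tv73
    norm_num at tv73
    linarith
  · -- GLEL
    exfalso
    have tv74 := Groth.Agent.helper11.quad_test T v hn (![1, 2, 1, 0, 0] : Fin 5 → ℤ) 0 (by decide)
    have htv74_0 : (![1, 2, 1, 0, 0] : Fin 5 → ℤ) 0 = 1 := rfl
    have htv74_1 : (![1, 2, 1, 0, 0] : Fin 5 → ℤ) 1 = 2 := rfl
    have htv74_2 : (![1, 2, 1, 0, 0] : Fin 5 → ℤ) 2 = 1 := rfl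
    have htv74_3 : (![1, 2, 1, 0, 0] : Fin 5 → ℤ) 3 = 0 := rfl
    have htv74_4 : (![1, 2, 1, 0, 0] : Fin 5 → ℤ) 4 = 0 := rfl
    simp only [Fin.sum_univ_five] at tv74
    simp only [htv74_0, htv74_1, htv74_2, htv74_3, htv74_4] at tv74
    norm_num at tv74
    linarith
  · -- GLEG
    exfalso
    have tv75 := Groth.Agent.helper11.quad_test T v hn (![0, 1, 1, 1, 1] : Fin 5 → ℤ) 1 (by decide)
    have htv75_0 : (![0, 1, 1, 1, 1] : Fin 5 → ℤ) 0 = 0 := rfl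
    have htv75_1 : (![0, 1, 1, 1, 1] : Fin 5 → ℤ) 1 = 1 := rfl
    have htv75_2 : (![0, 1, 1, 1, 1] : Fin 5 → ℤ) 2 = 1 := rfl
    have htv75_3 : (![0, 1, 1, 1, 1] : Fin 5 → ℤ) 3 = 1 := rfl
    have htv75_4 : (![0, 1, 1, 1, 1] : Fin 5 → ℤ) 4 = 1 := rfl
    simp only [Fin.sum_univ_five] at tv75
    simp only [htv75_0, htv75_1, htv75_2, htv75_3, htv75_4] at tv75
    norm_num at tv75
    linarith
  · -- GLLE
    exfalso
    have tv76 := Groth.Agent.helper11.quad_test T v hn (![1, 2, 1, 0, 0] : Fin 5 → ℤ) 0 (by decide)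
    have htv76_0 : (![1, 2, 1, 0, 0] : Fin 5 → ℤ) 0 = 1 := rfl
    have htv76_1 : (![1, 2, 1, 0, 0] : Fin 5 → ℤ) 1 = 2 := rfl
    have htv76_2 : (![1, 2, 1, 0, 0] : Fin 5 → ℤ) 2 = 1 := rfl
    have htv76_3 : (![1, 2, 1, 0, 0] : Fin 5 → ℤ) 3 = 0 := rfl
    have htv76_4 : (![1, 2, 1, 0, 0] : Fin 5 → ℤ) 4 = 0 := rfl
    simp only [Fin.sum_univ_five] at tv76
    simp only [htv76_0, htv76_1, htv76_2, htv76_3, htv76_4] at tv76
    norm_num at tv76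
    linarith
  · -- GLLL
    exfalso
    have tv77 := Groth.Agent.helper11.quad_test T v hn (![1, 2, 1, 0, 0] : Fin 5 → ℤ) 0 (by decide)
    have htv77_0 : (![1, 2, 1, 0, 0] : Fin 5 → ℤ) 0 = 1 := rfl
    have htv77_1 : (![1, 2, 1, 0, 0] : Fin 5 → ℤ) 1 = 2 := rfl
    have htv77_2 : (![1, 2, 1, 0, 0] : Fin 5 → ℤ) 2 = 1 := rfl
    have htv77_3 : (![1, 2, 1, 0, 0] : Fin 5 → ℤ) 3 = 0 := rfl
    have htv77_4 : (![1, 2, 1, 0, 0] : Fin 5 → ℤ) 4 = 0 := rfl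
    simp only [Fin.sum_univ_five] at tv77
    simp only [htv77_0, htv77_1, htv77_2, htv77_3, htv77_4] at tv77
    norm_num at tv77
    linarith
  · -- GLLG
    exfalso
    have tv78 := Groth.Agent.helper11.quad_test T v hn (![0, 0, 1, 1, 1] : Fin 5 → ℤ) 2 (by decide)
    have htv78_0 : (![0, 0, 1, 1, 1] : Fin 5 → ℤ) 0 = 0 := rfl
    have htv78_1 : (![0, 0, 1, 1, 1] : Fin 5 → ℤ) 1 = 0 := rfl
    have htv78_2 : (![0, 0, 1, 1, 1] : Fin 5 → ℤ) 2 = 1 := rfl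
    have htv78_3 : (![0, 0, 1, 1, 1] : Fin 5 → ℤ) 3 = 1 := rfl
    have htv78_4 : (![0, 0, 1, 1, 1] : Fin 5 → ℤ) 4 = 1 := rfl
    simp only [Fin.sum_univ_five] at tv78
    simp only [htv78_0, htv78_1, htv78_2, htv78_3, htv78_4] at tv78
    norm_num at tv78
    linarith
  · -- GLGE
    exfalso
    have tv79 := Groth.Agent.helper11.quad_test T v hn (![0, 1, 1, 1, 0] : Fin 5 → ℤ) 1 (by decide)
    have htv79_0 : (![0, 1, 1, 1, 0] : Fin 5 → ℤ) 0 = 0 := rfl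
    have htv79_1 : (![0, 1, 1, 1, 0] : Fin 5 → ℤ) 1 = 1 := rfl
    have htv79_2 : (![0, 1, 1, 1, 0] : Fin 5 → ℤ) 2 = 1 := rfl
    have htv79_3 : (![0, 1, 1, 1, 0] : Fin 5 → ℤ) 3 = 1 := rfl
    have htv79_4 : (![0, 1, 1, 1, 0] : Fin 5 → ℤ) 4 = 0 := rfl
    simp only [Fin.sum_univ_five] at tv79
    simp only [htv79_0, htv79_1, htv79_2, htv79_3, htv79_4] at tv79
    norm_num at tv79
    linarith
  · -- GLGL
    exfalso
    have tv80 := Groth.Agent.helper11.quad_test T v hn (![0, 1, 1, 1, 0] : Fin 5 → ℤ) 1 (by decide)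
    have htv80_0 : (![0, 1, 1, 1, 0] : Fin 5 → ℤ) 0 = 0 := rfl
    have htv80_1 : (![0, 1, 1, 1, 0] : Fin 5 → ℤ) 1 = 1 := rfl
    have htv80_2 : (![0, 1, 1, 1, 0] : Fin 5 → ℤ) 2 = 1 := rfl
    have htv80_3 : (![0, 1, 1, 1, 0] : Fin 5 → ℤ) 3 = 1 := rfl
    have htv80_4 : (![0, 1, 1, 1, 0] : Fin 5 → ℤ) 4 = 0 := rfl
    simp only [Fin.sum_univ_five] at tv80
    simp only [htv80_0, htv80_1, htv80_2, htv80_3, htv80_4] at tv80
    norm_num at tv80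
    linarith
  · -- GLGG
    exfalso
    have tv81 := Groth.Agent.helper11.quad_test T v hn (![0, 1, 1, 1, 0] : Fin 5 → ℤ) 1 (by decide)
    have htv81_0 : (![0, 1, 1, 1, 0] : Fin 5 → ℤ) 0 = 0 := rfl
    have htv81_1 : (![0, 1, 1, 1, 0] : Fin 5 → ℤ) 1 = 1 := rfl
    have htv81_2 : (![0, 1, 1, 1, 0] : Fin 5 → ℤ) 2 = 1 := rfl
    have htv81_3 : (![0, 1, 1, 1, 0] : Fin 5 → ℤ) 3 = 1 := rfl
    have htv81_4 : (![0, 1, 1, 1, 0] : Fin 5 → ℤ) 4 = 0 := rfl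
    simp only [Fin.sum_univ_five] at tv81
    simp only [htv81_0, htv81_1, htv81_2, htv81_3, htv81_4] at tv81
    norm_num at tv81
    linarith
  · -- GGEE
    exfalso
    have tv82 := Groth.Agent.helper11.quad_test T v hn (![1, 2, 2, 0, 0] : Fin 5 → ℤ) 0 (by decide)
    have htv82_0 : (![1, 2, 2, 0, 0] : Fin 5 → ℤ) 0 = 1 := rfl
    have htv82_1 : (![1, 2, 2, 0, 0] : Fin 5 → ℤ) 1 = 2 := rfl
    have htv82_2 : (![1, 2, 2, 0, 0] : Fin 5 → ℤ) 2 = 2 := rfl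
    have htv82_3 : (![1, 2, 2, 0, 0] : Fin 5 → ℤ) 3 = 0 := rfl
    have htv82_4 : (![1, 2, 2, 0, 0] : Fin 5 → ℤ) 4 = 0 := rfl
    simp only [Fin.sum_univ_five] at tv82
    simp only [htv82_0, htv82_1, htv82_2, htv82_3, htv82_4] at tv82
    norm_num at tv82
    linarith
  · -- GGEL
    exfalso
    have tv83 := Groth.Agent.helper11.quad_test T v hn (![1, 2, 2, 0, 0] : Fin 5 → ℤ) 0 (by decide)
    have htv83_0 : (![1, 2, 2, 0, 0] : Fin 5 → ℤ) 0 = 1 := rfl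
    have htv83_1 : (![1, 2, 2, 0, 0] : Fin 5 → ℤ) 1 = 2 := rfl
    have htv83_2 : (![1, 2, 2, 0, 0] : Fin 5 → ℤ) 2 = 2 := rfl
    have htv83_3 : (![1, 2, 2, 0, 0] : Fin 5 → ℤ) 3 = 0 := rfl
    have htv83_4 : (![1, 2, 2, 0, 0] : Fin 5 → ℤ) 4 = 0 := rfl
    simp only [Fin.sum_univ_five] at tv83
    simp only [htv83_0, htv83_1, htv83_2, htv83_3, htv83_4] at tv83
    norm_num at tv83
    linarith
  · -- GGEG
    exfalso
    have tv84 := Groth.Agent.helper11.quad_test T v hn (![1, 2, 2, 0, 0] : Fin 5 → ℤ) 0 (by decide)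
    have htv84_0 : (![1, 2, 2, 0, 0] : Fin 5 → ℤ) 0 = 1 := rfl
    have htv84_1 : (![1, 2, 2, 0, 0] : Fin 5 → ℤ) 1 = 2 := rfl
    have htv84_2 : (![1, 2, 2, 0, 0] : Fin 5 → ℤ) 2 = 2 := rfl
    have htv84_3 : (![1, 2, 2, 0, 0] : Fin 5 → ℤ) 3 = 0 := rfl
    have htv84_4 : (![1, 2, 2, 0, 0] : Fin 5 → ℤ) 4 = 0 := rfl
    simp only [Fin.sum_univ_five] at tv84
    simp only [htv84_0, htv84_1, htv84_2, htv84_3, htv84_4] at tv84
    norm_num at tv84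
    linarith
  · -- GGLE
    exfalso
    have tv85 := Groth.Agent.helper11.quad_test T v hn (![0, 1, 2, 1, 0] : Fin 5 → ℤ) 1 (by decide)
    have htv85_0 : (![0, 1, 2, 1, 0] : Fin 5 → ℤ) 0 = 0 := rfl
    have htv85_1 : (![0, 1, 2, 1, 0] : Fin 5 → ℤ) 1 = 1 := rfl
    have htv85_2 : (![0, 1, 2, 1, 0] : Fin 5 → ℤ) 2 = 2 := rfl
    have htv85_3 : (![0, 1, 2, 1, 0] : Fin 5 → ℤ) 3 = 1 := rfl
    have htv85_4 : (![0, 1, 2, 1, 0] : Fin 5 → ℤ) 4 = 0 := rfl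
    simp only [Fin.sum_univ_five] at tv85
    simp only [htv85_0, htv85_1, htv85_2, htv85_3, htv85_4] at tv85
    norm_num at tv85
    linarith
  · -- GGLL
    exfalso
    have tv86 := Groth.Agent.helper11.quad_test T v hn (![0, 1, 2, 1, 0] : Fin 5 → ℤ) 1 (by decide)
    have htv86_0 : (![0, 1, 2, 1, 0] : Fin 5 → ℤ) 0 = 0 := rfl
    have htv86_1 : (![0, 1, 2, 1, 0] : Fin 5 → ℤ) 1 = 1 := rfl
    have htv86_2 : (![0, 1, 2, 1, 0] : Fin 5 → ℤ) 2 = 2 := rfl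
    have htv86_3 : (![0, 1, 2, 1, 0] : Fin 5 → ℤ) 3 = 1 := rfl
    have htv86_4 : (![0, 1, 2, 1, 0] : Fin 5 → ℤ) 4 = 0 := rfl
    simp only [Fin.sum_univ_five] at tv86
    simp only [htv86_0, htv86_1, htv86_2, htv86_3, htv86_4] at tv86
    norm_num at tv86
    linarith
  · -- GGLG
    exfalso
    have tv87 := Groth.Agent.helper11.quad_test T v hn (![0, 0, 1, 1, 1] : Fin 5 → ℤ) 2 (by decide)
    have htv87_0 : (![0, 0, 1, 1, 1] : Fin 5 → ℤ) 0 = 0 := rfl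
    have htv87_1 : (![0, 0, 1, 1, 1] : Fin 5 → ℤ) 1 = 0 := rfl
    have htv87_2 : (![0, 0, 1, 1, 1] : Fin 5 → ℤ) 2 = 1 := rfl
    have htv87_3 : (![0, 0, 1, 1, 1] : Fin 5 → ℤ) 3 = 1 := rfl
    have htv87_4 : (![0, 0, 1, 1, 1] : Fin 5 → ℤ) 4 = 1 := rfl
    simp only [Fin.sum_univ_five] at tv87
    simp only [htv87_0, htv87_1, htv87_2, htv87_3, htv87_4] at tv87
    norm_num at tv87
    linarith
  · -- GGGE
    exfalso
    have tv88 := Groth.Agent.helper11.quad_test T v hn (![0, 1, 2, 2, 0] : Fin 5 → ℤ) 1 (by decide)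
    have htv88_0 : (![0, 1, 2, 2, 0] : Fin 5 → ℤ) 0 = 0 := rfl
    have htv88_1 : (![0, 1, 2, 2, 0] : Fin 5 → ℤ) 1 = 1 := rfl
    have htv88_2 : (![0, 1, 2, 2, 0] : Fin 5 → ℤ) 2 = 2 := rfl
    have htv88_3 : (![0, 1, 2, 2, 0] : Fin 5 → ℤ) 3 = 2 := rfl
    have htv88_4 : (![0, 1, 2, 2, 0] : Fin 5 → ℤ) 4 = 0 := rfl
    simp only [Fin.sum_univ_five] at tv88
    simp only [htv88_0, htv88_1, htv88_2, htv88_3, htv88_4] at tv88
    norm_num at tv88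
    linarith
  · -- GGGL
    exfalso
    have tv89 := Groth.Agent.helper11.quad_test T v hn (![0, 0, 1, 2, 1] : Fin 5 → ℤ) 2 (by decide)
    have htv89_0 : (![0, 0, 1, 2, 1] : Fin 5 → ℤ) 0 = 0 := rfl
    have htv89_1 : (![0, 0, 1, 2, 1] : Fin 5 → ℤ) 1 = 0 := rfl
    have htv89_2 : (![0, 0, 1, 2, 1] : Fin 5 → ℤ) 2 = 1 := rfl
    have htv89_3 : (![0, 0, 1, 2, 1] : Fin 5 → ℤ) 3 = 2 := rfl
    have htv89_4 : (![0, 0, 1, 2, 1] : Fin 5 → ℤ) 4 = 1 := rfl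
    simp only [Fin.sum_univ_five] at tv89
    simp only [htv89_0, htv89_1, htv89_2, htv89_3, htv89_4] at tv89
    norm_num at tv89
    linarith
  · -- GGGG
    exfalso
    have tv90 := Groth.Agent.helper11.quad_test T v hn (![0, 0, 1, 2, 2] : Fin 5 → ℤ) 2 (by decide)
    have htv90_0 : (![0, 0, 1, 2, 2] : Fin 5 → ℤ) 0 = 0 := rfl
    have htv90_1 : (![0, 0, 1, 2, 2] : Fin 5 → ℤ) 1 = 0 := rfl
    have htv90_2 : (![0, 0, 1, 2, 2] : Fin 5 → ℤ) 2 = 1 := rfl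
    have htv90_3 : (![0, 0, 1, 2, 2] : Fin 5 → ℤ) 3 = 2 := rfl
    have htv90_4 : (![0, 0, 1, 2, 2] : Fin 5 → ℤ) 4 = 2 := rfl
    simp only [Fin.sum_univ_five] at tv90
    simp only [htv90_0, htv90_1, htv90_2, htv90_3, htv90_4] at tv90
    norm_num at tv90
    linarith

end Groth.Agent.S7353
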