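import Groth.Statements.S7397
import Mathlib.Tactic.Linarith
import Mathlib.Tactic.Ring
-- import your own Groth.Agent.* helpers here

set_option autoImplicit false
universe u
open Mor

namespace Groth.Agent.S7397

/-- Let `A ⊆ B` be a ring extension and `b ∈ B`, `b ∉ A`, with `b^n, b^(n+1) ∈ A` for some `n ≥ 2`. Then
some `b' ∈ B` with `b' ∉ A` has `b'^2 ∈ A` and `b'^3 ∈ A`. -/
theorem result {B : Type u} [CommRing B] (A : Subring B) (b : B) (hb : b ∉ A)
    (n : ℕ) (hn : 2 ≤ n) (h1 : b ^ n ∈ A) (h2 : b ^ (n + 1) ∈ A) :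
    ∃ b' : B, b' ∉ A ∧ b' ^ 2 ∈ A ∧ b' ^ 3 ∈ A := by
  classical
  have hbig : ∀ m, n * n ≤ m → b ^ m ∈ A := by
    intro m hm
    have hk : n ≤ m / n := (Nat.le_div_iff_mul_le (by omega)).mpr hm
    have hr : m % n < n := Nat.mod_lt _ (by omega)
    obtain ⟨t, ht⟩ : ∃ t, m / n = m % n + t := ⟨m / n - m % n, by omega⟩
    have hm' : m = n * t + (n + 1) * (m % n) := by
      have hdm := Nat.div_add_mod m n
      rw [ht] at hdm
      linarith [hdm]
    rw [hm', pow_add, pow_mul, pow_mul]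
    exact A.mul_mem (A.pow_mem h1 _) (A.pow_mem h2 _)
  let P : ℕ → Prop := fun m => b ^ m ∉ A
  have hP1 : P 1 := by simpa [P] using hb
  have h1n : 1 ≤ n * n := by nlinarith
  have hm0P : P (Nat.findGreatest P (n * n)) := Nat.findGreatest_spec h1n hP1
  have hm0pos : 1 ≤ Nat.findGreatest P (n * n) := Nat.le_findGreatest h1n hP1
  have hgt : ∀ k, Nat.findGreatest P (n * n) < k → b ^ k ∈ A := by
    intro k hk
    by_cases hkn : k ≤ n * n
    · have := Nat.findGreatest_is_greatest hk hkn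
      simpa [P] using this
    · exact hbig k (by omega)
  refine ⟨b ^ Nat.findGreatest P (n * n), hm0P, ?_, ?_⟩
  · rw [← pow_mul]; exact hgt _ (by omega)
  · rw [← pow_mul]; exact hgt _ (by omega)

end Groth.Agent.S7397
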