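import Groth.Statements.S7421
import Mathlib.RingTheory.LocalProperties.Reduced
import Mathlib.RingTheory.Nilpotent.Basic
-- import your own Groth.Agent.* helpers here

set_option autoImplicit false
universe u
open CategoryTheory AlgebraicGeometry
open HTop

namespace Groth.Agent.S7421

/-- A seminormal ring is reduced, and a seminormal scheme is reduced. -/
theorem result :
    (∀ (A : Type u) [CommRing A], HTop.IsSeminormalRing A → IsReduced A) ∧
    ∀ (X : Scheme.{u}), HTop.IsSeminormal X → AlgebraicGeometry.IsReduced X := by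
  have ring : ∀ (A : Type u) [CommRing A], HTop.IsSeminormalRing A → IsReduced A := by
    intro A _ hA
    rw [isReduced_iff_pow_one_lt 2 (by norm_num)]
    intro x hx
    obtain ⟨a, _, ha⟩ := hA 0 0 (by simp)
    have h0 : (0 : A) = a := ha 0 ⟨by simp, by simp⟩
    have hx' : x = a := ha x ⟨hx.symm, by rw [show x ^ 3 = x ^ 2 * x by ring, hx, zero_mul]⟩
    rw [hx', ← h0]
  refine ⟨ring, ?_⟩
  intro X hX
  have : ∀ x : X, _root_.IsReduced (X.presheaf.stalk x) := by
    intro x
    obtain ⟨U, hxU, hU⟩ := hX x
    let y : (U : X.Opens) := ⟨x, hxU⟩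
    have hL := U.2.isLocalization_stalk y
    have hR : _root_.IsReduced (X.presheaf.stalk y) :=
      @isReduced_localizationPreserves _ _ _ _ _ (TopCat.Presheaf.algebra_section_stalk X.presheaf y) hL (ring _ hU)
    exact hR
  exact AlgebraicGeometry.isReduced_of_isReduced_stalk (X := X)

end Groth.Agent.S7421
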