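import Groth.Statements.S7456
import Mathlib.AlgebraicGeometry.PullbackCarrier
-- import your own Groth.Agent.* helpers here

set_option autoImplicit false
universe u
open CategoryTheory CategoryTheory.Limits AlgebraicGeometry
open Grpd

namespace Groth.Agent.S7456

/-- Let (U, R, s, t, c) be a groupoid scheme over S. For every subset W of U, the subset t(s^{-1}(W)) is
set-theoretically R-invariant: its preimages under s and t coincide. If moreover s and t are open
maps and quasi-compact, then U is covered by R-invariant quasi-compact open subsets. (The published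
statement also asserts that this set is open when W is open and s, t are open maps; this row omits
that clause.) (A groupoid scheme carries U, R, s, t, c, e, i over S with the groupoid axioms on
T-points; c is defined on the fibre product of s and t and sends a pair (a, b) with s(a) = t(b) to a
composed with b.) -/
theorem result (S : Scheme.{u}) (G : Grpd.GroupoidScheme S) : (∀ W : Set G.U, ⇑G.s ⁻¹' (⇑G.t '' (⇑G.s ⁻¹' W)) = ⇑G.t ⁻¹' (⇑G.t '' (⇑G.s ⁻¹' W))) ∧ (IsOpenMap ⇑G.s → IsOpenMap ⇑G.t → QuasiCompact G.s → QuasiCompact G.t → ∀ u : G.U, ∃ W : G.U.Opens, IsCompact (W : Set G.U) ∧ u ∈ W ∧ G.s ⁻¹ᵁ W = G.t ⁻¹ᵁ W) := by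
  have hcs : G.c ≫ G.s = pullback.snd G.s G.t ≫ G.s := by
    have := G.comp_s (pullback.fst G.s G.t) (pullback.snd G.s G.t) pullback.condition
    rwa [pullback.lift_fst_snd, Category.id_comp] at this
  have hct : G.c ≫ G.t = pullback.fst G.s G.t ≫ G.t := by
    have := G.comp_t (pullback.fst G.s G.t) (pullback.snd G.s G.t) pullback.condition
    rwa [pullback.lift_fst_snd, Category.id_comp] at this
  have compose : ∀ a b : G.R, G.s a = G.t b → ∃ z : G.R, G.s z = G.s b ∧ G.t z = G.t a := by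
    intro a b hab
    obtain ⟨w, hw1, hw2⟩ := Scheme.Pullback.exists_preimage_pullback
      (f := G.s) (g := G.t) a b hab
    refine ⟨G.c w, ?_, ?_⟩
    · rw [← Scheme.Hom.comp_apply, hcs, Scheme.Hom.comp_apply, hw2]
    · rw [← Scheme.Hom.comp_apply, hct, Scheme.Hom.comp_apply, hw1]
  have part1 : ∀ W : Set G.U, ⇑G.s ⁻¹' (⇑G.t '' (⇑G.s ⁻¹' W)) =
      ⇑G.t ⁻¹' (⇑G.t '' (⇑G.s ⁻¹' W)) := by
    intro W
    ext r
    simp only [Set.mem_preimage, Set.mem_image]
    constructor
    · rintro ⟨r₀, hr₀W, hr₀⟩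
      obtain ⟨z, hz1, hz2⟩ := compose r r₀ hr₀.symm
      exact ⟨z, by rw [hz1]; exact hr₀W, hz2⟩
    · rintro ⟨r₀, hr₀W, hr₀⟩
      have h1 : G.s (G.i r) = G.t r₀ := by
        rw [← Scheme.Hom.comp_apply, G.i_s, hr₀]
      obtain ⟨z, hz1, hz2⟩ := compose (G.i r) r₀ h1
      refine ⟨z, by rw [hz1]; exact hr₀W, ?_⟩
      rw [hz2, ← Scheme.Hom.comp_apply, G.i_t]
  refine ⟨part1, ?_⟩
  intro hso hto hqs hqt u
  haveI := hqs
  obtain ⟨_, ⟨W0, hW0, rfl⟩, huW0, -⟩ :=
    G.U.isBasis_affineOpens.exists_subset_of_mem_open (Set.mem_univ u) isOpen_univ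
  have hopen : IsOpen (⇑G.t '' (⇑G.s ⁻¹' (W0 : Set G.U))) :=
    hto _ (W0.2.preimage G.s.continuous)
  have hcomp : IsCompact (⇑G.t '' (⇑G.s ⁻¹' (W0 : Set G.U))) :=
    (QuasiCompact.isCompact_preimage (f := G.s) _ W0.2 hW0.isCompact).image G.t.continuous
  refine ⟨⟨_, hopen⟩, hcomp, ?_, ?_⟩
  · refine ⟨G.e u, ?_, ?_⟩
    · show G.s (G.e u) ∈ (W0 : Set G.U)
      rw [← Scheme.Hom.comp_apply, G.e_s]
      exact huW0
    · rw [← Scheme.Hom.comp_apply, G.e_t]
      rfl
  · ext1
    exact part1 _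

end Groth.Agent.S7456
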