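import Groth.Statements.S7457
-- import your own Groth.Agent.* helpers here

set_option autoImplicit false
universe u
open CategoryTheory CategoryTheory.Limits AlgebraicGeometry
open Grpd

namespace Groth.Agent.S7457

/-- Let (U, R, s, t, c) be a groupoid scheme over S. Let φ : R x_(t,U,t) R -> R x_(s,U,t) R be the
morphism sending a pair (a, b) with the same target to (a, a^{-1} composed with b), that is, the
morphism whose first component is the first projection and whose second component is c applied to (i
composed after the first projection, second projection). Then φ is an isomorphism and composed with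
c it gives the second projection. Moreover the square with sides c, the second projection R
x_(s,U,t) R -> R, s and s is cartesian. (A groupoid scheme carries U, R, s, t, c, e, i over S with
the groupoid axioms on T-points; c is defined on the fibre product of s and t and sends a pair (a,
b) with s(a) = t(b) to a composed with b.) -/
theorem result (S : Scheme.{u}) (G : Grpd.GroupoidScheme S) : (∀ φ : pullback G.t G.t ⟶ pullback G.s G.t, φ ≫ pullback.fst G.s G.t = pullback.fst G.t G.t → φ ≫ pullback.snd G.s G.t = pullback.lift (pullback.fst G.t G.t ≫ G.i) (pullback.snd G.t G.t) ((Category.assoc _ _ _).trans ((congrArg (fun x => pullback.fst G.t G.t ≫ x) G.i_s).trans pullback.condition)) ≫ G.c → IsIso φ ∧ φ ≫ G.c = pullback.snd G.t G.t) ∧ IsPullback G.c (pullback.snd G.s G.t) G.s G.s := by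
  have mcongr : ∀ {T : Scheme.{u}} (α α' β β' : T ⟶ G.R) (h : α ≫ G.s = β ≫ G.t)
      (h' : α' ≫ G.s = β' ≫ G.t), α = α' → β = β' →
      pullback.lift α β h ≫ G.c = pullback.lift α' β' h' ≫ G.c := by
    intros _ α α' β β' h h' e1 e2
    subst e1; subst e2; rfl
  have complift : ∀ {T T' : Scheme.{u}} (f : T' ⟶ T) (α β : T ⟶ G.R) (h : α ≫ G.s = β ≫ G.t),
      f ≫ pullback.lift α β h = pullback.lift (f ≫ α) (f ≫ β) (by simp [h]) := by
    intros
    apply pullback.hom_ext
    · rw [Category.assoc, pullback.lift_fst, pullback.lift_fst]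
    · rw [Category.assoc, pullback.lift_snd, pullback.lift_snd]
  have hct : G.c ≫ G.t = pullback.fst G.s G.t ≫ G.t := by
    have := G.comp_t (pullback.fst G.s G.t) (pullback.snd G.s G.t) pullback.condition
    rwa [pullback.lift_fst_snd, Category.id_comp] at this
  have hcs : G.c ≫ G.s = pullback.snd G.s G.t ≫ G.s := by
    have := G.comp_s (pullback.fst G.s G.t) (pullback.snd G.s G.t) pullback.condition
    rwa [pullback.lift_fst_snd, Category.id_comp] at this
  have cself : pullback.lift (pullback.fst G.s G.t) (pullback.snd G.s G.t) pullback.condition ≫ G.c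
      = G.c := by rw [pullback.lift_fst_snd, Category.id_comp]
  refine ⟨fun φ h1 h2 => ?_, ?_⟩
  · -- φ ≫ c = snd
    have H1 : pullback.fst G.t G.t ≫ G.s =
        (pullback.fst G.t G.t ≫ G.i) ≫ G.t := by rw [Category.assoc, G.i_t]
    have H2 : (pullback.fst G.t G.t ≫ G.i) ≫ G.s = pullback.snd G.t G.t ≫ G.t := by
      rw [Category.assoc, G.i_s, pullback.condition]
    have hφ : φ = pullback.lift (pullback.fst G.t G.t)
        (pullback.lift (pullback.fst G.t G.t ≫ G.i) (pullback.snd G.t G.t) H2 ≫ G.c)
        (H1.trans (G.comp_t _ _ H2).symm) := by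
      apply pullback.hom_ext
      · rw [h1, pullback.lift_fst]
      · rw [h2, pullback.lift_snd]
    have hφc : φ ≫ G.c = pullback.snd G.t G.t := by
      rw [hφ, ← G.assoc _ _ _ H1 H2]
      have e1 : pullback.lift (pullback.fst G.t G.t) (pullback.fst G.t G.t ≫ G.i) H1 ≫ G.c =
          pullback.snd G.t G.t ≫ G.t ≫ G.e := by
        rw [← pullback.condition_assoc]
        exact G.comp_i _
      rw [mcongr _ (pullback.snd G.t G.t ≫ G.t ≫ G.e) _ (pullback.snd G.t G.t) _
        (by rw [Category.assoc, Category.assoc, G.e_s, Category.comp_id]) e1 rfl]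
      exact G.e_comp _
    let ψ : pullback G.s G.t ⟶ pullback G.t G.t :=
      pullback.lift (pullback.fst G.s G.t) G.c hct.symm
    refine ⟨⟨⟨ψ, ?_, ?_⟩⟩, hφc⟩
    · apply pullback.hom_ext
      · rw [Category.assoc, pullback.lift_fst, h1, Category.id_comp]
      · rw [Category.assoc, pullback.lift_snd, hφc, Category.id_comp]
    · apply pullback.hom_ext
      · rw [Category.assoc, h1, pullback.lift_fst, Category.id_comp]
      · rw [Category.assoc, h2, Category.id_comp, ← Category.assoc, complift]
        have K1 : (ψ ≫ pullback.fst G.t G.t ≫ G.i) = pullback.fst G.s G.t ≫ G.i := by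
          rw [← Category.assoc, pullback.lift_fst]
        have K2 : (ψ ≫ pullback.snd G.t G.t) = G.c := pullback.lift_snd _ _ _
        have Ha : (pullback.fst G.s G.t ≫ G.i) ≫ G.s = pullback.fst G.s G.t ≫ G.t := by
          rw [Category.assoc, G.i_s]
        have Hb : pullback.fst G.s G.t ≫ G.s = pullback.snd G.s G.t ≫ G.t := pullback.condition
        have Hc : (pullback.fst G.s G.t ≫ G.i) ≫ G.s =
            (pullback.lift (pullback.fst G.s G.t) (pullback.snd G.s G.t) Hb ≫ G.c) ≫ G.t := by
          rw [Ha, G.comp_t]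
        rw [mcongr _ (pullback.fst G.s G.t ≫ G.i) _
          (pullback.lift (pullback.fst G.s G.t) (pullback.snd G.s G.t) Hb ≫ G.c) _ Hc K1
          (K2.trans cself.symm)]
        rw [← G.assoc _ _ _ Ha Hb]
        have e2 : pullback.lift (pullback.fst G.s G.t ≫ G.i) (pullback.fst G.s G.t) Ha ≫ G.c =
            pullback.snd G.s G.t ≫ G.t ≫ G.e := by
          rw [← pullback.condition_assoc]
          exact G.i_comp _
        rw [mcongr _ (pullback.snd G.s G.t ≫ G.t ≫ G.e) _ (pullback.snd G.s G.t) _
          (by rw [Category.assoc, Category.assoc, G.e_s, Category.comp_id]) e2 rfl]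
        exact G.e_comp _
  · have Hαβ : ∀ q : PullbackCone G.s G.s, q.fst ≫ G.s = (q.snd ≫ G.i) ≫ G.t := fun q => by
      rw [Category.assoc, G.i_t, q.condition]
    have Hii : ∀ q : PullbackCone G.s G.s, (q.snd ≫ G.i) ≫ G.s = q.snd ≫ G.t := fun q => by
      rw [Category.assoc, G.i_s]
    have Hγ : ∀ q : PullbackCone G.s G.s,
        (pullback.lift q.fst (q.snd ≫ G.i) (Hαβ q) ≫ G.c) ≫ G.s = q.snd ≫ G.t := fun q => by
      rw [G.comp_s, Hii]
    refine IsPullback.of_isLimit' ⟨hcs⟩ (PullbackCone.IsLimit.mk _
      (fun q => pullback.lift (pullback.lift q.fst (q.snd ≫ G.i) (Hαβ q) ≫ G.c) q.snd (Hγ q))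
      (fun q => ?_) (fun q => pullback.lift_snd _ _ _) (fun q m hm1 hm2 => ?_))
    · rw [G.assoc _ _ _ (Hαβ q) (Hii q)]
      have e3 : pullback.lift (q.snd ≫ G.i) q.snd (Hii q) ≫ G.c = q.fst ≫ G.s ≫ G.e := by
        rw [q.condition_assoc]; exact G.i_comp _
      rw [mcongr q.fst q.fst _ (q.fst ≫ G.s ≫ G.e) _
        (by simp only [Category.assoc, G.e_t, Category.comp_id]) rfl e3]
      exact G.comp_e _
    · apply pullback.hom_ext
      · rw [pullback.lift_fst]
        have hxβ : (m ≫ pullback.fst G.s G.t) ≫ G.s = q.snd ≫ G.t := by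
          rw [← hm2, Category.assoc, Category.assoc, pullback.condition]
        have hq : q.fst = pullback.lift (m ≫ pullback.fst G.s G.t) q.snd hxβ ≫ G.c := by
          rw [← hm1]
          have e4 : m ≫ G.c = (m ≫ pullback.lift (pullback.fst G.s G.t) (pullback.snd G.s G.t)
              pullback.condition) ≫ G.c := by
            rw [pullback.lift_fst_snd, Category.comp_id]
          rw [e4, complift]
          exact mcongr _ _ _ _ _ _ rfl hm2
        have H : q.snd ≫ G.s = (q.snd ≫ G.i) ≫ G.t := by rw [Category.assoc, G.i_t]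
        have H3 : (m ≫ pullback.fst G.s G.t) ≫ G.s =
            (pullback.lift q.snd (q.snd ≫ G.i) H ≫ G.c) ≫ G.t := by
          rw [G.comp_t, hxβ]
        have H4 : (m ≫ pullback.fst G.s G.t) ≫ G.s =
            ((m ≫ pullback.fst G.s G.t) ≫ G.s ≫ G.e) ≫ G.t := by
          simp only [Category.assoc, G.e_t, Category.comp_id]
        have e5 : (m ≫ pullback.fst G.s G.t) ≫ G.s ≫ G.e =
            pullback.lift q.snd (q.snd ≫ G.i) H ≫ G.c := by
          rw [G.comp_i, ← Category.assoc, hxβ, Category.assoc]
        calc m ≫ pullback.fst G.s G.t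
            = pullback.lift (m ≫ pullback.fst G.s G.t) ((m ≫ pullback.fst G.s G.t) ≫ G.s ≫ G.e)
                H4 ≫ G.c := (G.comp_e _).symm
          _ = pullback.lift (m ≫ pullback.fst G.s G.t)
                (pullback.lift q.snd (q.snd ≫ G.i) H ≫ G.c) H3 ≫ G.c :=
              mcongr _ _ _ _ _ _ rfl e5
          _ = pullback.lift (pullback.lift (m ≫ pullback.fst G.s G.t) q.snd hxβ ≫ G.c)
                (q.snd ≫ G.i) ((G.comp_s _ _ hxβ).trans H) ≫ G.c := (G.assoc _ _ _ hxβ H).symm
          _ = pullback.lift q.fst (q.snd ≫ G.i) (Hαβ q) ≫ G.c := mcongr _ _ _ _ _ _ hq.symm rfl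
      · rw [pullback.lift_snd, hm2]

end Groth.Agent.S7457
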