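import Groth.Statements.S7458
-- import your own Groth.Agent.* helpers here

set_option autoImplicit false
universe u
open CategoryTheory MonoidalCategory CartesianMonoidalCategory MonObj GrpObj AlgebraicGeometry
open GrpSch

namespace Groth.Agent.S7458

/-- For a group scheme G over a scheme S, a scheme T flat over S and a morphism ψ : T -> G over S, the
map T x_S G -> G sending (t, g) to the product ψ(t)·g is a flat morphism; taking T = G and ψ the
identity, the multiplication G x_S G -> G is flat whenever G is flat over S. -/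
theorem result (S : Scheme.{u}) (G : Over S) [GrpObj G] : (∀ (T : Over S) (ψ : T ⟶ G), Flat T.hom → Flat (ψ ▷ G ≫ μ[G]).left) ∧ (Flat G.hom → Flat μ[G].left) := by
  have key : ∀ (T : Over S) (ψ : T ⟶ G), Flat T.hom → Flat (ψ ▷ G ≫ μ[G]).left := by
    intro T ψ hT
    let sh : T ⊗ G ⟶ T ⊗ G := lift (fst T G) ((fst T G ≫ ψ) * snd T G)
    let sh' : T ⊗ G ⟶ T ⊗ G := lift (fst T G) ((fst T G ≫ ψ)⁻¹ * snd T G)
    have e1 : sh ≫ sh' = 𝟙 _ := by
      apply CartesianMonoidalCategory.hom_ext
      · simp [sh, sh']
      · simp only [sh, sh', Category.assoc, lift_snd, MonObj.comp_mul, GrpObj.comp_inv,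
          lift_fst_assoc, Category.id_comp]
        group
    have e2 : sh' ≫ sh = 𝟙 _ := by
      apply CartesianMonoidalCategory.hom_ext
      · simp [sh, sh']
      · simp only [sh, sh', Category.assoc, lift_snd, MonObj.comp_mul, GrpObj.comp_inv,
          lift_fst_assoc, Category.id_comp]
        group
    have hsh : ψ ▷ G ≫ μ[G] = sh ≫ snd T G := by
      simp only [sh, lift_snd, Hom.mul_def]
      rw [← lift_whiskerRight, lift_fst_snd, Category.id_comp]
    haveI : IsIso sh := ⟨⟨sh', e1, e2⟩⟩
    haveI : Flat T.hom := hT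
    haveI : IsIso sh.left := (Over.forget S).map_isIso sh
    rw [hsh, Over.comp_left, Over.snd_left]
    infer_instance
  refine ⟨key, fun hG => ?_⟩
  have := key G (𝟙 G) hG
  rwa [id_whiskerRight, Category.id_comp] at this

end Groth.Agent.S7458
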