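import Groth.Statements.S7494
-- import your own Groth.Agent.* helpers here

set_option autoImplicit false
universe u
open CategoryTheory MonoidalCategory CartesianMonoidalCategory MonObj GrpObj AlgebraicGeometry
open AlgGrp

namespace Groth.Agent.S7494

/-- Let G be a group scheme over S acting on a scheme X over S by a. The action is free, meaning that
for every scheme T over S and all T-points g of G and x of X with g · x = x one has g = 1, if and
only if the morphism G x_S X -> X x_S X, (g, x) ↦ (a(g, x), x), is a monomorphism of schemes. -/
theorem result {S : Scheme.{u}} (G X : Over S) [GrpObj G] (a : AlgGrp.Action G X) : (∀ (T : Over S) (g : T ⟶ G) (x : T ⟶ X), lift g x ≫ a.act = x → g = toUnit T ≫ η[G]) ↔ Mono (lift a.act (snd G X)).left := by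
  have F1 : ∀ {T : Over S} (x : T ⟶ X), lift (toUnit T ≫ η[G]) x ≫ a.act = x := by
    intro T x
    rw [← lift_whiskerRight, Category.assoc, a.one_act, lift_leftUnitor_hom]
  have F2 : ∀ {T : Over S} (g h : T ⟶ G) (x : T ⟶ X),
      lift (lift g h ≫ μ) x ≫ a.act = lift g (lift h x ≫ a.act) ≫ a.act := by
    intro T g h x
    rw [← lift_whiskerRight, Category.assoc, a.mul_act, ← Category.assoc,
      lift_lift_associator_hom, ← Category.assoc, lift_whiskerLeft]
  constructor
  · intro hfree
    have hmono : Mono (lift a.act (snd G X)) := by
      constructor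
      intro T u v huv
      have h2 : u ≫ snd G X = v ≫ snd G X := by
        have := congrArg (· ≫ snd X X) huv
        simpa using this
      have h1 : lift (u ≫ fst G X) (u ≫ snd G X) ≫ a.act =
          lift (v ≫ fst G X) (u ≫ snd G X) ≫ a.act := by
        have := congrArg (· ≫ fst X X) huv
        simp only [Category.assoc, lift_fst] at this
        rw [lift_comp_fst_snd, h2, lift_comp_fst_snd]
        exact this
      have hh : lift ((v ≫ fst G X)⁻¹ * (u ≫ fst G X)) (u ≫ snd G X) ≫ a.act = u ≫ snd G X := by
        rw [Hom.mul_def, F2, h1, ← F2, ← Hom.mul_def, inv_mul_cancel, Hom.one_def, F1]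
      have := hfree T _ _ hh
      rw [← Hom.one_def, inv_mul_eq_one] at this
      exact CartesianMonoidalCategory.hom_ext _ _ this.symm h2
    exact inferInstance
  · intro hmono T g x hgx
    have hm : Mono (lift a.act (snd G X)) := Over.mono_of_mono_left _
    have e : lift g x ≫ lift a.act (snd G X) = lift (toUnit T ≫ η[G]) x ≫ lift a.act (snd G X) := by
      rw [comp_lift, comp_lift, hgx, F1, lift_snd, lift_snd]
    have e2 := hm.right_cancellation _ _ e
    have := congrArg (· ≫ fst G X) e2
    simpa using this

end Groth.Agent.S7494
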