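import Groth.Statements.S7500
-- import your own Groth.Agent.* helpers here

set_option autoImplicit false
universe u
open CategoryTheory CategoryTheory.Limits AlgebraicGeometry
open Grpd

namespace Groth.Agent.S7500

/-- Let (U, R, s, t, c) be a groupoid scheme over S and G -> U its stabilizer group scheme (the base
change of j = (t, s) along the diagonal). The action of G on R by composition, base changed to G_0 =
G x_(U, pr_0) (U x_S U), makes R a pseudo G_0-torsor over U x_S U. Concretely: let α : G x_(U, t) R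
-> R x_(s, U, t) R be the morphism with components (γ viewed in R, r) and β : G x_(U, t) R -> R
x_(j, U x_S U, j) R the morphism with components (c ∘ α, r); then β is an isomorphism. (A groupoid
scheme carries U, R, s, t, c, e, i over S with the groupoid axioms on T-points; c is defined on the
fibre product of s and t and sends a pair (a, b) with s(a) = t(b) to a composed with b.) -/
theorem result (S : Scheme.{u}) (G : Grpd.GroupoidScheme S) (α : pullback G.stabilizerToU G.t ⟶ pullback G.s G.t) (hα₁ : α ≫ pullback.fst G.s G.t = pullback.fst G.stabilizerToU G.t ≫ pullback.fst G.j G.diag) (hα₂ : α ≫ pullback.snd G.s G.t = pullback.snd G.stabilizerToU G.t) (β : pullback G.stabilizerToU G.t ⟶ pullback G.j G.j) (hβ₁ : β ≫ pullback.fst G.j G.j = α ≫ G.c) (hβ₂ : β ≫ pullback.snd G.j G.j = pullback.snd G.stabilizerToU G.t) : IsIso β := by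
  have mcongr : ∀ {T : Scheme.{u}} (α α' β β' : T ⟶ G.R) (h : α ≫ G.s = β ≫ G.t)
      (h' : α' ≫ G.s = β' ≫ G.t), α = α' → β = β' →
      pullback.lift α β h ≫ G.c = pullback.lift α' β' h' ≫ G.c := by
    intros _ α α' β β' h h' e1 e2
    subst e1; subst e2; rfl
  have complift : ∀ {T T' : Scheme.{u}} (f : T' ⟶ T) (α β : T ⟶ G.R) (h : α ≫ G.s = β ≫ G.t),
      f ≫ pullback.lift α β h = pullback.lift (f ≫ α) (f ≫ β) (by simp [h]) := by
    intros
    apply pullback.hom_ext
    · rw [Category.assoc, pullback.lift_fst, pullback.lift_fst]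
    · rw [Category.assoc, pullback.lift_snd, pullback.lift_snd]
  have hjt : G.j ≫ pullback.fst G.pU G.pU = G.t := pullback.lift_fst _ _ _
  have hjs : G.j ≫ pullback.snd G.pU G.pU = G.s := pullback.lift_snd _ _ _
  have hd1 : G.diag ≫ pullback.fst G.pU G.pU = 𝟙 _ := pullback.lift_fst _ _ _
  have hd2 : G.diag ≫ pullback.snd G.pU G.pU = 𝟙 _ := pullback.lift_snd _ _ _
  have hSt : pullback.fst G.j G.diag ≫ G.t = pullback.snd G.j G.diag := by
    have := congrArg (· ≫ pullback.fst G.pU G.pU) (pullback.condition (f := G.j) (g := G.diag))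
    simpa only [Category.assoc, hjt, hd1, Category.comp_id] using this
  have hSs : pullback.fst G.j G.diag ≫ G.s = pullback.snd G.j G.diag := by
    have := congrArg (· ≫ pullback.snd G.pU G.pU) (pullback.condition (f := G.j) (g := G.diag))
    simpa only [Category.assoc, hjs, hd2, Category.comp_id] using this
  have hQt : pullback.fst G.j G.j ≫ G.t = pullback.snd G.j G.j ≫ G.t := by
    have := congrArg (· ≫ pullback.fst G.pU G.pU) (pullback.condition (f := G.j) (g := G.j))
    simpa only [Category.assoc, hjt] using this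
  have hQs : pullback.fst G.j G.j ≫ G.s = pullback.snd G.j G.j ≫ G.s := by
    have := congrArg (· ≫ pullback.snd G.pU G.pU) (pullback.condition (f := G.j) (g := G.j))
    simpa only [Category.assoc, hjs] using this
  have hP : pullback.fst G.stabilizerToU G.t ≫ pullback.snd G.j G.diag =
      pullback.snd G.stabilizerToU G.t ≫ G.t := pullback.condition
  have hct : G.c ≫ G.t = pullback.fst G.s G.t ≫ G.t := by
    have := G.comp_t (pullback.fst G.s G.t) (pullback.snd G.s G.t) pullback.condition
    rwa [pullback.lift_fst_snd, Category.id_comp] at this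
  have cself : pullback.lift (pullback.fst G.s G.t) (pullback.snd G.s G.t) pullback.condition ≫ G.c
      = G.c := by rw [pullback.lift_fst_snd, Category.id_comp]
  -- x = P1 ≫ pS1
  have hx : (pullback.fst G.stabilizerToU G.t ≫ pullback.fst G.j G.diag) ≫ G.s =
      pullback.snd G.stabilizerToU G.t ≫ G.t := by
    erw [Category.assoc, hSs]; exact hP
  have hαc : α ≫ G.c = pullback.lift (pullback.fst G.stabilizerToU G.t ≫ pullback.fst G.j G.diag)
      (pullback.snd G.stabilizerToU G.t) hx ≫ G.c := by
    have e4 : α ≫ G.c = (α ≫ pullback.lift (pullback.fst G.s G.t) (pullback.snd G.s G.t)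
        pullback.condition) ≫ G.c := by rw [pullback.lift_fst_snd, Category.comp_id]
    rw [e4, complift]
    exact mcongr _ _ _ _ _ _ hα₁ hα₂
  have hγ : pullback.fst G.j G.j ≫ G.s = (pullback.snd G.j G.j ≫ G.i) ≫ G.t := by
    rw [Category.assoc, G.i_t, hQs]
  obtain ⟨γ, hγdef⟩ : ∃ γ : pullback G.j G.j ⟶ G.R,
      γ = pullback.lift (pullback.fst G.j G.j) (pullback.snd G.j G.j ≫ G.i) hγ ≫ G.c := ⟨_, rfl⟩
  have hγt : γ ≫ G.t = pullback.fst G.j G.j ≫ G.t := by rw [hγdef, G.comp_t]
  have hγs : γ ≫ G.s = pullback.fst G.j G.j ≫ G.t := by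
    rw [hγdef, G.comp_s, Category.assoc, G.i_s, hQt]
  have hS : γ ≫ G.j = (pullback.fst G.j G.j ≫ G.t) ≫ G.diag := by
    apply pullback.hom_ext
    · rw [Category.assoc, hjt, hγt, Category.assoc, hd1, Category.comp_id]
    · rw [Category.assoc, hjs, hγs, Category.assoc, hd2, Category.comp_id]
  let γS : pullback G.j G.j ⟶ G.stabilizer := pullback.lift γ (pullback.fst G.j G.j ≫ G.t) hS
  have hγS1 : γS ≫ pullback.fst G.j G.diag = γ := pullback.lift_fst _ _ _
  have hγS2 : γS ≫ pullback.snd G.j G.diag = pullback.fst G.j G.j ≫ G.t := pullback.lift_snd _ _ _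
  have hκ : γS ≫ G.stabilizerToU = pullback.snd G.j G.j ≫ G.t := by
    show γS ≫ pullback.snd G.j G.diag = _
    rw [hγS2, hQt]
  let κ : pullback G.j G.j ⟶ pullback G.stabilizerToU G.t := pullback.lift γS _ hκ
  have hκ1 : κ ≫ pullback.fst G.stabilizerToU G.t = γS := pullback.lift_fst _ _ _
  have hκ2 : κ ≫ pullback.snd G.stabilizerToU G.t = pullback.snd G.j G.j := pullback.lift_snd _ _ _
  refine ⟨⟨κ, ?_, ?_⟩⟩
  · apply pullback.hom_ext
    · rw [Category.assoc, hκ1, Category.id_comp]
      apply pullback.hom_ext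
      · erw [Category.assoc, hγS1]
        -- β ≫ γ = P1 ≫ pS1
        have H5 : (β ≫ pullback.fst G.j G.j) ≫ G.s = (β ≫ pullback.snd G.j G.j ≫ G.i) ≫ G.t := by
          simp only [Category.assoc]; rw [hγ]; simp only [Category.assoc]
        have H6 : (pullback.lift (pullback.fst G.stabilizerToU G.t ≫ pullback.fst G.j G.diag)
            (pullback.snd G.stabilizerToU G.t) hx ≫ G.c) ≫ G.s =
            (pullback.snd G.stabilizerToU G.t ≫ G.i) ≫ G.t := by
          rw [G.comp_s, Category.assoc, G.i_t]
        have H7 : pullback.snd G.stabilizerToU G.t ≫ G.s =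
            (pullback.snd G.stabilizerToU G.t ≫ G.i) ≫ G.t := by rw [Category.assoc, G.i_t]
        have H8 : (pullback.fst G.stabilizerToU G.t ≫ pullback.fst G.j G.diag) ≫ G.s =
            ((pullback.fst G.stabilizerToU G.t ≫ pullback.fst G.j G.diag) ≫ G.s ≫ G.e) ≫ G.t := by
          simp only [Category.assoc, G.e_t, Category.comp_id]
        have e6 : pullback.lift (pullback.snd G.stabilizerToU G.t)
            (pullback.snd G.stabilizerToU G.t ≫ G.i) H7 ≫ G.c =
            (pullback.fst G.stabilizerToU G.t ≫ pullback.fst G.j G.diag) ≫ G.s ≫ G.e := by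
          rw [G.comp_i, ← Category.assoc, ← hx, Category.assoc]
        calc β ≫ γ
            = pullback.lift (β ≫ pullback.fst G.j G.j) (β ≫ pullback.snd G.j G.j ≫ G.i) H5
                ≫ G.c := by rw [hγdef, ← Category.assoc, complift]
          _ = pullback.lift (pullback.lift (pullback.fst G.stabilizerToU G.t ≫
                pullback.fst G.j G.diag) (pullback.snd G.stabilizerToU G.t) hx ≫ G.c)
                (pullback.snd G.stabilizerToU G.t ≫ G.i) H6 ≫ G.c :=
              mcongr _ _ _ _ _ _ (hβ₁.trans hαc) (by rw [← Category.assoc, hβ₂])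
          _ = pullback.lift (pullback.fst G.stabilizerToU G.t ≫ pullback.fst G.j G.diag)
                (pullback.lift (pullback.snd G.stabilizerToU G.t)
                  (pullback.snd G.stabilizerToU G.t ≫ G.i) H7 ≫ G.c)
                (hx.trans (G.comp_t _ _ H7).symm) ≫ G.c := G.assoc _ _ _ hx H7
          _ = pullback.lift (pullback.fst G.stabilizerToU G.t ≫ pullback.fst G.j G.diag)
                ((pullback.fst G.stabilizerToU G.t ≫ pullback.fst G.j G.diag) ≫ G.s ≫ G.e) H8
                ≫ G.c := mcongr _ _ _ _ _ _ rfl e6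
          _ = pullback.fst G.stabilizerToU G.t ≫ pullback.fst G.j G.diag := G.comp_e _
      · erw [Category.assoc, hγS2, ← Category.assoc, hβ₁, Category.assoc, hct, ← Category.assoc,
          hα₁, Category.assoc, hSt]
        rfl
    · rw [Category.assoc, hκ2, hβ₂, Category.id_comp]
  · apply pullback.hom_ext
    · rw [Category.assoc, hβ₁, hαc, ← Category.assoc, complift]
      have H9 : (κ ≫ pullback.fst G.stabilizerToU G.t ≫ pullback.fst G.j G.diag) = γ := by
        erw [← Category.assoc, hκ1, hγS1]
      have H10 : γ ≫ G.s = pullback.snd G.j G.j ≫ G.t := by rw [hγs, hQt]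
      have H11 : (pullback.snd G.j G.j ≫ G.i) ≫ G.s = pullback.snd G.j G.j ≫ G.t := by
        rw [Category.assoc, G.i_s]
      have H12 : pullback.fst G.j G.j ≫ G.s =
          (pullback.fst G.j G.j ≫ G.s ≫ G.e) ≫ G.t := by
        simp only [Category.assoc, G.e_t, Category.comp_id]
      have e7 : pullback.lift (pullback.snd G.j G.j ≫ G.i) (pullback.snd G.j G.j) H11 ≫ G.c =
          pullback.fst G.j G.j ≫ G.s ≫ G.e := by
        rw [G.i_comp, ← Category.assoc, ← hQs, Category.assoc]
      calc _ = pullback.lift γ (pullback.snd G.j G.j) H10 ≫ G.c := mcongr _ _ _ _ _ _ H9 hκ2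
        _ = pullback.lift (pullback.lift (pullback.fst G.j G.j) (pullback.snd G.j G.j ≫ G.i) hγ
              ≫ G.c) (pullback.snd G.j G.j) ((G.comp_s _ _ hγ).trans H11) ≫ G.c :=
            mcongr _ _ _ _ _ _ hγdef rfl
        _ = pullback.lift (pullback.fst G.j G.j)
              (pullback.lift (pullback.snd G.j G.j ≫ G.i) (pullback.snd G.j G.j) H11 ≫ G.c)
              (hγ.trans (G.comp_t _ _ H11).symm) ≫ G.c := G.assoc _ _ _ hγ H11
        _ = pullback.lift (pullback.fst G.j G.j) (pullback.fst G.j G.j ≫ G.s ≫ G.e) H12 ≫ G.c :=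
            mcongr _ _ _ _ _ _ rfl e7
        _ = pullback.fst G.j G.j := G.comp_e _
        _ = 𝟙 _ ≫ pullback.fst G.j G.j := (Category.id_comp _).symm
    · rw [Category.assoc, hβ₂, hκ2, Category.id_comp]

end Groth.Agent.S7500
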