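import Groth.Statements.S7522
import Mathlib.AlgebraicGeometry.PullbackCarrier
-- import your own Groth.Agent.* helpers here

set_option autoImplicit false
universe u
open CategoryTheory CategoryTheory.Limits AlgebraicGeometry
open Grpd

namespace Groth.Agent.S7522

/-- Let S be a scheme, U a scheme over S and j : R -> U x_S U a pre-equivalence relation, that is a
morphism such that for every scheme T the image of the T-points of R in pairs of T-points of U is an
equivalence relation; write t = pr_0 ∘ j and s = pr_1 ∘ j. Then the relation on the points of U in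
which x ∼ y when some point r of R has t(r) = x and s(r) = y is an equivalence relation. -/
theorem result {S U R : Scheme.{u}} (pU : U ⟶ S) (j : R ⟶ pullback pU pU) (hj : ∀ T : Scheme.{u}, Equivalence (fun a b : T ⟶ U => ∃ r : T ⟶ R, r ≫ j ≫ pullback.fst pU pU = a ∧ r ≫ j ≫ pullback.snd pU pU = b)) : Equivalence (fun x y : ↥U => ∃ r : R, (j ≫ pullback.fst pU pU) r = x ∧ (j ≫ pullback.snd pU pU) r = y) := by
  refine ⟨fun x => ?_, fun {x y} h => ?_, fun {x y z} h₁ h₂ => ?_⟩
  · obtain ⟨r', h1, h2⟩ := (hj U).refl (𝟙 U)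
    refine ⟨r' x, ?_, ?_⟩
    · rw [← Scheme.Hom.comp_apply, h1]; rfl
    · rw [← Scheme.Hom.comp_apply, h2]; rfl
  · obtain ⟨r, rfl, rfl⟩ := h
    obtain ⟨r'', h1, h2⟩ := (hj R).symm ⟨𝟙 R, Category.id_comp _, Category.id_comp _⟩
    refine ⟨r'' r, ?_, ?_⟩
    · rw [← Scheme.Hom.comp_apply, h1]
    · rw [← Scheme.Hom.comp_apply, h2]
  · obtain ⟨r₁, rfl, hr₁⟩ := h₁
    obtain ⟨r₂, hr₂, rfl⟩ := h₂
    have hab : ∃ r : pullback (j ≫ pullback.snd pU pU) (j ≫ pullback.fst pU pU) ⟶ R,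
        r ≫ j ≫ pullback.fst pU pU =
          pullback.fst (j ≫ pullback.snd pU pU) (j ≫ pullback.fst pU pU) ≫ j ≫ pullback.fst pU pU ∧
        r ≫ j ≫ pullback.snd pU pU =
          pullback.fst (j ≫ pullback.snd pU pU) (j ≫ pullback.fst pU pU) ≫ j ≫ pullback.snd pU pU :=
      ⟨_, rfl, rfl⟩
    have hbc : ∃ r : pullback (j ≫ pullback.snd pU pU) (j ≫ pullback.fst pU pU) ⟶ R,
        r ≫ j ≫ pullback.fst pU pU =
          pullback.fst (j ≫ pullback.snd pU pU) (j ≫ pullback.fst pU pU) ≫ j ≫ pullback.snd pU pU ∧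
        r ≫ j ≫ pullback.snd pU pU =
          pullback.snd (j ≫ pullback.snd pU pU) (j ≫ pullback.fst pU pU) ≫ j ≫ pullback.snd pU pU :=
      ⟨pullback.snd _ _, pullback.condition.symm, rfl⟩
    obtain ⟨r₃, h1, h2⟩ := (hj _).trans hab hbc
    obtain ⟨τ, hτ1, hτ2⟩ := Scheme.Pullback.exists_preimage_pullback
      (f := j ≫ pullback.snd pU pU) (g := j ≫ pullback.fst pU pU) r₁ r₂ (hr₁.trans hr₂.symm)
    refine ⟨r₃ τ, ?_, ?_⟩
    · rw [← Scheme.Hom.comp_apply, h1, Scheme.Hom.comp_apply, hτ1]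
    · rw [← Scheme.Hom.comp_apply, h2, Scheme.Hom.comp_apply, hτ2]

end Groth.Agent.S7522
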