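import Groth.Statements.S7524
import Mathlib.Topology.Spectral.ConstructibleTopology

set_option autoImplicit false
universe u
open SpecSp

namespace Groth.Agent.S7524

theorem result {X Y : Type u} [TopologicalSpace X] [TopologicalSpace Y]
    [SpectralSpace X] [SpectralSpace Y] (f : X → Y) (hf : Continuous f) :
    IsSpectralMap f ↔ @Continuous X Y (constructibleTopology X) (constructibleTopology Y) f := by
  constructor
  · intro hsp
    rw [continuous_generateFrom_iff]
    rintro s (⟨hso, hsc⟩ | ⟨hsc, hscc⟩)
    · exact IsCompact.isOpen_constructibleTopology_of_isOpen
        (hsp.isCompact_preimage_of_isOpen hso hsc) (hso.preimage hf)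
    · apply IsCompact.isOpen_constructibleTopology_of_isClosed
      · rw [← Set.preimage_compl]
        exact hsp.isCompact_preimage_of_isOpen hsc.isOpen_compl hscc
      · exact hsc.preimage hf
  · intro hct
    refine ⟨hf, fun s hso hsc => ?_⟩
    have hVcl : @IsClosed Y (constructibleTopology Y) s := @IsClosed.mk Y (constructibleTopology Y) s
      (IsCompact.isOpen_constructibleTopology_of_isClosed (s := sᶜ) (by rwa [compl_compl])
        hso.isClosed_compl)
    have hpre : @IsClosed X (constructibleTopology X) (f ⁻¹' s) := @IsClosed.preimage X Y (constructibleTopology X) (constructibleTopology Y) f hct s hVcl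
    have hcomp : @IsCompact X (constructibleTopology X) Set.univ := by
      have h1 : IsCompact (Set.univ : Set (WithConstructibleTopology X)) := isCompact_univ
      have h2 := @IsCompact.image (WithConstructibleTopology X) X _ (constructibleTopology X) Set.univ
        WithTopology.ofTopology h1 (WithTopology.continuous_ofTopology (constructibleTopology X))
      rwa [Set.image_univ_of_surjective (WithTopology.ofTopology_surjective (constructibleTopology X))] at h2
    have hc1 : @IsCompact X (constructibleTopology X) (f ⁻¹' s) :=
      @IsCompact.of_isClosed_subset X (constructibleTopology X) Set.univ (f ⁻¹' s) hcomp hpre (Set.subset_univ _)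
    have hle : (constructibleTopology X) ≤ ‹TopologicalSpace X› := by
      rw [TopologicalSpace.le_def]
      intro U hU
      rw [PrespectralSpace.isTopologicalBasis.open_eq_sUnion' hU]
      apply @isOpen_sUnion X (constructibleTopology X)
      intro t ht
      exact IsCompact.isOpen_constructibleTopology_of_isOpen ht.1.2 ht.1.1
    have h3 := @IsCompact.image X X (constructibleTopology X) ‹TopologicalSpace X› (f ⁻¹' s) id hc1 (continuous_id_of_le hle)
    simpa using h3

end Groth.Agent.S7524
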