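import Groth.Statements.S7527
import Mathlib.Topology.Spectral.ConstructibleTopology

set_option autoImplicit false
universe u
open SpecSp
open Topology

namespace Groth.Agent.S7527

theorem result {X : Type u} [TopologicalSpace X] [SpectralSpace X] (x y : X) :
    (∃ z : X, z ⤳ x ∧ z ⤳ y) ∨
    (∃ U V : Set X, IsOpen U ∧ IsOpen V ∧ x ∈ U ∧ y ∈ V ∧ Disjoint U V) := by
  by_contra hcon
  rw [not_or] at hcon
  obtain ⟨h1, h2⟩ := hcon
  let ι := {p : Set X × Set X // (IsOpen p.1 ∧ IsCompact p.1 ∧ x ∈ p.1) ∧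
    (IsOpen p.2 ∧ IsCompact p.2 ∧ y ∈ p.2)}
  let Y := WithConstructibleTopology X
  let t : ι → Set Y := fun p => WithTopology.ofTopology ⁻¹' (p.1.1 ∩ p.1.2)
  have hclosedX : ∀ U : Set X, IsOpen U → IsCompact U → IsClosed[constructibleTopology X] U := by
    intro U hUo hUc
    have h := IsCompact.isOpen_constructibleTopology_of_isClosed (s := Uᶜ)
      (by rwa [compl_compl]) hUo.isClosed_compl
    exact @IsClosed.mk X (constructibleTopology X) U h
  have hclY : ∀ U : Set X, IsOpen U → IsCompact U →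
      IsClosed (WithTopology.ofTopology ⁻¹' U : Set Y) := by
    intro U hUo hUc
    rw [WithConstructibleTopology.isClosed_iff]
    exact hclosedX U hUo hUc
  have htcl : ∀ i, IsClosed (t i) := by
    intro i
    exact (hclY _ i.2.1.1 i.2.1.2.1).inter (hclY _ i.2.2.1 i.2.2.2.1)
  have htn : ∀ i, (t i).Nonempty := by
    intro i
    by_contra hne
    apply h2
    refine ⟨i.1.1, i.1.2, i.2.1.1, i.2.2.1, i.2.1.2.2, i.2.2.2.2, ?_⟩
    rw [Set.disjoint_iff_inter_eq_empty]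
    by_contra hne'
    obtain ⟨w, hw⟩ := Set.nonempty_iff_ne_empty.mpr hne'
    exact hne ⟨WithTopology.toTopology _ w, hw⟩
  have htd : Directed (· ⊇ ·) t := by
    intro i j
    refine ⟨⟨(i.1.1 ∩ j.1.1, i.1.2 ∩ j.1.2),
      ⟨i.2.1.1.inter j.2.1.1,
        QuasiSeparatedSpace.inter_isCompact _ _ i.2.1.1 i.2.1.2.1 j.2.1.1 j.2.1.2.1,
        i.2.1.2.2, j.2.1.2.2⟩,
      ⟨i.2.2.1.inter j.2.2.1,
        QuasiSeparatedSpace.inter_isCompact _ _ i.2.2.1 i.2.2.2.1 j.2.2.1 j.2.2.2.1,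
        i.2.2.2.2, j.2.2.2.2⟩⟩, ?_, ?_⟩
    · intro w hw
      exact ⟨hw.1.1, hw.2.1⟩
    · intro w hw
      exact ⟨hw.1.2, hw.2.2⟩
  have hne : Nonempty ι := ⟨⟨(Set.univ, Set.univ),
    ⟨isOpen_univ, isCompact_univ, trivial⟩, ⟨isOpen_univ, isCompact_univ, trivial⟩⟩⟩
  obtain ⟨w, hw⟩ := IsCompact.nonempty_iInter_of_directed_nonempty_isCompact_isClosed t htd htn
    (fun i => (htcl i).isCompact) htcl
  rw [Set.mem_iInter] at hw
  let z : X := WithTopology.ofTopology w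
  have hz : ∀ i : ι, z ∈ i.1.1 ∩ i.1.2 := fun i => hw i
  apply h1
  refine ⟨z, ?_, ?_⟩
  · rw [specializes_iff_forall_open]
    intro s hs hxs
    obtain ⟨W, ⟨hWo, hWc⟩, hxW, hWs⟩ :=
      PrespectralSpace.isTopologicalBasis.exists_subset_of_mem_open hxs hs
    exact hWs (hz ⟨(W, Set.univ), ⟨hWo, hWc, hxW⟩, ⟨isOpen_univ, isCompact_univ, trivial⟩⟩).1
  · rw [specializes_iff_forall_open]
    intro s hs hys
    obtain ⟨W, ⟨hWo, hWc⟩, hyW, hWs⟩ :=
      PrespectralSpace.isTopologicalBasis.exists_subset_of_mem_open hys hs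
    exact hWs (hz ⟨(Set.univ, W), ⟨isOpen_univ, isCompact_univ, trivial⟩, ⟨hWo, hWc, hyW⟩⟩).2

end Groth.Agent.S7527
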