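import Groth.Statements.S7540
import Mathlib.Topology.Spectral.ConstructibleTopology
-- import your own Groth.Agent.* helpers here

set_option autoImplicit false
universe u
open SpecSp

namespace Groth.Agent.S7540

open Topology

/-- Let X be a spectral space, I a nonempty index set and U_i ⊆ X quasi-compact opens such that for all
i, j some U_k lies in U_i ∩ U_j; put W = ⋂ U_i. Then every open subset of X containing W contains
some U_i. The published statement also asserts that W is spectral and is the limit of the U_i; this
row states the neighbourhood property. -/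
theorem result {X : Type u} [TopologicalSpace X] [SpectralSpace X]
    {I : Type u} [Nonempty I] (U : I → Set X) (hU : ∀ i, IsOpen (U i) ∧ IsCompact (U i))
    (hdir : ∀ i j, ∃ k, U k ⊆ U i ∩ U j) :
    ∀ V : Set X, IsOpen V → (⋂ i, U i) ⊆ V → ∃ i, U i ⊆ V := by
  intro V hV hsub
  have hVc : IsOpen[constructibleTopology X] V := by
    rw [PrespectralSpace.isTopologicalBasis.open_eq_sUnion' hV]
    apply @isOpen_sUnion X (constructibleTopology X)
    rintro s ⟨⟨hso, hsc⟩, -⟩
    exact hsc.isOpen_constructibleTopology_of_isOpen hso
  have hUc : ∀ i, IsClosed[constructibleTopology X] (U i) := by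
    intro i
    have : IsOpen[constructibleTopology X] (U i)ᶜ :=
      IsCompact.isOpen_constructibleTopology_of_isClosed (by simpa using (hU i).2)
        (hU i).1.isClosed_compl
    exact (@isOpen_compl_iff X _ (constructibleTopology X)).mp this
  let C : I → Set (WithConstructibleTopology X) :=
    fun i => WithTopology.ofTopology ⁻¹' (U i ∩ Vᶜ)
  have hC : ∀ i, IsClosed (C i) := by
    intro i
    rw [WithTopology.isClosed_iff]
    exact @IsClosed.inter X _ _ (constructibleTopology X) (hUc i)
      (@IsOpen.isClosed_compl X (constructibleTopology X) _ hVc)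
  have hempty : (Set.univ ∩ ⋂ i, C i) = ∅ := by
    apply Set.eq_empty_of_forall_notMem
    intro w hw
    have hw' : ∀ i, w ∈ C i := fun i => Set.mem_iInter.mp hw.2 i
    have hx : WithTopology.ofTopology w ∈ ⋂ i, U i := Set.mem_iInter.mpr fun i => (hw' i).1
    exact (hw' (Classical.arbitrary I)).2 (hsub hx)
  have hdirC : Directed (· ⊇ ·) C := by
    intro i j
    obtain ⟨k, hk⟩ := hdir i j
    refine ⟨k, ?_, ?_⟩
    · intro w hw; exact ⟨(hk hw.1).1, hw.2⟩
    · intro w hw; exact ⟨(hk hw.1).2, hw.2⟩
  obtain ⟨i, hi⟩ := isCompact_univ.elim_directed_family_closed C hC hempty hdirC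
  refine ⟨i, fun x hx => ?_⟩
  by_contra hxV
  have : WithTopology.toTopology (constructibleTopology X) x ∈ Set.univ ∩ C i :=
    ⟨trivial, hx, hxV⟩
  rw [hi] at this
  exact this

end Groth.Agent.S7540
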