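import Groth.Statements.S7542

set_option autoImplicit false
universe u
open ConstrTop

namespace Groth.Agent.S7542

theorem result {X : Type u} [TopologicalSpace X] [PrespectralSpace X]
    (T : Set X) (hT : IsRetrocompact T) (E : Set X) (hE : Topology.IsConstructible E) :
    Topology.IsConstructible ((Subtype.val : T → X) ⁻¹' E) := by
  refine hE.preimage continuous_subtype_val ?_
  intro s hso hsr U' hU'c hU'o
  obtain ⟨W, hWo, hWU'⟩ := isOpen_induced_iff.mp hU'o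
  rw [Subtype.isCompact_iff]
  have himg : (Subtype.val '' (Subtype.val ⁻¹' s ∩ U') : Set X) = T ∩ (W ∩ s) := by
    ext x
    constructor
    · rintro ⟨⟨y, hyT⟩, ⟨hys, hyU'⟩, rfl⟩
      rw [← hWU'] at hyU'
      exact ⟨hyT, hyU', hys⟩
    · rintro ⟨hxT, hxW, hxs⟩
      refine ⟨⟨x, hxT⟩, ⟨hxs, ?_⟩, rfl⟩
      rw [← hWU']
      exact hxW
  rw [himg]
  have hTW : IsCompact (T ∩ W) := by
    have h1 := Subtype.isCompact_iff.mp hU'c
    have h2 : (Subtype.val '' U' : Set X) = T ∩ W := by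
      rw [← hWU', Subtype.image_preimage_coe]
    rwa [h2] at h1
  let ι := {v : Set X // IsOpen v ∧ IsCompact v ∧ v ⊆ W}
  obtain ⟨t, ht⟩ := hTW.elim_finite_subcover (fun i : ι => i.1) (fun i => i.2.1) (by
    rintro x ⟨hxT, hxW⟩
    obtain ⟨v, ⟨hvo, hvc⟩, hxv, hvW⟩ :=
      PrespectralSpace.isTopologicalBasis.exists_subset_of_mem_open hxW hWo
    exact Set.mem_iUnion.mpr ⟨⟨v, hvo, hvc, hvW⟩, hxv⟩)
  have heq : T ∩ (W ∩ s) = ⋃ i ∈ t, T ∩ (s ∩ (i : ι).1) := by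
    ext x
    constructor
    · rintro ⟨hxT, hxW, hxs⟩
      have hx := ht ⟨hxT, hxW⟩
      simp only [Set.mem_iUnion] at hx ⊢
      obtain ⟨i, hi, hxi⟩ := hx
      exact ⟨i, hi, hxT, hxs, hxi⟩
    · intro hx
      simp only [Set.mem_iUnion] at hx
      obtain ⟨i, -, hxT, hxs, hxi⟩ := hx
      exact ⟨hxT, i.2.2.2 hxi, hxs⟩
  rw [heq]
  exact t.isCompact_biUnion (fun i _ => hT (hsr i.2.2.1 i.2.1) (hso.inter i.2.1))

end Groth.Agent.S7542
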