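import Groth.Statements.S7543
-- import your own Groth.Agent.* helpers here

set_option autoImplicit false
universe u
open ConstrTop

namespace Groth.Agent.S7543

open Set Topology in
theorem retro_of_constr {X : Type u} [TopologicalSpace X] (E : Set X)
    (hE : Topology.IsConstructible E) : IsRetrocompact E := by
  induction E, hE using BooleanSubalgebra.closure_sdiff_sup_induction with
  | isSublattice =>
    exact ⟨fun s hs t ht ↦ ⟨hs.1.union ht.1, hs.2.union ht.2⟩,
      fun s hs t ht ↦ ⟨hs.1.inter ht.1, hs.2.inter_isOpen ht.2 ht.1⟩⟩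
  | bot_mem => exact ⟨isOpen_empty, .empty⟩
  | top_mem => exact ⟨isOpen_univ, .univ⟩
  | sdiff U hU V hV =>
    intro C hC hCo
    have h1 : IsCompact (U ∩ C) := hU.2 hC hCo
    have : (U \ V) ∩ C = (U ∩ C) \ V := by
      ext x; simp only [mem_inter_iff, mem_sdiff]; tauto
    rw [this]; exact h1.diff hV.1
  | sup s _ t _ hs' ht' => exact hs'.union ht'

open Set Topology in
theorem key {X : Type u} [TopologicalSpace X] (E : Set X) (W₀ : Set X) (hW₀ : IsOpen W₀)
    (H : ∀ C : Set X, IsCompact C → IsOpen C → IsCompact (W₀ ∩ E ∩ C))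
    (E' : Set X) (hE' : Topology.IsConstructible E') (hsub : E' ⊆ E) :
    Topology.IsConstructible (W₀ ∩ E') := by
  induction E', hE' using BooleanSubalgebra.closure_sdiff_sup_induction with
  | isSublattice =>
    exact ⟨fun s hs t ht ↦ ⟨hs.1.union ht.1, hs.2.union ht.2⟩,
      fun s hs t ht ↦ ⟨hs.1.inter ht.1, hs.2.inter_isOpen ht.2 ht.1⟩⟩
  | bot_mem => exact ⟨isOpen_empty, .empty⟩
  | top_mem => exact ⟨isOpen_univ, .univ⟩
  | sdiff U hU V hV =>
    have hGo : IsOpen ((W₀ ∩ U) ∪ (U ∩ V)) := (hW₀.inter hU.1).union (hU.1.inter hV.1)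
    have hGr : IsRetrocompact ((W₀ ∩ U) ∪ (U ∩ V)) := by
      intro C hC hCo
      have hUC : IsCompact (U ∩ C) := hU.2 hC hCo
      have hUCo : IsOpen (U ∩ C) := hU.1.inter hCo
      have e : ((W₀ ∩ U) ∪ (U ∩ V)) ∩ C = ((W₀ ∩ E ∩ (U ∩ C)) \ V) ∪ (V ∩ (U ∩ C)) := by
        ext x
        simp only [mem_inter_iff, mem_union, mem_sdiff]
        constructor
        · rintro ⟨h | h, hc⟩
          · by_cases hv : x ∈ V
            · exact Or.inr ⟨hv, h.2, hc⟩
            · exact Or.inl ⟨⟨⟨h.1, hsub ⟨h.2, hv⟩⟩, h.2, hc⟩, hv⟩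
          · exact Or.inr ⟨h.2, h.1, hc⟩
        · rintro (⟨⟨⟨h1, _⟩, h2, h3⟩, _⟩ | ⟨h1, h2, h3⟩)
          · exact ⟨Or.inl ⟨h1, h2⟩, h3⟩
          · exact ⟨Or.inr ⟨h2, h1⟩, h3⟩
      rw [e]
      exact ((H _ hUC hUCo).diff hV.1).union (hV.2 hUC hUCo)
    have e2 : W₀ ∩ (U \ V) = ((W₀ ∩ U) ∪ (U ∩ V)) \ V := by
      ext x
      simp only [mem_inter_iff, mem_union, mem_sdiff]
      tauto
    rw [e2]
    exact (hGr.isConstructible hGo).sdiff (hV.2.isConstructible hV.1)
  | sup s hs t ht hs' ht' =>
    have h1 := hs' (subset_union_left.trans hsub)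
    have h2 := ht' (subset_union_right.trans hsub)
    have : W₀ ∩ (s ⊔ t) = (W₀ ∩ s) ∪ (W₀ ∩ t) := inter_union_distrib_left _ _ _
    rw [this]; exact h1.union h2


/-- Let X be a topological space such that the quasi-compact opens form a basis for the topology. Let E
⊆ X be constructible in X and let F be a constructible subset of the subspace E. Then F, viewed in
X, is constructible in X. -/
theorem result {X : Type u} [TopologicalSpace X] [PrespectralSpace X]
    (E : Set X) (hE : Topology.IsConstructible E) (F : Set E) (hF : Topology.IsConstructible F) :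
    Topology.IsConstructible ((Subtype.val : E → X) '' F) := by
  have hEr := retro_of_constr E hE
  induction hF using Topology.IsConstructible.empty_union_induction with
  | open_retrocompact W hWo hWr =>
    obtain ⟨W₀, hW₀, rfl⟩ := isOpen_induced_iff.mp hWo
    have himg : (Subtype.val : E → X) '' (Subtype.val ⁻¹' W₀) = W₀ ∩ E := by
      rw [Subtype.image_preimage_coe]; exact Set.inter_comm _ _
    rw [himg]
    have H : ∀ C : Set X, IsCompact C → IsOpen C → IsCompact (W₀ ∩ E ∩ C) := by
      intro C hC hCo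
      have hc1 : IsCompact ((Subtype.val : E → X) ⁻¹' C) := by
        rw [Topology.IsEmbedding.subtypeVal.isCompact_iff, Subtype.image_preimage_coe]
        exact hEr hC hCo
      have hc2 := hWr hc1 (hCo.preimage continuous_subtype_val)
      have := hc2.image continuous_subtype_val
      convert this using 1
      ext x; simp only [Set.mem_inter_iff, Set.mem_image, Set.mem_preimage, Subtype.exists,
        exists_and_right, exists_eq_right]; tauto
    simpa using key E W₀ hW₀ H E hE subset_rfl
  | union s hs t ht hs' ht' => rw [Set.image_union]; exact hs'.union ht'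
  | compl s hs hs' =>
    rw [← Set.range_sdiff_image Subtype.val_injective, Subtype.range_coe]
    exact hE.sdiff hs'

end Groth.Agent.S7543
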