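import Groth.Statements.S7544
-- import your own Groth.Agent.* helpers here

set_option autoImplicit false
universe u
open ConstrTop

namespace Groth.Agent.S7544

/-- Let X be a quasi-compact topological space whose quasi-compact opens form a basis and are closed
under pairwise intersection. Take T ⊆ X to be locally closed, quasi-compact, and with retrocompact
complement. Then T is constructible in X. -/
theorem result {X : Type u} [TopologicalSpace X]
    [CompactSpace X] [PrespectralSpace X] [QuasiSeparatedSpace X]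
    (T : Set X) (hT : IsLocallyClosed T) (hTc : IsCompact T) (hTr : IsRetrocompact Tᶜ) :
    Topology.IsConstructible T := by
  obtain ⟨U, Z, hU, hZ, rfl⟩ := hT
  obtain ⟨W, hWc, hWo, hTW, hWU⟩ :=
    PrespectralSpace.exists_isCompact_and_isOpen_between hTc hU Set.inter_subset_left
  have hT' : U ∩ Z = W ∩ Z := by
    apply Set.Subset.antisymm
    · intro x hx; exact ⟨hTW hx, hx.2⟩
    · intro x hx; exact ⟨hWU hx.1, hx.2⟩
  have hV : W ∩ Zᶜ = (U ∩ Z)ᶜ ∩ W := by
    ext x; constructor
    · rintro ⟨hxW, hxZ⟩; exact ⟨fun h => hxZ h.2, hxW⟩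
    · rintro ⟨hxT, hxW⟩; exact ⟨hxW, fun hxZ => hxT ⟨hWU hxW, hxZ⟩⟩
  have hVc : IsCompact (W ∩ Zᶜ) := by rw [hV]; exact hTr hWc hWo
  have hVo : IsOpen (W ∩ Zᶜ) := hWo.inter hZ.isOpen_compl
  have h1 : Topology.IsConstructible W := hWc.isConstructible hWo
  have h2 : Topology.IsConstructible (W ∩ Zᶜ) := hVc.isConstructible hVo
  have h3 : U ∩ Z = W \ (W ∩ Zᶜ) := by
    rw [hT']; ext x
    constructor
    · rintro ⟨hxW, hxZ⟩; exact ⟨hxW, fun h => h.2 hxZ⟩
    · rintro ⟨hxW, hx⟩; exact ⟨hxW, by by_contra hz; exact hx ⟨hxW, hz⟩⟩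
  rw [h3]; exact h1.sdiff h2

end Groth.Agent.S7544
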