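import Groth.Statements.S7545
import Groth.Agent.S7542
import Groth.Agent.S7543
-- import your own Groth.Agent.* helpers here

set_option autoImplicit false
universe u
open ConstrTop

namespace Groth.Agent.S7545

/-- Let X be a topological space in which every open set is a union of quasi-compact opens, and suppose
X is the union of finitely many constructible subsets E_1, …, E_m. A subset E ⊆ X is constructible
exactly when, for each j, the trace E ∩ E_j is a constructible subset of the subspace E_j. -/
theorem result {X : Type u} [TopologicalSpace X] [PrespectralSpace X]
    {m : ℕ} (C : Fin m → Set X) (hC : ∀ j, Topology.IsConstructible (C j)) (hcov : ⋃ j, C j = Set.univ)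
    (E : Set X) :
    Topology.IsConstructible E ↔ ∀ j, Topology.IsConstructible ((Subtype.val : C j → X) ⁻¹' E) := by
  constructor
  · intro hE j
    exact Groth.Agent.S7542.result (C j) (Groth.Agent.S7543.retro_of_constr (C j) (hC j)) E hE
  · intro h
    have hEq : E = ⋃ j, (Subtype.val : C j → X) '' ((Subtype.val : C j → X) ⁻¹' E) := by
      ext x
      simp only [Set.mem_iUnion, Subtype.image_preimage_coe, Set.mem_inter_iff]
      constructor
      · intro hx
        have : x ∈ ⋃ j, C j := hcov ▸ Set.mem_univ x
        obtain ⟨j, hj⟩ := Set.mem_iUnion.mp this
        exact ⟨j, hj, hx⟩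
      · rintro ⟨j, _, hx⟩; exact hx
    rw [hEq]
    exact Topology.IsConstructible.iUnion fun j =>
      Groth.Agent.S7543.result (C j) (hC j) _ (h j)

end Groth.Agent.S7545
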