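import Groth.Statements.S7546
-- import your own Groth.Agent.* helpers here

set_option autoImplicit false
universe u
open ConstrTop

namespace Groth.Agent.S7546

/-- Let X be a topological space, Z ⊆ X irreducible and E ⊆ X a finite union of locally closed subsets
(for instance a constructible set). Then E ∩ Z is dense in Z if and only if E ∩ Z contains a subset
of the form U ∩ Z, U open in X, which is dense in Z. If moreover ξ ∈ Z is a generic point of Z,
these conditions are equivalent to ξ ∈ E. -/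
theorem result {X : Type u} [TopologicalSpace X] (Z : Set X) (hZ : IsIrreducible Z)
    {n : ℕ} (L : Fin n → Set X) (hL : ∀ i, IsLocallyClosed (L i)) (E : Set X) (hE : E = ⋃ i, L i) :
    (Z ⊆ closure (E ∩ Z) ↔ ∃ U : Set X, IsOpen U ∧ U ∩ Z ⊆ E ∧ Z ⊆ closure (U ∩ Z)) ∧
    (∀ ξ : X, ξ ∈ Z → Z ⊆ closure {ξ} → (Z ⊆ closure (E ∩ Z) ↔ ξ ∈ E)) := by
  have part1 : Z ⊆ closure (E ∩ Z) ↔ ∃ U : Set X, IsOpen U ∧ U ∩ Z ⊆ E ∧ Z ⊆ closure (U ∩ Z) := by
    constructor
    · intro hZE
      have hcov : Z ⊆ ⋃₀ ((Finset.univ.image (fun i => closure (L i ∩ Z)) : Finset (Set X)) :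
          Set (Set X)) := by
        intro x hx
        have hx' := hZE hx
        have : E ∩ Z = ⋃ i, (L i ∩ Z) := by rw [hE, Set.iUnion_inter]
        rw [this, closure_iUnion_of_finite] at hx'
        obtain ⟨i, hi⟩ := Set.mem_iUnion.mp hx'
        exact ⟨closure (L i ∩ Z), by simp, hi⟩
      obtain ⟨z, hz, hZz⟩ := (isIrreducible_iff_sUnion_isClosed.mp hZ) _
        (by intro z hz; simp only [Finset.coe_image, Finset.coe_univ, Set.image_univ,
              Finset.mem_image, Finset.mem_univ, true_and] at hz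
            obtain ⟨i, rfl⟩ := hz; exact isClosed_closure) hcov
      simp only [Finset.mem_image, Finset.mem_univ, true_and] at hz
      obtain ⟨i, rfl⟩ := hz
      obtain ⟨U, F, hU, hF, hLi⟩ := hL i
      have hZF : Z ⊆ F := by
        refine hZz.trans (closure_minimal ?_ hF)
        rw [hLi]; exact fun x hx => hx.1.2
      refine ⟨U, hU, ?_, ?_⟩
      · intro x hx
        rw [hE]; exact Set.mem_iUnion.mpr ⟨i, by rw [hLi]; exact ⟨hx.1, hZF hx.2⟩⟩
      · refine hZz.trans (closure_mono ?_)
        rw [hLi]; exact fun x hx => ⟨hx.1.1, hx.2⟩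
    · rintro ⟨U, _, hUE, hZU⟩
      exact hZU.trans (closure_mono fun x hx => ⟨hUE hx, hx.2⟩)
  refine ⟨part1, ?_⟩
  intro ξ hξ hgen
  constructor
  · intro hZE
    obtain ⟨U, hU, hUE, hZU⟩ := part1.mp hZE
    by_contra hξE
    have hξU : ξ ∉ U := fun h => hξE (hUE ⟨h, hξ⟩)
    have h1 : closure {ξ} ⊆ Uᶜ := closure_minimal (by simpa using hξU) hU.isClosed_compl
    have h2 : U ∩ Z = ∅ := by
      ext x; simp only [Set.mem_inter_iff, Set.mem_empty_iff_false, iff_false, not_and]
      intro hxU hxZ; exact h1 (hgen hxZ) hxU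
    have := hZU hξ
    rw [h2, closure_empty] at this
    exact this
  · intro hξE
    exact hgen.trans (closure_mono (by simpa using (⟨hξE, hξ⟩ : ξ ∈ E ∩ Z)))

end Groth.Agent.S7546
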