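import Groth.Statements.S7547

set_option autoImplicit false
universe u
open PtTop

namespace Groth.Agent.S7547

theorem result {X : Type u} [TopologicalSpace X]
    [T0Space X] [PrespectralSpace X] (hX : ¬ JacobsonSpace X) :
    ∃ x : X, ¬ IsClosed ({x} : Set X) ∧ IsLocallyClosed ({x} : Set X) := by
  by_contra hcon
  have hcl : ∀ x : X, IsLocallyClosed ({x} : Set X) → IsClosed ({x} : Set X) := by
    intro x hx
    by_contra hnc
    exact hcon ⟨x, hnc, hx⟩
  apply hX
  rw [jacobsonSpace_iff_locallyClosed]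
  rintro Z ⟨z, hz⟩ ⟨U, C, hU, hC, rfl⟩
  obtain ⟨W, ⟨hWo, hWc⟩, hzW, hWU⟩ :=
    PrespectralSpace.isTopologicalBasis.exists_subset_of_mem_open hz.1 hU
  let T : Set X := C ∩ W
  have hTc : IsCompact T := hWc.inter_left hC
  have : CompactSpace T := isCompact_iff_compactSpace.mp hTc
  obtain ⟨t, -, ht⟩ := IsClosed.exists_closed_singleton (X := T) (S := Set.univ) isClosed_univ
    ⟨⟨z, hz.2, hzW⟩, trivial⟩
  obtain ⟨F, hF, hFt⟩ := isClosed_induced_iff.mp ht
  have hloc : IsLocallyClosed ({(t : X)} : Set X) := by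
    refine ⟨W, C ∩ F, hWo, hC.inter hF, ?_⟩
    ext y
    constructor
    · rintro rfl
      have htF : t ∈ Subtype.val ⁻¹' F := by rw [hFt]; rfl
      exact ⟨t.2.2, t.2.1, htF⟩
    · rintro ⟨hyW, hyC, hyF⟩
      have : (⟨y, hyC, hyW⟩ : T) ∈ Subtype.val ⁻¹' F := hyF
      rw [hFt] at this
      exact congrArg Subtype.val this
  exact ⟨t, ⟨hWU t.2.2, t.2.1⟩, hcl _ hloc⟩

end Groth.Agent.S7547
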