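import Groth.Statements.S7548
-- import your own Groth.Agent.* helpers here

set_option autoImplicit false
universe u
open PtTop

namespace Groth.Agent.S7548

/-- Let X be a Jacobson space and let T = ⋃ T_i be a union of subsets T_i ⊆ X each locally closed in X
(open, closed, locally closed and constructible subsets are of this form). Then T is Jacobson and
every point of T closed in T is closed in X. -/
theorem result {X : Type u} [TopologicalSpace X] [JacobsonSpace X]
    {ι : Type u} (T : ι → Set X) (hT : ∀ i, IsLocallyClosed (T i)) :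
    JacobsonSpace ↥(⋃ i, T i) ∧
      closedPoints ↥(⋃ i, T i) ⊆ (Subtype.val : ↥(⋃ i, T i) → X) ⁻¹' closedPoints X := by
  have hcl : closedPoints ↥(⋃ i, T i) ⊆ (Subtype.val : ↥(⋃ i, T i) → X) ⁻¹' closedPoints X := by
    intro s hs
    rw [mem_closedPoints_iff] at hs
    obtain ⟨C, hC, hCs⟩ := isClosed_induced_iff.mp hs
    obtain ⟨i, hi⟩ := Set.mem_iUnion.mp s.2
    have heq : ({s.1} : Set X) = T i ∩ C := by
      ext y
      constructor
      · rintro rfl
        refine ⟨hi, ?_⟩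
        have : s ∈ (Subtype.val ⁻¹' C : Set ↥(⋃ i, T i)) := by rw [hCs]; rfl
        exact this
      · rintro ⟨hyT, hyC⟩
        have hyS : y ∈ ⋃ i, T i := Set.mem_iUnion.mpr ⟨i, hyT⟩
        have : (⟨y, hyS⟩ : ↥(⋃ i, T i)) ∈ (Subtype.val ⁻¹' C : Set ↥(⋃ i, T i)) := hyC
        rw [hCs] at this
        have := congrArg Subtype.val (Set.mem_singleton_iff.mp this)
        exact Set.mem_singleton_iff.mpr this
    have hlc : IsLocallyClosed ({s.1} : Set X) := by
      rw [heq]; exact (hT i).inter hC.isLocallyClosed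
    exact isClosed_singleton_of_isLocallyClosed_singleton hlc
  refine ⟨?_, hcl⟩
  rw [jacobsonSpace_iff_locallyClosed]
  intro Z hZne hZlc
  obtain ⟨U, Z', hU, hZ', rfl⟩ := hZlc
  obtain ⟨U', hU', rfl⟩ := isOpen_induced_iff.mp hU
  obtain ⟨C', hC', rfl⟩ := isClosed_induced_iff.mp hZ'
  obtain ⟨z, hzU, hzC⟩ := hZne
  obtain ⟨i, hi⟩ := Set.mem_iUnion.mp z.2
  have hLlc : IsLocallyClosed (T i ∩ U' ∩ C') :=
    ((hT i).inter hU'.isLocallyClosed).inter hC'.isLocallyClosed
  obtain ⟨y, ⟨⟨hyT, hyU⟩, hyC⟩, hycl⟩ :=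
    nonempty_inter_closedPoints (Z := T i ∩ U' ∩ C')
      (⟨z.1, ⟨hi, hzU⟩, hzC⟩ : (T i ∩ U' ∩ C').Nonempty) hLlc
  have hyS : y ∈ ⋃ i, T i := Set.mem_iUnion.mpr ⟨i, hyT⟩
  refine ⟨⟨y, hyS⟩, ⟨hyU, hyC⟩, ?_⟩
  rw [mem_closedPoints_iff]
  have : ({⟨y, hyS⟩} : Set ↥(⋃ i, T i)) = Subtype.val ⁻¹' {y} := by
    ext w; simp [Subtype.ext_iff]
  rw [this]
  exact hycl.preimage continuous_subtype_val

end Groth.Agent.S7548
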