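import Groth.Statements.S7550
-- import your own Groth.Agent.* helpers here

set_option autoImplicit false
universe u
open PtTop

namespace Groth.Agent.S7550

/-- Let f : X → Y be a continuous and open map of topological spaces, with X Noetherian, every
irreducible closed subset of X having a generic point, and Y Kolmogorov. Then generalizations lift
along f. (Part (1), closed maps are specializing, is a library fact.) -/
theorem result {X Y : Type u} [TopologicalSpace X] [TopologicalSpace Y]
    [TopologicalSpace.NoetherianSpace X] [QuasiSober X] [T0Space Y]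
    (f : X → Y) (hf : Continuous f) (hfo : IsOpenMap f) :
    GeneralizingMap f := by
  intro x y hy
  have hxF : x ∈ closure (f ⁻¹' {y}) := by
    rw [mem_closure_iff]
    intro U hU hxU
    have hyU : y ∈ f '' U := (specializes_iff_forall_open.mp hy) _ (hfo U hU) ⟨x, hxU, rfl⟩
    obtain ⟨u, huU, hfu⟩ := hyU
    exact ⟨u, huU, hfu⟩
  have hfin : (irreducibleComponents (f ⁻¹' {y})).Finite :=
    TopologicalSpace.NoetherianSpace.finite_irreducibleComponents
  have hFeq : f ⁻¹' {y} = ⋃₀ ((fun C : Set (f ⁻¹' {y}) => (Subtype.val : f ⁻¹' {y} → X) '' C) ''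
      irreducibleComponents (f ⁻¹' {y})) := by
    rw [← Set.image_sUnion, sUnion_irreducibleComponents, Set.image_univ, Subtype.range_coe]
  rw [hFeq, (hfin.image _).closure_sUnion] at hxF
  simp only [Set.mem_iUnion, Set.mem_image] at hxF
  obtain ⟨_, ⟨C, hC, rfl⟩, hxC⟩ := hxF
  have hCirr : IsIrreducible ((Subtype.val : f ⁻¹' {y} → X) '' C) :=
    hC.1.image _ continuous_subtype_val.continuousOn
  obtain ⟨ξ, hξ⟩ := QuasiSober.sober hCirr.closure isClosed_closure
  refine ⟨ξ, ?_, ?_⟩
  · show ξ ⤳ x
    rw [specializes_iff_mem_closure, hξ.def]; exact hxC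
  · refine Inseparable.eq (Specializes.antisymm ?_ ?_)
    · obtain ⟨c, hc⟩ := hCirr.nonempty
      have hξc : ξ ⤳ c := by
        rw [specializes_iff_mem_closure, hξ.def]; exact subset_closure hc
      obtain ⟨c', _, rfl⟩ := hc
      have := hξc.map hf
      rwa [show f c' = y from c'.2] at this
    · rw [specializes_iff_mem_closure]
      have : f ξ ∈ f '' closure ((Subtype.val : f ⁻¹' {y} → X) '' C) := ⟨ξ, hξ.mem, rfl⟩
      have h2 := image_closure_subset_closure_image hf this
      refine closure_mono ?_ h2
      rintro _ ⟨_, ⟨c, _, rfl⟩, rfl⟩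
      exact c.2

end Groth.Agent.S7550
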