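import Groth.Statements.S7553
-- import your own Groth.Agent.* helpers here

set_option autoImplicit false
universe u
open ConstrTop

namespace Groth.Agent.S7553

/-- Let X be a Noetherian sober topological space and E ⊆ X. (1) A constructible E that is closed under
specialization is a closed subset. (2) A constructible E that is closed under generalization is an
open subset. -/
theorem result {X : Type u} [TopologicalSpace X]
    [TopologicalSpace.NoetherianSpace X] [QuasiSober X] [T0Space X] (E : Set X) (hE : Topology.IsConstructible E) :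
    (StableUnderSpecialization E → IsClosed E) ∧ (StableUnderGeneralization E → IsOpen E) := by
  have key : ∀ {Z : Type u} [TopologicalSpace Z] [IrreducibleSpace Z] (s : Set Z)
      (hs : Topology.IsConstructible s),
      (∃ U : Set Z, IsOpen U ∧ U.Nonempty ∧ U ⊆ s) ∨
        (∃ U : Set Z, IsOpen U ∧ U.Nonempty ∧ U ⊆ sᶜ) := by
    intro Z _ _ s hs
    induction hs using Topology.IsConstructible.empty_union_induction with
    | open_retrocompact U hU _ =>
      rcases U.eq_empty_or_nonempty with h | h
      · right; exact ⟨Set.univ, isOpen_univ, Set.univ_nonempty, by simp [h]⟩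
      · left; exact ⟨U, hU, h, le_rfl⟩
    | union s hs t ht ihs iht =>
      rcases ihs with ⟨U, hU, hne, hsub⟩ | ⟨U, hU, hne, hsub⟩
      · left; exact ⟨U, hU, hne, hsub.trans Set.subset_union_left⟩
      rcases iht with ⟨V, hV, hne', hsub'⟩ | ⟨V, hV, hne', hsub'⟩
      · left; exact ⟨V, hV, hne', hsub'.trans Set.subset_union_right⟩
      right
      refine ⟨U ∩ V, hU.inter hV, nonempty_preirreducible_inter hU hV hne hne', ?_⟩
      rw [Set.compl_union]
      exact Set.inter_subset_inter hsub hsub'
    | compl s hs ih =>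
      rcases ih with h | h
      · right; simpa using h
      · left; exact h
  have ind : ∀ (F : Set X) (x : X) (Z : TopologicalSpace.Closeds X),
      (Z : Set X) ⊆ closure (F ∩ Z) → x ∈ (Z : Set X) →
      ∃ Y : Set X, IsClosed Y ∧ IsIrreducible Y ∧ x ∈ Y ∧ Y ⊆ closure (F ∩ Y) := by
    intro F x Z
    refine WellFoundedLT.induction (motive := fun Z : TopologicalSpace.Closeds X =>
      (Z : Set X) ⊆ closure (F ∩ Z) → x ∈ (Z : Set X) →
      ∃ Y : Set X, IsClosed Y ∧ IsIrreducible Y ∧ x ∈ Y ∧ Y ⊆ closure (F ∩ Y)) Z ?_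
    intro Z ih hZd hxZ
    by_cases hirr : IsIrreducible (Z : Set X)
    · exact ⟨Z, Z.isClosed, hirr, hxZ, hZd⟩
    · have hpre : ¬ IsPreirreducible (Z : Set X) := fun hp => hirr ⟨⟨x, hxZ⟩, hp⟩
      rw [isPreirreducible_iff_isClosed_union_isClosed] at hpre
      push_neg at hpre
      obtain ⟨z₁, z₂, hz₁, hz₂, hsub, h1, h2⟩ := hpre
      have hsplit : (Z : Set X) ⊆ closure (F ∩ ((Z : Set X) ∩ z₁)) ∪
          closure (F ∩ ((Z : Set X) ∩ z₂)) := by
        refine hZd.trans ?_
        rw [← closure_union]
        apply closure_mono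
        rintro y ⟨hyE, hyZ⟩
        rcases hsub hyZ with h | h
        · left; exact ⟨hyE, hyZ, h⟩
        · right; exact ⟨hyE, hyZ, h⟩
      have step : ∀ w : Set X, IsClosed w → ¬ (Z : Set X) ⊆ w →
          x ∈ closure (F ∩ ((Z : Set X) ∩ w)) →
          ∃ Y : Set X, IsClosed Y ∧ IsIrreducible Y ∧ x ∈ Y ∧ Y ⊆ closure (F ∩ Y) := by
        intro w hw hZw hxw
        let W : TopologicalSpace.Closeds X :=
          ⟨closure (F ∩ ((Z : Set X) ∩ w)), isClosed_closure⟩
        have hWsub : closure (F ∩ ((Z : Set X) ∩ w)) ⊆ (Z : Set X) ∩ w :=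
          closure_minimal (fun y hy => hy.2) (Z.isClosed.inter hw)
        have hlt : W < Z := by
          refine lt_of_le_of_ne (fun y hy => (hWsub hy).1) ?_
          intro heq
          apply hZw
          have h' : closure (F ∩ ((Z : Set X) ∩ w)) = Z := by
            simpa [W] using congrArg SetLike.coe heq
          intro y hy; rw [← h'] at hy; exact (hWsub hy).2
        refine ih W hlt ?_ hxw
        show closure (F ∩ ((Z : Set X) ∩ w)) ⊆
          closure (F ∩ closure (F ∩ ((Z : Set X) ∩ w)))
        apply closure_mono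
        intro y hy; exact ⟨hy.1, subset_closure hy⟩
      rcases hsplit hxZ with hx1 | hx2
      · exact step z₁ hz₁ h1 hx1
      · exact step z₂ hz₂ h2 hx2
  have spec : ∀ F : Set X, Topology.IsConstructible F → StableUnderSpecialization F →
      IsClosed F := by
    intro F hF hsp
    rw [← closure_subset_iff_isClosed]
    intro x hx
    have hZ0 : closure F ⊆ closure (F ∩ closure F) :=
      closure_mono (fun y hy => ⟨hy, subset_closure hy⟩)
    obtain ⟨Y, hYc, hYirr, hxY, hYd⟩ := ind F x ⟨closure F, isClosed_closure⟩ hZ0 hx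
    haveI : IrreducibleSpace Y := Subtype.irreducibleSpace hYirr
    have hFY : Topology.IsConstructible (Subtype.val ⁻¹' F : Set Y) :=
      hF.preimage_of_isClosedEmbedding hYc.isClosedEmbedding_subtypeVal
        (TopologicalSpace.NoetherianSpace.isCompact _)
    have hd : Dense (Subtype.val ⁻¹' F : Set Y) := by
      rw [Subtype.dense_iff, Subtype.image_preimage_coe]
      have := hYd
      rwa [Set.inter_comm] at this
    have hη := hYirr.isGenericPoint_genericPoint hYc
    rcases key _ hFY with ⟨U, hU, hUne, hUsub⟩ | ⟨U, hU, hUne, hUsub⟩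
    · obtain ⟨U', hU', rfl⟩ := isOpen_induced_iff.mp hU
      obtain ⟨⟨y, hyY⟩, hyU⟩ := hUne
      have hηU : hYirr.genericPoint ∈ U' := (hη.mem_open_set_iff hU').mpr ⟨y, hyY, hyU⟩
      have hηY : hYirr.genericPoint ∈ Y := hη.mem
      have hηF : hYirr.genericPoint ∈ F :=
        hUsub (show (⟨_, hηY⟩ : Y) ∈ (Subtype.val ⁻¹' U' : Set Y) from hηU)
      exact hsp (hη.specializes hxY) hηF
    · exfalso
      obtain ⟨y, hyU, hyF⟩ := hd.inter_open_nonempty U hU hUne
      exact hUsub hyU hyF
  refine ⟨spec E hE, fun hgen => ?_⟩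
  have hc : IsClosed Eᶜ := spec Eᶜ hE.compl (by
    intro a b hab ha hb
    exact ha (hgen hab hb))
  exact isClosed_compl_iff.mp hc

end Groth.Agent.S7553
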