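import Groth.Statements.S7554
-- import your own Groth.Agent.* helpers here

set_option autoImplicit false
universe u
open PtTop

namespace Groth.Agent.S7554

/-- Let X be a topological space with an open covering X = ⋃ U_i and let T ⊆ X. If T ∩ U_i is nowhere
dense in U_i (with the induced topology) for every i, then T is nowhere dense in X. -/
theorem result {X : Type u} [TopologicalSpace X] {ι : Type u}
    (U : ι → Set X) (hU : ∀ i, IsOpen (U i)) (hcov : ⋃ i, U i = Set.univ) (T : Set X)
    (hT : ∀ i, IsNowhereDense ((Subtype.val : U i → X) ⁻¹' T)) :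
    IsNowhereDense T := by
  rw [IsNowhereDense, Set.eq_empty_iff_forall_notMem]
  intro x hx
  have : x ∈ ⋃ i, U i := hcov ▸ Set.mem_univ x
  obtain ⟨i, hi⟩ := Set.mem_iUnion.mp this
  have h1 := hT i
  rw [IsNowhereDense] at h1
  have ho := (hU i).isOpenMap_subtype_val
  have hc : Continuous (Subtype.val : U i → X) := continuous_subtype_val
  rw [← ho.preimage_closure_eq_closure_preimage hc,
    ← ho.preimage_interior_eq_interior_preimage hc] at h1
  have : (⟨x, hi⟩ : U i) ∈ (Subtype.val : U i → X) ⁻¹' interior (closure T) := hx
  rw [h1] at this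
  exact this

end Groth.Agent.S7554
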