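import Groth.Statements.S7560
-- import your own Groth.Agent.* helpers here

set_option autoImplicit false
universe u
open ConstrTop

namespace Groth.Agent.S7560

/-- Let X be a topological space written as a finite union X = T_1 ∪ … ∪ T_n of constructible subsets.
Then there is a finite stratification X = ∐ S_i (pairwise disjoint locally closed strata indexed by
a finite partially ordered set, with closure(S_j) ⊆ ⋃_{i ≤ j} S_i) whose strata are constructible
and such that every T_k is a union of strata. -/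
theorem result {X : Type u} [TopologicalSpace X]
    {n : ℕ} (T : Fin n → Set X) (hT : ∀ k, Topology.IsConstructible (T k)) (hcov : ⋃ k, T k = Set.univ) :
    ∃ (I : Type) (_ : Fintype I) (_ : PartialOrder I) (S : I → Set X),
      (∀ i, IsLocallyClosed (S i) ∧ Topology.IsConstructible (S i)) ∧ (⋃ i, S i = Set.univ) ∧
      (∀ i j, i ≠ j → Disjoint (S i) (S j)) ∧
      (∀ j, closure (S j) ⊆ ⋃ i ∈ Set.Iic j, S i) ∧
      (∀ i k, (S i ∩ T k).Nonempty → S i ⊆ T k) := by
  classical
  have sat : ∀ s : Set X, Topology.IsConstructible s → ∃ (m : ℕ) (W : Fin m → Set X),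
      (∀ i, IsOpen (W i) ∧ IsRetrocompact (W i)) ∧
      ∀ x y, (∀ i, x ∈ W i ↔ y ∈ W i) → (x ∈ s → y ∈ s) := by
    intro s hs
    induction hs using Topology.IsConstructible.empty_union_induction with
    | open_retrocompact U hU hUr =>
      exact ⟨1, fun _ => U, fun _ => ⟨hU, hUr⟩, fun x y h hx => (h 0).mp hx⟩
    | union s hs t ht hs' ht' =>
      obtain ⟨m₁, W₁, hW₁, h₁⟩ := hs'
      obtain ⟨m₂, W₂, hW₂, h₂⟩ := ht'
      refine ⟨m₁ + m₂, Fin.append W₁ W₂, ?_, ?_⟩
      · intro i
        refine Fin.addCases (fun i => ?_) (fun i => ?_) i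
        · simpa using hW₁ i
        · simpa using hW₂ i
      · intro x y h hx
        have e1 : ∀ i, x ∈ W₁ i ↔ y ∈ W₁ i := fun i => by simpa using h (Fin.castAdd m₂ i)
        have e2 : ∀ i, x ∈ W₂ i ↔ y ∈ W₂ i := fun i => by simpa using h (Fin.natAdd m₁ i)
        rcases hx with hx | hx
        · exact Or.inl (h₁ x y e1 hx)
        · exact Or.inr (h₂ x y e2 hx)
    | compl s hs hs' =>
      obtain ⟨m, W, hW, h⟩ := hs'
      exact ⟨m, W, hW, fun x y hxy hx hy => hx (h y x (fun i => (hxy i).symm) hy)⟩
  choose m W hW hsat using fun k => sat (T k) (hT k)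
  let V : (Σ k : Fin n, Fin (m k)) → Set X := fun j => W j.1 j.2
  have hV : ∀ j, IsOpen (V j) ∧ IsRetrocompact (V j) := fun j => hW j.1 j.2
  let S : Finset (Σ k : Fin n, Fin (m k)) → Set X := fun A => {x | ∀ j, x ∈ V j ↔ j ∈ A}
  have hSeq : ∀ A, S A = (⋂ j ∈ A, V j) ∩ (⋂ j ∈ (Finset.univ \ A), (V j)ᶜ) := by
    intro A
    ext x
    simp only [S, Set.mem_setOf_eq, Set.mem_inter_iff, Set.mem_iInter, Set.mem_compl_iff,
      Finset.mem_sdiff, Finset.mem_univ, true_and]
    constructor
    · intro h
      exact ⟨fun j hj => (h j).mpr hj, fun j hj hx => hj ((h j).mp hx)⟩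
    · rintro ⟨h1, h2⟩ j
      constructor
      · intro hx; by_contra hj; exact h2 j hj hx
      · intro hj; exact h1 j hj
  refine ⟨Finset (Σ k : Fin n, Fin (m k)), inferInstance, inferInstance, S, ?_, ?_, ?_, ?_, ?_⟩
  · intro A
    rw [hSeq A]
    refine ⟨⟨_, _, isOpen_biInter_finset (fun j _ => (hV j).1),
      isClosed_biInter (fun j _ => (hV j).1.isClosed_compl), rfl⟩, ?_⟩
    refine Topology.IsConstructible.inter ?_ ?_
    · exact Topology.IsConstructible.biInter (Finset.finite_toSet A)
        (fun j _ => (hV j).2.isConstructible (hV j).1)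
    · exact Topology.IsConstructible.biInter (Finset.finite_toSet _)
        (fun j _ => ((hV j).2.isConstructible (hV j).1).compl)
  · apply Set.eq_univ_of_univ_subset
    intro x _
    refine Set.mem_iUnion.mpr ⟨Finset.univ.filter (fun j => x ∈ V j), ?_⟩
    intro j
    simp
  · intro A B hAB
    refine Set.disjoint_left.mpr fun x hxA hxB => hAB ?_
    ext j
    exact ((hxA j).symm.trans (hxB j))
  · intro B
    have hZc : IsClosed (⋂ j ∈ (Finset.univ \ B), (V j)ᶜ) :=
      isClosed_biInter (fun j _ => (hV j).1.isClosed_compl)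
    have hsub : closure (S B) ⊆ ⋂ j ∈ (Finset.univ \ B), (V j)ᶜ := by
      refine closure_minimal ?_ hZc
      rw [hSeq B]; exact Set.inter_subset_right
    intro x hx
    have hx' := hsub hx
    simp only [Set.mem_iInter, Set.mem_compl_iff, Finset.mem_sdiff, Finset.mem_univ,
      true_and] at hx'
    refine Set.mem_iUnion₂.mpr ⟨Finset.univ.filter (fun j => x ∈ V j), ?_, ?_⟩
    · show Finset.univ.filter (fun j => x ∈ V j) ≤ B
      intro j hj
      simp only [Finset.mem_filter, Finset.mem_univ, true_and] at hj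
      by_contra hjB; exact hx' j hjB hj
    · intro j; simp
  · intro A k ⟨y, hyA, hyT⟩ x hxA
    refine hsat k y x (fun i => ?_) hyT
    exact (hyA ⟨k, i⟩).trans (hxA ⟨k, i⟩).symm

end Groth.Agent.S7560
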