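import Groth.Statements.S7563
-- import your own Groth.Agent.* helpers here

set_option autoImplicit false
universe u
open PtTop

namespace Groth.Agent.S7563

/-- Let X be a topological space and X = X_1 ∪ … ∪ X_n with each X_i irreducible and closed and no X_i
contained in the union of the others. Then the irreducible components of X are precisely the sets
X_1, …, X_n. -/
theorem result {X : Type u} [TopologicalSpace X]
    {n : ℕ} (Z : Fin n → Set X) (hZ : ∀ i, IsIrreducible (Z i) ∧ IsClosed (Z i))
    (hcov : ⋃ i, Z i = Set.univ) (hirr : ∀ i, ¬ Z i ⊆ ⋃ j ∈ ({i}ᶜ : Set (Fin n)), Z j) :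
    irreducibleComponents X = Set.range Z := by
  classical
  have hsub : ∀ s : Set X, IsIrreducible s → ∃ i, s ⊆ Z i := by
    intro s hs
    obtain ⟨W, hW, hsW⟩ := isIrreducible_iff_sUnion_isClosed.mp hs (Finset.univ.image Z)
      (by
        intro W hW
        simp only [Finset.mem_image, Finset.mem_univ, true_and] at hW
        obtain ⟨i, rfl⟩ := hW
        exact (hZ i).2)
      (by
        rw [Finset.coe_image, Finset.coe_univ, Set.image_univ, Set.sUnion_range, hcov]
        exact Set.subset_univ _)
    simp only [Finset.mem_image, Finset.mem_univ, true_and] at hW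
    obtain ⟨i, rfl⟩ := hW
    exact ⟨i, hsW⟩
  have hcomp : ∀ C ∈ irreducibleComponents X, ∃ i, C = Z i := by
    intro C hC
    obtain ⟨i, hi⟩ := hsub C hC.1
    exact ⟨i, Set.Subset.antisymm hi (hC.2 (hZ i).1 hi)⟩
  ext C
  constructor
  · intro hC
    obtain ⟨i, rfl⟩ := hcomp C hC
    exact ⟨i, rfl⟩
  · rintro ⟨i, rfl⟩
    obtain ⟨C, hC, hiC⟩ := exists_mem_irreducibleComponents_subset_of_isIrreducible (Z i) (hZ i).1
    obtain ⟨j, rfl⟩ := hcomp C hC
    by_cases hij : i = j
    · subst hij; exact hC
    · exfalso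
      apply hirr i
      intro x hx
      exact Set.mem_iUnion₂.mpr ⟨j, Set.mem_compl_singleton_iff.mpr (Ne.symm hij), hiC hx⟩

end Groth.Agent.S7563
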