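import Groth.Statements.S7564
-- import your own Groth.Agent.* helpers here

set_option autoImplicit false
universe u
open PtTop

namespace Groth.Agent.S7564

/-- For a continuous surjection f : X → Y, if X has finitely many irreducible components, say n of them,
then Y has at most n irreducible components. -/
theorem result {X Y : Type u} [TopologicalSpace X] [TopologicalSpace Y]
    (f : X → Y) (hf : Continuous f) (hs : Function.Surjective f) (hfin : (irreducibleComponents X).Finite) :
    (irreducibleComponents Y).Finite ∧ (irreducibleComponents Y).ncard ≤ (irreducibleComponents X).ncard := by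
  classical
  have hcov : ⋃₀ ((fun C : Set X => closure (f '' C)) '' irreducibleComponents X) = Set.univ := by
    apply Set.eq_univ_of_forall
    intro y
    obtain ⟨x, rfl⟩ := hs y
    refine Set.mem_sUnion_of_mem (t := closure (f '' irreducibleComponent x)) ?_
      ⟨irreducibleComponent x, irreducibleComponent_mem_irreducibleComponents x, rfl⟩
    exact subset_closure ⟨x, mem_irreducibleComponent, rfl⟩
  have key : irreducibleComponents Y ⊆
      (fun C : Set X => closure (f '' C)) '' irreducibleComponents X := by
    intro D hD
    have hfin' := hfin.image (fun C : Set X => closure (f '' C))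
    obtain ⟨Z, hZ, hDZ⟩ := isIrreducible_iff_sUnion_isClosed.mp hD.1 hfin'.toFinset
      (by
        intro Z hZ
        rw [Set.Finite.mem_toFinset] at hZ
        obtain ⟨C, _, rfl⟩ := hZ
        exact isClosed_closure)
      (by rw [Set.Finite.coe_toFinset, hcov]; exact Set.subset_univ _)
    rw [Set.Finite.mem_toFinset] at hZ
    obtain ⟨C, hC, rfl⟩ := hZ
    have hirr : IsIrreducible (closure (f '' C)) := (hC.1.image f hf.continuousOn).closure
    have := hD.2 hirr hDZ
    rw [Set.Subset.antisymm hDZ this]
    exact ⟨C, hC, rfl⟩
  exact ⟨(hfin.image _).subset key,
    (Set.ncard_le_ncard key (hfin.image _)).trans (Set.ncard_image_le hfin)⟩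

end Groth.Agent.S7564
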