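import Groth.Statements.S7565
-- import your own Groth.Agent.* helpers here

set_option autoImplicit false
universe u
open PtTop

namespace Groth.Agent.S7565

/-- Let f : X → Y be a continuous open map of topological spaces and assume every point of X has a
Noetherian neighbourhood. Then every point of f(X) (with the induced topology) has a Noetherian
neighbourhood. The published statement also asserts that a continuous image of a Noetherian space is
Noetherian; this row states the part about open maps and locally Noetherian spaces. -/
theorem result {X Y : Type u} [TopologicalSpace X] [TopologicalSpace Y]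
    (f : X → Y) (hf : Continuous f) (hfo : IsOpenMap f)
    (hX : ∀ x : X, ∃ E ∈ nhds x, TopologicalSpace.NoetherianSpace E) :
    ∀ y : Set.range f, ∃ E : Set (Set.range f), E ∈ nhds y ∧ TopologicalSpace.NoetherianSpace E := by
  rintro ⟨_, x, rfl⟩
  obtain ⟨E, hE, hEN⟩ := hX x
  refine ⟨Subtype.val ⁻¹' (f '' E), ?_, ?_⟩
  · have hopen : IsOpen ((Subtype.val : Set.range f → Y) ⁻¹' (f '' interior E)) :=
      (hfo _ isOpen_interior).preimage continuous_subtype_val
    refine Filter.mem_of_superset (hopen.mem_nhds ⟨x, mem_interior_iff_mem_nhds.mpr hE, rfl⟩) ?_
    exact Set.preimage_mono (Set.image_mono interior_subset)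
  · let g : E → (Subtype.val ⁻¹' (f '' E) : Set (Set.range f)) :=
      fun e => ⟨⟨f e, e, rfl⟩, e, e.2, rfl⟩
    have hg : Continuous g := by
      apply Continuous.subtype_mk
      apply Continuous.subtype_mk
      exact hf.comp continuous_subtype_val
    have hgs : Function.Surjective g := by
      rintro ⟨⟨_, z, rfl⟩, ⟨e, he, hez⟩⟩
      refine ⟨⟨e, he⟩, ?_⟩
      apply Subtype.ext
      apply Subtype.ext
      exact hez
    exact TopologicalSpace.noetherianSpace_of_surjective g hg hgs

end Groth.Agent.S7565
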