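import Groth.Statements.S7576
import Mathlib.CategoryTheory.Limits.Shapes.Pullback.IsPullback.Basic
import Mathlib.CategoryTheory.Limits.Types.Pullbacks
import Mathlib.CategoryTheory.Limits.Preserves.Shapes.Pullbacks
-- import your own Groth.Agent.* helpers here

set_option autoImplicit false
universe u
open CategoryTheory CategoryTheory.Limits
open ShSp

namespace Groth.Agent.S7576

/-- Let (C, F) be a type of algebraic structure, i.e. C is a category with limits and filtered colimits
and F : C → Sets is a faithful functor commuting with both and reflecting isomorphisms. Let f : A →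
B and g : C' → B be morphisms of C such that F(g) is injective and the image of F(f) is contained in
the image of F(g). Then f = g ∘ t for some morphism t : A → C'. -/
theorem result {C : Type (u + 1)} [LargeCategory C]
    [HasLimits C] [HasFilteredColimitsOfSize.{u, u} C]
    (F : C ⥤ Type u) [F.Faithful] [F.ReflectsIsomorphisms] [PreservesLimits F] [PreservesFilteredColimits F]
    {A B C' : C} (f : A ⟶ B) (g : C' ⟶ B) (hg : Function.Injective (F.map g))
    (hfg : Set.range (F.map f) ⊆ Set.range (F.map g)) :
    ∃ t : A ⟶ C', t ≫ g = f := by
  have : PreservesLimitsOfSize.{0, 0} F := preservesLimitsOfSize_shrink F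
  have hP : IsPullback (F.map (pullback.fst f g)) (F.map (pullback.snd f g)) (F.map f) (F.map g) :=
    (IsPullback.of_hasPullback f g).map F
  have hbij : Function.Bijective (F.map (pullback.fst f g)) := by
    constructor
    · intro p q hpq
      apply Types.ext_of_isPullback hP hpq
      apply hg
      have e1 := ConcreteCategory.congr_hom hP.w p
      have e2 := ConcreteCategory.congr_hom hP.w q
      simp only [types_comp_apply] at e1 e2
      rw [← e1, ← e2, hpq]
    · intro a
      obtain ⟨c, hc⟩ := hfg ⟨a, rfl⟩
      obtain ⟨p, hp1, _⟩ := Types.exists_of_isPullback hP a c hc.symm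
      exact ⟨p, hp1⟩
  have hiso : IsIso (F.map (pullback.fst f g)) := (isIso_iff_bijective _).mpr hbij
  have : IsIso (pullback.fst f g) := isIso_of_reflects_iso _ F
  exact ⟨inv (pullback.fst f g) ≫ pullback.snd f g, by
    rw [Category.assoc, ← pullback.condition, IsIso.inv_hom_id_assoc]⟩

end Groth.Agent.S7576
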