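import Groth.Statements.S7579
import Mathlib.Topology.Spectral.ConstructibleTopology
import Mathlib.Topology.Connected.Separation

set_option autoImplicit false
universe u
open SpecSp
open Topology

namespace Groth.Agent.S7579

theorem result (X : Type u) [TopologicalSpace X] [SpectralSpace X] :
    T2Space (WithConstructibleTopology X) ∧ TotallyDisconnectedSpace (WithConstructibleTopology X) := by
  let Y := WithConstructibleTopology X
  have hclopen : ∀ W : Set X, IsOpen W → IsCompact W →
      IsClopen (WithTopology.ofTopology ⁻¹' W : Set Y) := by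
    intro W hWo hWc
    constructor
    · rw [WithConstructibleTopology.isClosed_iff]
      have h := IsCompact.isOpen_constructibleTopology_of_isClosed (s := Wᶜ)
        (by rwa [compl_compl]) hWo.isClosed_compl
      exact @IsClosed.mk X (constructibleTopology X) W h
    · rw [WithConstructibleTopology.isOpen_iff]
      exact IsCompact.isOpen_constructibleTopology_of_isOpen hWc hWo
  have hsep : TotallySeparatedSpace (WithConstructibleTopology X) := by
    rw [totallySeparatedSpace_iff_exists_isClopen]
    intro a b hab
    have hxy : WithTopology.ofTopology a ≠ WithTopology.ofTopology b :=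
      fun h => hab (WithTopology.ofTopology_injective _ h)
    obtain ⟨U, hU, hmem⟩ := exists_isOpen_xor_mem hxy
    rcases hmem with ⟨hx, hy⟩ | ⟨hy, hx⟩
    · obtain ⟨W, ⟨hWo, hWc⟩, hxW, hWU⟩ :=
        PrespectralSpace.isTopologicalBasis.exists_subset_of_mem_open hx hU
      exact ⟨_, hclopen W hWo hWc, hxW, fun hyW => hy (hWU hyW)⟩
    · obtain ⟨W, ⟨hWo, hWc⟩, hyW, hWU⟩ :=
        PrespectralSpace.isTopologicalBasis.exists_subset_of_mem_open hy hU
      refine ⟨_, (hclopen W hWo hWc).compl, fun hxW => hx (hWU hxW), ?_⟩
      rw [compl_compl]
      exact hyW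
  exact ⟨@TotallySeparatedSpace.t2Space _ _ hsep, inferInstance⟩

end Groth.Agent.S7579
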