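import Groth.Statements.S7580
-- import your own Groth.Agent.* helpers here

set_option autoImplicit false
universe u
open PtTop

namespace Groth.Agent.S7580

/-- Let f : X → Y be a continuous map of topological spaces with f(X) dense in Y and Y Hausdorff. Then
the cardinality of Y is at most that of the double power set of X. -/
theorem result {X Y : Type u} [TopologicalSpace X] [TopologicalSpace Y] [T2Space Y]
    (f : X → Y) (hf : Continuous f) (hd : DenseRange f) :
    Cardinal.mk Y ≤ (2 : Cardinal.{u}) ^ ((2 : Cardinal.{u}) ^ Cardinal.mk X) := by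
  rw [← Cardinal.mk_set, ← Cardinal.mk_set]
  refine Cardinal.mk_le_of_injective
    (f := fun y : Y => {A : Set X | ∃ V : Set Y, IsOpen V ∧ y ∈ V ∧ A = f ⁻¹' V}) ?_
  intro y y' h
  by_contra hne
  obtain ⟨U, U', hU, hU', hyU, hy'U', hdisj⟩ := t2_separation hne
  have hmem : f ⁻¹' U ∈ {A : Set X | ∃ V : Set Y, IsOpen V ∧ y ∈ V ∧ A = f ⁻¹' V} :=
    ⟨U, hU, hyU, rfl⟩
  simp only at h
  rw [h] at hmem
  obtain ⟨W, hW, hy'W, hWeq⟩ := hmem
  obtain ⟨x, hx⟩ := hd.exists_mem_open (hW.inter hU') ⟨y', hy'W, hy'U'⟩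
  have hxU : f x ∈ U := by
    have : x ∈ f ⁻¹' W := hx.1
    rw [← hWeq] at this; exact this
  exact Set.disjoint_left.mp hdisj hxU hx.2

end Groth.Agent.S7580
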