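import Groth.Statements.S7584
-- import your own Groth.Agent.* helpers here

set_option autoImplicit false
universe u
open PtTop

namespace Groth.Agent.S7584

/-- Let X be a quasi-compact topological space in which each connected component equals the intersection
of all clopen sets that contain it. Then π₀(X), the set of connected components with the quotient
topology, is Hausdorff. The published statement concludes that π₀(X) is profinite; this row records
the Hausdorff property, quasi-compactness and total disconnectedness of the quotient being
automatic. -/
theorem result (X : Type u) [TopologicalSpace X] [CompactSpace X]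
    (h : ∀ x : X, connectedComponent x = ⋂₀ {Z : Set X | IsClopen Z ∧ x ∈ Z}) :
    T2Space (ConnectedComponents X) := by
  refine ⟨ConnectedComponents.surjective_coe.forall₂.2 fun a b ne => ?_⟩
  rw [ConnectedComponents.coe_ne_coe] at ne
  have hb : b ∉ connectedComponent a := by
    intro hb
    exact ne (connectedComponent_eq hb)
  rw [h a] at hb
  simp only [Set.mem_sInter, Set.mem_ofPred_eq, not_forall] at hb
  obtain ⟨Z, ⟨hZ, haZ⟩, hbZ⟩ := hb
  have hpre : ((↑) : X → ConnectedComponents X) ⁻¹' (((↑) : X → ConnectedComponents X) '' Z) = Z := by
    rw [connectedComponents_preimage_image]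
    exact hZ.biUnion_connectedComponent_eq
  have hV : IsClopen (((↑) : X → ConnectedComponents X) '' Z) := by
    rw [← ConnectedComponents.isQuotientMap_coe.isClopen_preimage, hpre]
    exact hZ
  refine ⟨_, _, hV.isOpen, hV.compl.isOpen, ⟨a, haZ, rfl⟩, ?_, disjoint_compl_right⟩
  intro hbV
  have : b ∈ ((↑) : X → ConnectedComponents X) ⁻¹' (((↑) : X → ConnectedComponents X) '' Z) := hbV
  rw [hpre] at this
  exact hbZ this

end Groth.Agent.S7584
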