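import Groth.Statements.S7661
import Mathlib.RingTheory.Ideal.Operations
import Mathlib.RingTheory.Ideal.Quotient.Basic
import Mathlib.Order.Preorder.Finite

set_option autoImplicit false
universe u
open CategoryTheory CategoryTheory.Limits AlgebraicGeometry
open Variety

namespace Groth.Agent.S7661

/-- Let A be a ring, I an ideal, p_1, …, p_r prime ideals with I ⊄ p_i for all i, and let f̄ ∈ A/I. Then
f̄ lifts to an element f ∈ A with f ∉ p_i for all i. -/
theorem result (A : Type u) [CommRing A] (I : Ideal A)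
    (s : Finset (Ideal A)) (hs : ∀ p ∈ s, p.IsPrime) (hI : ∀ p ∈ s, ¬ I ≤ p) (fbar : A ⧸ I) :
    ∃ f : A, Ideal.Quotient.mk I f = fbar ∧ ∀ p ∈ s, f ∉ p := by
  classical
  induction s using Finset.strongInduction with
  | H s ih =>
    rcases s.eq_empty_or_nonempty with rfl | hne
    · obtain ⟨f, rfl⟩ := Ideal.Quotient.mk_surjective fbar
      exact ⟨f, rfl, by simp⟩
    · obtain ⟨p, hpmin⟩ := s.exists_minimal hne
      have hps : p ∈ s := hpmin.prop
      obtain ⟨f', hf'1, hf'2⟩ := ih (s.erase p) (Finset.erase_ssubset hps)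
        (fun q hq => hs q (Finset.mem_of_mem_erase hq)) (fun q hq => hI q (Finset.mem_of_mem_erase hq))
      by_cases hf'p : f' ∈ p
      · have hpp : p.IsPrime := hs p hps
        have hJ : ¬ (I ⊓ (s.erase p).inf id ≤ p) := by
          intro hle
          rcases hpp.inf_le.mp hle with h1 | h2
          · exact hI p hps h1
          · obtain ⟨q, hq, hqp⟩ := hpp.inf_le'.mp h2
            have hqs : q ∈ s := Finset.mem_of_mem_erase hq
            have hpq : p ≤ q := hpmin.2 hqs hqp
            exact Finset.ne_of_mem_erase hq (le_antisymm hqp hpq)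
        obtain ⟨y, hyJ, hyp⟩ := Set.not_subset.mp hJ
        have hyI : y ∈ I := (Ideal.mem_inf.mp hyJ).1
        have hyq : ∀ q ∈ s.erase p, y ∈ q := fun q hq => (Finset.inf_le (f := id) hq) (Ideal.mem_inf.mp hyJ).2
        refine ⟨f' + y, ?_, ?_⟩
        · rw [map_add, hf'1, Ideal.Quotient.eq_zero_iff_mem.mpr hyI, add_zero]
        · intro q hq
          by_cases hqp : q = p
          · subst hqp; intro hmem; exact hyp ((Ideal.add_mem_iff_right _ hf'p).mp hmem)
          · have hq' : q ∈ s.erase p := Finset.mem_erase.mpr ⟨hqp, hq⟩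
            intro hmem
            exact hf'2 q hq' ((Ideal.add_mem_iff_left _ (hyq q hq')).mp hmem)
      · refine ⟨f', hf'1, fun q hq => ?_⟩
        by_cases hqp : q = p
        · subst hqp; exact hf'p
        · exact hf'2 q (Finset.mem_erase.mpr ⟨hqp, hq⟩)

end Groth.Agent.S7661
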