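import Groth.Statements.S7666
import Mathlib.RingTheory.Ideal.MinimalPrime.Basic
import Mathlib.RingTheory.Finiteness.Ideal
import Mathlib.Order.KrullDimension
import Mathlib.Algebra.Ring.GeomSum
import Mathlib.RingTheory.KrullDimension.Basic
import Mathlib.RingTheory.Localization.AtPrime.Basic

set_option autoImplicit false
universe u
open CategoryTheory CategoryTheory.Limits AlgebraicGeometry
open Variety

namespace Groth.Agent.S7666

theorem no_chain (A : Type u) [CommRing A] (hdim : ringKrullDim A = 1)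
    (p q m : PrimeSpectrum A) (hpq : p < q) (hqm : q < m) : False := by
  let s : LTSeries (PrimeSpectrum A) :=
    ((RelSeries.singleton _ p).snoc q (by simpa using hpq)).snoc m (by simpa using hqm)
  have hs : s.length = 2 := rfl
  have := Order.LTSeries.length_le_krullDim s
  rw [hs] at this
  have h2 : ((2 : ℕ) : WithBot ℕ∞) ≤ ringKrullDim A := this
  rw [hdim] at h2
  exact absurd h2 (by decide)

/-- Let A be a one-dimensional Noetherian local ring and L = ∏ A_p, the product over the minimal primes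
of A. If a_1, a_2 ∈ m_A have the same image in L, then a_1 and a_2 have equal n-th powers for some
positive integer n. -/
theorem result (A : Type u) [CommRing A]
    [IsLocalRing A] [IsNoetherianRing A] (hdim : ringKrullDim A = 1)
    (a₁ a₂ : A) (h₁ : a₁ ∈ IsLocalRing.maximalIdeal A) (h₂ : a₂ ∈ IsLocalRing.maximalIdeal A)
    (heq : ∀ p : {p : PrimeSpectrum A // p.asIdeal ∈ minimalPrimes A},
      algebraMap A (Localization.AtPrime p.1.asIdeal) a₁ = algebraMap A (Localization.AtPrime p.1.asIdeal) a₂) :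
    ∃ n : ℕ, 0 < n ∧ a₁ ^ n = a₂ ^ n := by
  set M := IsLocalRing.maximalIdeal A with hM
  set d := a₁ - a₂ with hd
  let J : Ideal A := (Submodule.span A {d}).annihilator
  have hJ : ∀ s : A, s ∈ J ↔ s * d = 0 := by
    intro s
    rw [Submodule.mem_annihilator_span_singleton, smul_eq_mul]
  -- step 1
  have step1 : ∀ p : Ideal A, p ∈ minimalPrimes A → ∃ s ∉ p, s ∈ J := by
    intro p hp
    have hpp : p.IsPrime := hp.1.1
    have := heq ⟨⟨p, hpp⟩, hp⟩
    obtain ⟨c, hc⟩ := (IsLocalization.eq_iff_exists p.primeCompl (Localization.AtPrime p)).mp this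
    refine ⟨c, c.2, ?_⟩
    rw [hJ, hd, mul_sub, hc, sub_self]
  -- step 3
  have step3 : M ≤ J.radical := by
    rw [Ideal.radical_eq_sInf]
    refine le_sInf (fun q hq => ?_)
    obtain ⟨hJq, hqp⟩ := hq
    have hqM : q ≤ M := IsLocalRing.le_maximalIdeal hqp.ne_top
    by_contra hMq
    have hqlt : q < M := lt_of_le_of_ne hqM (fun h => hMq (h ▸ le_rfl))
    obtain ⟨p, hp, hpq⟩ := Ideal.exists_minimalPrimes_le (I := ⊥) (J := q) bot_le
    obtain ⟨s, hsp, hsJ⟩ := step1 p hp
    have hpq' : p < q := lt_of_le_of_ne hpq (fun h => hsp (h ▸ hJq hsJ))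
    have hpp : p.IsPrime := hp.1.1
    exact no_chain A hdim ⟨p, hpp⟩ ⟨q, hqp⟩ ⟨M, IsLocalRing.maximalIdeal.isMaximal A |>.isPrime⟩
      hpq' hqlt
  have hMfg : M.FG := IsNoetherian.noetherian M
  obtain ⟨N, hN⟩ := Ideal.exists_pow_le_of_le_radical_of_fg step3 hMfg
  refine ⟨N + 1, Nat.succ_pos N, ?_⟩
  have hgeom := geom_sum₂_mul a₁ a₂ (N + 1)
  have hsum : (∑ i ∈ Finset.range (N + 1), a₁ ^ i * a₂ ^ (N + 1 - 1 - i)) ∈ M ^ N := by
    refine Ideal.sum_mem _ (fun i hi => ?_)
    have hi' : i ≤ N := Nat.lt_succ_iff.mp (Finset.mem_range.mp hi)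
    have : M ^ N = M ^ i * M ^ (N + 1 - 1 - i) := by
      rw [← pow_add]; congr 1; omega
    rw [this]
    exact Ideal.mul_mem_mul (Ideal.pow_mem_pow h₁ i) (Ideal.pow_mem_pow h₂ _)
  have h0 := (hJ _).mp (hN hsum)
  rw [hd] at h0
  rw [h0] at hgeom
  exact (sub_eq_zero.mp hgeom.symm)

end Groth.Agent.S7666
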