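import Groth.Statements.S7668
import Mathlib.RingTheory.Localization.Ideal
import Mathlib.RingTheory.Ideal.Operations
import Mathlib.RingTheory.Spectrum.Maximal.Defs

set_option autoImplicit false
universe u
open CategoryTheory CategoryTheory.Limits AlgebraicGeometry
open Variety

namespace Groth.Agent.S7668

theorem key (A : Type u) [CommRing A] (r : ℕ) (p : Fin r → PrimeSpectrum A)
    (Q : Ideal (Localization (⨅ i, (p i).asIdeal.primeCompl))) (hQ : Q.IsPrime) :
    ∃ j, Q.comap (algebraMap A (Localization (⨅ i, (p i).asIdeal.primeCompl))) ≤ (p j).asIdeal := by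
  have hdis := ((IsLocalization.isPrime_iff_isPrime_disjoint
    (⨅ i, (p i).asIdeal.primeCompl) (Localization (⨅ i, (p i).asIdeal.primeCompl)) Q).mp hQ).2
  have hsub : ((Q.comap (algebraMap A (Localization (⨅ i, (p i).asIdeal.primeCompl))) : Set A)) ⊆
      ⋃ i ∈ ((Finset.univ : Finset (Fin r)) : Set (Fin r)), ((p i).asIdeal : Set A) := by
    intro x hx
    have hxS : x ∉ (⨅ i, (p i).asIdeal.primeCompl) := fun h => Set.disjoint_left.mp hdis h hx
    rw [Submonoid.mem_iInf] at hxS
    push Not at hxS
    obtain ⟨i, hi⟩ := hxS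
    simp only [Set.mem_iUnion]
    refine ⟨i, Finset.mem_coe.mpr (Finset.mem_univ i), ?_⟩
    by_contra hc
    exact hi (Ideal.mem_primeCompl_iff.mpr hc)
  by_cases hr : r = 0
  · exfalso
    subst hr
    have h0 : (0 : A) ∈ (⨅ i, (p i).asIdeal.primeCompl) := by
      rw [Submonoid.mem_iInf]; intro i; exact i.elim0
    exact Set.disjoint_left.mp hdis h0 (Q.comap _).zero_mem
  · let i0 : Fin r := ⟨0, Nat.pos_of_ne_zero hr⟩
    obtain ⟨j, -, hj⟩ := (Ideal.subset_union_prime i0 i0 (fun i _ _ _ => (p i).isPrime)).mp hsub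
    exact ⟨j, hj⟩

/-- Let A be a ring, p_1, …, p_r primes of A and S = A ∖ ⋃ p_i. Then S is a multiplicative subset, S⁻¹A
is semi-local, and contraction to A is a bijection from the maximal ideals of S⁻¹A onto the maximal
elements of {p_1, …, p_r}. -/
theorem result (A : Type u) [CommRing A]
    (r : ℕ) (p : Fin r → PrimeSpectrum A) :
    Finite (MaximalSpectrum (Localization (⨅ i, (p i).asIdeal.primeCompl))) ∧
      Set.BijOn (fun m : Ideal (Localization (⨅ i, (p i).asIdeal.primeCompl)) =>
          m.comap (algebraMap A (Localization (⨅ i, (p i).asIdeal.primeCompl))))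
        {m | m.IsMaximal}
        {q | q ∈ Set.range (fun i => (p i).asIdeal) ∧
          ∀ j, q ≤ (p j).asIdeal → q = (p j).asIdeal} := by
  set S := (⨅ i, (p i).asIdeal.primeCompl : Submonoid A) with hS
  set B := Localization S with hB
  have hSle : ∀ j, S ≤ (p j).asIdeal.primeCompl := fun j => iInf_le _ j
  have hdisj : ∀ j, Disjoint (S : Set A) ((p j).asIdeal : Set A) := by
    intro j
    rw [Set.disjoint_left]
    intro x hxS hxp
    exact (Ideal.mem_primeCompl_iff.mp (hSle j hxS)) hxp
  have hPprime : ∀ j, (Ideal.map (algebraMap A B) (p j).asIdeal).IsPrime := fun j =>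
    IsLocalization.isPrime_of_isPrime_disjoint S B _ (p j).isPrime (hdisj j)
  have hcm : ∀ j, (Ideal.map (algebraMap A B) (p j).asIdeal).comap (algebraMap A B) = (p j).asIdeal :=
    fun j => IsLocalization.under_map_of_isPrime_disjoint S B (p j).isPrime (hdisj j)
  have hmc : ∀ Q : Ideal B, Ideal.map (algebraMap A B) (Q.comap (algebraMap A B)) = Q := fun Q =>
    IsLocalization.map_under S B Q
  have hmax : ∀ m : Ideal B, m.IsMaximal → ∃ j, m.comap (algebraMap A B) = (p j).asIdeal := by
    intro m hm
    obtain ⟨j, hj⟩ := key A r p m hm.isPrime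
    refine ⟨j, ?_⟩
    have hle : m ≤ Ideal.map (algebraMap A B) (p j).asIdeal := by
      rw [← hmc m]; exact Ideal.map_mono hj
    have heq : m = Ideal.map (algebraMap A B) (p j).asIdeal := hm.eq_of_le (hPprime j).ne_top hle
    rw [heq, hcm]
  refine ⟨?_, ?_, ?_, ?_⟩
  · classical
    have hinj : Function.Injective
        (fun m : MaximalSpectrum B => (hmax m.asIdeal m.isMaximal).choose) := by
      intro m1 m2 h
      have e1 := (hmax m1.asIdeal m1.isMaximal).choose_spec
      have e2 := (hmax m2.asIdeal m2.isMaximal).choose_spec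
      simp only at h
      rw [h] at e1
      have hc := e1.trans e2.symm
      have : m1.asIdeal = m2.asIdeal := by rw [← hmc m1.asIdeal, ← hmc m2.asIdeal, hc]
      exact MaximalSpectrum.ext this
    exact Finite.of_injective _ hinj
  · intro m hm
    have hm' : m.IsMaximal := hm
    obtain ⟨j, hj⟩ := hmax m hm'
    refine ⟨⟨j, hj.symm⟩, fun k hk => ?_⟩
    have hle : m ≤ Ideal.map (algebraMap A B) (p k).asIdeal := by
      rw [← hmc m]; exact Ideal.map_mono hk
    have heq : m = Ideal.map (algebraMap A B) (p k).asIdeal := hm'.eq_of_le (hPprime k).ne_top hle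
    show m.comap (algebraMap A B) = (p k).asIdeal
    rw [heq, hcm]
  · intro m1 _ m2 _ h
    simp only at h
    rw [← hmc m1, ← hmc m2, h]
  · intro q hq
    obtain ⟨⟨j, rfl⟩, hqmax⟩ := hq
    refine ⟨Ideal.map (algebraMap A B) (p j).asIdeal, ?_, hcm j⟩
    show (Ideal.map (algebraMap A B) (p j).asIdeal).IsMaximal
    obtain ⟨M', hM', hPM'⟩ := Ideal.exists_le_maximal _ (hPprime j).ne_top
    obtain ⟨k, hk⟩ := hmax M' hM'
    have hjk : (p j).asIdeal ≤ (p k).asIdeal := by
      rw [← hk, ← hcm j]; exact Ideal.comap_mono hPM'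
    have hjk' := hqmax k hjk
    have : M' = Ideal.map (algebraMap A B) (p j).asIdeal := by
      rw [← hmc M', hk, ← hjk']
    rw [← this]; exact hM'

end Groth.Agent.S7668
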