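import Groth.Statements.S8312
-- import your own Groth.Agent.* helpers here

set_option autoImplicit false
universe u
open scoped HomogeneousIdeal
open EGA2

namespace Groth.Agent.S8312

/-- Let S be a positively graded ring (an ℕ-graded R-algebra) and S♮ the graded ring with S♮_n = S_[n] =
⊕_{m ≥ n} S_m, presented as a graded ring S' with an injective algebra homomorphism φ : S' → S[X]
carrying S'_n onto S_[n]·X^n; for a homogeneous f ∈ S_d write f♮ for the element of S' with φ(f♮) =
f·X^d (f placed in degree d of S♮). If (f_α) is a family of homogeneous elements of S of positive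
degrees such that every element of the irrelevant ideal S_+ has a positive power in the ideal
generated by the f_α (that is, S_+ is the radical in S_+ of that ideal), then every element of the
irrelevant ideal S'_+ has a positive power in the ideal of S' generated by the f_α♮. -/
theorem result {R A B : Type u} [CommRing R] [CommRing A] [Algebra R A]
    (𝒜 : ℕ → Submodule R A) [GradedAlgebra 𝒜] [CommRing B] [Algebra R B] (ℬ : ℕ → Submodule R B) [GradedAlgebra ℬ]
    (φ : B →ₐ[R] Polynomial A) (hφ : Function.Injective φ)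
    (hdeg : ∀ n : ℕ, Submodule.map φ.toLinearMap (ℬ n) =
      Submodule.map ((Polynomial.monomial n : A →ₗ[A] Polynomial A).restrictScalars R) (⨆ (m : ℕ) (_ : n ≤ m), 𝒜 m))
    {ι : Type u} (d : ι → ℕ) (hd : ∀ a, 0 < d a) (f : ι → A) (hf : ∀ a, f a ∈ 𝒜 (d a))
    (hrad : ∀ g ∈ (HomogeneousIdeal.irrelevant 𝒜).toIdeal, ∃ n : ℕ, 0 < n ∧ g ^ n ∈ Ideal.span (Set.range f))
    (fn : ι → B) (hfn : ∀ a, φ (fn a) = Polynomial.monomial (d a) (f a)) :
    ∀ g ∈ (HomogeneousIdeal.irrelevant ℬ).toIdeal, ∃ n : ℕ, 0 < n ∧ g ^ n ∈ Ideal.span (Set.range fn) := by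
  classical
  set J := Ideal.span (Set.range fn) with hJ
  -- homogeneous case
  have hom : ∀ (n : ℕ), 1 ≤ n → ∀ (m : ℕ), n ≤ m → ∀ a ∈ 𝒜 m, ∀ b : B,
      φ b = Polynomial.monomial n a → b ∈ J.radical := by
    intro n hn m hnm a ha b hb
    have hairr : a ∈ (HomogeneousIdeal.irrelevant 𝒜).toIdeal := by
      change GradedRing.proj 𝒜 0 a = 0
      rw [GradedRing.proj_apply, DirectSum.decompose_of_mem_ne 𝒜 ha (by omega : m ≠ 0)]
    obtain ⟨k, hk, hak⟩ := hrad a hairr
    obtain ⟨c, hc⟩ := (Finsupp.mem_span_range_iff_exists_finsupp).1 hak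
    have hak_mem : a ^ k ∈ 𝒜 (k * m) := by
      have := SetLike.pow_mem_graded k ha
      simpa [smul_eq_mul] using this
    have hdecomp : a ^ k = ∑ α ∈ c.support,
        (if d α ≤ k * m then (DirectSum.decompose 𝒜 (c α) (k * m - d α) : A) * f α else 0) := by
      have h1 : a ^ k = GradedRing.proj 𝒜 (k * m) (a ^ k) := by
        rw [GradedRing.proj_apply, DirectSum.decompose_of_mem_same 𝒜 hak_mem]
      rw [h1, ← hc, Finsupp.sum, map_sum]
      apply Finset.sum_congr rfl
      intro α _
      rw [smul_eq_mul, GradedRing.proj_apply, DirectSum.coe_decompose_mul_of_right_mem 𝒜 _ (hf α)]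
    set T := ∑ α ∈ c.support, d α with hT
    set N := n * k * (T + 1) with hN
    have hdN : ∀ α ∈ c.support, d α ≤ N := by
      intro α hα
      have h1 : d α ≤ T := Finset.single_le_sum (fun _ _ => Nat.zero_le _) hα
      have h2 : 1 ≤ n * k := Nat.one_le_iff_ne_zero.2 (by positivity)
      calc d α ≤ T + 1 := by omega
        _ = 1 * (T + 1) := by ring
        _ ≤ n * k * (T + 1) := Nat.mul_le_mul_right _ h2
    set P := a ^ (k * T) with hP
    have hPmem : P ∈ 𝒜 (k * T * m) := by
      have := SetLike.pow_mem_graded (k * T) ha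
      simpa [smul_eq_mul] using this
    let e : ι → A := fun α => P * (DirectSum.decompose 𝒜 (c α) (k * m - d α) : A)
    have hex : ∀ α, ∃ c' : B, φ c' = if (α ∈ c.support ∧ d α ≤ k * m) then
        Polynomial.monomial (N - d α) (e α) else 0 := by
      intro α
      by_cases hα : α ∈ c.support ∧ d α ≤ k * m
      · rw [if_pos hα]
        have hemem : e α ∈ 𝒜 (k * T * m + (k * m - d α)) :=
          SetLike.GradedMul.mul_mem hPmem (SetLike.coe_mem _)
        have hle : N - d α ≤ k * T * m + (k * m - d α) := by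
          have h1 : n * k * (T + 1) ≤ m * k * (T + 1) :=
            Nat.mul_le_mul_right _ (Nat.mul_le_mul_right _ hnm)
          have h2 : m * k * (T + 1) = k * T * m + k * m := by ring
          omega
        have hF : e α ∈ (⨆ (m' : ℕ) (_ : N - d α ≤ m'), 𝒜 m') :=
          Submodule.mem_iSup_of_mem (k * T * m + (k * m - d α))
            (Submodule.mem_iSup_of_mem hle hemem)
        have hmon : Polynomial.monomial (N - d α) (e α) ∈
            Submodule.map φ.toLinearMap (ℬ (N - d α)) := by
          rw [hdeg]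
          exact ⟨e α, hF, rfl⟩
        obtain ⟨c', _, hc'⟩ := hmon
        exact ⟨c', hc'⟩
      · rw [if_neg hα]
        exact ⟨0, map_zero φ⟩
    choose c' hc' using hex
    have hmain : b ^ (k * (T + 1)) = ∑ α ∈ c.support, c' α * fn α := by
      apply hφ
      rw [map_pow, hb, Polynomial.monomial_pow, map_sum]
      have hsum : ∑ α ∈ c.support, φ (c' α * fn α) = ∑ α ∈ c.support,
          Polynomial.monomial N (if d α ≤ k * m then e α * f α else 0) := by
        apply Finset.sum_congr rfl
        intro α hα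
        rw [map_mul, hc', hfn]
        by_cases hdm : d α ≤ k * m
        · rw [if_pos ⟨hα, hdm⟩, if_pos hdm, Polynomial.monomial_mul_monomial,
            Nat.sub_add_cancel (hdN α hα)]
        · rw [if_neg (fun h => hdm h.2), if_neg hdm, zero_mul, map_zero]
      rw [hsum, ← map_sum]
      have e2 : n * (k * (T + 1)) = N := by rw [hN]; ring
      rw [e2]
      congr 1
      have e3 : a ^ (k * (T + 1)) = P * a ^ k := by
        rw [hP, ← pow_add, Nat.mul_succ]
      rw [e3, hdecomp, Finset.mul_sum]
      apply Finset.sum_congr rfl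
      intro α _
      by_cases hdm : d α ≤ k * m
      · rw [if_pos hdm, if_pos hdm, mul_assoc]
      · rw [if_neg hdm, if_neg hdm, mul_zero]
    refine ⟨k * (T + 1), ?_⟩
    rw [hmain]
    exact Ideal.sum_mem _ (fun α _ => Ideal.mul_mem_left _ _ (Ideal.subset_span ⟨α, rfl⟩))
  -- non-homogeneous elements of the pieces
  have hFn : ∀ (n : ℕ), 1 ≤ n → ∀ a ∈ (⨆ (m : ℕ) (_ : n ≤ m), 𝒜 m), ∀ b : B,
      φ b = Polynomial.monomial n a → b ∈ J.radical := by
    intro n hn a ha
    have key : a ∈ (⨆ (m : ℕ) (_ : n ≤ m), 𝒜 m) ∧ ∀ b : B,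
        φ b = Polynomial.monomial n a → b ∈ J.radical := by
      refine Submodule.iSup_induction (fun m : ℕ => ⨆ (_ : n ≤ m), 𝒜 m)
        (motive := fun a => a ∈ (⨆ (m : ℕ) (_ : n ≤ m), 𝒜 m) ∧ ∀ b : B,
          φ b = Polynomial.monomial n a → b ∈ J.radical) ha ?_ ?_ ?_
      · intro m x hx
        by_cases hm : n ≤ m
        · rw [iSup_pos hm] at hx
          exact ⟨Submodule.mem_iSup_of_mem m (Submodule.mem_iSup_of_mem hm hx),
            fun b hb => hom n hn m hm x hx b hb⟩
        · rw [iSup_neg hm, Submodule.mem_bot] at hx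
          subst hx
          refine ⟨Submodule.zero_mem _, fun b hb => ?_⟩
          rw [map_zero, ← map_zero φ] at hb
          rw [hφ hb]
          exact Submodule.zero_mem _
      · refine ⟨Submodule.zero_mem _, fun b hb => ?_⟩
        rw [map_zero, ← map_zero φ] at hb
        rw [hφ hb]
        exact Submodule.zero_mem _
      · intro x y hx hy
        refine ⟨Submodule.add_mem _ hx.1 hy.1, fun b hb => ?_⟩
        have hxm : Polynomial.monomial n x ∈ Submodule.map φ.toLinearMap (ℬ n) := by
          rw [hdeg]; exact ⟨x, hx.1, rfl⟩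
        have hym : Polynomial.monomial n y ∈ Submodule.map φ.toLinearMap (ℬ n) := by
          rw [hdeg]; exact ⟨y, hy.1, rfl⟩
        obtain ⟨b₁, _, hb₁⟩ := hxm
        obtain ⟨b₂, _, hb₂⟩ := hym
        have hbeq : b = b₁ + b₂ := by
          apply hφ
          rw [map_add]
          change φ b = φ b₁ + φ b₂
          rw [hb, map_add]
          rw [← hb₁, ← hb₂]
          rfl
        rw [hbeq]
        exact Ideal.add_mem _ (hx.2 b₁ hb₁) (hy.2 b₂ hb₂)
    exact key.2
  intro g hg
  have hg0 : (DirectSum.decompose ℬ g 0 : B) = 0 := by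
    have := hg
    change GradedRing.proj ℬ 0 g = 0 at this
    rwa [GradedRing.proj_apply] at this
  have hgrad : g ∈ J.radical := by
    rw [← DirectSum.sum_support_decompose ℬ g]
    apply Ideal.sum_mem
    intro i _
    by_cases hi : i = 0
    · subst hi
      rw [hg0]
      exact Ideal.zero_mem _
    · have hmem : φ (DirectSum.decompose ℬ g i : B) ∈ Submodule.map φ.toLinearMap (ℬ i) :=
        ⟨_, SetLike.coe_mem _, rfl⟩
      rw [hdeg] at hmem
      obtain ⟨a, ha, hpa⟩ := hmem
      exact hFn i (Nat.one_le_iff_ne_zero.2 hi) a ha _ hpa.symm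
  obtain ⟨N, hN⟩ := hgrad
  refine ⟨N + 1, Nat.succ_pos N, ?_⟩
  rw [pow_succ]
  exact J.mul_mem_right g hN

end Groth.Agent.S8312
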