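import Groth.Statements.S8344
-- import your own Groth.Agent.* helpers here

set_option autoImplicit false
universe u
open ConstrTop

namespace Groth.Agent.S8344

/-- In a topological space X, every constructible subset is retrocompact in X, that is, it meets every
quasi-compact open subset of X in a quasi-compact set. -/
theorem result {X : Type u} [TopologicalSpace X] {s : Set X}
    (hs : Topology.IsConstructible s) : IsRetrocompact s := by
  unfold Topology.IsConstructible at hs
  induction s, hs using BooleanSubalgebra.closure_sdiff_sup_induction with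
  | isSublattice =>
    exact ⟨fun s hs t ht ↦ ⟨hs.1.union ht.1, hs.2.union ht.2⟩,
      fun s hs t ht ↦ ⟨hs.1.inter ht.1, hs.2.inter_isOpen ht.2 ht.1⟩⟩
  | bot_mem => exact ⟨isOpen_empty, .empty⟩
  | top_mem => exact ⟨isOpen_univ, .univ⟩
  | sdiff U hU V hV =>
    intro W hWc hWo
    have : (U \ V) ∩ W = (U ∩ W) ∩ Vᶜ := by
      ext x; simp only [Set.mem_inter_iff, Set.mem_sdiff, Set.mem_compl_iff]; tauto
    rw [this]
    exact (hU.2 hWc hWo).inter_right hV.1.isClosed_compl
  | sup s _ t _ hs' ht' => exact hs'.union ht'

end Groth.Agent.S8344
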