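import Groth.Statements.S8345
-- import your own Groth.Agent.* helpers here

set_option autoImplicit false
universe u
open ConstrTop

namespace Groth.Agent.S8345

open TopologicalSpace in
/-- Suppose X is a topological space that is Noetherian. Then a subset s of X is constructible exactly
when s can be written as the union of finitely many locally closed subsets of X. -/
theorem result {X : Type u} [TopologicalSpace X]
    [NoetherianSpace X] (s : Set X) :
    Topology.IsConstructible s ↔
      ∃ (n : ℕ) (Z : Fin n → Set X), (∀ i, IsLocallyClosed (Z i)) ∧ s = ⋃ i, Z i := by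
  have hretro : ∀ t : Set X, IsRetrocompact t := fun t W _ _ => NoetherianSpace.isCompact _
  constructor
  · intro hs
    unfold Topology.IsConstructible at hs
    have hsub : IsSublattice {U : Set X | IsOpen U ∧ IsRetrocompact U} :=
      ⟨fun a ha b hb => ⟨ha.1.union hb.1, ha.2.union hb.2⟩,
       fun a ha b hb => ⟨ha.1.inter hb.1, ha.2.inter_isOpen hb.2 hb.1⟩⟩
    obtain ⟨t, ht⟩ := (BooleanSubalgebra.mem_closure_iff_sup_sdiff hsub
      (⟨isOpen_empty, IsRetrocompact.empty⟩ : IsOpen (⊥ : Set X) ∧ IsRetrocompact (⊥ : Set X))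
      (⟨isOpen_univ, IsRetrocompact.univ⟩ : IsOpen (⊤ : Set X) ∧ IsRetrocompact (⊤ : Set X))).mp hs
    classical
    let e := t.equivFin
    refine ⟨t.card, fun i => (e.symm i).1.1.1 \ (e.symm i).1.2.1, ?_, ?_⟩
    · intro i
      have hU := (e.symm i).1.1.2.1
      have hV := (e.symm i).1.2.2.1
      show IsLocallyClosed (_ \ _)
      rw [Set.sdiff_eq]
      exact hU.isLocallyClosed.inter hV.isClosed_compl.isLocallyClosed
    · rw [ht, Finset.sup_set_eq_biUnion]
      ext y
      simp only [Set.mem_iUnion]
      constructor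
      · rintro ⟨x, hx, hy⟩
        refine ⟨e ⟨x, hx⟩, ?_⟩
        simpa [e] using hy
      · rintro ⟨i, hy⟩
        exact ⟨(e.symm i).1, (e.symm i).2, hy⟩
  · rintro ⟨n, Z, hZ, rfl⟩
    apply Topology.IsConstructible.iUnion
    intro i
    obtain ⟨U, C, hU, hC, hUC⟩ := hZ i
    rw [hUC]
    exact (IsRetrocompact.isConstructible hU (hretro U)).inter
      (IsRetrocompact.isConstructible hC.isOpen_compl (hretro _)).of_compl

end Groth.Agent.S8345
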