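import Groth.Statements.S8346
import Groth.Agent.S8344
-- import your own Groth.Agent.* helpers here

set_option autoImplicit false
universe u
open ConstrTop

namespace Groth.Agent.S8346

open scoped Set.Notation


open TopologicalSpace in
/-- Let X be a topological space admitting a basis of open subsets which are retrocompact in X. Then
every locally constructible subset T of X is retrocompact in X. -/
theorem result {X : Type u} [TopologicalSpace X]
    {B : Set (Set X)} (hB : IsTopologicalBasis B) (hBr : ∀ U ∈ B, IsRetrocompact U) {T : Set X}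
    (hT : Topology.IsLocallyConstructible T) : IsRetrocompact T := by
  have key : ∀ x : X, ∃ V : Set X, IsOpen V ∧ x ∈ V ∧
      ∀ W : Set X, IsCompact W → IsOpen W → IsCompact (V ∩ (T ∩ W)) := by
    intro x
    obtain ⟨U, hxU, hU, hUs⟩ := hT x
    obtain ⟨V, hVB, hxV, hVU⟩ := hB.mem_nhds_iff.mp hxU
    have hV₁ : IsOpen V := hB.isOpen hVB
    have hc : Topology.IsConstructible (V ↓∩ T) :=
      (hUs.preimage_of_isOpenEmbedding (Topology.IsOpenEmbedding.id.restrict hVU hV₁) :)
    have hr : IsRetrocompact (V ↓∩ T) := Groth.Agent.S8344.result hc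
    refine ⟨V, hV₁, hxV, fun W hWc hWo => ?_⟩
    have hVW : IsCompact (V ↓∩ W) := by
      rw [Subtype.isCompact_iff, Subtype.image_preimage_coe]
      exact hBr V hVB hWc hWo
    have h2 := hr hVW (hWo.preimage continuous_subtype_val)
    rw [Subtype.isCompact_iff] at h2
    convert h2 using 1
    ext y
    simp only [Set.mem_inter_iff, Set.mem_image, Set.mem_preimage, Subtype.exists,
      exists_and_right, exists_eq_right]
    tauto
  choose V hVo hxV hVc using key
  intro W hWc hWo
  obtain ⟨σ, hσW, hWσ⟩ := hWc.elim_nhds_subcover V (fun x _ => (hVo x).mem_nhds (hxV x))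
  have hTW : T ∩ W = ⋃ x ∈ σ, V x ∩ (T ∩ W) := by
    ext y
    simp only [Set.mem_inter_iff, Set.mem_iUnion]
    constructor
    · rintro ⟨hyT, hyW⟩
      obtain ⟨x, hx, hyx⟩ := Set.mem_iUnion₂.mp (hWσ hyW)
      exact ⟨x, hx, hyx, hyT, hyW⟩
    · rintro ⟨x, hx, _, hyT, hyW⟩
      exact ⟨hyT, hyW⟩
  rw [hTW]
  exact σ.isCompact_biUnion (fun x _ => hVc x W hWc hWo)

end Groth.Agent.S8346
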