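import Groth.Statements.S8355
-- import your own Groth.Agent.* helpers here

set_option autoImplicit false
universe v u
open CategoryTheory CategoryTheory.Limits
open SpSeq

namespace Groth.Agent.S8355

/-- Let E be a spectral sequence in an abelian category and suppose E_r^{p,q} = 0. Then E_k^{p,q} = 0
for every k ≥ r, and E_∞^{p,q} = 0: for any abutment data (H^n) of E, the graded piece gr^p H^{p+q},
identified by the abutment with the limit term at (p, q), is zero. -/
theorem result {C : Type u} [Category.{v} C] [Abelian C] {r₀ : ℤ}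
    (E : CohomologicalSpectralSequence C r₀) (r : ℤ) (hr : r₀ ≤ r) (pq : ℤ × ℤ)
    (h : IsZero ((E.page r hr).X pq)) :
    (∀ (k : ℤ) (hk : r ≤ k), IsZero ((E.page k (hr.trans hk)).X pq)) ∧
      ∀ (H : ℤ → C) (a : SpSeq.Abutment E H),
        IsZero (SpSeq.grPiece (a.fil (pq.1 + pq.2)) (a.anti (pq.1 + pq.2)) pq.1) := by
  have partA : ∀ (k : ℤ) (hk : r ≤ k), IsZero ((E.page k (hr.trans hk)).X pq) := by
    intro k hk
    induction k, hk using Int.le_induction with
    | base => exact h
    | succ n hn ih =>
      have e := (E.iso n (n + 1) pq rfl (hr.trans hn)).symm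
      exact IsZero.of_iso (ShortComplex.isZero_homology_of_isZero_X₂ _ ih) e
  refine ⟨partA, ?_⟩
  intro H a
  refine IsZero.of_iso ?_ (a.β pq).symm
  obtain ⟨h0, hst⟩ := a.stat pq
  -- downward induction from r to rk
  have down : ∀ (k : ℤ), k ≤ r → ∀ (hk : r₀ ≤ k), a.rk pq ≤ k → IsZero ((E.page k hk).X pq) := by
    intro k hk
    induction k, hk using Int.le_induction_down with
    | base => intro _ _; exact h
    | pred n hn ih =>
      intro hk hrk
      obtain ⟨hd1, hd2⟩ := hst (n - 1) hk hrk
      have hz := ih (by omega) (by omega)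
      have e1 := (E.page (n - 1) hk).isoHomologyπ (pq - (n - 1, 1 - (n - 1))) pq
        (ComplexShape.prev_eq' _ (by
          show pq - (n - 1, 1 - (n - 1)) + (n - 1, 1 - (n - 1)) = pq
          exact sub_add_cancel _ _)) hd1
      have e2 := (E.page (n - 1) hk).iCyclesIso pq (pq + (n - 1, 1 - (n - 1)))
        (ComplexShape.next_eq' _ rfl) hd2
      have e3 := E.iso (n - 1) n pq (by omega) hk
      exact IsZero.of_iso hz (e2.symm.trans (e1.trans e3))
  by_cases hle : a.rk pq ≤ r
  · exact down (a.rk pq) hle h0 le_rfl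
  · rw [not_le] at hle
    exact partA (a.rk pq) hle.le

end Groth.Agent.S8355
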