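import Groth.Statements.S8347
import Groth.Agent.S8355
-- import your own Groth.Agent.* helpers here

set_option autoImplicit false
universe v u
open CategoryTheory CategoryTheory.Limits
open SpSeq

namespace Groth.Agent.S8347

theorem stat_step {C : Type u} [Category.{v} C] [Abelian C] {r₀ : ℤ}
    (E : CohomologicalSpectralSequence C r₀) (pq : ℤ × ℤ) (k : ℤ) (hk : r₀ ≤ k)
    (hd1 : (E.page k hk).d (pq - (k, 1 - k)) pq = 0) (hd2 : (E.page k hk).d pq (pq + (k, 1 - k)) = 0) :
    Nonempty ((E.page k hk).X pq ≅ (E.page (k + 1) (hk.trans (Int.le_add_one le_rfl))).X pq) := by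
  have e1 := (E.page k hk).isoHomologyπ (pq - (k, 1 - k)) pq
    (ComplexShape.prev_eq' _ (by
      show pq - (k, 1 - k) + (k, 1 - k) = pq
      exact sub_add_cancel _ _)) hd1
  have e2 := (E.page k hk).iCyclesIso pq (pq + (k, 1 - k)) (ComplexShape.next_eq' _ rfl) hd2
  exact ⟨e2.symm.trans (e1.trans (E.iso k (k + 1) pq rfl hk))⟩

theorem stat_iso {C : Type u} [Category.{v} C] [Abelian C] {r₀ : ℤ}
    (E : CohomologicalSpectralSequence C r₀) (pq : ℤ × ℤ) (s : ℤ) (hs : SpSeq.StationaryAt E pq s)
    (k : ℤ) (hsk : s ≤ k) :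
    Nonempty ((E.page s hs.1).X pq ≅ (E.page k (hs.1.trans hsk)).X pq) := by
  induction k, hsk using Int.le_induction with
  | base => exact ⟨Iso.refl _⟩
  | succ m hm ih =>
    obtain ⟨e⟩ := ih
    obtain ⟨hd1, hd2⟩ := hs.2 m (hs.1.trans hm) hm
    obtain ⟨e'⟩ := stat_step E pq m (hs.1.trans hm) hd1 hd2
    exact ⟨e.trans e'⟩


/-- Let E be a spectral sequence in an abelian category with abutment data (H^m), and suppose that for
some page r and every total degree m there is an integer q(m) such that E_r^{m-q,q} = 0 for every q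
other than q(m). Let n be a total degree such that the filtration of H^n is discrete (some step is
zero) and exhaustive (H^n is the supremum of the steps), and such that the position (n - q(n), q(n))
is stationary from page r on. Then H^n is isomorphic to E_r^{n-q(n), q(n)}. (The published statement
asserts this without any condition on the differentials at the surviving positions; that version
fails when a differential d_r links the surviving terms of two consecutive total degrees, for
instance a spectral sequence whose only nonzero page-2 terms are E_2^{0,1} and E_2^{2,0} with d_2 an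
isomorphism between them and zero abutment. The stationarity assumed here is automatic when q(m)
does not depend on m and r ≥ 2.) -/
theorem result {C : Type u} [Category.{v} C] [Abelian C] {r₀ : ℤ}
    (E : CohomologicalSpectralSequence C r₀) {H : ℤ → C} (a : SpSeq.Abutment E H)
    (r : ℤ) (hr : r₀ ≤ r) (q : ℤ → ℤ)
    (hdeg : ∀ m q' : ℤ, q' ≠ q m → IsZero ((E.page r hr).X (m - q', q')))
    (n : ℤ) (hdisc : (a.filObj n).IsDiscrete) (hexh : a.IsExhaustive n)
    (hst : SpSeq.StationaryAt E (n - q n, q n) r) :
    Nonempty (H n ≅ (E.page r hr).X (n - q n, q n)) := by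
  set p₀ := n - q n with hp₀
  set F := a.fil n with hF
  have hanti : Antitone F := a.anti n
  have hgr0 : ∀ p, p ≠ p₀ → IsZero (SpSeq.grPiece (a.fil n) (a.anti n) p) := by
    intro p hp
    have hz : IsZero ((E.page r hr).X (p, n - p)) := by
      have h1 := hdeg n (n - p) (by intro h; apply hp; rw [hp₀]; omega)
      have e : (n - (n - p), n - p) = (p, n - p) := by
        ext
        · simp
        · rfl
      rw [e] at h1
      exact h1
    have h2 := (Groth.Agent.S8355.result E r hr (p, n - p) hz).2 H a
    have e : p + (n - p) = n := by omega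
    simp only at h2
    rw [e] at h2
    exact h2
  have hstep : ∀ p, p ≠ p₀ → F (p + 1) = F p := by
    intro p hp
    have hz := hgr0 p hp
    have hle : F (p + 1) ≤ F p := hanti (Int.le_add_one le_rfl)
    have hepi : Epi ((F (p + 1)).ofLE (F p) hle) :=
      Preadditive.epi_of_isZero_cokernel _ hz
    have hiso : IsIso ((F (p + 1)).ofLE (F p) hle) :=
      isIso_of_mono_of_epi _
    exact Subobject.eq_of_comm (asIso ((F (p + 1)).ofLE (F p) hle)) (Subobject.ofLE_arrow hle)
  have hup : ∀ m, p₀ + 1 ≤ m → F m = F (p₀ + 1) := by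
    intro m hm
    induction m, hm using Int.le_induction with
    | base => rfl
    | succ m hm ih => rw [hstep m (by omega), ih]
  have hdown : ∀ m, m ≤ p₀ → F m = F p₀ := by
    intro m hm
    induction m, hm using Int.le_induction_down with
    | base => rfl
    | pred m hm ih =>
      have h1 := hstep (m - 1) (by omega)
      rw [sub_add_cancel] at h1
      rw [← h1, ih]
  have hbot : F (p₀ + 1) = ⊥ := by
    obtain ⟨b, hb⟩ := hdisc
    change F b = ⊥ at hb
    by_cases hbp : p₀ + 1 ≤ b
    · rw [← hup b hbp, hb]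
    · rw [not_le] at hbp
      exact le_bot_iff.mp (hb ▸ hanti hbp.le)
  have htop : F p₀ = ⊤ := by
    have hub : F p₀ ∈ upperBounds (Set.range F) := by
      rintro _ ⟨p, rfl⟩
      by_cases hp : p ≤ p₀
      · rw [hdown p hp]
      · rw [not_le] at hp
        exact hanti hp.le
    exact top_le_iff.mp (hexh.2 hub)
  -- the graded piece at p₀ is H n
  have hz0 : IsZero ((F (p₀ + 1) : Subobject (H n)) : C) :=
    IsZero.of_iso (isZero_zero C) ((Subobject.isoOfEq _ _ hbot).trans Subobject.botCoeIsoZero)
  have hf0 : (F (p₀ + 1)).ofLE (F p₀) (hanti (Int.le_add_one le_rfl)) = 0 := hz0.eq_of_src _ _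
  have eGr : SpSeq.grPiece (a.fil n) (a.anti n) p₀ ≅ H n :=
    (cokernelIsoOfEq hf0).trans (cokernelZeroIsoTarget.trans
      ((Subobject.isoOfEq _ _ htop).trans (asIso (⊤ : Subobject (H n)).arrow)))
  -- limit term
  have hβ : Nonempty ((E.page (a.rk (p₀, q n)) (a.stat (p₀, q n)).1).X (p₀, q n) ≅
      SpSeq.grPiece (a.fil (p₀ + q n)) (a.anti (p₀ + q n)) p₀) := ⟨a.β (p₀, q n)⟩
  have e : p₀ + q n = n := by omega
  rw [e] at hβ
  obtain ⟨β⟩ := hβ
  have hEr : Nonempty ((E.page (a.rk (p₀, q n)) (a.stat (p₀, q n)).1).X (p₀, q n) ≅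
      (E.page r hr).X (p₀, q n)) := by
    by_cases hle : a.rk (p₀, q n) ≤ r
    · exact stat_iso E (p₀, q n) _ (a.stat (p₀, q n)) r hle
    · rw [not_le] at hle
      obtain ⟨e'⟩ := stat_iso E (p₀, q n) r hst _ hle.le
      exact ⟨e'.symm⟩
  obtain ⟨eE⟩ := hEr
  exact ⟨eGr.symm.trans (β.symm.trans eE)⟩

end Groth.Agent.S8347
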