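import Groth.Statements.S8352
import Mathlib.CategoryTheory.Limits.Preserves.Limits
import Mathlib.CategoryTheory.Limits.Types.Limits
import Mathlib.Algebra.Category.Grp.ForgetCorepresentable
-- import your own Groth.Agent.* helpers here

set_option autoImplicit false
universe u
open CategoryTheory CategoryTheory.Limits Opposite
open HomAlg3

namespace Groth.Agent.S8352

theorem ml_core (F : ℕᵒᵖ ⥤ AddCommGrpCat.{u})
    (hF : (F ⋙ forget AddCommGrpCat).IsMittagLeffler) (n : ℕ) :
    (limit.π F (op n)).hom.range =
      ⨅ (k : ℕ) (hk : n ≤ k), (F.map (homOfLE hk).op).hom.range := by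
  apply le_antisymm
  · simp only [le_iInf_iff]
    intro k hk
    rintro _ ⟨a, rfl⟩
    refine ⟨(limit.π F (op k)).hom a, ?_⟩
    rw [← limit.w F (homOfLE hk).op]
    rfl
  · intro x hx
    simp only [AddSubgroup.mem_iInf] at hx
    set G := F ⋙ forget AddCommGrpCat with hG
    have hxE : x ∈ G.eventualRange (op n) := by
      rw [Functor.mem_eventualRange_iff]
      intro i f
      have hle : n ≤ unop i := leOfHom f.unop
      obtain ⟨y, hy⟩ := hx (unop i) hle
      refine ⟨y, ?_⟩
      have : f = (homOfLE hle).op := Subsingleton.elim _ _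
      rw [this]
      exact hy
    have hsurj := Functor.surjective_toEventualRanges G hF
    let t : ∀ m : ℕ, G.eventualRange (op (n + m)) := fun m =>
      Nat.rec (motive := fun m => G.eventualRange (op (n + m))) ⟨x, hxE⟩
        (fun m tm => Classical.choose (hsurj (homOfLE (Nat.le_succ (n + m))).op tm)) m
    have ht0 : (t 0).val = x := rfl
    have htS : ∀ m, G.map (homOfLE (Nat.le_succ (n + m))).op (t (m + 1)).val = (t m).val := by
      intro m
      have := Classical.choose_spec (hsurj (homOfLE (Nat.le_succ (n + m))).op (t m))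
      exact congrArg Subtype.val this
    have hcomp2 : ∀ (a b c : ℕ) (h1 : a ≤ b) (h2 : b ≤ c) {h3 : a ≤ c} (v : G.obj (op c)),
        G.map (homOfLE h3).op v = G.map (homOfLE h1).op (G.map (homOfLE h2).op v) := by
      intro a b c h1 h2 h3 v
      rw [← types_comp_apply (G.map _) (G.map _), ← G.map_comp]
      rfl
    have htle : ∀ m d, G.map (homOfLE (show n + m ≤ n + (m + d) by omega)).op (t (m + d)).val =
        (t m).val := by
      intro m d
      induction d with
      | zero =>
        have : (homOfLE (show n + m ≤ n + (m + 0) by omega)).op = 𝟙 (op (n + (m + 0))) :=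
          Subsingleton.elim _ _
        rw [this, G.map_id]
        rfl
      | succ d ih =>
        rw [hcomp2 (n + m) (n + (m + d)) (n + (m + (d + 1))) (by omega) (Nat.le_succ _)]
        exact (congrArg (fun v => G.map (homOfLE (show n + m ≤ n + (m + d) by omega)).op v)
          (htS (m + d))).trans ih
    have htle0 : ∀ d, G.map (homOfLE (Nat.le_add_right n d)).op (t d).val = x := by
      intro d
      induction d with
      | zero =>
        have : (homOfLE (Nat.le_add_right n 0)).op = 𝟙 (op (n + 0)) := Subsingleton.elim _ _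
        rw [this, G.map_id]
        rfl
      | succ d ih =>
        rw [hcomp2 n (n + d) (n + (d + 1)) (Nat.le_add_right n d) (Nat.le_succ _)]
        rw [htS d, ih]
    let s : ∀ j : ℕ, G.obj (op j) := fun j =>
      G.map (homOfLE (Nat.le_add_left j n)).op (t j).val
    have hsec : ∀ (j j' : ℕ) (h : j ≤ j'), G.map (homOfLE h).op (s j') = s j := by
      intro j j' h
      obtain ⟨d, rfl⟩ := Nat.exists_eq_add_of_le h
      simp only [s]
      rw [← hcomp2 j (j + d) (n + (j + d)) h (Nat.le_add_left _ n) (h3 := by omega)]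
      rw [hcomp2 j (n + j) (n + (j + d)) (Nat.le_add_left j n) (by omega)]
      rw [htle j d]
    let sec : G.sections := ⟨fun j => s (unop j), by
      intro j j' f
      have hle : unop j' ≤ unop j := leOfHom f.unop
      have : f = (homOfLE hle).op := Subsingleton.elim _ _
      rw [this]
      exact hsec _ _ hle⟩
    let e := Types.isLimitEquivSections (isLimitOfPreserves (forget AddCommGrpCat) (limit.isLimit F))
    refine ⟨e.symm sec, ?_⟩
    have h1 := Types.isLimitEquivSections_symm_apply
      (isLimitOfPreserves (forget AddCommGrpCat) (limit.isLimit F)) sec (op n)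
    have h2 : s n = x := htle0 n
    rw [← h2]
    exact h1


/-- Category of abelian groups, system indexed by the natural numbers: Let (A_k) be an inverse system of
abelian groups satisfying the Mittag-Leffler condition, A = lim A_k with projections π_p : A ⟶ A_p.
Filter A and each A_k by the kernels of the maps to A_{p-1} (with A_{-1} = 0); the graded piece
gr^p(A) is identified with Im(π_p) ∩ Ker(A_p ⟶ A_{p-1}) and gr^p(A_k), k ≥ p, with Im(A_k ⟶ A_p) ∩
Ker(A_p ⟶ A_{p-1}), a decreasing family of subgroups of A_p. The statement gr^p(A) ≅ lim_k gr^p(A_k)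
then reads: Im(π_0) = ⋂_k Im(A_k ⟶ A_0), and for every p, Im(π_{p+1}) ∩ Ker(A_{p+1} ⟶ A_p) = ⋂_{k ≥
p+1} (Im(A_k ⟶ A_{p+1}) ∩ Ker(A_{p+1} ⟶ A_p)). -/
theorem result (F : ℕᵒᵖ ⥤ AddCommGrpCat.{u})
    (hF : (F ⋙ forget AddCommGrpCat).IsMittagLeffler) :
    (limit.π F (op 0)).hom.range = ⨅ k : ℕ, (F.map (homOfLE (Nat.zero_le k)).op).hom.range ∧
      ∀ p : ℕ, (limit.π F (op (p + 1))).hom.range ⊓ (F.map (homOfLE (Nat.le_succ p)).op).hom.ker =
        ⨅ (k : ℕ) (hk : p + 1 ≤ k),
          (F.map (homOfLE hk).op).hom.range ⊓ (F.map (homOfLE (Nat.le_succ p)).op).hom.ker := by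
  refine ⟨?_, ?_⟩
  · rw [ml_core F hF 0]
    apply le_antisymm
    · exact le_iInf fun k => iInf₂_le k (Nat.zero_le k)
    · exact le_iInf₂ fun k _ => iInf_le _ k
  · intro p
    rw [ml_core F hF (p + 1)]
    apply le_antisymm
    · exact le_iInf₂ fun k hk => inf_le_inf_right _ (iInf₂_le k hk)
    · intro y hy
      have hy' : ∀ k (hk : p + 1 ≤ k), y ∈ (F.map (homOfLE hk).op).hom.range ⊓
          (F.map (homOfLE (Nat.le_succ p)).op).hom.ker := fun k hk =>
        SetLike.le_def.mp (iInf₂_le k hk) hy
      refine ⟨?_, (hy' (p + 1) le_rfl).2⟩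
      have hz : AddSubgroup.closure {y} ≤
          ⨅ (k : ℕ) (hk : p + 1 ≤ k), (F.map (homOfLE hk).op).hom.range :=
        le_iInf₂ fun k hk => (AddSubgroup.closure_le _).mpr
          (Set.singleton_subset_iff.mpr (hy' k hk).1)
      exact SetLike.le_def.mp hz (AddSubgroup.subset_closure (Set.mem_singleton y))

end Groth.Agent.S8352
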