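import Groth.Statements.S8771
-- import your own Groth.Agent.* helpers here

set_option autoImplicit false
universe u
open PureExt

namespace Groth.Agent.S8771

theorem charEval_univInj (R : Type u) [CommRing R] (M : Type u) [AddCommGroup M]
    [Module R M] : CAlgX.UniversallyInjective R (PureExt.charEval R M) := by
  intro Q _ _
  rw [rTensor_injective_iff_lcomp_surjective]
  intro φ
  refine ⟨CharacterModule.dual (CharacterModule.dual φ ∘ₗ PureExt.charEval R Q), ?_⟩
  exact LinearMap.ext fun m => DFunLike.ext _ _ fun q => rfl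


/-- An `R`-module `I` is pure injective (every linear map `K → I` extends along every universally
injective `K → L`) if and only if the evaluation map `I → (I^∨)^∨` into its double character module
splits, i.e. admits a linear retraction. -/
theorem result (R : Type u) [CommRing R] (I : Type u) [AddCommGroup I]
    [Module R I] :
    (∀ ⦃K L : Type u⦄ [AddCommGroup K] [Module R K] [AddCommGroup L] [Module R L] (f : K →ₗ[R] L),
        CAlgX.UniversallyInjective R f → ∀ φ : K →ₗ[R] I, ∃ ψ : L →ₗ[R] I, ψ ∘ₗ f = φ) ↔
    ∃ r : CharacterModule (CharacterModule I) →ₗ[R] I, r ∘ₗ PureExt.charEval R I = LinearMap.id := by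
  constructor
  · intro h
    exact h (PureExt.charEval R I) (charEval_univInj R I) LinearMap.id
  · rintro ⟨r, hr⟩ K L _ _ _ _ f hf φ
    have hinj := hf (CharacterModule I)
    rw [rTensor_injective_iff_lcomp_surjective] at hinj
    obtain ⟨ψ₀, hψ₀⟩ := hinj (PureExt.charEval R I ∘ₗ φ)
    refine ⟨r ∘ₗ ψ₀, ?_⟩
    have e : ψ₀ ∘ₗ f = PureExt.charEval R I ∘ₗ φ := hψ₀
    rw [LinearMap.comp_assoc, e, ← LinearMap.comp_assoc, hr, LinearMap.id_comp]

end Groth.Agent.S8771
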