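import Groth.Statements.S8772
-- import your own Groth.Agent.* helpers here

set_option autoImplicit false
universe u
open PureExt

namespace Groth.Agent.S8772

/-- For every `R`-module `M` the evaluation map `M → (M^∨)^∨` into the double character module is
universally injective; with the pure injectivity of character modules this gives a universally exact
embedding of `M` into a pure injective module. (The published statement asserts only the existence
of such an embedding; this row names the map.) -/
theorem result (R : Type u) [CommRing R] (M : Type u) [AddCommGroup M]
    [Module R M] : CAlgX.UniversallyInjective R (PureExt.charEval R M) := by
  intro Q _ _
  rw [rTensor_injective_iff_lcomp_surjective]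
  intro φ
  refine ⟨CharacterModule.dual (CharacterModule.dual φ ∘ₗ PureExt.charEval R Q), ?_⟩
  exact LinearMap.ext fun m => DFunLike.ext _ _ fun q => rfl

end Groth.Agent.S8772
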