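import Groth.Statements.S8773
import Mathlib.LinearAlgebra.TensorProduct.RightExactness
-- import your own Groth.Agent.* helpers here

set_option autoImplicit false
universe u
open PureExt

namespace Groth.Agent.S8773

/-- If `L → M → N` is a universally exact sequence of `R`-modules (exact after tensoring with any
module) then the inclusion of the image of `M → N` into `N` is universally injective. -/
theorem result (R : Type u) [CommRing R]
    {L M N : Type u} [AddCommGroup L] [Module R L] [AddCommGroup M] [Module R M] [AddCommGroup N] [Module R N]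
    (f : L →ₗ[R] M) (g : M →ₗ[R] N)
    (h : ∀ (Q : Type u) [AddCommGroup Q] [Module R Q], Function.Exact (f.rTensor Q) (g.rTensor Q)) :
    CAlgX.UniversallyInjective R (LinearMap.range g).subtype := by
  have hgf : ∀ l, g (f l) = 0 := by
    intro l
    have h1 := (h R).apply_apply_eq_zero (l ⊗ₜ[R] (1 : R))
    simp only [LinearMap.rTensor_tmul] at h1
    have h2 := congrArg (TensorProduct.rid R N) h1
    simpa using h2
  intro Q _ _
  refine (injective_iff_map_eq_zero _).mpr ?_
  intro z hz
  obtain ⟨w, rfl⟩ := LinearMap.rTensor_surjective Q (LinearMap.surjective_rangeRestrict g) z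
  have hw : g.rTensor Q w = 0 := by
    rw [← hz, ← LinearMap.rTensor_comp_apply]
    rfl
  obtain ⟨v, rfl⟩ := ((h Q) w).mp hw
  rw [← LinearMap.rTensor_comp_apply]
  have h3 : g.rangeRestrict ∘ₗ f = 0 := by
    ext l
    simp [hgf]
  rw [h3, LinearMap.rTensor_zero]
  rfl

end Groth.Agent.S8773
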