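import Groth.Statements.S8817
-- import your own Groth.Agent.* helpers here

set_option autoImplicit false
universe u
open CategoryTheory AlgebraicGeometry
open Algz

namespace Groth.Agent.S8817


section Top

variable {X Y : Type u} [TopologicalSpace X] [TopologicalSpace Y]

theorem codimPt_map (f : X → Y) (hf : Topology.IsOpenEmbedding f) (w v : X) (h : w ⤳ v)
    (h' : f w ⤳ f v) : Algz.codimPt (f w) (f v) h' = Algz.codimPt w v h := by
  unfold Algz.codimPt
  let g : Set.Ici (Specialization.toEquiv v) → Set.Ici (Specialization.toEquiv (f v)) :=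
    fun x => ⟨Specialization.toEquiv (f (Specialization.ofEquiv x.1)), by
      have hx : Specialization.ofEquiv x.1 ⤳ v := x.2
      exact Specialization.toEquiv_le_toEquiv.mpr (hx.map hf.continuous)⟩
  have hg : ∀ a b, g a ≤ g b ↔ a ≤ b := by
    intro a b
    change f (Specialization.ofEquiv b.1) ⤳ f (Specialization.ofEquiv a.1) ↔
      Specialization.ofEquiv b.1 ⤳ Specialization.ofEquiv a.1
    exact hf.isInducing.specializes_iff
  have ginj : Function.Injective g := by
    intro a b hab
    have h1 : f (Specialization.ofEquiv a.1) = f (Specialization.ofEquiv b.1) :=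
      congrArg (fun y => Specialization.ofEquiv y.1) hab
    exact Subtype.ext (Specialization.ofEquiv.injective (hf.injective h1))
  let gE : Set.Ici (Specialization.toEquiv v) ↪o Set.Ici (Specialization.toEquiv (f v)) :=
    { toFun := g, inj' := ginj, map_rel_iff' := fun {a b} => hg a b }
  have hsurj : Function.Surjective gE := by
    intro y
    have hy : Specialization.ofEquiv y.1 ⤳ f v := y.2
    have hmem : Specialization.ofEquiv y.1 ∈ Set.range f :=
      hy.mem_open hf.isOpen_range ⟨v, rfl⟩
    obtain ⟨x₀, hx₀⟩ := hmem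
    have hx₀v : x₀ ⤳ v := by
      rw [← hf.isInducing.specializes_iff, hx₀]
      exact hy
    refine ⟨⟨Specialization.toEquiv x₀, Specialization.toEquiv_le_toEquiv.mpr hx₀v⟩, ?_⟩
    apply Subtype.ext
    change Specialization.toEquiv (f x₀) = y.1
    rw [hx₀]
    rfl
  let e := OrderIso.ofSurjective gE hsurj
  have he : e ⟨Specialization.toEquiv w, Specialization.toEquiv_le_toEquiv.mpr h⟩ =
      ⟨Specialization.toEquiv (f w), Specialization.toEquiv_le_toEquiv.mpr h'⟩ := rfl
  rw [← he, Order.height_orderIso]

def mapSys (f : X → Y) (hf : Continuous f) {Z : Set Y} {x : X} {k : ℕ}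
    (S : Algz.DSystem (f ⁻¹' Z) x k) : Algz.DSystem Z (f x) k where
  v := fun i => f (S.v i)
  w := fun i => f (S.w i)
  spec := fun i => (S.spec i).map hf
  spec_succ := fun i => (S.spec_succ i).map hf
  start_mem := S.start_mem
  last_eq := by simp only [S.last_eq]

theorem delta_mapSys (f : X → Y) (hf : Topology.IsOpenEmbedding f) {Z : Set Y} {x : X} {k : ℕ}
    (S : Algz.DSystem (f ⁻¹' Z) x k) : (mapSys f hf.continuous S).delta = S.delta := by
  have hc : ∀ j, (mapSys f hf.continuous S).c j = S.c j :=
    fun j => codimPt_map f hf (S.w j) (S.v j) (S.spec j) _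
  have hb : ∀ j, (mapSys f hf.continuous S).b j = S.b j :=
    fun j => codimPt_map f hf (S.w j.castSucc) (S.v j.succ) (S.spec_succ j) _
  unfold Algz.DSystem.delta
  simp only [hc, hb]

theorem deltaZ_le_of_openEmbedding (f : X → Y) (hf : Topology.IsOpenEmbedding f) (Z : Set Y)
    (x : X) : Algz.deltaZ Z (f x) ≤ Algz.deltaZ (f ⁻¹' Z) x := by
  unfold Algz.deltaZ
  refine le_iInf₂ fun k S => ?_
  rw [← delta_mapSys f hf S]
  exact iInf₂_le k (mapSys f hf.continuous S)

end Top



/-- Let Y be a Noetherian scheme, Z ⊆ Y a closed subset and Y' ⊆ Y an open subscheme. For a point y' of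
Y' the distance function of Y' relative to Y' ∩ Z at y' is at least the distance function of Y
relative to Z at y'. -/
theorem result (Y : Scheme.{u}) [IsNoetherian Y] (Z : Set Y) (hZ : IsClosed Z) (Y' : Y.Opens) (y' : (↑Y' : Scheme.{u})) : Algz.deltaZ Z (Y'.ι.base y') ≤ Algz.deltaZ ((fun x : (↑Y' : Scheme.{u}) => Y'.ι.base x) ⁻¹' Z) y' := by
  exact deltaZ_le_of_openEmbedding (fun x : (↑Y' : Scheme.{u}) => Y'.ι.base x)
    (Scheme.Hom.isOpenEmbedding Y'.ι) Z y'

end Groth.Agent.S8817
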