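import Groth.Statements.S8924
-- import your own Groth.Agent.* helpers here

set_option autoImplicit false
universe u v
open InjHull

namespace Groth.Agent.S8924

/-- For a submodule M of an R-module N, the inclusion of M into N is an essential injection if and only
if every nonzero element x of N has a multiple f • x which is a nonzero element of M. -/
theorem result (R : Type u) [CommRing R] (N : Type v) [AddCommGroup N] [Module R N] (M : Submodule R N) : InjHull.IsEssentialInj M.subtype ↔ ∀ x : N, x ≠ 0 → ∃ f : R, f • x ∈ M ∧ f • x ≠ 0 := by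
  constructor
  · intro h x hx
    have hN : (Submodule.span R {x}) ≠ ⊥ := by
      simpa [Submodule.span_singleton_eq_bot] using hx
    have h2 := h.essential _ hN
    rw [Submodule.ne_bot_iff] at h2
    obtain ⟨y, hy, hy0⟩ := h2
    rw [Submodule.mem_inf, Submodule.mem_span_singleton] at hy
    obtain ⟨⟨f, rfl⟩, hyM⟩ := hy
    refine ⟨f, ?_, hy0⟩
    rw [Submodule.range_subtype] at hyM
    exact hyM
  · intro h
    refine ⟨Subtype.val_injective, ?_⟩
    intro N hN
    rw [Submodule.ne_bot_iff] at hN
    obtain ⟨x, hxN, hx0⟩ := hN
    obtain ⟨f, hfM, hf0⟩ := h x hx0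
    rw [Submodule.ne_bot_iff]
    refine ⟨f • x, ?_, hf0⟩
    rw [Submodule.mem_inf, Submodule.range_subtype]
    exact ⟨N.smul_mem f hxN, hfM⟩

end Groth.Agent.S8924
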