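import Groth.Statements.S8925
-- import your own Groth.Agent.* helpers here

set_option autoImplicit false
universe u
open InjHull

namespace Groth.Agent.S8925

/-- If S is a flat R-algebra and E is an injective S-module, then E, viewed as an R-module by
restriction of scalars, is an injective R-module. -/
theorem result (R S : Type u) [CommRing R] [CommRing S] [Algebra R S] [Module.Flat R S] (E : Type u) [AddCommGroup E] [Module S E] [Module R E] [IsScalarTower R S E] [Module.Injective S E] : Module.Injective R E := by
  constructor
  intro X Y _ _ _ _ f hf g
  have hinj : Function.Injective (f.baseChange S) := by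
    rw [LinearMap.baseChange_eq_ltensor]
    exact Module.Flat.lTensor_preserves_injective_linearMap f hf
  obtain ⟨h, hh⟩ := Module.Injective.out (R := S) (Q := E) (f.baseChange S) hinj
    (g.liftBaseChange S)
  refine ⟨(h.restrictScalars R).comp (TensorProduct.mk R S Y 1), ?_⟩
  intro x
  have := hh (1 ⊗ₜ x)
  simp only [LinearMap.baseChange_tmul, LinearMap.liftBaseChange_tmul, one_smul] at this
  simpa using this

end Groth.Agent.S8925
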