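import Groth.Statements.S8926
-- import your own Groth.Agent.* helpers here

set_option autoImplicit false
universe u
open InjHull

namespace Groth.Agent.S8926

/-- Suppose R → S is an epimorphism of rings and E is an S-module whose underlying R-module (via
restriction of scalars) is injective; then E is injective as an S-module as well. -/
theorem result (R S : Type u) [CommRing R] [CommRing S] [Algebra R S] [Algebra.IsEpi R S] (E : Type u) [AddCommGroup E] [Module S E] [Module R E] [IsScalarTower R S E] [Module.Injective R E] : Module.Injective S E := by
  constructor
  intro X Y _ _ _ _ f hf g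
  let _ : Module R X := Module.compHom X (algebraMap R S)
  let _ : Module R Y := Module.compHom Y (algebraMap R S)
  have _ : IsScalarTower R S X := ⟨fun r s x => by
    change (r • s) • x = (algebraMap R S r) • (s • x)
    rw [Algebra.smul_def, mul_smul]⟩
  have _ : IsScalarTower R S Y := ⟨fun r s x => by
    change (r • s) • x = (algebraMap R S r) • (s • x)
    rw [Algebra.smul_def, mul_smul]⟩
  obtain ⟨h, hh⟩ := Module.Injective.out (R := R) (Q := E) (f.restrictScalars R) hf
    (g.restrictScalars R)
  have key : ∀ (s : S) (y : Y), h (s • y) = s • h y := by
    intro s y
    let β : S →ₗ[R] S →ₗ[R] E := LinearMap.mk₂ R (fun a b => a • h (b • y))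
      (fun a a' b => by simp [add_smul])
      (fun r a b => by simp [smul_assoc])
      (fun a b b' => by simp [add_smul])
      (fun r a b => by
        show a • h ((r • b) • y) = r • (a • h (b • y))
        rw [smul_assoc, LinearMap.map_smul, smul_comm])
    have := congrArg (TensorProduct.lift β) (Algebra.tmul_comm R s (1 : S))
    simp only [TensorProduct.lift.tmul, β, LinearMap.mk₂_apply, one_smul] at this
    exact this.symm
  refine ⟨{ toFun := h, map_add' := h.map_add, map_smul' := key }, ?_⟩
  intro x
  exact hh x

end Groth.Agent.S8926
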