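import Groth.Statements.S8927
import Mathlib.RingTheory.Flat.TorsionFree
-- import your own Groth.Agent.* helpers here

set_option autoImplicit false
universe u
open Disc

namespace Groth.Agent.S8927

/-- For a map A → B of Noetherian rings such that the localization B_q is flat over A for every
associated prime q of B, every nonzerodivisor of A maps to a nonzerodivisor of B. -/
theorem result (A B : Type u) [CommRing A] [CommRing B] [IsNoetherianRing A] [IsNoetherianRing B] [Algebra A B] (h3 : ∀ (q : Ideal B) [q.IsPrime], IsAssociatedPrime q B → Module.Flat A (Localization.AtPrime q)) : nonZeroDivisors A ≤ (nonZeroDivisors B).comap (algebraMap A B) := by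
  intro a ha
  rw [Submonoid.mem_comap]
  by_contra hne
  have hmem : algebraMap A B a ∈ ⋃ p ∈ associatedPrimes B B, p := by
    rw [biUnion_associatedPrimes_eq_compl_nonZeroDivisors]
    exact hne
  simp only [Set.mem_iUnion] at hmem
  obtain ⟨q, hq, haq⟩ := hmem
  have hq' : IsAssociatedPrime q B := hq
  obtain ⟨hqp, x, hx⟩ := (isAssociatedPrime_iff).mp hq'
  have := hqp
  have hflat := h3 q hq'
  have hax : algebraMap A B a * x = 0 := by
    rw [hx] at haq
    rw [SetLike.mem_coe, Submodule.mem_colon_singleton, Submodule.mem_bot] at haq
    simpa [smul_eq_mul] using haq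
  have hx0 : algebraMap B (Localization.AtPrime q) x ≠ 0 := by
    intro h0
    rw [IsLocalization.map_eq_zero_iff q.primeCompl] at h0
    obtain ⟨⟨s, hs⟩, hsx⟩ := h0
    apply hs
    rw [hx, SetLike.mem_coe, Submodule.mem_colon_singleton, Submodule.mem_bot]
    simpa [smul_eq_mul] using hsx
  have hreg := Module.Flat.isSMulRegular_of_nonZeroDivisors (M := Localization.AtPrime q) ha
  apply hx0
  apply hreg
  simp only [smul_zero]
  rw [Algebra.smul_def, IsScalarTower.algebraMap_apply A B (Localization.AtPrime q), ← map_mul, hax,
    map_zero]

end Groth.Agent.S8927
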