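import Groth.Statements.S8936
-- import your own Groth.Agent.* helpers here

set_option autoImplicit false
universe u v
open InjHull

namespace Groth.Agent.S8936

/-- For a directed system (E_i) of R-modules over a nonempty directed preorder and a compatible family
of essential injections M → E_i, the induced map from M to the direct limit of the E_i is an
essential injection. -/
theorem result (R : Type u) [CommRing R] (ι : Type v) [Preorder ι] [IsDirectedOrder ι] [DecidableEq ι] (i₀ : ι) (E : ι → Type v) [∀ i, AddCommGroup (E i)] [∀ i, Module R (E i)] (f : ∀ i j, i ≤ j → E i →ₗ[R] E j) [DirectedSystem E fun i j h => f i j h] (M : Type v) [AddCommGroup M] [Module R M] (g : ∀ i, M →ₗ[R] E i) (hg : ∀ i j (h : i ≤ j), f i j h ∘ₗ g i = g j) (he : ∀ i, InjHull.IsEssentialInj (g i)) : InjHull.IsEssentialInj (Module.DirectLimit.of R ι E f i₀ ∘ₗ g i₀) := by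
  have : Nonempty ι := ⟨i₀⟩
  have hinj : Function.Injective (Module.DirectLimit.of R ι E f i₀ ∘ₗ g i₀) := by
    rw [← LinearMap.ker_eq_bot, LinearMap.ker_eq_bot']
    intro m hm
    rw [LinearMap.comp_apply] at hm
    obtain ⟨j, hij, hj⟩ := Module.DirectLimit.of.zero_exact hm
    have : g j m = 0 := by
      rw [← hg i₀ j hij, LinearMap.comp_apply, hj]
    exact (he j).injective (by rw [this, map_zero])
  refine ⟨hinj, ?_⟩
  intro N hN
  rw [Submodule.ne_bot_iff] at hN
  obtain ⟨x, hxN, hx0⟩ := hN
  obtain ⟨j, e, rfl⟩ := Module.DirectLimit.exists_of x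
  obtain ⟨k, hik, hjk⟩ := exists_ge_ge i₀ j
  have he' : f j k hjk e ≠ 0 := by
    intro h0
    apply hx0
    rw [← Module.DirectLimit.of_f (hij := hjk), h0, map_zero]
  have hspan : Submodule.span R {f j k hjk e} ≠ ⊥ := by
    rwa [Ne, Submodule.span_singleton_eq_bot]
  have h2 := (he k).essential _ hspan
  rw [Submodule.ne_bot_iff] at h2
  obtain ⟨y, hy, hy0⟩ := h2
  rw [Submodule.mem_inf, Submodule.mem_span_singleton, LinearMap.mem_range] at hy
  obtain ⟨⟨r, hr⟩, ⟨m, hm⟩⟩ := hy
  rw [Submodule.ne_bot_iff]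
  refine ⟨Module.DirectLimit.of R ι E f i₀ (g i₀ m), ⟨?_, ⟨m, rfl⟩⟩, ?_⟩
  · have : Module.DirectLimit.of R ι E f i₀ (g i₀ m) = r • Module.DirectLimit.of R ι E f j e := by
      rw [← Module.DirectLimit.of_f (hij := hik), ← LinearMap.comp_apply (f i₀ k hik), hg, hm,
        ← hr, map_smul, Module.DirectLimit.of_f]
    rw [this]
    exact N.smul_mem r hxN
  · intro h0
    have hm0 : m = 0 := hinj (by rw [LinearMap.comp_apply, h0, map_zero])
    apply hy0
    rw [← hm, hm0, map_zero]

end Groth.Agent.S8936
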