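import Groth.Statements.S8974
-- import your own Groth.Agent.* helpers here

set_option autoImplicit false
universe u
open Synt

namespace Groth.Agent.S8974

/-- Let R be a ring, n, d ≥ 1 and g_1, …, g_n ∈ R[y_1, …, y_n] of total degree at most d. Then there is
a ring map φ : A = ℤ[a_{i,E}] → R (E running over exponent vectors with |E| ≤ d) such that applying
φ to the coefficients of the universal polynomial f_i = Σ_E a_{i,E} x^E gives g_i for each i. (The
published statement is for a locally quasi-finite syntomic morphism of schemes and asserts, locally,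
a cartesian square with the universal family; this row is its affine core: the coefficient map.) -/
theorem result (R : Type u) [CommRing R] (n d : ℕ) (hn : 1 ≤ n) (hd : 1 ≤ d) (g : Fin n → MvPolynomial (Fin n) R) (hg : ∀ i, (g i).totalDegree ≤ d) : ∃ φ : Synt.UnivBase n d →+* R, ∀ i, MvPolynomial.map φ (Synt.univPoly n d i) = g i := by
  classical
  have hinj : ∀ E E' : Synt.UnivIdx n d, E.exponent = E'.exponent → E = E' := by
    intro E E' h
    apply Subtype.ext
    funext j
    apply Fin.ext
    have := congrArg (fun f : Fin n →₀ ℕ => f j) h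
    simpa [Synt.UnivIdx.exponent] using this
  refine ⟨MvPolynomial.eval₂Hom (Int.castRingHom R)
    (fun p => MvPolynomial.coeff p.2.exponent (g p.1)), fun i => ?_⟩
  ext m
  simp only [Synt.univPoly, map_sum, MvPolynomial.map_monomial, MvPolynomial.coeff_sum,
    MvPolynomial.coeff_monomial, MvPolynomial.coe_eval₂Hom, MvPolynomial.eval₂_X]
  by_cases hm : ∃ E : Synt.UnivIdx n d, E.exponent = m
  · obtain ⟨E₀, rfl⟩ := hm
    rw [Finset.sum_eq_single E₀]
    · simp
    · intro E _ hE
      rw [if_neg]
      intro h
      exact hE (hinj _ _ h)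
    · simp
  · rw [Finset.sum_eq_zero (fun E _ => if_neg (fun h => hm ⟨E, h⟩))]
    by_contra hc
    apply hm
    have hmem : m ∈ (g i).support := MvPolynomial.mem_support_iff.mpr (Ne.symm hc)
    have hdeg : (m.sum fun _ e => e) ≤ d := le_trans (MvPolynomial.le_totalDegree hmem) (hg i)
    rw [Finsupp.sum_fintype _ _ (fun _ => rfl)] at hdeg
    have hle : ∀ j, m j ≤ d := fun j =>
      le_trans (Finset.single_le_sum (fun _ _ => Nat.zero_le _) (Finset.mem_univ j)) hdeg
    refine ⟨⟨fun j => ⟨m j, Nat.lt_succ_of_le (hle j)⟩, by simpa using hdeg⟩, ?_⟩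
    ext j
    simp [Synt.UnivIdx.exponent]

end Groth.Agent.S8974
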