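import Groth.Statements.S9124
import Mathlib
-- import your own Groth.Agent.* helpers here

set_option autoImplicit false
universe u
open CAlg

namespace Groth.Agent.S9124

theorem catenary_of_orderEmbedding {R S : Type u} [CommRing R] [CommRing S]
    (f : PrimeSpectrum S ↪o PrimeSpectrum R) (hf : (Set.range f).OrdConnected)
    (hR : CAlg.IsCatenary R) : CAlg.IsCatenary S := by
  obtain ⟨h1, h2⟩ := hR
  constructor
  · intro p q hpq
    obtain ⟨n, hn⟩ := h1 (f p) (f q) (f.monotone hpq)
    refine ⟨n, fun s hs1 hs2 => ?_⟩
    have := hn (s.map f f.strictMono) (by simp [hs1]) (by simp [hs2])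
    simpa using this
  · intro s t hst1 hst2 hs ht
    have hcov : ∀ (w : LTSeries (PrimeSpectrum S)),
        (∀ i : Fin w.length, w (Fin.castSucc i) ⋖ w (Fin.succ i)) →
        ∀ i : Fin (w.map f f.strictMono).length,
          (w.map f f.strictMono) (Fin.castSucc i) ⋖ (w.map f f.strictMono) (Fin.succ i) := by
      intro w hw i
      exact (hw i).image f hf
    have := h2 (s.map f f.strictMono) (t.map f f.strictMono) (by simp [hst1]) (by simp [hst2])
      (hcov s hs) (hcov t ht)
    simpa using this


/-- A localization of a catenary ring is catenary. -/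
theorem result (A : Type u) [CommRing A] (S : Submonoid A)
    (B : Type u) [CommRing B] [Algebra A B] [IsLocalization S B]
    (hA : CAlg.IsCatenary A) : CAlg.IsCatenary B := by
  let f : PrimeSpectrum B ↪o PrimeSpectrum A :=
    OrderEmbedding.ofMapLEIff (PrimeSpectrum.comap (algebraMap A B)) (fun p q => by
      constructor
      · intro h
        show p.asIdeal ≤ q.asIdeal
        rw [← IsLocalization.map_under S B p.asIdeal, ← IsLocalization.map_under S B q.asIdeal]
        exact Ideal.map_mono h
      · intro h
        exact Ideal.comap_mono h)
  refine catenary_of_orderEmbedding f ?_ hA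
  have hr : Set.range f = { p | Disjoint (S : Set A) p.asIdeal } :=
    PrimeSpectrum.localization_comap_range B S
  rw [hr]
  apply IsLowerSet.ordConnected
  intro p q hqp hp
  exact Set.disjoint_of_subset_right hqp hp

end Groth.Agent.S9124
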