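import Groth.Statements.S9161
import Mathlib
-- import your own Groth.Agent.* helpers here

set_option autoImplicit false
universe u
open CAlg

namespace Groth.Agent.S9161

/-- If two two-term complexes of R-modules A₁ → A₀ and B₁ → B₀ are homotopy equivalent (maps of
complexes both ways whose composites are homotopic to the identity maps), then A₁ ⊕ B₀ and B₁ ⊕ A₀
are isomorphic R-modules. -/
theorem result (R : Type u) [CommRing R]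
    (A₁ A₀ B₁ B₀ : Type u) [AddCommGroup A₁] [Module R A₁] [AddCommGroup A₀] [Module R A₀]
    [AddCommGroup B₁] [Module R B₁] [AddCommGroup B₀] [Module R B₀]
    (dA : A₁ →ₗ[R] A₀) (dB : B₁ →ₗ[R] B₀) (φ₁ : A₁ →ₗ[R] B₁) (φ₀ : A₀ →ₗ[R] B₀)
    (ψ₁ : B₁ →ₗ[R] A₁) (ψ₀ : B₀ →ₗ[R] A₀) (hφ : dB ∘ₗ φ₁ = φ₀ ∘ₗ dA) (hψ : dA ∘ₗ ψ₁ = ψ₀ ∘ₗ dB)
    (h : A₀ →ₗ[R] A₁) (hh₁ : LinearMap.id - ψ₁ ∘ₗ φ₁ = h ∘ₗ dA) (hh₀ : LinearMap.id - ψ₀ ∘ₗ φ₀ = dA ∘ₗ h)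
    (h' : B₀ →ₗ[R] B₁) (hh'₁ : LinearMap.id - φ₁ ∘ₗ ψ₁ = h' ∘ₗ dB)
    (hh'₀ : LinearMap.id - φ₀ ∘ₗ ψ₀ = dB ∘ₗ h') :
    Nonempty ((A₁ × B₀) ≃ₗ[R] (B₁ × A₀)) := by
  have eφ : ∀ a, dB (φ₁ a) = φ₀ (dA a) := fun a => LinearMap.congr_fun hφ a
  have eψ : ∀ b, dA (ψ₁ b) = ψ₀ (dB b) := fun b => LinearMap.congr_fun hψ b
  have e1 : ∀ a, a - ψ₁ (φ₁ a) = h (dA a) := fun a => LinearMap.congr_fun hh₁ a
  have e0 : ∀ a, a - ψ₀ (φ₀ a) = dA (h a) := fun a => LinearMap.congr_fun hh₀ a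
  have e1' : ∀ b, b - φ₁ (ψ₁ b) = h' (dB b) := fun b => LinearMap.congr_fun hh'₁ b
  have e0' : ∀ b, b - φ₀ (ψ₀ b) = dB (h' b) := fun b => LinearMap.congr_fun hh'₀ b
  let F : (A₁ × B₀) →ₗ[R] (B₁ × A₀) :=
    (φ₁ ∘ₗ LinearMap.fst R A₁ B₀ + h' ∘ₗ LinearMap.snd R A₁ B₀).prod
      (-(dA ∘ₗ LinearMap.fst R A₁ B₀) + ψ₀ ∘ₗ LinearMap.snd R A₁ B₀)
  have hF : ∀ x : A₁ × B₀, F x = (φ₁ x.1 + h' x.2, -dA x.1 + ψ₀ x.2) := fun x => rfl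
  let G : B₁ × A₀ → A₁ × B₀ := fun y => (-h y.2 + ψ₁ y.1, φ₀ y.2 + dB y.1)
  have hGF : ∀ x : A₁ × B₀, G (F x) = (x.1 + (ψ₁ (h' x.2) - h (ψ₀ x.2)), x.2) := by
    intro x
    rw [hF]
    simp only [G, map_add, map_neg, Prod.mk.injEq]
    constructor
    · rw [← e1 x.1]; abel
    · rw [eφ x.1, ← e0' x.2]; abel
  have hFG : ∀ y : B₁ × A₀, F (G y) = (y.1 + (h' (φ₀ y.2) - φ₁ (h y.2)), y.2) := by
    intro y
    rw [hF]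
    simp only [G, map_add, map_neg, Prod.mk.injEq]
    constructor
    · rw [← e1' y.1]; abel
    · rw [eψ y.1, ← e0 y.2]; abel
  have hinj : Function.Injective F := by
    intro x y hxy
    have h1 := congrArg G hxy
    rw [hGF, hGF, Prod.mk.injEq] at h1
    obtain ⟨h1a, h1b⟩ := h1
    rw [h1b] at h1a
    exact Prod.ext (add_right_cancel h1a) h1b
  have hsurj : Function.Surjective F := by
    intro z
    refine ⟨G (z.1 - (h' (φ₀ z.2) - φ₁ (h z.2)), z.2), ?_⟩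
    rw [hFG]
    simp only [sub_add_cancel]
  exact ⟨LinearEquiv.ofBijective F ⟨hinj, hsurj⟩⟩

end Groth.Agent.S9161
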