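import Groth.Statements.S9163
import Mathlib
-- import your own Groth.Agent.* helpers here

set_option autoImplicit false
universe u
open CAlg

namespace Groth.Agent.S9163

/-- If S is integral over R, then any finitely many elements of R and of S lie in a pair R₀ ⊆ R, S₀ ⊆ S
with R₀ a finite type ℤ-subalgebra, S₀ an R₀-subalgebra of S, and S₀ finite as an R₀-module; so R →
S is the directed colimit of finite maps between finite type ℤ-algebras. -/
theorem result (R S : Type u) [CommRing R] [CommRing S] [Algebra R S]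
    [Algebra.IsIntegral R S] (E : Finset R) (F : Finset S) :
    ∃ (R₀ : Subalgebra ℤ R) (S₀ : Subalgebra R₀ S), Algebra.FiniteType ℤ R₀ ∧ (E : Set R) ⊆ R₀ ∧
      (F : Set S) ⊆ S₀ ∧ Module.Finite R₀ S₀ := by
  classical
  have hint : ∀ s : S, ∃ p : Polynomial R, p.Monic ∧ Polynomial.eval₂ (algebraMap R S) s p = 0 :=
    fun s => Algebra.IsIntegral.isIntegral (R := R) s
  choose p hpm hp0 using hint
  let T : Finset R := E ∪ F.biUnion (fun s => (p s).coeffs)
  let R₀ : Subalgebra ℤ R := Algebra.adjoin ℤ (T : Set R)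
  have hT : (T : Set R) ⊆ R₀ := Algebra.subset_adjoin
  have hcoef : ∀ s ∈ F, ((p s).coeffs : Set R) ⊆ R₀.toSubring := by
    intro s hs c hc
    apply hT
    simp only [T, Finset.coe_union, Finset.coe_biUnion, Set.mem_union, Set.mem_iUnion]
    right; exact ⟨s, hs, hc⟩
  have hintF : ∀ s ∈ (F : Set S), IsIntegral R₀ s := by
    intro s hs
    refine ⟨(p s).toSubring R₀.toSubring (hcoef s hs), ((p s).monic_toSubring _ _).mpr (hpm s), ?_⟩
    rw [IsScalarTower.algebraMap_eq R₀ R S, ← Polynomial.eval₂_map]
    convert! hp0 s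
    apply (p s).map_toSubring R₀.toSubring
  refine ⟨R₀, Algebra.adjoin R₀ (F : Set S), ?_, fun e he => hT (by simp [T, he]),
    Algebra.subset_adjoin, ?_⟩
  · exact (Subalgebra.fg_iff_finiteType R₀).mp ⟨T, rfl⟩
  · exact Algebra.finite_adjoin_of_finite_of_isIntegral F.finite_toSet hintF

end Groth.Agent.S9163
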