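import Groth.Statements.S9283
import Mathlib
-- import your own Groth.Agent.* helpers here

set_option autoImplicit false
universe u
open CAlg

namespace Groth.Agent.S9283

/-- Let R be an auto-associated ring, that is, a local ring whose maximal ideal is weakly associated to
R: some nonzero x ∈ R is killed by a power of every element of the maximal ideal. Then every proper
finitely generated ideal of R has a nonzero annihilator. -/
theorem result (R : Type u) [CommRing R] [IsLocalRing R]
    (h : ∃ x : R, x ≠ 0 ∧ ∀ f ∈ IsLocalRing.maximalIdeal R, ∃ n : ℕ, f ^ n * x = 0)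
    (I : Ideal R) (hI : I.FG) (hI' : I ≠ ⊤) : I.annihilator ≠ ⊥ := by
  classical
  obtain ⟨x, hx0, hx⟩ := h
  obtain ⟨s, rfl⟩ := hI
  have hsm : ∀ f ∈ s, f ∈ IsLocalRing.maximalIdeal R := fun f hf =>
    IsLocalRing.le_maximalIdeal hI' (Ideal.subset_span hf)
  have key : ∀ t : Finset R, (∀ f ∈ t, f ∈ IsLocalRing.maximalIdeal R) →
      ∃ y : R, y ≠ 0 ∧ (∃ c, y = c * x) ∧ ∀ f ∈ t, f * y = 0 := by
    intro t
    induction t using Finset.induction_on with
    | empty => intro _; exact ⟨x, hx0, ⟨1, (one_mul x).symm⟩, by simp⟩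
    | insert a t hat ih =>
      intro ht
      obtain ⟨y, hy0, ⟨c, rfl⟩, hy⟩ := ih (fun f hf => ht f (Finset.mem_insert_of_mem hf))
      obtain ⟨n, hn⟩ := hx a (ht a (Finset.mem_insert_self a t))
      have H : ∃ k, a ^ k * (c * x) = 0 := ⟨n, by rw [mul_left_comm, hn, mul_zero]⟩
      have hk : a ^ (Nat.find H) * (c * x) = 0 := Nat.find_spec H
      have hk0 : Nat.find H ≠ 0 := by
        intro h0
        rw [h0, pow_zero, one_mul] at hk
        exact hy0 hk
      refine ⟨a ^ (Nat.find H - 1) * (c * x), Nat.find_min H (Nat.sub_one_lt hk0),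
        ⟨a ^ (Nat.find H - 1) * c, by ring⟩, ?_⟩
      intro f hf
      rcases Finset.mem_insert.mp hf with rfl | hf
      · rw [← mul_assoc, ← pow_succ', Nat.sub_add_cancel (Nat.one_le_iff_ne_zero.mpr hk0)]
        exact hk
      · rw [mul_left_comm, hy f hf, mul_zero]
  obtain ⟨y, hy0, -, hy⟩ := key s hsm
  intro hann
  apply hy0
  have hmem : y ∈ (Ideal.span (s : Set R)).annihilator := by
    rw [Submodule.mem_annihilator_span]
    rintro ⟨n, hn⟩
    simp only [smul_eq_mul]
    rw [mul_comm]
    exact hy n hn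
  rw [hann] at hmem
  exact hmem

end Groth.Agent.S9283
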