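import Groth.Statements.S9285
-- import your own Groth.Agent.* helpers here

set_option autoImplicit false
universe u
open CAlg

namespace Groth.Agent.S9285

/-- A ring R has the property that every proper finitely generated ideal has a nonzero annihilator if
and only if every injective linear map R → R^n admits a retraction. -/
theorem result (R : Type u) [CommRing R] :
    (∀ I : Ideal R, I.FG → I ≠ ⊤ → I.annihilator ≠ ⊥) ↔
      ∀ (n : ℕ) (u : R →ₗ[R] (Fin n → R)), Function.Injective u →
        ∃ v : (Fin n → R) →ₗ[R] R, v.comp u = LinearMap.id := by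
  constructor
  · intro h n u hu
    set a : Fin n → R := u 1 with ha
    have hur : ∀ r : R, u r = r • a := by
      intro r
      rw [ha, ← map_smul, smul_eq_mul, mul_one]
    have hI : Ideal.span (Set.range a) = ⊤ := by
      by_contra hne
      apply h _ (Submodule.fg_iff_exists_fin_generating_family.2 ⟨n, a, rfl⟩) hne
      rw [Submodule.eq_bot_iff]
      intro r hr
      change r ∈ (Submodule.span R (Set.range a)).annihilator at hr
      rw [Submodule.mem_annihilator_span] at hr
      apply hu
      rw [map_zero, hur]
      funext i
      have := hr ⟨a i, ⟨i, rfl⟩⟩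
      simpa using this
    have h1 : (1 : R) ∈ Ideal.span (Set.range a) := by rw [hI]; exact Submodule.mem_top
    obtain ⟨c, hc⟩ := (Ideal.mem_span_range_iff_exists_fun).1 h1
    refine ⟨∑ i, c i • LinearMap.proj i, ?_⟩
    apply LinearMap.ext
    intro r
    rw [LinearMap.comp_apply, hur, LinearMap.id_apply]
    simp only [LinearMap.sum_apply, LinearMap.smul_apply, LinearMap.proj_apply,
      Pi.smul_apply, smul_eq_mul]
    calc ∑ i, c i * (r * a i) = r * ∑ i, c i * a i := by
          rw [Finset.mul_sum]; apply Finset.sum_congr rfl; intro i _; ring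
      _ = r := by rw [hc, mul_one]
  · intro h I hfg hne hann
    obtain ⟨n, a, ha⟩ := Submodule.fg_iff_exists_fin_generating_family.1 hfg
    let u : R →ₗ[R] (Fin n → R) := LinearMap.toSpanSingleton R (Fin n → R) a
    have hu : Function.Injective u := by
      rw [← LinearMap.ker_eq_bot, Submodule.eq_bot_iff]
      intro r hr
      have hr' : r ∈ I.annihilator := by
        rw [← ha, Submodule.mem_annihilator_span]
        rintro ⟨_, ⟨i, rfl⟩⟩
        have hr0 : u r = 0 := hr
        have := congrFun hr0 i
        simpa [u] using this
      rw [hann] at hr'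
      exact (Submodule.mem_bot R).1 hr'
    obtain ⟨v, hv⟩ := h n u hu
    apply hne
    rw [Ideal.eq_top_iff_one, ← ha]
    have h1 : v a = 1 := by
      have := LinearMap.congr_fun hv 1
      simpa [u] using this
    rw [← h1]
    have hsum : a = ∑ i, a i • Pi.single i (1 : R) := by
      funext j
      simp [Finset.sum_apply, Pi.single_apply]
    have hva : v a = ∑ i, a i * v (Pi.single i (1 : R)) := by
      conv_lhs => rw [hsum]
      simp [map_sum, map_smul]
    rw [hva]
    apply Submodule.sum_mem
    intro i _
    exact Ideal.mul_mem_right _ _ (Submodule.subset_span ⟨i, rfl⟩)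

end Groth.Agent.S9285
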