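import Groth.Statements.S9300
import Mathlib
-- import your own Groth.Agent.* helpers here

set_option autoImplicit false
universe u
open CAlg

namespace Groth.Agent.S9300

/-- Let A and B be domains and A → B a ring map for which the generic point of Spec(A) has a unique
preimage in Spec(B). Then every nonzero ideal of B has nonzero preimage in A. -/
theorem result (A B : Type u) [CommRing A] [IsDomain A]
    [CommRing B] [IsDomain B] (φ : A →+* B)
    (h : ∃! q : PrimeSpectrum B, Ideal.comap φ q.asIdeal = ⊥) (J : Ideal B) (hJ : J ≠ ⊥) :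
    Ideal.comap φ J ≠ ⊥ := by
  intro hJc
  obtain ⟨q0, hq0, huniq⟩ := h
  have hinj : Function.Injective φ := by
    rw [injective_iff_map_eq_zero]
    intro a ha
    have : a ∈ Ideal.comap φ q0.asIdeal := by
      rw [Ideal.mem_comap, ha]; exact q0.asIdeal.zero_mem
    rw [hq0] at this; exact this
  let S : Submonoid B := (nonZeroDivisors A).map φ
  have hdisj : Disjoint (J : Set B) (S : Set B) := by
    rw [Set.disjoint_left]
    rintro b hb ⟨a, ha, rfl⟩
    have : a ∈ Ideal.comap φ J := hb
    rw [hJc] at this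
    exact nonZeroDivisors.ne_zero ha this
  obtain ⟨P, hP, hJP, hPS⟩ := Ideal.exists_le_prime_disjoint J S hdisj
  have hPc : Ideal.comap φ P = ⊥ := by
    rw [eq_bot_iff]
    intro a ha
    by_contra ha0
    have h1 : φ a ∈ (S : Set B) := ⟨a, mem_nonZeroDivisors_of_ne_zero ha0, rfl⟩
    exact Set.disjoint_left.mp hPS ha h1
  have hbot : Ideal.comap φ (⊥ : Ideal B) = ⊥ := by
    ext a
    simp only [Ideal.mem_comap, Ideal.mem_bot]
    exact map_eq_zero_iff φ hinj
  have e1 := huniq ⟨P, hP⟩ hPc
  have e2 := huniq ⟨⊥, Ideal.bot_prime⟩ hbot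
  have hPbot : P = ⊥ := congrArg PrimeSpectrum.asIdeal (e1.trans e2.symm)
  apply hJ
  rw [eq_bot_iff, ← hPbot]
  exact hJP

end Groth.Agent.S9300
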