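import Groth.Statements.S9344
import Mathlib.AlgebraicGeometry.PullbackCarrier
-- import your own Groth.Agent.* helpers here

set_option autoImplicit false
universe u
open Dom

namespace Groth.Agent.S9344

open AlgebraicGeometry CategoryTheory in
/-- The base change of a dominant morphism f : X → S along an open morphism g : S' → S is dominant. -/
theorem result {X S X' S' : Scheme.{u}} (f : X ⟶ S) [IsDominant f]
    (g : S' ⟶ S) (g' : X' ⟶ X) (f' : X' ⟶ S') (hsq : IsPullback g' f' f g) (hg : IsOpenMap g.base) :
    IsDominant f' := by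
  have hrange : Set.range f' = g ⁻¹' Set.range f := by
    rw [← AlgebraicGeometry.Scheme.Pullback.range_snd f g]
    have e : hsq.isoPullback.hom ≫ Limits.pullback.snd f g = f' := hsq.isoPullback_hom_snd
    rw [← e, Scheme.Hom.comp_base, TopCat.coe_comp, Set.range_comp,
      (ConcreteCategory.bijective_of_isIso hsq.isoPullback.hom.base).2.range_eq, Set.image_univ]
  constructor
  rw [DenseRange, hrange]
  have hd : Dense (Set.range f) := f.denseRange
  rw [dense_iff_inter_open] at hd ⊢
  intro W hW hne
  obtain ⟨_, ⟨hx, x, rfl⟩⟩ := hd _ (hg _ hW) (hne.image _)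
  obtain ⟨w, hwW, hw⟩ := hx
  exact ⟨w, hwW, x, hw.symm⟩

end Groth.Agent.S9344
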