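import Groth.Statements.S9348
import Mathlib.AlgebraicGeometry.PullbackCarrier
-- import your own Groth.Agent.* helpers here

set_option autoImplicit false
universe u
open Dom

namespace Groth.Agent.S9348

open AlgebraicGeometry CategoryTheory in
/-- Let f : X → Y be a morphism and g : Y' → Y open and surjective. If the base change f' : X ×_Y Y' →
Y' of f is quasi-compact, then so is f. -/
theorem result {X Y X' Y' : Scheme.{u}} (f : X ⟶ Y) (g : Y' ⟶ Y) [Surjective g]
    (hg : IsOpenMap g.base) (g' : X' ⟶ X) (f' : X' ⟶ Y') (hsq : IsPullback g' f' f g) [QuasiCompact f'] :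
    QuasiCompact f := by
  classical
  constructor
  intro U hU hUc
  let ι := {V : Y'.Opens // IsCompact (V : Set Y') ∧ (V : Set Y') ⊆ g ⁻¹' U}
  have hcov : U ⊆ ⋃ i : ι, g '' (i.1 : Set Y') := by
    intro y hy
    obtain ⟨y', rfl⟩ := (inferInstance : Surjective g).surj y
    have hy' : y' ∈ (⟨g ⁻¹' U, g.continuous.isOpen_preimage _ hU⟩ : Y'.Opens) := hy
    obtain ⟨V, hV, hyV, hVU⟩ := (TopologicalSpace.Opens.isBasis_iff_nbhd.mp Y'.isBasis_affineOpens) hy'
    exact Set.mem_iUnion.mpr ⟨⟨V, (show IsAffineOpen V from hV).isCompact, hVU⟩, y', hyV, rfl⟩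
  obtain ⟨t, ht⟩ := hUc.elim_finite_subcover (fun i : ι => g '' (i.1 : Set Y'))
    (fun i => hg _ i.1.2) hcov
  let K : Set Y' := ⋃ i ∈ t, (i.1 : Set Y')
  have hKc : IsCompact K := t.isCompact_biUnion (fun i _ => i.2.1)
  have hKo : IsOpen K := isOpen_biUnion (fun i _ => i.1.2)
  have hKU : K ⊆ g ⁻¹' U := Set.iUnion₂_subset (fun i _ => i.2.2)
  have hw : ∀ z, f (g' z) = g (f' z) := fun z => by
    rw [← Scheme.Hom.comp_apply, ← Scheme.Hom.comp_apply, hsq.w]
  have e : f ⁻¹' U = g' '' (f' ⁻¹' K) := by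
    ext x
    constructor
    · intro hx
      have := ht hx
      simp only [Set.mem_iUnion, Set.mem_image] at this
      obtain ⟨i, hi, y', hy'V, hy'⟩ := this
      obtain ⟨w, hw1, hw2⟩ := Scheme.Pullback.exists_preimage_pullback x y' hy'.symm
      refine ⟨hsq.isoPullback.inv w, ?_, ?_⟩
      · show f' (hsq.isoPullback.inv w) ∈ K
        rw [← Scheme.Hom.comp_apply, hsq.isoPullback_inv_snd, hw2]
        exact Set.mem_biUnion hi hy'V
      · rw [← Scheme.Hom.comp_apply, hsq.isoPullback_inv_fst, hw1]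
    · rintro ⟨z, hz, rfl⟩
      show f (g' z) ∈ U
      rw [hw]; exact hKU hz
  rw [e]
  exact (QuasiCompact.isCompact_preimage (f := f') K hKo hKc).image g'.continuous

end Groth.Agent.S9348
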