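import Groth.Statements.S9402
import Mathlib
-- import your own Groth.Agent.* helpers here

set_option autoImplicit false
universe u
open CAlg

namespace Groth.Agent.S9402

/-- Let R → S be a ring map with S a nonzero algebra over the rationals and f ∈ S such that some
S-linear form on the module of differentials of S over R sends df to 1 (that is, df spans a free
direct summand of rank one). Then f is not nilpotent. (The published statement asks only that S·df
be a direct summand of the module of differentials, which also holds for the rationals with a
square-zero element adjoined and for the zero ring, where f is nilpotent; this row asks for an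
S-linear form on the differentials sending df to 1, as the published proof uses, and S nonzero.) -/
theorem result (R : Type u) [CommRing R] (S : Type u)
    [CommRing S] [Nontrivial S] [Algebra R S] [Algebra ℚ S] (f : S)
    (θ : Ω[S⁄R] →ₗ[S] S) (hθ : θ (KaehlerDifferential.D R S f) = 1) : ¬ IsNilpotent f := by
  rintro ⟨n, hn⟩
  classical
  have H : ∃ n, f ^ n = 0 := ⟨n, hn⟩
  have hfm : f ^ (Nat.find H) = 0 := Nat.find_spec H
  have hm0 : Nat.find H ≠ 0 := by
    intro h0
    rw [h0, pow_zero] at hfm
    exact one_ne_zero hfm
  let D : Derivation R S S := θ.compDer (KaehlerDifferential.D R S)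
  have hD : D f = 1 := hθ
  have h1 : D (f ^ (Nat.find H)) = ((Nat.find H : ℕ) : S) * f ^ (Nat.find H - 1) := by
    rw [Derivation.leibniz_pow, hD, smul_eq_mul, mul_one, nsmul_eq_mul]
  rw [hfm, map_zero] at h1
  have hunit : IsUnit ((Nat.find H : ℕ) : S) := by
    have : ((Nat.find H : ℕ) : S) = algebraMap ℚ S (Nat.find H : ℚ) := by simp
    rw [this]
    exact (IsUnit.mk0 ((Nat.find H : ℕ) : ℚ) (by exact_mod_cast hm0)).map _
  have : f ^ (Nat.find H - 1) = 0 := (IsUnit.mul_right_eq_zero hunit).mp h1.symm
  exact Nat.find_min H (Nat.sub_one_lt hm0) this

end Groth.Agent.S9402
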