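import Groth.Statements.S9495
import Mathlib
-- import your own Groth.Agent.* helpers here

set_option autoImplicit false
universe u
open SchMor

namespace Groth.Agent.S9495

open AlgebraicGeometry in
open CategoryTheory in
/-- For a quasi-compact morphism of schemes f : X → S, the image f(X) is closed in S if and only if it
is stable under specialization. -/
theorem result
    {X S : Scheme.{u}} (f : X ⟶ S) [QuasiCompact f] :
    IsClosed (Set.range f) ↔ StableUnderSpecialization (Set.range f) := by
  classical
  refine ⟨fun h => h.stableUnderSpecialization, fun H => ?_⟩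
  -- closedness on each affine open
  have hloc : ∀ V : S.affineOpens, IsClosed ((V.2 : IsAffineOpen (V : S.Opens)).fromSpec ⁻¹' Set.range f) := by
    intro V
    have hV : IsAffineOpen (V : S.Opens) := V.2
    have hW : IsCompact ((f ⁻¹ᵁ (V : S.Opens) : X.Opens) : Set X) :=
      QuasiCompact.isCompact_preimage _ (V : S.Opens).isOpen hV.isCompact
    obtain ⟨R, g, hg⟩ := (isCompact_iff_exists (U := f ⁻¹ᵁ (V : S.Opens))).mp hW
    have hsub : Set.range (g ≫ f) ⊆ Set.range hV.fromSpec := by
      rw [hV.range_fromSpec]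
      rintro _ ⟨z, rfl⟩
      have : g z ∈ Set.range g := ⟨z, rfl⟩
      rw [hg] at this
      exact this
    let h := IsOpenImmersion.lift hV.fromSpec (g ≫ f) hsub
    have hh : h ≫ hV.fromSpec = g ≫ f := IsOpenImmersion.lift_fac _ _ _
    have hrange : hV.fromSpec ⁻¹' Set.range f = Set.range h := by
      ext p
      simp only [Set.mem_preimage, Set.mem_range]
      constructor
      · rintro ⟨x, hx⟩
        have hxW : x ∈ Set.range g := by
          rw [hg]
          show f x ∈ (V : Set S)
          rw [hx, ← hV.range_fromSpec]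
          exact ⟨p, rfl⟩
        obtain ⟨z, rfl⟩ := hxW
        refine ⟨z, hV.fromSpec.isOpenEmbedding.injective ?_⟩
        rw [← Scheme.Hom.comp_apply, hh, Scheme.Hom.comp_apply, hx]
      · rintro ⟨z, rfl⟩
        exact ⟨g z, by rw [← Scheme.Hom.comp_apply, ← hh, Scheme.Hom.comp_apply]⟩
    rw [hrange]
    obtain ⟨φ, hφ⟩ := Spec.homEquiv.symm.surjective h
    have hst : StableUnderSpecialization (Set.range h) := by
      rw [← hrange]; exact H.preimage hV.fromSpec.continuous
    rw [← hφ] at hst ⊢
    have := PrimeSpectrum.isClosed_image_of_stableUnderSpecialization φ.hom Set.univ isClosed_univ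
      (by rw [Set.image_univ]; exact hst)
    rw [Set.image_univ] at this
    exact this
  -- glue
  rw [← isOpen_compl_iff, isOpen_iff_forall_mem_open]
  intro x hx
  have hxV : x ∈ (⨆ i : S.affineOpens, (i : S.Opens) : S.Opens) := by
    rw [iSup_affineOpens_eq_top]; trivial
  obtain ⟨V, hxV⟩ := TopologicalSpace.Opens.mem_iSup.mp hxV
  have hV : IsAffineOpen (V : S.Opens) := V.2
  refine ⟨hV.fromSpec '' (hV.fromSpec ⁻¹' Set.range f)ᶜ, ?_, ?_, ?_⟩
  · rintro _ ⟨p, hp, rfl⟩
    exact hp
  · exact hV.fromSpec.isOpenEmbedding.isOpenMap _ (hloc V).isOpen_compl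
  · have hxV' : x ∈ Set.range hV.fromSpec := by rw [hV.range_fromSpec]; exact hxV
    obtain ⟨p, rfl⟩ := hxV'
    exact ⟨p, hx, rfl⟩

end Groth.Agent.S9495
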