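import Groth.Statements.S9581
import Mathlib
-- import your own Groth.Agent.* helpers here

set_option autoImplicit false
universe u
open CAlg

namespace Groth.Agent.S9581

theorem mk_eq_zero_iff' {R : Type u} [CommRing R] {S : Submonoid R} {M : Type u} [AddCommGroup M]
    [Module R M] (m : M) (s : S) : LocalizedModule.mk m s = 0 ↔ ∃ u : S, u • m = 0 := by
  rw [← LocalizedModule.zero_mk s, LocalizedModule.mk_eq]
  simp only [smul_zero]
  constructor
  · rintro ⟨u, hu⟩
    exact ⟨u * s, by rw [mul_smul]; exact hu⟩
  · rintro ⟨u, hu⟩
    exact ⟨u, by rw [smul_comm, hu, smul_zero]⟩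

theorem ann_loc_eq {R : Type u} [CommRing R] (S : Submonoid R) {M : Type u} [AddCommGroup M]
    [Module R M] (m : M) (s : S) :
    (Submodule.span R {LocalizedModule.mk m s}).annihilator =
      (Submodule.span R {LocalizedModule.mk m (1 : S)}).annihilator := by
  ext r
  rw [Submodule.mem_annihilator_span_singleton, Submodule.mem_annihilator_span_singleton,
    LocalizedModule.smul'_mk, LocalizedModule.smul'_mk, mk_eq_zero_iff', mk_eq_zero_iff']

theorem minimalPrimes_ann_iff {R : Type u} [CommRing R] (S : Submonoid R) {M : Type u}
    [AddCommGroup M] [Module R M] (m : M) (p : Ideal R) (hS : Disjoint (S : Set R) (p : Set R)) :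
    p ∈ (Submodule.span R {m}).annihilator.minimalPrimes ↔
      p ∈ (Submodule.span R {LocalizedModule.mk m (1 : S)}).annihilator.minimalPrimes := by
  have hle : (Submodule.span R {m}).annihilator ≤
      (Submodule.span R {LocalizedModule.mk m (1 : S)}).annihilator := by
    intro r hr
    rw [Submodule.mem_annihilator_span_singleton] at hr ⊢
    rw [LocalizedModule.smul'_mk, hr, LocalizedModule.zero_mk]
  have key : ∀ q : Ideal R, q.IsPrime → Disjoint (S : Set R) (q : Set R) →
      ((Submodule.span R {m}).annihilator ≤ q ↔
        (Submodule.span R {LocalizedModule.mk m (1 : S)}).annihilator ≤ q) := by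
    intro q hq hqS
    refine ⟨fun h r hr => ?_, fun h => hle.trans h⟩
    rw [Submodule.mem_annihilator_span_singleton, LocalizedModule.smul'_mk,
      mk_eq_zero_iff'] at hr
    obtain ⟨t, ht⟩ := hr
    have htr : (t : R) * r ∈ (Submodule.span R {m}).annihilator := by
      rw [Submodule.mem_annihilator_span_singleton, mul_smul]; exact ht
    rcases hq.mem_or_mem (h htr) with h1 | h1
    · exact absurd h1 (Set.disjoint_left.mp hqS t.2)
    · exact h1
  constructor
  · rintro ⟨⟨hp, hJp⟩, hmin⟩
    refine ⟨⟨hp, (key p hp hS).mp hJp⟩, ?_⟩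
    rintro q ⟨hq, hJq⟩ hqp
    exact hmin ⟨hq, (key q hq (Set.disjoint_of_subset_right hqp hS)).mpr hJq⟩ hqp
  · rintro ⟨⟨hp, hJp⟩, hmin⟩
    refine ⟨⟨hp, (key p hp hS).mpr hJp⟩, ?_⟩
    rintro q ⟨hq, hJq⟩ hqp
    exact hmin ⟨hq, (key q hq (Set.disjoint_of_subset_right hqp hS)).mp hJq⟩ hqp

theorem ann_comap_eq {R : Type u} [CommRing R] (S : Submonoid R) {M : Type u} [AddCommGroup M]
    [Module R M] (x : LocalizedModule S M) :
    (Submodule.span R {x}).annihilator =
      ((Submodule.span (Localization S) {x}).annihilator).comap (algebraMap R (Localization S)) := by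
  ext r
  rw [Ideal.mem_comap, Submodule.mem_annihilator_span_singleton,
    Submodule.mem_annihilator_span_singleton, algebraMap_smul]


/-- (1) ⇔ (3): for a ring R, an R-module M and a prime p of R, the prime p is weakly associated to M
(minimal among the primes containing the annihilator of some element of M) if and only if the
localization M_p contains an element whose annihilator in R_p has radical equal to the maximal ideal
p R_p. -/
theorem result {R : Type u} [CommRing R] (M : Type u) [AddCommGroup M] [Module R M] (p : Ideal R) [p.IsPrime] :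
    p ∈ FlatCA.weakAss R M ↔ IsAssociatedPrime (IsLocalRing.maximalIdeal (Localization.AtPrime p)) (LocalizedModule p.primeCompl M) := by
  have hS : Disjoint (p.primeCompl : Set R) (p : Set R) := by
    rw [Set.disjoint_left]; intro a ha hap; exact ha hap
  have hcm : Ideal.comap (algebraMap R (Localization.AtPrime p))
      (IsLocalRing.maximalIdeal (Localization.AtPrime p)) = p := by
    have := Localization.AtPrime.under_maximalIdeal (I := p)
    rw [Ideal.under_def] at this
    exact this
  have hloc : ∀ J : Ideal (Localization.AtPrime p),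
      IsLocalRing.maximalIdeal _ ∈ J.minimalPrimes ↔ IsLocalRing.maximalIdeal _ = J.radical := by
    intro J
    constructor
    · intro hJ
      apply le_antisymm
      · rw [Ideal.radical_eq_sInf]
        apply le_sInf
        rintro q ⟨hJq, hq⟩
        exact hJ.2 ⟨hq, hJq⟩ (IsLocalRing.le_maximalIdeal hq.ne_top)
      · rw [(IsLocalRing.maximalIdeal.isMaximal _).isPrime.radical_le_iff]
        exact hJ.1.2
    · intro hJ
      refine ⟨⟨(IsLocalRing.maximalIdeal.isMaximal _).isPrime, hJ ▸ Ideal.le_radical⟩, ?_⟩
      rintro q ⟨hq, hJq⟩ -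
      rw [hJ]
      exact (hq.radical_le_iff).mpr hJq
  have hcolon : ∀ x : LocalizedModule p.primeCompl M,
      (⊥ : Submodule (Localization.AtPrime p) (LocalizedModule p.primeCompl M)).colon {x} =
        (Submodule.span (Localization.AtPrime p) {x}).annihilator := by
    intro x; ext r
    rw [Submodule.mem_colon_singleton, Submodule.mem_bot, Submodule.mem_annihilator_span_singleton]
  -- translate membership of p vs maximal ideal
  have htrans : ∀ x : LocalizedModule p.primeCompl M,
      p ∈ (Submodule.span R {x}).annihilator.minimalPrimes ↔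
        IsLocalRing.maximalIdeal _ ∈ (Submodule.span (Localization.AtPrime p) {x}).annihilator.minimalPrimes := by
    intro x
    rw [ann_comap_eq p.primeCompl x, IsLocalization.minimalPrimes_comap p.primeCompl (Localization.AtPrime p)]
    constructor
    · rintro ⟨Q, hQ, hQp⟩
      have h1 := IsLocalization.map_under p.primeCompl (Localization.AtPrime p) Q
      have h2 := IsLocalization.map_under p.primeCompl (Localization.AtPrime p)
        (IsLocalRing.maximalIdeal (Localization.AtPrime p))
      rw [Ideal.under_def] at h1 h2
      rw [hQp] at h1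
      rw [hcm] at h2
      rw [← h2, h1]
      exact hQ
    · intro h
      exact ⟨_, h, hcm⟩
  constructor
  · rintro ⟨m, hm⟩
    refine ⟨(IsLocalRing.maximalIdeal.isMaximal _).isPrime, LocalizedModule.mk m 1, ?_⟩
    rw [hcolon, ← hloc, ← htrans, ← minimalPrimes_ann_iff p.primeCompl m p hS]
    exact hm
  · rintro ⟨-, x, hx⟩
    rw [hcolon, ← hloc] at hx
    induction x using LocalizedModule.induction_on with
    | h m s =>
      refine ⟨m, ?_⟩
      rw [minimalPrimes_ann_iff p.primeCompl m p hS, ← ann_loc_eq p.primeCompl m s, htrans]
      exact hx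

end Groth.Agent.S9581
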