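import Groth.Statements.S9582
import Mathlib
-- import your own Groth.Agent.* helpers here

set_option autoImplicit false
universe u
open CAlg

namespace Groth.Agent.S9582

/-- For a reduced ring R, the primes weakly associated to the R-module R (primes minimal over the
annihilator of some element) are exactly the minimal primes of R. -/
theorem result {R : Type u} [CommRing R] [IsReduced R] :
    FlatCA.weakAss R R = minimalPrimes R := by
  ext p
  constructor
  · rintro ⟨m, hp⟩
    have hpp : p.IsPrime := hp.1.1
    have hmp : m ∉ p := by
      intro hm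
      obtain ⟨y, hy, hmy⟩ := Ideal.exists_mul_mem_of_mem_minimalPrimes hp hm
      rw [Submodule.mem_annihilator_span_singleton, smul_eq_mul] at hy hmy
      apply hy
      have h2 : (y * m) ^ 2 = 0 := by
        have : (y * m) ^ 2 = y * (m * y * m) := by ring
        rw [this, hmy, mul_zero]
      exact IsReduced.eq_zero _ ⟨2, h2⟩
    refine ⟨⟨hpp, bot_le⟩, ?_⟩
    rintro q ⟨hq, -⟩ hqp
    apply hp.2 ⟨hq, ?_⟩ hqp
    intro a ha
    rw [Submodule.mem_annihilator_span_singleton, smul_eq_mul] at ha
    have : a * m ∈ q := ha ▸ q.zero_mem
    exact (hq.mem_or_mem this).resolve_right (fun h => hmp (hqp h))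
  · intro hp
    refine ⟨1, ?_⟩
    have : (Submodule.span R {(1 : R)}).annihilator = ⊥ := by
      ext a
      rw [Submodule.mem_annihilator_span_singleton, smul_eq_mul, mul_one, Submodule.mem_bot]
    rw [this]
    exact hp

end Groth.Agent.S9582
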