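import Groth.Statements.S9584
import Mathlib
-- import your own Groth.Agent.* helpers here

set_option autoImplicit false
universe u
open CAlg

namespace Groth.Agent.S9584

/-- For a ring R and an R-module M, M has no weakly associated prime (no prime minimal over the
annihilator of an element) if and only if M = 0. -/
theorem result {R : Type u} [CommRing R] (M : Type u) [AddCommGroup M] [Module R M] :
    FlatCA.weakAss R M = ∅ ↔ Subsingleton M := by
  constructor
  · intro h
    by_contra hM
    rw [not_subsingleton_iff_nontrivial] at hM
    obtain ⟨m, hm⟩ := exists_ne (0 : M)
    have hne : (Submodule.span R {m}).annihilator ≠ ⊤ := by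
      intro htop
      apply hm
      have : (1 : R) ∈ (Submodule.span R {m}).annihilator := htop ▸ Submodule.mem_top
      rw [Submodule.mem_annihilator_span_singleton] at this
      simpa using this
    obtain ⟨p, hp⟩ := Ideal.nonempty_minimalPrimes hne
    have : p ∈ FlatCA.weakAss R M := ⟨m, hp⟩
    rw [h] at this
    exact this
  · intro h
    refine Set.eq_empty_iff_forall_notMem.mpr ?_
    rintro p ⟨m, hm⟩
    have htop : (Submodule.span R {m}).annihilator = ⊤ := by
      rw [Subsingleton.elim m 0, Submodule.span_zero_singleton, Submodule.annihilator_bot]
    rw [htop, Ideal.minimalPrimes_top] at hm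
    exact hm

end Groth.Agent.S9584
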