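import Groth.Statements.S9586
import Mathlib
-- import your own Groth.Agent.* helpers here

set_option autoImplicit false
universe u
open CAlg

namespace Groth.Agent.S9586

theorem mk_eq_zero_iff' {R : Type u} [CommRing R] {S : Submonoid R} {M : Type u} [AddCommGroup M]
    [Module R M] (m : M) (s : S) : LocalizedModule.mk m s = 0 ↔ ∃ u : S, u • m = 0 := by
  rw [← LocalizedModule.zero_mk s, LocalizedModule.mk_eq]
  simp only [smul_zero]
  constructor
  · rintro ⟨u, hu⟩
    exact ⟨u * s, by rw [mul_smul]; exact hu⟩
  · rintro ⟨u, hu⟩
    exact ⟨u, by rw [smul_comm, hu, smul_zero]⟩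

theorem ann_loc_eq {R : Type u} [CommRing R] (S : Submonoid R) {M : Type u} [AddCommGroup M]
    [Module R M] (m : M) (s : S) :
    (Submodule.span R {LocalizedModule.mk m s}).annihilator =
      (Submodule.span R {LocalizedModule.mk m (1 : S)}).annihilator := by
  ext r
  rw [Submodule.mem_annihilator_span_singleton, Submodule.mem_annihilator_span_singleton,
    LocalizedModule.smul'_mk, LocalizedModule.smul'_mk, mk_eq_zero_iff', mk_eq_zero_iff']

theorem minimalPrimes_ann_iff {R : Type u} [CommRing R] (S : Submonoid R) {M : Type u}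
    [AddCommGroup M] [Module R M] (m : M) (p : Ideal R) (hS : Disjoint (S : Set R) (p : Set R)) :
    p ∈ (Submodule.span R {m}).annihilator.minimalPrimes ↔
      p ∈ (Submodule.span R {LocalizedModule.mk m (1 : S)}).annihilator.minimalPrimes := by
  have hle : (Submodule.span R {m}).annihilator ≤
      (Submodule.span R {LocalizedModule.mk m (1 : S)}).annihilator := by
    intro r hr
    rw [Submodule.mem_annihilator_span_singleton] at hr ⊢
    rw [LocalizedModule.smul'_mk, hr, LocalizedModule.zero_mk]
  have key : ∀ q : Ideal R, q.IsPrime → Disjoint (S : Set R) (q : Set R) →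
      ((Submodule.span R {m}).annihilator ≤ q ↔
        (Submodule.span R {LocalizedModule.mk m (1 : S)}).annihilator ≤ q) := by
    intro q hq hqS
    refine ⟨fun h r hr => ?_, fun h => hle.trans h⟩
    rw [Submodule.mem_annihilator_span_singleton, LocalizedModule.smul'_mk,
      mk_eq_zero_iff'] at hr
    obtain ⟨t, ht⟩ := hr
    have htr : (t : R) * r ∈ (Submodule.span R {m}).annihilator := by
      rw [Submodule.mem_annihilator_span_singleton, mul_smul]; exact ht
    rcases hq.mem_or_mem (h htr) with h1 | h1
    · exact absurd h1 (Set.disjoint_left.mp hqS t.2)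
    · exact h1
  constructor
  · rintro ⟨⟨hp, hJp⟩, hmin⟩
    refine ⟨⟨hp, (key p hp hS).mp hJp⟩, ?_⟩
    rintro q ⟨hq, hJq⟩ hqp
    exact hmin ⟨hq, (key q hq (Set.disjoint_of_subset_right hqp hS)).mpr hJq⟩ hqp
  · rintro ⟨⟨hp, hJp⟩, hmin⟩
    refine ⟨⟨hp, (key p hp hS).mpr hJp⟩, ?_⟩
    rintro q ⟨hq, hJq⟩ hqp
    exact hmin ⟨hq, (key q hq (Set.disjoint_of_subset_right hqp hS)).mp hJq⟩ hqp

theorem ann_comap_eq {R : Type u} [CommRing R] (S : Submonoid R) {M : Type u} [AddCommGroup M]
    [Module R M] (x : LocalizedModule S M) :
    (Submodule.span R {x}).annihilator =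
      ((Submodule.span (Localization S) {x}).annihilator).comap (algebraMap R (Localization S)) := by
  ext r
  rw [Ideal.mem_comap, Submodule.mem_annihilator_span_singleton,
    Submodule.mem_annihilator_span_singleton, algebraMap_smul]


/-- For a ring R, an R-module M and a finitely generated prime ideal p of R, p is associated to M (equal
to the annihilator of an element) if and only if p is weakly associated to M (minimal over the
annihilator of an element). -/
theorem result {R : Type u} [CommRing R] (M : Type u) [AddCommGroup M] [Module R M] (p : Ideal R) [p.IsPrime] (hp : p.FG) :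
    p ∈ FlatCA.ass R M ↔ p ∈ FlatCA.weakAss R M := by
  constructor
  · rintro ⟨hpp, m, hpm⟩
    refine ⟨m, ?_⟩
    rw [← hpm, Ideal.minimalPrimes_eq_subsingleton_self]
    rfl
  · rintro ⟨m, hm⟩
    classical
    have hS : Disjoint (p.primeCompl : Set R) (p : Set R) := by
      rw [Set.disjoint_left]; intro a ha hap; exact ha hap
    have hcm : Ideal.comap (algebraMap R (Localization.AtPrime p))
        (IsLocalRing.maximalIdeal (Localization.AtPrime p)) = p := by
      have := Localization.AtPrime.under_maximalIdeal (I := p)
      rw [Ideal.under_def] at this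
      exact this
    set 𝔪 := IsLocalRing.maximalIdeal (Localization.AtPrime p) with h𝔪
    have hmax : 𝔪.IsMaximal := IsLocalRing.maximalIdeal.isMaximal _
    set x : LocalizedModule p.primeCompl M := LocalizedModule.mk m 1 with hx
    -- (a),(b): maximal ideal minimal over Ann(x)
    have hb : 𝔪 ∈ (Submodule.span (Localization.AtPrime p) {x}).annihilator.minimalPrimes := by
      rw [minimalPrimes_ann_iff p.primeCompl m p hS, ann_comap_eq p.primeCompl x,
        IsLocalization.minimalPrimes_comap p.primeCompl (Localization.AtPrime p)] at hm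
      obtain ⟨Q, hQ, hQp⟩ := hm
      have h1 := IsLocalization.map_under p.primeCompl (Localization.AtPrime p) Q
      have h2 := IsLocalization.map_under p.primeCompl (Localization.AtPrime p) 𝔪
      rw [Ideal.under_def] at h1 h2
      rw [hQp] at h1
      rw [hcm] at h2
      rw [← h2, h1]
      exact hQ
    -- (c) radical
    have hc : 𝔪 ≤ (Submodule.span (Localization.AtPrime p) {x}).annihilator.radical := by
      rw [Ideal.radical_eq_sInf]
      apply le_sInf
      rintro q ⟨hJq, hq⟩
      exact hb.2 ⟨hq, hJq⟩ (IsLocalRing.le_maximalIdeal hq.ne_top)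
    -- (d) fg
    have hd : 𝔪.FG := by
      rw [h𝔪, ← Localization.AtPrime.map_eq_maximalIdeal]
      exact hp.map _
    obtain ⟨N, hN⟩ := Ideal.exists_pow_le_of_le_radical_of_fg hc hd
    have H : ∃ k, 𝔪 ^ k ≤ (Submodule.span (Localization.AtPrime p) {x}).annihilator := ⟨N, hN⟩
    have hk := Nat.find_spec H
    have hk0 : Nat.find H ≠ 0 := by
      intro h0
      rw [h0, pow_zero, Ideal.one_eq_top] at hk
      apply hmax.ne_top
      apply top_le_iff.mp
      calc (⊤ : Ideal (Localization.AtPrime p)) ≤ _ := hk
        _ ≤ (Submodule.span (Localization.AtPrime p) {x}).annihilator.radical := Ideal.le_radical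
        _ ≤ 𝔪 := (hmax.isPrime.radical_le_iff).mpr hb.1.2
    have hnot := Nat.find_min H (Nat.sub_one_lt hk0)
    rw [SetLike.not_le_iff_exists] at hnot
    obtain ⟨a, ha, hax⟩ := hnot
    rw [Submodule.mem_annihilator_span_singleton] at hax
    -- (h),(i) Ann(a • x) = 𝔪
    have hy : (Submodule.span (Localization.AtPrime p) {a • x}).annihilator = 𝔪 := by
      symm
      apply hmax.eq_of_le
      · intro htop
        apply hax
        have : (1 : Localization.AtPrime p) ∈ (Submodule.span (Localization.AtPrime p) {a • x}).annihilator :=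
          htop ▸ Submodule.mem_top
        rw [Submodule.mem_annihilator_span_singleton, one_smul] at this
        exact this
      · intro b hb'
        rw [Submodule.mem_annihilator_span_singleton, smul_smul]
        have : b * a ∈ 𝔪 ^ Nat.find H := by
          have := Ideal.mul_mem_mul hb' ha
          rwa [← pow_succ', Nat.sub_add_cancel (Nat.one_le_iff_ne_zero.mpr hk0)] at this
        exact (Submodule.mem_annihilator_span_singleton _ _).mp (hk this)
    -- (j) Ann_R(a • x) = p
    have hj : (Submodule.span R {a • x}).annihilator = p := by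
      rw [ann_comap_eq p.primeCompl, hy, hcm]
    -- (k) write a • x = mk n t
    obtain ⟨⟨n, t⟩, hnt⟩ : ∃ z : M × p.primeCompl, LocalizedModule.mk z.1 z.2 = a • x := by
      induction (a • x) using LocalizedModule.induction_on with
      | h n t => exact ⟨(n, t), rfl⟩
    rw [← hnt, ann_loc_eq] at hj
    -- (l) clear denominators on generators of p
    obtain ⟨F, hF⟩ := hp
    have hgen : ∀ f ∈ F, ∃ u : p.primeCompl, u • f • n = 0 := by
      intro f hf
      have : f ∈ p := hF ▸ Ideal.subset_span hf
      rw [← hj, Submodule.mem_annihilator_span_singleton, LocalizedModule.smul'_mk,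
        mk_eq_zero_iff'] at this
      exact this
    choose! uf huf using hgen
    let U : R := ∏ f ∈ F, ((uf f : p.primeCompl) : R)
    have hU : U ∉ p := by
      intro hmem
      obtain ⟨f, hf, hfm⟩ := (Ideal.IsPrime.prod_mem_iff (hp := ‹p.IsPrime›)).mp hmem
      exact (uf f).2 hfm
    refine ⟨‹p.IsPrime›, U • n, ?_⟩
    apply le_antisymm
    · rw [← hF, Ideal.span_le]
      intro f hf
      rw [SetLike.mem_coe, Submodule.mem_annihilator_span_singleton]
      obtain ⟨c, hc⟩ := Finset.dvd_prod_of_mem (fun g => ((uf g : p.primeCompl) : R)) hf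
      have hU' : U = ((uf f : p.primeCompl) : R) * c := hc
      rw [hU', mul_comm, mul_smul, smul_comm f c, smul_comm f, ← Submonoid.smul_def, huf f hf,
        smul_zero]
    · intro r hr
      rw [Submodule.mem_annihilator_span_singleton, smul_smul] at hr
      have : r * U ∈ (Submodule.span R {LocalizedModule.mk n (1 : p.primeCompl)}).annihilator := by
        rw [Submodule.mem_annihilator_span_singleton, LocalizedModule.smul'_mk, hr,
          LocalizedModule.zero_mk]
      rw [hj] at this
      exact (‹p.IsPrime›.mem_or_mem this).resolve_right hU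

end Groth.Agent.S9586
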