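import Groth.Statements.S9588
import Mathlib
-- import your own Groth.Agent.* helpers here

set_option autoImplicit false
universe u
open CAlg

namespace Groth.Agent.S9588

theorem weakAss_eq_comap_image {R R' : Type u} [CommRing R] [CommRing R'] [Algebra R R']
    (M : Type u) [AddCommGroup M] [Module R M] [Module R' M] [IsScalarTower R R' M]
    (hmin : ∀ J : Ideal R', (J.comap (algebraMap R R')).minimalPrimes =
      Ideal.comap (algebraMap R R') '' J.minimalPrimes) :
    FlatCA.weakAss R M = Ideal.comap (algebraMap R R') '' FlatCA.weakAss R' M := by
  have hann : ∀ m : M, (Submodule.span R {m}).annihilator =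
      ((Submodule.span R' {m}).annihilator).comap (algebraMap R R') := by
    intro m; ext r
    rw [Ideal.mem_comap, Submodule.mem_annihilator_span_singleton,
      Submodule.mem_annihilator_span_singleton, algebraMap_smul]
  ext p
  constructor
  · rintro ⟨m, hp⟩
    rw [hann, hmin] at hp
    obtain ⟨q, hq, rfl⟩ := hp
    exact ⟨q, ⟨m, hq⟩, rfl⟩
  · rintro ⟨q, ⟨m, hq⟩, rfl⟩
    refine ⟨m, ?_⟩
    rw [hann, hmin]
    exact ⟨q, hq, rfl⟩


/-- For a ring R, an R-module M and a multiplicative subset S of R, the primes of R weakly associated to
S⁻¹M regarded as an R-module are exactly the inverse images under R → S⁻¹R of the primes of S⁻¹R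
weakly associated to S⁻¹M. -/
theorem result {R : Type u} [CommRing R] (S : Submonoid R) (M : Type u) [AddCommGroup M] [Module R M] :
    FlatCA.weakAss R (LocalizedModule S M) = Ideal.comap (algebraMap R (Localization S)) '' FlatCA.weakAss (Localization S) (LocalizedModule S M) := by
  exact weakAss_eq_comap_image (LocalizedModule S M) (fun J =>
    IsLocalization.minimalPrimes_comap S (Localization S) J)

end Groth.Agent.S9588
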