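import Groth.Statements.S9589
import Mathlib
-- import your own Groth.Agent.* helpers here

set_option autoImplicit false
universe u
open CAlg

namespace Groth.Agent.S9589

theorem mk_eq_zero_iff' {R : Type u} [CommRing R] {S : Submonoid R} {M : Type u} [AddCommGroup M]
    [Module R M] (m : M) (s : S) : LocalizedModule.mk m s = 0 ↔ ∃ u : S, u • m = 0 := by
  rw [← LocalizedModule.zero_mk s, LocalizedModule.mk_eq]
  simp only [smul_zero]
  constructor
  · rintro ⟨u, hu⟩
    exact ⟨u * s, by rw [mul_smul]; exact hu⟩
  · rintro ⟨u, hu⟩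
    exact ⟨u, by rw [smul_comm, hu, smul_zero]⟩

theorem ann_loc_eq {R : Type u} [CommRing R] (S : Submonoid R) {M : Type u} [AddCommGroup M]
    [Module R M] (m : M) (s : S) :
    (Submodule.span R {LocalizedModule.mk m s}).annihilator =
      (Submodule.span R {LocalizedModule.mk m (1 : S)}).annihilator := by
  ext r
  rw [Submodule.mem_annihilator_span_singleton, Submodule.mem_annihilator_span_singleton,
    LocalizedModule.smul'_mk, LocalizedModule.smul'_mk, mk_eq_zero_iff', mk_eq_zero_iff']

theorem minimalPrimes_ann_iff {R : Type u} [CommRing R] (S : Submonoid R) {M : Type u}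
    [AddCommGroup M] [Module R M] (m : M) (p : Ideal R) (hS : Disjoint (S : Set R) (p : Set R)) :
    p ∈ (Submodule.span R {m}).annihilator.minimalPrimes ↔
      p ∈ (Submodule.span R {LocalizedModule.mk m (1 : S)}).annihilator.minimalPrimes := by
  have hle : (Submodule.span R {m}).annihilator ≤
      (Submodule.span R {LocalizedModule.mk m (1 : S)}).annihilator := by
    intro r hr
    rw [Submodule.mem_annihilator_span_singleton] at hr ⊢
    rw [LocalizedModule.smul'_mk, hr, LocalizedModule.zero_mk]
  have key : ∀ q : Ideal R, q.IsPrime → Disjoint (S : Set R) (q : Set R) →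
      ((Submodule.span R {m}).annihilator ≤ q ↔
        (Submodule.span R {LocalizedModule.mk m (1 : S)}).annihilator ≤ q) := by
    intro q hq hqS
    refine ⟨fun h r hr => ?_, fun h => hle.trans h⟩
    rw [Submodule.mem_annihilator_span_singleton, LocalizedModule.smul'_mk,
      mk_eq_zero_iff'] at hr
    obtain ⟨t, ht⟩ := hr
    have htr : (t : R) * r ∈ (Submodule.span R {m}).annihilator := by
      rw [Submodule.mem_annihilator_span_singleton, mul_smul]; exact ht
    rcases hq.mem_or_mem (h htr) with h1 | h1
    · exact absurd h1 (Set.disjoint_left.mp hqS t.2)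
    · exact h1
  constructor
  · rintro ⟨⟨hp, hJp⟩, hmin⟩
    refine ⟨⟨hp, (key p hp hS).mp hJp⟩, ?_⟩
    rintro q ⟨hq, hJq⟩ hqp
    exact hmin ⟨hq, (key q hq (Set.disjoint_of_subset_right hqp hS)).mpr hJq⟩ hqp
  · rintro ⟨⟨hp, hJp⟩, hmin⟩
    refine ⟨⟨hp, (key p hp hS).mpr hJp⟩, ?_⟩
    rintro q ⟨hq, hJq⟩ hqp
    exact hmin ⟨hq, (key q hq (Set.disjoint_of_subset_right hqp hS)).mp hJq⟩ hqp

theorem ann_comap_eq {R : Type u} [CommRing R] (S : Submonoid R) {M : Type u} [AddCommGroup M]
    [Module R M] (x : LocalizedModule S M) :
    (Submodule.span R {x}).annihilator =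
      ((Submodule.span (Localization S) {x}).annihilator).comap (algebraMap R (Localization S)) := by
  ext r
  rw [Ideal.mem_comap, Submodule.mem_annihilator_span_singleton,
    Submodule.mem_annihilator_span_singleton, algebraMap_smul]


/-- For a ring R, an R-module M, a multiplicative subset S of R and a prime p of R not meeting S, p is
weakly associated to M if and only if the extended prime p S⁻¹R is weakly associated to the
S⁻¹R-module S⁻¹M. -/
theorem result {R : Type u} [CommRing R] (S : Submonoid R) (M : Type u) [AddCommGroup M] [Module R M] (p : Ideal R) [p.IsPrime] (hS : Disjoint (S : Set R) (p : Set R)) :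
    p ∈ FlatCA.weakAss R M ↔ Ideal.map (algebraMap R (Localization S)) p ∈ FlatCA.weakAss (Localization S) (LocalizedModule S M) := by
  constructor
  · rintro ⟨m, hm⟩
    rw [minimalPrimes_ann_iff S m p hS, ann_comap_eq S,
      IsLocalization.minimalPrimes_comap S (Localization S)] at hm
    obtain ⟨Q, hQ, rfl⟩ := hm
    refine ⟨LocalizedModule.mk m 1, ?_⟩
    have := IsLocalization.map_under S (Localization S) Q
    rw [Ideal.under_def] at this
    rw [this]
    exact hQ
  · rintro ⟨x, hx⟩
    induction x using LocalizedModule.induction_on with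
    | h m s =>
      refine ⟨m, ?_⟩
      rw [minimalPrimes_ann_iff S m p hS, ← ann_loc_eq S m s, ann_comap_eq S,
        IsLocalization.minimalPrimes_comap S (Localization S)]
      refine ⟨_, hx, ?_⟩
      have := IsLocalization.under_map_of_isPrime_disjoint S (Localization S) ‹p.IsPrime› hS
      rw [Ideal.under_def] at this
      exact this

end Groth.Agent.S9589
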