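import Groth.Statements.S9594
import Mathlib
-- import your own Groth.Agent.* helpers here

set_option autoImplicit false
universe u
open CAlg

namespace Groth.Agent.S9594

theorem mk_eq_zero_iff' {R : Type u} [CommRing R] {S : Submonoid R} {M : Type u} [AddCommGroup M]
    [Module R M] (m : M) (s : S) : LocalizedModule.mk m s = 0 ↔ ∃ u : S, u • m = 0 := by
  rw [← LocalizedModule.zero_mk s, LocalizedModule.mk_eq]
  simp only [smul_zero]
  constructor
  · rintro ⟨u, hu⟩
    exact ⟨u * s, by rw [mul_smul]; exact hu⟩
  · rintro ⟨u, hu⟩
    exact ⟨u, by rw [smul_comm, hu, smul_zero]⟩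

theorem ann_comap_eq {R : Type u} [CommRing R] (S : Submonoid R) {M : Type u} [AddCommGroup M]
    [Module R M] (x : LocalizedModule S M) :
    (Submodule.span R {x}).annihilator =
      ((Submodule.span (Localization S) {x}).annihilator).comap (algebraMap R (Localization S)) := by
  ext r
  rw [Ideal.mem_comap, Submodule.mem_annihilator_span_singleton,
    Submodule.mem_annihilator_span_singleton, algebraMap_smul]


/-- For a ring R, an R-module M and a multiplicative subset S of R, (1) the primes of R associated to
the R-module S⁻¹M are the inverse images of the primes of S⁻¹R associated to S⁻¹M, and (2) a prime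
of R associated to M which does not meet S is associated to the R-module S⁻¹M. Here a prime is
associated to a module when it equals the annihilator of some element. -/
theorem result {R : Type u} [CommRing R] (S : Submonoid R) (M : Type u) [AddCommGroup M] [Module R M] :
    FlatCA.ass R (LocalizedModule S M) = Ideal.comap (algebraMap R (Localization S)) '' FlatCA.ass (Localization S) (LocalizedModule S M) ∧
      ∀ p ∈ FlatCA.ass R M, Disjoint (S : Set R) (p : Set R) → p ∈ FlatCA.ass R (LocalizedModule S M) := by
  constructor
  · ext p
    constructor
    · rintro ⟨hp, x, rfl⟩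
      have hdisj : Disjoint (S : Set R) ((Submodule.span R {x}).annihilator : Set R) := by
        rw [Set.disjoint_left]
        intro s hs hsx
        apply hp.ne_top
        rw [Ideal.eq_top_iff_one, Submodule.mem_annihilator_span_singleton, one_smul]
        rw [SetLike.mem_coe, Submodule.mem_annihilator_span_singleton] at hsx
        have hunit : IsUnit (algebraMap R (Module.End R (LocalizedModule S M)) s) :=
          IsLocalizedModule.map_units (LocalizedModule.mkLinearMap S M) ⟨s, hs⟩
        have := (Module.End.isUnit_iff _).mp hunit
        apply this.1
        simp only [Module.algebraMap_end_apply]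
        rw [hsx, smul_zero]
      refine ⟨(Submodule.span (Localization S) {x}).annihilator, ⟨?_, x, rfl⟩, (ann_comap_eq S x).symm⟩
      have hprime := IsLocalization.isPrime_of_isPrime_disjoint S (Localization S) _ hp hdisj
      rw [ann_comap_eq S x] at hprime
      have := IsLocalization.map_under S (Localization S) (Submodule.span (Localization S) {x}).annihilator
      rw [Ideal.under_def] at this
      rw [this] at hprime
      exact hprime
    · rintro ⟨Q, ⟨hQ, x, rfl⟩, rfl⟩
      exact ⟨Ideal.comap_isPrime _ _, x, (ann_comap_eq S x).symm⟩
  · rintro p ⟨hp, m, rfl⟩ hdisj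
    refine ⟨hp, LocalizedModule.mk m 1, ?_⟩
    ext r
    rw [Submodule.mem_annihilator_span_singleton, Submodule.mem_annihilator_span_singleton,
      LocalizedModule.smul'_mk, mk_eq_zero_iff']
    constructor
    · intro h; exact ⟨1, by rw [one_smul]; exact h⟩
    · rintro ⟨t, ht⟩
      have htr : (t : R) * r ∈ (Submodule.span R {m}).annihilator := by
        rw [Submodule.mem_annihilator_span_singleton, mul_smul]; exact ht
      rcases hp.mem_or_mem htr with h1 | h1
      · exact absurd h1 (Set.disjoint_left.mp hdisj t.2)
      · rwa [Submodule.mem_annihilator_span_singleton] at h1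

end Groth.Agent.S9594
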