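import Groth.Statements.S9595
import Mathlib
-- import your own Groth.Agent.* helpers here

set_option autoImplicit false
universe u
open CAlg

namespace Groth.Agent.S9595

theorem ann_mk_eq {R : Type u} [CommRing R] (S : Submonoid R) {M : Type u} [AddCommGroup M]
    [Module R M] (hS : ∀ s ∈ S, IsSMulRegular M s) (m : M) (s : S) :
    (Submodule.span R {LocalizedModule.mk m s}).annihilator = (Submodule.span R {m}).annihilator := by
  ext r
  rw [Submodule.mem_annihilator_span_singleton, Submodule.mem_annihilator_span_singleton,
    LocalizedModule.smul'_mk]
  constructor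
  · intro h
    rw [← LocalizedModule.zero_mk s, LocalizedModule.mk_eq] at h
    obtain ⟨t, ht⟩ := h
    rw [smul_zero, smul_zero, Submonoid.smul_def, Submonoid.smul_def, smul_smul] at ht
    exact (hS _ (t * s).2).right_eq_zero_of_smul ht
  · intro h
    rw [h, LocalizedModule.zero_mk]


/-- For a ring R, an R-module M and a multiplicative subset S of R whose elements are all
nonzerodivisors on M, a prime of R is the annihilator of an element of M if and only if it is the
annihilator in R of an element of S⁻¹M. -/
theorem result {R : Type u} [CommRing R] (S : Submonoid R) (M : Type u) [AddCommGroup M] [Module R M] (hS : ∀ s ∈ S, IsSMulRegular M s) :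
    FlatCA.ass R M = FlatCA.ass R (LocalizedModule S M) := by
  ext p
  constructor
  · rintro ⟨hp, m, rfl⟩
    exact ⟨hp, LocalizedModule.mk m 1, by rw [ann_mk_eq S hS]⟩
  · rintro ⟨hp, x, hx⟩
    induction x using LocalizedModule.induction_on with
    | h m s => exact ⟨hp, m, by rw [hx, ann_mk_eq S hS]⟩

end Groth.Agent.S9595
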