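import Groth.Statements.S9596
import Mathlib
-- import your own Groth.Agent.* helpers here

set_option autoImplicit false
universe u
open CAlg

namespace Groth.Agent.S9596

/-- For a Noetherian ring R and any R-module M, a prime which is minimal among the primes in the support
of M is an associated prime of M. -/
theorem result {R : Type u} [CommRing R] [IsNoetherianRing R] (M : Type u) [AddCommGroup M] [Module R M] (p : PrimeSpectrum R) (hp : Minimal (fun q : PrimeSpectrum R => q ∈ Module.support R M) p) :
    p.asIdeal ∈ associatedPrimes R M := by
  have hsupp : p ∈ Module.support R M := hp.1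
  have : Nontrivial (LocalizedModule p.asIdeal.primeCompl M) := hsupp
  obtain ⟨q, hq⟩ := associatedPrimes.nonempty (Localization.AtPrime p.asIdeal)
    (LocalizedModule p.asIdeal.primeCompl M)
  have q_prime : q.IsPrime := IsAssociatedPrime.isPrime hq
  have hq' : Ideal.comap (algebraMap R (Localization.AtPrime p.asIdeal)) q ∈ associatedPrimes R M := by
    rw [← Module.associatedPrimes.preimage_comap_associatedPrimes_eq_associatedPrimes_of_isLocalizedModule
      p.asIdeal.primeCompl (Localization.AtPrime p.asIdeal)
      (LocalizedModule.mkLinearMap p.asIdeal.primeCompl M)] at hq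
    exact hq
  have le : Ideal.comap (algebraMap R (Localization.AtPrime p.asIdeal)) q ≤ p.asIdeal := by
    have := (IsLocalization.disjoint_under_iff p.asIdeal.primeCompl
      (Localization.AtPrime p.asIdeal) q).mpr q_prime.ne_top
    simpa only [Ideal.primeCompl, Submonoid.coe_set_mk, Subsemigroup.coe_set_mk,
      Set.disjoint_compl_left_iff_subset] using! this
  have hsup' : (⟨_, hq'.isPrime⟩ : PrimeSpectrum R) ∈ Module.support R M := by
    obtain ⟨_, x, hx⟩ := hq'
    rw [Module.mem_support_iff_exists_annihilator]
    refine ⟨x, ?_⟩
    intro r hr
    show r ∈ Ideal.comap (algebraMap R (Localization.AtPrime p.asIdeal)) q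
    rw [hx]
    apply Ideal.le_radical
    rw [Submodule.mem_colon_singleton, Submodule.mem_bot]
    exact (Submodule.mem_annihilator_span_singleton _ _).mp hr
  have hle := hp.2 hsup' le
  have heq : p.asIdeal = Ideal.comap (algebraMap R (Localization.AtPrime p.asIdeal)) q :=
    le_antisymm hle le
  rw [heq]; exact hq'

end Groth.Agent.S9596
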