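import Groth.Statements.S9597
import Mathlib
-- import your own Groth.Agent.* helpers here

set_option autoImplicit false
universe u
open CAlg

namespace Groth.Agent.S9597

theorem Y9597_key {R : Type u} [CommRing R] [IsNoetherianRing R] (M : Type u) [AddCommGroup M] [Module R M] [Module.Finite R M]
    (P : Ideal (R ⧸ Module.annihilator R M))
    (hP : P ∈ associatedPrimes (R ⧸ Module.annihilator R M) (R ⧸ Module.annihilator R M)) :
    P.comap (Ideal.Quotient.mk (Module.annihilator R M)) ∈ associatedPrimes R M := by
  rw [AssociatedPrimes.mem_iff, isAssociatedPrime_iff] at hP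
  obtain ⟨hPp, xb, hx⟩ := hP
  obtain ⟨x, rfl⟩ := Ideal.Quotient.mk_surjective xb
  let N : Submodule R M := LinearMap.range (LinearMap.lsmul R M x)
  have hQ : P.comap (Ideal.Quotient.mk (Module.annihilator R M)) = Module.annihilator R N := by
    ext r
    rw [Ideal.mem_comap, hx, Submodule.mem_colon_singleton, Submodule.mem_bot, smul_eq_mul,
      ← map_mul, Ideal.Quotient.eq_zero_iff_mem, Module.mem_annihilator, Module.mem_annihilator]
    constructor
    · rintro h ⟨_, m, rfl⟩
      apply Subtype.ext
      simp only [LinearMap.lsmul_apply, SetLike.val_smul, Submodule.coe_zero]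
      rw [smul_smul, h m]
    · intro h m
      have := congrArg Subtype.val (h ⟨x • m, m, rfl⟩)
      simp only [SetLike.val_smul, Submodule.coe_zero] at this
      rw [smul_smul] at this
      exact this
  have hQp : (P.comap (Ideal.Quotient.mk (Module.annihilator R M))).IsPrime := Ideal.comap_isPrime _ _
  have hmin : P.comap (Ideal.Quotient.mk (Module.annihilator R M)) ∈ (Module.annihilator R N).minimalPrimes := by
    rw [← hQ, Ideal.minimalPrimes_eq_subsingleton_self]
    rfl
  have h2 := Module.associatedPrimes.minimalPrimes_annihilator_subset_associatedPrimes R N hmin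
  exact associatedPrimes.subset_of_injective N.injective_subtype h2


/-- Let R be a Noetherian ring, M a finite R-module whose associated primes are pairwise incomparable
under inclusion (M has no embedded associated primes), and I the annihilator of M. Then the
associated primes of R/I, viewed as a module over itself, are again pairwise incomparable: R/I has
no embedded primes either. -/
theorem result {R : Type u} [CommRing R] [IsNoetherianRing R] (M : Type u) [AddCommGroup M] [Module R M] [Module.Finite R M] (hM : ∀ p ∈ associatedPrimes R M, ∀ q ∈ associatedPrimes R M, p ≤ q → p = q) :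
    ∀ p ∈ associatedPrimes (R ⧸ Module.annihilator R M) (R ⧸ Module.annihilator R M), ∀ q ∈ associatedPrimes (R ⧸ Module.annihilator R M) (R ⧸ Module.annihilator R M), p ≤ q → p = q := by
  intro p hp q hq hpq
  apply Ideal.comap_injective_of_surjective (Ideal.Quotient.mk (Module.annihilator R M)) Ideal.Quotient.mk_surjective
  exact hM _ (Y9597_key M p hp) _ (Y9597_key M q hq) (Ideal.comap_mono hpq)

end Groth.Agent.S9597
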