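import Groth.Statements.S9598
import Mathlib
-- import your own Groth.Agent.* helpers here

set_option autoImplicit false
universe u
open CAlg

namespace Groth.Agent.S9598

/-- For a field k and a finite type k-algebra S with dim S > 0, some element of S is a nonzerodivisor
and a nonunit. -/
theorem result {k S : Type u} [Field k] [CommRing S] [Algebra k S] [Algebra.FiniteType k S] (hdim : 0 < ringKrullDim S) :
    ∃ f : S, f ∈ nonZeroDivisors S ∧ ¬ IsUnit f := by
  classical
  by_contra hcon
  push_neg at hcon
  haveI : IsNoetherianRing S := Algebra.FiniteType.isNoetherianRing k S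
  haveI : IsJacobsonRing S := isJacobsonRing_of_finiteType (A := k)
  have hmax : ∀ I : Ideal S, I.IsMaximal → I ∈ associatedPrimes S S := by
    intro I hI
    have fin := associatedPrimes.finite S S
    have ⟨P, hP⟩ := (I.subset_union_prime_finite fin (f := id) 0 0 fun _ h _ _ ↦ h.isPrime).1 <| by
      simp_rw [id, biUnion_associatedPrimes_eq_compl_nonZeroDivisors]
      exact fun x hx h ↦ hI.ne_top <| I.eq_top_of_isUnit_mem hx (hcon x h)
    exact hI.eq_of_le hP.1.isPrime.ne_top hP.2 ▸ hP.1
  obtain ⟨x, y, hxy⟩ := Order.krullDim_pos_iff.mp hdim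
  have hxnm : ¬ x.asIdeal.IsMaximal := fun h => by
    have := h.eq_of_le y.isPrime.ne_top (le_of_lt hxy)
    exact hxy.ne (PrimeSpectrum.ext this)
  have hjac : x.asIdeal.jacobson = x.asIdeal := IsJacobsonRing.out inferInstance x.isPrime.isRadical
  have hT : {m : Ideal S | x.asIdeal ≤ m ∧ m.IsMaximal}.Finite :=
    (associatedPrimes.finite S S).subset (fun m hm => hmax m hm.2)
  have hA : hT.toFinset.inf id ≤ x.asIdeal := by
    refine le_trans ?_ hjac.le
    unfold Ideal.jacobson
    refine le_sInf ?_
    intro J hJ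
    exact Finset.inf_le (f := id) ((Set.Finite.mem_toFinset hT).mpr hJ)
  obtain ⟨m, hm, hmx⟩ := (x.isPrime.inf_le' (s := hT.toFinset) (f := id)).mp hA
  rw [Set.Finite.mem_toFinset] at hm
  have hmx' : m = x.asIdeal := le_antisymm hmx hm.1
  exact hxnm (hmx' ▸ hm.2)

end Groth.Agent.S9598
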