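import Groth.Statements.S9602
import Mathlib
-- import your own Groth.Agent.* helpers here

set_option autoImplicit false
universe u
open CAlg

namespace Groth.Agent.S9602

theorem Y9602_eval {R : Type u} [CommRing R] (I : Ideal R) (x : AdicCompletion I R) (r : R)
    (h : x.val 1 = Ideal.Quotient.mk _ r) : AdicCompletion.evalOneₐ I x = Ideal.Quotient.mk I r := by
  have : AdicCompletion.evalOneₐ I x = Ideal.Quotient.factorₐ R (by simp) (AdicCompletion.evalₐ I 1 x) := rfl
  rw [this]
  simp [AdicCompletion.evalₐ, AdicCompletion.eval, h]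

theorem Y9602_comp {R : Type u} [CommRing R] (I : Ideal R) (x : AdicCompletion I R)
    (hx : IsUnit (AdicCompletion.evalOneₐ I x)) (n : ℕ) : IsUnit (x.val n) := by
  obtain ⟨r, hr⟩ := Ideal.Quotient.mk_surjective (x.val n)
  rcases Nat.eq_zero_or_pos n with rfl | hn
  · have : Subsingleton (R ⧸ (I ^ 0 • ⊤ : Ideal R)) := by
      rw [pow_zero, Ideal.one_eq_top, Submodule.top_smul]
      infer_instance
    exact isUnit_of_subsingleton _
  · have h1 : x.val 1 = Ideal.Quotient.mk _ r := by
      rw [← x.2 hn, ← hr]; rfl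
    have hu : IsUnit (Ideal.Quotient.mk I r) := Y9602_eval I x r h1 ▸ hx
    obtain ⟨s, hs⟩ : ∃ s, Ideal.Quotient.mk I (r * s) = 1 := by
      obtain ⟨v, hv⟩ := hu.exists_right_inv
      obtain ⟨s, rfl⟩ := Ideal.Quotient.mk_surjective v
      exact ⟨s, by rw [map_mul, hv]⟩
    have ht : r * s - 1 ∈ I := by
      rw [← Ideal.Quotient.eq, hs, map_one]
    have hnil : IsNilpotent (Ideal.Quotient.mk (I ^ n • ⊤ : Ideal R) (r * s - 1)) := by
      refine ⟨n, ?_⟩
      rw [← map_pow, Ideal.Quotient.eq_zero_iff_mem, smul_eq_mul, Ideal.mul_top]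
      exact Ideal.pow_mem_pow ht n
    have hunit : IsUnit (Ideal.Quotient.mk (I ^ n • ⊤ : Ideal R) (r * s)) := by
      have := hnil.isUnit_one_add
      rwa [← map_one (Ideal.Quotient.mk _), ← map_add, add_sub_cancel] at this
    rw [map_mul] at hunit
    rw [← hr]
    exact isUnit_of_mul_isUnit_left hunit

theorem Y9602_unit {R : Type u} [CommRing R] (I : Ideal R) (x : AdicCompletion I R)
    (hx : IsUnit (AdicCompletion.evalOneₐ I x)) : IsUnit x := by
  have hc := Y9602_comp I x hx
  have hcompat : ∀ {m n : ℕ} (hmn : m ≤ n),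
      AdicCompletion.transitionMap I R hmn (↑(hc n).unit⁻¹) = ↑(hc m).unit⁻¹ := by
    intro m n hmn
    have e : AdicCompletion.transitionMap I R hmn (↑(hc n).unit⁻¹) * x.val m = 1 := by
      rw [← x.2 hmn, ← AdicCompletion.transitionMap_map_mul, (hc n).val_inv_mul,
        AdicCompletion.transitionMap_map_one]
    calc AdicCompletion.transitionMap I R hmn (↑(hc n).unit⁻¹)
        = AdicCompletion.transitionMap I R hmn (↑(hc n).unit⁻¹) * (x.val m * ↑(hc m).unit⁻¹) := by
          rw [(hc m).mul_val_inv, mul_one]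
      _ = (AdicCompletion.transitionMap I R hmn (↑(hc n).unit⁻¹) * x.val m) * ↑(hc m).unit⁻¹ := by
          rw [mul_assoc]
      _ = ↑(hc m).unit⁻¹ := by rw [e, one_mul]
  let y : AdicCompletion I R := ⟨fun n => ↑(hc n).unit⁻¹, fun hmn => hcompat hmn⟩
  refine IsUnit.of_mul_eq_one y ?_
  apply Subtype.ext
  funext n
  show x.val n * ↑(hc n).unit⁻¹ = 1
  exact (hc n).mul_val_inv


/-- Let R be a ring, I an ideal of R and R^ = lim R/Iⁿ the I-adic completion. An element of R^ whose
image in R/I is invertible is itself invertible in R^; and the kernel of R^ → R/I as well as the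
extended ideal I R^ both lie inside the Jacobson radical of R^. -/
theorem result {R : Type u} [CommRing R] (I : Ideal R) :
    (∀ x : AdicCompletion I R, IsUnit (AdicCompletion.evalOneₐ I x) → IsUnit x) ∧
      RingHom.ker (AdicCompletion.evalOneₐ I).toRingHom ≤ (⊥ : Ideal (AdicCompletion I R)).jacobson ∧
      I.map (algebraMap R (AdicCompletion I R)) ≤ (⊥ : Ideal (AdicCompletion I R)).jacobson := by
  have h2 : RingHom.ker (AdicCompletion.evalOneₐ I).toRingHom ≤ (⊥ : Ideal (AdicCompletion I R)).jacobson := by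
    intro x hx
    rw [Ideal.mem_jacobson_bot]
    intro y
    apply Y9602_unit
    rw [RingHom.mem_ker] at hx
    have hx' : AdicCompletion.evalOneₐ I x = 0 := hx
    rw [map_add, map_mul, hx', zero_mul, zero_add, map_one]
    exact isUnit_one
  refine ⟨fun x hx => Y9602_unit I x hx, h2, ?_⟩
  rw [Ideal.map_le_iff_le_comap]
  intro r hr
  rw [Ideal.mem_comap]
  apply h2
  rw [RingHom.mem_ker]
  show AdicCompletion.evalOneₐ I (algebraMap R (AdicCompletion I R) r) = 0
  rw [AlgHom.commutes, Ideal.Quotient.algebraMap_eq, Ideal.Quotient.eq_zero_iff_mem]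
  exact hr

end Groth.Agent.S9602
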