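import Groth.Statements.S9604
-- import your own Groth.Agent.* helpers here

set_option autoImplicit false
universe u
open CAlg

namespace Groth.Agent.S9604

theorem aux {R : Type u} [CommRing R] (I J : Ideal R) (c d : ℕ) (hc : 0 < c) (hd : 0 < d)
    (hI : I ^ c ≤ J) (hJ : J ^ d ≤ I) (M : Type u) [AddCommGroup M] [Module R M]
    (h : IsAdicComplete I M) : IsAdicComplete J M := by
  have hJn : ∀ n, J ^ (d * n) ≤ I ^ n := fun n => by
    rw [pow_mul]; exact Ideal.pow_right_mono hJ n
  have hIn : ∀ n, I ^ (c * n) ≤ J ^ n := fun n => by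
    rw [pow_mul]; exact Ideal.pow_right_mono hI n
  have H1 : IsHausdorff J M := ⟨fun x hx => h.toIsHausdorff.haus' x fun n =>
    SModEq.mono (Submodule.smul_mono_left (hJn n)) (hx (d * n))⟩
  have H2 : IsPrecomplete J M := by
    refine ⟨fun f hf => ?_⟩
    obtain ⟨L, hL⟩ := h.toIsPrecomplete.prec' (fun k => f (d * k)) (fun {m n} hmn =>
      SModEq.mono (Submodule.smul_mono_left (hJn m)) (hf (Nat.mul_le_mul_left d hmn)))
    refine ⟨L, fun n => ?_⟩
    have hle : n ≤ d * (c * n) := by
      calc n = 1 * (1 * n) := by ring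
        _ ≤ d * (c * n) := Nat.mul_le_mul hd (Nat.mul_le_mul_right n hc)
    have h1 : f n ≡ f (d * (c * n)) [SMOD (J ^ n • ⊤ : Submodule R M)] := hf hle
    have h2 : f (d * (c * n)) ≡ L [SMOD (J ^ n • ⊤ : Submodule R M)] :=
      SModEq.mono (Submodule.smul_mono_left (hIn n)) (hL (c * n))
    exact h1.trans h2
  exact IsAdicComplete.mk

/-- Let R be a ring and I, J ideals of R with I^c ⊆ J and J^d ⊆ I for some integers c, d > 0. Then for
an R-module, being complete in the I-adic topology is equivalent to being complete in the J-adic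
topology. -/
theorem result {R : Type u} [CommRing R] (I J : Ideal R) (c d : ℕ) (hc : 0 < c) (hd : 0 < d) (hI : I ^ c ≤ J) (hJ : J ^ d ≤ I) (M : Type u) [AddCommGroup M] [Module R M] :
    IsAdicComplete I M ↔ IsAdicComplete J M := by
  exact ⟨aux I J c d hc hd hI hJ M, aux J I d c hd hc hJ hI M⟩

end Groth.Agent.S9604
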