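import Groth.Statements.S9605
import Mathlib
-- import your own Groth.Agent.* helpers here

set_option autoImplicit false
universe u
open CAlg

namespace Groth.Agent.S9605

/-- For a ring R, an ideal I of R, an I-adically complete R-module M and a submodule K of M, the
quotient M/K is I-adically complete if and only if K = ⋂ₙ (K + IⁿM). -/
theorem result {R : Type u} [CommRing R] (I : Ideal R) (M : Type u) [AddCommGroup M] [Module R M] [IsAdicComplete I M] (K : Submodule R M) :
    IsAdicComplete I (M ⧸ K) ↔ K = ⨅ n : ℕ, K ⊔ I ^ n • (⊤ : Submodule R M) := by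
  have hmap : ∀ n : ℕ, (I ^ n • ⊤ : Submodule R (M ⧸ K)) = (I ^ n • ⊤ : Submodule R M).map K.mkQ := by
    intro n
    rw [Submodule.map_smul'', Submodule.map_top, Submodule.range_mkQ]
  have hmem : ∀ (n : ℕ) (x : M), K.mkQ x ∈ (I ^ n • ⊤ : Submodule R (M ⧸ K)) ↔
      x ∈ K ⊔ I ^ n • (⊤ : Submodule R M) := by
    intro n x
    rw [hmap, Submodule.mem_map]
    constructor
    · rintro ⟨y, hy, hxy⟩
      have hxy' : x - y ∈ K := by
        rw [← Submodule.Quotient.eq]; exact hxy.symm
      have e : x = (x - y) + y := by abel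
      rw [e]; exact Submodule.add_mem_sup hxy' hy
    · intro hx
      obtain ⟨k, hk, y, hy, rfl⟩ := Submodule.mem_sup.mp hx
      refine ⟨y, hy, ?_⟩
      rw [map_add, Submodule.mkQ_apply K k, (Submodule.Quotient.mk_eq_zero K).mpr hk, zero_add]
  constructor
  · intro hc
    apply le_antisymm
    · exact le_iInf (fun n => le_sup_left)
    · intro x hx
      rw [Submodule.mem_iInf] at hx
      have : K.mkQ x = 0 := by
        apply hc.toIsHausdorff.haus
        intro n
        rw [SModEq.zero]
        exact (hmem n x).mpr (hx n)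
      rwa [Submodule.mkQ_apply, Submodule.Quotient.mk_eq_zero] at this
  · intro hK
    have haus : IsHausdorff I (M ⧸ K) := by
      refine ⟨fun xb hxb => ?_⟩
      obtain ⟨x, rfl⟩ := K.mkQ_surjective xb
      have hx : x ∈ ⨅ n : ℕ, K ⊔ I ^ n • (⊤ : Submodule R M) := by
        rw [Submodule.mem_iInf]
        intro n
        exact (hmem n x).mp (SModEq.zero.mp (hxb n))
      rw [← hK] at hx
      rw [Submodule.mkQ_apply, Submodule.Quotient.mk_eq_zero]; exact hx
    have prec : IsPrecomplete I (M ⧸ K) := by
      refine ⟨fun f hf => ?_⟩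
      have hd : ∀ n, ∃ d ∈ (I ^ n • ⊤ : Submodule R M), K.mkQ d = f (n + 1) - f n := by
        intro n
        have h1 : f n - f (n+1) ∈ (I ^ n • ⊤ : Submodule R (M ⧸ K)) :=
          (SModEq.sub_mem).mp (hf (Nat.le_succ n))
        have h2 : f (n+1) - f n ∈ (I ^ n • ⊤ : Submodule R (M ⧸ K)) := by
          rw [← neg_sub]; exact Submodule.neg_mem _ h1
        rw [hmap, Submodule.mem_map] at h2
        exact h2
      choose d hdI hdf using hd
      obtain ⟨x0, hx0⟩ := K.mkQ_surjective (f 0)
      let F : ℕ → M := fun n => x0 + ∑ k ∈ Finset.range n, d k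
      have hF : ∀ n, K.mkQ (F n) = f n := by
        intro n
        induction n with
        | zero => simp [F, hx0]
        | succ n ih =>
          have e : F (n+1) = F n + d n := by simp [F, Finset.sum_range_succ, add_assoc]
          rw [e, map_add, ih, hdf n]; abel
      have hFc : ∀ {m n : ℕ}, m ≤ n → F m ≡ F n [SMOD (I ^ m • ⊤ : Submodule R M)] := by
        intro m n hmn
        rw [SModEq.sub_mem]
        have e : F n - F m = ∑ k ∈ Finset.Ico m n, d k := by
          simp only [F]; rw [← Finset.sum_range_add_sum_Ico _ hmn]; abel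
        rw [← neg_sub, e]
        refine Submodule.neg_mem _ (Submodule.sum_mem _ (fun k hk => ?_))
        have hk' : m ≤ k := (Finset.mem_Ico.mp hk).1
        exact Submodule.smul_mono_left (Ideal.pow_le_pow_right hk') (hdI k)
      obtain ⟨L, hL⟩ := IsPrecomplete.prec (IsAdicComplete.toIsPrecomplete (I := I) (M := M)) hFc
      refine ⟨K.mkQ L, fun n => ?_⟩
      rw [← hF n, SModEq.sub_mem, ← map_sub, hmap]
      exact Submodule.mem_map_of_mem ((SModEq.sub_mem).mp (hL n))
    exact { toIsHausdorff := haus, toIsPrecomplete := prec }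

end Groth.Agent.S9605
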