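import Groth.Statements.S9610
-- import your own Groth.Agent.* helpers here

set_option autoImplicit false
universe u
open CAlg

namespace Groth.Agent.S9610

/-- Let k be a field and V a nonzero k-vector space with dim_k V < #k as cardinals. Then every k-linear
endomorphism T of V admits a monic polynomial P over k for which P(T) is not invertible. -/
theorem result {k V : Type u} [Field k] [AddCommGroup V] [Module k V] [Nontrivial V] (hV : Module.rank k V < Cardinal.mk k) (T : Module.End k V) :
    ∃ P : Polynomial k, P.Monic ∧ ¬ IsUnit (Polynomial.aeval T P) := by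
  classical
  by_contra hcon
  push Not at hcon
  have hunit : ∀ P : Polynomial k, P ≠ 0 → IsUnit (Polynomial.aeval T P) := by
    intro P hP
    have hm : (P * Polynomial.C P.leadingCoeff⁻¹).Monic := Polynomial.monic_mul_leadingCoeff_inv hP
    have h1 := hcon _ hm
    have h2 : IsUnit (Polynomial.aeval T (Polynomial.C P.leadingCoeff)) := by
      rw [Polynomial.aeval_C]
      exact (isUnit_iff_ne_zero.mpr (Polynomial.leadingCoeff_ne_zero.mpr hP)).map _
    have : P = (P * Polynomial.C P.leadingCoeff⁻¹) * Polynomial.C P.leadingCoeff := by
      rw [mul_assoc, ← Polynomial.C_mul, inv_mul_cancel₀ (Polynomial.leadingCoeff_ne_zero.mpr hP),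
        Polynomial.C_1, mul_one]
    rw [this, map_mul]
    exact h1.mul h2
  obtain ⟨v, hv⟩ := exists_ne (0 : V)
  let u : k → (Module.End k V)ˣ := fun a =>
    (hunit (Polynomial.X - Polynomial.C a) (Polynomial.X_sub_C_ne_zero a)).unit
  let w : k → V := fun a => ((u a)⁻¹ : (Module.End k V)ˣ).1 v
  have hw : ∀ a, Polynomial.aeval T (Polynomial.X - Polynomial.C a) (w a) = v := by
    intro a
    have e1 : Polynomial.aeval T (Polynomial.X - Polynomial.C a) = (u a : Module.End k V) := rfl
    rw [e1]
    show ((u a : Module.End k V) * ((u a)⁻¹ : (Module.End k V)ˣ)) v = v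
    rw [Units.mul_inv]; rfl
  have hli : LinearIndependent k w := by
    refine linearIndependent_iff'.2 fun s m hm i hi => ?_
    let b : Module.End k V := Polynomial.aeval T (s.prod fun j => Polynomial.X - Polynomial.C j)
    have h1 : ∀ i ∈ s, b (m i • w i) = m i • Polynomial.aeval T
        ((s.erase i).prod fun j => Polynomial.X - Polynomial.C j) v := by
      intro i hi
      rw [map_smul]
      congr 1
      simp only [b]
      rw [← s.prod_erase_mul _ hi, map_mul, Module.End.mul_apply, hw]
    have hm' := congrArg b hm
    rw [map_sum, map_zero, Finset.sum_congr rfl h1] at hm'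
    let p : Polynomial k := s.sum fun i =>
      Polynomial.C (m i) * (s.erase i).prod fun j => Polynomial.X - Polynomial.C j
    have hp : Polynomial.aeval T p v = 0 := by
      rw [← hm']
      simp only [p, map_sum, map_mul, Polynomial.aeval_C, LinearMap.sum_apply,
        Module.End.mul_apply, Module.algebraMap_end_apply]
    have hp0 : p = 0 := by
      by_contra hne
      apply hv
      exact ((Module.End.isUnit_iff _).mp (hunit p hne)).1 (by rw [hp, map_zero])
    have hev := congrArg (Polynomial.eval i) hp0
    have h2 : ∀ j ∈ s.erase i, m j * ((s.erase j).prod fun x => i - x) = 0 := fun j hj => by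
      have := Finset.mem_erase_of_ne_of_mem (Finset.ne_of_mem_erase hj).symm hi
      simp_rw [← (s.erase j).prod_erase_mul _ this, sub_self, mul_zero]
    simp only [p, Polynomial.eval_finsetSum, Polynomial.eval_mul, Polynomial.eval_C,
      Polynomial.eval_prod, Polynomial.eval_sub, Polynomial.eval_X, Polynomial.eval_zero] at hev
    rw [← s.sum_erase_add _ hi, Finset.sum_eq_zero h2, zero_add] at hev
    exact eq_zero_of_ne_zero_of_mul_right_eq_zero (Finset.prod_ne_zero_iff.2 fun j hj =>
      sub_ne_zero.2 (Finset.ne_of_mem_erase hj).symm) hev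
  exact absurd hli.cardinal_le_rank (not_le.mpr hV)

end Groth.Agent.S9610
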