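import Groth.Statements.S9611
import Mathlib
-- import your own Groth.Agent.* helpers here

set_option autoImplicit false
universe u
open CAlg

namespace Groth.Agent.S9611

/-- Let R be a Jacobson ring, p a prime ideal of R which is not maximal, and f an element of R not in p.
Then the set of primes of R containing p and not containing f is infinite. -/
theorem result {R : Type u} [CommRing R] [IsJacobsonRing R] (p : Ideal R) [p.IsPrime] (hp : ¬ p.IsMaximal) (f : R) (hf : f ∉ p) :
    {q : PrimeSpectrum R | p ≤ q.asIdeal ∧ f ∉ q.asIdeal}.Infinite := by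
  intro hfin
  classical
  have hpp : p.IsPrime := inferInstance
  have hT : {m : Ideal R | p ≤ m ∧ m.IsMaximal ∧ f ∉ m}.Finite := by
    refine (hfin.image (fun q => q.asIdeal)).subset ?_
    rintro m ⟨hpm, hm, hfm⟩
    exact ⟨⟨m, hm.isPrime⟩, ⟨hpm, hfm⟩, rfl⟩
  have hjac : p.jacobson = p := IsJacobsonRing.out inferInstance hpp.isRadical
  have hA : Ideal.span {f} ⊓ hT.toFinset.inf id ≤ p := by
    refine le_trans ?_ hjac.le
    unfold Ideal.jacobson
    refine le_sInf ?_
    rintro J ⟨hpJ, hJ⟩
    by_cases hfJ : f ∈ J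
    · exact inf_le_left.trans ((Ideal.span_singleton_le_iff_mem J).mpr hfJ)
    · refine inf_le_right.trans ?_
      have hmem : J ∈ hT.toFinset := by
        rw [Set.Finite.mem_toFinset]
        exact ⟨hpJ, hJ, hfJ⟩
      exact Finset.inf_le (f := id) hmem
  rcases hpp.inf_le.mp hA with h | h
  · exact hf ((Ideal.span_singleton_le_iff_mem p).mp h)
  · obtain ⟨m, hm, hmp⟩ := (hpp.inf_le' (s := hT.toFinset) (f := id)).mp h
    rw [Set.Finite.mem_toFinset] at hm
    obtain ⟨hpm, hmax, -⟩ := hm
    have hmp' : m = p := le_antisymm hmp hpm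
    exact hp (hmp' ▸ hmax)

end Groth.Agent.S9611
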