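import Groth.Statements.S9612
import Mathlib.RingTheory.Jacobson.Ring
import Mathlib.RingTheory.PrincipalIdealDomain
import Mathlib.Algebra.Group.Int.Units

set_option autoImplicit false
universe u
open CAlg

namespace Groth.Agent.S9612

/-- the integers form a Jacobson ring -/
theorem isJacobsonRing_int' : IsJacobsonRing ℤ := by
  rw [isJacobsonRing_iff_prime_eq]
  intro P hP
  by_cases h : P = ⊥
  · subst h
    refine le_antisymm ?_ Ideal.le_jacobson
    intro x hx
    rw [Ideal.mem_jacobson_bot] at hx
    have hu := hx x
    rw [Int.isUnit_iff] at hu
    rw [Ideal.mem_bot]
    rcases hu with h1 | h1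
    · have : x * x = 0 := by linarith
      exact mul_self_eq_zero.mp this
    · have := mul_self_nonneg x
      linarith
  · haveI := hP
    haveI : P.IsMaximal := IsPrime.to_maximal_ideal h
    exact Ideal.jacobson_eq_self_of_isMaximal

/-- Every finitely generated algebra S over the integers is a Jacobson ring (every prime ideal is an
intersection of maximal ideals); this is the Nullstellensatz over Z. -/
theorem result {S : Type u} [CommRing S] [Algebra.FiniteType ℤ S] :
    IsJacobsonRing S := by
  haveI := isJacobsonRing_int'
  exact isJacobsonRing_of_finiteType (A := ℤ)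

end Groth.Agent.S9612
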