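import Groth.Statements.S9616
import Mathlib
-- import your own Groth.Agent.* helpers here

set_option autoImplicit false
universe u
open CAlg

namespace Groth.Agent.S9616

theorem Y9616_homog {R S : Type u} [CommRing R] [CommRing S] [Algebra R S] (𝒜 : ℕ → Submodule R S) [GradedAlgebra 𝒜]
    (J P : Ideal S) (hJ : J.IsHomogeneous 𝒜) (h : ¬ J ≤ P) : ∃ y ∈ J, ∃ d : ℕ, y ∈ 𝒜 d ∧ y ∉ P := by
  classical
  obtain ⟨y, hyJ, hyP⟩ := Set.not_subset.mp h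
  by_contra hcon
  push_neg at hcon
  apply hyP
  rw [← DirectSum.sum_support_decompose 𝒜 y]
  refine Ideal.sum_mem _ (fun i _ => ?_)
  exact hcon _ (hJ i hyJ) i (SetLike.coe_mem _)

theorem Y9616_pos {R S : Type u} [CommRing R] [CommRing S] [Algebra R S] (𝒜 : ℕ → Submodule R S) [GradedAlgebra 𝒜]
    (I : HomogeneousIdeal 𝒜) (hI : I ≤ HomogeneousIdeal.irrelevant 𝒜) (y : S) (hy : y ∈ I) (d : ℕ)
    (hyd : y ∈ 𝒜 d) (hy0 : y ≠ 0) : 0 < d := by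
  rcases Nat.eq_zero_or_pos d with rfl | h
  · exfalso; apply hy0
    have := hI hy
    rw [HomogeneousIdeal.mem_irrelevant_iff, GradedRing.proj_apply, DirectSum.decompose_of_mem_same 𝒜 hyd] at this
    exact this
  · exact h

theorem Y9616_main {R S : Type u} [CommRing R] [CommRing S] [Algebra R S] (𝒜 : ℕ → Submodule R S) [GradedAlgebra 𝒜]
    (I : HomogeneousIdeal 𝒜) (hI : I ≤ HomogeneousIdeal.irrelevant 𝒜) :
    ∀ s : Finset (Ideal S), (∀ P ∈ s, P.IsPrime ∧ P.IsHomogeneous 𝒜 ∧ ¬ I.toIdeal ≤ P) →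
      ∃ x : S, ∃ d : ℕ, 0 < d ∧ x ∈ 𝒜 d ∧ x ∈ I ∧ ∀ P ∈ s, x ∉ P := by
  classical
  intro s
  induction s using Finset.strongInduction with
  | H s ih =>
  intro hs
  rcases s.eq_empty_or_nonempty with rfl | hne
  · exact ⟨0, 1, one_pos, zero_mem _, zero_mem _, by simp⟩
  obtain ⟨P₀, hP₀min⟩ := (s : Set (Ideal S)).toFinite.exists_minimal (Finset.coe_nonempty.mpr hne)
  have hP₀s : P₀ ∈ s := hP₀min.1
  obtain ⟨x, dx, hdx, hx𝒜, hxI, hxs'⟩ := ih (s.erase P₀) (Finset.erase_ssubset hP₀s)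
    (fun P hP => hs P (Finset.mem_of_mem_erase hP))
  by_cases hxP₀ : x ∈ P₀
  swap
  · refine ⟨x, dx, hdx, hx𝒜, hxI, fun P hP => ?_⟩
    by_cases h : P = P₀
    · exact h ▸ hxP₀
    · exact hxs' P (Finset.mem_erase.mpr ⟨h, hP⟩)
  have hP₀p : P₀.IsPrime := (hs P₀ hP₀s).1
  obtain ⟨a, haI, da, ha𝒜, haP₀⟩ := Y9616_homog 𝒜 I.toIdeal P₀ I.isHomogeneous (hs P₀ hP₀s).2.2
  have hb : ∀ P ∈ s.erase P₀, ∃ b ∈ P, ∃ d : ℕ, b ∈ 𝒜 d ∧ b ∉ P₀ := by
    intro P hP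
    apply Y9616_homog 𝒜 P P₀ (hs P (Finset.mem_of_mem_erase hP)).2.1
    intro hle
    exact (Finset.mem_erase.mp hP).1 (le_antisymm hle (hP₀min.2 (Finset.mem_coe.mpr (Finset.mem_of_mem_erase hP)) hle))
  choose! b hbP db hb𝒜 hbP₀ using hb
  set y := a * ∏ P ∈ s.erase P₀, b P with hy
  set dy := da + ∑ P ∈ s.erase P₀, db P with hdy
  have hy𝒜 : y ∈ 𝒜 dy := SetLike.mul_mem_graded ha𝒜 (SetLike.prod_mem_graded _ db b (fun P hP => hb𝒜 P hP))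
  have hyI : y ∈ I := I.toIdeal.mul_mem_right _ haI
  have hyP₀ : y ∉ P₀ := by
    intro hmem
    rcases hP₀p.mem_or_mem hmem with h | h
    · exact haP₀ h
    · obtain ⟨P, hP, hbP'⟩ := (Ideal.IsPrime.prod_mem_iff (hp := hP₀p)).mp h
      exact hbP₀ P hP hbP'
  have hyP : ∀ P ∈ s.erase P₀, y ∈ P := by
    intro P hP
    exact Ideal.mul_mem_left _ _ (Ideal.mem_of_dvd _ (Finset.dvd_prod_of_mem b hP) (hbP P hP))
  have hy0 : y ≠ 0 := fun h => hyP₀ (h ▸ zero_mem _)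
  have hdy0 : 0 < dy := Y9616_pos 𝒜 I hI y hyI dy hy𝒜 hy0
  refine ⟨x ^ dy + y ^ dx, dx * dy, Nat.mul_pos hdx hdy0, ?_, ?_, ?_⟩
  · refine add_mem ?_ ?_
    · have := SetLike.pow_mem_graded dy hx𝒜
      rwa [smul_eq_mul, mul_comm] at this
    · have := SetLike.pow_mem_graded dx hy𝒜
      rwa [smul_eq_mul] at this
  · exact add_mem (I.toIdeal.pow_mem_of_mem hxI dy hdy0) (I.toIdeal.pow_mem_of_mem hyI dx hdx)
  · intro P hP hmem
    by_cases hPP₀ : P = P₀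
    · subst hPP₀
      have h1 : x ^ dy ∈ P := P.pow_mem_of_mem hxP₀ dy hdy0
      have h2 : y ^ dx ∈ P := (Ideal.add_mem_iff_right P h1).mp hmem
      exact hyP₀ (hP₀p.mem_of_pow_mem dx h2)
    · have hP' : P ∈ s.erase P₀ := Finset.mem_erase.mpr ⟨hPP₀, hP⟩
      have hPp : P.IsPrime := (hs P hP).1
      have h1 : y ^ dx ∈ P := P.pow_mem_of_mem (hyP P hP') dx hdx
      have h2 : x ^ dy ∈ P := (Ideal.add_mem_iff_left P h1).mp hmem
      exact hxs' P hP' (hPp.mem_of_pow_mem dy h2)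


/-- Let S be an ℕ-graded ring, p_1, …, p_r homogeneous prime ideals of S and I ⊆ S₊ a homogeneous ideal
not contained in any p_i. Then there is a homogeneous element x ∈ I of positive degree with x ∉ p_i
for all i. -/
theorem result {R S : Type u} [CommRing R] [CommRing S] [Algebra R S] (𝒜 : ℕ → Submodule R S) [GradedAlgebra 𝒜]
    {r : ℕ} (p : Fin r → HomogeneousIdeal 𝒜) (hp : ∀ i, (p i).toIdeal.IsPrime) (I : HomogeneousIdeal 𝒜) (hI : I ≤ HomogeneousIdeal.irrelevant 𝒜) (h : ∀ i, ¬ I ≤ p i) :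
    ∃ x : S, ∃ d : ℕ, 0 < d ∧ x ∈ 𝒜 d ∧ x ∈ I ∧ ∀ i, x ∉ p i := by
  classical
  obtain ⟨x, d, hd, hx𝒜, hxI, hxs⟩ := Y9616_main 𝒜 I hI (Finset.univ.image (fun i => (p i).toIdeal)) (by
    intro P hP
    obtain ⟨i, -, rfl⟩ := Finset.mem_image.mp hP
    exact ⟨hp i, (p i).isHomogeneous, fun hle => h i hle⟩)
  exact ⟨x, d, hd, hx𝒜, hxI, fun i => hxs _ (Finset.mem_image.mpr ⟨i, Finset.mem_univ _, rfl⟩)⟩

end Groth.Agent.S9616
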