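import Groth.Statements.S9619
import Mathlib
-- import your own Groth.Agent.* helpers here

set_option autoImplicit false
universe u
open CAlg

namespace Groth.Agent.S9619

theorem span_le_of_zeroLocus_eq {R : Type u} [CommRing R] (E E' : Set R) (hE : ∀ e ∈ E, IsIdempotentElem e)
    (h : PrimeSpectrum.zeroLocus E = PrimeSpectrum.zeroLocus E') :
    Ideal.span E ≤ Ideal.span E' := by
  rw [Ideal.span_le]
  intro e he
  have hrad : e ∈ (Ideal.span E').radical := by
    rw [← PrimeSpectrum.vanishingIdeal_zeroLocus_eq_radical, PrimeSpectrum.zeroLocus_span, ← h,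
      PrimeSpectrum.mem_vanishingIdeal]
    intro x hx
    exact (PrimeSpectrum.mem_zeroLocus _ _).mp hx he
  obtain ⟨n, hn⟩ := hrad
  cases n with
  | zero =>
    rw [pow_zero] at hn
    rw [Ideal.eq_top_of_isUnit_mem _ hn isUnit_one]
    exact Submodule.mem_top
  | succ n => rwa [(hE e he).pow_succ_eq n] at hn


/-- For a ring R and two sets E, E' of idempotent elements of R with the same zero locus in Spec R, the
ideals generated by E and by E' are equal. -/
theorem result {R : Type u} [CommRing R] (E E' : Set R) (hE : ∀ e ∈ E, IsIdempotentElem e) (hE' : ∀ e ∈ E', IsIdempotentElem e) (h : PrimeSpectrum.zeroLocus E = PrimeSpectrum.zeroLocus E') :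
    Ideal.span E = Ideal.span E' := by
  exact le_antisymm (span_le_of_zeroLocus_eq E E' hE h) (span_le_of_zeroLocus_eq E' E hE' h.symm)

end Groth.Agent.S9619
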