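import Groth.Statements.S9621
import Mathlib
-- import your own Groth.Agent.* helpers here

set_option autoImplicit false
universe u
open CAlg

namespace Groth.Agent.S9621

theorem exists_mul_pow_eq_zero_of_minimal {R : Type u} [CommRing R] (p : PrimeSpectrum R) (hp : p.asIdeal ∈ minimalPrimes R)
    (g : R) (hg : g ∈ p.asIdeal) : ∃ s ∉ p.asIdeal, ∃ n : ℕ, s * g ^ n = 0 := by
  have hrad := IsLocalization.AtPrime.radical_map_of_mem_minimalPrimes
    (A := Localization.AtPrime p.asIdeal) p.asIdeal ⊥ hp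
  rw [Ideal.map_bot] at hrad
  have : algebraMap R (Localization.AtPrime p.asIdeal) g ∈
      (⊥ : Ideal (Localization.AtPrime p.asIdeal)).radical := by
    rw [hrad]; exact Ideal.mem_map_of_mem _ hg
  obtain ⟨n, hn⟩ := this
  rw [Ideal.mem_bot, ← map_pow, IsLocalization.map_eq_zero_iff p.asIdeal.primeCompl] at hn
  obtain ⟨⟨s, hs⟩, hsn⟩ := hn
  exact ⟨s, hs, n, hsn⟩


/-- Let R be a ring, p a minimal prime of R and W a quasi-compact open subset of Spec R not containing
p. Then there is an f ∈ R, f ∉ p, whose basic open D(f) is disjoint from W. -/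
theorem result {R : Type u} [CommRing R] (p : PrimeSpectrum R) (hp : p.asIdeal ∈ minimalPrimes R) (W : Set (PrimeSpectrum R)) (hWo : IsOpen W) (hWc : IsCompact W) (hpW : p ∉ W) :
    ∃ f : R, f ∉ p.asIdeal ∧ Disjoint (PrimeSpectrum.basicOpen f : Set (PrimeSpectrum R)) W := by
  classical
  obtain ⟨t, ht⟩ := PrimeSpectrum.isCompact_isOpen_iff.mp ⟨hWc, hWo⟩
  have htp : ∀ g ∈ t, g ∈ p.asIdeal := by
    intro g hg
    by_contra hgp
    apply hpW
    rw [← ht]
    intro hz
    exact hgp ((PrimeSpectrum.mem_zeroLocus _ _).mp hz hg)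
  have key : ∀ g ∈ t, ∃ s ∉ p.asIdeal, ∃ n : ℕ, s * g ^ n = 0 :=
    fun g hg => exists_mul_pow_eq_zero_of_minimal p hp g (htp g hg)
  choose! sf hsf nf hnf using key
  refine ⟨∏ g ∈ t, sf g, ?_, ?_⟩
  · intro hmem
    obtain ⟨g, hg, hgm⟩ := (Ideal.IsPrime.prod_mem_iff (hp := p.isPrime)).mp hmem
    exact hsf g hg hgm
  · rw [Set.disjoint_left]
    intro x hxf hxW
    rw [← ht] at hxW
    have : ∃ g ∈ t, g ∉ x.asIdeal := by
      by_contra hcon
      push_neg at hcon
      exact hxW ((PrimeSpectrum.mem_zeroLocus _ _).mpr hcon)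
    obtain ⟨g, hg, hgx⟩ := this
    have hsx : sf g ∉ x.asIdeal := by
      intro hs
      apply hxf
      exact Ideal.mem_of_dvd _ (Finset.dvd_prod_of_mem sf hg) hs
    have h0 : sf g * g ^ nf g ∈ x.asIdeal := by rw [hnf g hg]; exact x.asIdeal.zero_mem
    rcases x.isPrime.mem_or_mem h0 with h1 | h1
    · exact hsx h1
    · exact hgx (x.isPrime.mem_of_pow_mem _ h1)

end Groth.Agent.S9621
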