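import Groth.Statements.S9622
import Mathlib
-- import your own Groth.Agent.* helpers here

set_option autoImplicit false
universe u
open CAlg

namespace Groth.Agent.S9622

/-- Let R → S be a ring map whose target S is a local Artinian ring, and write m for the maximal ideal
of S. Then S is a finite R-module exactly when S/m is, and S is an R-algebra of finite type exactly
when S/m is. -/
theorem result {R S : Type u} [CommRing R] [CommRing S] [Algebra R S] [IsArtinianRing S] [IsLocalRing S] :
    (Module.Finite R S ↔ Module.Finite R (S ⧸ IsLocalRing.maximalIdeal S)) ∧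
      (Algebra.FiniteType R S ↔ Algebra.FiniteType R (S ⧸ IsLocalRing.maximalIdeal S)) := by
  classical
  set m := IsLocalRing.maximalIdeal S with hm
  have hnil : m ≤ nilradical S := by
    rw [nilradical, ← IsArtinianRing.jacobson_eq_radical]
    exact IsLocalRing.maximalIdeal_le_jacobson _
  have hfg : m.FG := IsNoetherian.noetherian m
  have hker : ∀ (B : Type u) [CommRing B] [Algebra B S], RingHom.ker (Ideal.Quotient.mkₐ B m) = m := by
    intro B _ _
    ext x
    rw [RingHom.mem_ker, Ideal.Quotient.mkₐ_eq_mk, Ideal.Quotient.eq_zero_iff_mem]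
  refine ⟨⟨fun h => ?_, fun h => ?_⟩, ⟨fun h => inferInstance, fun h => ?_⟩⟩
  · exact Module.Finite.of_surjective (Ideal.Quotient.mkₐ R m).toLinearMap (Ideal.Quotient.mkₐ_surjective R m)
  · exact Module.finite_of_surjective_of_ker_le_nilradical (Ideal.Quotient.mkₐ R m)
      (Ideal.Quotient.mkₐ_surjective R m) (by rw [hker]; exact hnil)
      (by rw [hker]; exact hfg)
  · obtain ⟨t, ht⟩ := h.out
    let lift : S ⧸ m → S := Function.surjInv (Ideal.Quotient.mk_surjective (I := m))
    have hlift : ∀ y, Ideal.Quotient.mk m (lift y) = y := Function.surjInv_eq _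
    let A : Subalgebra R S := Algebra.adjoin R (lift '' (t : Set (S ⧸ m)))
    have hA : Algebra.FiniteType R A := by
      rw [← Subalgebra.fg_iff_finiteType]
      exact ⟨t.image lift, by simp [A]⟩
    have hsurj : Function.Surjective (algebraMap A (S ⧸ m)) := by
      have hmap : A.map (Ideal.Quotient.mkₐ R m) = ⊤ := by
        rw [AlgHom.map_adjoin, ← ht]
        congr 1
        rw [Set.image_image]
        simp [hlift]
      intro y
      have : y ∈ A.map (Ideal.Quotient.mkₐ R m) := hmap ▸ Algebra.mem_top
      obtain ⟨a, ha, rfl⟩ := Subalgebra.mem_map.mp this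
      exact ⟨⟨a, ha⟩, rfl⟩
    have hfinA : Module.Finite A (S ⧸ m) :=
      Module.Finite.of_surjective (Algebra.linearMap A (S ⧸ m)) hsurj
    have hSA : Module.Finite A S := Module.finite_of_surjective_of_ker_le_nilradical
      (Ideal.Quotient.mkₐ A m) (Ideal.Quotient.mkₐ_surjective A m)
      (by rw [hker]; exact hnil) (by rw [hker]; exact hfg)
    exact Algebra.FiniteType.trans hA inferInstance

end Groth.Agent.S9622
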