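import Groth.Statements.S9628
import Mathlib
-- import your own Groth.Agent.* helpers here

set_option autoImplicit false
universe u
open CAlg

namespace Groth.Agent.S9628

open TensorProduct in
/-- Let k be a field and S a geometrically integral k-algebra, meaning that k' ⊗_k S is an integral
domain for every field extension k'/k. If R is a k-algebra that is a domain, then R ⊗_k S is a
domain as well. Here the test fields range over field extensions in the universe of k; this is
equivalent to the unrestricted notion, since an algebraic closure of k suffices as a test. -/
theorem result {k R S : Type u} [Field k] [CommRing R] [IsDomain R] [CommRing S] [Algebra k R] [Algebra k S]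
    (hS : ∀ (k' : Type u) [Field k'] [Algebra k k'], IsDomain (k' ⊗[k] S)) :
    IsDomain (R ⊗[k] S) := by
  have hK := hS (FractionRing R)
  let f : R →ₐ[k] FractionRing R := IsScalarTower.toAlgHom k R (FractionRing R)
  let F : R ⊗[k] S →ₐ[k] FractionRing R ⊗[k] S := Algebra.TensorProduct.map f (AlgHom.id k S)
  have hinj : Function.Injective F := by
    have h1 : Function.Injective f.toLinearMap := IsFractionRing.injective R (FractionRing R)
    exact Module.Flat.rTensor_preserves_injective_linearMap (M := S) f.toLinearMap h1
  exact Function.Injective.isDomain F.toRingHom hinj

end Groth.Agent.S9628
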