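import Groth.Statements.S9637
import Mathlib
-- import your own Groth.Agent.* helpers here

set_option autoImplicit false
universe u
open CAlg

namespace Groth.Agent.S9637

/-- Let R be a local Noetherian ring, I an ideal contained in its maximal ideal, and M a finite
R-module. Then I contains an M-regular element (one acting injectively on M) if and only if no
associated prime of M contains I. -/
theorem result {R : Type u} [CommRing R] [IsNoetherianRing R] [IsLocalRing R] (I : Ideal R) (hI : I ≤ IsLocalRing.maximalIdeal R) (M : Type u) [AddCommGroup M] [Module R M] [Module.Finite R M] :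
    (∃ x ∈ I, IsSMulRegular M x) ↔ ∀ q ∈ associatedPrimes R M, ¬ I ≤ q := by
  constructor
  · rintro ⟨x, hxI, hx⟩ q hq hIq
    have hxq : x ∈ q := hIq hxI
    have : x ∈ ⋃ p ∈ associatedPrimes R M, (p : Set R) := Set.mem_biUnion hq hxq
    rw [biUnion_associatedPrimes_eq_zero_divisors] at this
    obtain ⟨y, hy0, hxy⟩ := this
    exact hy0 (hx.right_eq_zero_of_smul hxy)
  · intro h
    classical
    have hfin : (associatedPrimes R M).Finite := associatedPrimes.finite R M
    by_contra hcon
    push_neg at hcon
    have hsub : (I : Set R) ⊆ ⋃ i ∈ (↑hfin.toFinset : Set (Ideal R)), ((id i : Ideal R) : Set R) := by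
      intro x hx
      have hzd : x ∈ {r : R | ∃ y : M, y ≠ 0 ∧ r • y = 0} := by
        have := hcon x hx
        rw [isSMulRegular_iff_right_eq_zero_of_smul] at this
        push_neg at this
        obtain ⟨m, h1, h2⟩ := this
        exact ⟨m, h2, h1⟩
      rw [← biUnion_associatedPrimes_eq_zero_divisors] at hzd
      simpa using hzd
    rw [Ideal.subset_union_prime ⊥ ⊥ (fun i hi _ _ => ?_)] at hsub
    · obtain ⟨i, hi, hIi⟩ := hsub
      exact h i (by simpa using hi) hIi
    · exact (show i ∈ associatedPrimes R M by simpa using hi).isPrime

end Groth.Agent.S9637
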