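import Groth.Statements.S9639
import Mathlib
-- import your own Groth.Agent.* helpers here

set_option autoImplicit false
universe u
open CAlg

namespace Groth.Agent.S9639

open TensorProduct in
theorem denseRange_tensor_subalgebra {k S : Type u} [Field k] [CommRing S] [Algebra k S]
    (S' : Subalgebra k S) (k' : Type u) [Field k'] [Algebra k k'] :
    DenseRange (PrimeSpectrum.comap
      (Algebra.TensorProduct.map (AlgHom.id k k') S'.val).toRingHom) := by
  rw [PrimeSpectrum.denseRange_comap_iff_ker_le_nilRadical]
  have hinj : Function.Injective (Algebra.TensorProduct.map (AlgHom.id k k') S'.val) :=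
    TensorProduct.map_injective_of_flat_flat (AlgHom.id k k').toLinearMap S'.val.toLinearMap
      (fun _ _ h => h) Subtype.val_injective
  intro x hx
  rw [RingHom.mem_ker] at hx
  have : x = 0 := hinj (by rw [map_zero]; exact hx)
  rw [this]
  exact Ideal.zero_mem _


open TensorProduct in
/-- Let k be a field and S a k-algebra such that Spec(k' ⊗_k S) is connected for every field extension
k'/k. Then every k-subalgebra of S has the same property. Here the test fields range over field
extensions in the universe of k; this is equivalent to the unrestricted notion, since an algebraic
closure of k suffices as a test. -/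
theorem result {k S : Type u} [Field k] [CommRing S] [Algebra k S]
    (hS : ∀ (k' : Type u) [Field k'] [Algebra k k'], ConnectedSpace (PrimeSpectrum (k' ⊗[k] S))) (S' : Subalgebra k S) :
    ∀ (k' : Type u) [Field k'] [Algebra k k'], ConnectedSpace (PrimeSpectrum (k' ⊗[k] S')) := by
  intro k' _ _
  have := hS k'
  have hd := denseRange_tensor_subalgebra S' k'
  rw [connectedSpace_iff_univ, ← hd.closure_range]
  exact (isConnected_range (PrimeSpectrum.continuous_comap _)).closure

end Groth.Agent.S9639
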