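import Groth.Statements.S9641
import Mathlib
-- import your own Groth.Agent.* helpers here

set_option autoImplicit false
universe u
open CAlg

namespace Groth.Agent.S9641

open TensorProduct in
/-- Let k be a field and R, S two k-algebras. If R ⊗_k S is not reduced then there are finitely
generated k-subalgebras R' ⊆ R and S' ⊆ S such that R' ⊗_k S' is not reduced. -/
theorem result {k R S : Type u} [Field k] [CommRing R] [CommRing S] [Algebra k R] [Algebra k S] (h : ¬ IsReduced (R ⊗[k] S)) :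
    ∃ (R' : Subalgebra k R) (S' : Subalgebra k S), R'.FG ∧ S'.FG ∧ ¬ IsReduced (R' ⊗[k] S') := by
  obtain ⟨x, hxn, hx0⟩ : ∃ x : R ⊗[k] S, IsNilpotent x ∧ x ≠ 0 := by
    by_contra hcon
    push_neg at hcon
    exact h ⟨fun x hx => hcon x hx⟩
  have key : ∀ z : R ⊗[k] S, ∃ (R' : Subalgebra k R) (S' : Subalgebra k S), R'.FG ∧ S'.FG ∧
      z ∈ Set.range (Algebra.TensorProduct.map R'.val S'.val) := by
    intro z
    induction z using TensorProduct.induction_on with
    | zero => exact ⟨⊥, ⊥, Subalgebra.fg_bot, Subalgebra.fg_bot, 0, map_zero _⟩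
    | tmul a b =>
      refine ⟨Algebra.adjoin k {a}, Algebra.adjoin k {b}, ⟨{a}, by rw [Finset.coe_singleton]⟩,
        ⟨{b}, by rw [Finset.coe_singleton]⟩, ⟨⟨a, Algebra.subset_adjoin (Set.mem_singleton a)⟩ ⊗ₜ
          ⟨b, Algebra.subset_adjoin (Set.mem_singleton b)⟩, ?_⟩⟩
      rw [Algebra.TensorProduct.map_tmul]
      rfl
    | add z w hz hw =>
      obtain ⟨R1, S1, hR1, hS1, z', rfl⟩ := hz
      obtain ⟨R2, S2, hR2, hS2, w', rfl⟩ := hw
      refine ⟨R1 ⊔ R2, S1 ⊔ S2, hR1.sup hR2, hS1.sup hS2,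
        (Algebra.TensorProduct.map (Subalgebra.inclusion (le_sup_left : R1 ≤ R1 ⊔ R2))
          (Subalgebra.inclusion (le_sup_left : S1 ≤ S1 ⊔ S2)) :
            R1 ⊗[k] S1 →ₐ[k] ↥(R1 ⊔ R2) ⊗[k] ↥(S1 ⊔ S2)) z' +
        (Algebra.TensorProduct.map (Subalgebra.inclusion (le_sup_right : R2 ≤ R1 ⊔ R2))
          (Subalgebra.inclusion (le_sup_right : S2 ≤ S1 ⊔ S2)) :
            R2 ⊗[k] S2 →ₐ[k] ↥(R1 ⊔ R2) ⊗[k] ↥(S1 ⊔ S2)) w', ?_⟩
      rw [map_add, ← AlgHom.comp_apply, ← AlgHom.comp_apply, ← Algebra.TensorProduct.map_comp,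
        ← Algebra.TensorProduct.map_comp, Subalgebra.val_comp_inclusion,
        Subalgebra.val_comp_inclusion, Subalgebra.val_comp_inclusion, Subalgebra.val_comp_inclusion]
  obtain ⟨R', S', hR', hS', y, rfl⟩ := key x
  refine ⟨R', S', hR', hS', ?_⟩
  intro hred
  have hinj : Function.Injective (Algebra.TensorProduct.map R'.val S'.val) :=
    TensorProduct.map_injective_of_flat_flat R'.val.toLinearMap S'.val.toLinearMap
      Subtype.val_injective Subtype.val_injective
  apply hx0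
  obtain ⟨n, hn⟩ := hxn
  have hy : IsNilpotent y := ⟨n, hinj (by rw [map_pow, hn, map_zero])⟩
  rw [hred.eq_zero y hy, map_zero]

end Groth.Agent.S9641
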