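import Groth.Statements.S9643
import Mathlib
-- import your own Groth.Agent.* helpers here

set_option autoImplicit false
universe u
open CAlg

namespace Groth.Agent.S9643

/-- Let R be a Noetherian ring, M a finite R-module and 0 = M_0 ⊆ M_1 ⊆ ⋯ ⊆ M_n = M a chain of
submodules whose successive quotients M_i/M_{i-1} are isomorphic to R/p_i for prime ideals p_i. Then
the primes minimal among p_1, …, p_n are exactly the primes minimal in the support of M. -/
theorem result {R : Type u} [CommRing R] [IsNoetherianRing R] (M : Type u) [AddCommGroup M] [Module R M] [Module.Finite R M]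
    {n : ℕ} (N : Fin (n + 1) → Submodule R M) (hN : Monotone N) (h0 : N 0 = ⊥) (hlast : N (Fin.last n) = ⊤)
    (p : Fin n → PrimeSpectrum R)
    (hquot : ∀ i : Fin n, Nonempty ((↥(N i.succ) ⧸ Submodule.comap (N i.succ).subtype (N i.castSucc)) ≃ₗ[R] (R ⧸ (p i).asIdeal))) :
    {q : PrimeSpectrum R | Minimal (fun x => x ∈ Set.range p) q} = {q : PrimeSpectrum R | Minimal (fun x => x ∈ Module.support R M) q} := by
  have hRp : ∀ i : Fin n, Module.support R (R ⧸ (p i).asIdeal) = {q | p i ≤ q} := by
    intro i
    rw [Module.support_eq_zeroLocus, Ideal.annihilator_quotient]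
    ext q
    simp only [PrimeSpectrum.mem_zeroLocus, Set.mem_setOf_eq, SetLike.coe_subset_coe]
    rfl
  have claim : ∀ k : ℕ, (hk : k < n + 1) →
      Module.support R (N ⟨k, hk⟩) = {q | ∃ i : Fin n, i.val < k ∧ p i ≤ q} := by
    intro k
    induction k with
    | zero =>
      intro hk
      have e : (⟨0, hk⟩ : Fin (n + 1)) = 0 := rfl
      rw [e, h0]
      rw [Module.support_eq_empty]
      ext q
      simp
    | succ k ih =>
      intro hk
      have hkn : k < n := by omega
      set i : Fin n := ⟨k, hkn⟩ with hi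
      have e1 : (⟨k + 1, hk⟩ : Fin (n + 1)) = i.succ := rfl
      have e2 : (⟨k, by omega⟩ : Fin (n + 1)) = i.castSucc := rfl
      have hle : N i.castSucc ≤ N i.succ := hN (Fin.castSucc_le_succ i)
      have hex : Function.Exact (Submodule.inclusion hle)
          (Submodule.mkQ (Submodule.comap (N i.succ).subtype (N i.castSucc))) := by
        intro y
        rw [Submodule.mkQ_apply, Submodule.Quotient.mk_eq_zero, Submodule.mem_comap,
          Submodule.coe_subtype]
        constructor
        · intro hy; exact ⟨⟨y, hy⟩, rfl⟩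
        · rintro ⟨z, rfl⟩; exact z.2
      have hs := Module.support_of_exact hex (Submodule.inclusion_injective hle) (Submodule.mkQ_surjective _)
      rw [e1, hs, (hquot i).some.support_eq, hRp i, ← e2, ih (by omega)]
      ext q
      simp only [Set.mem_union, Set.mem_setOf_eq]
      constructor
      · rintro (⟨j, hj, hjq⟩ | hq)
        · exact ⟨j, by omega, hjq⟩
        · exact ⟨i, by simp [hi], hq⟩
      · rintro ⟨j, hj, hjq⟩
        by_cases hjk : j.val < k
        · exact Or.inl ⟨j, hjk, hjq⟩
        · right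
          have : j = i := Fin.ext (by simp [hi]; omega)
          rw [← this]; exact hjq
  have hsupp : Module.support R M = {q | ∃ j : Fin n, p j ≤ q} := by
    have h1 : Module.support R M = Module.support R (N (Fin.last n)) := by
      rw [hlast]; exact (LinearEquiv.support_eq (Submodule.topEquiv)).symm
    rw [h1]
    have h2 := claim n (by omega)
    have e : (⟨n, by omega⟩ : Fin (n + 1)) = Fin.last n := rfl
    rw [e] at h2
    rw [h2]
    ext q
    simp only [Set.mem_setOf_eq]
    constructor
    · rintro ⟨j, -, hj⟩; exact ⟨j, hj⟩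
    · rintro ⟨j, hj⟩; exact ⟨j, j.2, hj⟩
  ext q
  simp only [Set.mem_setOf_eq]
  rw [hsupp]
  constructor
  · rintro ⟨⟨j, rfl⟩, hmin⟩
    refine ⟨⟨j, le_rfl⟩, fun q' hq' hq'le => ?_⟩
    obtain ⟨j', hj'⟩ := hq'
    exact (hmin ⟨j', rfl⟩ (hj'.trans hq'le)).trans hj'
  · rintro ⟨⟨j, hj⟩, hmin⟩
    have hq : q = p j := le_antisymm (hmin ⟨j, le_rfl⟩ hj) hj
    refine ⟨⟨j, hq.symm⟩, fun q' hq' hq'le => ?_⟩
    obtain ⟨j', rfl⟩ := hq'
    exact hmin ⟨j', le_rfl⟩ hq'le

end Groth.Agent.S9643
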