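import Groth.Statements.S9645
import Mathlib
-- import your own Groth.Agent.* helpers here

set_option autoImplicit false
universe u
open CAlg

namespace Groth.Agent.S9645

/-- Integral closure commutes with localization. Let A → B be a ring map, S a multiplicative subset of
A, and A_S, B_S the localizations of A at S and of B at the image of S. Then an element x of B_S is
integral over A_S if and only if x·s = b for some s ∈ S and some b ∈ B integral over A (images taken
in B_S); that is, the integral closure of A_S in B_S is S⁻¹B' for B' the integral closure of A in B. -/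
theorem result {A B As Bs : Type u} [CommRing A] [CommRing B] [CommRing As] [CommRing Bs] [Algebra A B] [Algebra A As] [Algebra B Bs] [Algebra As Bs] [Algebra A Bs] [IsScalarTower A B Bs] [IsScalarTower A As Bs]
    (S : Submonoid A) [IsLocalization S As] [IsLocalization (Algebra.algebraMapSubmonoid B S) Bs] (x : Bs) :
    IsIntegral As x ↔ ∃ b : B, IsIntegral A b ∧ ∃ s ∈ S, x * algebraMap A Bs s = algebraMap B Bs b := by
  constructor
  · intro hx
    obtain ⟨⟨m, hm⟩, hm1⟩ := IsIntegral.exists_multiple_integral_of_isLocalization S _ hx
    rw [Submonoid.smul_def] at hm1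
    obtain ⟨⟨b0, ⟨_, s0, hs0, rfl⟩⟩, e⟩ := IsLocalization.surj (Algebra.algebraMapSubmonoid B S) (m • x)
    simp only at e
    have hb0 : IsIntegral A (algebraMap B Bs b0) := by
      rw [← e, ← IsScalarTower.algebraMap_apply A B Bs s0]
      exact hm1.mul isIntegral_algebraMap
    obtain ⟨m', hm', hm'1⟩ := IsLocalization.exists_isIntegral_smul_of_isIntegral_map (Sₘ := Bs) S hb0
    refine ⟨m' • b0, hm'1, m' * s0 * m, S.mul_mem (S.mul_mem hm' hs0) hm, ?_⟩
    have e' : algebraMap A Bs m * x * algebraMap A Bs s0 = algebraMap B Bs b0 := by
      rw [← e, Algebra.smul_def, IsScalarTower.algebraMap_apply A B Bs s0]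
    calc x * algebraMap A Bs (m' * s0 * m)
        = algebraMap A Bs m' * (algebraMap A Bs m * x * algebraMap A Bs s0) := by
          rw [map_mul, map_mul]; ring
      _ = algebraMap B Bs (m' • b0) := by
          rw [e', Algebra.smul_def, map_mul, ← IsScalarTower.algebraMap_apply A B Bs]
  · rintro ⟨b, hb, s, hs, e⟩
    have hb' : IsIntegral As (algebraMap B Bs b) := by
      have : IsIntegral A (algebraMap B Bs b) := hb.map (IsScalarTower.toAlgHom A B Bs)
      exact this.tower_top
    set v : As := IsLocalization.mk' As (1 : A) (⟨s, hs⟩ : S) with hv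
    have hsv : algebraMap A As s * v = 1 := by
      rw [hv, mul_comm, IsLocalization.mk'_spec, map_one]
    have hx : x = algebraMap B Bs b * algebraMap As Bs v := by
      rw [← e, mul_assoc, IsScalarTower.algebraMap_apply A As Bs s, ← map_mul, hsv, map_one, mul_one]
    rw [hx]
    exact hb'.mul isIntegral_algebraMap

end Groth.Agent.S9645
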