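import Groth.Statements.S9646
import Mathlib
-- import your own Groth.Agent.* helpers here

set_option autoImplicit false
universe u
open CAlg

namespace Groth.Agent.S9646

/-- (2) ⇒ (1): let R → S be a ring map and x ∈ S. If for every prime ideal p of R the image of x in S_p
(the localization of S at the image of R ∖ p) is integral over R_p, then x is integral over R. Here
R_p and S_p are any rings satisfying the localization universal properties. -/
theorem result {R S : Type u} [CommRing R] [CommRing S] [Algebra R S] (x : S)
    (h : ∀ (p : Ideal R) [p.IsPrime] (Rp Sp : Type u) [CommRing Rp] [CommRing Sp] [Algebra R Rp] [Algebra S Sp] [Algebra Rp Sp] [Algebra R Sp] [IsScalarTower R S Sp] [IsScalarTower R Rp Sp] [IsLocalization.AtPrime Rp p] [IsLocalization (Algebra.algebraMapSubmonoid S p.primeCompl) Sp], IsIntegral Rp (algebraMap S Sp x)) :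
    IsIntegral R x := by
  have hloc : ∀ (p : Ideal R) [p.IsPrime], ∃ t ∉ p, IsIntegral R (t • x) := by
    intro p _
    have h1 := h p (Localization.AtPrime p) (Localization (Algebra.algebraMapSubmonoid S p.primeCompl))
    obtain ⟨⟨m, hm⟩, hm1⟩ := IsIntegral.exists_multiple_integral_of_isLocalization p.primeCompl _ h1
    rw [Submonoid.smul_def] at hm1
    have h2 : IsIntegral R (algebraMap S (Localization (Algebra.algebraMapSubmonoid S p.primeCompl)) (m • x)) := by
      have e : algebraMap S (Localization (Algebra.algebraMapSubmonoid S p.primeCompl)) (m • x) =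
          m • algebraMap S (Localization (Algebra.algebraMapSubmonoid S p.primeCompl)) x := by
        rw [Algebra.smul_def, Algebra.smul_def, map_mul, ← IsScalarTower.algebraMap_apply]
      rw [e]; exact hm1
    obtain ⟨m', hm', hm'1⟩ := IsLocalization.exists_isIntegral_smul_of_isIntegral_map p.primeCompl h2
    refine ⟨m' * m, ?_, ?_⟩
    · exact p.primeCompl.mul_mem hm' hm
    · rw [mul_smul]; exact hm'1
  let J : Ideal R := Submodule.comap (LinearMap.toSpanSingleton R S x) (integralClosure R S).toSubmodule
  have hJ : J = ⊤ := by
    by_contra hne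
    obtain ⟨p, hp, hJp⟩ := Ideal.exists_le_maximal J hne
    obtain ⟨t, htp, ht⟩ := hloc p
    exact htp (hJp (show t ∈ J from ht))
  have h1 : (1 : R) ∈ J := hJ ▸ Submodule.mem_top
  have h2 : IsIntegral R ((1 : R) • x) := h1
  simpa using h2

end Groth.Agent.S9646
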