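import Groth.Statements.S9656
import Mathlib
-- import your own Groth.Agent.* helpers here

set_option autoImplicit false
universe u
open CAlg

namespace Groth.Agent.S9656

/-- Let R_i → S_i be ring maps indexed by a finite type ι, with product map R = Π R_i → S = Π S_i. Then
an element (s_i) of S is integral over R exactly when s_i is integral over R_i for every i; so
integral closure in a finite product is computed factor by factor. -/
theorem result {ι : Type u} [Fintype ι] {R S : ι → Type u} [∀ i, CommRing (R i)] [∀ i, CommRing (S i)] (f : ∀ i, R i →+* S i) (s : ∀ i, S i) :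
    (RingHom.pi fun i => (f i).comp (Pi.evalRingHom R i)).IsIntegralElem s ↔ ∀ i, (f i).IsIntegralElem (s i) := by
  classical
  set φ := RingHom.pi fun i => (f i).comp (Pi.evalRingHom R i) with hφ
  have hcomp : ∀ i, (Pi.evalRingHom S i).comp φ = (f i).comp (Pi.evalRingHom R i) := by
    intro i; ext x; rfl
  have heval : ∀ (P : Polynomial (∀ i, R i)) i, (P.eval₂ φ s) i = (P.map (Pi.evalRingHom R i)).eval₂ (f i) (s i) := by
    intro P i
    rw [Polynomial.eval₂_map, ← hcomp i]
    exact (Polynomial.hom_eval₂ P φ (Pi.evalRingHom S i) s)
  constructor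
  · rintro ⟨P, hPm, hP0⟩ i
    refine ⟨P.map (Pi.evalRingHom R i), hPm.map _, ?_⟩
    rw [← heval, hP0]; rfl
  · intro h
    choose p hpm hp0 using h
    set n := Finset.univ.sup (fun i => (p i).natDegree) with hn
    set q : ∀ i, Polynomial (R i) := fun i => p i * Polynomial.X ^ (n - (p i).natDegree) with hq
    have hqm : ∀ i, (q i).Monic := fun i => (hpm i).mul (Polynomial.monic_X_pow _)
    have hqdeg : ∀ i, (q i).natDegree ≤ n := by
      intro i
      rw [hq]; dsimp only
      have : (p i).natDegree ≤ n := Finset.le_sup (f := fun i => (p i).natDegree) (Finset.mem_univ i)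
      refine (Polynomial.natDegree_mul_le).trans ?_
      have h2 := Polynomial.natDegree_X_pow_le (R := R i) (n - (p i).natDegree)
      omega
    have hqlead : ∀ i, (q i).coeff n = 1 := by
      intro i
      rw [hq]; dsimp only
      have : (p i).natDegree ≤ n := Finset.le_sup (f := fun i => (p i).natDegree) (Finset.mem_univ i)
      have key := Polynomial.coeff_mul_X_pow (p i) (n - (p i).natDegree) (p i).natDegree
      rw [show (p i).natDegree + (n - (p i).natDegree) = n by omega] at key
      rw [key]
      exact (hpm i).coeff_natDegree
    have hq0 : ∀ i, (q i).eval₂ (f i) (s i) = 0 := by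
      intro i; rw [hq]; dsimp only; rw [Polynomial.eval₂_mul, hp0 i, zero_mul]
    set P : Polynomial (∀ i, R i) := ∑ k ∈ Finset.range (n+1), Polynomial.monomial k (fun i => (q i).coeff k) with hP
    have hPc : ∀ k, P.coeff k = fun i => (q i).coeff k := by
      intro k
      rw [hP, Polynomial.finsetSum_coeff]
      simp only [Polynomial.coeff_monomial]
      rw [Finset.sum_ite_eq']
      split_ifs with hk
      · rfl
      · funext i
        rw [Finset.mem_range, not_lt] at hk
        rw [Polynomial.coeff_eq_zero_of_natDegree_lt (by have := hqdeg i; omega)]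
        rfl
    have hPmap : ∀ i, P.map (Pi.evalRingHom R i) = q i := by
      intro i; ext k; rw [Polynomial.coeff_map, hPc k]; rfl
    refine ⟨P, ?_, ?_⟩
    · apply Polynomial.monic_of_natDegree_le_of_coeff_eq_one n
      · rw [Polynomial.natDegree_le_iff_coeff_eq_zero]
        intro k hk
        rw [hPc k]; funext i
        exact Polynomial.coeff_eq_zero_of_natDegree_lt (by have := hqdeg i; omega)
      · rw [hPc n]; funext i
        exact hqlead i
    · funext i
      rw [heval, hPmap i, hq0 i]; rfl

end Groth.Agent.S9656
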