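import Groth.Statements.S9658
import Mathlib
-- import your own Groth.Agent.* helpers here

set_option autoImplicit false
universe u
open CAlg

namespace Groth.Agent.S9658

/-- Let R be a ring, f_1, …, f_n ∈ R generating the unit ideal and M an R-module. With M_i = M_{f_i},
M_ij = M_{f_i f_j} (any localizations, with the canonical compatible maps M → M_i → M_ij), the
sequence 0 → M → ⊕ M_i → ⊕ M_ij is exact: an element of M whose image vanishes in every M_i is zero,
and every family (m_i ∈ M_i) such that m_i and m_j have the same image in M_ij for all i, j is the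
image of an element of M. -/
theorem result {R : Type u} [CommRing R] {ι : Type u} [Fintype ι] (f : ι → R) (hf : Ideal.span (Set.range f) = ⊤)
    (M : Type u) [AddCommGroup M] [Module R M]
    (Mi : ι → Type u) [∀ i, AddCommGroup (Mi i)] [∀ i, Module R (Mi i)] (g : ∀ i, M →ₗ[R] Mi i) [∀ i, IsLocalizedModule (Submonoid.powers (f i)) (g i)]
    (Mij : ι → ι → Type u) [∀ i j, AddCommGroup (Mij i j)] [∀ i j, Module R (Mij i j)] (gij : ∀ i j, M →ₗ[R] Mij i j) [∀ i j, IsLocalizedModule (Submonoid.powers (f i * f j)) (gij i j)]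
    (ρ₁ : ∀ i j, Mi i →ₗ[R] Mij i j) (hρ₁ : ∀ i j, ρ₁ i j ∘ₗ g i = gij i j) (ρ₂ : ∀ i j, Mi j →ₗ[R] Mij i j) (hρ₂ : ∀ i j, ρ₂ i j ∘ₗ g j = gij i j) :
    (∀ m : M, (∀ i, g i m = 0) → m = 0) ∧
      ∀ s : ∀ i, Mi i, (∀ i j, ρ₁ i j (s i) = ρ₂ i j (s j)) → ∃ m : M, ∀ i, g i m = s i := by
  classical
  constructor
  · intro m hm
    suffices h : Module.eqIdeal R m 0 = ⊤ by
      simpa [Module.eqIdeal] using (Ideal.eq_top_iff_one _).mp h
    by_contra ne
    have ⟨r, hrs, disj⟩ := Ideal.exists_disjoint_powers_of_span_eq_top (Set.range f) hf _ ne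
    obtain ⟨i, rfl⟩ := hrs
    have ⟨⟨_, n, rfl⟩, eq⟩ := (IsLocalizedModule.eq_iff_exists (.powers (f i)) (g i)).mp
      ((hm i).trans (map_zero _).symm)
    exact Set.disjoint_left.mp disj eq ⟨n, rfl⟩
  · intro s hs
    have hA : ∀ i, ∃ (mi : M) (n : ℕ), f i ^ n • s i = g i mi := by
      intro i
      obtain ⟨⟨mi, ⟨_, n, rfl⟩⟩, h⟩ := IsLocalizedModule.surj (Submonoid.powers (f i)) (g i) (s i)
      exact ⟨mi, n, h⟩
    choose m0 n0 hm0 using hA
    set N := Finset.univ.sup n0 with hN
    set m1 : ι → M := fun i => f i ^ (N - n0 i) • m0 i with hm1def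
    have hm1 : ∀ i, f i ^ N • s i = g i (m1 i) := by
      intro i
      have : N = (N - n0 i) + n0 i := by
        have := Finset.le_sup (f := n0) (Finset.mem_univ i); omega
      rw [hm1def]; dsimp only
      rw [map_smul, ← hm0 i, smul_smul, ← pow_add, ← this]
    clear_value m1
    have hB : ∀ i j, ∃ k : ℕ, (f i * f j) ^ k • (f j ^ N • m1 i) = (f i * f j) ^ k • (f i ^ N • m1 j) := by
      intro i j
      have e : gij i j (f j ^ N • m1 i) = gij i j (f i ^ N • m1 j) := by
        have l : gij i j (f j ^ N • m1 i) = f j ^ N • f i ^ N • ρ₁ i j (s i) := by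
          rw [← hρ₁ i j, LinearMap.comp_apply, map_smul, ← hm1 i, map_smul, map_smul]
        have r : gij i j (f i ^ N • m1 j) = f i ^ N • f j ^ N • ρ₂ i j (s j) := by
          rw [← hρ₂ i j, LinearMap.comp_apply, map_smul, ← hm1 j, map_smul, map_smul]
        rw [l, r, hs i j, smul_comm]
      obtain ⟨⟨_, k, rfl⟩, hk⟩ := (IsLocalizedModule.eq_iff_exists (Submonoid.powers (f i * f j)) (gij i j)).mp e
      exact ⟨k, hk⟩
    choose k hk using hB
    set K := Finset.univ.sup (fun p : ι × ι => k p.1 p.2) with hK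
    have hkK : ∀ i j, (f i * f j) ^ K • (f j ^ N • m1 i) = (f i * f j) ^ K • (f i ^ N • m1 j) := by
      intro i j
      have hle : k i j ≤ K := Finset.le_sup (f := fun p : ι × ι => k p.1 p.2) (Finset.mem_univ (i, j))
      have : K = (K - k i j) + k i j := by omega
      rw [this, pow_add, mul_smul, mul_smul (_ ^ (K - k i j)), hk i j]
    set m2 : ι → M := fun i => f i ^ K • m1 i with hm2def
    have hcompat : ∀ i j, f j ^ (N + K) • m2 i = f i ^ (N + K) • m2 j := by
      intro i j
      have h1 : f j ^ (N + K) • m2 i = (f i * f j) ^ K • (f j ^ N • m1 i) := by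
        show f j ^ (N + K) • (f i ^ K • m1 i) = _
        rw [smul_smul, smul_smul]; congr 1; ring
      have h2 : f i ^ (N + K) • m2 j = (f i * f j) ^ K • (f i ^ N • m1 j) := by
        show f i ^ (N + K) • (f j ^ K • m1 j) = _
        rw [smul_smul, smul_smul]; congr 1; ring
      rw [h1, h2, hkK i j]
    have hm2 : ∀ i, f i ^ (N + K) • s i = g i (m2 i) := by
      intro i
      show _ = g i (f i ^ K • m1 i)
      rw [map_smul, ← hm1 i, smul_smul, ← pow_add, add_comm K N]
    have hspan : Ideal.span (Set.range (fun i => f i ^ (N + K))) = ⊤ := by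
      have := Ideal.span_pow_eq_top (Set.range f) hf (N + K)
      rwa [← Set.range_comp] at this
    have h1mem : (1 : R) ∈ Ideal.span (Set.range (fun i => f i ^ (N + K))) := hspan ▸ Submodule.mem_top
    obtain ⟨a, ha⟩ := (Submodule.mem_span_range_iff_exists_fun R).mp h1mem
    refine ⟨∑ j, a j • m2 j, fun i => ?_⟩
    have hfm : f i ^ (N + K) • (∑ j, a j • m2 j) = m2 i := by
      rw [Finset.smul_sum]
      have : ∀ j, f i ^ (N + K) • (a j • m2 j) = (a j * f j ^ (N + K)) • m2 i := by
        intro j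
        rw [smul_comm, ← hcompat i j, smul_smul]
      simp_rw [this]
      rw [← Finset.sum_smul]
      simp only [smul_eq_mul] at ha
      rw [ha, one_smul]
    have hu := IsLocalizedModule.map_units (g i) (⟨f i ^ (N + K), N + K, rfl⟩ : Submonoid.powers (f i))
    have hinj := ((Module.End.isUnit_iff _).mp hu).injective
    apply hinj
    simp only [Module.algebraMap_end_apply]
    rw [← map_smul, hfm, hm2 i]

end Groth.Agent.S9658
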