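import Groth.Statements.S9709
import Mathlib.AlgebraicGeometry.Fiber
import Mathlib.AlgebraicGeometry.Morphisms.Integral
import Mathlib.RingTheory.Ideal.GoingUp

set_option autoImplicit false
universe u
open CategoryTheory CategoryTheory.Limits AlgebraicGeometry
open Mor

namespace Groth.Agent.S9709

/-- Let f : X ⟶ S be an integral morphism. Then every point x of X is closed in its fibre: a point of
f⁻¹(f x) specialising from x equals x. -/
theorem result {X S : Scheme.{u}} (f : X ⟶ S) [IsIntegralHom f] (x : X) :
    closure {x} ∩ f.base ⁻¹' {f.base x} = {x} := by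
  have key : ∀ s : S, ∀ a b : f.fiber s, a ⤳ b → a = b := by
    intro s a b hab
    let g := f.fiberToSpecResidueField s
    haveI : IsIntegralHom g := by
      set_option backward.isDefEq.respectTransparency.types false in
      exact MorphismProperty.pullback_snd _ _ inferInstance
    have hint : g.appTop.hom.IsIntegral := g.isIntegral_app ⊤ (isAffineOpen_top _)
    have hfield : IsField Γ(Spec (S.residueField s), ⊤) :=
      (Scheme.ΓSpecIso (S.residueField s)).commRingCatIsoToRingEquiv.toMulEquiv.isField
        (Field.toIsField _)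
    have hmax : ∀ p : PrimeSpectrum Γ(f.fiber s, ⊤), p.asIdeal.IsMaximal := by
      intro p
      have hq : (p.asIdeal.comap g.appTop.hom).IsMaximal := by
        have hprime : (p.asIdeal.comap g.appTop.hom).IsPrime := Ideal.IsPrime.comap _
        rw [Ideal.isMaximal_iff]
        refine ⟨fun h => hprime.ne_top ((Ideal.eq_top_iff_one _).2 h), ?_⟩
        intro J x _ hx hxJ
        have hx0 : x ≠ 0 := fun h => hx (h ▸ Ideal.zero_mem _)
        obtain ⟨y, hy⟩ := hfield.mul_inv_cancel hx0
        rw [← hy]; exact J.mul_mem_right y hxJ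
      exact Ideal.isMaximal_of_isIntegral_of_isMaximal_comap' _ hint _ hq
    let e := (f.fiber s).isoSpec
    have h1 : e.hom.base a ⤳ e.hom.base b := hab.map e.hom.continuous
    have h2 := (PrimeSpectrum.le_iff_specializes _ _).2 h1
    have h3 := (hmax (e.hom.base a)).eq_of_le (e.hom.base b).isPrime.ne_top h2
    have h4 : e.hom.base a = e.hom.base b := PrimeSpectrum.ext h3
    have h5 := congrArg e.inv.base h4
    simpa using h5
  ext z
  simp only [Set.mem_inter_iff, Set.mem_preimage, Set.mem_singleton_iff]
  constructor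
  · rintro ⟨hz, hfz⟩
    have hxz : x ⤳ z := specializes_iff_mem_closure.2 hz
    let φ := f.fiberHomeo (f.base x)
    have hsub : (⟨x, rfl⟩ : f.base ⁻¹' {f.base x}) ⤳ ⟨z, hfz⟩ :=
      Topology.IsInducing.subtypeVal.specializes_iff.1 hxz
    have hab : φ.symm ⟨x, rfl⟩ ⤳ φ.symm ⟨z, hfz⟩ := hsub.map φ.symm.continuous
    have h1 := key _ _ _ hab
    have h2 : (⟨x, rfl⟩ : f.base ⁻¹' {f.base x}) = ⟨z, hfz⟩ := φ.symm.injective h1
    exact (congrArg Subtype.val h2).symm
  · rintro rfl
    exact ⟨subset_closure rfl, rfl⟩

end Groth.Agent.S9709
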