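import Groth.Statements.S9683
import Groth.Agent.S9709
import Mathlib.AlgebraicGeometry.Morphisms.UniversallyClosed
import Mathlib.Topology.KrullDimension

set_option autoImplicit false
universe u
open CategoryTheory CategoryTheory.Limits AlgebraicGeometry
open Mor

namespace Groth.Agent.S9683

/-- For any integral morphism of schemes f : X ⟶ Y, the dimension of X is at most that of Y, and if f is
surjective then dim X = dim Y (dimensions of the underlying topological spaces). -/
theorem result {X Y : Scheme.{u}} (f : X ⟶ Y) [IsIntegralHom f] :
    topologicalKrullDim ↥X ≤ topologicalKrullDim ↥Y ∧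
      (Surjective f → topologicalKrullDim ↥X = topologicalKrullDim ↥Y) := by
  have hcont : Continuous f.base := f.base.hom.continuous
  have hfib := Groth.Agent.S9709.result f
  have gp : ∀ {T : Scheme.{u}} (Z : TopologicalSpace.IrreducibleCloseds T),
      closure {Z.isIrreducible.genericPoint} = (Z : Set T) := fun Z =>
    Z.isIrreducible.isGenericPoint_genericPoint Z.isClosed
  have gpmem : ∀ {T : Scheme.{u}} (Z : TopologicalSpace.IrreducibleCloseds T),
      Z.isIrreducible.genericPoint ∈ (Z : Set T) := by
    intro T Z
    have h := (subset_closure (Set.mem_singleton Z.isIrreducible.genericPoint) :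
      Z.isIrreducible.genericPoint ∈ closure {Z.isIrreducible.genericPoint})
    rwa [gp Z] at h
  have himg : ∀ x : X, closure (f.base '' closure {x}) = closure {f.base x} := by
    intro x
    apply le_antisymm
    · refine closure_minimal ?_ isClosed_closure
      rintro _ ⟨y, hy, rfl⟩
      exact specializes_iff_mem_closure.1 ((specializes_iff_mem_closure.2 hy).map hcont)
    · exact closure_mono (by rintro _ rfl; exact ⟨x, subset_closure rfl, rfl⟩)
  let g : TopologicalSpace.IrreducibleCloseds X → TopologicalSpace.IrreducibleCloseds Y := fun Z =>
    ⟨closure (f.base '' Z), (Z.isIrreducible.image _ hcont.continuousOn).closure, isClosed_closure⟩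
  have hg : StrictMono g := by
    intro Z Z' hlt
    have hle : (Z : Set X) ⊆ Z' := hlt.le
    refine lt_of_le_of_ne ?_ ?_
    · show closure (f.base '' Z) ⊆ closure (f.base '' Z')
      exact closure_mono (Set.image_mono hle)
    · intro heq
      have hz : closure {Z.isIrreducible.genericPoint} = (Z : Set X) := gp Z
      have hz' : closure {Z'.isIrreducible.genericPoint} = (Z' : Set X) := gp Z'
      have h1 : closure {f.base Z.isIrreducible.genericPoint} =
          closure {f.base Z'.isIrreducible.genericPoint} := by
        rw [← himg, ← himg, hz, hz']
        exact congrArg (fun W : TopologicalSpace.IrreducibleCloseds Y => (W : Set Y)) heq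
      have h2 : f.base Z.isIrreducible.genericPoint = f.base Z'.isIrreducible.genericPoint :=
        ((specializes_iff_closure_subset.2 h1.symm.le).antisymm
          (specializes_iff_closure_subset.2 h1.le)).eq
      have hmem : Z.isIrreducible.genericPoint ∈ closure {Z'.isIrreducible.genericPoint} ∩
          f.base ⁻¹' {f.base Z'.isIrreducible.genericPoint} := by
        refine ⟨?_, h2⟩
        rw [hz']
        exact hle (gpmem Z)
      rw [hfib] at hmem
      have heq' : Z.isIrreducible.genericPoint = Z'.isIrreducible.genericPoint := hmem
      apply hlt.ne
      apply TopologicalSpace.IrreducibleCloseds.ext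
      rw [← hz, ← hz', heq']
  refine ⟨Order.krullDim_le_of_strictMono g hg,
    fun hs => le_antisymm (Order.krullDim_le_of_strictMono g hg) ?_⟩
  have hcl : IsClosedMap f.base := f.isClosedMap
  have hsurj : Function.Surjective f.base := hs.surj
  have lift : ∀ (n : ℕ) (p : LTSeries (TopologicalSpace.IrreducibleCloseds Y)), p.length = n →
      ∀ x : X, closure {f.base x} = (p.last : Set Y) →
        ∃ q : LTSeries (TopologicalSpace.IrreducibleCloseds X), q.length = n ∧
          (q.last : Set X) = closure {x} := by
    intro n
    induction n with
    | zero =>
      intro p _ x _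
      exact ⟨RelSeries.singleton _ ⟨closure {x}, isIrreducible_singleton.closure, isClosed_closure⟩,
        rfl, rfl⟩
    | succ n ih =>
      intro p hp x hx
      have hlen : p.length ≠ 0 := by omega
      have hrel : p.eraseLast.last < p.last := p.eraseLast_last_rel_last hlen
      set P' := p.eraseLast.last
      have hη : P'.isIrreducible.genericPoint ∈ f.base '' closure {x} := by
        have hc : IsClosed (f.base '' closure {x}) := hcl _ isClosed_closure
        have hsub : closure {f.base x} ⊆ f.base '' closure {x} :=
          closure_minimal (by rintro _ rfl; exact ⟨x, subset_closure rfl, rfl⟩) hc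
        apply hsub
        rw [hx]
        exact (hrel.le : (P' : Set Y) ⊆ p.last) (gpmem P')
      obtain ⟨x', hx'x, hx'⟩ := hη
      have hx'c : closure {f.base x'} = (P' : Set Y) := by rw [hx']; exact gp P'
      obtain ⟨q', hq'len, hq'last⟩ := ih p.eraseLast (by show p.length - 1 = n; omega) x' hx'c
      have hlt : q'.last < ⟨closure {x}, isIrreducible_singleton.closure, isClosed_closure⟩ := by
        refine lt_of_le_of_ne ?_ ?_
        · show (q'.last : Set X) ⊆ closure {x}
          rw [hq'last]
          exact closure_minimal (by rintro _ rfl; exact hx'x) isClosed_closure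
        · intro heq
          have h3 : closure {x'} = closure {x} := by
            rw [← hq'last]; exact congrArg (fun W : TopologicalSpace.IrreducibleCloseds X => (W : Set X)) heq
          have h4 : x' = x := ((specializes_iff_closure_subset.2 h3.symm.le).antisymm
            (specializes_iff_closure_subset.2 h3.le)).eq
          apply hrel.ne
          apply TopologicalSpace.IrreducibleCloseds.ext
          rw [← hx'c, ← hx, h4]
      refine ⟨q'.snoc _ hlt, ?_, ?_⟩
      · show q'.length + 0 + 1 = n + 1
        omega
      · rw [RelSeries.last_snoc]
        rfl
  unfold topologicalKrullDim Order.krullDim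
  refine iSup_le fun p => ?_
  obtain ⟨x, hx⟩ := hsurj p.last.isIrreducible.genericPoint
  have hxc : closure {f.base x} = (p.last : Set Y) := by rw [hx]; exact gp p.last
  obtain ⟨q, hq, -⟩ := lift p.length p rfl x hxc
  rw [← hq]
  exact le_iSup (fun q : LTSeries (TopologicalSpace.IrreducibleCloseds X) => (q.length : WithBot ℕ∞)) q

end Groth.Agent.S9683
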