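import Groth.Statements.S9693

set_option autoImplicit false
universe u
open CategoryTheory CategoryTheory.Limits AlgebraicGeometry
open Mor

namespace Groth.Agent.S9693

/-- A base change of an H-projective morphism (a closed immersion into some P^n over the base followed
by the projection) is H-projective. -/
theorem result {X S S' : Scheme.{u}} (f : X ⟶ S) (hf : RelProj.IsHProjective f)
    (g : S' ⟶ S) : RelProj.IsHProjective (pullback.snd f g) := by
  obtain ⟨n, i, hi, hif⟩ := hf
  let T := specULiftZIsTerminal.{u}
  let P := CohB1.ProjSpace.toSpec n (ULift.{u} ℤ)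
  let j : X ⟶ pullback P (T.from S) := i
  have hj : IsClosedImmersion j := hi
  let q : pullback P (T.from S') ⟶ pullback P (T.from S) :=
    pullback.lift (pullback.fst P (T.from S')) (pullback.snd P (T.from S') ≫ g) (T.hom_ext _ _)
  let i' : pullback f g ⟶ pullback P (T.from S') :=
    pullback.lift (pullback.fst f g ≫ j ≫ pullback.fst P (T.from S)) (pullback.snd f g)
      (T.hom_ext _ _)
  have hif' : j ≫ pullback.snd P (T.from S) = f := hif
  have hq1 : q ≫ pullback.fst P (T.from S) = pullback.fst P (T.from S') := pullback.lift_fst _ _ _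
  have hq2 : q ≫ pullback.snd P (T.from S) = pullback.snd P (T.from S') ≫ g :=
    pullback.lift_snd _ _ _
  have hi1 : i' ≫ pullback.fst P (T.from S') = pullback.fst f g ≫ j ≫ pullback.fst P (T.from S) :=
    pullback.lift_fst _ _ _
  have hi2 : i' ≫ pullback.snd P (T.from S') = pullback.snd f g := pullback.lift_snd _ _ _
  -- the square P^n_{S'} → S' over P^n_S → S is a pullback
  have hR : IsPullback (pullback.snd P (T.from S')) q g (pullback.snd P (T.from S)) := by
    refine IsPullback.of_bot (v₂₁ := pullback.fst P (T.from S)) (v₂₂ := T.from S)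
      (h₃₁ := P) ?_ hq2.symm ?_
    · have h2 : g ≫ T.from S = T.from S' := T.hom_ext _ _
      rw [hq1, h2]
      exact (IsPullback.of_hasPullback P (T.from S')).flip
    · exact (IsPullback.of_hasPullback P (T.from S)).flip
  have hcomm : i' ≫ q = pullback.fst f g ≫ j := by
    apply pullback.hom_ext
    · simp only [Category.assoc]
      rw [hq1, hi1]
    · simp only [Category.assoc]
      rw [hq2, ← Category.assoc, hi2, hif', pullback.condition]
  have hL : IsPullback i' (pullback.fst f g) q j := by
    refine IsPullback.of_right (h₁₂ := pullback.snd P (T.from S'))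
      (h₂₂ := pullback.snd P (T.from S)) (v₁₃ := g) ?_ hcomm hR
    rw [hi2, hif']
    exact (IsPullback.of_hasPullback f g).flip
  refine ⟨n, i', ?_, ?_⟩
  · exact MorphismProperty.IsStableUnderBaseChange.of_isPullback (P := @IsClosedImmersion)
      hL.flip hj
  · exact hi2

end Groth.Agent.S9693
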