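import Groth.Statements.S9723
import Mathlib.AlgebraicGeometry.Restrict
import Mathlib.RingTheory.Spectrum.Prime.Topology

set_option autoImplicit false
universe u
open FlatMor

namespace Groth.Agent.S9723

open AlgebraicGeometry CategoryTheory in
/-- Let f : X ⟶ S be formally étale (unique infinitesimal lifting against square-zero thickenings of
affine schemes), and let U be an open subscheme of X and V an open subscheme of S such that f maps U
into V. Then the restricted morphism U ⟶ V is formally étale. -/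
theorem result {X S : Scheme.{u}} (f : X ⟶ S) (hf : MoreMor.IsFormallyEtaleHom f)
    (U : X.Opens) (V : S.Opens) (h : U ≤ f ⁻¹ᵁ V) : MoreMor.IsFormallyEtaleHom (f.resLE V U h) := by
  intro A _ I hI a b hab
  have hle : I ≤ nilradical A := by
    intro x hx
    rw [mem_nilradical]
    refine ⟨2, ?_⟩
    have : x ^ 2 ∈ I ^ 2 := Ideal.pow_mem_pow hx 2
    rw [hI] at this
    exact (Submodule.mem_bot A).1 this
  have hsurj : Function.Surjective (Spec.map (CommRingCat.ofHom (Ideal.Quotient.mk I))).base :=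
    (PrimeSpectrum.comap_quotientMk_bijective_of_le_nilradical hle).2
  have hcomm : Spec.map (CommRingCat.ofHom (Ideal.Quotient.mk I)) ≫ (b ≫ V.ι) = (a ≫ U.ι) ≫ f := by
    rw [← Category.assoc, hab, Category.assoc, Scheme.Hom.resLE_comp_ι, Category.assoc]
  obtain ⟨l, ⟨hl1, hl2⟩, huniq⟩ := hf A I hI (a ≫ U.ι) (b ≫ V.ι) hcomm
  have hrange : Set.range l.base ⊆ Set.range U.ι.base := by
    rintro _ ⟨t, rfl⟩
    obtain ⟨s, rfl⟩ := hsurj t
    refine ⟨a.base s, ?_⟩
    rw [← Scheme.Hom.comp_apply, ← Scheme.Hom.comp_apply, hl1]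
  refine ⟨IsOpenImmersion.lift U.ι l hrange, ⟨?_, ?_⟩, ?_⟩
  · rw [← cancel_mono U.ι, Category.assoc, IsOpenImmersion.lift_fac, hl1]
  · rw [← cancel_mono V.ι, Category.assoc, Scheme.Hom.resLE_comp_ι, ← Category.assoc,
      IsOpenImmersion.lift_fac, hl2]
  · rintro m ⟨hm1, hm2⟩
    rw [← cancel_mono U.ι, IsOpenImmersion.lift_fac]
    refine huniq (m ≫ U.ι) ⟨?_, ?_⟩
    · rw [← Category.assoc, hm1]
    · rw [Category.assoc, ← Scheme.Hom.resLE_comp_ι f h, ← Category.assoc, hm2]

end Groth.Agent.S9723
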