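import Groth.Statements.S9792
import Mathlib.AlgebraicGeometry.Properties
import Mathlib.AlgebraicGeometry.Noetherian
import Mathlib.RingTheory.Ideal.KrullsHeightTheorem
import Mathlib.Order.OrderIsoNat
import Mathlib.Topology.NoetherianSpace

set_option autoImplicit false
universe u
open CategoryTheory AlgebraicGeometry TopologicalSpace
open Props

namespace Groth.Agent.S9792

/-- In a Noetherian scheme, every infinite set of points contains an infinite subset no two distinct
members of which are related by specialization. -/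
theorem result (S : Scheme.{u}) [IsNoetherian S]
    (T : Set S) (hT : T.Infinite) :
    ∃ T' : Set S, T' ⊆ T ∧ T'.Infinite ∧ ∀ a ∈ T', ∀ b ∈ T', a ⤳ b → a = b := by
  classical
  have hfin : ∀ s : S, Order.coheight s < ⊤ := by
    intro s
    have h1 := ringKrullDim_stalk_eq_coheight s
    have h2 : ringKrullDim (S.presheaf.stalk s) < ⊤ := ringKrullDim_lt_top
    rw [h1] at h2
    have h3 : ((Order.coheight s : ℕ∞) : WithBot ℕ∞) < ((⊤ : ℕ∞) : WithBot ℕ∞) := by
      rwa [WithBot.coe_top]
    exact WithBot.coe_lt_coe.1 h3
  have hle_iff : ∀ a b : S, a ≤ b ↔ b ⤳ a := fun a b => Iff.rfl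
  have hanti : ∀ a b : S, a ≤ b → b ≤ a → a = b := fun a b h1 h2 =>
    (((hle_iff a b).1 h1).antisymm ((hle_iff b a).1 h2)).eq.symm
  let f : ℕ → S := fun n => (hT.natEmbedding T n : S)
  have hfinj : Function.Injective f := fun a b h =>
    (hT.natEmbedding T).injective (Subtype.val_injective h)
  have hfT : ∀ n, f n ∈ T := fun n => (hT.natEmbedding T n).2
  obtain ⟨g₁, hA | hB⟩ := exists_increasing_or_nonincreasing_subseq (· < ·) f
  · exfalso
    let x : ℕ → S := fun k => f (g₁ k)
    have hstep : ∀ k, Order.coheight (x (k + 1)) + 1 ≤ Order.coheight (x k) := by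
      intro k
      exact Order.add_one_le_of_lt (Order.coheight_strictAnti (hA k (k + 1) (Nat.lt_succ_self k))
        (hfin _))
    have hbound : ∀ k : ℕ, Order.coheight (x k) + k ≤ Order.coheight (x 0) := by
      intro k
      induction k with
      | zero => simp
      | succ k ih =>
        calc Order.coheight (x (k + 1)) + ((k + 1 : ℕ) : ℕ∞)
            = (Order.coheight (x (k + 1)) + 1) + k := by push_cast; ring
          _ ≤ Order.coheight (x k) + k := by gcongr; exact hstep k
          _ ≤ Order.coheight (x 0) := ih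
    obtain ⟨N, hN⟩ := ENat.ne_top_iff_exists.1 (hfin (x 0)).ne
    have := hbound (N + 1)
    rw [← hN] at this
    have h3 : ((N + 1 : ℕ) : ℕ∞) ≤ (N : ℕ∞) := le_trans le_add_self this
    norm_cast at h3
    omega
  · obtain ⟨g₂, hB1 | hB2⟩ := exists_increasing_or_nonincreasing_subseq (· > ·) (fun k => f (g₁ k))
    · exfalso
      let C : ℕ → TopologicalSpace.Closeds S := fun k =>
        ⟨closure {f (g₁ (g₂ k))}, isClosed_closure⟩
      have hC : StrictAnti C := by
        refine strictAnti_nat_of_succ_lt fun k => ?_
        have hlt : f (g₁ (g₂ (k + 1))) < f (g₁ (g₂ k)) := hB1 k (k + 1) (Nat.lt_succ_self k)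
        refine lt_of_le_of_ne ?_ ?_
        · show closure {f (g₁ (g₂ (k + 1)))} ⊆ closure {f (g₁ (g₂ k))}
          exact specializes_iff_closure_subset.1 ((hle_iff _ _).1 hlt.le)
        · intro heq
          have h1 : closure ({f (g₁ (g₂ (k + 1)))} : Set S) = closure {f (g₁ (g₂ k))} :=
            congrArg (fun W : TopologicalSpace.Closeds S => (W : Set S)) heq
          exact hlt.not_ge ((hle_iff _ _).2 (specializes_iff_closure_subset.2 h1.symm.le))
      exact not_strictAnti_of_wellFoundedLT C hC
    · let y : ℕ → S := fun k => f (g₁ (g₂ k))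
      have hyinj : Function.Injective y := fun a b h => g₂.injective (g₁.injective (hfinj h))
      refine ⟨Set.range y, ?_, Set.infinite_range_of_injective hyinj, ?_⟩
      · rintro _ ⟨k, rfl⟩; exact hfT _
      · rintro _ ⟨m, rfl⟩ _ ⟨n, rfl⟩ hmn
        have hnm : y n ≤ y m := (hle_iff _ _).2 hmn
        by_contra hne
        have hlt : y n < y m := lt_of_le_not_ge hnm (fun h' => hne (hanti _ _ h' hnm))
        rcases lt_trichotomy m n with h | h | h
        · exact hB2 m n h hlt
        · exact hne (by rw [h])
        · exact hB (g₂ n) (g₂ m) (g₂.strictMono h) hlt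

end Groth.Agent.S9792
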