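import Groth.Statements.S9793
import Mathlib.RingTheory.Ideal.KrullsHeightTheorem

set_option autoImplicit false
universe u
open CategoryTheory AlgebraicGeometry TopologicalSpace

namespace Groth.Agent.S9793

theorem result (S : Scheme.{u}) [IsNoetherian S]
    (T : Set S) (t : S) (ht : t ∈ T) :
    ∃ t₀ ∈ T, (∀ t' ∈ T, t' ⤳ t₀ → t' = t₀) ∧ t₀ ⤳ t := by
  obtain ⟨_, ⟨U, hU, rfl⟩, htU, -⟩ := S.isBasis_affineOpens.exists_subset_of_mem_open
    (show t ∈ ((⊤ : S.Opens) : Set S) from trivial) (⊤ : S.Opens).2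
  have hnoeth : IsNoetherianRing Γ(S, U) := IsLocallyNoetherian.component_noetherian ⟨U, hU⟩
  let P : {x : S // x ∈ U} → PrimeSpectrum Γ(S, U) := fun x => hU.primeIdealOf x
  have hfwd : ∀ a b : {x : S // x ∈ U}, (a : S) ⤳ b → P a ≤ P b := by
    intro a b hab
    rw [PrimeSpectrum.le_iff_specializes]
    exact ((subtype_specializes_iff a b).mpr hab).map hU.isoSpec.hom.base.hom.continuous
  have hbwd : ∀ a b : {x : S // x ∈ U}, P a ≤ P b → (a : S) ⤳ b := by
    intro a b hab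
    rw [PrimeSpectrum.le_iff_specializes] at hab
    have h1 := hab.map hU.isoSpec.inv.base.hom.continuous
    have ha : hU.isoSpec.inv.base (P a) = a := by
      change (hU.isoSpec.hom ≫ hU.isoSpec.inv).base a = a
      rw [Iso.hom_inv_id]; rfl
    have hb : hU.isoSpec.inv.base (P b) = b := by
      change (hU.isoSpec.hom ≫ hU.isoSpec.inv).base b = b
      rw [Iso.hom_inv_id]; rfl
    rw [ha, hb] at h1
    exact (subtype_specializes_iff a b).mp h1
  let T' : Set {x : S // x ∈ U} := {x | (x : S) ∈ T ∧ (x : S) ⤳ t}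
  have hne : T'.Nonempty := ⟨⟨t, htU⟩, ht, specializes_rfl⟩
  let hgt : {x : S // x ∈ U} → ℕ∞ := fun x => (P x).asIdeal.height
  let x₀ := Function.argminOn hgt T' hne
  have hx₀ : x₀ ∈ T' := Function.argminOn_mem hgt T' hne
  refine ⟨x₀, hx₀.1, ?_, hx₀.2⟩
  intro t' ht' hsp
  have ht'U : t' ∈ U := hsp.mem_open U.isOpen x₀.2
  let y : {x : S // x ∈ U} := ⟨t', ht'U⟩
  have hy : y ∈ T' := ⟨ht', hsp.trans hx₀.2⟩
  have hle : P y ≤ P x₀ := hfwd y x₀ hsp
  have heq : P y = P x₀ := by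
    by_contra hne'
    have hlt : (P y).asIdeal < (P x₀).asIdeal := lt_of_le_of_ne hle (fun h => hne' (PrimeSpectrum.ext h))
    have hh : hgt y < hgt x₀ := Ideal.height_strict_mono_of_isPrime_of_isPrime hlt
    exact Function.not_lt_argminOn hgt T' hy hh
  have h1 : (x₀ : S) ⤳ t' := hbwd x₀ y (heq ▸ le_rfl)
  exact (hsp.antisymm h1).eq

end Groth.Agent.S9793
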