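import Groth.Statements.S9798
import Mathlib.AlgebraicGeometry.Artinian

set_option autoImplicit false
universe u
open CategoryTheory AlgebraicGeometry TopologicalSpace
open Props

namespace Groth.Agent.S9798

/-- A point of a locally Noetherian scheme has local dimension zero exactly when it is isolated. -/
theorem result (X : Scheme.{u}) [IsLocallyNoetherian X] (x : X) :
    FlatMor.localDim X x = 0 ↔ IsOpen ({x} : Set X) := by
  unfold FlatMor.localDim
  constructor
  · intro h
    haveI : Nonempty {U : TopologicalSpace.Opens X // x ∈ U} := ⟨⟨⊤, trivial⟩⟩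
    obtain ⟨U, hU⟩ := ciInf_mem
      (fun U : {U : TopologicalSpace.Opens X // x ∈ U} => topologicalKrullDim (U.1 : Set X))
    rw [h] at hU
    have hdim : topologicalKrullDim (U.1 : Scheme) ≤ 0 := hU.le
    haveI : IsLocallyArtinian (U.1 : Scheme) := IsLocallyArtinian.of_topologicalKrullDim_le_zero hdim
    obtain ⟨p, hp⟩ : x ∈ Set.range (Scheme.Opens.ι (X := X) U.1) := by
      rw [Scheme.Opens.range_ι]; exact U.2
    have hopen : IsOpen ({p} : Set (U.1 : Scheme)) := isOpen_discrete _
    have := (Scheme.Opens.ι (X := X) U.1).isOpenEmbedding.isOpenMap _ hopen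
    rw [Set.image_singleton, hp] at this
    exact this
  · intro hx
    apply le_antisymm
    · refine (iInf_le _ (⟨⟨{x}, hx⟩, rfl⟩ : {U : TopologicalSpace.Opens X // x ∈ U})).trans ?_
      haveI : Subsingleton ↥((⟨{x}, hx⟩ : TopologicalSpace.Opens X) : Set X) :=
        Set.subsingleton_singleton.coe_sort
      exact topologicalKrullDim_zero_of_discreteTopology _
    · refine le_iInf fun U => ?_
      haveI : Nonempty (IrreducibleCloseds ↥(U.1 : Set X)) :=
        ⟨⟨closure {⟨x, U.2⟩}, isIrreducible_singleton.closure, isClosed_closure⟩⟩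
      exact Order.krullDim_nonneg

end Groth.Agent.S9798
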