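import Groth.Statements.S9800
import Mathlib.AlgebraicGeometry.Properties
import Mathlib.AlgebraicGeometry.Noetherian
import Mathlib.RingTheory.RegularLocalRing.Defs
import Mathlib.RingTheory.DedekindDomain.Basic
import Mathlib.Topology.KrullDimension

set_option autoImplicit false
universe u
open CategoryTheory AlgebraicGeometry TopologicalSpace
open Props

namespace Groth.Agent.S9800

/-- A locally Noetherian normal scheme of dimension at most one is regular, that is, all of its local
rings are regular local rings. -/
theorem result (X : Scheme.{u})
    [IsLocallyNoetherian X] (hN : Pi1.IsNormalScheme X) (hd : topologicalKrullDim X ≤ 1) (x : X) :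
    IsRegularLocalRing (X.presheaf.stalk x) := by
  obtain ⟨hdom, hic⟩ := hN x
  have hsm : StrictMono (fun y : X => (⟨closure {y}, isIrreducible_singleton.closure,
      isClosed_closure⟩ : TopologicalSpace.IrreducibleCloseds X)) := by
    intro a b hab
    have hle : a ≤ b := hab.le
    have hnle : ¬ b ≤ a := hab.not_ge
    refine lt_of_le_of_ne ?_ ?_
    · show closure {a} ⊆ closure {b}
      exact specializes_iff_closure_subset.1 hle
    · intro heq
      apply hnle
      have h1 : closure ({a} : Set X) = closure {b} :=
        congrArg (fun W : TopologicalSpace.IrreducibleCloseds X => (W : Set X)) heq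
      exact specializes_iff_closure_subset.2 h1.symm.le
  have h1 : (Order.coheight x : WithBot ℕ∞) ≤ Order.krullDim X := Order.coheight_le_krullDim x
  have h2 : Order.krullDim X ≤ topologicalKrullDim X := Order.krullDim_le_of_strictMono _ hsm
  have hco : Order.coheight x ≤ (1 : ℕ) := by
    have := h1.trans (h2.trans hd)
    exact_mod_cast this
  haveI : Ring.KrullDimLE 1 (X.presheaf.stalk x) := krullDimLE_of_coheight_le hco
  haveI : Ring.DimensionLEOne (X.presheaf.stalk x) :=
    ⟨fun {p} hp hpp => Ideal.IsPrime.isMaximal_of_ne_bot hpp hp⟩
  haveI : IsDedekindRing (X.presheaf.stalk x) :=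
    { (inferInstance : IsNoetherianRing (X.presheaf.stalk x)),
      (inferInstance : Ring.DimensionLEOne (X.presheaf.stalk x)),
      (isIntegrallyClosed_iff_isIntegralClosure (K := FractionRing (X.presheaf.stalk x))).1 hic with }
  haveI : IsDedekindDomain (X.presheaf.stalk x) := inferInstance
  exact IsRegularLocalRing.of_isRegularRing_of_isLocalRing _

end Groth.Agent.S9800
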