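import Groth.Statements.S9812

set_option autoImplicit false
universe u
open CAlg2

namespace Groth.Agent.S9812

/-- At the level of the local ring: an integrally closed local domain is geometrically unibranch.
Consequently a normal scheme is geometrically unibranch. -/
theorem result (A : Type u) [CommRing A] [IsLocalRing A]
    [IsDomain A] [IsIntegrallyClosed A] : CAlg2.IsGeomUnibranch A := by
  have hnil : nilradical A = ⊥ := nilradical_eq_zero A
  let e : A ≃+* CAlg2.red A := (RingEquiv.quotientBot A).symm.trans (Ideal.quotEquivOfEq hnil.symm)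
  haveI hp : (nilradical A).IsPrime := hnil ▸ Ideal.isPrime_bot
  haveI : IsDomain (CAlg2.red A) := Ideal.Quotient.isDomain _
  haveI : IsIntegrallyClosed (CAlg2.red A) := IsIntegrallyClosed.of_equiv e
  have hsurj : Function.Surjective (algebraMap (CAlg2.red A) (CAlg2.normRed A)) := by
    intro y
    obtain ⟨r, hr⟩ := IsIntegrallyClosed.algebraMap_eq_of_integral
      (R := CAlg2.red A) (K := FractionRing (CAlg2.red A)) ((mem_integralClosure_iff _ _).1 y.2)
    exact ⟨r, Subtype.ext hr⟩
  haveI : IsLocalRing (CAlg2.red A) :=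
    IsLocalRing.of_surjective' (Ideal.Quotient.mk _) Ideal.Quotient.mk_surjective
  haveI : IsLocalRing (CAlg2.normRed A) := IsLocalRing.of_surjective' _ hsurj
  refine ⟨⟨inferInstance, inferInstance⟩, fun m' _ x => ⟨0, ?_⟩⟩
  simp only [pow_zero, pow_one]
  obtain ⟨y, rfl⟩ := Ideal.Quotient.mk_surjective x
  obtain ⟨r, rfl⟩ := hsurj y
  obtain ⟨a, rfl⟩ := Ideal.Quotient.mk_surjective r
  exact ⟨a, rfl⟩

end Groth.Agent.S9812
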