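import Groth.Statements.S9821
import Mathlib.AlgebraicGeometry.FunctionField
import Mathlib.RingTheory.LocalProperties.IntegrallyClosed

set_option autoImplicit false
universe u
open CategoryTheory CategoryTheory.Limits AlgebraicGeometry TopologicalSpace Opposite
open Props

namespace Groth.Agent.S9821

/-- An integral scheme is normal if and only if the coordinate ring of every nonempty affine open is an
integrally closed domain. -/
theorem result (X : Scheme.{u}) [IsIntegral X] :
    Pi1.IsNormalScheme X ↔ ∀ (U : X.Opens) [Nonempty U], IsAffineOpen U → IsIntegrallyClosed Γ(X, U) := by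
  set_option backward.isDefEq.respectTransparency.types false in
  constructor
  · intro hN U _ hU
    refine IsIntegrallyClosed.of_localization_maximal fun p _ _ => ?_
    let y : PrimeSpectrum Γ(X, U) := ⟨p, inferInstance⟩
    have hy : hU.fromSpec y ∈ U := by
      show hU.fromSpec y ∈ (U : Set X)
      rw [← hU.range_fromSpec]; exact ⟨y, rfl⟩
    letI : Algebra Γ(X, U) (X.presheaf.stalk (hU.fromSpec y)) :=
      TopCat.Presheaf.algebra_section_stalk X.presheaf ⟨hU.fromSpec y, hy⟩
    haveI : IsLocalization.AtPrime (X.presheaf.stalk (hU.fromSpec y)) p :=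
      hU.isLocalization_stalk' y hy
    have e := IsLocalization.algEquiv p.primeCompl (Localization.AtPrime p)
      (X.presheaf.stalk (hU.fromSpec y))
    exact (hN (hU.fromSpec y)).2.of_equiv e.symm.toRingEquiv
  · intro hC x
    refine ⟨inferInstance, ?_⟩
    obtain ⟨U, hU, hxU, -⟩ := exists_isAffineOpen_mem_and_subset (U := ⊤) (x := x) trivial
    haveI : Nonempty U := ⟨⟨x, hxU⟩⟩
    haveI := hC U hU
    letI : Algebra Γ(X, U) (X.presheaf.stalk x) :=
      TopCat.Presheaf.algebra_section_stalk X.presheaf ⟨x, hxU⟩
    haveI : IsLocalization.AtPrime (X.presheaf.stalk x) (hU.primeIdealOf ⟨x, hxU⟩).asIdeal :=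
      hU.isLocalization_stalk ⟨x, hxU⟩
    exact isIntegrallyClosed_of_isLocalization (X.presheaf.stalk x)
      (hU.primeIdealOf ⟨x, hxU⟩).asIdeal.primeCompl
      (hU.primeIdealOf ⟨x, hxU⟩).asIdeal.primeCompl_le_nonZeroDivisors

end Groth.Agent.S9821
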