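import Groth.Statements.S9822
import Mathlib.AlgebraicGeometry.Limits

set_option autoImplicit false
universe u
open CategoryTheory CategoryTheory.Limits AlgebraicGeometry TopologicalSpace Opposite
open Props

namespace Groth.Agent.S9822

/-- A scheme is irreducible if and only if it is nonempty and every nonempty affine open subset is
irreducible. -/
theorem result (X : Scheme.{u}) :
    IrreducibleSpace X ↔ Nonempty X ∧ ∀ U : X.Opens, IsAffineOpen U → (U : Set X).Nonempty → IsIrreducible (U : Set X) := by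
  constructor
  · intro h
    refine ⟨inferInstance, fun U _ hne => ⟨hne, ?_⟩⟩
    exact (IrreducibleSpace.isIrreducible_univ X).2.open_subset U.isOpen (Set.subset_univ _)
  · rintro ⟨hne, hU⟩
    rw [irreducibleSpace_def]
    refine ⟨Set.univ_nonempty, ?_⟩
    rintro u v hu hv ⟨x, -, hx⟩ ⟨y, -, hy⟩
    obtain ⟨U, hUa, hxU, hUu⟩ := exists_isAffineOpen_mem_and_subset (U := ⟨u, hu⟩) hx
    obtain ⟨V, hVa, hyV, hVv⟩ := exists_isAffineOpen_mem_and_subset (U := ⟨v, hv⟩) hy
    by_cases hdisj : Disjoint U V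
    · exfalso
      have hW := hU (U ⊔ V) (hUa.sup_of_disjoint hVa hdisj) ⟨x, Or.inl hxU⟩
      obtain ⟨z, -, hzU, hzV⟩ := hW.2 (U : Set X) (V : Set X) U.isOpen V.isOpen
        ⟨x, Or.inl hxU, hxU⟩ ⟨y, Or.inr hyV, hyV⟩
      have := Opens.coe_disjoint.2 hdisj
      exact Set.disjoint_left.1 this hzU hzV
    · rw [← Opens.coe_disjoint, Set.not_disjoint_iff] at hdisj
      obtain ⟨z, hzU, hzV⟩ := hdisj
      exact ⟨z, Set.mem_univ _, hUu hzU, hVv hzV⟩

end Groth.Agent.S9822
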