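import Groth.Statements.S9830
import Mathlib.AlgebraicGeometry.Morphisms.Separated

set_option autoImplicit false
universe u
open CategoryTheory AlgebraicGeometry TopologicalSpace
open Props

namespace Groth.Agent.S9830

open Scheme Pullback Limits in
set_option backward.defeqAttrib.useBackward true in
set_option backward.isDefEq.respectTransparency false in
/-- A point of `X ×_Y X` whose two projections agree lies in the diagonal cover range
(pointwise version of `diagonalCoverDiagonalRange_eq_top_of_injective`). -/
lemma mem_diagonalCoverDiagonalRange_of_eq_h15 {X Y : Scheme.{u}} (f : X ⟶ Y) (𝒰 : Y.OpenCover)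
    (𝒱 : ∀ i, (pullback f (𝒰.f i)).OpenCover) (x : ↑(pullback f f))
    (H : pullback.fst f f x = pullback.snd f f x) :
    x ∈ diagonalCoverDiagonalRange f 𝒰 𝒱 := by
  simp only [diagonalCoverDiagonalRange, openCoverOfBase_I₀, openCoverOfBase_X,
    openCoverOfLeftRight_I₀, Opens.iSup_mk, Opens.carrier_eq_coe, Hom.coe_opensRange, Opens.mem_mk,
    Set.mem_iUnion, Set.mem_range, Sigma.exists]
  let i := 𝒰.idx (f (pullback.fst f f x))
  obtain ⟨y : 𝒰.X i, hy : 𝒰.f i y = f _⟩ :=
    𝒰.covers (f (pullback.fst f f x))
  obtain ⟨z, hz₁, hz₂⟩ := exists_preimage_pullback _ _ hy.symm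
  let j := (𝒱 i).idx z
  obtain ⟨w : (𝒱 i).X j, hy : (𝒱 i).f j w = z⟩ := (𝒱 i).covers z
  refine ⟨i, j, ?_⟩
  simp_rw [diagonalCover_map]
  change x ∈ Set.range _
  simp only [diagonalCover, openCoverOfBase_I₀,
    Precoverage.ZeroHypercover.pullback₁_toPreZeroHypercover, PreZeroHypercover.pullback₁_X,
    Precoverage.ZeroHypercover.bind_toPreZeroHypercover, openCoverOfBase_X,
    PreZeroHypercover.bind_X, openCoverOfLeftRight_I₀, openCoverOfLeftRight_X]
  rw [range_map]
  simp [← H, ← hz₁, ← hy]


/-- A scheme whose underlying space is Hausdorff is separated. (The published statement assumes X of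
dimension zero; a Hausdorff scheme always has dimension at most zero, so this row omits that
hypothesis.) -/
theorem result (X : Scheme.{u}) [T2Space X] : X.IsSeparated := by
  constructor
  constructor
  let f := Limits.terminal.from X
  let 𝒰 := (Limits.terminal Scheme.{u}).affineCover
  let 𝒱 := fun i => (Limits.pullback f (𝒰.f i)).affineCover
  let D := Scheme.Pullback.diagonalCoverDiagonalRange f 𝒰 𝒱
  have hWo : IsOpen {z : ↑(Limits.pullback f f) |
      Limits.pullback.fst f f z ≠ Limits.pullback.snd f f z} :=
    (isClosed_eq (Limits.pullback.fst f f).continuous (Limits.pullback.snd f f).continuous).isOpen_compl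
  let W : (Limits.pullback f f).Opens := ⟨_, hWo⟩
  refine IsZariskiLocalAtTarget.of_iSup_eq_top (P := @IsClosedImmersion)
    (fun b : Bool => bif b then D else W) ?_ ?_
  · rw [eq_top_iff]
    intro z _
    by_cases h : Limits.pullback.fst f f z = Limits.pullback.snd f f z
    · exact TopologicalSpace.Opens.mem_iSup.2 ⟨true, mem_diagonalCoverDiagonalRange_of_eq_h15 f 𝒰 𝒱 z h⟩
    · exact TopologicalSpace.Opens.mem_iSup.2 ⟨false, h⟩
  · intro b
    cases b
    · show IsClosedImmersion (Limits.pullback.diagonal f ∣_ W)
      haveI : IsEmpty ↑(Limits.pullback.diagonal f ⁻¹ᵁ W) := by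
        constructor
        rintro ⟨p, hp⟩
        apply hp
        rw [← Scheme.Hom.comp_apply, ← Scheme.Hom.comp_apply, Limits.pullback.diagonal_fst,
          Limits.pullback.diagonal_snd]
      infer_instance
    · exact isClosedImmersion_diagonal_restrict_diagonalCoverDiagonalRange f 𝒰 𝒱

end Groth.Agent.S9830
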