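import Groth.Statements.S9840
import Mathlib.RingTheory.Flat.FaithfullyFlat.Algebra
import Mathlib.RingTheory.RingHom.FaithfullyFlat

set_option autoImplicit false
open CategoryTheory CategoryTheory.Limits AlgebraicGeometry Opposite
universe u
open Desc

namespace Groth.Agent.S9840

/-- For a flat, surjective morphism of schemes f : X ⟶ Y, reducedness of X forces Y to be reduced. -/
theorem result {X Y : Scheme.{u}} (f : X ⟶ Y) [Flat f] [Surjective f] [IsReduced X] :
    IsReduced Y := by
  have hst : ∀ y : Y, _root_.IsReduced (Y.presheaf.stalk y) := by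
    intro y
    obtain ⟨x, rfl⟩ := f.surjective y
    letI := (f.stalkMap x).hom.toAlgebra
    haveI : Module.Flat (Y.presheaf.stalk (f x)) (X.presheaf.stalk x) := Flat.stalkMap f x
    haveI : IsLocalHom (algebraMap (Y.presheaf.stalk (f x)) (X.presheaf.stalk x)) :=
      inferInstanceAs (IsLocalHom (f.stalkMap x).hom)
    haveI : Module.FaithfullyFlat (Y.presheaf.stalk (f x)) (X.presheaf.stalk x) :=
      Module.FaithfullyFlat.of_flat_of_isLocalHom
    have hinj : Function.Injective (algebraMap (Y.presheaf.stalk (f x)) (X.presheaf.stalk x)) :=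
      (RingHom.faithfullyFlat_algebraMap_iff.2 inferInstance).injective
    exact isReduced_of_injective _ hinj
  exact isReduced_of_isReduced_stalk Y

end Groth.Agent.S9840
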