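import Groth.Statements.S9842
import Mathlib.AlgebraicGeometry.Morphisms.UniversallyOpen
import Mathlib.AlgebraicGeometry.PullbackCarrier

set_option autoImplicit false
open CategoryTheory CategoryTheory.Limits AlgebraicGeometry Opposite
universe u
open Desc

namespace Groth.Agent.S9842

/-- Let E/k be a field extension, Y a scheme over k and f : X ⟶ Y a morphism. Writing Y_E = Y ×_k Spec
E, the morphism f is dominant if and only if its base change X ×_Y Y_E ⟶ Y_E is dominant. -/
theorem result {k E : Type u} [Field k] [Field E] [Algebra k E]
    {X Y : Scheme.{u}} (f : X ⟶ Y) (q : Y ⟶ Spec (.of k)) :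
    IsDominant f ↔
      IsDominant (pullback.snd f (pullback.fst q (Spec.map (CommRingCat.ofHom (algebraMap k E))))) := by
  classical
  have hpo : IsOpenMap (pullback.fst q (Spec.map (CommRingCat.ofHom (algebraMap k E)))).base :=
    Scheme.Hom.isOpenMap _
  have hps : Function.Surjective
      (pullback.fst q (Spec.map (CommRingCat.ofHom (algebraMap k E)))).base := by
    intro y
    have : y ∈ Set.range (pullback.fst q (Spec.map (CommRingCat.ofHom (algebraMap k E)))).base := by
      rw [Scheme.Pullback.range_fst]
      obtain ⟨e⟩ : Nonempty (Spec (.of E)) := inferInstance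
      exact ⟨e, Subsingleton.elim _ _⟩
    exact this
  constructor
  · intro hf
    constructor
    rw [DenseRange, Scheme.Pullback.range_snd]
    exact hf.denseRange.preimage hpo
  · intro hd
    constructor
    have h1 := hd.denseRange
    rw [DenseRange, Scheme.Pullback.range_snd] at h1
    have h2 := hps.denseRange.dense_image
      (pullback.fst q (Spec.map (CommRingCat.ofHom (algebraMap k E)))).base.hom.continuous h1
    rw [Set.image_preimage_eq _ hps] at h2
    exact h2

end Groth.Agent.S9842
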