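import Groth.Statements.S9843
import Mathlib.AlgebraicGeometry.Sites.Fpqc
import Mathlib.AlgebraicGeometry.Morphisms.UniversallyOpen
import Mathlib.AlgebraicGeometry.PullbackCarrier

set_option autoImplicit false
open CategoryTheory CategoryTheory.Limits AlgebraicGeometry Opposite
universe u
open Desc

namespace Groth.Agent.S9843

/-- Being dominant is fppf local on the base: for every fppf covering family Y i ⟶ Y (flat, locally of
finite presentation, jointly surjective), a morphism X ⟶ Y is dominant if and only if all its base
changes X ×_Y Y i ⟶ Y i are. -/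
theorem result :
    MorphismProperty.IsLocalAtTarget (@IsDominant : MorphismProperty Scheme.{u}) Scheme.fppfPrecoverage := by
  refine { (inferInstance : MorphismProperty.RespectsIso
      (@IsDominant : MorphismProperty Scheme.{u})) with
    pullbackSnd := ?_, of_forall_pullbackSnd := ?_ }
  · intro X Y f R U g hR hg hf _
    have hg' : (@Flat ⊓ @LocallyOfFinitePresentation) g := hR.2 hg
    haveI : Flat g := hg'.1
    haveI : LocallyOfFinitePresentation g := hg'.2
    haveI : IsDominant f := hf
    constructor
    rw [DenseRange, Scheme.Pullback.range_snd]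
    exact f.denseRange.preimage g.isOpenMap
  · intro X Y f R hR h
    have hjs := (Presieve.mem_comap_jointlySurjectivePrecoverage_iff Scheme.forget).1 hR.1
    constructor
    rw [DenseRange, dense_iff_inter_open]
    rintro W hW ⟨y, hy⟩
    obtain ⟨U, g, hg, u, hu⟩ := hjs y
    have hu' : g.base u = y := hu
    have hd : IsDominant (pullback.snd f g) := h hg
    have hdense := hd.denseRange
    rw [DenseRange, Scheme.Pullback.range_snd] at hdense
    obtain ⟨v, hvW, hvr⟩ := (dense_iff_inter_open.1 hdense) (g.base ⁻¹' W)
      (hW.preimage g.base.hom.continuous) ⟨u, by rw [Set.mem_preimage, hu']; exact hy⟩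
    exact ⟨g.base v, hvW, hvr⟩

end Groth.Agent.S9843
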