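import Groth.Statements.S9845
import Mathlib.AlgebraicGeometry.Sites.Fpqc
import Mathlib.AlgebraicGeometry.Morphisms.UniversallyOpen

set_option autoImplicit false
open CategoryTheory CategoryTheory.Limits AlgebraicGeometry Opposite
universe u
open Desc

namespace Groth.Agent.S9845

/-- Being an open morphism (open underlying map) is fppf local on the source: for every fppf covering
family g i : X i ⟶ X, a morphism f : X ⟶ Y has open underlying map if and only if every composite g
i ≫ f does. -/
theorem result :
    MorphismProperty.IsLocalAtSource (topologically (fun f => IsOpenMap f) : MorphismProperty Scheme.{u})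
      Scheme.fppfPrecoverage := by
  refine { (inferInstance : (topologically (fun f => IsOpenMap f) :
      MorphismProperty Scheme.{u}).RespectsIso) with comp := ?_, of_forall_comp := ?_ }
  · intro X Y f R hR U g hg hf
    have hg' : (@Flat ⊓ @LocallyOfFinitePresentation) g := hR.2 hg
    haveI : Flat g := hg'.1
    haveI : LocallyOfFinitePresentation g := hg'.2
    show IsOpenMap (f.base ∘ g.base)
    exact IsOpenMap.comp hf g.isOpenMap
  · intro X Y f R hR h
    have hjs := (Presieve.mem_comap_jointlySurjectivePrecoverage_iff Scheme.forget).1 hR.1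
    show IsOpenMap f.base
    intro O hO
    rw [isOpen_iff_forall_mem_open]
    rintro _ ⟨x, hxO, rfl⟩
    obtain ⟨U, g, hg, u, hu⟩ := hjs x
    have hu' : g.base u = x := hu
    have hopen : IsOpenMap (f.base ∘ g.base) := h hg
    refine ⟨(f.base ∘ g.base) '' (g.base ⁻¹' O), ?_, hopen _ (hO.preimage g.base.hom.continuous), ?_⟩
    · rintro _ ⟨v, hv, rfl⟩
      exact ⟨g.base v, hv, rfl⟩
    · refine ⟨u, by rw [Set.mem_preimage, hu']; exact hxO, ?_⟩
      rw [Function.comp_apply, hu']

end Groth.Agent.S9845
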