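import Groth.Statements.S9846
import Mathlib.AlgebraicGeometry.Sites.Fpqc
import Mathlib.AlgebraicGeometry.Morphisms.UniversallyOpen
import Mathlib.AlgebraicGeometry.PullbackCarrier

set_option autoImplicit false
open CategoryTheory CategoryTheory.Limits AlgebraicGeometry Opposite
universe u
open Desc

namespace Groth.Agent.S9846

/-- Being universally open is fppf local on the source: for every fppf covering family g i : X i ⟶ X, a
morphism f : X ⟶ Y is universally open if and only if every composite g i ≫ f is. -/
theorem result :
    MorphismProperty.IsLocalAtSource (@UniversallyOpen : MorphismProperty Scheme.{u}) Scheme.fppfPrecoverage := by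
  refine { (inferInstance : MorphismProperty.RespectsIso
      (@UniversallyOpen : MorphismProperty Scheme.{u})) with comp := ?_, of_forall_comp := ?_ }
  · intro X Y f R hR U g hg hf
    have hg' : (@Flat ⊓ @LocallyOfFinitePresentation) g := hR.2 hg
    haveI : Flat g := hg'.1
    haveI : LocallyOfFinitePresentation g := hg'.2
    haveI : UniversallyOpen f := hf
    show UniversallyOpen (g ≫ f)
    infer_instance
  · intro X Y f R hR h
    have hjs := (Presieve.mem_comap_jointlySurjectivePrecoverage_iff Scheme.forget).1 hR.1
    constructor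
    intro X' Y' i₁ i₂ f' hpb
    show IsOpenMap f'.base
    intro O hO
    rw [isOpen_iff_forall_mem_open]
    rintro _ ⟨x, hxO, rfl⟩
    obtain ⟨U, g, hg, u, hu⟩ := hjs (i₁.base x)
    have hu' : g.base u = i₁.base x := hu
    -- the pullback of g along i₁
    have hx : x ∈ Set.range (pullback.fst i₁ g).base := by
      rw [Scheme.Pullback.range_fst]
      exact ⟨u, hu'⟩
    obtain ⟨w, hw⟩ := hx
    have hsq : IsPullback (pullback.fst i₁ g ≫ f') (pullback.snd i₁ g) i₂ (g ≫ f) :=
      ((IsPullback.of_hasPullback i₁ g).flip.paste_vert hpb.flip).flip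
    have hUO : UniversallyOpen (g ≫ f) := h hg
    have hopen : IsOpenMap (pullback.fst i₁ g ≫ f').base :=
      hUO.universally_isOpenMap _ _ _ hsq
    refine ⟨(pullback.fst i₁ g ≫ f').base '' ((pullback.fst i₁ g).base ⁻¹' O), ?_,
      hopen _ (hO.preimage (pullback.fst i₁ g).base.hom.continuous), ?_⟩
    · rintro _ ⟨v, hv, rfl⟩
      exact ⟨(pullback.fst i₁ g).base v, hv, rfl⟩
    · refine ⟨w, by rw [Set.mem_preimage, hw]; exact hxO, ?_⟩
      show f'.base ((pullback.fst i₁ g).base w) = f'.base x
      rw [hw]

end Groth.Agent.S9846
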